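import Mathlib
import Cfsg.Prelude

set_option autoImplicit false

namespace Cfsg.Agent.H1

theorem mul_self_of_orderOf_two {G : Type*} [Group G] {a : G} (h : orderOf a = 2) : a * a = 1 := by
  rw [← sq, ← h, pow_orderOf_eq_one]

theorem commute_of_sq_inv {G : Type*} [Group G] {x y : G} (hx : x * x = 1) (hy : y * y = 1)
    (h : (x * y) ^ 2 = 1) : Commute x y := by
  have h1 : x⁻¹ = x := inv_eq_of_mul_eq_one_left hx
  have h2 : y⁻¹ = y := inv_eq_of_mul_eq_one_left hy
  have h3 : (x * y) * (x * y) = 1 := by rw [← sq, h]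
  have h4 : (x * y)⁻¹ = x * y := inv_eq_of_mul_eq_one_left h3
  rw [mul_inv_rev, h1, h2] at h4
  exact h4.symm

theorem braid_of_cube_inv {G : Type*} [Group G] {x y : G} (hx : x * x = 1) (hy : y * y = 1)
    (h : (x * y) ^ 3 = 1) : x * y * x = y * x * y := by
  have h1 : x⁻¹ = x := inv_eq_of_mul_eq_one_left hx
  have h2 : y⁻¹ = y := inv_eq_of_mul_eq_one_left hy
  have h3 : (x * y * x) * (y * x * y) = 1 := by
    rw [← h]; simp only [pow_succ, pow_zero, one_mul, mul_assoc]
  have h4 : (y * x * y)⁻¹ = x * y * x := inv_eq_of_mul_eq_one_left h3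
  rw [mul_inv_rev, mul_inv_rev, h1, h2, ← mul_assoc] at h4
  exact h4.symm

theorem threeT_dichotomy {G : Type*} [Group G] {E : Set G} (hE : Cfsg.IsThreeTranspositionSet E)
    {x y : G} (hx : x ∈ E) (hy : y ∈ E) : Commute x y ∨ x * y * x = y * x * y := by
  have hx2 := mul_self_of_orderOf_two (hE.1 x hx)
  have hy2 := mul_self_of_orderOf_two (hE.1 y hy)
  rcases hE.2 x hx y hy with h | h
  · exact Or.inl (commute_of_sq_inv hx2 hy2 h)
  · exact Or.inr (braid_of_cube_inv hx2 hy2 h)

theorem threeT_two {G : Type*} [Group G] {a b e : G} (ha : a * a = 1) (hb : b * b = 1)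
    (he : e * e = 1) (hab : a ≠ b) (hcomm : Commute a b)
    (da : Commute e a ∨ e * a * e = a * e * a) (db : Commute e b ∨ e * b * e = b * e * b)
    (h : Commute e (a * b)) : Commute e a ∧ Commute e b := by
  have hai : a⁻¹ = a := inv_eq_of_mul_eq_one_left ha
  have hbi : b⁻¹ = b := inv_eq_of_mul_eq_one_left hb
  have key1 : Commute e a → Commute e b := by
    intro h1
    have : b = a⁻¹ * (a * b) := by group
    rw [this]
    exact h1.inv_right.mul_right h
  have key2 : Commute e b → Commute e a := by
    intro h1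
    have : a = (a * b) * b⁻¹ := by group
    rw [this]
    exact h.mul_right h1.inv_right
  rcases da with da | da
  · exact ⟨da, key1 da⟩
  · rcases db with db | db
    · exact ⟨key2 db, db⟩
    · exfalso
      apply hab
      -- b e b = a e a
      have h1 : b * e * b = a * e * a := by
        have h2 : e * (a * b) = (a * b) * e := h.eq
        calc b * e * b = a⁻¹ * ((a * b) * e) * b := by group
          _ = a⁻¹ * (e * (a * b)) * b := by rw [h2]
          _ = a * e * a * (b * b) := by rw [hai]; group
          _ = a * e * a := by rw [hb, mul_one]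
      have h3 : e * a * e = e * b * e := by rw [da, db, h1]
      have h4 : e * a = e * b := mul_right_cancel h3
      exact mul_left_cancel h4

end Cfsg.Agent.H1
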