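import Cfsg.Agent.Lib_helper2_FS2

set_option autoImplicit false
set_option linter.style.haveILetI false
open Cfsg

namespace Cfsg.Agent.H2

open Cfsg.Agent.H4
open scoped ComplexConjugate
universe u

variable {G : Type u} [Group G]

theorem classInner_conj_conj [Fintype G] (f h : G → ℂ) :
    classInner (fun g => conj (f g)) (fun g => conj (h g)) = conj (classInner f h) := by
  simp only [classInner, map_mul, map_inv₀, map_natCast, map_sum]

/-- complex conjugate of an irreducible character -/
noncomputable def cjIrr [Finite G] (β : IrrCharacter G) : IrrCharacter G :=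
  ⟨fun g => conj ((β : G → ℂ) g), IsIrrCharacter.conj β.2⟩

theorem cjIrr_cjIrr [Finite G] (β : IrrCharacter G) : cjIrr (cjIrr β) = β := by
  apply Subtype.ext
  funext g
  exact Complex.conj_conj _

/-- parity lemma: for a normal subgroup of odd index, the inner product of the restrictions of two
real irreducible characters is odd exactly when they coincide. -/
theorem parity_restrict [Fintype G] (N : Subgroup G) [hN : N.Normal] [Fintype N] (hodd : Odd N.index)
    (χ1 χ2 : IrrCharacter G) (h1 : ∀ g, conj ((χ1 : G → ℂ) g) = (χ1 : G → ℂ) g)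
    (h2 : ∀ g, conj ((χ2 : G → ℂ) g) = (χ2 : G → ℂ) g) :
    ∃ a : ℕ, classInner (fun n : N => (χ1 : G → ℂ) n) (fun n : N => (χ2 : G → ℂ) n) = a ∧
      (Odd a ↔ χ1 = χ2) := by
  classical
  haveI := Fintype.ofFinite (IrrCharacter G)
  haveI := Fintype.ofFinite (IrrCharacter N)
  set Ψ : G → ℂ := (χ1 : G → ℂ) * (χ2 : G → ℂ) with hΨ
  have hΨc : IsCharacter G Ψ :=
    IsCharacter.mul (IsIrrCharacter.isCharacter χ1.2) (IsIrrCharacter.isCharacter χ2.2)
  have hΨreal : ∀ g, conj (Ψ g) = Ψ g := by
    intro g
    simp only [hΨ, Pi.mul_apply, map_mul, h1, h2]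
  set π := indFun N (fun _ : N => (1 : ℂ)) with hπ
  choose m hm using fun β : IrrCharacter G => IsCharacter.classInner_irr_nat hΨc β
  choose r hr using fun β : IrrCharacter G => IsCharacter.classInner_irr_nat
    (IsCharacter.restrict N (IsIrrCharacter.isCharacter β.2)) (trivIrr N)
  have hπβ : ∀ β : IrrCharacter G, conj (classInner π (β : G → ℂ)) = r β := by
    intro β
    rw [hπ, frobenius_reciprocity _ _ _ (IrrCharacter.isClassFunction β), classInner_conj_symm]
    exact hr β
  have hA : classInner Ψ π = classInner (fun n : N => (χ1 : G → ℂ) n) (fun n : N => (χ2 : G → ℂ) n) := by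
    rw [← classInner_conj_symm, hπ, frobenius_reciprocity _ _ _ (IsCharacter.isClassFunction hΨc),
      classInner_conj_symm]
    simp only [classInner, hΨ, Pi.mul_apply, map_one, mul_one, h2]
  have hB : classInner Ψ π = ∑ β : IrrCharacter G, (r β : ℂ) * (m β : ℂ) := by
    conv_lhs => rw [classFunction_expansion' π (indFun_isClassFunction _ _)]
    rw [classInner_sum_right]
    apply Finset.sum_congr rfl
    intro β _
    rw [classInner_smul_right, hπβ, hm]
  refine ⟨∑ β : IrrCharacter G, r β * m β, ?_, ?_⟩
  · rw [← hA, hB]; push_cast; rfl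
  -- symmetry under conjugation
  have hrc : ∀ β, r (cjIrr β) = r β := by
    intro β
    have h3 : ((r (cjIrr β) : ℕ) : ℂ) = r β := by
      rw [← hr, ← hr]
      have h4 := classInner_conj_conj (fun n : N => (β : G → ℂ) n) ((trivIrr N : IrrCharacter N) : N → ℂ)
      have h5 : (fun g : N => conj (((trivIrr N : IrrCharacter N) : N → ℂ) g))
          = ((trivIrr N : IrrCharacter N) : N → ℂ) := by
        funext g
        show conj (1 : ℂ) = 1
        simp
      rw [h5, hr β, Complex.conj_natCast, ← hr β] at h4
      exact h4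
    exact_mod_cast h3
  have hmc : ∀ β, m (cjIrr β) = m β := by
    intro β
    have h3 : ((m (cjIrr β) : ℕ) : ℂ) = m β := by
      rw [← hm, ← hm]
      have h4 := classInner_conj_conj Ψ (β : G → ℂ)
      simp only [hΨreal] at h4
      rw [hm β, Complex.conj_natCast, ← hm β] at h4
      exact h4
    exact_mod_cast h3
  have hrt : r (trivIrr G) = 1 := by
    have h3 : ((r (trivIrr G) : ℕ) : ℂ) = 1 := by
      rw [← hr]; exact norm_triv N
    exact_mod_cast h3
  have hmt : m (trivIrr G) = if χ1 = χ2 then 1 else 0 := by
    have h3 : ((m (trivIrr G) : ℕ) : ℂ) = if χ1 = χ2 then 1 else 0 := by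
      rw [← hm, ← irr_orthonormal χ1 χ2]
      simp only [classInner, hΨ, Pi.mul_apply, h2]
      congr 1
      apply Finset.sum_congr rfl
      intro g _
      show _ * conj (1 : ℂ) = _
      simp
    split_ifs at h3 ⊢ with h
    · exact_mod_cast h3
    · exact_mod_cast h3
  have hz : ∑ β ∈ Finset.univ.erase (trivIrr G), ((r β * m β : ℕ) : ZMod 2) = 0 := by
    apply Finset.sum_involution (fun β _ => cjIrr β)
    · intro β _
      rw [hrc, hmc]
      exact CharTwo.add_self_eq_zero _
    · intro β hβ hne hfix
      have hβne : β ≠ trivIrr G := Finset.ne_of_mem_erase hβ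
      apply hβne
      have hr0 : r β ≠ 0 := by
        intro h0
        apply hne
        rw [h0, zero_mul]; simp
      have hker : ∀ n ∈ N, (β : G → ℂ) n = (β : G → ℂ) 1 := by
        rw [ker_iff_classInner_one N β.2]
        have := hr β
        intro h0
        apply hr0
        have h4 : ((r β : ℕ) : ℂ) = 0 := by rw [← this]; exact h0
        exact_mod_cast h4
      obtain ⟨β', hβ', hval⟩ := IsIrrCharacter.deflate N β.2 hker
      have h3 := odd_real_irr_trivial (G := G ⧸ N) (by rw [← Subgroup.index_eq_card]; exact hodd)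
        ⟨β', hβ'⟩ (by
          intro q
          obtain ⟨g, rfl⟩ := QuotientGroup.mk_surjective q
          show (β' (g : G ⧸ N)).im = 0
          rw [hval]
          have := congrArg (fun z : IrrCharacter G => (z : G → ℂ) g) hfix
          exact Complex.conj_eq_iff_im.1 this)
      apply Subtype.ext
      funext g
      rw [← hval g]
      exact congrFun h3 _
    · intro β _
      exact cjIrr_cjIrr β
    · intro β hβ
      rw [Finset.mem_erase] at hβ ⊢
      refine ⟨?_, Finset.mem_univ _⟩
      intro h
      apply hβ.1
      rw [← cjIrr_cjIrr β, h]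
      apply Subtype.ext
      funext g
      show conj (1 : ℂ) = 1
      simp
  have hcast : ((∑ β : IrrCharacter G, r β * m β : ℕ) : ZMod 2) = if χ1 = χ2 then 1 else 0 := by
    rw [← Finset.add_sum_erase _ _ (Finset.mem_univ (trivIrr G))]
    push_cast
    push_cast at hz
    rw [hz, add_zero, hrt, hmt]
    split_ifs <;> simp
  rw [← ZMod.natCast_eq_one_iff_odd, hcast]
  split_ifs with h
  · simp [h]
  · simp [h]

end Cfsg.Agent.H2
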