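import Cfsg.Agent.Lib_helper2_FS2
import Cfsg.Agent.Lib_helper2_Idem

set_option autoImplicit false
set_option linter.style.haveILetI false
open Cfsg

namespace Cfsg.Agent.H2

open Cfsg.Agent.H4
open scoped ComplexConjugate
universe u

theorem sum_twist_zero {I : Type u} [Group I] [Fintype I] (N : Subgroup I) [Fintype N] (σ : N ≃* N)
    (ψ : IrrCharacter I) (θ θ' : IrrCharacter N) (hres : ∀ n : N, (ψ : I → ℂ) n = (θ : N → ℂ) n)
    (hθ' : ∀ n : N, (θ' : N → ℂ) (σ n) = (θ : N → ℂ) n)
    (hreal : ∀ n : N, conj ((θ : N → ℂ) n) = (θ : N → ℂ) n) (hne : θ' ≠ θ) (a : I) :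
    ∑ n : N, (ψ : I → ℂ) (a * σ n * n) = 0 := by
  classical
  have hN0 : (Nat.card N : ℂ) ≠ 0 := card_ne_zero_C
  have hA : ∀ y : I, (Nat.card N : ℂ) * (ψ : I → ℂ) y
      = (θ : N → ℂ) 1 * ∑ m : N, conj ((θ : N → ℂ) m) * (ψ : I → ℂ) (y * m) := fun y =>
    (idem_self N θ ψ 1 (by intro z; rw [hres z, one_mul]) y).symm
  have hB : ∀ y : I, ∑ j : N, conj ((θ' : N → ℂ) j) * (ψ : I → ℂ) (y * j) = 0 := by
    apply idem_zero N θ' ψ
    have : (fun z : N => (ψ : I → ℂ) z) = (θ : N → ℂ) := funext hres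
    rw [this, irr_orthonormal θ θ', if_neg (Ne.symm hne)]
  have hreal' : ∀ n : N, conj ((θ' : N → ℂ) n) = (θ' : N → ℂ) n := by
    intro n
    obtain ⟨k, rfl⟩ := σ.surjective n
    rw [hθ', hreal]
  apply (mul_eq_zero.1 (?_ : (Nat.card N : ℂ) * ∑ n : N, (ψ : I → ℂ) (a * σ n * n) = 0)).resolve_left hN0
  rw [Finset.mul_sum]
  simp only [hA]
  rw [← Finset.mul_sum]
  have h1 : ∀ n : N, ∑ m : N, conj ((θ : N → ℂ) m) * (ψ : I → ℂ) (a * σ n * n * m)
      = ∑ m : N, conj ((θ : N → ℂ) (n⁻¹ * m)) * (ψ : I → ℂ) (a * σ n * m) := by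
    intro n
    rw [← Equiv.sum_comp (Equiv.mulLeft n⁻¹)]
    apply Finset.sum_congr rfl
    intro m _
    simp only [Equiv.coe_mulLeft, Subgroup.coe_mul, Subgroup.coe_inv]
    congr 2
    group
  simp only [h1]
  rw [Finset.sum_comm]
  rw [Finset.sum_eq_zero, mul_zero]
  intro m _
  have h2 : ∀ n : N, conj ((θ : N → ℂ) (n⁻¹ * m)) * (ψ : I → ℂ) (a * σ n * m)
      = (fun k : N => conj ((θ' : N → ℂ) (k⁻¹ * σ m)) * (ψ : I → ℂ) (m * a * k)) (σ n) := by
    intro n
    simp only
    rw [← hθ' (n⁻¹ * m), map_mul, map_inv, cf_comm (IrrCharacter.isClassFunction ψ) (a * σ n) m,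
      mul_assoc]
  have h3 : ∑ n : N, conj ((θ : N → ℂ) (n⁻¹ * m)) * (ψ : I → ℂ) (a * σ n * m)
      = ∑ k : N, conj ((θ' : N → ℂ) (k⁻¹ * σ m)) * (ψ : I → ℂ) (m * a * k) := by
    rw [← Equiv.sum_comp σ.toEquiv (fun k : N => conj ((θ' : N → ℂ) (k⁻¹ * σ m)) * (ψ : I → ℂ) (m * a * k))]
    apply Finset.sum_congr rfl
    intro n _
    exact h2 n
  rw [h3, ← Equiv.sum_comp (Equiv.mulLeft (σ m)), ← hB (m * a * σ m)]
  apply Finset.sum_congr rfl
  intro j _
  simp only [Equiv.coe_mulLeft, Subgroup.coe_mul]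
  congr 1
  · have : (σ m * j)⁻¹ * σ m = j⁻¹ := by group
    rw [this, IsCharacter.inv_eq_conj (IsIrrCharacter.isCharacter θ'.2), hreal', hreal']
  · rw [← mul_assoc]

/-- the indicator of a character induced from the stabiliser of a real character it extends. -/
theorem nu_ind_of_stab {G : Type u} [Group G] [Fintype G] (N I : Subgroup G) [Fintype I] (hN : N.Normal)
    (hNI : N ≤ I) (φ : IrrCharacter N)
    (hT : ∀ g : G, g ∈ I ↔ ∀ h : N, (φ : N → ℂ) ⟨g * h * g⁻¹, hN.conj_mem h h.2 g⟩ = (φ : N → ℂ) h)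
    (ψ : IrrCharacter I) (hres : ∀ n : N, (ψ : I → ℂ) (Subgroup.inclusion hNI n) = (φ : N → ℂ) n)
    (hreal : ∀ n : N, conj ((φ : N → ℂ) n) = (φ : N → ℂ) n) :
    nu (indFun I (ψ : I → ℂ)) = nu (ψ : I → ℂ) := by
  classical
  haveI := Fintype.ofFinite N
  haveI := Fintype.ofFinite (N.subgroupOf I)
  have hN0 : (Nat.card N : ℂ) ≠ 0 := card_ne_zero_C
  rw [nu_ind, nu_def]
  congr 1
  set E := extendByZero I (ψ : I → ℂ) with hE
  have hsplit : ∑ s : G, E (s * s) = ∑ s : G, (if s ∈ I then E (s * s) else 0)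
      + ∑ s : G, (if s ∈ I then 0 else E (s * s)) := by
    rw [← Finset.sum_add_distrib]
    apply Finset.sum_congr rfl
    intro s _
    split_ifs <;> simp
  have hfirst : ∑ s : G, (if s ∈ I then E (s * s) else 0) = ∑ s : I, (ψ : I → ℂ) (s * s) := by
    rw [← sum_extendByZero I (fun s : I => (ψ : I → ℂ) (s * s))]
    apply Finset.sum_congr rfl
    intro s _
    by_cases hs : s ∈ I
    · rw [if_pos hs, extendByZero_mem I _ hs]
      exact extendByZero_coe I (ψ : I → ℂ) (⟨s, hs⟩ * ⟨s, hs⟩)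
    · rw [if_neg hs, extendByZero_not_mem I _ hs]
  -- the key vanishing
  have hkey : ∀ s : G, s ∉ I → ∑ n : N, E (s * n * (s * n)) = 0 := by
    intro s hs
    have hform : ∀ n : N, s * n * (s * n) = (s * s) * (s⁻¹ * n * s) * n := by
      intro n; group
    have hmemN : ∀ n : N, s⁻¹ * n * s ∈ N := by
      intro n
      have := hN.conj_mem n n.2 s⁻¹
      simpa using this
    by_cases hss : s * s ∈ I
    · set e := Subgroup.subgroupOfEquivOfLe hNI with he
      let θ : IrrCharacter (N.subgroupOf I) := ⟨fun x => (φ : N → ℂ) (e x),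
        IsIrrCharacter.comp_surj e.toMonoidHom e.surjective φ.2⟩
      let σ : N.subgroupOf I ≃* N.subgroupOf I := e.trans ((MulAut.conjNormal s⁻¹ : N ≃* N).trans e.symm)
      let θ' : IrrCharacter (N.subgroupOf I) := ⟨fun x => (θ : N.subgroupOf I → ℂ) (σ.symm x),
        IsIrrCharacter.comp_surj σ.symm.toMonoidHom σ.symm.surjective θ.2⟩
      have hz := sum_twist_zero (N.subgroupOf I) σ ψ θ θ' (by
          intro n
          have := hres (e n)
          rw [← this]
          apply congrArg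
          apply Subtype.ext
          rfl) (by
          intro n
          show (θ : N.subgroupOf I → ℂ) (σ.symm (σ n)) = _
          rw [MulEquiv.symm_apply_apply]) (by
          intro n
          exact hreal (e n)) (by
          intro heq
          apply hs
          rw [hT]
          intro h
          have h1 := congrFun (congrArg Subtype.val heq) (e.symm h)
          have h2 : (θ' : N.subgroupOf I → ℂ) (e.symm h) = (φ : N → ℂ) ((MulAut.conjNormal s⁻¹ : N ≃* N).symm h) := by
            show (φ : N → ℂ) (e (σ.symm (e.symm h))) = _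
            apply congrArg
            simp [σ]
          have h3 : (θ : N.subgroupOf I → ℂ) (e.symm h) = (φ : N → ℂ) h := by
            show (φ : N → ℂ) (e (e.symm h)) = _
            rw [MulEquiv.apply_symm_apply]
          rw [← h3, ← h1, h2]
          apply congrArg
          apply Subtype.ext
          rw [MulAut.conjNormal_symm_apply]
          simp) ⟨s * s, hss⟩
      rw [← hz, ← Equiv.sum_comp e.toEquiv]
      apply Finset.sum_congr rfl
      intro x _
      rw [← extendByZero_coe I (ψ : I → ℂ), ← hE]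
      apply congrArg
      rw [hform]
      simp [σ, e]
    · apply Finset.sum_eq_zero
      intro n _
      apply extendByZero_not_mem
      intro hmem
      apply hss
      rw [hform n] at hmem
      have h1 : (s⁻¹ * n * s) * n ∈ I := I.mul_mem (hNI (hmemN n)) (hNI n.2)
      have h2 : s * s = (s * s) * (s⁻¹ * n * s) * n * ((s⁻¹ * n * s) * n)⁻¹ := by group
      rw [h2]
      exact I.mul_mem hmem (I.inv_mem h1)
  have hsecond : ∑ s : G, (if s ∈ I then 0 else E (s * s)) = 0 := by
    have h1 : ∀ n : N, ∑ s : G, (if s ∈ I then 0 else E (s * s))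
        = ∑ s : G, (if s ∈ I then 0 else E (s * n * (s * n))) := by
      intro n
      rw [← Equiv.sum_comp (Equiv.mulRight (n : G))]
      apply Finset.sum_congr rfl
      intro s _
      simp only [Equiv.coe_mulRight]
      have : s * n ∈ I ↔ s ∈ I := Subgroup.mul_mem_cancel_right I (hNI n.2)
      simp only [this]
    have h2 : (Nat.card N : ℂ) * ∑ s : G, (if s ∈ I then 0 else E (s * s)) = 0 := by
      have : (Nat.card N : ℂ) * ∑ s : G, (if s ∈ I then 0 else E (s * s))
          = ∑ n : N, ∑ s : G, (if s ∈ I then 0 else E (s * s)) := by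
        simp [Nat.card_eq_fintype_card]
      rw [this, Finset.sum_congr rfl (fun n _ => h1 n), Finset.sum_comm]
      apply Finset.sum_eq_zero
      intro s _
      by_cases hs : s ∈ I
      · simp [hs]
      · simp only [if_neg hs]
        exact hkey s hs
    exact (mul_eq_zero.1 h2).resolve_left hN0
  rw [hsplit, hfirst, hsecond, add_zero]

end Cfsg.Agent.H2
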