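import Cfsg.Agent.Lib_helper4_BlkA
import Cfsg.Agent.Lib_helper3_FrobB
import Cfsg.Agent.Lib_helper2_Class
import Cfsg.Prelude.Def_Transfer

set_option autoImplicit false
set_option linter.style.haveILetI false
open Cfsg

namespace Cfsg.Agent.H2

open Cfsg.Agent.H4
open scoped ComplexConjugate
universe u

variable {G : Type u} [Group G]

/-- `χ` is nonzero exactly on `1` and on the class of `x ≠ 1`. -/
structure Gag (χ : IrrCharacter G) (x : G) : Prop where
  ne_one : x ≠ 1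
  ne_zero : (χ : G → ℂ) x ≠ 0
  supp : ∀ g : G, (χ : G → ℂ) g ≠ 0 → g = 1 ∨ IsConj x g

theorem exists_gag (χ : IrrCharacter G)
    (hχ : Nat.card {C : ConjClasses G // ∃ g ∈ C.carrier, (χ : G → ℂ) g ≠ 0} = 2) :
    ∃ x : G, Gag χ x := by
  have h1 : (χ : G → ℂ) 1 ≠ 0 := IsIrrCharacter.apply_one_ne_zero χ.2
  set x0 : {C : ConjClasses G // ∃ g ∈ C.carrier, (χ : G → ℂ) g ≠ 0} :=
    ⟨ConjClasses.mk 1, 1, ConjClasses.mem_carrier_mk, h1⟩ with hx0
  obtain ⟨⟨C, x, hxC, hx⟩, hy, huniq⟩ := (Nat.card_eq_two_iff' x0).1 hχ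
  rw [ConjClasses.mem_carrier_iff_mk_eq] at hxC
  subst hxC
  refine ⟨x, ?_, hx, ?_⟩
  · rintro rfl
    exact hy rfl
  · intro g hg
    by_cases hg1 : g = 1
    · exact Or.inl hg1
    · right
      have h2 := huniq ⟨ConjClasses.mk g, g, ConjClasses.mem_carrier_mk, hg⟩ (by
        intro h
        have h3 := congrArg Subtype.val h
        simp only [hx0] at h3
        rw [ConjClasses.mk_eq_mk_iff_isConj, isConj_one_left] at h3
        exact hg1 h3)
      have h3 := congrArg Subtype.val h2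
      simp only at h3
      rw [ConjClasses.mk_eq_mk_iff_isConj] at h3
      exact h3.symm

namespace Gag

variable {χ : IrrCharacter G} {x : G}

theorem sum_supp [Fintype G] (h : Gag χ x) (F : G → ℂ) (hF : ∀ g, IsConj x g → F g = F x)
    (h0 : ∀ g, (χ : G → ℂ) g = 0 → F g = 0) :
    ∑ g, F g = F 1 + ((Subgroup.centralizer ({x} : Set G)).index : ℂ) * F x := by
  classical
  have h1 : ∀ g, F g = (if g = 1 then F 1 else 0) + (if IsConj x g then F x else 0) := by
    intro g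
    by_cases hg : g = 1
    · subst hg
      rw [if_pos rfl, if_neg, add_zero]
      rw [isConj_one_left]
      exact h.ne_one
    · rw [if_neg hg, zero_add]
      by_cases hc : IsConj x g
      · rw [if_pos hc, hF g hc]
      · rw [if_neg hc]
        apply h0
        by_contra hne
        rcases h.supp g hne with h2 | h2
        · exact hg h2
        · exact hc h2
  rw [Finset.sum_congr rfl (fun g _ => h1 g), Finset.sum_add_distrib, Finset.sum_ite_eq' ,
    if_pos (Finset.mem_univ _), ← Finset.sum_filter, Finset.sum_const, nsmul_eq_mul,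
    ← card_isConj_eq_index, Nat.card_eq_fintype_card, Fintype.card_subtype]

theorem ne_triv [Finite G] (h : Gag χ x) (hG : 2 < Nat.card G) : χ ≠ trivIrr G := by
  classical
  haveI := Fintype.ofFinite G
  intro hχ
  have h1 := h.sum_supp (fun _ => 1) (fun _ _ => rfl) (by
    intro g hg
    rw [hχ] at hg
    exact absurd hg one_ne_zero)
  simp only [Finset.sum_const, Finset.card_univ, nsmul_eq_mul, mul_one] at h1
  have h2 : Nat.card G = 1 + (Subgroup.centralizer ({x} : Set G)).index := by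
    rw [Nat.card_eq_fintype_card]; exact_mod_cast h1
  have h3 : (Subgroup.centralizer ({x} : Set G)).index ∣ Nat.card G := Subgroup.index_dvd_card _
  rw [h2] at h3
  have h4 : (Subgroup.centralizer ({x} : Set G)).index ∣ 1 := (Nat.dvd_add_left (dvd_refl _)).1 h3
  have h5 := Nat.dvd_one.1 h4
  omega

theorem val [Finite G] (h : Gag χ x) (hG : 2 < Nat.card G) :
    ((Subgroup.centralizer ({x} : Set G)).index : ℂ) * (χ : G → ℂ) x = - (χ : G → ℂ) 1 := by
  classical
  haveI := Fintype.ofFinite G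
  have h1 := irr_orthonormal χ (trivIrr G)
  rw [if_neg (h.ne_triv hG)] at h1
  unfold classInner at h1
  have h2 : ∑ g : G, (χ : G → ℂ) g * conj ((trivIrr G : G → ℂ) g) = 0 :=
    (mul_eq_zero.1 h1).resolve_left (inv_ne_zero card_ne_zero_C)
  have h3 : ∀ g : G, (χ : G → ℂ) g * conj ((trivIrr G : G → ℂ) g) = (χ : G → ℂ) g := by
    intro g
    show (χ : G → ℂ) g * conj (1 : ℂ) = _
    simp
  rw [Finset.sum_congr rfl (fun g _ => h3 g), h.sum_supp (χ : G → ℂ)
    (fun g hg => ((isClassFunction_iff _).mp (IrrCharacter.isClassFunction χ) x g hg).symm)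
    (fun g hg => hg)] at h2
  linear_combination h2

theorem other [Finite G] (h : Gag χ x) (hG : 2 < Nat.card G) (ψ : IrrCharacter G) (hψ : ψ ≠ χ) :
    (ψ : G → ℂ) x = (ψ : G → ℂ) 1 := by
  classical
  haveI := Fintype.ofFinite G
  have h1 := irr_orthonormal χ ψ
  rw [if_neg hψ.symm] at h1
  unfold classInner at h1
  have h2 : ∑ g : G, (χ : G → ℂ) g * conj ((ψ : G → ℂ) g) = 0 :=
    (mul_eq_zero.1 h1).resolve_left (inv_ne_zero card_ne_zero_C)
  rw [h.sum_supp (fun g => (χ : G → ℂ) g * conj ((ψ : G → ℂ) g))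
    (fun g hg => by
      rw [((isClassFunction_iff _).mp (IrrCharacter.isClassFunction χ) x g hg),
        ((isClassFunction_iff _).mp (IrrCharacter.isClassFunction ψ) x g hg)])
    (fun g hg => by rw [hg, zero_mul])] at h2
  have h3 := h.val hG
  have h4 : (χ : G → ℂ) 1 * (conj ((ψ : G → ℂ) 1) - conj ((ψ : G → ℂ) x)) = 0 := by
    linear_combination h2 - conj ((ψ : G → ℂ) x) * h3
  have h5 := (mul_eq_zero.1 h4).resolve_left (IsIrrCharacter.apply_one_ne_zero χ.2)
  have h6 : conj ((ψ : G → ℂ) 1) = conj ((ψ : G → ℂ) x) := sub_eq_zero.1 h5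
  exact ((starRingEnd ℂ).injective h6).symm

theorem card_eq [Finite G] (h : Gag χ x) (hG : 2 < Nat.card G) (d : ℕ) (hd : (χ : G → ℂ) 1 = d) :
    (Subgroup.centralizer ({x} : Set G)).index * Nat.card G =
      d ^ 2 * ((Subgroup.centralizer ({x} : Set G)).index + 1) := by
  classical
  haveI := Fintype.ofFinite G
  have h1 := irr_orthonormal χ χ
  rw [if_pos rfl] at h1
  unfold classInner at h1
  have h2 : ∑ g : G, (χ : G → ℂ) g * conj ((χ : G → ℂ) g) = Nat.card G := by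
    have h0 : (Nat.card G : ℂ) ≠ 0 := card_ne_zero_C
    field_simp at h1
    exact h1
  rw [h.sum_supp (fun g => (χ : G → ℂ) g * conj ((χ : G → ℂ) g))
    (fun g hg => by
      rw [((isClassFunction_iff _).mp (IrrCharacter.isClassFunction χ) x g hg)])
    (fun g hg => by rw [hg, zero_mul])] at h2
  have h3 := h.val hG
  rw [hd] at h3 h2
  have h4 := congrArg (starRingEnd ℂ) h3
  simp only [map_mul, map_natCast, map_neg] at h4 h2
  set k := (Subgroup.centralizer ({x} : Set G)).index with hk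
  have h5 : (k : ℂ) * (Nat.card G : ℂ) = (d : ℂ) ^ 2 * ((k : ℂ) + 1) := by
    rw [← h2]
    linear_combination (conj ((χ : G → ℂ) x) * (k : ℂ)) * h3 - (d : ℂ) * h4
  exact_mod_cast h5

theorem exists_N [Finite G] (h : Gag χ x) (hG : 2 < Nat.card G) :
    ∃ N : Subgroup G, N.Normal ∧ (∀ g, g ∈ N ↔ (χ : G → ℂ) g ≠ 0) ∧
      ∀ g ∈ N, ∀ ψ : IrrCharacter G, ψ ≠ χ → (ψ : G → ℂ) g = (ψ : G → ℂ) 1 := by
  classical
  haveI := Fintype.ofFinite G
  haveI := Fintype.ofFinite (IrrCharacter G)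
  choose K hKn hK using fun ψ : IrrCharacter G => H3.exists_char_ker (IsIrrCharacter.isCharacter ψ.2)
  set N : Subgroup G := ⨅ ψ : {ψ : IrrCharacter G // ψ ≠ χ}, K ψ.1 with hN
  have hmem : ∀ g, g ∈ N ↔ ∀ ψ : IrrCharacter G, ψ ≠ χ → (ψ : G → ℂ) g = (ψ : G → ℂ) 1 := by
    intro g
    rw [hN, Subgroup.mem_iInf]
    constructor
    · intro h1 ψ hψ
      exact (hK ψ g).1 (h1 ⟨ψ, hψ⟩)
    · intro h1 ψ
      exact (hK ψ.1 g).2 (h1 ψ.1 ψ.2)
  refine ⟨N, Subgroup.normal_iInf_normal (fun ψ => hKn ψ.1), ?_, fun g hg => (hmem g).1 hg⟩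
  intro g
  rw [hmem]
  constructor
  · intro h1 h0
    by_cases hg1 : g = 1
    · rw [hg1] at h0
      exact IsIrrCharacter.apply_one_ne_zero χ.2 h0
    have h2 := column_orthogonality' g (1 : G)
    have h3 : Nat.card {y : G // y * 1 * y⁻¹ = g} = 0 := by
      rw [Nat.card_eq_zero]
      left
      constructor
      rintro ⟨y, hy⟩
      apply hg1
      rw [← hy]; group
    have key : ∀ ψ : IrrCharacter G, ∃ t : ℕ, (ψ : G → ℂ) g * conj ((ψ : G → ℂ) 1) = t ∧
        (ψ ≠ χ → 0 < t) := by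
      intro ψ
      obtain ⟨e, he0, -, he⟩ := IsIrrCharacter.exists_degree ψ.2
      by_cases hψ : ψ = χ
      · refine ⟨0, ?_, fun h => absurd hψ h⟩
        rw [hψ, h0]; simp
      · refine ⟨e * e, ?_, fun _ => Nat.mul_pos he0 he0⟩
        rw [h1 ψ hψ, he]; simp
    choose t ht ht' using key
    rw [h3, Finset.sum_congr rfl (fun ψ _ => ht ψ)] at h2
    have h4 : ∑ ψ : IrrCharacter G, t ψ = 0 := by exact_mod_cast h2
    rw [Finset.sum_eq_zero_iff] at h4
    have h5 := h4 (trivIrr G) (Finset.mem_univ _)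
    have h6 := ht' (trivIrr G) (h.ne_triv hG).symm
    omega
  · intro h1 ψ hψ
    rcases h.supp g h1 with h2 | h2
    · rw [h2]
    · rw [← (isClassFunction_iff _).mp (IrrCharacter.isClassFunction ψ) x g h2]
      exact h.other hG ψ hψ

theorem ker_other [Finite G] (h : Gag χ x) (hG : 2 < Nat.card G) {g : G} (hg : (χ : G → ℂ) g ≠ 0)
    (ψ : IrrCharacter G) (hψ : ψ ≠ χ) : (ψ : G → ℂ) g = (ψ : G → ℂ) 1 := by
  rcases h.supp g hg with h2 | h2
  · rw [h2]
  · rw [← (isClassFunction_iff _).mp (IrrCharacter.isClassFunction ψ) x g h2]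
    exact h.other hG ψ hψ

end Gag

theorem char_mul_of_ker [Finite G] (ψ : IrrCharacter G) {n : G} (hn : (ψ : G → ℂ) n = (ψ : G → ℂ) 1)
    (y : G) : (ψ : G → ℂ) (n * y) = (ψ : G → ℂ) y := by
  obtain ⟨K, hKn, hK⟩ := H3.exists_char_ker (IsIrrCharacter.isCharacter ψ.2)
  haveI := hKn
  obtain ⟨ψ', -, hval⟩ := IsIrrCharacter.deflate K ψ.2 (fun n hn => (hK n).1 hn)
  rw [← hval, ← hval y, QuotientGroup.mk_mul, (QuotientGroup.eq_one_iff n).2 ((hK n).2 hn), one_mul]

namespace Gag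

variable {χ : IrrCharacter G} {x : G}

/-- the Camina property -/
theorem camina [Finite G] (h : Gag χ x) (hG : 2 < Nat.card G) (N : Subgroup G)
    (hN : ∀ g, g ∈ N ↔ (χ : G → ℂ) g ≠ 0) {y n : G} (hy : y ∉ N) (hn : n ∈ N) :
    IsConj y (n * y) := by
  rw [isConj_iff_irr]
  intro ψ
  by_cases hψ : ψ = χ
  · subst hψ
    have h1 : (ψ : G → ℂ) y = 0 := by
      by_contra h1
      exact hy ((hN y).2 h1)
    have h2 : (ψ : G → ℂ) (n * y) = 0 := by
      by_contra h2
      apply hy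
      have := (hN _).2 h2
      exact (Subgroup.mul_mem_cancel_left N hn).1 this
    rw [h1, h2]
  · rw [char_mul_of_ker ψ (h.ker_other hG ((hN n).1 hn) ψ hψ)]

theorem conj_in_N (h : Gag χ x) (N : Subgroup G)
    (hN : ∀ g, g ∈ N ↔ (χ : G → ℂ) g ≠ 0) {a b : G} (ha : a ∈ N) (hb : b ∈ N) (ha1 : a ≠ 1)
    (hb1 : b ≠ 1) : ∃ g : G, g * a * g⁻¹ = b := by
  have h1 := (h.supp a ((hN a).1 ha)).resolve_left ha1
  have h2 := (h.supp b ((hN b).1 hb)).resolve_left hb1
  exact isConj_iff.1 (h1.symm.trans h2)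

theorem x_mem (h : Gag χ x) (N : Subgroup G)
    (hN : ∀ g, g ∈ N ↔ (χ : G → ℂ) g ≠ 0) : x ∈ N := (hN x).2 h.ne_zero

theorem N_le [Finite G] (h : Gag χ x) (hG : 2 < Nat.card G) (N : Subgroup G)
    (hN : ∀ g, g ∈ N ↔ (χ : G → ℂ) g ≠ 0) (K : Subgroup G) (hK : K.Normal) (hK1 : K ≠ ⊥) :
    N ≤ K := by
  obtain ⟨y, hyK, hy1⟩ : ∃ y ∈ K, y ≠ 1 := by
    obtain ⟨y, hy⟩ := Subgroup.ne_bot_iff_exists_ne_one.1 hK1
    exact ⟨(y : G), y.2, fun h => hy (Subtype.ext h)⟩
  have hx : x ∈ K := by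
    by_cases hyN : y ∈ N
    · obtain ⟨g, hg⟩ := h.conj_in_N N hN hyN (h.x_mem N hN) hy1 h.ne_one
      rw [← hg]
      exact hK.conj_mem y hyK g
    · obtain ⟨g, hg⟩ := isConj_iff.1 (h.camina hG N hN hyN (h.x_mem N hN))
      have h1 : x * y ∈ K := by
        rw [← hg]
        exact hK.conj_mem y hyK g
      exact (Subgroup.mul_mem_cancel_right K hyK).1 h1
  intro a ha
  by_cases ha1 : a = 1
  · rw [ha1]; exact one_mem _
  · obtain ⟨g, hg⟩ := h.conj_in_N N hN (h.x_mem N hN) ha h.ne_one ha1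
    rw [← hg]
    exact hK.conj_mem x hx g

theorem elemAb [Finite G] (h : Gag χ x) (N : Subgroup G) (hNn : N.Normal)
    (hN : ∀ g, g ∈ N ↔ (χ : G → ℂ) g ≠ 0) :
    ∃ p : ℕ, p.Prime ∧ IsElementaryAbelian p N := by
  have hx := h.x_mem N hN
  have hcard : Nat.card N ≠ 1 := by
    intro h1
    rw [Subgroup.card_eq_one] at h1
    rw [h1, Subgroup.mem_bot] at hx
    exact h.ne_one hx
  obtain ⟨p, hp, hpd⟩ := Nat.exists_prime_and_dvd hcard
  haveI : Fact p.Prime := ⟨hp⟩
  obtain ⟨z, hz⟩ := exists_prime_orderOf_dvd_card' p hpd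
  have hz1 : (z : G) ≠ 1 := by
    intro h1
    have : z = 1 := Subtype.ext h1
    rw [this, orderOf_one] at hz
    exact hp.one_lt.ne hz
  have hpow : ∀ a ∈ N, a ^ p = 1 := by
    intro a ha
    by_cases ha1 : a = 1
    · rw [ha1, one_pow]
    · obtain ⟨g, hg⟩ := h.conj_in_N N hN z.2 ha hz1 ha1
      rw [← hg, conj_pow]
      have : (z : G) ^ p = 1 := by
        have h2 := pow_orderOf_eq_one z
        rw [hz] at h2
        exact_mod_cast congrArg Subtype.val h2
      rw [this]; group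
  have hpg : IsPGroup p N := by
    intro a
    refine ⟨1, ?_⟩
    apply Subtype.ext
    simpa using hpow a a.2
  haveI : Nontrivial N := by
    rw [← Finite.one_lt_card_iff_nontrivial]
    have : 0 < Nat.card N := Nat.card_pos
    omega
  haveI := hpg.center_nontrivial
  obtain ⟨c, hc⟩ := exists_ne (1 : Subgroup.center N)
  have hc1 : ((c : N) : G) ≠ 1 := by
    intro h1
    apply hc
    apply Subtype.ext
    apply Subtype.ext
    exact h1
  have hcc : ∀ a ∈ N, a * ((c : N) : G) = ((c : N) : G) * a := by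
    intro a ha
    have := Subgroup.mem_center_iff.1 c.2 ⟨a, ha⟩
    exact congrArg Subtype.val this
  refine ⟨p, hp, ⟨⟨⟨?_⟩⟩, hpow⟩⟩
  intro a b
  apply Subtype.ext
  show (a : G) * b = b * a
  by_cases ha1 : (a : G) = 1
  · rw [ha1]; simp
  · obtain ⟨g, hg⟩ := h.conj_in_N N hN (c : N).2 a.2 hc1 ha1
    have h2 := hcc (g⁻¹ * b * g) (by
      have := hNn.conj_mem b b.2 g⁻¹
      simpa using this)
    rw [← hg]
    calc g * ((c : N) : G) * g⁻¹ * b = g * (((c : N) : G) * (g⁻¹ * b * g)) * g⁻¹ := by group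
      _ = g * ((g⁻¹ * b * g) * ((c : N) : G)) * g⁻¹ := by rw [h2]
      _ = b * (g * ((c : N) : G) * g⁻¹) := by group

end Gag

end Cfsg.Agent.H2
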