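import Cfsg.Agent.Lib_helper2_Gagola

set_option autoImplicit false
set_option linter.style.haveILetI false
open Cfsg

namespace Cfsg.Agent.H2

open Cfsg.Agent.H4
open scoped ComplexConjugate
universe u

variable {G : Type u} [Group G]

namespace Gag

variable {χ : IrrCharacter G} {x : G}

theorem of_mem (h : Gag χ x) {a : G} (ha : (χ : G → ℂ) a ≠ 0) (ha1 : a ≠ 1) : Gag χ a := by
  refine ⟨ha1, ha, fun g hg => ?_⟩
  rcases h.supp g hg with h1 | h1
  · exact Or.inl h1
  · exact Or.inr (((h.supp a ha).resolve_left ha1).symm.trans h1)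

theorem card_N [Finite G] (h : Gag χ x) (N : Subgroup G) (hN : ∀ g, g ∈ N ↔ (χ : G → ℂ) g ≠ 0) :
    Nat.card N = (Subgroup.centralizer ({x} : Set G)).index + 1 := by
  classical
  haveI := Fintype.ofFinite G
  have h1 := h.sum_supp (fun g => if (χ : G → ℂ) g ≠ 0 then 1 else 0)
    (fun g hg => by
      rw [(isClassFunction_iff _).mp (IrrCharacter.isClassFunction χ) x g hg])
    (fun g hg => by rw [if_neg (by simpa using hg)])
  rw [if_pos (IsIrrCharacter.apply_one_ne_zero χ.2), if_pos h.ne_zero, Finset.sum_boole] at h1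
  have h2 : Nat.card N = (Finset.univ.filter (fun g : G => (χ : G → ℂ) g ≠ 0)).card := by
    rw [← Fintype.card_subtype, ← Nat.card_eq_fintype_card]
    exact Nat.card_congr (Equiv.subtypeEquivRight hN)
  rw [h2]
  have h3 : ((Finset.univ.filter (fun g : G => (χ : G → ℂ) g ≠ 0)).card : ℂ) =
      (((Subgroup.centralizer ({x} : Set G)).index + 1 : ℕ) : ℂ) := by
    rw [h1]; push_cast; ring
  exact_mod_cast h3

theorem centralizer_sylow [Finite G] (h : Gag χ x) (hG : 2 < Nat.card G) (p : ℕ) [Fact p.Prime]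
    (N : Subgroup G) (hN : ∀ g, g ∈ N ↔ (χ : G → ℂ) g ≠ 0) (hNp : IsPGroup p N) :
    IsPGroup p (Subgroup.centralizer ({x} : Set G)) ∧
      ¬ p ∣ (Subgroup.centralizer ({x} : Set G)).index := by
  have hp : p.Prime := Fact.out
  set C := Subgroup.centralizer ({x} : Set G) with hC
  set k := C.index with hk
  have hcN : Nat.card N = k + 1 := h.card_N N hN
  obtain ⟨m, hm⟩ := IsPGroup.iff_card.1 hNp
  have hk0 : 0 < k := Nat.pos_of_ne_zero Subgroup.index_ne_zero_of_finite
  have hm0 : m ≠ 0 := by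
    intro hm0
    rw [hm0, pow_zero] at hm
    omega
  have hpk : ¬ p ∣ k := by
    intro hd
    have h1 : p ∣ k + 1 := by rw [← hcN, hm]; exact dvd_pow_self p hm0
    have h2 : p ∣ 1 := (Nat.dvd_add_right hd).1 h1
    exact hp.one_lt.ne' (Nat.dvd_one.1 h2)
  refine ⟨?_, hpk⟩
  obtain ⟨d, hd0, -, hd⟩ := IsIrrCharacter.exists_degree χ.2
  have hce := h.card_eq hG d hd
  have hCk : Nat.card C * k = Nat.card G := C.card_mul_index
  have hG0 : Nat.card G ≠ 0 := Nat.card_pos.ne'
  have hprime : ∀ {q : ℕ}, q.Prime → q ∣ Nat.card C → q = p := by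
    intro q hq hqC
    by_contra hqp
    have hvan : ∀ y : G, q ∣ orderOf y → (χ : G → ℂ) y = 0 := by
      intro y hy
      by_contra hne
      obtain ⟨j, hj⟩ := hNp ⟨y, (hN y).2 hne⟩
      have h1 : y ^ p ^ j = 1 := by
        have := congrArg Subtype.val hj
        simpa using this
      have h2 : q ∣ p ^ j := hy.trans (orderOf_dvd_of_pow_eq_one h1)
      exact hqp ((Nat.prime_dvd_prime_iff_eq hq hp).1 (hq.dvd_of_dvd_pow h2))
    have h1 := pow_dvd_degree_of_vanish hq (IsIrrCharacter.isCharacter χ.2) hvan d hd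
    set s := (Nat.card G).factorization q with hs
    have h2 : q ^ s * q ^ s ∣ k * Nat.card G := by
      rw [hce, pow_two]
      exact (mul_dvd_mul h1 h1).mul_right _
    have h3 : q ^ s * (Nat.card G / q ^ s) = Nat.card G := Nat.ordProj_mul_ordCompl_eq_self _ _
    have h4 : ¬ q ∣ Nat.card G / q ^ s := Nat.not_dvd_ordCompl hq hG0
    have h5 : q ^ s ∣ k * (Nat.card G / q ^ s) := by
      have h6 : q ^ s * q ^ s ∣ q ^ s * (k * (Nat.card G / q ^ s)) := by
        have : q ^ s * (k * (Nat.card G / q ^ s)) = k * Nat.card G := by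
          conv_rhs => rw [← h3]
          ring
        rw [this]; exact h2
      exact Nat.dvd_of_mul_dvd_mul_left (pow_pos hq.pos s) h6
    have h6 : q ^ s ∣ k :=
      (Nat.Coprime.pow_left s ((Nat.Prime.coprime_iff_not_dvd hq).2 h4)).dvd_of_dvd_mul_right h5
    have h7 : q ^ (s + 1) ∣ Nat.card G := by
      rw [← hCk, pow_succ, mul_comm]
      exact mul_dvd_mul hqC h6
    exact Nat.pow_succ_factorization_not_dvd hG0 hq h7
  exact IsPGroup.of_card (Nat.eq_prime_pow_of_unique_prime_dvd Nat.card_pos.ne' hprime)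

theorem inertia_pgroup [Finite G] (h : Gag χ x) (hG : 2 < Nat.card G) (p : ℕ) [Fact p.Prime]
    (N : Subgroup G) (hNn : N.Normal) (hN : ∀ g, g ∈ N ↔ (χ : G → ℂ) g ≠ 0) (hNp : IsPGroup p N)
    (μ : IrrCharacter N) (hμ : (μ : N → ℂ) ≠ fun _ => 1) : IsPGroup p (inertia hNn (μ : N → ℂ)) := by
  classical
  have hp : p.Prime := Fact.out
  haveI := hNn
  obtain ⟨p', -, ⟨hcomm⟩, -⟩ := h.elemAb N hNn hN
  set T := inertia hNn (μ : N → ℂ) with hT
  have hprime : ∀ {q : ℕ}, q.Prime → q ∣ Nat.card T → q = p := by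
    intro q hq hqT
    by_contra hqp
    haveI : Fact q.Prime := ⟨hq⟩
    obtain ⟨y, hy⟩ := exists_prime_orderOf_dvd_card' q hqT
    have hy' : orderOf (y : G) = q := by rw [Subgroup.orderOf_coe, hy]
    set α : N ≃* N := MulAut.conjNormal (y : G) with hα
    have h1 := brauer_perm_aut α
    haveI : Subsingleton {C : ConjClasses N // ConjClasses.map α.toMonoidHom C = C} := by
      have key : ∀ C : ConjClasses N, ConjClasses.map α.toMonoidHom C = C → C = ConjClasses.mk 1 := by
        intro C hC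
        obtain ⟨a, rfl⟩ := ConjClasses.mk_surjective C
        rw [conjClasses_map_mk, ConjClasses.mk_eq_mk_iff_isConj, isConj_iff] at hC
        obtain ⟨c, hc⟩ := hC
        have h2 : α a = a := by
          have h3 := hcomm.comm c (α.toMonoidHom a)
          rw [h3, mul_inv_cancel_right] at hc
          exact hc
        by_cases ha1 : (a : G) = 1
        · have : a = 1 := Subtype.ext ha1
          rw [this]
        · exfalso
          have hga := h.of_mem ((hN a).1 a.2) ha1
          obtain ⟨hCp, -⟩ := hga.centralizer_sylow hG p N hN hNp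
          have h3 : (y : G) ∈ Subgroup.centralizer ({(a : G)} : Set G) := by
            rw [Subgroup.mem_centralizer_singleton_iff]
            have h4 := congrArg Subtype.val h2
            rw [hα, MulAut.conjNormal_apply] at h4
            calc (y : G) * a = (y : G) * a * (y : G)⁻¹ * y := by group
              _ = a * y := by rw [h4]
          obtain ⟨j, hj⟩ := hCp ⟨(y : G), h3⟩
          have h5 : (y : G) ^ p ^ j = 1 := by
            have := congrArg Subtype.val hj
            simpa using this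
          have h6 : q ∣ p ^ j := by
            rw [← hy']; exact orderOf_dvd_of_pow_eq_one h5
          exact hqp ((Nat.prime_dvd_prime_iff_eq hq hp).1 (hq.dvd_of_dvd_pow h6))
      constructor
      intro C1 C2
      apply Subtype.ext
      rw [key C1 C1.2, key C2 C2.2]
    haveI : Nontrivial {ν : IrrCharacter N // (ν : N → ℂ) ∘ α = (ν : N → ℂ)} := by
      refine ⟨⟨⟨trivIrr N, rfl⟩, ⟨μ, ?_⟩, ?_⟩⟩
      · funext n
        have h2 := (mem_inertia' hNn (μ : N → ℂ) (y : G)).1 y.2 n
        rw [← h2]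
        rfl
      · intro h2
        apply hμ
        have h3 := congrArg (fun z => (z.1 : N → ℂ)) h2
        exact h3.symm
    have h2 := Finite.card_le_one_iff_subsingleton.2
      (inferInstance : Subsingleton {C : ConjClasses N // ConjClasses.map α.toMonoidHom C = C})
    have h3 := Finite.one_lt_card_iff_nontrivial.2
      (inferInstance : Nontrivial {ν : IrrCharacter N // (ν : N → ℂ) ∘ α = (ν : N → ℂ)})
    omega
  exact IsPGroup.of_card (Nat.eq_prime_pow_of_unique_prime_dvd Nat.card_pos.ne' hprime)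

theorem inertia_index_le [Finite G] (N : Subgroup G) (hNn : N.Normal)
    (hcomm : ∀ a b : N, a * b = b * a)
    (μ : IrrCharacter N) (hμ : (μ : N → ℂ) ≠ fun _ => 1) :
    (inertia hNn (μ : N → ℂ)).index ≤ Nat.card N - 1 := by
  classical
  letI act : MulAction G (N → ℂ) :=
    { smul := fun g θ => conjFun hNn θ g⁻¹
      one_smul := fun θ => by
        show conjFun hNn θ (1 : G)⁻¹ = θ
        rw [inv_one, conjFun_one]
      mul_smul := fun a b θ => by
        show conjFun hNn θ (a * b)⁻¹ = conjFun hNn (conjFun hNn θ b⁻¹) a⁻¹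
        rw [conjFun_mul, mul_inv_rev] }
  have hsm : ∀ (g : G) (θ : N → ℂ), g • θ = conjFun hNn θ g⁻¹ := fun _ _ => rfl
  have hstab : MulAction.stabilizer G (μ : N → ℂ) = inertia hNn (μ : N → ℂ) := by
    ext g
    rw [MulAction.mem_stabilizer_iff, hsm, ← mem_inertia, inv_mem_iff]
  rw [← hstab, MulAction.index_stabilizer]
  have hsub : MulAction.orbit G (μ : N → ℂ) ⊆
      (fun ν : IrrCharacter N => (ν : N → ℂ)) '' ({trivIrr N}ᶜ : Set (IrrCharacter N)) := by
    rintro _ ⟨g, rfl⟩
    refine ⟨⟨conjFun hNn (μ : N → ℂ) g⁻¹, conjFun_irr hNn μ.2 g⁻¹⟩, ?_, rfl⟩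
    intro h1
    apply hμ
    have h2 : conjFun hNn (μ : N → ℂ) g⁻¹ = fun _ => 1 := congrArg Subtype.val h1
    have h3 : conjFun hNn (conjFun hNn (μ : N → ℂ) g⁻¹) g = (μ : N → ℂ) := by
      rw [conjFun_mul, inv_mul_cancel, conjFun_one]
    rw [← h3, h2]
    rfl
  refine (Set.ncard_le_ncard hsub (Set.toFinite _)).trans ?_
  rw [Set.ncard_image_of_injective _ Subtype.val_injective, Set.ncard_compl, Set.ncard_singleton,
    card_irr]
  have hbij : Function.Bijective (ConjClasses.mk : N → ConjClasses N) := by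
    refine ⟨?_, ConjClasses.mk_surjective⟩
    intro a b hab
    rw [ConjClasses.mk_eq_mk_iff_isConj, isConj_iff] at hab
    obtain ⟨c, hc⟩ := hab
    rw [← hc, hcomm c a]; simp
  rw [← Nat.card_congr (Equiv.ofBijective _ hbij)]

theorem inertia_sylow [Finite G] (h : Gag χ x) (hG : 2 < Nat.card G) (p : ℕ) [Fact p.Prime]
    (N : Subgroup G) (hNn : N.Normal) (hN : ∀ g, g ∈ N ↔ (χ : G → ℂ) g ≠ 0) (hNp : IsPGroup p N)
    (μ : IrrCharacter N) (hμ : (μ : N → ℂ) ≠ fun _ => 1) :
    IsPGroup p (inertia hNn (μ : N → ℂ)) ∧ ¬ p ∣ (inertia hNn (μ : N → ℂ)).index := by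
  have hp : p.Prime := Fact.out
  have hT := h.inertia_pgroup hG p N hNn hN hNp μ hμ
  refine ⟨hT, ?_⟩
  obtain ⟨p', -, ⟨hcomm⟩, -⟩ := h.elemAb N hNn hN
  have hle := inertia_index_le N hNn hcomm.comm μ hμ
  rw [h.card_N N hN, Nat.add_sub_cancel] at hle
  obtain ⟨hC, hpk⟩ := h.centralizer_sylow hG p N hN hNp
  set T := inertia hNn (μ : N → ℂ) with hTdef
  set C := Subgroup.centralizer ({x} : Set G) with hCdef
  obtain ⟨j, hj⟩ := IsPGroup.iff_card.1 hT
  have h1 : Nat.card T * T.index = Nat.card C * C.index := by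
    rw [T.card_mul_index, C.card_mul_index]
  have h2 : C.index ∣ p ^ j * T.index := by
    rw [← hj, h1]; exact dvd_mul_left _ _
  have h3 : C.index ∣ T.index :=
    (Nat.Coprime.pow_right j ((Nat.coprime_comm.1 ((Nat.Prime.coprime_iff_not_dvd hp).2 hpk)))).dvd_of_dvd_mul_left h2
  have h4 : T.index = C.index :=
    le_antisymm hle (Nat.le_of_dvd (Nat.pos_of_ne_zero Subgroup.index_ne_zero_of_finite) h3)
  rw [h4]; exact hpk

end Gag

end Cfsg.Agent.H2
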