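import Mathlib
import Cfsg.Agent.Lib_helper3_Det6

set_option autoImplicit false
set_option linter.unusedSectionVars false

namespace Cfsg.Agent.H3
open Subgroup
universe u v

theorem not_dvd_card_ker_pow {L : Type*} [CommGroup L] [Finite L] (p m : ℕ) [hp : Fact p.Prime]
    (hm : ¬ p ∣ m) : ¬ p ∣ Nat.card (powMonoidHom m : L →* L).ker := by
  intro h
  obtain ⟨F, hF⟩ := exists_prime_orderOf_dvd_card' (G := (powMonoidHom m : L →* L).ker) p h
  apply hm
  rw [← hF, ← Subgroup.orderOf_coe]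
  apply orderOf_dvd_of_pow_eq_one
  exact F.2

section
variable {G : Type u} [Group G] [Finite G]

theorem detChar_hom (F : G →* ℂˣ) : Cfsg.detChar (fun g => (F g : ℂ)) = fun g => (F g : ℂ) := by
  let ρ : Representation ℂ G ℂ :=
    { toFun := fun g => (F g : ℂ) • LinearMap.id
      map_one' := by simp; rfl
      map_mul' := fun a b => by ext; simp [mul_comm] }
  have h1 : (fun g => (F g : ℂ)) = ρ.character := by
    ext g
    simp [Representation.character, ρ]
  conv_lhs => rw [h1, detChar_rep]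
  funext g
  change LinearMap.det ((F g : ℂ) • (LinearMap.id : ℂ →ₗ[ℂ] ℂ)) = _
  rw [LinearMap.det_smul]
  simp

theorem detOrder_hom (F : G →* ℂˣ) : Cfsg.detOrder (fun g => (F g : ℂ)) = orderOf F := by
  unfold Cfsg.detOrder
  rw [detChar_hom, orderOf_homToFun]

instance finite_hom_units : Finite (G →* ℂˣ) := by
  let Φ : (G →* ℂˣ) → Cfsg.IrrCharacter G := fun F => ⟨fun g => (F g : ℂ), H4.isIrrCharacter_of_hom F⟩
  apply Finite.of_injective Φ
  intro a b h
  exact homToFun_injective G (congrArg Subtype.val h)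

theorem orderOf_hom_dvd_card {A : Type*} [CommGroup A] (F : G →* A) : orderOf F ∣ Nat.card G := by
  apply orderOf_dvd_of_pow_eq_one
  ext g
  rw [MonoidHom.pow_apply, ← map_pow, pow_card_eq_one']
  simp

theorem not_dvd_card_hom {A : Type*} [CommGroup A] [Finite (G →* A)] (p : ℕ) (hp : p.Prime) :
    ¬ p ∣ Nat.card {F : G →* A // ¬ p ∣ orderOf F} := by
  have : Fact p.Prime := ⟨hp⟩
  obtain ⟨a, m, hm, ham⟩ := Nat.exists_eq_pow_mul_and_not_dvd (n := Nat.card G) Nat.card_pos.ne' p
    hp.ne_one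
  have hmem : ∀ F : G →* A, ¬ p ∣ orderOf F ↔ F ∈ (powMonoidHom m : (G →* A) →* (G →* A)).ker := by
    intro F
    rw [MonoidHom.mem_ker, powMonoidHom_apply]
    constructor
    · intro h
      have h2 : orderOf F ∣ p ^ a * m := ham ▸ orderOf_hom_dvd_card F
      have h3 : Nat.Coprime (orderOf F) (p ^ a) :=
        Nat.Coprime.pow_right a ((Nat.Prime.coprime_iff_not_dvd hp).2 h).symm
      exact orderOf_dvd_iff_pow_eq_one.1 (h3.dvd_of_dvd_mul_left h2)
    · intro h hd
      exact hm (hd.trans (orderOf_dvd_of_pow_eq_one h))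
  rw [Nat.card_congr (Equiv.subtypeEquivRight hmem)]
  exact not_dvd_card_ker_pow p m hm

open Classical in
theorem not_dvd_sum_good (p : ℕ) (hp : p.Prime) [Fintype (Cfsg.IrrCharacter G)]
    (hdeg : ∀ χ : Cfsg.IrrCharacter G, Cfsg.charDegree (χ : G → ℂ) ≠ 1 →
      p ∣ Cfsg.charDegree (χ : G → ℂ)) :
    ¬ (p : ℤ) ∣ ∑ χ : Cfsg.IrrCharacter G,
      (if IsGood p χ.1 then (Cfsg.charDegree χ.1 : ℤ) ^ 2 else 0) := by
  have hdeg1 : ∀ χ : Cfsg.IrrCharacter G, IsGood p χ.1 → Cfsg.charDegree χ.1 = 1 := by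
    intro χ hg
    by_contra h
    exact hg.1 (hdeg χ h)
  have h1 : ∑ χ : Cfsg.IrrCharacter G,
      (if IsGood p χ.1 then (Cfsg.charDegree χ.1 : ℤ) ^ 2 else 0)
      = (Nat.card {χ : Cfsg.IrrCharacter G // IsGood p χ.1} : ℤ) := by
    rw [Nat.card_eq_fintype_card, Fintype.card_subtype, Finset.card_filter]
    push_cast
    apply Finset.sum_congr rfl
    intro χ _
    by_cases hg : IsGood p χ.1
    · rw [if_pos hg, if_pos hg, hdeg1 χ hg]; simp
    · rw [if_neg hg, if_neg hg]
  rw [h1]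
  have hcard : Nat.card {χ : Cfsg.IrrCharacter G // IsGood p χ.1}
      = Nat.card {F : G →* ℂˣ // ¬ p ∣ orderOf F} := by
    symm
    apply Nat.card_eq_of_bijective
      (fun F : {F : G →* ℂˣ // ¬ p ∣ orderOf F} =>
        (⟨⟨fun g => ((F : G →* ℂˣ) g : ℂ), H4.isIrrCharacter_of_hom _⟩, by
          constructor
          · have : Cfsg.charDegree (fun g => ((F : G →* ℂˣ) g : ℂ)) = 1 :=
              H4.charDegree_eq (by simp)
            rw [this]
            exact fun h => hp.one_lt.ne' (Nat.dvd_one.1 h)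
          · rw [detOrder_hom]
            exact F.2⟩ : {χ : Cfsg.IrrCharacter G // IsGood p χ.1}))
    constructor
    · intro F F' h
      apply Subtype.ext
      exact homToFun_injective G (congrArg (fun x => x.1.1) h)
    · rintro ⟨χ, hg⟩
      have hc := H4.IsIrrCharacter.isCharacter χ.2
      have h1 : χ.1 1 = 1 := by
        rw [← coe_charDegree χ.2, hdeg1 χ hg]; simp
      have h2 : (fun g => ((H4.linearHom hc h1 g : ℂˣ) : ℂ)) = χ.1 := rfl
      refine ⟨⟨H4.linearHom hc h1, ?_⟩, ?_⟩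
      · rw [← detOrder_hom, h2]
        exact hg.2
      · rfl
  rw [hcard, Int.natCast_dvd_natCast]
  exact not_dvd_card_hom p hp

end

end Cfsg.Agent.H3
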