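import Cfsg.Agent.S0867
import Cfsg.Agent.Lib_helper3_Det7
import Cfsg.Agent.Lib_lead_Br13
import Cfsg.Agent.Lib_helper1_SZ

set_option autoImplicit false
set_option linter.unusedSectionVars false
open Cfsg

namespace Cfsg.Agent.H2

open Cfsg.Agent.H4
open scoped ComplexConjugate
universe u v

section Det
variable {K : Type u} [Group K] [Finite K]

theorem detChar_add {α β : K → ℂ} (hα : IsCharacter K α) (hβ : IsCharacter K β) :
    detChar (α + β) = detChar α * detChar β := by
  obtain ⟨n, ρ, rfl⟩ := hα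
  obtain ⟨m, σ, rfl⟩ := hβ
  have h : ρ.character + σ.character = (ρ.prod σ).character := by
    ext g
    simp only [Pi.add_apply, Representation.character]
    exact (LinearMap.trace_prodMap' (ρ g) (σ g)).symm
  rw [h, H3.detChar_rep, H3.detChar_rep, H3.detChar_rep]
  funext g
  exact LinearMap.det_prodMap (ρ g) (σ g)

theorem detChar_zero : detChar (0 : K → ℂ) = 1 := by
  have h : (0 : K → ℂ) = (1 : Representation ℂ K (Fin 0 → ℂ)).character := by
    ext g
    simp [Representation.character]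
  rw [h, H3.detChar_rep]
  funext g
  simp

theorem detChar_sum {ι : Type*} (s : Finset ι) (f : ι → K → ℂ) (h : ∀ i ∈ s, IsCharacter K (f i)) :
    detChar (∑ i ∈ s, f i) = ∏ i ∈ s, detChar (f i) := by
  classical
  induction s using Finset.induction_on with
  | empty => simpa using detChar_zero
  | insert a s ha ih =>
    rw [Finset.sum_insert ha, Finset.prod_insert ha,
      detChar_add (h a (Finset.mem_insert_self a s))
        (IsCharacter.sum s f (fun i hi => h i (Finset.mem_insert_of_mem hi))),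
      ih (fun i hi => h i (Finset.mem_insert_of_mem hi))]

theorem detChar_nsmul (n : ℕ) {χ : K → ℂ} (h : IsCharacter K χ) :
    detChar ((n : ℂ) • χ) = detChar χ ^ n := by
  induction n with
  | zero => simpa using detChar_zero
  | succ k ih =>
    have h1 : ((k + 1 : ℕ) : ℂ) • χ = (k : ℂ) • χ + χ := by
      push_cast; rw [add_smul, one_smul]
    rw [h1, detChar_add (IsCharacter.nsmul k h) h, ih, pow_succ]

theorem detChar_sum_hom {ι : Type*} [Fintype ι] (F : ι → (K →* ℂˣ)) (m : ι → ℕ) :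
    detChar (∑ i, (m i : ℂ) • (fun a => ((F i a : ℂˣ) : ℂ))) = fun a => ∏ i, ((F i a : ℂˣ) : ℂ) ^ m i := by
  rw [detChar_sum _ _ (fun i _ => IsCharacter.nsmul (m i) (isCharacter_of_hom (F i)))]
  funext a
  rw [Finset.prod_apply]
  apply Finset.prod_congr rfl
  intro i _
  rw [detChar_nsmul _ (isCharacter_of_hom (F i)), H3.detChar_hom]
  rfl

theorem detChar_pow_comm (hA : ∀ a b : K, a * b = b * a) {Ξ : K → ℂ} (hΞ : IsCharacter K Ξ) (k : ℕ) :
    detChar (fun a => Ξ (a ^ k)) = fun a => detChar Ξ a ^ k := by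
  classical
  have := Fintype.ofFinite K
  have := Fintype.ofFinite (IrrCharacter K)
  obtain ⟨m, rfl⟩ := IsCharacter.exists_mult hΞ
  let F : IrrCharacter K → (K →* ℂˣ) := fun ψ =>
    linearHom (IsIrrCharacter.isCharacter ψ.2) (irr_linear_of_comm hA ψ.2)
  have hF : ∀ ψ : IrrCharacter K, (ψ : K → ℂ) = fun a => ((F ψ a : ℂˣ) : ℂ) := fun ψ => rfl
  have h1 : (∑ ψ : IrrCharacter K, (m ψ : ℂ) • (ψ : K → ℂ))
      = ∑ ψ : IrrCharacter K, (m ψ : ℂ) • (fun a => ((F ψ a : ℂˣ) : ℂ)) := rfl
  have h2 : (fun a => (∑ ψ : IrrCharacter K, (m ψ : ℂ) • (ψ : K → ℂ)) (a ^ k))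
      = ∑ ψ : IrrCharacter K, (m ψ : ℂ) • (fun a => (((F ψ ^ k) a : ℂˣ) : ℂ)) := by
    funext a
    simp only [Finset.sum_apply, Pi.smul_apply, smul_eq_mul]
    apply Finset.sum_congr rfl
    intro ψ _
    rw [hF ψ, MonoidHom.pow_apply, ← map_pow]
  rw [h2, h1, detChar_sum_hom, detChar_sum_hom]
  funext a
  rw [← Finset.prod_pow]
  apply Finset.prod_congr rfl
  intro ψ _
  rw [MonoidHom.pow_apply, Units.val_pow_eq_pow_val, ← pow_mul, ← pow_mul, mul_comm]

end Det

section Setup
variable {Γ : Type u} [Group Γ] [Finite Γ] (G S : Subgroup Γ) [hG : G.Normal]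
  (hcop : (Nat.card G).Coprime (Nat.card S)) (htop : G ⊔ S = ⊤)

include hcop htop in
theorem gs_index : G.index = Nat.card S :=
  (H1.isComplement'_of_sup_of_coprime htop hcop).symm.index_eq_card

include hcop htop in
theorem gs_card : Nat.card Γ = Nat.card G * Nat.card S :=
  (H1.isComplement'_of_sup_of_coprime htop hcop).card_mul_card.symm

include htop in
theorem gs_decomp (x : Γ) : ∃ g ∈ G, ∃ t ∈ S, x = g * t := by
  have hx : x ∈ G ⊔ S := by rw [htop]; trivial
  obtain ⟨g, hg, t, ht, rfl⟩ := Subgroup.mem_sup_of_normal_left.mp hx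
  exact ⟨g, hg, t, ht, rfl⟩

omit [Finite Γ] hG in
theorem pow_eq_pow_of_mem [Finite Γ] (H : Subgroup Γ) {x : Γ} (hx : x ∈ H) {k l : ℕ}
    (hk : k ≡ l [MOD Nat.card H]) : x ^ k = x ^ l := by
  rw [pow_eq_pow_iff_modEq]
  exact hk.of_dvd (H.orderOf_dvd_natCard hx)

omit hG in
theorem pow_eq_self_of_mem (H : Subgroup Γ) {x : Γ} (hx : x ∈ H) {k : ℕ}
    (hk : k ≡ 1 [MOD Nat.card H]) : x ^ k = x := by
  rw [pow_eq_pow_of_mem H hx hk, pow_one]

omit hG in
theorem pow_eq_one_of_mem (H : Subgroup Γ) {x : Γ} (hx : x ∈ H) {k : ℕ}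
    (hk : k ≡ 0 [MOD Nat.card H]) : x ^ k = 1 := by
  rw [pow_eq_pow_of_mem H hx hk, pow_zero]

theorem eq_one_of_pow_coprime {w : ℂ} {a b : ℕ} (ha : w ^ a = 1) (hb : w ^ b = 1)
    (hab : a.Coprime b) : w = 1 := by
  have h1 := orderOf_dvd_of_pow_eq_one ha
  have h2 := orderOf_dvd_of_pow_eq_one hb
  have h3 : orderOf w ∣ Nat.gcd a b := Nat.dvd_gcd h1 h2
  rw [hab, Nat.dvd_one] at h3
  exact orderOf_eq_one_iff.mp h3

include hcop htop in
/-- the canonical extension is fixed by the Galois automorphisms fixing `|G|`-th roots of unity. -/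
theorem canonical_gal (hScomm : ∀ a b : S, a * b = b * a) (χh : Γ → ℂ) (hχh : IsIrrCharacter Γ χh)
    (hres : IsIrrCharacter G (fun g : G => χh g)) (hdet : (detOrder χh).Coprime (Nat.card S))
    (k : ℕ) (hk1 : k ≡ 1 [MOD Nat.card G]) (hk2 : k.Coprime (Nat.card S)) (x : Γ) :
    χh (x ^ k) = χh x := by
  have hχc := IsIrrCharacter.isCharacter hχh
  obtain ⟨d, -, hdvd, hd⟩ := IsIrrCharacter.exists_degree hres
  have hcl := IsCharacter.isClassFunction hχc
  have hoG : detOrder (fun g : G => χh g) ∣ Nat.card G := by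
    obtain ⟨F, hF⟩ := H3.detChar_eq_hom (IsIrrCharacter.isCharacter hres)
    unfold detOrder
    rw [hF, H3.orderOf_homToFun]
    exact H3.orderOf_hom_dvd_card F
  have hc : Nat.Coprime G.index (detOrder (fun g : G => χh g) * d) := by
    rw [gs_index G S hcop htop]
    exact (Nat.Coprime.mul_left (Nat.Coprime.coprime_dvd_left hoG hcop)
      (Nat.Coprime.coprime_dvd_left hdvd hcop)).symm
  obtain ⟨χ0, -, huniq⟩ := S0867.result G (fun g : G => χh g) hres (fun g n => hcl n g) d hd hc
  have hkG : k.Coprime (Nat.card G) := by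
    have := hk1.gcd_eq
    rw [Nat.gcd_one_left] at this
    exact this
  have hkΓ : k.Coprime (Nat.card Γ) := by
    rw [gs_card G S hcop htop]
    exact Nat.Coprime.mul_right hkG hk2
  have h1 := huniq χh hχh (fun _ => rfl) (by rw [gs_index G S hcop htop]; exact hdet.symm)
  have hχk := LeadBr.IsIrrCharacter.pow_coprime hχh k hkΓ
  have hχkc := IsIrrCharacter.isCharacter hχk
  have h2 := huniq (fun x => χh (x ^ k)) hχk (fun n => by
    show χh ((n : Γ) ^ k) = χh n
    rw [pow_eq_self_of_mem G n.2 hk1]) (by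
    rw [gs_index G S hcop htop]
    obtain ⟨F, hF⟩ := H3.detChar_eq_hom hχkc
    obtain ⟨F0, hF0⟩ := H3.detChar_eq_hom hχc
    have hFS : ∀ t ∈ S, F t = 1 := by
      intro t ht
      apply Units.ext
      have e1 : ((F t : ℂˣ) : ℂ) = detChar (fun x => χh (x ^ k)) t := by rw [hF]
      have e2 := H3.detChar_restrict S hχkc (ϑ := fun a : S => (fun b : S => χh b) (a ^ k))
        (fun _ => rfl) ⟨t, ht⟩
      have e3 := congrFun (detChar_pow_comm hScomm (IsCharacter.restrict S hχc) k) ⟨t, ht⟩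
      have e4 := H3.detChar_restrict S hχc (ϑ := fun b : S => χh b) (fun _ => rfl) ⟨t, ht⟩
      rw [e1]
      simp only at e2 e4
      rw [e2, e3, ← e4]
      have hw : detChar χh t = 1 := by
        apply eq_one_of_pow_coprime (a := detOrder χh) (b := Nat.card S) _ _ hdet
        · have := congrFun (pow_orderOf_eq_one (detChar χh)) t
          exact this
        · rw [hF0]
          show ((F0 t : ℂˣ) : ℂ) ^ Nat.card S = 1
          rw [← Units.val_pow_eq_pow_val, ← map_pow, pow_eq_one_of_mem S ht (Nat.modEq_zero_iff_dvd.mpr dvd_rfl),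
            map_one]
          rfl
      rw [hw, one_pow]
      rfl
    have hFm : F ^ Nat.card G = 1 := by
      ext x
      obtain ⟨g, hg, t, ht, rfl⟩ := gs_decomp G S htop x
      rw [MonoidHom.pow_apply, map_mul, hFS t ht, mul_one, ← map_pow,
        pow_eq_one_of_mem G hg (Nat.modEq_zero_iff_dvd.mpr dvd_rfl), map_one]
      rfl
    have ho : detOrder (fun x => χh (x ^ k)) ∣ Nat.card G := by
      unfold detOrder
      rw [hF, H3.orderOf_homToFun]
      exact orderOf_dvd_of_pow_eq_one hFm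
    exact (Nat.Coprime.coprime_dvd_left ho hcop).symm)
  exact congrFun (h2.trans h1.symm) x

end Setup

end Cfsg.Agent.H2
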