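import Cfsg.Agent.Lib_helper2_Glaub9

set_option autoImplicit false
set_option linter.unusedSectionVars false
open Cfsg

namespace Cfsg.Agent.H2

open Cfsg.Agent.H4
open scoped ComplexConjugate
universe u v

theorem exists_max_normal {p : ℕ} (hp : p.Prime) {Γ : Type u} [Group Γ] [Finite Γ] (S : Subgroup Γ)
    (hS : IsPGroup p S) (hne : S ≠ ⊥) :
    ∃ (T : Subgroup Γ) (z : Γ), T ≤ S ∧ z ∈ S ∧ Nat.card T < Nat.card S ∧
      T ⊔ Subgroup.zpowers z = S ∧ (∀ t ∈ T, z * t * z⁻¹ ∈ T) ∧ (∀ t ∈ T, z⁻¹ * t * z ∈ T) := by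
  have := Fact.mk hp
  have hnil : Group.IsNilpotent S := hS.isNilpotent
  have : Nontrivial S := (Subgroup.nontrivial_iff_ne_bot S).mpr hne
  obtain ⟨T', hT', -⟩ := (eq_top_or_exists_le_coatom (⊥ : Subgroup S)).resolve_left bot_ne_top
  have hTn : T'.Normal := Subgroup.NormalizerCondition.normal_of_coatom T'
    Group.normalizerCondition_of_isNilpotent hT'
  obtain ⟨z', hz'⟩ : ∃ z', z' ∉ T' := by
    by_contra hcon
    push Not at hcon
    exact hT'.1 (eq_top_iff.mpr fun x _ => hcon x)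
  have hsup : T' ⊔ Subgroup.zpowers z' = ⊤ := by
    apply hT'.2 _ (lt_of_le_of_ne le_sup_left ?_)
    intro h
    apply hz'
    rw [h]
    exact (le_sup_right : Subgroup.zpowers z' ≤ _) (Subgroup.mem_zpowers z')
  refine ⟨T'.map S.subtype, z', Subgroup.map_subtype_le T', z'.2, ?_, ?_, ?_, ?_⟩
  · rw [Subgroup.card_map_of_injective S.subtype_injective]
    apply lt_of_le_of_ne (Subgroup.card_le_card_group T')
    intro h
    exact hT'.1 (Subgroup.eq_top_of_card_eq T' h)
  · have := congrArg (Subgroup.map S.subtype) hsup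
    rw [Subgroup.map_sup, MonoidHom.map_zpowers, ← MonoidHom.range_eq_map,
      Subgroup.range_subtype] at this
    exact this
  · rintro _ ⟨t, ht, rfl⟩
    exact ⟨z' * t * z'⁻¹, hTn.conj_mem t ht z', rfl⟩
  · rintro _ ⟨t, ht, rfl⟩
    exact ⟨z'⁻¹ * t * z', by simpa using hTn.conj_mem t ht z'⁻¹, rfl⟩

/-- conjugation as an automorphism of a normalised subgroup -/
def conjE {Γ : Type u} [Group Γ] (H : Subgroup Γ) (t : Γ) (h1 : ∀ g ∈ H, t * g * t⁻¹ ∈ H)
    (h2 : ∀ g ∈ H, t⁻¹ * g * t ∈ H) : H ≃* H where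
  toFun g := ⟨t * g * t⁻¹, h1 g g.2⟩
  invFun g := ⟨t⁻¹ * g * t, h2 g g.2⟩
  left_inv g := by ext; simp [mul_assoc]
  right_inv g := by ext; simp [mul_assoc]
  map_mul' a b := by ext; simp [mul_assoc]

theorem conjE_coe {Γ : Type u} [Group Γ] (H : Subgroup Γ) (t : Γ) (h1 : ∀ g ∈ H, t * g * t⁻¹ ∈ H)
    (h2 : ∀ g ∈ H, t⁻¹ * g * t ∈ H) (g : H) : ((conjE H t h1 h2 g : H) : Γ) = t * g * t⁻¹ := rfl

theorem invBy_iff_conjE {Γ : Type u} [Group Γ] (H : Subgroup Γ) (t : Γ)
    (h1 : ∀ g ∈ H, t * g * t⁻¹ ∈ H) (h2 : ∀ g ∈ H, t⁻¹ * g * t ∈ H) (χ : H → ℂ) :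
    InvBy H t χ ↔ ∀ x, χ (conjE H t h1 h2 x) = χ x := by
  constructor
  · intro h x
    exact h x _ rfl
  · intro h g g' hg
    have : g' = conjE H t h1 h2 g := Subtype.ext hg
    rw [this, h]

/-- invariance under a subgroup -/
def InvUnder {Γ : Type u} [Group Γ] (G S : Subgroup Γ) (χ : G → ℂ) : Prop := ∀ s ∈ S, InvBy G s χ

theorem conj_mem_fix {Γ : Type u} [Group Γ] (G T : Subgroup Γ) (w : Γ)
    (h1 : ∀ g ∈ G, w * g * w⁻¹ ∈ G) (h2 : ∀ t ∈ T, w⁻¹ * t * w ∈ T) :
    ∀ b ∈ G ⊓ Subgroup.centralizer (T : Set Γ), w * b * w⁻¹ ∈ G ⊓ Subgroup.centralizer (T : Set Γ) := by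
  intro b hb
  refine Subgroup.mem_inf.mpr ⟨h1 b hb.1, ?_⟩
  rw [Subgroup.mem_centralizer_iff]
  intro t ht
  have h3 := Subgroup.mem_centralizer_iff.mp hb.2 _ (h2 t ht)
  calc t * (w * b * w⁻¹) = w * ((w⁻¹ * t * w) * b) * w⁻¹ := by group
    _ = w * (b * (w⁻¹ * t * w)) * w⁻¹ := by rw [h3]
    _ = _ := by group

theorem glaubP_pgroup {p : ℕ} (hp : p.Prime) {Γ : Type u} [Group Γ] [Fintype Γ] (G : Subgroup Γ) :
    ∀ (n : ℕ) (S : Subgroup Γ), Nat.card S = n → (∀ s ∈ S, ∀ g ∈ G, s * g * s⁻¹ ∈ G) →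
      (Nat.card G).Coprime (Nat.card S) → IsPGroup p S → ∀ (C : Subgroup Γ) [Fintype C],
      C = G ⊓ Subgroup.centralizer (S : Set Γ) → ∀ hCG : C ≤ G,
      GlaubP p (Subgroup.inclusion hCG) (InvUnder G S) := by
  classical
  intro n
  induction n using Nat.strong_induction_on with
  | _ n ih =>
  intro S hn hnorm hcop hS C _ hC hCG
  by_cases hbot : S = ⊥
  · subst hbot
    have h1 : C = G := by
      rw [hC]
      apply inf_eq_left.mpr
      intro x _
      rw [Subgroup.mem_centralizer_iff]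
      intro t ht
      have : t = 1 := by simpa using ht
      rw [this]
      simp
    have h2 : Subgroup.inclusion hCG = (MulEquiv.subgroupCongr h1).toMonoidHom :=
      MonoidHom.ext fun x => Subtype.ext rfl
    rw [h2]
    apply GlaubP.refl hp
    intro χ s hs g g' hg
    rw [Subgroup.mem_bot] at hs
    subst hs
    have : g' = g := Subtype.ext (by simpa using hg)
    rw [this]
  · obtain ⟨T, z, hTS, hzS, hcard, hsup, hzT1, hzT2⟩ := exists_max_normal hp S hS hbot
    have hzG1 : ∀ g ∈ G, z * g * z⁻¹ ∈ G := hnorm z hzS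
    have hzG2 : ∀ g ∈ G, z⁻¹ * g * z ∈ G := by
      intro g hg
      simpa using hnorm z⁻¹ (S.inv_mem hzS) g hg
    set B : Subgroup Γ := G ⊓ Subgroup.centralizer (T : Set Γ) with hB
    have hBG : B ≤ G := inf_le_left
    have hCB : C ≤ B := by
      rw [hC]
      exact le_inf inf_le_left (inf_le_right.trans (Subgroup.centralizer_le hTS))
    have H₁ : GlaubP p (Subgroup.inclusion hBG) (InvUnder G T) :=
      ih (Nat.card T) (hn ▸ hcard) T rfl (fun s hs => hnorm s (hTS hs))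
        (Nat.Coprime.coprime_dvd_right (Subgroup.card_dvd_of_le hTS) hcop)
        (hS.to_le hTS) B hB hBG
    have hzB1 : ∀ b ∈ B, z * b * z⁻¹ ∈ B := conj_mem_fix G T z hzG1 hzT2
    have hzB2 : ∀ b ∈ B, z⁻¹ * b * z ∈ B := by
      have := conj_mem_fix G T z⁻¹ (by simpa using hzG2) (by simpa using hzT1)
      intro b hb
      have h := this b hb
      rwa [inv_inv] at h
    obtain ⟨k, hk⟩ := hS ⟨z, hzS⟩
    have hzk : z ^ p ^ k = 1 := by simpa using congrArg Subtype.val hk
    have hzle : Subgroup.zpowers z ≤ S := by rw [Subgroup.zpowers_le]; exact hzS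
    have hC' : C = B ⊓ Subgroup.centralizer (Subgroup.zpowers z : Set Γ) := by
      rw [hC]
      apply le_antisymm
      · exact le_inf (le_inf inf_le_left (inf_le_right.trans (Subgroup.centralizer_le hTS)))
          (inf_le_right.trans (Subgroup.centralizer_le hzle))
      · intro x hx
        obtain ⟨⟨h1, h2⟩, h3⟩ := hx
        refine Subgroup.mem_inf.mpr ⟨h1, ?_⟩
        have h4 : S ≤ Subgroup.centralizer ({x} : Set Γ) := by
          rw [← hsup]
          apply sup_le
          · intro t ht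
            rw [Subgroup.mem_centralizer_singleton_iff]
            exact (Subgroup.mem_centralizer_iff.mp h2 t ht)
          · intro t ht
            rw [Subgroup.mem_centralizer_singleton_iff]
            exact (Subgroup.mem_centralizer_iff.mp h3 t ht)
        rw [Subgroup.mem_centralizer_iff]
        intro t ht
        exact (Subgroup.mem_centralizer_singleton_iff.mp (h4 ht))
    have H₂ : GlaubP p (Subgroup.inclusion hCB) (InvBy B z) :=
      glaubP_cyc hp B z hzB1 hzB2
        (Nat.Coprime.coprime_dvd_left (Subgroup.card_dvd_of_le hBG)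
          (Nat.Coprime.coprime_dvd_right (Subgroup.card_dvd_of_le hzle) hcop)) hzk C hC' hCB
    have H₂' : GlaubP p (Subgroup.inclusion hCB)
        (fun β : B → ℂ => ∀ x, β (conjE B z hzB1 hzB2 x) = β x) :=
      GlaubP.congr_inv (fun β : IrrCharacter B => invBy_iff_conjE B z hzB1 hzB2 β) H₂
    have H := GlaubP.comp hp (conjE G z hzG1 hzG2) (conjE B z hzB1 hzB2) (fun x => rfl) (by
      intro χ hχ t ht g g' hg
      apply hχ (z * t * z⁻¹) (hzT1 t ht)
      rw [conjE_coe, conjE_coe, hg]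
      group) H₁ H₂'
    have h2 : (Subgroup.inclusion hBG).comp (Subgroup.inclusion hCB) = Subgroup.inclusion hCG :=
      MonoidHom.ext fun x => Subtype.ext rfl
    rw [h2] at H
    refine GlaubP.congr_inv ?_ H
    intro χ
    constructor
    · rintro ⟨h3, h4⟩
      have h5 : S ≤ stabSub G (χ : G → ℂ) := by
        rw [← hsup]
        apply sup_le
        · intro t ht
          exact ⟨hnorm t (hTS ht), fun g hg => by simpa using hnorm t⁻¹ (S.inv_mem (hTS ht)) g hg,
            h3 t ht⟩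
        · rw [Subgroup.zpowers_le]
          exact ⟨hzG1, hzG2, (invBy_iff_conjE G z hzG1 hzG2 χ).mpr h4⟩
      intro s hs
      exact (h5 hs).2.2
    · intro h
      exact ⟨fun t ht => h t (hTS ht), (invBy_iff_conjE G z hzG1 hzG2 χ).mp (h z hzS)⟩

end Cfsg.Agent.H2
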