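import Cfsg.Agent.Lib_helper2_Glaub10
import Cfsg.Agent.Lib_helper1_Basic

set_option autoImplicit false
set_option linter.unusedSectionVars false
open Cfsg

namespace Cfsg.Agent.H2

open Cfsg.Agent.H4
open scoped ComplexConjugate
universe u v

theorem exists_rel_pgroup {Γ : Type u} [Group Γ] [Finite Γ] (S K : Subgroup Γ)
    (hsolv : Group.IsSolvable S) (hKS : K ≤ S) (hKn : ∀ s ∈ S, ∀ k ∈ K, s * k * s⁻¹ ∈ K)
    (hne : K ≠ S) :
    ∃ (p : ℕ) (_ : p.Prime) (T P : Subgroup Γ), T ≤ S ∧ P ≤ T ∧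
      (∀ s ∈ S, ∀ t ∈ T, s * t * s⁻¹ ∈ T) ∧ IsPGroup p P ∧
      (∀ t ∈ T, ∃ x ∈ P, ∃ k ∈ K, t = x * k) ∧ ¬ T ≤ K := by
  have hK'n : (K.subgroupOf S).Normal := by
    refine ⟨fun k hk s => ?_⟩
    exact Subgroup.mem_subgroupOf.mpr (hKn s s.2 k (Subgroup.mem_subgroupOf.mp hk))
  have hnt : Nontrivial (S ⧸ K.subgroupOf S) := by
    by_contra hcon
    rw [not_nontrivial_iff_subsingleton] at hcon
    have h1 := QuotientGroup.subgroup_eq_top_of_subsingleton _ hcon
    rw [Subgroup.subgroupOf_eq_top] at h1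
    exact hne (le_antisymm hKS h1)
  have hsolvQ : Group.IsSolvable (S ⧸ K.subgroupOf S) :=
    Group.isSolvable_of_surjective (QuotientGroup.mk'_surjective (K.subgroupOf S))
  obtain ⟨p, hp, N, hNchar, hNp, hNne, -⟩ :=
    H1.exists_normal_pgroup_of_solvable (S ⧸ K.subgroupOf S)
  have := Fact.mk hp
  have hNn : N.Normal := Subgroup.normal_of_characteristic N
  let P₀ : Sylow p S := default
  have hle : N ≤ (P₀ : Subgroup S).map (QuotientGroup.mk' (K.subgroupOf S)) := by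
    have := hNp.le_sylow_of_normal
      (P₀.mapSurjective (QuotientGroup.mk'_surjective (K.subgroupOf S)))
    rwa [Sylow.coe_mapSurjective] at this
  set T' : Subgroup S := N.comap (QuotientGroup.mk' (K.subgroupOf S)) with hT'
  have hT'n : T'.Normal := hNn.comap _
  refine ⟨p, hp, T'.map S.subtype, ((P₀ : Subgroup S) ⊓ T').map S.subtype, Subgroup.map_subtype_le T',
    Subgroup.map_mono inf_le_right, ?_, ?_, ?_, ?_⟩
  · rintro s hs _ ⟨t, ht, rfl⟩
    exact ⟨⟨s, hs⟩ * t * ⟨s, hs⟩⁻¹, hT'n.conj_mem t ht ⟨s, hs⟩, rfl⟩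
  · exact (P₀.2.to_le inf_le_left).map S.subtype
  · rintro _ ⟨t, ht, rfl⟩
    obtain ⟨x, hx, hxt⟩ := hle (Subgroup.mem_comap.mp ht)
    have hxT : x ∈ T' := by
      rw [hT', Subgroup.mem_comap, hxt]
      exact Subgroup.mem_comap.mp ht
    have hk : x⁻¹ * t ∈ K.subgroupOf S := QuotientGroup.eq.mp hxt
    refine ⟨x, ⟨x, ⟨hx, hxT⟩, rfl⟩, ((x⁻¹ * t : S) : Γ), Subgroup.mem_subgroupOf.mp hk, ?_⟩
    simp
  · intro hTK
    apply hNne
    rw [eq_bot_iff]
    intro n hn
    obtain ⟨t, rfl⟩ := QuotientGroup.mk'_surjective (K.subgroupOf S) n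
    have h1 : (t : Γ) ∈ K := hTK ⟨t, Subgroup.mem_comap.mpr hn, rfl⟩
    rw [Subgroup.mem_bot]
    exact (QuotientGroup.eq_one_iff t).mpr (Subgroup.mem_subgroupOf.mpr h1)

theorem GlaubP.card_restrict {p : ℕ} (hp : p.Prime) {A D : Type u} [Group A] [Group D] [Fintype D]
    {j : D →* A} {Inv₁ : (A → ℂ) → Prop} {I : Type v} (a : I → A ≃* A) (d : I → D ≃* D)
    (hcompat : ∀ i x, a i (j x) = j (d i x))
    (hInva : ∀ i (χ : A → ℂ), Inv₁ χ → Inv₁ (fun x => χ (a i x)))
    (H : GlaubP p j Inv₁) :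
    Nat.card {χ : IrrCharacter A // Inv₁ χ ∧ ∀ i x, (χ : A → ℂ) (a i x) = (χ : A → ℂ) x}
      = Nat.card {β : IrrCharacter D // ∀ i x, (β : D → ℂ) (d i x) = (β : D → ℂ) x} := by
  obtain ⟨H1, H2, H3⟩ := H
  have key : ∀ χ : {χ : IrrCharacter A // Inv₁ χ ∧ ∀ i x, (χ : A → ℂ) (a i x) = (χ : A → ℂ) x},
      ∃ β : {β : IrrCharacter D // ∀ i x, (β : D → ℂ) (d i x) = (β : D → ℂ) x},
        Corr p j (χ.1 : A → ℂ) β.1 := by
    rintro ⟨χ, h1, h2⟩
    obtain ⟨β, h3⟩ := H1 χ h1
    refine ⟨⟨β, ?_⟩, h3⟩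
    intro i x
    have h4 := Corr.equiv (a i) (d i) (hcompat i) h3
    have h5 : (fun x => (χ : A → ℂ) (a i x)) = χ := funext (h2 i)
    rw [h5] at h4
    rw [← irrCongr_apply, Corr.unique hp h4 h3]
  choose f hf using key
  apply Nat.card_congr (Equiv.ofBijective f ⟨?_, ?_⟩)
  · intro χ χ' h
    have h1 := hf χ
    rw [h] at h1
    exact Subtype.ext (H2 χ.1 χ'.1 _ χ.2.1 χ'.2.1 h1 (hf χ'))
  · rintro ⟨β, hβ⟩
    obtain ⟨χ, h3, h4⟩ := H3 β
    have h5 : ∀ i x, (χ : A → ℂ) (a i x) = (χ : A → ℂ) x := by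
      intro i x
      have h5 := Corr.equiv (a i) (d i) (hcompat i) h4
      have h6 : irrCongr (d i) β = β := Subtype.ext (funext (hβ i))
      rw [h6] at h5
      rw [← irrCongr_apply, H2 (irrCongr (a i) χ) χ β (hInva i χ h3) h3 h5 h4]
    refine ⟨⟨χ, h3, h5⟩, ?_⟩
    exact Subtype.ext (Corr.unique hp (hf ⟨χ, h3, h5⟩) h4)

theorem card_irr_inv {Γ : Type u} [Group Γ] [Fintype Γ] : ∀ (n : ℕ) (G S : Subgroup Γ),
    Nat.card G = n → (∀ s ∈ S, ∀ g ∈ G, s * g * s⁻¹ ∈ G) → (Nat.card G).Coprime (Nat.card S) →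
    Group.IsSolvable S →
    Nat.card {χ : IrrCharacter G // InvUnder G S χ}
      = Nat.card (IrrCharacter ↥(G ⊓ Subgroup.centralizer (S : Set Γ))) := by
  classical
  intro n
  induction n using Nat.strong_induction_on with
  | _ n ih =>
  intro G S hn hnorm hcop hsolv
  have hnorm' : ∀ s ∈ S, ∀ g ∈ G, s⁻¹ * g * s ∈ G := by
    intro s hs g hg
    simpa using hnorm s⁻¹ (S.inv_mem hs) g hg
  set K : Subgroup Γ := S ⊓ Subgroup.centralizer (G : Set Γ) with hK
  by_cases hKS : K = S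
  · have h1 : S ≤ Subgroup.centralizer (G : Set Γ) := by
      rw [← hKS]; exact inf_le_right
    have h2 : G ⊓ Subgroup.centralizer (S : Set Γ) = G :=
      inf_eq_left.mpr (Subgroup.le_centralizer_iff.mp h1)
    rw [h2]
    apply Nat.card_congr (Equiv.subtypeUnivEquiv ?_)
    intro χ s hs g g' hg
    have h3 := Subgroup.mem_centralizer_iff.mp (h1 hs) g g.2
    have : g' = g := by
      apply Subtype.ext
      rw [hg, ← h3]
      simp
    rw [this]
  · have hKn : ∀ s ∈ S, ∀ k ∈ K, s * k * s⁻¹ ∈ K := by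
      intro s hs k hk
      refine Subgroup.mem_inf.mpr ⟨S.mul_mem (S.mul_mem hs hk.1) (S.inv_mem hs), ?_⟩
      rw [Subgroup.mem_centralizer_iff]
      intro g hg
      have h3 := Subgroup.mem_centralizer_iff.mp hk.2 _ (hnorm' s hs g hg)
      calc g * (s * k * s⁻¹) = s * ((s⁻¹ * g * s) * k) * s⁻¹ := by group
        _ = s * (k * (s⁻¹ * g * s)) * s⁻¹ := by rw [h3]
        _ = _ := by group
    obtain ⟨p, hp, T, P, hTS, hPT, hTn, hP, hdec, hTK⟩ :=
      exists_rel_pgroup S K hsolv inf_le_left hKn hKS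
    set B : Subgroup Γ := G ⊓ Subgroup.centralizer (T : Set Γ) with hB
    have hBG : B ≤ G := inf_le_left
    have hBP : B = G ⊓ Subgroup.centralizer (P : Set Γ) := by
      apply le_antisymm
      · exact le_inf inf_le_left (inf_le_right.trans (Subgroup.centralizer_le hPT))
      · intro g hg
        refine Subgroup.mem_inf.mpr ⟨hg.1, ?_⟩
        rw [Subgroup.mem_centralizer_iff]
        intro t ht
        obtain ⟨x, hx, k, hk, rfl⟩ := hdec t ht
        have e1 := Subgroup.mem_centralizer_iff.mp hg.2 x hx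
        have e2 := Subgroup.mem_centralizer_iff.mp hk.2 g hg.1
        rw [mul_assoc, ← e2, ← mul_assoc, e1, mul_assoc]
    have hinvPT : ∀ χ : IrrCharacter G, InvUnder G P χ ↔ InvUnder G T χ := by
      intro χ
      constructor
      · intro h t ht g g' hg
        obtain ⟨x, hx, k, hk, rfl⟩ := hdec t ht
        apply h x hx
        rw [hg]
        have e2 := Subgroup.mem_centralizer_iff.mp hk.2 g g.2
        calc x * k * g * (x * k)⁻¹ = x * (k * g) * k⁻¹ * x⁻¹ := by group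
          _ = x * (g * k) * k⁻¹ * x⁻¹ := by rw [e2]
          _ = _ := by group
      · intro h t ht
        exact h t (hPT ht)
    have hBn : ∀ s ∈ S, ∀ b ∈ B, s * b * s⁻¹ ∈ B := by
      intro s hs
      apply conj_mem_fix G T s (hnorm s hs)
      intro t ht
      simpa using hTn s⁻¹ (S.inv_mem hs) t ht
    have hBn' : ∀ s ∈ S, ∀ b ∈ B, s⁻¹ * b * s ∈ B := by
      intro s hs b hb
      simpa using hBn s⁻¹ (S.inv_mem hs) b hb
    have hBlt : Nat.card B < n := by
      rw [← hn]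
      apply H1.card_lt_card_of_lt (lt_of_le_of_ne hBG ?_)
      intro h
      apply hTK
      have h1 : G ≤ Subgroup.centralizer (T : Set Γ) := by
        rw [← h]; exact inf_le_right
      exact le_inf hTS (Subgroup.le_centralizer_iff.mp h1)
    have hPS : P ≤ S := hPT.trans hTS
    have H := glaubP_pgroup hp G _ P rfl (fun s hs => hnorm s (hPS hs))
      (Nat.Coprime.coprime_dvd_right (Subgroup.card_dvd_of_le hPS) hcop) hP B hBP hBG
    have H' := GlaubP.congr_inv hinvPT H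
    have hcount := GlaubP.card_restrict hp
      (fun s : S => conjE G s (hnorm s s.2) (hnorm' s s.2))
      (fun s : S => conjE B s (hBn s s.2) (hBn' s s.2)) (fun s x => rfl) (by
        intro s χ hχ t ht g g' hg
        apply hχ ((s : Γ) * t * (s : Γ)⁻¹) (hTn s s.2 t ht)
        rw [conjE_coe, conjE_coe, hg]
        group) H'
    have hIH := ih (Nat.card B) hBlt B S rfl hBn
      (Nat.Coprime.coprime_dvd_left (Subgroup.card_dvd_of_le hBG) hcop) hsolv
    have hBC : B ⊓ Subgroup.centralizer (S : Set Γ) = G ⊓ Subgroup.centralizer (S : Set Γ) := by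
      apply le_antisymm
      · exact le_inf (inf_le_left.trans hBG) inf_le_right
      · exact le_inf (le_inf inf_le_left (inf_le_right.trans (Subgroup.centralizer_le hTS)))
          inf_le_right
    rw [hBC] at hIH
    rw [← hIH]
    refine Eq.trans ?_ (hcount.trans ?_)
    · apply Nat.card_congr (Equiv.subtypeEquivRight ?_)
      intro χ
      constructor
      · intro h
        exact ⟨fun t ht => h t (hTS ht), fun s =>
          (invBy_iff_conjE G s (hnorm s s.2) (hnorm' s s.2) χ).mp (h s s.2)⟩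
      · rintro ⟨-, h⟩ s hs
        exact (invBy_iff_conjE G s (hnorm s hs) (hnorm' s hs) χ).mpr (h ⟨s, hs⟩)
    · apply Nat.card_congr (Equiv.subtypeEquivRight ?_)
      intro β
      constructor
      · intro h s hs
        exact (invBy_iff_conjE B s (hBn s hs) (hBn' s hs) β).mpr (h ⟨s, hs⟩)
      · intro h s
        exact (invBy_iff_conjE B s (hBn s s.2) (hBn' s s.2) β).mp (h s s.2)

end Cfsg.Agent.H2
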