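import Cfsg.Agent.Lib_helper2_Glaub11
import Cfsg.Agent.Lib_helper1_Coprime

set_option autoImplicit false
set_option linter.unusedSectionVars false
open Cfsg
open Pointwise

namespace Cfsg.Agent.H2

open Cfsg.Agent.H4
universe u v

theorem card_classes_inv {Γ : Type u} [Group Γ] [Fintype Γ] (G S : Subgroup Γ)
    (hnorm : ∀ s ∈ S, ∀ g ∈ G, s * g * s⁻¹ ∈ G) (hcop : (Nat.card G).Coprime (Nat.card S))
    (hsolv : Group.IsSolvable S) :
    Nat.card {K : ConjClasses G // ∀ s ∈ S, ∀ g g' : G, (g' : Γ) = s * g * s⁻¹ →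
        ConjClasses.mk g = K → ConjClasses.mk g' = K}
      = Nat.card (ConjClasses ↥(G ⊓ Subgroup.centralizer (S : Set Γ))) := by
  classical
  set C : Subgroup Γ := G ⊓ Subgroup.centralizer (S : Set Γ) with hC
  have hCG : C ≤ G := inf_le_left
  have hSN : S ≤ Subgroup.normalizer (G : Set Γ) := H1.le_normalizer_of_forall hnorm
  have hCS : ∀ c ∈ C, ∀ s ∈ S, s * c * s⁻¹ = c := by
    intro c hc s hs
    rw [Subgroup.mem_centralizer_iff.mp hc.2 s hs]
    simp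
  have hinv : ∀ k : ConjClasses C, ∀ s ∈ S, ∀ g g' : G, (g' : Γ) = s * g * s⁻¹ →
      ConjClasses.mk g = ConjClasses.map (Subgroup.inclusion hCG) k →
      ConjClasses.mk g' = ConjClasses.map (Subgroup.inclusion hCG) k := by
    intro k
    obtain ⟨c, rfl⟩ := ConjClasses.exists_rep k
    intro s hs g g' hg h
    have h' : ConjClasses.mk g = ConjClasses.mk (Subgroup.inclusion hCG c) := h
    show ConjClasses.mk g' = ConjClasses.mk (Subgroup.inclusion hCG c)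
    rw [ConjClasses.mk_eq_mk_iff_isConj, isConj_iff] at h' ⊢
    obtain ⟨x, hx⟩ := h'
    refine ⟨⟨s * x * s⁻¹, hnorm s hs x x.2⟩, ?_⟩
    apply Subtype.ext
    have hx' : (x : Γ) * g * (x : Γ)⁻¹ = c := congrArg Subtype.val hx
    show s * x * s⁻¹ * (g' : Γ) * (s * x * s⁻¹)⁻¹ = c
    rw [hg]
    calc s * x * s⁻¹ * (s * g * s⁻¹) * (s * x * s⁻¹)⁻¹ = s * ((x : Γ) * g * (x : Γ)⁻¹) * s⁻¹ := by
          group
      _ = c := by rw [hx', hCS c c.2 s hs]
  symm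
  apply Nat.card_congr (Equiv.ofBijective
    (fun k : ConjClasses C => (⟨ConjClasses.map (Subgroup.inclusion hCG) k, hinv k⟩ :
      {K : ConjClasses G // ∀ s ∈ S, ∀ g g' : G, (g' : Γ) = s * g * s⁻¹ →
        ConjClasses.mk g = K → ConjClasses.mk g' = K})) ⟨?_, ?_⟩)
  · intro k k' h
    have h0 := congrArg Subtype.val h
    simp only at h0
    obtain ⟨c, rfl⟩ := ConjClasses.exists_rep k
    obtain ⟨c', rfl⟩ := ConjClasses.exists_rep k'
    have h1 : ConjClasses.mk (Subgroup.inclusion hCG c) = ConjClasses.mk (Subgroup.inclusion hCG c') :=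
      h0
    rw [ConjClasses.mk_eq_mk_iff_isConj, isConj_iff] at h1 ⊢
    obtain ⟨x, hx⟩ := h1
    have hx' : (x : Γ) * c * (x : Γ)⁻¹ = c' := congrArg Subtype.val hx
    have hAS : S ≤ Subgroup.centralizer ({(c' : Γ)} : Set Γ) := by
      intro s hs
      rw [Subgroup.mem_centralizer_singleton_iff]
      have := hCS c' c'.2 s hs
      rw [mul_inv_eq_iff_eq_mul] at this
      exact this
    have hkS : MulAut.conj (x : Γ) • S ≤ Subgroup.centralizer ({(c' : Γ)} : Set Γ) := by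
      intro y hy
      rw [H1.mem_conj_smul] at hy
      rw [Subgroup.mem_centralizer_singleton_iff]
      have h2 := hCS c c.2 _ hy
      rw [← hx']
      rw [mul_inv_eq_iff_eq_mul] at h2
      calc y * ((x : Γ) * c * (x : Γ)⁻¹) = x * (((x : Γ)⁻¹ * y * x) * c) * (x : Γ)⁻¹ := by group
        _ = x * (c * ((x : Γ)⁻¹ * y * x)) * (x : Γ)⁻¹ := by rw [h2]
        _ = _ := by group
    obtain ⟨c₀, hc₀, hc₀x⟩ := H1.glauberman_conj S G _ hSN hcop.symm (Or.inl hsolv) hAS x x.2 hkS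
    refine ⟨⟨c₀ * x, Subgroup.mem_inf.mpr ⟨G.mul_mem hc₀.1 x.2, hc₀x⟩⟩, ?_⟩
    apply Subtype.ext
    show c₀ * x * (c : Γ) * (c₀ * x)⁻¹ = c'
    have h3 := Subgroup.mem_centralizer_singleton_iff.mp hc₀.2
    calc c₀ * x * (c : Γ) * (c₀ * x)⁻¹ = c₀ * ((x : Γ) * c * (x : Γ)⁻¹) * c₀⁻¹ := by group
      _ = c' := by rw [hx', h3]; simp
  · rintro ⟨K, hK⟩
    obtain ⟨g₀, rfl⟩ := ConjClasses.exists_rep K
    have hex : ∀ a ∈ S, ∃ k ∈ G, k * a ∈ Subgroup.centralizer ({(g₀ : Γ)} : Set Γ) := by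
      intro a ha
      have h1 := hK a ha g₀ ⟨a * g₀ * a⁻¹, hnorm a ha g₀ g₀.2⟩ rfl rfl
      rw [ConjClasses.mk_eq_mk_iff_isConj, isConj_iff] at h1
      obtain ⟨k, hk⟩ := h1
      have hk' : (k : Γ) * (a * g₀ * a⁻¹) * (k : Γ)⁻¹ = g₀ := congrArg Subtype.val hk
      refine ⟨k, k.2, ?_⟩
      rw [Subgroup.mem_centralizer_singleton_iff]
      calc (k : Γ) * a * g₀ = ((k : Γ) * (a * g₀ * a⁻¹) * (k : Γ)⁻¹) * (k * a) := by group
        _ = _ := by rw [hk']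
    obtain ⟨k, hk, hkS⟩ := H1.glauberman_exists S G _ hSN hcop.symm (Or.inl hsolv) hex
    have hcC : k⁻¹ * g₀ * k ∈ C := by
      refine Subgroup.mem_inf.mpr ⟨G.mul_mem (G.mul_mem (G.inv_mem hk) g₀.2) hk, ?_⟩
      rw [Subgroup.mem_centralizer_iff]
      intro s hs
      have h1 : k * s * k⁻¹ ∈ MulAut.conj k • S := by
        rw [H1.mem_conj_smul]
        simpa [mul_assoc] using hs
      have h2 := Subgroup.mem_centralizer_singleton_iff.mp (hkS h1)
      calc s * (k⁻¹ * g₀ * k) = k⁻¹ * ((k * s * k⁻¹) * g₀) * k := by group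
        _ = k⁻¹ * (g₀ * (k * s * k⁻¹)) * k := by rw [h2]
        _ = _ := by group
    refine ⟨ConjClasses.mk ⟨k⁻¹ * g₀ * k, hcC⟩, ?_⟩
    apply Subtype.ext
    show ConjClasses.mk (Subgroup.inclusion hCG ⟨k⁻¹ * g₀ * k, hcC⟩) = ConjClasses.mk g₀
    rw [ConjClasses.mk_eq_mk_iff_isConj, isConj_iff]
    refine ⟨⟨k, hk⟩, ?_⟩
    apply Subtype.ext
    show k * (k⁻¹ * g₀ * k) * k⁻¹ = g₀
    group

end Cfsg.Agent.H2
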