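import Cfsg.Agent.Lib_helper2_Glaub1
import Cfsg.Agent.Lib_helper4_CharN

set_option autoImplicit false
set_option linter.unusedSectionVars false
open Cfsg

namespace Cfsg.Agent.H2

open Cfsg.Agent.H4
open scoped ComplexConjugate
universe u v

theorem avg_isCharacter {D : Type u} [Group D] [Fintype D] (N : Subgroup D) [hN : N.Normal] [Fintype N]
    {Φ : D → ℂ} (hΦ : IsCharacter D Φ) :
    IsCharacter D (fun g => (Nat.card N : ℂ)⁻¹ * ∑ n : N, Φ ((n : D) * g)) := by
  classical
  have := Fintype.ofFinite (IrrCharacter D)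
  rw [avgN_expansion N Φ (IsCharacter.isClassFunction hΦ)]
  apply IsCharacter.sum
  intro β _
  obtain ⟨e, he⟩ := IsCharacter.classInner_irr_nat hΦ β
  split_ifs
  · rw [he]
    exact IsCharacter.nsmul e (IsIrrCharacter.isCharacter β.2)
  · rw [zero_smul]
    exact IsCharacter.zero

section
variable {Γ : Type u} [Group Γ] [Fintype Γ] (C S : Subgroup Γ) [Fintype C]
  (hCS : ∀ c ∈ C, ∀ t ∈ S, c * t = t * c)

/-- multiplication `C × S → Γ` for commuting subgroups -/
def mulHomCS : C × S →* Γ where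
  toFun p := (p.1 : Γ) * (p.2 : Γ)
  map_one' := by simp
  map_mul' a b := by
    simp only [Prod.fst_mul, Prod.snd_mul, Subgroup.coe_mul]
    have := hCS b.1 b.1.2 a.2 a.2.2
    calc (a.1 : Γ) * b.1 * (a.2 * b.2) = a.1 * (b.1 * a.2) * b.2 := by group
      _ = a.1 * (a.2 * b.1) * b.2 := by rw [this]
      _ = _ := by group

include hCS in
/-- the multiplicity function of `γ` in `χ` along `S` is a character of `S`. -/
theorem mult_isCharacter {χh : Γ → ℂ} (hχh : IsCharacter Γ χh) {γ : C → ℂ} (hγ : IsCharacter C γ) :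
    IsCharacter S (fun t : S => classInner (fun c : C => χh ((c : Γ) * t)) γ) := by
  classical
  have := Fintype.ofFinite S
  let j := mulHomCS C S hCS
  let Φ : C × S → ℂ := (fun p => χh (j p)) * (fun p => conj (γ p.1))
  have hΦ : IsCharacter (C × S) Φ :=
    IsCharacter.mul (IsCharacter.comp j hχh)
      (IsCharacter.conj (IsCharacter.comp (MonoidHom.fst C S) hγ))
  let N : Subgroup (C × S) := (MonoidHom.inl C S).range
  have hNn : N.Normal := by
    constructor
    rintro _ ⟨c, rfl⟩ x
    refine ⟨x.1 * c * x.1⁻¹, ?_⟩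
    apply Prod.ext <;> simp
  have := Fintype.ofFinite N
  have hinj : Function.Injective (MonoidHom.inl C S) := fun a b h => congrArg Prod.fst h
  let e : C ≃* N := MonoidHom.ofInjective hinj
  have h1 := IsCharacter.comp (MonoidHom.inr C S) (avg_isCharacter N hΦ)
  have h2 : (fun t : S => classInner (fun c : C => χh ((c : Γ) * t)) γ)
      = fun t : S => (fun g => (Nat.card N : ℂ)⁻¹ * ∑ n : N, Φ ((n : C × S) * g))
        (MonoidHom.inr C S t) := by
    funext t
    unfold classInner
    rw [Nat.card_congr e.toEquiv]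
    congr 1
    rw [← Equiv.sum_comp e.toEquiv]
    apply Finset.sum_congr rfl
    intro c _
    have h3 : ((e.toEquiv c : N) : C × S) * MonoidHom.inr C S t = (c, t) := by
      show (MonoidHom.inl C S c) * MonoidHom.inr C S t = (c, t)
      apply Prod.ext <;> simp
    rw [h3]
    rfl
  rw [h2]
  exact h1

end

section
variable {Γ : Type u} [Group Γ] [Fintype Γ] (G S : Subgroup Γ) [hG : G.Normal]
  (hcop : (Nat.card G).Coprime (Nat.card S)) (htop : G ⊔ S = ⊤)
  (hScomm : ∀ a b : S, a * b = b * a)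
  (χh : Γ → ℂ) (hχh : IsIrrCharacter Γ χh)
  (hres : IsIrrCharacter G (fun g : G => χh g)) (hdet : (detOrder χh).Coprime (Nat.card S))

include hcop htop hScomm hχh hres hdet in
theorem canonical_shift {c s : Γ} (hc : c ∈ G) (hs : s ∈ S) (hcs : c * s = s * c) (j : ℕ)
    (hj : j.Coprime (Nat.card S)) : χh (c * s ^ j) = χh (c * s) := by
  obtain ⟨k, hk1, hk2⟩ := Nat.chineseRemainder hcop 1 j
  have hk3 : k.Coprime (Nat.card S) := by
    have := hk2.gcd_eq
    rw [Nat.Coprime, this]
    exact hj
  rw [← canonical_gal G S hcop htop hScomm χh hχh hres hdet k hk1 hk3 (c * s),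
    (show Commute c s from hcs).mul_pow, pow_eq_self_of_mem G hc hk1, pow_eq_pow_of_mem S hs hk2]

include hcop htop hScomm hχh hres hdet in
/-- integrality of the coefficients -/
theorem canonical_int (C : Subgroup Γ) [Fintype C] (hCG : C ≤ G)
    (hCS : ∀ c ∈ C, ∀ t ∈ S, c * t = t * c) {s : Γ} (hs : s ∈ S) {γ : C → ℂ}
    (hγ : IsCharacter C γ) :
    ∃ z : ℤ, classInner (fun c : C => χh ((c : Γ) * s)) γ = z := by
  have h1 := mult_isCharacter C S hCS (IsIrrCharacter.isCharacter hχh) hγ
  have h2 := IsCharacter.gal_fixed h1 ⟨s, hs⟩ (by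
    intro m hm
    show classInner (fun c : C => χh ((c : Γ) * (((⟨s, hs⟩ : S) ^ m : S) : Γ))) γ
      = classInner (fun c : C => χh ((c : Γ) * s)) γ
    congr 1
    funext c
    rw [Subgroup.coe_pow]
    exact canonical_shift G S hcop htop hScomm χh hχh hres hdet (hCG c.2) hs (hCS c c.2 s hs) m hm)
  exact h2

end

end Cfsg.Agent.H2
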