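import Cfsg.Agent.Lib_helper2_Glaub12

set_option autoImplicit false
set_option linter.unusedSectionVars false
open Cfsg
open Pointwise

namespace Cfsg.Agent.H2

open Cfsg.Agent.H4
open scoped ComplexConjugate
universe u v

/-- the complex conjugate of an irreducible character -/
noncomputable def irrConj {D : Type u} [Group D] [Finite D] (β : IrrCharacter D) : IrrCharacter D :=
  ⟨fun x => conj ((β : D → ℂ) x), IsIrrCharacter.conj β.2⟩

theorem irrConj_apply {D : Type u} [Group D] [Finite D] (β : IrrCharacter D) (x : D) :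
    (irrConj β : D → ℂ) x = conj ((β : D → ℂ) x) := rfl

theorem irrConj_irrConj {D : Type u} [Group D] [Finite D] (β : IrrCharacter D) :
    irrConj (irrConj β) = β := by
  apply Subtype.ext
  funext x
  simp [irrConj_apply]

theorem irrConj_eq_iff {D : Type u} [Group D] [Finite D] (β : IrrCharacter D) :
    irrConj β = β ↔ ∀ x, ((β : D → ℂ) x).im = 0 := by
  constructor
  · intro h x
    have := congrFun (congrArg Subtype.val h) x
    exact Complex.conj_eq_iff_im.mp this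
  · intro h
    apply Subtype.ext
    funext x
    exact Complex.conj_eq_iff_im.mpr (h x)

theorem classInner_conj_conj {D : Type u} [Group D] [Fintype D] (f g : D → ℂ) :
    classInner (fun x => conj (f x)) (fun x => conj (g x)) = conj (classInner f g) := by
  unfold classInner
  simp [map_sum]

theorem Corr.conj {p : ℕ} {A D : Type u} [Group A] [Group D] [Fintype D] {j : D →* A} {χ : A → ℂ}
    {β : IrrCharacter D} (h : Corr p j χ β) : Corr p j (fun a => conj (χ a)) (irrConj β) := by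
  obtain ⟨ε, hε, h⟩ := h
  refine ⟨ε, hε, ?_⟩
  intro δ'
  obtain ⟨m, h1, h2, h3⟩ := h (irrConj δ')
  refine ⟨m, ?_, ?_, ?_⟩
  · have h4 := classInner_conj_conj (fun d => χ (j d)) (irrConj δ' : D → ℂ)
    have e : (fun x => conj ((irrConj δ' : D → ℂ) x)) = δ' := by
      funext x; simp [irrConj_apply]
    rw [e, h1] at h4
    rw [h4]; simp
  · intro hδ; apply h2; rw [hδ, irrConj_irrConj]
  · intro hδ; apply h3; intro h4; apply hδ; rw [← irrConj_irrConj δ', h4]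

theorem GlaubP.card_real {p : ℕ} (hp : p.Prime) {A D : Type u} [Group A] [Finite A] [Group D]
    [Fintype D] {j : D →* A} {Inv₁ : (A → ℂ) → Prop}
    (hInva : ∀ (χ : A → ℂ), Inv₁ χ → Inv₁ (fun x => conj (χ x)))
    (H : GlaubP p j Inv₁) :
    Nat.card {χ : IrrCharacter A // (∀ x, ((χ : A → ℂ) x).im = 0) ∧ Inv₁ χ}
      = Nat.card {β : IrrCharacter D // ∀ x, ((β : D → ℂ) x).im = 0} := by
  obtain ⟨H1, H2, H3⟩ := H
  have key : ∀ χ : {χ : IrrCharacter A // (∀ x, ((χ : A → ℂ) x).im = 0) ∧ Inv₁ χ},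
      ∃ β : {β : IrrCharacter D // ∀ x, ((β : D → ℂ) x).im = 0},
        Corr p j (χ.1 : A → ℂ) β.1 := by
    rintro ⟨χ, h2, h1⟩
    obtain ⟨β, h3⟩ := H1 χ h1
    refine ⟨⟨β, ?_⟩, h3⟩
    rw [← irrConj_eq_iff]
    have h4 := Corr.conj h3
    have h5 : (fun x => conj ((χ : A → ℂ) x)) = χ :=
      congrArg Subtype.val ((irrConj_eq_iff χ).mpr h2)
    rw [h5] at h4
    exact Corr.unique hp h4 h3
  choose f hf using key
  apply Nat.card_congr (Equiv.ofBijective f ⟨?_, ?_⟩)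
  · intro χ χ' h
    have h1 := hf χ
    rw [h] at h1
    exact Subtype.ext (H2 χ.1 χ'.1 _ χ.2.2 χ'.2.2 h1 (hf χ'))
  · rintro ⟨β, hβ⟩
    obtain ⟨χ, h3, h4⟩ := H3 β
    have h5 : ∀ x, ((χ : A → ℂ) x).im = 0 := by
      rw [← irrConj_eq_iff]
      have h5 := Corr.conj h4
      rw [(irrConj_eq_iff β).mpr hβ] at h5
      exact H2 (irrConj χ) χ β (hInva χ h3) h3 h5 h4
    refine ⟨⟨χ, h5, h3⟩, ?_⟩
    exact Subtype.ext (Corr.unique hp (hf ⟨χ, h5, h3⟩) h4)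

section classes
variable {Γ : Type u} [Group Γ] [Finite Γ] (G S : Subgroup Γ)
  (hnorm : ∀ s ∈ S, ∀ g ∈ G, s * g * s⁻¹ ∈ G) (hcop : (Nat.card G).Coprime (Nat.card S))
  (hsolv : Group.IsSolvable S)

include hnorm hcop hsolv in
theorem fix_conj_of_conj {c c' x : Γ} (hc : c ∈ G ⊓ Subgroup.centralizer (S : Set Γ))
    (hc' : c' ∈ G ⊓ Subgroup.centralizer (S : Set Γ)) (hx : x ∈ G) (hx' : x * c * x⁻¹ = c') :
    ∃ y ∈ G ⊓ Subgroup.centralizer (S : Set Γ), y * c * y⁻¹ = c' := by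
  have hSN : S ≤ Subgroup.normalizer (G : Set Γ) := H1.le_normalizer_of_forall hnorm
  have hCS : ∀ c ∈ G ⊓ Subgroup.centralizer (S : Set Γ), ∀ s ∈ S, s * c * s⁻¹ = c := by
    intro c hc s hs
    rw [Subgroup.mem_centralizer_iff.mp hc.2 s hs]
    simp
  have hAS : S ≤ Subgroup.centralizer ({(c' : Γ)} : Set Γ) := by
    intro s hs
    rw [Subgroup.mem_centralizer_singleton_iff]
    have := hCS c' hc' s hs
    rw [mul_inv_eq_iff_eq_mul] at this
    exact this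
  have hkS : MulAut.conj (x : Γ) • S ≤ Subgroup.centralizer ({(c' : Γ)} : Set Γ) := by
    intro y hy
    rw [H1.mem_conj_smul] at hy
    rw [Subgroup.mem_centralizer_singleton_iff]
    have h2 := hCS c hc _ hy
    rw [← hx']
    rw [mul_inv_eq_iff_eq_mul] at h2
    calc y * ((x : Γ) * c * (x : Γ)⁻¹) = x * (((x : Γ)⁻¹ * y * x) * c) * (x : Γ)⁻¹ := by group
      _ = x * (c * ((x : Γ)⁻¹ * y * x)) * (x : Γ)⁻¹ := by rw [h2]
      _ = _ := by group
  obtain ⟨c₀, hc₀, hc₀x⟩ := H1.glauberman_conj S G _ hSN hcop.symm (Or.inl hsolv) hAS x hx hkS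
  refine ⟨c₀ * x, Subgroup.mem_inf.mpr ⟨G.mul_mem hc₀.1 hx, hc₀x⟩, ?_⟩
  have h3 := Subgroup.mem_centralizer_singleton_iff.mp hc₀.2
  calc c₀ * x * (c : Γ) * (c₀ * x)⁻¹ = c₀ * ((x : Γ) * c * (x : Γ)⁻¹) * c₀⁻¹ := by group
    _ = c' := by rw [hx', h3]; simp

include hnorm hcop hsolv in
theorem exists_fix_of_inv_class {g₀ : Γ} (hg₀ : g₀ ∈ G)
    (h : ∀ a ∈ S, ∃ k ∈ G, k * (a * g₀ * a⁻¹) * k⁻¹ = g₀) :
    ∃ k ∈ G, k⁻¹ * g₀ * k ∈ G ⊓ Subgroup.centralizer (S : Set Γ) := by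
  have hSN : S ≤ Subgroup.normalizer (G : Set Γ) := H1.le_normalizer_of_forall hnorm
  have hex : ∀ a ∈ S, ∃ k ∈ G, k * a ∈ Subgroup.centralizer ({(g₀ : Γ)} : Set Γ) := by
    intro a ha
    obtain ⟨k, hk, hk'⟩ := h a ha
    refine ⟨k, hk, ?_⟩
    rw [Subgroup.mem_centralizer_singleton_iff]
    calc (k : Γ) * a * g₀ = ((k : Γ) * (a * g₀ * a⁻¹) * (k : Γ)⁻¹) * (k * a) := by group
      _ = _ := by rw [hk']
  obtain ⟨k, hk, hkS⟩ := H1.glauberman_exists S G _ hSN hcop.symm (Or.inl hsolv) hex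
  refine ⟨k, hk, Subgroup.mem_inf.mpr ⟨G.mul_mem (G.mul_mem (G.inv_mem hk) hg₀) hk, ?_⟩⟩
  rw [Subgroup.mem_centralizer_iff]
  intro s hs
  have h1 : k * s * k⁻¹ ∈ MulAut.conj k • S := by
    rw [H1.mem_conj_smul]
    simpa [mul_assoc] using hs
  have h2 := Subgroup.mem_centralizer_singleton_iff.mp (hkS h1)
  calc s * (k⁻¹ * g₀ * k) = k⁻¹ * ((k * s * k⁻¹) * g₀) * k := by group
    _ = k⁻¹ * (g₀ * (k * s * k⁻¹)) * k := by rw [h2]
    _ = _ := by group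

end classes

theorem real_class_iff {X : Type u} [Group X] (g : X) :
    (∀ k : X, ConjClasses.mk k = ConjClasses.mk g → IsConj k k⁻¹) ↔ IsConj g g⁻¹ := by
  constructor
  · intro h
    exact h g rfl
  · intro h k hk
    rw [ConjClasses.mk_eq_mk_iff_isConj] at hk
    obtain ⟨c, hc⟩ := isConj_iff.mp hk
    have h2 : IsConj g⁻¹ k⁻¹ := isConj_iff.mpr ⟨c⁻¹, by rw [← hc]; group⟩
    exact (hk.trans h).trans h2

theorem card_real_classes_inv {Γ : Type u} [Group Γ] [Finite Γ] (G S : Subgroup Γ)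
    (hnorm : ∀ s ∈ S, ∀ g ∈ G, s * g * s⁻¹ ∈ G) (hcop : (Nat.card G).Coprime (Nat.card S))
    (hsolv : Group.IsSolvable S) :
    Nat.card {c : ConjClasses G // (∀ k : G, ConjClasses.mk k = c → IsConj k k⁻¹) ∧
        ∀ k : G, ConjClasses.mk k = c → ∀ x ∈ S, ∀ k' : G, (k' : Γ) = x * k * x⁻¹ →
          ConjClasses.mk k' = c}
      = Nat.card {c : ConjClasses ↥(G ⊓ Subgroup.centralizer (S : Set Γ)) //
          ∀ k, ConjClasses.mk k = c → IsConj k k⁻¹} := by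
  classical
  have hCG : G ⊓ Subgroup.centralizer (S : Set Γ) ≤ G := inf_le_left
  have hCS : ∀ c ∈ G ⊓ Subgroup.centralizer (S : Set Γ), ∀ s ∈ S, s * c * s⁻¹ = c := by
    intro c hc s hs
    rw [Subgroup.mem_centralizer_iff.mp hc.2 s hs]
    simp
  have hwd : ∀ k : {c : ConjClasses ↥(G ⊓ Subgroup.centralizer (S : Set Γ)) //
          ∀ k, ConjClasses.mk k = c → IsConj k k⁻¹},
      (∀ g : G, ConjClasses.mk g = ConjClasses.map (Subgroup.inclusion hCG) k.1 → IsConj g g⁻¹) ∧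
        ∀ g : G, ConjClasses.mk g = ConjClasses.map (Subgroup.inclusion hCG) k.1 →
          ∀ x ∈ S, ∀ g' : G, (g' : Γ) = x * g * x⁻¹ →
          ConjClasses.mk g' = ConjClasses.map (Subgroup.inclusion hCG) k.1 := by
    rintro ⟨k, hk⟩
    obtain ⟨c, rfl⟩ := ConjClasses.exists_rep k
    rw [real_class_iff] at hk
    constructor
    · show ∀ g : G, ConjClasses.mk g = ConjClasses.mk (Subgroup.inclusion hCG c) → IsConj g g⁻¹
      rw [real_class_iff]
      obtain ⟨y, hy⟩ := isConj_iff.mp hk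
      exact isConj_iff.mpr ⟨Subgroup.inclusion hCG y, by
        rw [← map_inv, ← map_mul, ← map_mul, hy, map_inv]⟩
    · intro g h s hs g' hg
      have h' : ConjClasses.mk g = ConjClasses.mk (Subgroup.inclusion hCG c) := h
      show ConjClasses.mk g' = ConjClasses.mk (Subgroup.inclusion hCG c)
      rw [ConjClasses.mk_eq_mk_iff_isConj, isConj_iff] at h' ⊢
      obtain ⟨x, hx⟩ := h'
      refine ⟨⟨s * x * s⁻¹, hnorm s hs x x.2⟩, ?_⟩
      apply Subtype.ext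
      have hx' : (x : Γ) * g * (x : Γ)⁻¹ = c := congrArg Subtype.val hx
      show s * x * s⁻¹ * (g' : Γ) * (s * x * s⁻¹)⁻¹ = c
      rw [hg]
      calc s * x * s⁻¹ * (s * g * s⁻¹) * (s * x * s⁻¹)⁻¹ = s * ((x : Γ) * g * (x : Γ)⁻¹) * s⁻¹ := by
            group
        _ = c := by rw [hx', hCS c c.2 s hs]
  symm
  apply Nat.card_congr (Equiv.ofBijective
    (fun k => (⟨ConjClasses.map (Subgroup.inclusion hCG) k.1, hwd k⟩ :
      {c : ConjClasses G // (∀ k : G, ConjClasses.mk k = c → IsConj k k⁻¹) ∧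
        ∀ k : G, ConjClasses.mk k = c → ∀ x ∈ S, ∀ k' : G, (k' : Γ) = x * k * x⁻¹ →
          ConjClasses.mk k' = c})) ⟨?_, ?_⟩)
  · rintro ⟨k, hk⟩ ⟨k', hk'⟩ h
    have h0 := congrArg Subtype.val h
    simp only at h0
    apply Subtype.ext
    show k = k'
    obtain ⟨c, rfl⟩ := ConjClasses.exists_rep k
    obtain ⟨c', rfl⟩ := ConjClasses.exists_rep k'
    have h1 : ConjClasses.mk (Subgroup.inclusion hCG c) = ConjClasses.mk (Subgroup.inclusion hCG c') :=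
      h0
    rw [ConjClasses.mk_eq_mk_iff_isConj, isConj_iff] at h1 ⊢
    obtain ⟨x, hx⟩ := h1
    have hx' : (x : Γ) * c * (x : Γ)⁻¹ = c' := congrArg Subtype.val hx
    obtain ⟨y, hy, hy'⟩ := fix_conj_of_conj G S hnorm hcop hsolv c.2 c'.2 x.2 hx'
    exact ⟨⟨y, hy⟩, Subtype.ext hy'⟩
  · rintro ⟨K, hK1, hK2⟩
    obtain ⟨g₀, rfl⟩ := ConjClasses.exists_rep K
    rw [real_class_iff] at hK1
    obtain ⟨k, hk, hkC⟩ := exists_fix_of_inv_class G S hnorm hcop hsolv g₀.2 (by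
      intro a ha
      have h1 := hK2 g₀ rfl a ha ⟨a * g₀ * a⁻¹, hnorm a ha g₀ g₀.2⟩ rfl
      rw [ConjClasses.mk_eq_mk_iff_isConj, isConj_iff] at h1
      obtain ⟨k, hk⟩ := h1
      exact ⟨k, k.2, congrArg Subtype.val hk⟩)
    have hreal : IsConj (⟨k⁻¹ * g₀ * k, hkC⟩ : ↥(G ⊓ Subgroup.centralizer (S : Set Γ)))
        (⟨k⁻¹ * g₀ * k, hkC⟩ : ↥(G ⊓ Subgroup.centralizer (S : Set Γ)))⁻¹ := by
      obtain ⟨y, hy⟩ := isConj_iff.mp hK1
      have hy' : (y : Γ) * g₀ * (y : Γ)⁻¹ = (g₀ : Γ)⁻¹ := congrArg Subtype.val hy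
      obtain ⟨z, hz, hz'⟩ := fix_conj_of_conj G S hnorm hcop hsolv hkC
        ((G ⊓ Subgroup.centralizer (S : Set Γ)).inv_mem hkC)
        (x := k⁻¹ * y * k) (G.mul_mem (G.mul_mem (G.inv_mem hk) y.2) hk) (by
          calc k⁻¹ * y * k * (k⁻¹ * g₀ * k) * (k⁻¹ * y * k)⁻¹
              = k⁻¹ * ((y : Γ) * g₀ * (y : Γ)⁻¹) * k := by group
            _ = (k⁻¹ * g₀ * k)⁻¹ := by rw [hy']; group)
      exact isConj_iff.mpr ⟨⟨z, hz⟩, Subtype.ext hz'⟩
    refine ⟨⟨ConjClasses.mk ⟨k⁻¹ * g₀ * k, hkC⟩, (real_class_iff _).mpr hreal⟩, ?_⟩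
    apply Subtype.ext
    show ConjClasses.mk (Subgroup.inclusion hCG ⟨k⁻¹ * g₀ * k, hkC⟩) = ConjClasses.mk g₀
    rw [ConjClasses.mk_eq_mk_iff_isConj, isConj_iff]
    refine ⟨⟨k, hk⟩, ?_⟩
    apply Subtype.ext
    show k * (k⁻¹ * g₀ * k) * k⁻¹ = g₀
    group

end Cfsg.Agent.H2
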