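import Cfsg.Agent.Lib_helper2_Proj3

set_option autoImplicit false
set_option linter.unusedSectionVars false
open Cfsg

namespace Cfsg.Agent.H2

open Cfsg.Agent.H4
universe u v

/-- an invariant irreducible character of a normal Hall subgroup extends. -/
theorem extends_of_coprime_card {G : Type u} [Group G] [Finite G] (N : Subgroup G) [hN : N.Normal]
    (θ : N → ℂ) (hθ : IsIrrCharacter N θ)
    (hinv : ∀ (g : G) (n : N), θ ⟨g * n * g⁻¹, hN.conj_mem (n : G) n.2 g⟩ = θ n)
    (hcop : Nat.Coprime (Nat.card N) N.index) :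
    ∃ χ : G → ℂ, IsIrrCharacter G χ ∧ ∀ n : N, χ n = θ n := by
  obtain ⟨d, -, hdvd, hd⟩ := IsIrrCharacter.exists_degree hθ
  obtain ⟨S, hS1, hS2, hS3⟩ := exists_extSub_roots N θ hθ hinv d hd (Nat.card N) Nat.card_pos.ne'
    (detChar_pow_card (IsIrrCharacter.isCharacter hθ))
  apply hS3
  apply one_mem_of_coprime S (d * Nat.card N) N.index hS2 (hS1 N le_rfl θ hθ (fun n => rfl))
  exact Nat.Coprime.mul_left (Nat.Coprime.coprime_dvd_left hdvd hcop) hcop

end Cfsg.Agent.H2
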