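import Cfsg.Agent.Lib_helper2_Glaub2
import Cfsg.Agent.Lib_helper2_Proj4

set_option autoImplicit false
set_option linter.unusedSectionVars false
open Cfsg

namespace Cfsg.Agent.H2

open Cfsg.Agent.H4
open scoped ComplexConjugate
universe u v

section
variable {Γ : Type u} [Group Γ] [Fintype Γ] (G S : Subgroup Γ) [hG : G.Normal]
  (hcop : (Nat.card G).Coprime (Nat.card S)) (htop : G ⊔ S = ⊤)
  (hScomm : ∀ a b : S, a * b = b * a)

include htop hScomm in
theorem gs_comm (x y : Γ) : x * y * x⁻¹ * y⁻¹ ∈ G := by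
  obtain ⟨g, hg, t, ht, rfl⟩ := gs_decomp G S htop x
  obtain ⟨g', hg', t', ht', rfl⟩ := gs_decomp G S htop y
  rw [← QuotientGroup.eq_one_iff]
  have h1 : ((g : Γ) : Γ ⧸ G) = 1 := (QuotientGroup.eq_one_iff g).mpr hg
  have h2 : ((g' : Γ) : Γ ⧸ G) = 1 := (QuotientGroup.eq_one_iff g').mpr hg'
  have h3 : t * t' = t' * t := congrArg Subtype.val (hScomm ⟨t, ht⟩ ⟨t', ht'⟩)
  simp only [QuotientGroup.mk_mul, QuotientGroup.mk_inv, h1, h2, one_mul]
  rw [← QuotientGroup.mk_mul, h3, QuotientGroup.mk_mul]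
  group

include hcop htop hScomm in
/-- an irreducible character of `Γ` with reducible restriction to `G` vanishes on generating cosets -/
theorem vanish_of_reducible {s : Γ} (hs : Subgroup.zpowers s = S) (ψ : Γ → ℂ)
    (hψ : IsIrrCharacter Γ ψ) (hred : ¬ IsIrrCharacter G (fun g : G => ψ g)) {g : Γ} (hg : g ∈ G) :
    ψ (g * s) = 0 := by
  classical
  have := Fintype.ofFinite G
  have hψc := IsIrrCharacter.isCharacter hψ
  have hab := gs_comm G S htop hScomm
  obtain ⟨θ, hθ⟩ := IsCharacter.exists_constituent (IsCharacter.restrict G hψc) (by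
    intro h
    exact IsIrrCharacter.apply_one_ne_zero hψ (congrFun h 1))
  set T := inertia hG (θ : G → ℂ) with hT
  have hGT : G ≤ T := le_inertia hG (IsCharacter.isClassFunction (IsIrrCharacter.isCharacter θ.2))
  by_cases hTtop : T = ⊤
  · exfalso
    have hinv : ∀ (x : Γ) (n : G), (θ : G → ℂ) ⟨x * n * x⁻¹, hG.conj_mem (n : Γ) n.2 x⟩
        = (θ : G → ℂ) n := by
      intro x
      have hx : x ∈ T := by rw [hTtop]; trivial
      exact (mem_inertia' hG _ x).1 hx
    obtain ⟨θh, hθh, hθhG⟩ := extends_of_coprime_card G θ θ.2 hinv (by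
      rw [gs_index G S hcop htop]; exact hcop)
    have hθres : (fun n : G => θh n) = θ := funext hθhG
    obtain ⟨β, hβ, hβk, hβψ⟩ := (gallagher G θh hθh (by rw [hθres]; exact θ.2)).2.2 ψ hψ (by
      rw [hθres]; exact hθ)
    have hβ1 := linear_of_ker_of_abelian_quotient G hab hβ hβk
    apply hred
    have h1 : (fun g : G => ψ g) = θ := by
      funext n
      rw [hβψ, Pi.mul_apply, hβk n n.2, hβ1, one_mul, hθhG]
    rw [h1]
    exact θ.2
  · have := Fintype.ofFinite T
    obtain ⟨ψ0, -, hind, -⟩ := clifford_corr_surj G hG θ θ.2 T (mem_inertia' hG _) hGT ψ hψ hθ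
    have hTn : T.Normal := by
      constructor
      intro x hx y
      have h1 : y * x * y⁻¹ = (y * x * y⁻¹ * x⁻¹) * x := by group
      rw [h1]
      exact T.mul_mem (hGT (hab y x)) hx
    rw [← hind]
    apply indFun_normal_not_mem hTn
    intro hmem
    apply hTtop
    have hsT : s ∈ T := by
      have := T.mul_mem (T.inv_mem (hGT hg)) hmem
      rwa [inv_mul_cancel_left] at this
    rw [eq_top_iff, ← htop]
    apply sup_le hGT
    rw [← hs]
    exact (Subgroup.zpowers_le).mpr hsT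

include hcop htop hScomm in
/-- the number of extensions -/
theorem card_ext [DecidableEq (IrrCharacter Γ)] [Fintype (IrrCharacter Γ)] (φ : IrrCharacter Γ)
    (hφ : IsIrrCharacter G (fun g : G => (φ : Γ → ℂ) g))
    [DecidablePred fun ψ : IrrCharacter Γ => ∀ g : G, (ψ : Γ → ℂ) g = (φ : Γ → ℂ) g] :
    (Finset.univ.filter (fun ψ : IrrCharacter Γ => ∀ g : G, (ψ : Γ → ℂ) g = (φ : Γ → ℂ) g)).card
      = Nat.card S := by
  classical
  have := Fintype.ofFinite G
  have hab := gs_comm G S htop hScomm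
  have hcl : ∀ ψ : IrrCharacter Γ, IsClassFunction Γ (ψ : Γ → ℂ) :=
    fun ψ => IsCharacter.isClassFunction (IsIrrCharacter.isCharacter ψ.2)
  obtain ⟨e, C, he0, heC, -, hres, hmem⟩ := ind_of_abelian_quotient G hab _ hφ (by
    intro x
    funext n
    exact hcl φ n x)
  have hmem' : ∀ ψ : IrrCharacter Γ, (∀ g : G, (ψ : Γ → ℂ) g = (φ : Γ → ℂ) g) → ψ ∈ C := by
    intro ψ hψ
    rw [hmem, frobenius_reciprocity _ _ _ (hcl ψ)]
    have h1 : (fun h : G => (ψ : Γ → ℂ) h) = fun g : G => (φ : Γ → ℂ) g := funext hψ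
    rw [h1, IsIrrCharacter.norm_one hφ]
    exact one_ne_zero
  have he1 : e = 1 := by
    have h1 := congrFun (hres φ (hmem' φ (fun _ => rfl))) 1
    simp only [Pi.smul_apply, smul_eq_mul] at h1
    have h2 := IsIrrCharacter.apply_one_ne_zero hφ
    have h3 : (e : ℂ) = 1 := (mul_right_cancel₀ h2 (by rw [one_mul]; exact h1)).symm
    exact_mod_cast h3
  subst he1
  have hEq : Finset.univ.filter (fun ψ : IrrCharacter Γ => ∀ g : G, (ψ : Γ → ℂ) g = (φ : Γ → ℂ) g)
      = C := by
    ext ψ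
    simp only [Finset.mem_filter, Finset.mem_univ, true_and]
    constructor
    · exact hmem' ψ
    · intro hψ g
      have := congrFun (hres ψ hψ) g
      simpa using this
  rw [hEq, ← gs_index G S hcop htop, ← heC]
  simp

/-- two extensions have the same products on a coset -/
theorem ext_prod_eq (φ ψ : Γ → ℂ) (hφ : IsIrrCharacter Γ φ) (hψ : IsIrrCharacter Γ ψ)
    (hφG : IsIrrCharacter G (fun g : G => φ g)) (h : ∀ g : G, ψ g = φ g) {a b s : Γ}
    (ha : a ∈ G) (hb : b ∈ G) : ψ (a * s) * conj (ψ (b * s)) = φ (a * s) * conj (φ (b * s)) := by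
  obtain ⟨μ, hμ1, hμ2⟩ := ext_differ_linear G φ ψ hφ hψ hφG h
  have ea : μ (a * s) = μ s := by rw [map_mul, hμ1 a ha, one_mul]
  have eb : μ (b * s) = μ s := by rw [map_mul, hμ1 b hb, one_mul]
  rw [hμ2, hμ2, ea, eb, map_mul]
  have h1 := IsCharacter.linear_normSq (isCharacter_of_hom μ) (by simp) s
  calc (μ s : ℂ) * φ (a * s) * (conj ((μ s : ℂˣ) : ℂ) * conj (φ (b * s)))
      = ((μ s : ℂ) * conj ((μ s : ℂˣ) : ℂ)) * (φ (a * s) * conj (φ (b * s))) := by ring
    _ = _ := by rw [h1, one_mul]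

end

end Cfsg.Agent.H2
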