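import Cfsg.Agent.Lib_helper2_Glaub3

set_option autoImplicit false
set_option linter.unusedSectionVars false
open Cfsg

namespace Cfsg.Agent.H2

open Cfsg.Agent.H4
open scoped ComplexConjugate
universe u v

/-- canonical extensions -/
def IsCanon {Γ : Type u} [Group Γ] (G S : Subgroup Γ) (φ : Γ → ℂ) : Prop :=
  IsIrrCharacter G (fun g : G => φ g) ∧ (detOrder φ).Coprime (Nat.card S)

section
variable {Γ : Type u} [Group Γ] [Fintype Γ] (G S : Subgroup Γ) [hG : G.Normal]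
  (hcop : (Nat.card G).Coprime (Nat.card S)) (htop : G ⊔ S = ⊤)
  (hScomm : ∀ a b : S, a * b = b * a)

include hcop htop in
theorem canon_exists_unique (θ : G → ℂ) (hθ : IsIrrCharacter G θ)
    (hinv : ∀ (x : Γ) (n : G), θ ⟨x * n * x⁻¹, hG.conj_mem (n : Γ) n.2 x⟩ = θ n) :
    ∃ χ0 : Γ → ℂ, IsIrrCharacter Γ χ0 ∧ (∀ g : G, χ0 g = θ g) ∧
      (detOrder χ0).Coprime (Nat.card S) ∧
      ∀ χ' : Γ → ℂ, IsIrrCharacter Γ χ' → (∀ g : G, χ' g = θ g) →
        (detOrder χ').Coprime (Nat.card S) → χ' = χ0 := by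
  obtain ⟨d, -, hdvd, hd⟩ := IsIrrCharacter.exists_degree hθ
  have hoG : detOrder θ ∣ Nat.card G := by
    obtain ⟨F, hF⟩ := H3.detChar_eq_hom (IsIrrCharacter.isCharacter hθ)
    unfold detOrder
    rw [hF, H3.orderOf_homToFun]
    exact H3.orderOf_hom_dvd_card F
  have hc : Nat.Coprime G.index (detOrder θ * d) := by
    rw [gs_index G S hcop htop]
    exact (Nat.Coprime.mul_left (Nat.Coprime.coprime_dvd_left hoG hcop)
      (Nat.Coprime.coprime_dvd_left hdvd hcop)).symm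
  obtain ⟨χ0, ⟨h1, h2, h3⟩, huniq⟩ := S0867.result G θ hθ hinv d hd hc
  refine ⟨χ0, h1, h2, ?_, ?_⟩
  · rw [h3]
    exact Nat.Coprime.coprime_dvd_left hoG hcop
  · intro χ' h4 h5 h6
    exact huniq χ' h4 h5 (by rw [gs_index G S hcop htop]; exact h6.symm)

include hcop htop hScomm in
theorem regroup [Fintype (IrrCharacter Γ)] [DecidablePred fun φ : IrrCharacter Γ => IsCanon G S φ]
    {s : Γ} (hs : Subgroup.zpowers s = S) {a b : Γ} (ha : a ∈ G) (hb : b ∈ G) :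
    ∑ ψ : IrrCharacter Γ, (ψ : Γ → ℂ) (a * s) * conj ((ψ : Γ → ℂ) (b * s))
      = (Nat.card S : ℂ) * ∑ φ ∈ Finset.univ.filter (fun φ : IrrCharacter Γ => IsCanon G S φ),
          (φ : Γ → ℂ) (a * s) * conj ((φ : Γ → ℂ) (b * s)) := by
  classical
  set F : IrrCharacter Γ → ℂ := fun ψ => (ψ : Γ → ℂ) (a * s) * conj ((ψ : Γ → ℂ) (b * s)) with hF
  set A := Finset.univ.filter (fun ψ : IrrCharacter Γ => IsIrrCharacter G (fun g : G => (ψ : Γ → ℂ) g))
    with hA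
  set E := Finset.univ.filter (fun φ : IrrCharacter Γ => IsCanon G S φ) with hE
  have hcl : ∀ ψ : IrrCharacter Γ, IsClassFunction Γ (ψ : Γ → ℂ) :=
    fun ψ => IsCharacter.isClassFunction (IsIrrCharacter.isCharacter ψ.2)
  have h1 : ∑ ψ : IrrCharacter Γ, F ψ = ∑ ψ ∈ A, F ψ := by
    symm
    apply Finset.sum_filter_of_ne
    intro ψ _ hne
    by_contra hred
    apply hne
    rw [hF]
    simp only
    rw [vanish_of_reducible G S hcop htop hScomm hs ψ ψ.2 hred ha, zero_mul]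
  have h2 : ∀ ψ ∈ A, F ψ = ∑ φ ∈ E.filter (fun φ : IrrCharacter Γ => ∀ g : G, (φ : Γ → ℂ) g = (ψ : Γ → ℂ) g), F φ := by
    intro ψ hψ
    have hψG : IsIrrCharacter G (fun g : G => (ψ : Γ → ℂ) g) := (Finset.mem_filter.1 hψ).2
    obtain ⟨χ0, c1, c2, c3, c4⟩ := canon_exists_unique G S hcop htop _ hψG (fun x n => hcl ψ n x)
    have hres0 : (fun g : G => χ0 g) = fun g : G => (ψ : Γ → ℂ) g := funext c2
    have hset : E.filter (fun φ : IrrCharacter Γ => ∀ g : G, (φ : Γ → ℂ) g = (ψ : Γ → ℂ) g) = {⟨χ0, c1⟩} := by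
      ext φ
      simp only [Finset.mem_filter, Finset.mem_singleton, hE, Finset.mem_univ, true_and]
      constructor
      · rintro ⟨⟨-, d2⟩, d3⟩
        exact Subtype.ext (c4 φ φ.2 d3 d2)
      · rintro rfl
        exact ⟨⟨by show IsIrrCharacter G (fun g : G => χ0 g); rw [hres0]; exact hψG, c3⟩, c2⟩
    rw [hset, Finset.sum_singleton]
    exact (ext_prod_eq G ψ χ0 ψ.2 c1 hψG c2 ha hb).symm
  have h3 : ∑ ψ ∈ A, ∑ φ ∈ E.filter (fun φ : IrrCharacter Γ => ∀ g : G, (φ : Γ → ℂ) g = (ψ : Γ → ℂ) g), F φ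
      = ∑ φ ∈ E, ∑ ψ ∈ Finset.univ.filter (fun ψ : IrrCharacter Γ =>
          ∀ g : G, (ψ : Γ → ℂ) g = (φ : Γ → ℂ) g), F φ := by
    apply Finset.sum_comm'
    intro ψ φ
    simp only [Finset.mem_filter, Finset.mem_univ, true_and, hA, hE]
    constructor
    · rintro ⟨-, e2, e3⟩
      exact ⟨fun g => (e3 g).symm, e2⟩
    · rintro ⟨e1, e2⟩
      refine ⟨?_, e2, fun g => (e1 g).symm⟩
      have : (fun g : G => (ψ : Γ → ℂ) g) = fun g : G => (φ : Γ → ℂ) g := funext e1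
      rw [this]
      exact e2.1
  rw [h1, Finset.sum_congr rfl h2, h3, Finset.mul_sum]
  apply Finset.sum_congr rfl
  intro φ hφ
  rw [Finset.sum_const, card_ext G S hcop htop hScomm φ (Finset.mem_filter.1 hφ).2.1, nsmul_eq_mul]

omit [Fintype Γ] hG in
theorem mem_C_of_comm {s : Γ} (hs : Subgroup.zpowers s = S) {C : Subgroup Γ}
    (hC : C = G ⊓ Subgroup.centralizer (S : Set Γ)) {g : Γ} (hg : g ∈ G) (hgs : g * s = s * g) :
    g ∈ C := by
  rw [hC]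
  refine Subgroup.mem_inf.mpr ⟨hg, ?_⟩
  rw [Subgroup.mem_centralizer_iff]
  intro h hh
  rw [SetLike.mem_coe, ← hs] at hh
  obtain ⟨i, rfl⟩ := Subgroup.mem_zpowers_iff.mp hh
  exact ((show Commute g s from hgs).zpow_right i).symm

include hcop in
omit hG in
theorem pow_crt {c s : Γ} (hc : c ∈ G) (hs : s ∈ S) (hcs : c * s = s * c) {k : ℕ}
    (hk1 : k ≡ 0 [MOD Nat.card G]) (hk2 : k ≡ 1 [MOD Nat.card S]) : (c * s) ^ k = s := by
  rw [(show Commute c s from hcs).mul_pow, pow_eq_one_of_mem G hc hk1, pow_eq_self_of_mem S hs hk2,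
    one_mul]

include hcop htop in
theorem count_conj {s : Γ} (hs : Subgroup.zpowers s = S) {C : Subgroup Γ}
    (hC : C = G ⊓ Subgroup.centralizer (S : Set Γ)) (c c' : C) :
    Nat.card {x : Γ // x * ((c' : Γ) * s) * x⁻¹ = (c : Γ) * s}
      = Nat.card {y : C // y * c' * y⁻¹ = c} * Nat.card S := by
  have hsS : s ∈ S := by rw [← hs]; exact Subgroup.mem_zpowers s
  have hCG : C ≤ G := by rw [hC]; exact inf_le_left
  have hCS : ∀ c ∈ C, ∀ t ∈ S, c * t = t * c := by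
    intro c hc t ht
    rw [hC] at hc
    exact (Subgroup.mem_centralizer_iff.mp hc.2 t ht).symm
  have hSS : ∀ t ∈ S, t * s = s * t := by
    intro t ht
    rw [← hs] at ht
    obtain ⟨i, rfl⟩ := Subgroup.mem_zpowers_iff.mp ht
    exact ((Commute.refl s).zpow_left i)
  rw [← Nat.card_prod]
  symm
  let f : {y : C // y * c' * y⁻¹ = c} × S → {x : Γ // x * ((c' : Γ) * s) * x⁻¹ = (c : Γ) * s} :=
    fun p => ⟨(p.1.1 : Γ) * (p.2 : Γ), by
      have h1 : ((p.1.1 : C) : Γ) * c' * (p.1.1 : Γ)⁻¹ = c := congrArg Subtype.val p.1.2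
      have h2 := hCS c' c'.2 p.2 p.2.2
      have h3 := hSS p.2 p.2.2
      have h4 := hCS p.1.1 p.1.1.2 s hsS
      calc (p.1.1 : Γ) * (p.2 : Γ) * ((c' : Γ) * s) * ((p.1.1 : Γ) * (p.2 : Γ))⁻¹
          = (p.1.1 : Γ) * (((p.2 : Γ) * c') * s) * (p.2 : Γ)⁻¹ * (p.1.1 : Γ)⁻¹ := by group
        _ = (p.1.1 : Γ) * (c' * ((p.2 : Γ) * s)) * (p.2 : Γ)⁻¹ * (p.1.1 : Γ)⁻¹ := by
            rw [← h2]; group
        _ = (p.1.1 : Γ) * c' * s * (p.1.1 : Γ)⁻¹ := by rw [h3]; group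
        _ = (p.1.1 : Γ) * c' * (p.1.1 : Γ)⁻¹ * ((p.1.1 : Γ) * s) * (p.1.1 : Γ)⁻¹ := by group
        _ = _ := by rw [h1, h4]; group⟩
  apply Nat.card_congr (Equiv.ofBijective f ⟨?_, ?_⟩)
  · rintro ⟨⟨y, hy⟩, t⟩ ⟨⟨y', hy'⟩, t'⟩ h
    have h1 : (y : Γ) * t = y' * t' := congrArg Subtype.val h
    have h2 : (y' : Γ)⁻¹ * y = t' * (t : Γ)⁻¹ := by
      rw [eq_mul_inv_iff_mul_eq, mul_assoc, h1, inv_mul_cancel_left]
    have h3 : (y' : Γ)⁻¹ * y ∈ G ⊓ S :=
      ⟨G.mul_mem (G.inv_mem (hCG y'.2)) (hCG y.2), by rw [h2]; exact S.mul_mem t'.2 (S.inv_mem t.2)⟩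
    rw [(Subgroup.disjoint_of_coprime_natCard hcop).eq_bot, Subgroup.mem_bot] at h3
    have h4 : y = y' := by
      apply Subtype.ext
      rw [inv_mul_eq_one] at h3
      exact h3.symm
    subst h4
    have h5 : t = t' := Subtype.ext (mul_left_cancel h1)
    subst h5
    rfl
  · rintro ⟨x, hx⟩
    obtain ⟨k, hk1, hk2⟩ := Nat.chineseRemainder hcop 0 1
    have e1 := pow_crt G S hcop (hCG c.2) hsS (hCS c c.2 s hsS) hk1 hk2
    have e2 := pow_crt G S hcop (hCG c'.2) hsS (hCS c' c'.2 s hsS) hk1 hk2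
    have e3 : x * s * x⁻¹ = s := by
      have := congrArg (· ^ k) hx
      simp only [conj_pow, e1, e2] at this
      exact this
    obtain ⟨g, hg, t, ht, rfl⟩ := gs_decomp G S htop x
    have e4 : g * s = s * g := by
      have h1 : g * t * s * (g * t)⁻¹ = g * (t * s) * t⁻¹ * g⁻¹ := by group
      rw [h1, hSS t ht] at e3
      have h2 : g * (s * t) * t⁻¹ * g⁻¹ = g * s * g⁻¹ := by group
      rw [h2, mul_inv_eq_iff_eq_mul] at e3
      exact e3
    have hgC : g ∈ C := mem_C_of_comm G S hs hC hg e4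
    refine ⟨(⟨⟨g, hgC⟩, ?_⟩, ⟨t, ht⟩), rfl⟩
    apply Subtype.ext
    show g * c' * g⁻¹ = c
    have h2 := hCS c' c'.2 t ht
    have h3 := hSS t ht
    have h5 : g * t * ((c' : Γ) * s) * (g * t)⁻¹ = g * c' * g⁻¹ * s := by
      calc g * t * ((c' : Γ) * s) * (g * t)⁻¹ = g * ((t * c') * s) * t⁻¹ * g⁻¹ := by group
        _ = g * (c' * (t * s)) * t⁻¹ * g⁻¹ := by rw [← h2]; group
        _ = g * c' * s * g⁻¹ := by rw [h3]; group
        _ = g * c' * g⁻¹ * (g * s) * g⁻¹ := by group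
        _ = _ := by rw [e4]; group
    rw [h5] at hx
    exact mul_right_cancel hx

end

end Cfsg.Agent.H2
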