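import Cfsg.Agent.Lib_helper2_Glaub4

set_option autoImplicit false
set_option linter.unusedSectionVars false
open Cfsg

namespace Cfsg.Agent.H2

open Cfsg.Agent.H4
open scoped ComplexConjugate
universe u v

section
variable {Γ : Type u} [Group Γ] [Fintype Γ] (G S : Subgroup Γ) [hG : G.Normal]
  (hcop : (Nat.card G).Coprime (Nat.card S)) (htop : G ⊔ S = ⊤)
  (hScomm : ∀ a b : S, a * b = b * a)

include hcop htop hScomm in
theorem conj_into_Cs {s : Γ} (hs : Subgroup.zpowers s = S) {C : Subgroup Γ}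
    (hC : C = G ⊓ Subgroup.centralizer (S : Set Γ)) {g : Γ} (hg : g ∈ G) :
    ∃ u : Γ, ∃ c ∈ C, u * (g * s) * u⁻¹ = c * s := by
  have hsS : s ∈ S := by rw [← hs]; exact Subgroup.mem_zpowers s
  set x := g * s with hx
  obtain ⟨e1, h10, h11⟩ := Nat.chineseRemainder hcop 0 1
  obtain ⟨e2, h21, h20⟩ := Nat.chineseRemainder hcop 1 0
  have hx12 : x ^ e1 * x ^ e2 = x := by
    rw [← pow_add]
    conv_rhs => rw [← pow_one x]
    rw [pow_eq_pow_iff_modEq]
    have h1 : e1 + e2 ≡ 1 [MOD Nat.card G * Nat.card S] :=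
      (Nat.modEq_and_modEq_iff_modEq_mul hcop).mp ⟨by simpa using h10.add h21, by simpa using h11.add h20⟩
    rw [← gs_card G S hcop htop] at h1
    exact h1.of_dvd (orderOf_dvd_natCard x)
  have hq : ∀ y : Γ, ((y : Γ) : Γ ⧸ G) = 1 ↔ y ∈ G := fun y => QuotientGroup.eq_one_iff y
  have hqx : (x : Γ ⧸ G) = (s : Γ ⧸ G) := by
    rw [hx, QuotientGroup.mk_mul, (hq g).mpr hg, one_mul]
  have hx1q : ((x ^ e1 : Γ) : Γ ⧸ G) = (s : Γ ⧸ G) := by
    rw [QuotientGroup.mk_pow, hqx, ← QuotientGroup.mk_pow, pow_eq_self_of_mem S hsS h11]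
  have hx2G : x ^ e2 ∈ G := by
    rw [← hq, QuotientGroup.mk_pow, hqx, ← QuotientGroup.mk_pow, pow_eq_one_of_mem S hsS h20]
    rfl
  set K := Subgroup.zpowers (x ^ e1) with hK
  have hx1n : (x ^ e1) ^ Nat.card S = 1 := by
    obtain ⟨r, hr⟩ := (Nat.modEq_zero_iff_dvd.mp h10)
    rw [← pow_mul, hr, mul_right_comm, ← gs_card G S hcop htop, pow_mul, pow_card_eq_one', one_pow]
  have hcardK : Nat.card K ∣ Nat.card S := by
    rw [hK, Nat.card_zpowers]
    exact orderOf_dvd_of_pow_eq_one hx1n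
  have hcK : (Nat.card G).Coprime (Nat.card K) := Nat.Coprime.coprime_dvd_right hcardK hcop
  have hx1K : x ^ e1 ∈ K := Subgroup.mem_zpowers _
  have hKtop : G ⊔ K = ⊤ := by
    rw [eq_top_iff, ← htop]
    apply sup_le le_sup_left
    rw [← hs, Subgroup.zpowers_le]
    have h1 : s * (x ^ e1)⁻¹ ∈ G := by
      rw [← hq, QuotientGroup.mk_mul, QuotientGroup.mk_inv, hx1q, mul_inv_cancel]
    have h2 : s = s * (x ^ e1)⁻¹ * x ^ e1 := by group
    rw [h2]
    exact (G ⊔ K).mul_mem (Subgroup.mem_sup_left h1) (Subgroup.mem_sup_right hx1K)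
  obtain ⟨u, hu, hconj⟩ := H1.sz_conj G S K (Or.inr (Group.isSolvable_of_comm hScomm)) htop hKtop hcop hcK
  have h1 : u * s * u⁻¹ ∈ K := by
    rw [← hconj]
    exact Subgroup.smul_mem_pointwise_smul s (MulAut.conj u) S hsS
  have h2 : (u * s * u⁻¹)⁻¹ * x ^ e1 ∈ G ⊓ K := by
    refine ⟨?_, K.mul_mem (K.inv_mem h1) hx1K⟩
    show (u * s * u⁻¹)⁻¹ * x ^ e1 ∈ G
    rw [← hq]
    simp only [QuotientGroup.mk_mul, QuotientGroup.mk_inv, hx1q, (hq u).mpr hu]
    group
  rw [(Subgroup.disjoint_of_coprime_natCard hcK).eq_bot, Subgroup.mem_bot, inv_mul_eq_one] at h2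
  have hc1 : u⁻¹ * x ^ e2 * u ∈ G := by
    have := hG.conj_mem _ hx2G u⁻¹
    rwa [inv_inv] at this
  have hs' : s = u⁻¹ * x ^ e1 * u := by rw [← h2]; group
  have hcomm : x ^ e1 * x ^ e2 = x ^ e2 * x ^ e1 := pow_mul_comm x e1 e2
  have hcs : u⁻¹ * x ^ e2 * u * s = s * (u⁻¹ * x ^ e2 * u) := by
    conv_lhs => rw [hs']
    conv_rhs => rw [hs']
    calc u⁻¹ * x ^ e2 * u * (u⁻¹ * x ^ e1 * u) = u⁻¹ * (x ^ e2 * x ^ e1) * u := by group
      _ = u⁻¹ * (x ^ e1 * x ^ e2) * u := by rw [hcomm]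
      _ = _ := by group
  refine ⟨u⁻¹, u⁻¹ * x ^ e2 * u, mem_C_of_comm G S hs hC hc1 hcs, ?_⟩
  rw [hcs, inv_inv]
  conv_lhs => rw [← hx12]
  conv_rhs => rw [hs']
  group

include hcop htop hScomm in
theorem row_ne_zero {s : Γ} (hs : Subgroup.zpowers s = S) {C : Subgroup Γ}
    (hC : C = G ⊓ Subgroup.centralizer (S : Set Γ)) (φ : IrrCharacter Γ)
    (hφ : IsIrrCharacter G (fun g : G => (φ : Γ → ℂ) g)) : ∃ c : C, (φ : Γ → ℂ) ((c : Γ) * s) ≠ 0 := by
  by_contra hcon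
  push Not at hcon
  have h1 := (reducible_iff_coset_vanish G φ).2 ⟨s, by
    intro n
    obtain ⟨u, c, hc, hu⟩ := conj_into_Cs G S hcop htop hScomm hs hC n.2
    have h2 := IsCharacter.isClassFunction (IsIrrCharacter.isCharacter φ.2) ((n : Γ) * s) u
    rw [← h2, hu]
    exact hcon ⟨c, hc⟩⟩
  exact h1 hφ

include hcop htop hScomm in
theorem canon_col [Fintype (IrrCharacter Γ)] [DecidablePred fun φ : IrrCharacter Γ => IsCanon G S φ]
    {s : Γ} (hs : Subgroup.zpowers s = S) {C : Subgroup Γ} [Fintype C] [Fintype (IrrCharacter C)]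
    (hC : C = G ⊓ Subgroup.centralizer (S : Set Γ)) (c c' : C) :
    ∑ φ ∈ Finset.univ.filter (fun φ : IrrCharacter Γ => IsCanon G S φ),
        (φ : Γ → ℂ) ((c : Γ) * s) * conj ((φ : Γ → ℂ) ((c' : Γ) * s))
      = ∑ γ : IrrCharacter C, (γ : C → ℂ) c * conj ((γ : C → ℂ) c') := by
  have hCG : C ≤ G := by rw [hC]; exact inf_le_left
  have h1 := column_orthogonality' ((c : Γ) * s) ((c' : Γ) * s)
  rw [regroup G S hcop htop hScomm hs (hCG c.2) (hCG c'.2), count_conj G S hcop htop hs hC c c'] at h1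
  rw [column_orthogonality' c c']
  have hn : (Nat.card S : ℂ) ≠ 0 := by exact_mod_cast Nat.card_pos.ne'
  apply mul_left_cancel₀ hn
  rw [h1]
  push_cast
  ring

end

/-- bilinear expansion -/
theorem sum_classInner_mul {C : Type u} [Group C] [Fintype C] {I : Type v} (E : Finset I)
    (U : I → C → ℂ) (f1 f2 : C → ℂ) :
    ∑ i ∈ E, classInner (U i) f1 * conj (classInner (U i) f2)
      = (Nat.card C : ℂ)⁻¹ * (Nat.card C : ℂ)⁻¹ * ∑ c : C, ∑ c' : C,
          (∑ i ∈ E, U i c * conj (U i c')) * (conj (f1 c) * f2 c') := by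
  unfold classInner
  simp only [map_mul, map_sum, map_inv₀, map_natCast, Complex.conj_conj]
  have h1 : ∀ i : I, (Nat.card C : ℂ)⁻¹ * (∑ c : C, U i c * conj (f1 c))
      * ((Nat.card C : ℂ)⁻¹ * ∑ c' : C, conj (U i c') * f2 c')
      = (Nat.card C : ℂ)⁻¹ * (Nat.card C : ℂ)⁻¹ * ∑ c : C, ∑ c' : C,
          (U i c * conj (U i c')) * (conj (f1 c) * f2 c') := by
    intro i
    have h2 : (∑ c : C, U i c * conj (f1 c)) * (∑ c' : C, conj (U i c') * f2 c')
        = ∑ c : C, ∑ c' : C, (U i c * conj (U i c')) * (conj (f1 c) * f2 c') := by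
      rw [Finset.sum_mul_sum]
      apply Finset.sum_congr rfl; intro c _
      apply Finset.sum_congr rfl; intro c' _
      ring
    rw [← h2]
    ring
  simp only [h1]
  rw [← Finset.mul_sum]
  congr 1
  rw [Finset.sum_comm]
  apply Finset.sum_congr rfl; intro c _
  rw [Finset.sum_comm]
  apply Finset.sum_congr rfl; intro c' _
  rw [Finset.sum_mul]

/-- the combinatorial lemma on integer matrices with orthonormal columns and nonzero rows -/
theorem int_matrix_perm {I : Type u} {J : Type v} [Fintype I] [DecidableEq I] [Fintype J]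
    [DecidableEq J] (z : I → J → ℤ)
    (hcol : ∀ a b : J, ∑ i, z i a * z i b = if a = b then 1 else 0) :
    (∀ i a, z i a ≠ 0 → (z i a = 1 ∨ z i a = -1) ∧ (∀ b, b ≠ a → z i b = 0) ∧
      ∀ i', i' ≠ i → z i' a = 0) ∧ (∀ a, ∃ i, z i a ≠ 0) := by
  have hc : ∀ a : J, ∃ i, (z i a = 1 ∨ z i a = -1) ∧ ∀ j, j ≠ i → z j a = 0 := by
    intro a
    apply LeadBr.int_sum_sq_eq_one (fun i => z i a)
    have := hcol a a
    rwa [if_pos rfl] at this
  constructor
  · intro i a hia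
    obtain ⟨i0, h1, h2⟩ := hc a
    have hi : i = i0 := by
      by_contra hne
      exact hia (h2 i hne)
    subst hi
    refine ⟨h1, ?_, h2⟩
    intro b hb
    have h3 := hcol a b
    rw [if_neg (Ne.symm hb), Finset.sum_eq_single i] at h3
    · exact (mul_eq_zero.mp h3).resolve_left hia
    · intro j _ hj
      rw [h2 j hj, zero_mul]
    · intro h; exact absurd (Finset.mem_univ i) h
  · intro a
    obtain ⟨i0, h1, -⟩ := hc a
    refine ⟨i0, ?_⟩
    rcases h1 with h | h <;> rw [h] <;> norm_num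

end Cfsg.Agent.H2
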