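import Cfsg.Agent.Lib_helper2_Glaub5
import Cfsg.Agent.Lib_helper2_Codeg

set_option autoImplicit false
set_option linter.unusedSectionVars false
open Cfsg

namespace Cfsg.Agent.H2

open Cfsg.Agent.H4
open scoped ComplexConjugate
universe u v

section
variable {Γ : Type u} [Group Γ] [Fintype Γ] (G S : Subgroup Γ) [hG : G.Normal]
  (hcop : (Nat.card G).Coprime (Nat.card S)) (htop : G ⊔ S = ⊤)
  (hScomm : ∀ a b : S, a * b = b * a)
  {s : Γ} (hs : Subgroup.zpowers s = S) (C : Subgroup Γ) [Fintype C]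
  (hC : C = G ⊓ Subgroup.centralizer (S : Set Γ))

include hcop htop hScomm hs hC in
/-- the Glauberman correspondence, cyclic case, for a fixed generator -/
theorem glaub_matrix :
    (∀ φ : IrrCharacter Γ, IsCanon G S φ → ∃ (β : IrrCharacter C) (ε : ℤ), (ε = 1 ∨ ε = -1) ∧
      ∀ c : C, (φ : Γ → ℂ) ((c : Γ) * s) = (ε : ℂ) * (β : C → ℂ) c) ∧
    (∀ φ φ' : IrrCharacter Γ, IsCanon G S φ → IsCanon G S φ' → ∀ (β : IrrCharacter C) (ε ε' : ℤ),
      ε ≠ 0 → ε' ≠ 0 → (∀ c : C, (φ : Γ → ℂ) ((c : Γ) * s) = (ε : ℂ) * (β : C → ℂ) c) →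
      (∀ c : C, (φ' : Γ → ℂ) ((c : Γ) * s) = (ε' : ℂ) * (β : C → ℂ) c) → φ = φ') ∧
    (∀ β : IrrCharacter C, ∃ φ : IrrCharacter Γ, IsCanon G S φ ∧ ∃ ε : ℤ, (ε = 1 ∨ ε = -1) ∧
      ∀ c : C, (φ : Γ → ℂ) ((c : Γ) * s) = (ε : ℂ) * (β : C → ℂ) c) := by
  classical
  have := Fintype.ofFinite (IrrCharacter Γ)
  have := Fintype.ofFinite (IrrCharacter C)
  have hsS : s ∈ S := by rw [← hs]; exact Subgroup.mem_zpowers s
  have hCG : C ≤ G := by rw [hC]; exact inf_le_left
  have hCS : ∀ c ∈ C, ∀ t ∈ S, c * t = t * c := by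
    intro c hc t ht
    rw [hC] at hc
    exact (Subgroup.mem_centralizer_iff.mp hc.2 t ht).symm
  let U : {φ : IrrCharacter Γ // IsCanon G S φ} → C → ℂ := fun φ c => (φ.1 : Γ → ℂ) ((c : Γ) * s)
  have hint : ∀ (φ : {φ : IrrCharacter Γ // IsCanon G S φ}) (γ : IrrCharacter C),
      ∃ z : ℤ, classInner (U φ) (γ : C → ℂ) = z := by
    intro φ γ
    exact canonical_int G S hcop htop hScomm φ.1 φ.1.2 φ.2.1 φ.2.2 C hCG hCS hsS
      (IsIrrCharacter.isCharacter γ.2)
  choose z hz using hint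
  have hUcl : ∀ φ, IsClassFunction C (U φ) := by
    intro φ c y
    show (φ.1 : Γ → ℂ) (((y * c * y⁻¹ : C) : Γ) * s) = (φ.1 : Γ → ℂ) ((c : Γ) * s)
    have h1 := IsCharacter.isClassFunction (IsIrrCharacter.isCharacter φ.1.2) ((c : Γ) * s) y
    rw [← h1]
    have h2 := hCS y y.2 s hsS
    have h3 : ((y * c * y⁻¹ : C) : Γ) * s = (y : Γ) * ((c : Γ) * s) * (y : Γ)⁻¹ := by
      simp only [Subgroup.coe_mul, InvMemClass.coe_inv]
      calc (y : Γ) * c * (y : Γ)⁻¹ * s = (y : Γ) * c * (y : Γ)⁻¹ * (s * y) * (y : Γ)⁻¹ := by group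
        _ = (y : Γ) * c * (y : Γ)⁻¹ * (y * s) * (y : Γ)⁻¹ := by rw [← h2]
        _ = _ := by group
    rw [h3]
  have hcol : ∀ a b : IrrCharacter C, ∑ i, z i a * z i b = if a = b then 1 else 0 := by
    intro a b
    have h1 : ((∑ i, z i a * z i b : ℤ) : ℂ)
        = ∑ i ∈ Finset.univ, classInner (U i) (a : C → ℂ) * conj (classInner (U i) (b : C → ℂ)) := by
      push_cast
      apply Finset.sum_congr rfl
      intro i _
      rw [hz, hz, map_intCast]
    have h2 : ∑ γ ∈ (Finset.univ : Finset (IrrCharacter C)),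
        classInner (γ : C → ℂ) (a : C → ℂ) * conj (classInner (γ : C → ℂ) (b : C → ℂ))
        = if a = b then 1 else 0 := by
      simp only [irr_orthonormal]
      by_cases hab : a = b
      · subst hab
        simp
      · rw [if_neg hab]
        apply Finset.sum_eq_zero
        intro γ _
        by_cases h3 : γ = a
        · subst h3
          simp [hab]
        · simp [h3]
    have h3 : ∀ c c' : C, ∑ i ∈ (Finset.univ : Finset {φ : IrrCharacter Γ // IsCanon G S φ}),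
        U i c * conj (U i c')
        = ∑ γ ∈ (Finset.univ : Finset (IrrCharacter C)), (γ : C → ℂ) c * conj ((γ : C → ℂ) c') := by
      intro c c'
      rw [← canon_col G S hcop htop hScomm hs hC c c']
      exact (Finset.sum_subtype (Finset.univ.filter (fun φ : IrrCharacter Γ => IsCanon G S φ))
        (by simp) (fun φ : IrrCharacter Γ =>
          (φ : Γ → ℂ) ((c : Γ) * s) * conj ((φ : Γ → ℂ) ((c' : Γ) * s)))).symm
    rw [sum_classInner_mul] at h1 h2
    simp only [h3] at h1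
    rw [h2] at h1
    have h4 : ((∑ i, z i a * z i b : ℤ) : ℂ) = ((if a = b then 1 else 0 : ℤ) : ℂ) := by
      rw [h1]; split_ifs <;> simp
    exact_mod_cast h4
  obtain ⟨hp1, hp2⟩ := int_matrix_perm z hcol
  have hexp : ∀ (i : {φ : IrrCharacter Γ // IsCanon G S φ}) (a : IrrCharacter C), z i a ≠ 0 →
      ∀ c : C, U i c = (z i a : ℂ) * (a : C → ℂ) c := by
    intro i a hia c
    obtain ⟨-, h2, -⟩ := hp1 i a hia
    have h3 := congrFun (classFunction_expansion' (U i) (hUcl i)) c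
    rw [h3, Finset.sum_apply, Finset.sum_eq_single a]
    · rw [hz]; rfl
    · intro b _ hb
      rw [hz, h2 b hb]
      simp
    · intro h; exact absurd (Finset.mem_univ a) h
  have hne : ∀ (i : {φ : IrrCharacter Γ // IsCanon G S φ}) (β : IrrCharacter C) (ε : ℤ), ε ≠ 0 →
      (∀ c : C, U i c = (ε : ℂ) * (β : C → ℂ) c) → z i β ≠ 0 := by
    intro i β ε hε h
    have h1 : U i = (ε : ℂ) • (β : C → ℂ) := funext h
    have h2 := hz i β
    rw [h1, classInner_smul_left, IsIrrCharacter.norm_one β.2, mul_one] at h2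
    have h3 : ε = z i β := by exact_mod_cast h2
    rw [← h3]
    exact hε
  refine ⟨?_, ?_, ?_⟩
  · intro φ hφ
    have hrow : ∃ a, z ⟨φ, hφ⟩ a ≠ 0 := by
      by_contra hcon
      push Not at hcon
      obtain ⟨c, hc⟩ := row_ne_zero G S hcop htop hScomm hs hC φ hφ.1
      apply hc
      have h1 := eq_zero_of_classInner_irr_eq_zero (U ⟨φ, hφ⟩) (hUcl _) (by
        intro γ
        rw [hz, hcon]
        simp)
      exact congrFun h1 c
    obtain ⟨a, ha⟩ := hrow
    exact ⟨a, z ⟨φ, hφ⟩ a, (hp1 _ a ha).1, hexp _ a ha⟩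
  · intro φ φ' hφ hφ' β ε ε' hε hε' h h'
    have h1 := hne ⟨φ, hφ⟩ β ε hε h
    have h2 := hne ⟨φ', hφ'⟩ β ε' hε' h'
    by_contra hcon
    exact h2 ((hp1 _ β h1).2.2 ⟨φ', hφ'⟩ (fun h3 => hcon (congrArg Subtype.val h3).symm))
  · intro β
    obtain ⟨i, hi⟩ := hp2 β
    exact ⟨i.1, i.2, z i β, (hp1 i β hi).1, hexp i β hi⟩

include hcop htop hScomm hs in
theorem canon_gen_indep (φ : IrrCharacter Γ) (hφ : IsCanon G S φ) {s' : Γ}
    (hs' : Subgroup.zpowers s' = S) {c : Γ} (hc : c ∈ G) (hcs : c * s = s * c) :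
    (φ : Γ → ℂ) (c * s') = (φ : Γ → ℂ) (c * s) := by
  have hsS : s ∈ S := by rw [← hs]; exact Subgroup.mem_zpowers s
  have h1 : s' ∈ Subgroup.zpowers s := by rw [hs, ← hs']; exact Subgroup.mem_zpowers s'
  rw [← mem_powers_iff_mem_zpowers] at h1
  obtain ⟨j, hj⟩ := h1
  have hj' : s ^ j = s' := hj
  have ho : orderOf s = Nat.card S := by rw [← hs, Nat.card_zpowers]
  have ho' : orderOf s' = Nat.card S := by rw [← hs', Nat.card_zpowers]
  have hcopj : j.Coprime (Nat.card S) := by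
    rw [← hj', orderOf_pow, ho] at ho'
    have h2 : Nat.card S ≠ 0 := Nat.card_pos.ne'
    rcases (Nat.div_eq_self.mp ho') with h3 | h3
    · exact absurd h3 h2
    · rw [Nat.Coprime, Nat.gcd_comm]; exact h3
  rw [← hj']
  exact canonical_shift G S hcop htop hScomm φ φ.2 hφ.1 hφ.2 hc hsS hcs j hcopj

include hs hC in
omit hG in
/-- the correspondent is a constituent of the restriction -/
theorem glaub_constituent (φ : Γ → ℂ) (hφ : IsCharacter Γ φ) (β : IrrCharacter C) (ε : ℤ) (hε : ε ≠ 0)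
    (h : ∀ c : C, φ ((c : Γ) * s) = (ε : ℂ) * (β : C → ℂ) c) :
    classInner (fun c : C => φ c) (β : C → ℂ) ≠ 0 := by
  have hsS : s ∈ S := by rw [← hs]; exact Subgroup.mem_zpowers s
  have hCS : ∀ c ∈ C, ∀ t ∈ S, c * t = t * c := by
    intro c hc t ht
    rw [hC] at hc
    exact (Subgroup.mem_centralizer_iff.mp hc.2 t ht).symm
  have h1 := mult_isCharacter C S hCS hφ (IsIrrCharacter.isCharacter β.2)
  intro h0
  have h2 := IsCharacter.eq_zero_of_apply_one h1 (by
    show classInner (fun c : C => φ ((c : Γ) * ((1 : S) : Γ))) (β : C → ℂ) = 0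
    simpa using h0)
  have h3 := congrFun h2 ⟨s, hsS⟩
  simp only [Pi.zero_apply] at h3
  have h4 : (fun c : C => φ ((c : Γ) * s)) = (ε : ℂ) • (β : C → ℂ) := funext h
  rw [h4, classInner_smul_left, IsIrrCharacter.norm_one β.2, mul_one] at h3
  exact hε (by exact_mod_cast h3)

end

end Cfsg.Agent.H2
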