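import Cfsg.Agent.Lib_helper2_Glaub6

set_option autoImplicit false
set_option linter.unusedSectionVars false
open Cfsg

namespace Cfsg.Agent.H2

open Cfsg.Agent.H4
open scoped ComplexConjugate
universe u v

/-- transport of an irreducible character along an isomorphism -/
def irrCongr {D' D : Type u} [Group D'] [Group D] (e : D' ≃* D) (β : IrrCharacter D) :
    IrrCharacter D' :=
  ⟨fun x => (β : D → ℂ) (e x), IsIrrCharacter.comp_surj e.toMonoidHom e.surjective β.2⟩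

theorem irrCongr_apply {D' D : Type u} [Group D'] [Group D] (e : D' ≃* D) (β : IrrCharacter D)
    (x : D') : (irrCongr e β : D' → ℂ) x = (β : D → ℂ) (e x) := rfl

theorem irrCongr_symm {D' D : Type u} [Group D'] [Group D] (e : D' ≃* D) (β : IrrCharacter D) :
    irrCongr e.symm (irrCongr e β) = β := by
  apply Subtype.ext
  funext x
  simp [irrCongr_apply]

theorem irrCongr_symm' {D' D : Type u} [Group D'] [Group D] (e : D' ≃* D) (β : IrrCharacter D') :
    irrCongr e (irrCongr e.symm β) = β := by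
  apply Subtype.ext
  funext x
  simp [irrCongr_apply]

/-- `β` is the `p`-Glauberman correspondent of `χ` along `j`. -/
def Corr (p : ℕ) {A D : Type u} [Group A] [Group D] [Fintype D] (j : D →* A) (χ : A → ℂ)
    (β : IrrCharacter D) : Prop :=
  ∃ ε : ℤ, (ε = 1 ∨ ε = -1) ∧ ∀ δ : IrrCharacter D, ∃ m : ℕ,
    classInner (fun d => χ (j d)) (δ : D → ℂ) = m ∧
    (δ = β → (m : ℤ) ≡ ε [ZMOD p]) ∧ (δ ≠ β → (p : ℤ) ∣ m)

section
variable {p : ℕ} (hp : p.Prime) {A D E : Type u} [Group A] [Group D] [Group E] [Fintype D] [Fintype E]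

include hp in
theorem not_dvd_of_modEq_pm {m : ℕ} {ε : ℤ} (hε : ε = 1 ∨ ε = -1) (h : (m : ℤ) ≡ ε [ZMOD p]) :
    ¬ p ∣ m := by
  intro hd
  have h1 : (p : ℤ) ∣ m := by exact_mod_cast hd
  have h2 : (p : ℤ) ∣ ε := by
    have := (Int.modEq_iff_dvd.mp h)
    have h3 : ε = (ε - m) + m := by ring
    rw [h3]
    exact dvd_add this h1
  have h3 : (p : ℤ) ∣ 1 := by
    rcases hε with h | h
    · rwa [h] at h2
    · rw [h] at h2; exact (dvd_neg.mp h2)
  have h4 : p ∣ 1 := by exact_mod_cast h3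
  exact hp.one_lt.ne' (Nat.dvd_one.mp h4)

include hp in
theorem Corr.not_dvd {j : D →* A} {χ : A → ℂ} {β : IrrCharacter D} (h : Corr p j χ β) {m : ℕ}
    (hm : classInner (fun d => χ (j d)) (β : D → ℂ) = m) : ¬ p ∣ m := by
  obtain ⟨ε, hε, h⟩ := h
  obtain ⟨m', h1, h2, -⟩ := h β
  have : m = m' := by
    rw [hm] at h1
    exact_mod_cast h1
  subst this
  exact not_dvd_of_modEq_pm hp hε (h2 rfl)

theorem Corr.pm_one {j : D →* A} {χ : A → ℂ} {β : IrrCharacter D} (h : Corr p j χ β) {m : ℕ}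
    (hm : classInner (fun d => χ (j d)) (β : D → ℂ) = m) :
    (m : ℤ) ≡ 1 [ZMOD p] ∨ (m : ℤ) ≡ -1 [ZMOD p] := by
  obtain ⟨ε, hε, h⟩ := h
  obtain ⟨m', h1, h2, -⟩ := h β
  have : m = m' := by
    rw [hm] at h1
    exact_mod_cast h1
  subst this
  rcases hε with h | h
  · left; rw [← h]; exact h2 rfl
  · right; rw [← h]; exact h2 rfl

theorem Corr.exists_nat {j : D →* A} {χ : A → ℂ} {β : IrrCharacter D} (h : Corr p j χ β)
    (δ : IrrCharacter D) : ∃ m : ℕ, classInner (fun d => χ (j d)) (δ : D → ℂ) = m := by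
  obtain ⟨ε, hε, h⟩ := h
  obtain ⟨m', h1, -, -⟩ := h δ
  exact ⟨m', h1⟩

theorem Corr.eq_of_not_dvd {j : D →* A} {χ : A → ℂ} {β : IrrCharacter D} (h : Corr p j χ β)
    {δ : IrrCharacter D} {m : ℕ}
    (hm : classInner (fun d => χ (j d)) (δ : D → ℂ) = m) (hd : ¬ p ∣ m) : δ = β := by
  obtain ⟨ε, hε, h⟩ := h
  obtain ⟨m', h1, -, h2⟩ := h δ
  have : m = m' := by
    rw [hm] at h1
    exact_mod_cast h1
  subst this
  by_contra hne
  exact hd (by exact_mod_cast h2 hne)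

include hp in
theorem Corr.unique {j : D →* A} {χ : A → ℂ} {β β' : IrrCharacter D} (h : Corr p j χ β)
    (h' : Corr p j χ β') : β = β' := by
  obtain ⟨m, hm⟩ := h.exists_nat β
  exact h'.eq_of_not_dvd hm (h.not_dvd hp hm)

/-- transport of `Corr` along isomorphisms -/
theorem Corr.equiv {A' D' : Type u} [Group A'] [Group D'] [Fintype D'] (eA : A' ≃* A) (eD : D' ≃* D)
    {j : D →* A} {j' : D' →* A'} (hj : ∀ d, eA (j' d) = j (eD d)) {χ : A → ℂ} {β : IrrCharacter D}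
    (h : Corr p j χ β) : Corr p j' (fun a => χ (eA a)) (irrCongr eD β) := by
  obtain ⟨ε, hε, h⟩ := h
  refine ⟨ε, hε, ?_⟩
  intro δ'
  obtain ⟨m, h1, h2, h3⟩ := h (irrCongr eD.symm δ')
  refine ⟨m, ?_, ?_, ?_⟩
  · rw [← h1, ← classInner_equiv eD]
    congr 1
    · funext d
      show χ (eA (j' d)) = _
      rw [hj]
    · funext d
      simp [irrCongr_apply]
  · rintro rfl
    exact h2 (irrCongr_symm eD β)
  · intro hne
    apply h3
    intro h4
    apply hne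
    rw [← h4, irrCongr_symm']

/-- composition of correspondences -/
theorem Corr.comp {j₁ : D →* A} {j₂ : E →* D} {χ : A → ℂ} (hχ : IsCharacter A χ)
    {β₁ : IrrCharacter D} {β : IrrCharacter E} (h₁ : Corr p j₁ χ β₁)
    (h₂ : Corr p j₂ (β₁ : D → ℂ) β) : Corr p (j₁.comp j₂) χ β := by
  classical
  have := Fintype.ofFinite (IrrCharacter D)
  have := Fintype.ofFinite (IrrCharacter E)
  obtain ⟨ε₁, hε₁, h₁⟩ := h₁
  obtain ⟨ε₂, hε₂, h₂⟩ := h₂
  choose m hm hm1 hm2 using h₁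
  have hk : ∀ (δ : IrrCharacter D) (γ : IrrCharacter E), ∃ k : ℕ,
      classInner (fun e => (δ : D → ℂ) (j₂ e)) (γ : E → ℂ) = k := fun δ γ =>
    IsCharacter.classInner_irr_nat (IsCharacter.comp j₂ (IsIrrCharacter.isCharacter δ.2)) γ
  choose k hk using hk
  have hexp := classFunction_expansion' (fun d => χ (j₁ d))
    (IsCharacter.isClassFunction (IsCharacter.comp j₁ hχ))
  have hres : ∀ γ : IrrCharacter E, classInner (fun e => χ ((j₁.comp j₂) e)) (γ : E → ℂ)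
      = ((∑ δ, m δ * k δ γ : ℕ) : ℂ) := by
    intro γ
    have h1 : (fun e => χ ((j₁.comp j₂) e))
        = ∑ δ : IrrCharacter D, (m δ : ℂ) • (fun e => (δ : D → ℂ) (j₂ e)) := by
      funext e
      have := congrFun hexp (j₂ e)
      simp only [MonoidHom.comp_apply]
      rw [this]
      simp only [Finset.sum_apply, Pi.smul_apply, hm]
    rw [h1, classInner_sum_left]
    push_cast
    apply Finset.sum_congr rfl
    intro δ _
    rw [classInner_smul_left, hk]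
  have hcong : ∀ γ : IrrCharacter E, ((∑ δ, m δ * k δ γ : ℕ) : ℤ) ≡ ε₁ * k β₁ γ [ZMOD p] := by
    intro γ
    push_cast
    rw [← Finset.add_sum_erase Finset.univ _ (Finset.mem_univ β₁)]
    have h1 : (p : ℤ) ∣ ∑ δ ∈ Finset.univ.erase β₁, (m δ : ℤ) * (k δ γ : ℤ) := by
      apply Finset.dvd_sum
      intro δ hδ
      exact Dvd.dvd.mul_right (hm2 δ (Finset.ne_of_mem_erase hδ)) _
    have h2 : (∑ δ ∈ Finset.univ.erase β₁, (m δ : ℤ) * (k δ γ : ℤ)) ≡ 0 [ZMOD p] :=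
      (Int.modEq_zero_iff_dvd).mpr h1
    have h3 := ((hm1 β₁ rfl).mul_right (k β₁ γ : ℤ)).add h2
    simpa using h3
  refine ⟨ε₁ * ε₂, ?_, ?_⟩
  · rcases hε₁ with h | h <;> rcases hε₂ with h' | h' <;> simp [h, h']
  · intro γ
    refine ⟨_, hres γ, ?_, ?_⟩
    · rintro rfl
      obtain ⟨n, hn, hn1, -⟩ := h₂ γ
      have : n = k β₁ γ := by
        rw [hk] at hn
        exact_mod_cast hn.symm
      subst this
      exact (hcong γ).trans ((hn1 rfl).mul_left ε₁)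
    · intro hne
      obtain ⟨n, hn, -, hn2⟩ := h₂ γ
      have : n = k β₁ γ := by
        rw [hk] at hn
        exact_mod_cast hn.symm
      subst this
      have h1 := hcong γ
      have h2 : ε₁ * (k β₁ γ : ℤ) ≡ 0 [ZMOD p] :=
        (Int.modEq_zero_iff_dvd).mpr (Dvd.dvd.mul_left (hn2 hne) _)
      exact (Int.modEq_zero_iff_dvd).mp (h1.trans h2)

end

/-- the `p`-Glauberman correspondence along `j` for the characters satisfying `Inv` -/
def GlaubP (p : ℕ) {A D : Type u} [Group A] [Group D] [Fintype D] (j : D →* A)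
    (Inv : (A → ℂ) → Prop) : Prop :=
  (∀ χ : IrrCharacter A, Inv χ → ∃ β : IrrCharacter D, Corr p j χ β) ∧
  (∀ (χ χ' : IrrCharacter A) (β : IrrCharacter D), Inv χ → Inv χ' → Corr p j χ β → Corr p j χ' β →
    χ = χ') ∧
  (∀ β : IrrCharacter D, ∃ χ : IrrCharacter A, Inv χ ∧ Corr p j χ β)

section
variable {p : ℕ} (hp : p.Prime) {A D E : Type u} [Group A] [Group D] [Group E] [Fintype D] [Fintype E]

theorem GlaubP.congr_inv {j : D →* A} {Inv Inv' : (A → ℂ) → Prop}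
    (h : ∀ χ : IrrCharacter A, Inv χ ↔ Inv' χ) (H : GlaubP p j Inv) : GlaubP p j Inv' := by
  obtain ⟨H1, H2, H3⟩ := H
  refine ⟨fun χ hχ => H1 χ ((h χ).mpr hχ), fun χ χ' β h1 h2 => H2 χ χ' β ((h χ).mpr h1) ((h χ').mpr h2),
    fun β => ?_⟩
  obtain ⟨χ, h1, h2⟩ := H3 β
  exact ⟨χ, (h χ).mp h1, h2⟩

/-- transport of `GlaubP` along isomorphisms -/
theorem GlaubP.equiv {A' D' : Type u} [Group A'] [Group D'] [Fintype D'] (eA : A' ≃* A) (eD : D' ≃* D)
    {j : D →* A} {j' : D' →* A'} (hj : ∀ d, eA (j' d) = j (eD d)) {Inv : (A → ℂ) → Prop}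
    {Inv' : (A' → ℂ) → Prop} (hInv : ∀ χ : A → ℂ, Inv χ ↔ Inv' (fun a => χ (eA a)))
    (H : GlaubP p j' Inv') : GlaubP p j Inv := by
  obtain ⟨H1, H2, H3⟩ := H
  have hj' : ∀ d, eA.symm (j d) = j' (eD.symm d) := by
    intro d
    rw [MulEquiv.symm_apply_eq, hj, MulEquiv.apply_symm_apply]
  have back : ∀ (χ : IrrCharacter A) (β' : IrrCharacter D'), Corr p j' (irrCongr eA χ : A' → ℂ) β' →
      Corr p j χ (irrCongr eD.symm β') := by
    intro χ β' h
    have h1 := Corr.equiv eA.symm eD.symm hj' h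
    have h2 : (fun a => (irrCongr eA χ : A' → ℂ) (eA.symm a)) = χ := by
      funext a
      simp [irrCongr_apply]
    rwa [h2] at h1
  refine ⟨?_, ?_, ?_⟩
  · intro χ hχ
    obtain ⟨β', h⟩ := H1 (irrCongr eA χ) ((hInv χ).mp hχ)
    exact ⟨_, back χ β' h⟩
  · intro χ χ' β h1 h2 h3 h4
    have := H2 (irrCongr eA χ) (irrCongr eA χ') (irrCongr eD β) ((hInv χ).mp h1) ((hInv χ').mp h2)
      (Corr.equiv eA eD hj h3) (Corr.equiv eA eD hj h4)
    rw [← irrCongr_symm eA χ, this, irrCongr_symm]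
  · intro β
    obtain ⟨χ', h1, h2⟩ := H3 (irrCongr eD β)
    refine ⟨irrCongr eA.symm χ', ?_, ?_⟩
    · rw [hInv]
      have : (fun a => (irrCongr eA.symm χ' : A → ℂ) (eA a)) = χ' := by
        funext a
        simp [irrCongr_apply]
      rw [this]
      exact h1
    · have h3 := back (irrCongr eA.symm χ') (irrCongr eD β) (by rw [irrCongr_symm']; exact h2)
      rwa [irrCongr_symm] at h3

include hp in
/-- composition of two correspondences, the second for a single automorphism -/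
theorem GlaubP.comp {j₁ : D →* A} {j₂ : E →* D} {Inv₁ : (A → ℂ) → Prop} (a : A ≃* A) (d : D ≃* D)
    (hcompat : ∀ x, a (j₁ x) = j₁ (d x))
    (hInva : ∀ χ : A → ℂ, Inv₁ χ → Inv₁ (fun x => χ (a x)))
    (H₁ : GlaubP p j₁ Inv₁) (H₂ : GlaubP p j₂ (fun β : D → ℂ => ∀ x, β (d x) = β x)) :
    GlaubP p (j₁.comp j₂) (fun χ : A → ℂ => Inv₁ χ ∧ ∀ x, χ (a x) = χ x) := by
  obtain ⟨H11, H12, H13⟩ := H₁
  obtain ⟨H21, H22, H23⟩ := H₂
  have key : ∀ χ : IrrCharacter A, Inv₁ χ → (∀ x, (χ : A → ℂ) (a x) = (χ : A → ℂ) x) →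
      ∃ (β₁ : IrrCharacter D) (β : IrrCharacter E), Corr p j₁ χ β₁ ∧
        (∀ x, (β₁ : D → ℂ) (d x) = (β₁ : D → ℂ) x) ∧ Corr p j₂ (β₁ : D → ℂ) β ∧
        Corr p (j₁.comp j₂) χ β := by
    intro χ h1 h2
    obtain ⟨β₁, h3⟩ := H11 χ h1
    have h4 := Corr.equiv a d hcompat h3
    have h5 : (fun x => (χ : A → ℂ) (a x)) = χ := funext h2
    rw [h5] at h4
    have h6 := Corr.unique hp h4 h3
    have h7 : ∀ x, (β₁ : D → ℂ) (d x) = (β₁ : D → ℂ) x := by
      intro x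
      rw [← irrCongr_apply, h6]
    obtain ⟨β, h8⟩ := H21 β₁ h7
    exact ⟨β₁, β, h3, h7, h8, Corr.comp (IsIrrCharacter.isCharacter χ.2) h3 h8⟩
  refine ⟨?_, ?_, ?_⟩
  · rintro χ ⟨h1, h2⟩
    obtain ⟨β₁, β, -, -, -, h⟩ := key χ h1 h2
    exact ⟨β, h⟩
  · rintro χ χ' β ⟨h1, h2⟩ ⟨h1', h2'⟩ h3 h3'
    obtain ⟨β₁, β₂, e1, e2, e3, e4⟩ := key χ h1 h2
    obtain ⟨β₁', β₂', e1', e2', e3', e4'⟩ := key χ' h1' h2'
    obtain rfl := Corr.unique hp e4 h3
    obtain rfl := Corr.unique hp e4' h3'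
    obtain rfl := H22 β₁ β₁' _ e2 e2' e3 e3'
    exact H12 χ χ' _ h1 h1' e1 e1'
  · intro β
    obtain ⟨β₁, h1, h2⟩ := H23 β
    obtain ⟨χ, h3, h4⟩ := H13 β₁
    have h5 := Corr.equiv a d hcompat h4
    have h6 : irrCongr d β₁ = β₁ := Subtype.ext (funext h1)
    rw [h6] at h5
    have h7 := H12 (irrCongr a χ) χ β₁ (hInva χ h3) h3 h5 h4
    refine ⟨χ, ⟨h3, ?_⟩, Corr.comp (IsIrrCharacter.isCharacter χ.2) h4 h2⟩
    intro x
    rw [← irrCongr_apply, h7]

include hp in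
/-- the trivial correspondence -/
theorem GlaubP.refl (e : D ≃* A) (Inv : (A → ℂ) → Prop) (hInv : ∀ χ : IrrCharacter A, Inv χ) :
    GlaubP p e.toMonoidHom Inv := by
  classical
  have key : ∀ χ : IrrCharacter A, Corr p e.toMonoidHom χ (irrCongr e χ) := by
    intro χ
    refine ⟨1, Or.inl rfl, ?_⟩
    intro δ
    have h1 : classInner (fun d => (χ : A → ℂ) (e.toMonoidHom d)) (δ : D → ℂ)
        = if irrCongr e χ = δ then 1 else 0 := irr_orthonormal (irrCongr e χ) δ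
    by_cases h : irrCongr e χ = δ
    · rw [if_pos h] at h1
      exact ⟨1, by rw [h1]; simp, fun _ => by simp, fun h2 => absurd h.symm h2⟩
    · rw [if_neg h] at h1
      exact ⟨0, by rw [h1]; simp, fun h2 => absurd h2.symm h, fun _ => by simp⟩
  refine ⟨fun χ _ => ⟨_, key χ⟩, ?_, ?_⟩
  · intro χ χ' β _ _ h1 h2
    have e1 := Corr.unique hp h1 (key χ)
    have e2 := Corr.unique hp h2 (key χ')
    rw [← irrCongr_symm e χ, ← e1, e2, irrCongr_symm]
  · intro β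
    refine ⟨irrCongr e.symm β, hInv _, ?_⟩
    have := key (irrCongr e.symm β)
    rwa [irrCongr_symm'] at this

end

end Cfsg.Agent.H2
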