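import Cfsg.Agent.Lib_helper2_Glaub7
import Cfsg.Agent.Lib_helper4_BlkL

set_option autoImplicit false
set_option linter.unusedSectionVars false
open Cfsg

namespace Cfsg.Agent.H2

open Cfsg.Agent.H4
open scoped ComplexConjugate
universe u v

/-- invariance under conjugation by one element -/
def InvBy {Γ : Type u} [Group Γ] (G : Subgroup Γ) (z : Γ) (χ : G → ℂ) : Prop :=
  ∀ g g' : G, (g' : Γ) = z * g * z⁻¹ → χ g' = χ g

/-- the stabiliser of a function on a subgroup -/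
def stabSub {Γ : Type u} [Group Γ] (G : Subgroup Γ) (χ : G → ℂ) : Subgroup Γ where
  carrier := {s | (∀ g ∈ G, s * g * s⁻¹ ∈ G) ∧ (∀ g ∈ G, s⁻¹ * g * s ∈ G) ∧ InvBy G s χ}
  one_mem' := by
    refine ⟨fun g hg => by simpa using hg, fun g hg => by simpa using hg, ?_⟩
    intro g g' h
    have : g' = g := Subtype.ext (by simpa using h)
    rw [this]
  mul_mem' := by
    rintro a b ⟨a1, a2, a3⟩ ⟨b1, b2, b3⟩
    refine ⟨?_, ?_, ?_⟩
    · intro g hg
      have := a1 _ (b1 g hg)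
      simpa [mul_assoc] using this
    · intro g hg
      have := b2 _ (a2 g hg)
      simpa [mul_assoc] using this
    · intro g g' h
      rw [← b3 g ⟨b * g * b⁻¹, b1 g g.2⟩ rfl]
      apply a3
      rw [h]
      simp [mul_assoc]
  inv_mem' := by
    rintro a ⟨a1, a2, a3⟩
    refine ⟨?_, ?_, ?_⟩
    · intro g hg
      simpa using a2 g hg
    · intro g hg
      simpa using a1 g hg
    · intro g g' h
      symm
      apply a3
      rw [h]
      simp [mul_assoc]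

theorem mem_stabSub {Γ : Type u} [Group Γ] {G : Subgroup Γ} {χ : G → ℂ} {s : Γ} :
    s ∈ stabSub G χ ↔ (∀ g ∈ G, s * g * s⁻¹ ∈ G) ∧ (∀ g ∈ G, s⁻¹ * g * s ∈ G) ∧ InvBy G s χ :=
  Iff.rfl

theorem le_stabSub_self {Γ : Type u} [Group Γ] {G : Subgroup Γ} {χ : G → ℂ}
    (hχ : IsClassFunction G χ) : G ≤ stabSub G χ := by
  intro s hs
  refine ⟨fun g hg => G.mul_mem (G.mul_mem hs hg) (G.inv_mem hs),
    fun g hg => G.mul_mem (G.mul_mem (G.inv_mem hs) hg) hs, ?_⟩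
  intro g g' h
  have : g' = ⟨s, hs⟩ * g * ⟨s, hs⟩⁻¹ := Subtype.ext h
  rw [this]
  exact hχ g ⟨s, hs⟩

theorem cong_lemma {p : ℕ} (hp : p.Prime) {Γ : Type u} [Group Γ] [Fintype Γ] (B R : Subgroup Γ)
    [Fintype B] (hBR : ∀ c ∈ B, ∀ t ∈ R, c * t = t * c) {φ : Γ → ℂ} (hφ : IsCharacter Γ φ)
    (δ : IrrCharacter B) {z : Γ} (hz : z ∈ R) {k : ℕ} (hzk : z ^ p ^ k = 1) (e : ℤ)
    (he : classInner (fun b : B => φ ((b : Γ) * z)) (δ : B → ℂ) = e) :
    ∃ m : ℕ, classInner (fun b : B => φ b) (δ : B → ℂ) = m ∧ (m : ℤ) ≡ e [ZMOD p] := by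
  obtain ⟨M, hM⟩ := exists_pModular hp
  have hΨ := mult_isCharacter B R hBR hφ (IsIrrCharacter.isCharacter δ.2)
  obtain ⟨m, hm⟩ := IsCharacter.apply_one hΨ
  have h1 := char_mul_sub_mem hM hΨ (x := ⟨z, hz⟩) (y := 1) (Commute.one_right _) (k := k)
    (Subtype.ext (by simpa using hzk))
  rw [hm] at h1
  simp only [mul_one] at h1
  rw [he] at h1
  simp only [OneMemClass.coe_one, mul_one] at hm
  refine ⟨m, hm, ?_⟩
  rw [Int.modEq_iff_dvd, ← memLocalIdeal_intCast_iff hM]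
  push_cast
  exact h1

theorem glaubP_cyc_top {p : ℕ} (hp : p.Prime) {Γ : Type u} [Group Γ] [Fintype Γ] (G : Subgroup Γ)
    [hG : G.Normal] (z : Γ) (hcop : (Nat.card G).Coprime (Nat.card (Subgroup.zpowers z)))
    (htop : G ⊔ Subgroup.zpowers z = ⊤) {k : ℕ} (hzk : z ^ p ^ k = 1)
    (B : Subgroup Γ) [Fintype B]
    (hB : B = G ⊓ Subgroup.centralizer (Subgroup.zpowers z : Set Γ)) (hBG : B ≤ G) :
    GlaubP p (Subgroup.inclusion hBG) (InvBy G z) := by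
  classical
  have hScomm : ∀ a b : Subgroup.zpowers z, a * b = b * a := by
    rintro ⟨a, ha⟩ ⟨b, hb⟩
    obtain ⟨i, rfl⟩ := Subgroup.mem_zpowers_iff.mp ha
    obtain ⟨j, rfl⟩ := Subgroup.mem_zpowers_iff.mp hb
    exact Subtype.ext (zpow_mul_comm _ i j)
  obtain ⟨M1, M2, M3⟩ := glaub_matrix G (Subgroup.zpowers z) hcop htop hScomm rfl B hB
  have hzR : z ∈ Subgroup.zpowers z := Subgroup.mem_zpowers z
  have hBR : ∀ c ∈ B, ∀ t ∈ Subgroup.zpowers z, c * t = t * c := by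
    intro c hc t ht
    rw [hB] at hc
    exact (Subgroup.mem_centralizer_iff.mp hc.2 t ht).symm
  have key : ∀ (φ : IrrCharacter Γ) (β : IrrCharacter B) (ε : ℤ), (ε = 1 ∨ ε = -1) →
      (∀ c : B, (φ : Γ → ℂ) ((c : Γ) * z) = (ε : ℂ) * (β : B → ℂ) c) →
      Corr p (Subgroup.inclusion hBG) (fun g : G => (φ : Γ → ℂ) g) β := by
    intro φ β ε hε h
    refine ⟨ε, hε, fun δ => ?_⟩
    have h1 : classInner (fun b : B => (φ : Γ → ℂ) ((b : Γ) * z)) (δ : B → ℂ)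
        = ((if β = δ then ε else 0 : ℤ) : ℂ) := by
      have h2 : (fun b : B => (φ : Γ → ℂ) ((b : Γ) * z)) = (ε : ℂ) • (β : B → ℂ) := funext h
      rw [h2, classInner_smul_left, irr_orthonormal]
      split_ifs <;> simp
    obtain ⟨m, hm, hm2⟩ := cong_lemma hp B (Subgroup.zpowers z) hBR
      (IsIrrCharacter.isCharacter φ.2) δ hzR hzk _ h1
    refine ⟨m, hm, ?_, ?_⟩
    · rintro rfl
      simpa using hm2
    · intro hne
      rw [if_neg (fun h => hne h.symm)] at hm2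
      exact (Int.modEq_zero_iff_dvd).mp hm2
  have ext : ∀ χ : IrrCharacter G, InvBy G z χ → ∃ φ : IrrCharacter Γ,
      IsCanon G (Subgroup.zpowers z) φ ∧ (fun g : G => (φ : Γ → ℂ) g) = χ := by
    intro χ hχ
    have h1 : stabSub G (χ : G → ℂ) = ⊤ := by
      rw [eq_top_iff, ← htop]
      apply sup_le (le_stabSub_self (IsCharacter.isClassFunction (IsIrrCharacter.isCharacter χ.2)))
      rw [Subgroup.zpowers_le]
      exact ⟨fun g hg => hG.conj_mem g hg z, fun g hg => by simpa using hG.conj_mem g hg z⁻¹, hχ⟩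
    obtain ⟨χ0, c1, c2, c3, -⟩ := canon_exists_unique G (Subgroup.zpowers z) hcop htop χ χ.2 (by
      intro x n
      have h2 : x ∈ stabSub G (χ : G → ℂ) := by rw [h1]; trivial
      exact h2.2.2 n _ rfl)
    have h3 : (fun g : G => χ0 g) = χ := funext c2
    exact ⟨⟨χ0, c1⟩, ⟨by show IsIrrCharacter G (fun g : G => χ0 g); rw [h3]; exact χ.2, c3⟩, h3⟩
  have hne : ∀ ε : ℤ, (ε = 1 ∨ ε = -1) → ε ≠ 0 := by
    rintro ε (h | h) <;> rw [h] <;> norm_num
  refine ⟨?_, ?_, ?_⟩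
  · intro χ hχ
    obtain ⟨φ, h1, h2⟩ := ext χ hχ
    obtain ⟨β, ε, hε, h⟩ := M1 φ h1
    refine ⟨β, ?_⟩
    rw [← h2]
    exact key φ β ε hε h
  · intro χ χ' β hχ hχ' hc hc'
    obtain ⟨φ, h1, h2⟩ := ext χ hχ
    obtain ⟨φ', h1', h2'⟩ := ext χ' hχ'
    obtain ⟨β₁, ε, hε, h⟩ := M1 φ h1
    obtain ⟨β₁', ε', hε', h'⟩ := M1 φ' h1'
    have e1 := key φ β₁ ε hε h
    have e1' := key φ' β₁' ε' hε' h'
    rw [h2] at e1
    rw [h2'] at e1'
    obtain rfl := Corr.unique hp e1 hc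
    obtain rfl := Corr.unique hp e1' hc'
    have := M2 φ φ' h1 h1' _ ε ε' (hne ε hε) (hne ε' hε') h h'
    apply Subtype.ext
    rw [← h2, ← h2', this]
  · intro β
    obtain ⟨φ, hφ, ε, hε, h⟩ := M3 β
    refine ⟨⟨fun g : G => (φ : Γ → ℂ) g, hφ.1⟩, ?_, key φ β ε hε h⟩
    intro g g' hg'
    show (φ : Γ → ℂ) g' = (φ : Γ → ℂ) g
    rw [hg']
    exact IsCharacter.isClassFunction (IsIrrCharacter.isCharacter φ.2) g z

end Cfsg.Agent.H2
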