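import Cfsg.Agent.Lib_helper2_Glaub8

set_option autoImplicit false
set_option linter.unusedSectionVars false
open Cfsg

namespace Cfsg.Agent.H2

open Cfsg.Agent.H4
open scoped ComplexConjugate
universe u v

/-- the cyclic `p`-group step in an arbitrary ambient group -/
theorem glaubP_cyc {p : ℕ} (hp : p.Prime) {Γ : Type u} [Group Γ] [Fintype Γ] (G : Subgroup Γ) (z : Γ)
    (hz1 : ∀ g ∈ G, z * g * z⁻¹ ∈ G) (hz2 : ∀ g ∈ G, z⁻¹ * g * z ∈ G)
    (hcop : (Nat.card G).Coprime (Nat.card (Subgroup.zpowers z))) {k : ℕ} (hzk : z ^ p ^ k = 1)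
    (B : Subgroup Γ) [Fintype B]
    (hB : B = G ⊓ Subgroup.centralizer (Subgroup.zpowers z : Set Γ)) (hBG : B ≤ G) :
    GlaubP p (Subgroup.inclusion hBG) (InvBy G z) := by
  classical
  set L : Subgroup Γ := G ⊔ Subgroup.zpowers z with hL
  have hGL : G ≤ L := le_sup_left
  have hzL : z ∈ L := (le_sup_right : Subgroup.zpowers z ≤ L) (Subgroup.mem_zpowers z)
  have hBL : B ≤ L := hBG.trans hGL
  have hnorm : (G.subgroupOf L).Normal := by
    rw [Subgroup.normal_subgroupOf_iff_le_normalizer hGL]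
    apply sup_le Subgroup.le_normalizer
    rw [Subgroup.zpowers_le, Subgroup.mem_normalizer_iff]
    intro g
    constructor
    · exact hz1 g
    · intro h
      have := hz2 _ h
      simpa [mul_assoc] using this
  have hcard : Nat.card (G.subgroupOf L) = Nat.card G :=
    Nat.card_congr (Subgroup.subgroupOfEquivOfLe hGL).toEquiv
  have hcardz : Nat.card (Subgroup.zpowers (⟨z, hzL⟩ : L)) = Nat.card (Subgroup.zpowers z) := by
    rw [Nat.card_zpowers, Nat.card_zpowers]
    exact Subgroup.orderOf_mk z hzL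
  have htop : G.subgroupOf L ⊔ Subgroup.zpowers (⟨z, hzL⟩ : L) = ⊤ := by
    apply Subgroup.map_injective L.subtype_injective
    rw [Subgroup.map_sup, Subgroup.map_subgroupOf_eq_of_le hGL, MonoidHom.map_zpowers,
      ← MonoidHom.range_eq_map, Subgroup.range_subtype]
    rfl
  have hB' : B.subgroupOf L = G.subgroupOf L ⊓
      Subgroup.centralizer (Subgroup.zpowers (⟨z, hzL⟩ : L) : Set L) := by
    apply le_antisymm
    · intro x hx
      have hx' : (x : Γ) ∈ B := Subgroup.mem_subgroupOf.mp hx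
      refine Subgroup.mem_inf.mpr ⟨Subgroup.mem_subgroupOf.mpr (hBG hx'), ?_⟩
      rw [Subgroup.mem_centralizer_iff]
      intro h hh
      rw [SetLike.mem_coe] at hh
      obtain ⟨i, rfl⟩ := Subgroup.mem_zpowers_iff.mp hh
      rw [hB] at hx'
      have := Subgroup.mem_centralizer_iff.mp hx'.2 (z ^ i) (Subgroup.zpow_mem_zpowers z i)
      apply Subtype.ext
      simpa using this
    · intro x hx
      obtain ⟨h1, h2⟩ := Subgroup.mem_inf.mp hx
      have h3 := Subgroup.mem_centralizer_iff.mp h2 ⟨z, hzL⟩ (Subgroup.mem_zpowers _)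
      have h4 : z * (x : Γ) = x * z := congrArg Subtype.val h3
      exact Subgroup.mem_subgroupOf.mpr
        (mem_C_of_comm G (Subgroup.zpowers z) rfl hB (Subgroup.mem_subgroupOf.mp h1) h4.symm)
  have hB'G' : B.subgroupOf L ≤ G.subgroupOf L := Subgroup.subgroupOf_mono L hBG
  have : Fintype (B.subgroupOf L) := Fintype.ofFinite _
  have H := glaubP_cyc_top hp (G.subgroupOf L) (⟨z, hzL⟩ : L) (by rw [hcard, hcardz]; exact hcop) htop
    (k := k) (Subtype.ext (by simpa using hzk)) (B.subgroupOf L) hB' hB'G'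
  refine GlaubP.equiv (Subgroup.subgroupOfEquivOfLe hGL) (Subgroup.subgroupOfEquivOfLe hBL)
    (j' := Subgroup.inclusion hB'G') (fun d => rfl) ?_ H
  intro χ
  constructor
  · intro h g g' hg
    exact h _ _ (congrArg Subtype.val hg)
  · intro h g g' hg
    have := h ((Subgroup.subgroupOfEquivOfLe hGL).symm g) ((Subgroup.subgroupOfEquivOfLe hGL).symm g')
      (Subtype.ext hg)
    simpa using this

end Cfsg.Agent.H2
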