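import Cfsg.Agent.Lib_helper4_CharK
import Cfsg.Agent.Lib_helper7_PSolv
import Cfsg.Agent.Lib_lead_SylNum
import Cfsg.Agent.Lib_helper1_Schmidt
import Cfsg.Agent.S4035

set_option autoImplicit false
set_option linter.style.haveILetI false
open Cfsg

namespace Cfsg.Agent.H2

open Cfsg.Agent.H4
open scoped ComplexConjugate
universe u

/-- all irreducible degrees are prime to `p` -/
def Good (p : ℕ) (G : Type u) [Group G] : Prop :=
  ∀ χ : G → ℂ, IsIrrCharacter G χ → ∀ d : ℕ, χ 1 = d → ¬ p ∣ d

theorem exists_over {G : Type u} [Group G] [Fintype G] (K : Subgroup G) [Fintype K] (θ : K → ℂ)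
    (hθ : IsIrrCharacter K θ) :
    ∃ χ : G → ℂ, IsIrrCharacter G χ ∧ classInner (fun n : K => χ n) θ ≠ 0 := by
  have hind : IsCharacter G (indFun K θ) := IsCharacter.ind K (IsIrrCharacter.isCharacter hθ)
  have h0 : indFun K θ ≠ 0 := IsCharacter.ind_ne_zero K (IsIrrCharacter.apply_one_ne_zero hθ)
  obtain ⟨χ, hχ⟩ := IsCharacter.exists_constituent hind h0
  refine ⟨χ, χ.2, ?_⟩
  rw [frobenius_reciprocity K _ _ (IsCharacter.isClassFunction (IsIrrCharacter.isCharacter χ.2))] at hχ
  intro h
  apply hχ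
  rw [← classInner_conj_symm, h, map_zero]

/-- degrees of constituents of restrictions to normal subgroups divide -/
theorem degree_dvd_of_over {G : Type u} [Group G] [Fintype G] (K : Subgroup G) [Fintype K]
    (hK : K.Normal) (χ : G → ℂ) (hχ : IsIrrCharacter G χ) (θ : K → ℂ) (hθ : IsIrrCharacter K θ)
    (hc : classInner (fun n : K => χ n) θ ≠ 0) (a b : ℕ) (ha : θ 1 = a) (hb : χ 1 = b) : a ∣ b := by
  classical
  haveI := Fintype.ofFinite (IrrCharacter K)
  have h := clifford K hK χ hχ θ hθ hc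
  obtain ⟨e, he⟩ := IsCharacter.classInner_irr_nat
    (IsCharacter.restrict K (IsIrrCharacter.isCharacter hχ)) ⟨θ, hθ⟩
  simp only at he
  set S : Set (K → ℂ) := {ψ : K → ℂ | ∃ g : G, ψ = fun n : K => θ ⟨g * n * g⁻¹, hK.conj_mem n n.2 g⟩}
    with hS
  have hfin : S.Finite := by
    have : S = Set.range (fun g : G => fun n : K => θ ⟨g * n * g⁻¹, hK.conj_mem n n.2 g⟩) := by
      ext ψ
      simp only [hS, Set.mem_ofPred_eq, Set.mem_range]
      constructor
      · rintro ⟨g, rfl⟩; exact ⟨g, rfl⟩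
      · rintro ⟨g, rfl⟩; exact ⟨g, rfl⟩
    rw [this]
    exact Set.finite_range _
  have h1 := congrFun h 1
  rw [finsum_mem_eq_finite_toFinset_sum _ hfin] at h1
  simp only [Pi.smul_apply, Finset.sum_apply, smul_eq_mul] at h1
  have h2 : ∀ ψ ∈ hfin.toFinset, ψ 1 = (a : ℂ) := by
    intro ψ hψ
    rw [Set.Finite.mem_toFinset] at hψ
    obtain ⟨g, rfl⟩ := hψ
    simp only
    rw [← ha]
    congr 1
    apply Subtype.ext
    simp
  rw [Finset.sum_congr rfl h2, Finset.sum_const, he] at h1
  have h3 : χ ((1 : K) : G) = b := by simpa using hb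
  rw [h3] at h1
  simp only [nsmul_eq_mul] at h1
  have h4 : b = e * (hfin.toFinset.card * a) := by exact_mod_cast h1
  rw [h4]
  exact ⟨e * hfin.toFinset.card, by ring⟩

theorem Good.normal {p : ℕ} {G : Type u} [Group G] [Finite G] (h : Good p G) (K : Subgroup G)
    (hK : K.Normal) : Good p K := by
  classical
  haveI := Fintype.ofFinite G
  intro θ hθ a ha hpa
  obtain ⟨χ, hχ, hc⟩ := exists_over K θ hθ
  obtain ⟨b, -, -, hb⟩ := IsIrrCharacter.exists_degree hχ
  exact h χ hχ b hb (hpa.trans (degree_dvd_of_over K hK χ hχ θ hθ hc a b ha hb))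

/-- if `K` is normal of prime index `p` and all degrees of `G` are prime to `p` then all irreducible
characters of `K` are invariant. -/
theorem Good.invariant {p : ℕ} {G : Type u} [Group G] [Finite G] (h : Good p G) (K : Subgroup G)
    (hK : K.Normal) (hidx : K.index = p) (hp : p.Prime) (θ : K → ℂ) (hθ : IsIrrCharacter K θ) (g : G) :
    conjFun hK θ g = θ := by
  classical
  haveI := Fintype.ofFinite G
  obtain ⟨χ, hχ, hc⟩ := exists_over K θ hθ
  set T := inertia hK θ with hT
  have hKT : K ≤ T := le_inertia hK (IsCharacter.isClassFunction (IsIrrCharacter.isCharacter hθ))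
  by_cases hTtop : T = ⊤
  · have : g ∈ T := by rw [hTtop]; trivial
    exact this
  · exfalso
    obtain ⟨ψ, hψ, hind, -⟩ := clifford_corr_surj K hK θ hθ T (mem_inertia' hK _) hKT χ hχ hc
    obtain ⟨d, -, -, hd⟩ := IsIrrCharacter.exists_degree hψ
    have h1 : K.relIndex T * T.index = p := by rw [Subgroup.relIndex_mul_index hKT, hidx]
    have h2 : T.index = p := by
      have h3 : T.index ∣ p := Dvd.intro_left _ h1
      rcases (Nat.dvd_prime hp).1 h3 with h4 | h4
      · exact absurd (Subgroup.index_eq_one.1 h4) hTtop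
      · exact h4
    apply h χ hχ (p * d)
    · rw [← hind, indFun_apply_one, hd, h2]; push_cast; ring
    · exact Dvd.intro _ rfl

theorem Good.class_invariant {p : ℕ} {G : Type u} [Group G] [Finite G] (h : Good p G)
    (K : Subgroup G) (hK : K.Normal) (hidx : K.index = p) (hp : p.Prime) (g k : G) (hk : k ∈ K) :
    ∃ c ∈ K, g * k * g⁻¹ = c * k * c⁻¹ := by
  classical
  haveI := hK
  haveI := Fintype.ofFinite (ConjClasses K)
  haveI := Fintype.ofFinite (IrrCharacter K)
  set α : K ≃* K := MulAut.conjNormal g with hα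
  have h1 := brauer_perm_aut α
  have h2 : Nat.card {χ : IrrCharacter K // (χ : K → ℂ) ∘ α = (χ : K → ℂ)} = Nat.card (IrrCharacter K) := by
    apply Nat.card_congr
    apply Equiv.subtypeUnivEquiv
    intro χ
    have h3 := h.invariant K hK hidx hp χ χ.2 g
    funext n
    have h4 := congrFun h3 n
    rw [conjFun_apply] at h4
    rw [← h4]
    simp only [Function.comp_apply]
    congr 1
  rw [h2, card_irr] at h1
  have h5 : ∀ C : ConjClasses K, ConjClasses.map α.toMonoidHom C = C := by
    by_contra hcon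
    push Not at hcon
    obtain ⟨C, hC⟩ := hcon
    have h6 := Fintype.card_subtype_lt (p := fun C : ConjClasses K => ConjClasses.map α.toMonoidHom C = C) hC
    rw [Nat.card_eq_fintype_card, Nat.card_eq_fintype_card] at h1
    omega
  have h7 := h5 (ConjClasses.mk ⟨k, hk⟩)
  rw [conjClasses_map_mk, ConjClasses.mk_eq_mk_iff_isConj, isConj_comm, isConj_iff] at h7
  obtain ⟨c, hc⟩ := h7
  refine ⟨c, c.2, ?_⟩
  have h8 := congrArg (Subtype.val) hc
  simp only [Subgroup.coe_mul, InvMemClass.coe_inv] at h8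
  rw [h8]
  simp [hα]

theorem normal_sylow_of_index_p {G : Type u} [Group G] [Finite G] (p : ℕ) [Fact p.Prime]
    (K : Subgroup G) (hK : K.Normal) (hidx : K.index = p)
    (hcl : ∀ g k : G, k ∈ K → ∃ c ∈ K, g * k * g⁻¹ = c * k * c⁻¹)
    (P0 : Subgroup G) (hP0K : P0 ≤ K) (hP0n : P0.Normal) (hP0p : IsPGroup p P0)
    (hP0i : ¬ p ∣ P0.relIndex K) (S : Sylow p G) : (S : Subgroup G).Normal := by
  have hp : p.Prime := Fact.out
  set π := QuotientGroup.mk' P0 with hπ
  have hcore : ∀ y : G ⧸ P0, (orderOf y).Coprime p →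
      ¬ p ∣ (Subgroup.centralizer ({y} : Set (G ⧸ P0))).index := by
    intro y hy
    obtain ⟨g, rfl⟩ := QuotientGroup.mk_surjective y
    have hgK : g ∈ K := by
      rw [← QuotientGroup.eq_one_iff]
      have h1 : ((g : G ⧸ K)) ^ orderOf (g : G ⧸ P0) = 1 := by
        rw [← QuotientGroup.mk_pow, QuotientGroup.eq_one_iff]
        apply hP0K
        rw [← QuotientGroup.eq_one_iff, QuotientGroup.mk_pow, pow_orderOf_eq_one]
      have h2 : ((g : G ⧸ K)) ^ p = 1 := by
        rw [← hidx, Subgroup.index_eq_card]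
        exact pow_card_eq_one'
      have h3 : orderOf (g : G ⧸ K) ∣ Nat.gcd (orderOf (g : G ⧸ P0)) p :=
        Nat.dvd_gcd (orderOf_dvd_of_pow_eq_one h1) (orderOf_dvd_of_pow_eq_one h2)
      rw [hy.gcd_eq_one, Nat.dvd_one, orderOf_eq_one_iff] at h3
      exact h3
    set C := Subgroup.centralizer ({(g : G ⧸ P0)} : Set (G ⧸ P0)) with hC
    have hsup : (⊤ : Subgroup (G ⧸ P0)) ≤ K.map π ⊔ (C ⊓ ⊤) := by
      intro q _
      obtain ⟨g', rfl⟩ := QuotientGroup.mk_surjective q
      obtain ⟨c, hc, hcc⟩ := hcl g' g hgK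
      have h1 : (g' : G ⧸ P0) = π c * π (c⁻¹ * g') := by
        rw [← map_mul]; simp [hπ]
      rw [h1, inf_top_eq]
      apply Subgroup.mul_mem_sup (Subgroup.mem_map_of_mem _ hc)
      rw [hC, Subgroup.mem_centralizer_singleton_iff]
      show π (c⁻¹ * g') * π g = π g * π (c⁻¹ * g')
      rw [← map_mul, ← map_mul]
      congr 1
      have h2 : g' * g = c * g * c⁻¹ * g' := by
        rw [← hcc]; group
      calc c⁻¹ * g' * g = c⁻¹ * (g' * g) := by group
        _ = c⁻¹ * (c * g * c⁻¹ * g') := by rw [h2]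
        _ = g * (c⁻¹ * g') := by group
    have hKn : (K.map π).Normal := hK.map π (QuotientGroup.mk'_surjective P0)
    have h1 := LeadSyl.relIndex_eq_of_sup (K.map π) ⊤ C le_top
      (by rw [Subgroup.normalizer_eq_top]) hsup
    rw [Subgroup.relIndex_top_right] at h1
    rw [h1]
    intro hdvd
    apply hP0i
    have h2 : P0.relIndex K = Nat.card (K.map π) := by
      rw [← Subgroup.relIndex_ker, hπ, QuotientGroup.ker_mk']
    rw [h2]
    exact hdvd.trans (Subgroup.relIndex_dvd_card _ _)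
  obtain ⟨T, hT⟩ := (S.2.map π).exists_le_sylow
  have hTn := (S4035.core hcore T).1
  have hL : IsPGroup p ((T : Subgroup (G ⧸ P0)).comap π) := by
    apply T.2.comap_of_ker_isPGroup
    rw [hπ, QuotientGroup.ker_mk']
    exact hP0p
  have hSL : (S : Subgroup G) ≤ (T : Subgroup (G ⧸ P0)).comap π := Subgroup.map_le_iff_le_comap.1 hT
  have := S.is_maximal' hL hSL
  rw [← this]
  exact hTn.comap π

theorem exists_top_step {p : ℕ} {G : Type u} [Group G] [Nontrivial G] (h : IsPSolvable p G) :
    ∃ K : Subgroup G, K.Normal ∧ K ≠ ⊤ ∧ H7.PP p K.index := by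
  obtain ⟨n, H, h0, hl, -, hnorm, hstep⟩ := h
  by_contra hcon
  have key : ∀ i : Fin (n + 1), H i ≠ ⊤ := by
    intro i
    induction i using Fin.induction with
    | zero => rw [h0]; exact bot_ne_top
    | succ i ih =>
      intro htop
      apply hcon
      refine ⟨H i.castSucc, hnorm _, ih, ?_⟩
      have := hstep i
      rw [htop, Subgroup.relIndex_top_right] at this
      exact this
  exact key _ hl

theorem ito_michler_aux (p : ℕ) [Fact p.Prime] (Q : ∀ (G : Type u) [Group G], Prop)
    (hQ1 : ∀ (G : Type u) [Group G] (L : Subgroup G), Q G → Q L)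
    (hQ2 : ∀ (G : Type u) [Group G] [Finite G] [Nontrivial G], Q G →
      ∃ K : Subgroup G, K.Normal ∧ K ≠ ⊤ ∧ H7.PP p K.index)
    (n : ℕ) : ∀ (G : Type u) [Group G] [Finite G],
    Nat.card G = n → Q G → Good p G → ∀ S : Sylow p G, (S : Subgroup G).Normal := by
  have hp : p.Prime := Fact.out
  induction n using Nat.strong_induction_on with
  | _ n ih =>
  intro G _ _ hn hsol hgood S
  rcases subsingleton_or_nontrivial G with hsub | hnt
  · exact ⟨fun x hx g => by rw [Subsingleton.elim (g * x * g⁻¹) x]; exact hx⟩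
  obtain ⟨K, hK, hKtop, hPP⟩ := hQ2 G hsol
  have hlt : ∀ L : Subgroup G, L ≠ ⊤ → Nat.card L < n := by
    intro L hL
    rw [← hn]
    have h1 := L.card_mul_index
    have h2 : L.index ≠ 1 := fun h => hL (Subgroup.index_eq_one.mp h)
    have h3 : 0 < L.index := Nat.pos_of_ne_zero Subgroup.index_ne_zero_of_finite
    have h4 : 0 < Nat.card L := Nat.card_pos
    have h5 : 2 ≤ L.index := by omega
    nlinarith
  have hchar : ∀ (L : Subgroup G), L.Normal → L ≠ ⊤ → ∀ S0 : Sylow p L,
      ((S0 : Subgroup L).map L.subtype).Normal := by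
    intro L hL hLtop S0
    have h1 := ih _ (hlt L hLtop) L rfl (hQ1 G L hsol) (hgood.normal L hL) S0
    haveI := Sylow.characteristic_of_normal S0 h1
    haveI := hL
    exact ConjAct.normal_of_characteristic_of_normal
  rcases hPP with ⟨m, hm⟩ | hcop
  · -- p-power index
    have hcard : Nat.card (G ⧸ K) = p ^ m := by rw [← Subgroup.index_eq_card, hm]
    haveI : Nontrivial (G ⧸ K) := by
      rw [← Finite.one_lt_card_iff_nontrivial, ← Subgroup.index_eq_card]
      have h2 : K.index ≠ 1 := fun h => hKtop (Subgroup.index_eq_one.mp h)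
      have h3 : 0 < K.index := Nat.pos_of_ne_zero Subgroup.index_ne_zero_of_finite
      omega
    haveI : Group.IsNilpotent (G ⧸ K) := (IsPGroup.of_card hcard).isNilpotent
    obtain ⟨M, hM, hMi, -⟩ := H1.exists_normal_prime_index (G ⧸ K)
    set K' := M.comap (QuotientGroup.mk' K) with hK'
    have hK'n : K'.Normal := hM.comap _
    have hK'i : K'.index = p := by
      rw [hK', Subgroup.index_comap_of_surjective _ (QuotientGroup.mk'_surjective K)]
      have h1 : M.index ∣ p ^ m := by rw [← hcard]; exact Subgroup.index_dvd_card M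
      exact (Nat.prime_dvd_prime_iff_eq hMi hp).1 (hMi.dvd_of_dvd_pow h1)
    have hK'top : K' ≠ ⊤ := by
      intro h
      rw [h, Subgroup.index_top] at hK'i
      exact hp.one_lt.ne hK'i
    obtain ⟨S0⟩ : Nonempty (Sylow p K') := inferInstance
    apply normal_sylow_of_index_p p K' hK'n hK'i
      (fun g k hk => hgood.class_invariant K' hK'n hK'i hp g k hk)
      ((S0 : Subgroup K').map K'.subtype) (Subgroup.map_subtype_le _) (hchar K' hK'n hK'top S0)
      (S0.2.map _)
    rw [Subgroup.relIndex, Subgroup.subgroupOf, Subgroup.comap_map_eq_self_of_injective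
      (Subgroup.subtype_injective _)]
    exact S0.not_dvd_index
  · -- index prime to p
    have hSK : (S : Subgroup G) ≤ K := by
      intro s hs
      rw [← QuotientGroup.eq_one_iff]
      obtain ⟨k, hk⟩ := S.2 ⟨s, hs⟩
      have h1 : ((s : G ⧸ K)) ^ p ^ k = 1 := by
        rw [← QuotientGroup.mk_pow, QuotientGroup.eq_one_iff]
        have := congrArg Subtype.val hk
        simp only [SubgroupClass.coe_pow, Subgroup.coe_one] at this
        rw [this]; exact one_mem _
      have h2 : ((s : G ⧸ K)) ^ K.index = 1 := by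
        rw [Subgroup.index_eq_card]
        exact pow_card_eq_one'
      have h3 : orderOf (s : G ⧸ K) ∣ Nat.gcd K.index (p ^ k) :=
        Nat.dvd_gcd (orderOf_dvd_of_pow_eq_one h2) (orderOf_dvd_of_pow_eq_one h1)
      rw [(hcop.pow_right k).gcd_eq_one, Nat.dvd_one, orderOf_eq_one_iff] at h3
      exact h3
    have h1 := hchar K hK hKtop (S.subtype hSK)
    rw [Sylow.coe_subtype, Subgroup.map_subgroupOf_eq_of_le hSK] at h1
    exact h1

theorem good_iff {p : ℕ} {G : Type u} [Group G] [Finite G] :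
    Good p G ↔ ∀ χ : IrrCharacter G, ¬ p ∣ charDegree (χ : G → ℂ) := by
  constructor
  · intro h χ
    obtain ⟨d, -, -, hd⟩ := IsIrrCharacter.exists_degree χ.2
    rw [charDegree_eq hd]
    exact h χ χ.2 d hd
  · intro h χ hχ d hd
    have := h ⟨χ, hχ⟩
    rwa [charDegree_eq hd] at this

theorem comm_of_good {p : ℕ} [Fact p.Prime] {G : Type u} [Group G] [Finite G] (h : Good p G)
    (hG : IsPGroup p G) (a b : G) : a * b = b * a := by
  have hp : p.Prime := Fact.out
  revert a b
  rw [comm_iff_irr_linear]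
  intro χ
  obtain ⟨d, -, hdvd, hd⟩ := IsIrrCharacter.exists_degree χ.2
  obtain ⟨k, hk⟩ := IsPGroup.iff_card.1 hG
  rw [hk] at hdvd
  obtain ⟨j, -, rfl⟩ := (Nat.dvd_prime_pow hp).1 hdvd
  have h1 := h χ χ.2 _ hd
  have : j = 0 := by
    by_contra hj
    exact h1 (dvd_pow_self p hj)
  rw [hd, this]; simp

/-- Itô–Michler for classes of groups closed under subgroups with `p`- or `p'`-quotients. -/
theorem ito_michler_gen {p : ℕ} [Fact p.Prime] (Q : ∀ (G : Type u) [Group G], Prop)
    (hQ1 : ∀ (G : Type u) [Group G] (L : Subgroup G), Q G → Q L)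
    (hQ2 : ∀ (G : Type u) [Group G] [Finite G] [Nontrivial G], Q G →
      ∃ K : Subgroup G, K.Normal ∧ K ≠ ⊤ ∧ H7.PP p K.index)
    {G : Type u} [Group G] [Finite G]
    (hsol : Q G) (S : Sylow p G) :
    ((S : Subgroup G).Normal ∧ ∀ x ∈ (S : Subgroup G), ∀ y ∈ (S : Subgroup G), x * y = y * x) ↔
      ∀ χ : IrrCharacter G, ¬ p ∣ charDegree (χ : G → ℂ) := by
  rw [← good_iff]
  constructor
  · rintro ⟨hn, hc⟩ χ hχ d hd hpd
    obtain ⟨d', hd', hdvd⟩ := ito_aux _ G rfl χ hχ S hn hc
    have : d = d' := by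
      rw [hd] at hd'; exact_mod_cast hd'
    subst this
    exact S.not_dvd_index (hpd.trans hdvd)
  · intro h
    have hn := ito_michler_aux p Q hQ1 hQ2 _ G rfl hsol h S
    refine ⟨hn, fun x hx y hy => ?_⟩
    have := comm_of_good (h.normal S hn) S.2 ⟨x, hx⟩ ⟨y, hy⟩
    exact congrArg Subtype.val this

/-- Itô–Michler for `p`-solvable groups. -/
theorem ito_michler {p : ℕ} [Fact p.Prime] {G : Type u} [Group G] [Finite G]
    (hsol : IsPSolvable p G) (S : Sylow p G) :
    ((S : Subgroup G).Normal ∧ ∀ x ∈ (S : Subgroup G), ∀ y ∈ (S : Subgroup G), x * y = y * x) ↔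
      ∀ χ : IrrCharacter G, ¬ p ∣ charDegree (χ : G → ℂ) :=
  ito_michler_gen (fun G _ => IsPSolvable p G)
    (fun _ _ L h => H7.isPSolvable_subgroup Fact.out h L)
    (fun _ _ _ _ h => exists_top_step h) hsol S

/-- Itô–Michler for solvable groups. -/
theorem ito_michler_solvable {p : ℕ} [Fact p.Prime] {G : Type u} [Group G] [Finite G]
    (hsol : Group.IsSolvable G) (S : Sylow p G) :
    ((S : Subgroup G).Normal ∧ ∀ x ∈ (S : Subgroup G), ∀ y ∈ (S : Subgroup G), x * y = y * x) ↔
      ∀ χ : IrrCharacter G, ¬ p ∣ charDegree (χ : G → ℂ) := by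
  refine ito_michler_gen (fun G _ => Group.IsSolvable G)
    (fun _ _ L h => ?_) (fun G _ _ _ h => ?_) hsol S
  · haveI := h
    infer_instance
  · haveI := h
    obtain ⟨M, hM, hMi, hco⟩ := H1.exists_normal_prime_index G
    refine ⟨M, hM, hco.1, ?_⟩
    by_cases hq : M.index = p
    · exact Or.inl ⟨1, by rw [hq, pow_one]⟩
    · exact Or.inr ((Nat.coprime_primes hMi Fact.out).2 hq)

end Cfsg.Agent.H2
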