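import Mathlib

set_option autoImplicit false

namespace Cfsg.Agent.H2

/-- The conjugation action of the normalizer of `H` on `H`. -/
@[reducible] def normAct {G : Type*} [Group G] (H : Subgroup G) :
    MulAction ↥(Subgroup.normalizer (H : Set G)) ↥H where
  smul n x := ⟨(n : G) * x * (n : G)⁻¹, (Subgroup.mem_normalizer_iff.mp n.2 x).mp x.2⟩
  one_smul x := by
    apply Subtype.ext
    change ((1 : ↥(Subgroup.normalizer (H : Set G))) : G) * x * ((1 : ↥(Subgroup.normalizer (H : Set G))) : G)⁻¹ = x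
    simp
  mul_smul a b x := by
    apply Subtype.ext
    change ((a * b : ↥(Subgroup.normalizer (H : Set G))) : G) * x * ((a * b : ↥(Subgroup.normalizer (H : Set G))) : G)⁻¹
      = (a : G) * ((b : G) * x * (b : G)⁻¹) * (a : G)⁻¹
    simp [mul_assoc]

/-- If `N_G(P) ≠ C_G(P)` then a family of conjugacy classes all meeting the Sylow `p`-subgroup `P`
has at most `(p+1)|P|/(2p)` members. -/
theorem card_classes_le {G : Type*} [Group G] [Finite G] {p : ℕ} [Fact p.Prime] (P : Sylow p G)
    (Q : ConjClasses G → Prop) (hQ : ∀ c, Q c → ∃ x ∈ (P : Subgroup G), ConjClasses.mk x = c)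
    (hne : ¬ Subgroup.normalizer ((P : Subgroup G) : Set G) ≤ Subgroup.centralizer ((P : Subgroup G) : Set G)) :
    2 * p * Nat.card {c : ConjClasses G // Q c} ≤ (p + 1) * Nat.card ↥(P : Subgroup G) := by
  classical
  have hp : p.Prime := Fact.out
  set H : Subgroup G := (P : Subgroup G) with hH
  set N : Subgroup G := Subgroup.normalizer (H : Set G) with hN
  let _ : MulAction ↥N ↥H := normAct H
  have hsmul : ∀ (n : ↥N) (x : ↥H), ((n • x : ↥H) : G) = (n : G) * x * (n : G)⁻¹ := fun n x => rfl
  let _ : Fintype ↥N := Fintype.ofFinite _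
  let _ : Fintype ↥H := Fintype.ofFinite _
  let _ : Fintype (MulAction.orbitRel.Quotient ↥N ↥H) := Fintype.ofFinite _
  have hB := MulAction.sum_card_fixedBy_eq_card_orbits_mul_card_group ↥N ↥H
  set C : Subgroup ↥N := (Subgroup.centralizer (H : Set G)).subgroupOf N with hC
  have hCne : C ≠ ⊤ := by
    intro h
    apply hne
    rw [hC, Subgroup.subgroupOf_eq_top] at h
    exact h
  -- the classes inject into the orbits
  have h1 : Nat.card {c : ConjClasses G // Q c} ≤ Fintype.card (MulAction.orbitRel.Quotient ↥N ↥H) := by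
    rw [← Nat.card_eq_fintype_card]
    choose f hf1 hf2 using hQ
    apply Nat.card_le_card_of_injective
      (fun c : {c : ConjClasses G // Q c} =>
        (Quotient.mk'' (⟨f c.1 c.2, hf1 c.1 c.2⟩ : ↥H) : MulAction.orbitRel.Quotient ↥N ↥H))
    intro c d hcd
    have h2 : (MulAction.orbitRel ↥N ↥H) (⟨f c.1 c.2, hf1 c.1 c.2⟩ : ↥H) (⟨f d.1 d.2, hf1 d.1 d.2⟩ : ↥H) :=
      Quotient.exact hcd
    rw [MulAction.orbitRel_apply] at h2
    obtain ⟨n, hn⟩ := h2
    have h3 : (n : G) * f d.1 d.2 * (n : G)⁻¹ = f c.1 c.2 := by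
      have := congrArg (fun z : ↥H => (z : G)) hn
      simpa [hsmul] using this
    apply Subtype.ext
    rw [← hf2 c.1 c.2, ← hf2 d.1 d.2, ← h3]
    exact (ConjClasses.mk_eq_mk_iff_isConj.mpr (isConj_iff.mpr ⟨(n : G), rfl⟩)).symm
  -- the fixed point bounds
  have hfix : ∀ a : ↥N, Fintype.card (MulAction.fixedBy ↥H a)
      = Nat.card ↥((Subgroup.centralizer ({(a : G)} : Set G)).subgroupOf H) := by
    intro a
    rw [← Nat.card_eq_fintype_card]
    apply Nat.card_congr
    refine Equiv.subtypeEquivRight ?_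
    intro x
    rw [MulAction.mem_fixedBy, Subgroup.mem_subgroupOf, Subgroup.mem_centralizer_singleton_iff]
    constructor
    · intro h
      have := congrArg (fun z : ↥H => (z : G)) h
      simp only [hsmul] at this
      rw [mul_inv_eq_iff_eq_mul] at this
      exact this.symm
    · intro h
      apply Subtype.ext
      rw [hsmul, mul_inv_eq_iff_eq_mul]
      exact h.symm
  have hle : ∀ a : ↥N, Fintype.card (MulAction.fixedBy ↥H a) ≤ Nat.card ↥H := by
    intro a
    rw [hfix]
    exact Subgroup.card_le_card_group _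
  have hlt : ∀ a : ↥N, a ∉ C → p * Fintype.card (MulAction.fixedBy ↥H a) ≤ Nat.card ↥H := by
    intro a ha
    rw [hfix]
    set F := (Subgroup.centralizer ({(a : G)} : Set G)).subgroupOf H with hF
    have hFne : F ≠ ⊤ := by
      intro h
      apply ha
      rw [hF, Subgroup.subgroupOf_eq_top] at h
      rw [hC, Subgroup.mem_subgroupOf, Subgroup.mem_centralizer_iff]
      intro x hx
      have := h hx
      rw [Subgroup.mem_centralizer_singleton_iff] at this
      exact this
    have hidx : F.index ≠ 1 := fun h => hFne (Subgroup.index_eq_one.mp h)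
    have hpg : IsPGroup p ↥H := P.2
    obtain ⟨k, hk⟩ := hpg.index F
    have hpk : p ≤ F.index := by
      rw [hk]
      rcases k with _ | k
      · rw [pow_zero] at hk; exact absurd hk hidx
      · calc p = p ^ 1 := (pow_one p).symm
          _ ≤ p ^ (k + 1) := Nat.pow_le_pow_right hp.pos (by omega)
    calc p * Nat.card ↥F ≤ F.index * Nat.card ↥F := Nat.mul_le_mul_right _ hpk
      _ = Nat.card ↥H := by rw [mul_comm]; exact F.card_mul_index
  -- 2 |C| ≤ |N|
  have hC2 : 2 * Nat.card ↥C ≤ Nat.card ↥N := by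
    have hidx : C.index ≠ 1 := fun h => hCne (Subgroup.index_eq_one.mp h)
    have hidx0 : C.index ≠ 0 := Subgroup.index_ne_zero_of_finite
    calc 2 * Nat.card ↥C ≤ C.index * Nat.card ↥C := Nat.mul_le_mul_right _ (by omega)
      _ = Nat.card ↥N := by rw [mul_comm]; exact C.card_mul_index
  obtain ⟨q, rfl⟩ : ∃ q, p = q + 1 := ⟨p - 1, by have := hp.pos; omega⟩
  set s := Nat.card ↥H with hs
  have hsum : 2 * (q + 1) * ∑ a : ↥N, Fintype.card (MulAction.fixedBy ↥H a)
      ≤ ∑ a : ↥N, (2 * s + if a ∈ C then 2 * q * s else 0) := by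
    rw [Finset.mul_sum]
    apply Finset.sum_le_sum
    intro a _
    by_cases ha : a ∈ C
    · rw [if_pos ha]
      have := hle a
      nlinarith
    · rw [if_neg ha]
      have := hlt a ha
      nlinarith
  have hsum2 : ∑ a : ↥N, (2 * s + if a ∈ C then 2 * q * s else 0)
      = 2 * s * Nat.card ↥N + 2 * q * s * Nat.card ↥C := by
    have hcC : (Finset.univ.filter (fun a : ↥N => a ∈ C)).card = Nat.card ↥C := by
      rw [Nat.card_eq_fintype_card, Fintype.card_subtype]
    rw [Finset.sum_add_distrib, Finset.sum_const, Finset.card_univ, ← Finset.sum_filter,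
      Finset.sum_const, smul_eq_mul, smul_eq_mul, hcC, Nat.card_eq_fintype_card (α := ↥N)]
    ring
  rw [hB, hsum2] at hsum
  rw [← Nat.card_eq_fintype_card (α := ↥N)] at hsum
  have hNpos : 0 < Nat.card ↥N := Nat.card_pos
  have h4 : 2 * (q + 1) * Fintype.card (MulAction.orbitRel.Quotient ↥N ↥H) * Nat.card ↥N
      ≤ (q + 1 + 1) * s * Nat.card ↥N := by
    have h6 := Nat.mul_le_mul_left (q * s) hC2
    have h7 : Fintype.card (Quotient (MulAction.orbitRel ↥N ↥H))
      = Fintype.card (MulAction.orbitRel.Quotient ↥N ↥H) := rfl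
    rw [h7] at hsum
    nlinarith
  have h5 := Nat.le_of_mul_le_mul_right h4 hNpos
  calc 2 * (q + 1) * Nat.card {c : ConjClasses G // Q c}
      ≤ 2 * (q + 1) * Fintype.card (MulAction.orbitRel.Quotient ↥N ↥H) := Nat.mul_le_mul_left _ h1
    _ ≤ _ := h5

end Cfsg.Agent.H2
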