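import Cfsg.Agent.Lib_helper7_Omega
import Mathlib

set_option autoImplicit false

namespace Cfsg.Agent.H2

open Cfsg.Agent.H7

variable {G : Type*} [Group G]

/-- An automorphism of odd order of a `2`-group fixing all elements with `x ^ 4 = 1` fixes every
invariant subgroup pointwise. -/
theorem aut_fix_of_fix_omega4 [Finite G] (hG : IsPGroup 2 G)
    (a : MulAut G) (ha : Nat.Coprime (orderOf a) 2) (Q : Subgroup G) :
    (∀ x ∈ Q, x ^ 4 = 1 → a x = x) → (∀ x ∈ Q, a x ∈ Q) → ∀ x ∈ Q, a x = x := by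
  have hp : (2 : ℕ).Prime := Nat.prime_two
  haveI : Fact (2 : ℕ).Prime := ⟨hp⟩
  induction Q using WellFoundedLT.induction with
  | ind Q ih =>
  intro h hQa
  by_cases hne : Q = ⊥
  · intro x hx
    rw [hne, Subgroup.mem_bot] at hx
    rw [hx, map_one]
  -- the commutator subgroup `[Q, a]`
  set D : Subgroup G := Subgroup.closure {c | ∃ g ∈ Q, c = g⁻¹ * a g} with hD
  have hDQ : D ≤ Q := by
    rw [hD, Subgroup.closure_le]
    rintro _ ⟨g, hg, rfl⟩
    exact Q.mul_mem (Q.inv_mem hg) (hQa g hg)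
  have hDa : ∀ x ∈ D, a x ∈ D := by
    have h1 : D.map a.toMonoidHom ≤ D := by
      rw [hD, MonoidHom.map_closure, Subgroup.closure_le]
      rintro _ ⟨_, ⟨g, hg, rfl⟩, rfl⟩
      apply Subgroup.subset_closure
      refine ⟨a g, hQa g hg, ?_⟩
      simp
    intro x hx
    exact h1 ⟨x, hx, rfl⟩
  by_cases hDne : D = Q
  swap
  · have hlt : D < Q := lt_of_le_of_ne hDQ hDne
    have hfix := ih D hlt (fun x hx => h x (hDQ hx)) hDa
    intro x hx
    apply aut_fix_of_comm_fixed hG a ha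
    exact hfix _ (Subgroup.subset_closure ⟨x, hx, rfl⟩)
  obtain ⟨M, hMQ, hMp, hMc⟩ := exists_lt_pow_comm_mem (hG.to_subgroup Q) hne
  set W : Subgroup G := Subgroup.closure ({z | ∃ x ∈ Q, z = x ^ 2} ∪
    {z | ∃ x ∈ Q, ∃ y ∈ Q, z = x * y * x⁻¹ * y⁻¹}) with hW
  have hWM : W ≤ M := by
    rw [hW, Subgroup.closure_le]
    rintro z (⟨x, hx, rfl⟩ | ⟨x, hx, y, hy, rfl⟩)
    · exact hMp x hx
    · exact hMc x hx y hy
  have hWQ : W < Q := lt_of_le_of_lt hWM hMQ
  have hWa : ∀ x ∈ W, a x ∈ W := by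
    have h1 : W.map a.toMonoidHom ≤ W := by
      rw [hW, MonoidHom.map_closure, Subgroup.closure_le]
      rintro _ ⟨z, (⟨x, hx, rfl⟩ | ⟨x, hx, y, hy, rfl⟩), rfl⟩
      · apply Subgroup.subset_closure
        left
        exact ⟨a x, hQa x hx, by simp⟩
      · apply Subgroup.subset_closure
        right
        exact ⟨a x, hQa x hx, a y, hQa y hy, by simp⟩
    intro x hx
    exact h1 ⟨x, hx, rfl⟩
  have hWn : ∀ g ∈ Q, ∀ w ∈ W, g * w * g⁻¹ ∈ W := by
    intro g hg
    have h1 : W.map (MulAut.conj g).toMonoidHom ≤ W := by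
      rw [hW, MonoidHom.map_closure, Subgroup.closure_le]
      rintro _ ⟨z, (⟨x, hx, rfl⟩ | ⟨x, hx, y, hy, rfl⟩), rfl⟩
      · apply Subgroup.subset_closure
        left
        exact ⟨g * x * g⁻¹, Q.mul_mem (Q.mul_mem hg hx) (Q.inv_mem hg), by simp⟩
      · apply Subgroup.subset_closure
        right
        refine ⟨g * x * g⁻¹, Q.mul_mem (Q.mul_mem hg hx) (Q.inv_mem hg), g * y * g⁻¹,
          Q.mul_mem (Q.mul_mem hg hy) (Q.inv_mem hg), ?_⟩
        simp only [MulEquiv.coe_toMonoidHom, MulAut.conj_apply]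
        group
    intro w hw
    exact h1 ⟨w, hw, rfl⟩
  have hWfix := ih W hWQ (fun x hx => h x (hWQ.le hx)) hWa
  -- `W` is central in `Q`
  have hWc : ∀ w ∈ W, ∀ x ∈ Q, Commute w x := by
    intro w hw
    have h1 : D ≤ Subgroup.centralizer {w} := by
      rw [hD, Subgroup.closure_le]
      rintro _ ⟨g, hg, rfl⟩
      show g⁻¹ * a g ∈ Subgroup.centralizer {w}
      rw [Subgroup.mem_centralizer_iff]
      intro z hz
      rw [Set.mem_singleton_iff] at hz
      subst hz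
      have h4 := hWfix _ (hWn g hg z hw)
      rw [map_mul, map_mul, map_inv, hWfix z hw] at h4
      have h5 : a g * z = g * z * g⁻¹ * a g := by
        rw [← h4]; group
      calc z * (g⁻¹ * a g) = g⁻¹ * (g * z * g⁻¹ * a g) := by group
        _ = g⁻¹ * (a g * z) := by rw [h5]
        _ = g⁻¹ * a g * z := by group
    intro x hx
    rw [← hDne] at hx
    exact (Subgroup.mem_centralizer_iff.mp (h1 hx)) w rfl
  intro x hx
  apply aut_fix_of_comm_fixed hG a ha
  apply h _ (Q.mul_mem (Q.inv_mem hx) (hQa x hx))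
  -- `(x⁻¹ * a x) ^ 4 = 1`
  set u := x⁻¹ with hu
  set v := a x with hv
  have huQ : u ∈ Q := Q.inv_mem hx
  have hvQ : v ∈ Q := hQa x hx
  set c := v * u * v⁻¹ * u⁻¹ with hc
  have hcW : c ∈ W := Subgroup.subset_closure (Or.inr ⟨v, hvQ, u, huQ, rfl⟩)
  have hvu : v * u = c * u * v := by rw [hc]; group
  have hcu : Commute c u := hWc c hcW u huQ
  have hcv : Commute c v := hWc c hcW v hvQ
  have hvp : v ^ 2 ∈ W := Subgroup.subset_closure (Or.inl ⟨v, hvQ, rfl⟩)
  have hcp : c ^ 2 = 1 := by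
    have h1 := pow_mul_class2 hvu hcv 2
    rw [(hWc _ hvp u huQ).eq] at h1
    have h2 : u * v ^ 2 = c ^ 2 * (u * v ^ 2) := by rw [← mul_assoc]; exact h1
    have h3 : 1 * (u * v ^ 2) = c ^ 2 * (u * v ^ 2) := by rw [one_mul]; exact h2
    exact (mul_right_cancel h3).symm
  have hxp : x ^ 2 ∈ W := Subgroup.subset_closure (Or.inl ⟨x, hx, rfl⟩)
  have h6 : v ^ 2 = x ^ 2 := by
    rw [hv, ← map_pow]
    exact hWfix _ hxp
  have h7 : (u * v) ^ 2 = c := by
    rw [mul_pow_class2 hvu hcu hcv 2, h6, hu, inv_pow, inv_mul_cancel]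
    simp
  calc (u * v) ^ 4 = ((u * v) ^ 2) ^ 2 := by rw [← pow_mul]
    _ = 1 := by rw [h7, hcp]

/-- Internal form: a subgroup `A` of odd order normalizing the `2`-subgroup `P` and centralizing
all `x ∈ P` with `x ^ 4 = 1` centralizes `P`. -/
theorem le_centralizer_of_fix_omega4 [Finite G]
    (P A : Subgroup G) (hP : IsPGroup 2 P) (hA : A ≤ Subgroup.normalizer (P : Set G))
    (hcop : (Nat.card A).Coprime 2)
    (hfix : ∀ x ∈ P, x ^ 4 = 1 → ∀ a ∈ A, a * x = x * a) :
    A ≤ Subgroup.centralizer (P : Set G) := by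
  intro a ha
  set φ : MulAut P := P.normalizerMonoidHom ⟨a, hA ha⟩ with hφ
  have hφa : ∀ x : P, ((φ x : P) : G) = a * x * a⁻¹ := fun x => rfl
  have hord : Nat.Coprime (orderOf φ) 2 := by
    apply hcop.coprime_dvd_left
    have h1 : orderOf φ ∣ orderOf (⟨a, hA ha⟩ : Subgroup.normalizer (P : Set G)) :=
      orderOf_map_dvd _ _
    rw [Subgroup.orderOf_mk] at h1
    have h2 := orderOf_dvd_natCard (⟨a, ha⟩ : A)
    rw [Subgroup.orderOf_mk] at h2
    exact h1.trans h2
  have h1 := aut_fix_of_fix_omega4 hP φ hord ⊤ (by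
    intro x _ hx
    apply Subtype.ext
    rw [hφa]
    have hx' : (x : G) ^ 4 = 1 := by
      have := congrArg Subtype.val hx
      simpa using this
    rw [hfix x x.2 hx' a ha, mul_inv_cancel_right]) (fun _ _ => Subgroup.mem_top _)
  rw [Subgroup.mem_centralizer_iff]
  intro x hx
  have h2 := h1 ⟨x, hx⟩ (Subgroup.mem_top _)
  have h3 : a * x * a⁻¹ = x := by
    have := congrArg Subtype.val h2
    rwa [hφa] at this
  calc x * a = (a * x * a⁻¹) * a := by rw [h3]
    _ = a * x := by group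

end Cfsg.Agent.H2
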