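import Cfsg.Agent.Lib_helper2_Glaub24

set_option autoImplicit false
set_option linter.unusedSectionVars false
open Cfsg

namespace Cfsg.Agent.H2

open Cfsg.Agent.H4
open scoped ComplexConjugate
universe u v w

/-- Burnside's lemma on an invariant subset, in relational form. -/
theorem burnside_sub {G : Type u} {X : Type v} [Group G] [Fintype G] [Finite X] [MulAction G X]
    (P : X → Prop) (hP : ∀ (g : G) x, P x → P (g • x)) :
    ∑ g : G, Nat.card {x : X // P x ∧ g • x = x}
      = Nat.card (Quot (fun a b : {x // P x} => ∃ g : G, g • a.1 = b.1)) * Nat.card G := by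
  classical
  let act : MulAction G {x // P x} :=
    { smul := fun g x => ⟨g • x.1, hP g x.1 x.2⟩
      one_smul := fun x => Subtype.ext (one_smul G x.1)
      mul_smul := fun g h x => Subtype.ext (mul_smul g h x.1) }
  have hact : ∀ (g : G) (x : {x // P x}), (g • x).1 = g • x.1 := fun _ _ => rfl
  have := Fintype.ofFinite {x // P x}
  have hB := MulAction.sum_card_fixedBy_eq_card_orbits_mul_card_group G {x // P x}
  have h1 : ∀ g : G, Nat.card {x : X // P x ∧ g • x = x}
      = Fintype.card (MulAction.fixedBy {x // P x} g) := by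
    intro g
    rw [← Nat.card_eq_fintype_card]
    apply Nat.card_congr
    exact
      { toFun := fun x => ⟨⟨x.1, x.2.1⟩, Subtype.ext x.2.2⟩
        invFun := fun x => ⟨x.1.1, x.1.2, congrArg Subtype.val x.2⟩
        left_inv := fun x => rfl
        right_inv := fun x => rfl }
  rw [Finset.sum_congr rfl (fun g _ => h1 g), hB, ← Nat.card_eq_fintype_card,
    ← Nat.card_eq_fintype_card]
  congr 1
  apply Nat.card_congr
  apply Quot.congrRight
  intro a b
  constructor
  · rintro ⟨g, hg⟩
    refine ⟨g⁻¹, ?_⟩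
    have h2 : g • b = a := hg
    rw [← h2, hact, inv_smul_smul]
  · rintro ⟨g, hg⟩
    refine ⟨g⁻¹, ?_⟩
    apply Subtype.ext
    show g⁻¹ • b.1 = a.1
    rw [← hg, inv_smul_smul]

theorem card_quot_eq {G : Type u} {X : Type v} {Y : Type w} [Group G] [Finite G] [Finite X]
    [Finite Y] [MulAction G X] [MulAction G Y]
    (P : X → Prop) (Q : Y → Prop) (hP : ∀ (g : G) x, P x → P (g • x))
    (hQ : ∀ (g : G) y, Q y → Q (g • y))
    (h : ∀ g : G, Nat.card {x : X // P x ∧ g • x = x} = Nat.card {y : Y // Q y ∧ g • y = y}) :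
    Nat.card (Quot (fun a b : {x // P x} => ∃ g : G, g • a.1 = b.1))
      = Nat.card (Quot (fun a b : {y // Q y} => ∃ g : G, g • a.1 = b.1)) := by
  have := Fintype.ofFinite G
  have h1 := burnside_sub (G := G) P hP
  have h2 := burnside_sub (G := G) Q hQ
  rw [Finset.sum_congr rfl (fun g _ => h g), h2] at h1
  exact (Nat.eq_of_mul_eq_mul_right Nat.card_pos h1).symm

/-- fixed points of a product of a commuting involution and a permutation of odd order -/
theorem fixed_mul_iff {X : Type u} (c a : Equiv.Perm X) (hca : Commute c a) (hc : c * c = 1)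
    {m : ℕ} (hm : Odd m) (ha : a ^ m = 1) (x : X) : (c * a) x = x ↔ c x = x ∧ a x = x := by
  constructor
  · intro h
    have h1 : ((c * a) ^ m) x = x := by
      have : ∀ n : ℕ, ((c * a) ^ n) x = x := by
        intro n
        induction n with
        | zero => simp
        | succ n ih => rw [pow_succ, Equiv.Perm.mul_apply, h, ih]
      exact this m
    obtain ⟨k, rfl⟩ := hm
    rw [hca.mul_pow, ha, mul_one, pow_succ, pow_mul, sq, hc, one_pow, one_mul] at h1
    refine ⟨h1, ?_⟩
    have h2 : c (a x) = x := h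
    have h3 : c (c (a x)) = a x := by
      rw [← Equiv.Perm.mul_apply, hc]; rfl
    rw [← h3, h2, h1]
  · rintro ⟨h1, h2⟩
    rw [Equiv.Perm.mul_apply, h2, h1]

/-- action of `G` on `Irr(K)` for a normal subgroup `K` -/
abbrev irrActN {G : Type u} [Group G] (K : Subgroup G) [K.Normal] : MulAction G (IrrCharacter K) where
  smul g θ := irrCongr (MulAut.conjNormal g⁻¹) θ
  one_smul θ := by
    apply Subtype.ext
    funext n
    show (θ : K → ℂ) (MulAut.conjNormal (1 : G)⁻¹ n) = (θ : K → ℂ) n
    simp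
  mul_smul g h θ := by
    apply Subtype.ext
    funext n
    show (θ : K → ℂ) (MulAut.conjNormal (g * h)⁻¹ n)
      = (θ : K → ℂ) (MulAut.conjNormal h⁻¹ (MulAut.conjNormal g⁻¹ n))
    simp [mul_inv_rev, map_mul]

/-- action of `G` on the classes of a normal subgroup `K` -/
abbrev clActN {G : Type u} [Group G] (K : Subgroup G) [K.Normal] : MulAction G (ConjClasses K) where
  smul g c := ConjClasses.map (MulAut.conjNormal g).toMonoidHom c
  one_smul c := by
    obtain ⟨k, rfl⟩ := ConjClasses.exists_rep c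
    show ConjClasses.mk (MulAut.conjNormal (1 : G) k) = ConjClasses.mk k
    simp
  mul_smul g h c := by
    obtain ⟨k, rfl⟩ := ConjClasses.exists_rep c
    show ConjClasses.mk (MulAut.conjNormal (g * h) k)
      = ConjClasses.mk (MulAut.conjNormal g (MulAut.conjNormal h k))
    simp [map_mul]

/-- inversion on conjugacy classes -/
def clInv {X : Type u} [Group X] : Equiv.Perm (ConjClasses X) where
  toFun := Quotient.map (fun g => g⁻¹) (fun a b h => by
    obtain ⟨c, rfl⟩ := isConj_iff.mp h
    exact isConj_iff.mpr ⟨c, by group⟩)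
  invFun := Quotient.map (fun g => g⁻¹) (fun a b h => by
    obtain ⟨c, rfl⟩ := isConj_iff.mp h
    exact isConj_iff.mpr ⟨c, by group⟩)
  left_inv c := by
    obtain ⟨k, rfl⟩ := ConjClasses.exists_rep c
    show ConjClasses.mk (k⁻¹)⁻¹ = ConjClasses.mk k
    rw [inv_inv]
  right_inv c := by
    obtain ⟨k, rfl⟩ := ConjClasses.exists_rep c
    show ConjClasses.mk (k⁻¹)⁻¹ = ConjClasses.mk k
    rw [inv_inv]

theorem clInv_mk {X : Type u} [Group X] (k : X) : clInv (ConjClasses.mk k) = ConjClasses.mk k⁻¹ := rfl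

theorem clInv_eq_iff {X : Type u} [Group X] (c : ConjClasses X) :
    clInv c = c ↔ ∀ k : X, ConjClasses.mk k = c → IsConj k k⁻¹ := by
  obtain ⟨k, rfl⟩ := ConjClasses.exists_rep c
  rw [real_class_iff, clInv_mk, ConjClasses.mk_eq_mk_iff_isConj]
  exact ⟨fun h => h.symm, fun h => h.symm⟩

/-- complex conjugation on irreducible characters -/
noncomputable def irrConjPerm {X : Type u} [Group X] [Finite X] : Equiv.Perm (IrrCharacter X) where
  toFun := irrConj
  invFun := irrConj
  left_inv := irrConj_irrConj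
  right_inv := irrConj_irrConj

theorem card_real_fixed {G : Type u} [Group G] [Finite G] (K : Subgroup G) [hK : K.Normal]
    (hodd : Odd K.index) (g : G) :
    Nat.card {θ : IrrCharacter K // (∀ k, ((θ : K → ℂ) k).im = 0) ∧
        (irrActN K).smul g θ = θ}
      = Nat.card {c : ConjClasses K // (∀ k : K, ConjClasses.mk k = c → IsConj k k⁻¹) ∧
        (clActN K).smul g c = c} := by
  classical
  let _ := irrActN K
  let _ := clActN K
  have := Fintype.ofFinite K
  have hsX : ∀ (x : G) (θ : IrrCharacter K) (n : K),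
      ((x • θ : IrrCharacter K) : K → ℂ) n = (θ : K → ℂ) (MulAut.conjNormal x⁻¹ n) := fun _ _ _ => rfl
  have hsY : ∀ (x : G) (k : K), x • ConjClasses.mk k = ConjClasses.mk (MulAut.conjNormal x k) :=
    fun _ _ => rfl
  have hgm : g ^ K.index ∈ K := Subgroup.pow_index_mem K g
  let aX : Equiv.Perm (IrrCharacter K) := MulAction.toPermHom G (IrrCharacter K) g
  let aY : Equiv.Perm (ConjClasses K) := MulAction.toPermHom G (ConjClasses K) g
  have haX : aX ^ K.index = 1 := by
    rw [← map_pow]
    ext θ n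
    show ((g ^ K.index • θ : IrrCharacter K) : K → ℂ) n = (θ : K → ℂ) n
    rw [hsX]
    have h1 : MulAut.conjNormal (g ^ K.index)⁻¹ n
        = (⟨g ^ K.index, hgm⟩ : K)⁻¹ * n * ((⟨g ^ K.index, hgm⟩ : K)⁻¹)⁻¹ := by
      apply Subtype.ext
      rw [MulAut.conjNormal_apply]
      rfl
    rw [h1, IsCharacter.isClassFunction (IsIrrCharacter.isCharacter θ.2)]
  have haY : aY ^ K.index = 1 := by
    rw [← map_pow]
    ext c
    obtain ⟨k, rfl⟩ := ConjClasses.exists_rep c
    show g ^ K.index • ConjClasses.mk k = ConjClasses.mk k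
    rw [hsY, ConjClasses.mk_eq_mk_iff_isConj, isConj_iff]
    refine ⟨(⟨g ^ K.index, hgm⟩ : K)⁻¹, ?_⟩
    apply Subtype.ext
    show (g ^ K.index)⁻¹ * ((MulAut.conjNormal (g ^ K.index) k : K) : G) * ((g ^ K.index)⁻¹)⁻¹ = k
    rw [MulAut.conjNormal_apply]
    group
  have hcX : Commute (irrConjPerm (X := K)) aX := by
    ext θ n
    rfl
  have hcY : Commute (clInv (X := K)) aY := by
    ext c
    obtain ⟨k, rfl⟩ := ConjClasses.exists_rep c
    show clInv (g • ConjClasses.mk k) = g • clInv (ConjClasses.mk k)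
    rw [hsY, clInv_mk, clInv_mk, hsY, map_inv]
  have hX2 : irrConjPerm (X := K) * irrConjPerm = 1 := by
    ext θ n
    show ((irrConj (irrConj θ) : IrrCharacter K) : K → ℂ) n = (θ : K → ℂ) n
    rw [irrConj_irrConj]
  have hY2 : clInv (X := K) * clInv = 1 := by
    ext c
    obtain ⟨k, rfl⟩ := ConjClasses.exists_rep c
    show clInv (clInv (ConjClasses.mk k)) = ConjClasses.mk k
    rw [clInv_mk, clInv_mk, inv_inv]
  have hB := brauer_perm (irrConjPerm (X := K) * aX) (clInv (X := K) * aY) (by
    intro χ k k' hk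
    have h1 : ConjClasses.mk k' = ConjClasses.mk (MulAut.conjNormal g k)⁻¹ := hk
    have h2 : IsConj k' (MulAut.conjNormal g k)⁻¹ := ConjClasses.mk_eq_mk_iff_isConj.mp h1
    have h4 := (isClassFunction_iff _).mp
      (IrrCharacter.isClassFunction ((irrConjPerm (X := K) * aX) χ)) _ _ h2
    rw [h4]
    show conj ((χ : K → ℂ) (MulAut.conjNormal g⁻¹ (MulAut.conjNormal g k)⁻¹)) = (χ : K → ℂ) k
    have h3 : MulAut.conjNormal g⁻¹ (MulAut.conjNormal g k)⁻¹ = k⁻¹ := by
      rw [map_inv, ← MulAut.mul_apply, ← map_mul]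
      simp
    rw [h3, IsCharacter.inv_eq_conj (IsIrrCharacter.isCharacter χ.2)]
    simp)
  have e1 : Nat.card {θ : IrrCharacter K // (∀ k, ((θ : K → ℂ) k).im = 0) ∧ g • θ = θ}
      = Nat.card {χ : IrrCharacter K // (irrConjPerm (X := K) * aX) χ = χ} := by
    apply Nat.card_congr
    apply Equiv.subtypeEquivRight
    intro θ
    rw [fixed_mul_iff _ _ hcX hX2 hodd haX, ← irrConj_eq_iff]
    rfl
  have e2 : Nat.card {c : ConjClasses K // (∀ k : K, ConjClasses.mk k = c → IsConj k k⁻¹) ∧
        g • c = c} = Nat.card {C : ConjClasses K // (clInv (X := K) * aY) C = C} := by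
    apply Nat.card_congr
    apply Equiv.subtypeEquivRight
    intro c
    rw [fixed_mul_iff _ _ hcY hY2 hodd haY, ← clInv_eq_iff]
    rfl
  exact e1.trans (hB.trans e2.symm)

end Cfsg.Agent.H2
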