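import Cfsg.Agent.Lib_helper2_Proj2

set_option autoImplicit false
set_option linter.unusedSectionVars false
open Cfsg

namespace Cfsg.Agent.H2

open Cfsg.Agent.H4
open Module (finrank)
universe u v

theorem irr_of_restrict_irr {K : Type u} [Group K] [Finite K] (M : Subgroup K) {χ : K → ℂ}
    (h : IsCharacter K χ) (hM : IsIrrCharacter M (fun m : M => χ m)) : IsIrrCharacter K χ := by
  obtain ⟨n, ρ, rfl⟩ := h
  obtain ⟨n', τ, hτ, hτc⟩ := hM
  let ρM : Representation ℂ M (Fin n → ℂ) := ρ.comp M.subtype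
  obtain ⟨e⟩ := equiv_of_char_eq τ ρM hτc
  have h1 : ρM.IsIrreducible := irreducible_of_equiv e hτ
  refine ⟨n, ρ, ?_, rfl⟩
  rw [H4.irreducible_iff] at h1 ⊢
  refine ⟨h1.1, fun W hW => h1.2 W ?_⟩
  intro m v hv
  exact hW (m : K) v hv

theorem irr_descend {Γ : Type u} {G : Type v} [Group Γ] [Group G] [Finite Γ] (π : Γ →* G)
    (hπ : Function.Surjective π) {χ : Γ → ℂ} (h : IsIrrCharacter Γ χ)
    (hk : ∀ z ∈ π.ker, χ z = χ 1) :
    ∃ χ' : G → ℂ, IsIrrCharacter G χ' ∧ ∀ x, χ' (π x) = χ x := by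
  obtain ⟨χ1, h1, h2⟩ := IsIrrCharacter.deflate π.ker h hk
  let e := QuotientGroup.quotientKerEquivOfSurjective π hπ
  refine ⟨fun g => χ1 (e.symm g),
    IsIrrCharacter.comp_surj e.symm.toMonoidHom e.symm.surjective h1, ?_⟩
  intro x
  have h3 : e.symm (π x) = (x : Γ ⧸ π.ker) := by
    rw [MulEquiv.symm_apply_eq]
    rfl
  show χ1 (e.symm (π x)) = χ x
  rw [h3, h2]

/-- two extensions of an irreducible character of a normal subgroup differ by a linear character. -/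
theorem ext_differ_linear {K : Type u} [Group K] [Finite K] (M : Subgroup K) [M.Normal]
    (η1 η2 : K → ℂ) (h1 : IsIrrCharacter K η1) (h2 : IsIrrCharacter K η2)
    (hM : IsIrrCharacter M (fun m : M => η1 m)) (heq : ∀ m : M, η2 m = η1 m) :
    ∃ μ : K →* ℂˣ, (∀ m ∈ M, μ m = 1) ∧ ∀ x, η2 x = μ x * η1 x := by
  classical
  have := Fintype.ofFinite K
  have := Fintype.ofFinite M
  have hcon : classInner (fun m : M => η2 m) (fun m : M => η1 m) ≠ 0 := by
    have h3 : (fun m : M => η2 m) = fun m : M => η1 m := funext heq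
    rw [h3, IsIrrCharacter.norm_one hM]
    exact one_ne_zero
  obtain ⟨β, hβ, hβk, hβχ⟩ := (gallagher M η1 h1 hM).2.2 η2 h2 hcon
  have hβ1 : β 1 = 1 := by
    have h3 := congrFun hβχ 1
    simp only [Pi.mul_apply] at h3
    have h4 : η2 1 = η1 1 := heq 1
    have h5 := IsIrrCharacter.apply_one_ne_zero h1
    rw [h4] at h3
    exact (mul_right_cancel₀ h5 (by rw [one_mul]; exact h3)).symm
  refine ⟨linearHom (IsIrrCharacter.isCharacter hβ) hβ1, ?_, ?_⟩
  · intro m hm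
    apply Units.ext
    rw [linearHom_apply, hβk m hm, hβ1]
    rfl
  · intro x
    rw [linearHom_apply]
    exact congrFun hβχ x

theorem exists_central_char {Γ : Type u} [Group Γ] (Z : Subgroup Γ)
    (hZ : Z ≤ Subgroup.center Γ) {η : Γ → ℂ} (hη : IsIrrCharacter Γ η) :
    ∃ lam : Z →* ℂˣ, ∀ (z : Z) (x : Γ), η (z * x) = lam z * η x := by
  obtain ⟨n, σ, hσ, rfl⟩ := hη
  have hsc : ∀ z : Z, ∃ c : ℂ, σ z = c • LinearMap.id := by
    intro z
    apply schur_scalar σ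
    intro g
    rw [← Module.End.mul_eq_comp, ← Module.End.mul_eq_comp, ← map_mul, ← map_mul,
      Subgroup.mem_center_iff.mp (hZ z.2) g]
  choose c hc using hsc
  have hV : Nontrivial (Fin n → ℂ) := ((H4.irreducible_iff σ).mp hσ).1
  obtain ⟨v, hv⟩ := exists_ne (0 : Fin n → ℂ)
  have hinj : ∀ a b : ℂ, a • (LinearMap.id : (Fin n → ℂ) →ₗ[ℂ] (Fin n → ℂ)) = b • LinearMap.id → a = b := by
    intro a b hab
    have h1 := LinearMap.congr_fun hab v
    simp only [LinearMap.smul_apply, LinearMap.id_apply] at h1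
    exact smul_left_injective ℂ hv h1
  let f : Z →* ℂ :=
    { toFun := c
      map_one' := by
        apply hinj
        rw [← hc, one_smul]
        simp
        rfl
      map_mul' := by
        intro a b
        apply hinj
        rw [← hc, Subgroup.coe_mul, map_mul, hc, hc]
        ext w
        simp [mul_smul]
        ring }
  refine ⟨f.toHomUnits, ?_⟩
  intro z x
  show σ.character (z * x) = c z * σ.character x
  simp only [Representation.character, map_mul, hc]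
  have h1 : (c z • (LinearMap.id : (Fin n → ℂ) →ₗ[ℂ] (Fin n → ℂ))) * σ x = c z • σ x := by
    ext w
    simp
  rw [h1, map_smul, smul_eq_mul]

section ExtSub
variable {G : Type u} [Group G] (N : Subgroup G) {Γ : Type u} [Group Γ]
  (π : Γ →* G) (ι : N →* Γ) (lam : π.ker →* ℂˣ)

/-- integers `k` such that `lam ^ k` extends to a linear character of `Γ` trivial on `ι N`. -/
def extSub : AddSubgroup ℤ where
  carrier := {k | ∃ μ : Γ →* ℂˣ, (∀ n, μ (ι n) = 1) ∧ ∀ z : π.ker, μ z = lam z ^ k}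
  zero_mem' := ⟨1, by simp, by simp⟩
  add_mem' := by
    rintro a b ⟨μ, h1, h2⟩ ⟨ν, h3, h4⟩
    exact ⟨μ * ν, by simp [h1, h3], by intro z; simp [h2, h4, zpow_add]⟩
  neg_mem' := by
    rintro a ⟨μ, h1, h2⟩
    exact ⟨μ⁻¹, by simp [h1], by intro z; simp [h2]⟩

theorem mem_extSub (k : ℤ) : k ∈ extSub N π ι lam ↔
    ∃ μ : Γ →* ℂˣ, (∀ n, μ (ι n) = 1) ∧ ∀ z : π.ker, μ z = lam z ^ k := Iff.rfl

variable [Finite Γ] (θ : N → ℂ) (hθ : IsIrrCharacter N θ) (η : Γ → ℂ)
  (hπ : Function.Surjective π) (hπι : ∀ n, π (ι n) = n) (hn : ι.range.Normal)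
  (hker : π.ker ≤ Subgroup.center Γ) (hη : IsIrrCharacter Γ η) (hηι : ∀ n, η (ι n) = θ n)
  (hlam : ∀ (z : π.ker) (x : Γ), η (z * x) = lam z * η x)

include hθ hπ hπι hn hker hη hηι hlam in
theorem index_mem_extSub (P : Subgroup G) (hNP : N ≤ P) (χP : P → ℂ) (hχP : IsIrrCharacter P χP)
    (hext : ∀ n : N, χP ⟨n, hNP n.2⟩ = θ n) : (P.index : ℤ) ∈ extSub N π ι lam := by
  classical
  set K : Subgroup Γ := P.comap π with hK
  have hιK : ι.range ≤ K := by
    rintro _ ⟨n, rfl⟩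
    show π (ι n) ∈ P
    rw [hπι]
    exact hNP n.2
  set M : Subgroup K := ι.range.subgroupOf K with hM
  have hMn : M.Normal := hn.subgroupOf K
  let πK : K →* P := π.subgroupComap P
  have hπK : Function.Surjective πK := MonoidHom.subgroupComap_surjective_of_surjective π P hπ
  have hMmem : ∀ m : M, ∃ n : N, ι n = ((m : K) : Γ) := by
    intro m
    exact Subgroup.mem_subgroupOf.mp m.2
  let f : M →* N := MonoidHom.codRestrict (π.comp (K.subtype.comp M.subtype)) N (by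
    intro m
    obtain ⟨n, hn'⟩ := hMmem m
    show π ((m : K) : Γ) ∈ N
    rw [← hn', hπι]
    exact n.2)
  have hf : ∀ (m : M) (n : N), ι n = ((m : K) : Γ) → f m = n := by
    intro m n hn'
    apply Subtype.ext
    show π ((m : K) : Γ) = n
    rw [← hn', hπι]
  have hfs : Function.Surjective f := by
    intro n
    refine ⟨⟨⟨ι n, hιK ⟨n, rfl⟩⟩, Subgroup.mem_subgroupOf.mpr ⟨n, rfl⟩⟩, ?_⟩
    exact hf _ n rfl
  have hres : (fun m : M => (fun x : K => η x) m) = fun m : M => θ (f m) := by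
    funext m
    obtain ⟨n, hn'⟩ := hMmem m
    rw [hf m n hn']
    show η ((m : K) : Γ) = θ n
    rw [← hn', hηι]
  have hMirr : IsIrrCharacter M (fun m : M => (fun x : K => η x) m) := by
    rw [hres]
    exact IsIrrCharacter.comp_surj f hfs hθ
  have h1 : IsIrrCharacter K (fun x : K => η x) :=
    irr_of_restrict_irr M (IsCharacter.restrict K (IsIrrCharacter.isCharacter hη)) hMirr
  have h2 : IsIrrCharacter K (fun x : K => χP (πK x)) := IsIrrCharacter.comp_surj πK hπK hχP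
  obtain ⟨μ, hμ1, hμ2⟩ := ext_differ_linear M (fun x : K => η x) (fun x : K => χP (πK x)) h1 h2
    hMirr (by
      intro m
      obtain ⟨n, hn'⟩ := hMmem m
      show χP (πK (m : K)) = η ((m : K) : Γ)
      rw [← hn', hηι, ← hext]
      congr 1
      apply Subtype.ext
      show π ((m : K) : Γ) = n
      rw [← hn', hπι])
  have hkK : π.ker ≤ K := by
    intro z hz
    show π z ∈ P
    rw [MonoidHom.mem_ker.mp hz]
    exact P.one_mem
  have hη1 := IsIrrCharacter.apply_one_ne_zero hη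
  have hz : ∀ z : π.ker, μ ⟨z, hkK z.2⟩ = (lam z)⁻¹ := by
    intro z
    have h3 := hμ2 ⟨z, hkK z.2⟩
    have h4 := hμ2 1
    simp only [map_one, Units.val_one, one_mul] at h4
    have h5 : πK ⟨z, hkK z.2⟩ = 1 := by
      apply Subtype.ext
      exact MonoidHom.mem_ker.mp z.2
    have h6 : η (z : Γ) = lam z * η 1 := by
      have := hlam z 1
      rwa [mul_one] at this
    simp only [h5, h4] at h3
    rw [h6, ← mul_assoc] at h3
    have h7 : ((μ ⟨z, hkK z.2⟩ * lam z : ℂˣ) : ℂ) = 1 := by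
      rw [Units.val_mul]
      exact (mul_right_cancel₀ hη1 (by rw [one_mul]; exact h3)).symm
    rw [eq_inv_iff_mul_eq_one]
    exact Units.ext h7
  have hneg : (-(P.index : ℤ)) ∈ extSub N π ι lam := by
    refine ⟨MonoidHom.transfer μ, ?_, ?_⟩
    · intro n
      have := Fintype.ofFinite (Quotient (MulAction.orbitRel (Subgroup.zpowers (ι n)) (Γ ⧸ K)))
      rw [MonoidHom.transfer_eq_prod_quotient_orbitRel_zpowers_quot]
      apply Finset.prod_eq_one
      intro q _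
      apply hμ1
      rw [hM, Subgroup.mem_subgroupOf]
      have h8 := hn.conj_mem _ (ι.range.pow_mem ⟨n, rfl⟩
        (Function.minimalPeriod (ι n • ·) q.out)) q.out.out⁻¹
      rw [inv_inv] at h8
      exact h8
    · intro z
      rw [MonoidHom.transfer_eq_pow μ (z : Γ) (by
        intro k g₀ _
        have h9 : (z : Γ) ^ k ∈ Subgroup.center Γ := (Subgroup.center Γ).pow_mem (hker z.2) k
        rw [mul_assoc, ← Subgroup.mem_center_iff.mp h9 g₀, inv_mul_cancel_left])]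
      have h10 : (⟨(z : Γ) ^ K.index, MonoidHom.transfer_eq_pow_aux (z : Γ) (by
        intro k g₀ _
        have h9 : (z : Γ) ^ k ∈ Subgroup.center Γ := (Subgroup.center Γ).pow_mem (hker z.2) k
        rw [mul_assoc, ← Subgroup.mem_center_iff.mp h9 g₀, inv_mul_cancel_left])⟩ : K)
          = (⟨z, hkK z.2⟩ : K) ^ K.index := rfl
      rw [h10, map_pow, hz, hK, Subgroup.index_comap_of_surjective P hπ]
      simp
  have := (extSub N π ι lam).neg_mem hneg
  rwa [neg_neg] at this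

include hπ hπι hη hηι hlam in
theorem extends_of_one_mem (h : (1 : ℤ) ∈ extSub N π ι lam) :
    ∃ χ : G → ℂ, IsIrrCharacter G χ ∧ ∀ n : N, χ n = θ n := by
  obtain ⟨μ, hμ1, hμ2⟩ := (extSub N π ι lam).neg_mem h
  have h1 : IsIrrCharacter Γ ((fun x => (μ x : ℂ)) * η) :=
    IsIrrCharacter.linear_mul_irr (isCharacter_of_hom μ) (by simp) hη
  obtain ⟨χ, hχ, hχπ⟩ := irr_descend π hπ h1 (by
    intro z hz
    have h2 := hμ2 ⟨z, hz⟩
    have h3 := hlam ⟨z, hz⟩ 1
    simp only [mul_one] at h3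
    simp only [Pi.mul_apply, map_one, Units.val_one, one_mul]
    simp only at h2
    rw [h2, h3, ← mul_assoc, ← Units.val_mul]
    simp)
  refine ⟨χ, hχ, ?_⟩
  intro n
  rw [← hπι n, hχπ]
  simp [hμ1, hηι]

end ExtSub

/-- The subgroup of `ℤ` controlling extendibility of an invariant irreducible character. -/
theorem exists_extSub {G : Type u} [Group G] [Finite G] (N : Subgroup G) [hN : N.Normal] (θ : N → ℂ)
    (hθ : IsIrrCharacter N θ)
    (hinv : ∀ (g : G) (n : N), θ ⟨g * n * g⁻¹, hN.conj_mem (n : G) n.2 g⟩ = θ n)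
    (d : ℕ) (hd : θ 1 = d)
    (E : Subgroup (G × ℂˣ)) [Finite E] (hE1 : ∀ g : G, ∃ c : ℂˣ, (g, c) ∈ E)
    (hE2 : ∀ (n : N) (c : ℂˣ), (c : ℂ) = detChar θ n → ((n : G), c) ∈ E) :
    ∃ S : AddSubgroup ℤ,
      (∀ (P : Subgroup G) (hNP : N ≤ P) (χP : P → ℂ), IsIrrCharacter P χP →
        (∀ n : N, χP ⟨n, hNP n.2⟩ = θ n) → (P.index : ℤ) ∈ S) ∧
      (∀ k : ℕ, (∀ z : ℂˣ, ((1 : G), z ^ d) ∈ E → z ^ k = 1) → (k : ℤ) ∈ S) ∧
      ((1 : ℤ) ∈ S → ∃ χ : G → ℂ, IsIrrCharacter G χ ∧ ∀ n : N, χ n = θ n) := by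
  obtain ⟨Γ, _, _, π, ι, η, D, hπ, hπι, hιn, hker, hη, hηι, -, hDE, hDz⟩ :=
    exists_cover N θ hθ hinv d hd E hE1 hE2
  obtain ⟨lam, hlam⟩ := exists_central_char π.ker hker hη
  refine ⟨extSub N π ι lam, ?_, ?_, ?_⟩
  · intro P hNP χP hχP hext
    exact index_mem_extSub N π ι lam θ hθ η hπ hπι hιn hker hη hηι hlam P hNP χP hχP hext
  · intro k hk
    refine ⟨1, by simp, ?_⟩
    intro x
    obtain ⟨z, hz1, hz2⟩ := hDz x x.2
    have h1 := hDE x
    rw [MonoidHom.mem_ker.mp x.2, hz1] at h1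
    have h2 : (x : Γ) ^ k = 1 := hz2 k (hk z h1)
    have h3 : x ^ k = 1 := Subtype.ext h2
    rw [zpow_natCast, ← map_pow, h3, map_one]
    rfl
  · exact extends_of_one_mem N π ι lam θ η hπ hπι hη hηι hlam

theorem one_mem_of_coprime (S : AddSubgroup ℤ) (a b : ℕ) (ha : (a : ℤ) ∈ S) (hb : (b : ℤ) ∈ S)
    (h : Nat.Coprime a b) : (1 : ℤ) ∈ S := by
  have h1 := Nat.gcd_eq_gcd_ab a b
  rw [h] at h1
  have h2 : (1 : ℤ) = Nat.gcdA a b • (a : ℤ) + Nat.gcdB a b • (b : ℤ) := by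
    simp only [smul_eq_mul]
    push_cast at h1
    linarith
  rw [h2]
  exact S.add_mem (S.zsmul_mem ha _) (S.zsmul_mem hb _)

theorem one_mem_of_primes (S : AddSubgroup ℤ)
    (h : ∀ p : ℕ, p.Prime → ∃ m : ℕ, (m : ℤ) ∈ S ∧ Nat.Coprime m p) : (1 : ℤ) ∈ S := by
  obtain ⟨t, ht⟩ := Int.subgroup_cyclic S
  have hdvd : ∀ m : ℕ, (m : ℤ) ∈ S → t.natAbs ∣ m := by
    intro m hm
    rw [ht, AddSubgroup.mem_closure_singleton] at hm
    obtain ⟨n, hn⟩ := hm
    have : t ∣ (m : ℤ) := ⟨n, by rw [← hn, smul_eq_mul, mul_comm]⟩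
    exact Int.natAbs_dvd_natAbs.mpr this
  have htS : t ∈ S := by
    rw [ht]
    exact AddSubgroup.subset_closure rfl
  by_cases h1 : t.natAbs = 1
  · rcases Int.natAbs_eq t with h2 | h2
    · rw [h1] at h2
      rw [h2] at htS
      exact_mod_cast htS
    · rw [h1] at h2
      rw [h2] at htS
      have := S.neg_mem htS
      simpa using this
  · exfalso
    obtain ⟨q, hq, hqt⟩ := Nat.exists_prime_and_dvd h1
    obtain ⟨m, hm, hcop⟩ := h q hq
    have h3 : q ∣ m := hqt.trans (hdvd m hm)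
    have h4 : q ∣ Nat.gcd m q := Nat.dvd_gcd h3 dvd_rfl
    rw [hcop] at h4
    exact hq.one_lt.ne' (Nat.dvd_one.mp h4)

/-- version of `exists_extSub` with `det ^ k = 1`. -/
theorem exists_extSub_roots {G : Type u} [Group G] [Finite G] (N : Subgroup G) [hN : N.Normal]
    (θ : N → ℂ) (hθ : IsIrrCharacter N θ)
    (hinv : ∀ (g : G) (n : N), θ ⟨g * n * g⁻¹, hN.conj_mem (n : G) n.2 g⟩ = θ n)
    (d : ℕ) (hd : θ 1 = d) (k : ℕ) (hk0 : k ≠ 0) (hk : ∀ n : N, detChar θ n ^ k = 1) :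
    ∃ S : AddSubgroup ℤ,
      (∀ (P : Subgroup G) (hNP : N ≤ P) (χP : P → ℂ), IsIrrCharacter P χP →
        (∀ n : N, χP ⟨n, hNP n.2⟩ = θ n) → (P.index : ℤ) ∈ S) ∧
      (((d * k : ℕ) : ℤ) ∈ S) ∧
      ((1 : ℤ) ∈ S → ∃ χ : G → ℂ, IsIrrCharacter G χ ∧ ∀ n : N, χ n = θ n) := by
  have hkpos : NeZero k := ⟨hk0⟩
  let E : Subgroup (G × ℂˣ) := (⊤ : Subgroup G).prod (rootsOfUnity k ℂ)
  have hEfin : Finite E := Finite.of_equiv _ (Subgroup.prodEquiv _ _).symm.toEquiv
  obtain ⟨S, h1, h2, h3⟩ := exists_extSub N θ hθ hinv d hd E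
    (fun g => ⟨1, Subgroup.mem_prod.2 ⟨trivial, one_mem _⟩⟩) (by
      intro n c hc
      refine Subgroup.mem_prod.2 ⟨trivial, ?_⟩
      show c ∈ rootsOfUnity k ℂ
      rw [mem_rootsOfUnity]
      apply Units.ext
      rw [Units.val_pow_eq_pow_val, hc, hk]
      rfl)
  refine ⟨S, h1, h2 _ ?_, h3⟩
  intro z hz
  have h4 : z ^ d ∈ rootsOfUnity k ℂ := (Subgroup.mem_prod.1 hz).2
  rw [mem_rootsOfUnity] at h4
  rw [pow_mul]
  exact h4

theorem detChar_pow_card {N : Type u} [Group N] [Finite N] {θ : N → ℂ} (hθ : IsCharacter N θ) (n : N) :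
    detChar θ n ^ Nat.card N = 1 := by
  obtain ⟨F, hF⟩ := H3.detChar_eq_hom hθ
  rw [hF]
  show ((F n : ℂˣ) : ℂ) ^ Nat.card N = 1
  rw [← Units.val_pow_eq_pow_val, ← map_pow, pow_card_eq_one', map_one]
  rfl

end Cfsg.Agent.H2
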