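import Mathlib
import Cfsg.Agent.Lib_helper2_Twisted
import Cfsg.Agent.Lib_helper2_SchurDirect

set_option autoImplicit false
open scoped commutatorElement

namespace Cfsg.Agent.H2

universe u v

/-- a cyclic group of order dividing `n` is an image of `ZMod n` -/
theorem exists_surjective_zmod_of_cyclic {K : Type*} [Group K] [IsCyclic K] (n : ℕ)
    (h : Nat.card K ∣ n) : ∃ f : Multiplicative (ZMod n) →* K, Function.Surjective f := by
  let e := zmodCyclicMulEquiv (G := K) inferInstance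
  let r : ZMod n →+* ZMod (Nat.card K) := ZMod.castHom h (ZMod (Nat.card K))
  have hr : Function.Surjective r := ZMod.castHom_surjective h
  refine ⟨e.toMonoidHom.comp (AddMonoidHom.toMultiplicative r.toAddMonoidHom), ?_⟩
  intro k
  obtain ⟨a, ha⟩ := hr (Multiplicative.toAdd (e.symm k))
  refine ⟨Multiplicative.ofAdd a, ?_⟩
  change e (Multiplicative.ofAdd (r a)) = k
  rw [ha]
  simp

/-- The kernel of a stem extension of a two-generator abelian group is cyclic. -/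
theorem stem_ker_le_zpowers {Δ : Type u} {G : Type v} [Group Δ] [Finite Δ] [CommGroup G]
    (τ : Δ →* G) (hτ : Cfsg.IsStemExtension τ) (x₀ y₀ : G)
    (hgen : Subgroup.zpowers y₀ ⊔ Subgroup.zpowers x₀ = ⊤) (n : ℕ) (hy : y₀ ^ n = 1) :
    ∃ z : Δ, z ^ n = 1 ∧ τ.ker ≤ Subgroup.zpowers z := by
  obtain ⟨hs, hc, hk⟩ := hτ
  obtain ⟨t, ht⟩ := hs x₀
  obtain ⟨y, hyy⟩ := hs y₀
  set C : Subgroup G := Subgroup.zpowers y₀ with hC
  set N : Subgroup Δ := C.comap τ with hN
  have hKN : τ.ker ≤ N := by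
    intro x hx
    rw [hN, Subgroup.mem_comap, MonoidHom.mem_ker.mp hx]
    exact one_mem _
  have hCn : C.Normal := inferInstance
  have hNn : N.Normal := hCn.comap τ
  have hNc : IsMulCommutative N := by
    apply MonoidHom.isMulCommutative_of_isCyclic_of_ker_le_center (τ.subgroupComap C)
    rintro ⟨x, hx⟩ hxk
    rw [MonoidHom.mem_ker] at hxk
    have hx1 : τ x = 1 := congrArg Subtype.val hxk
    have hx2 : x ∈ Subgroup.center Δ := hc (MonoidHom.mem_ker.mpr hx1)
    rw [Subgroup.mem_center_iff]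
    rintro ⟨y, hy⟩
    apply Subtype.ext
    exact (Subgroup.mem_center_iff.mp hx2) y
  have hgenN : N ⊔ Subgroup.zpowers t = ⊤ := by
    have h1 : (N ⊔ Subgroup.zpowers t).map τ = ⊤ := by
      rw [Subgroup.map_sup, hN, Subgroup.map_comap_eq_self_of_surjective hs, MonoidHom.map_zpowers, ht, hgen]
    have h2 : τ.ker ≤ N ⊔ Subgroup.zpowers t := hKN.trans le_sup_left
    rw [← Subgroup.comap_map_eq_self h2, h1, Subgroup.comap_top]
  obtain ⟨_, e2, e3, _⟩ := Cfsg.Agent.S3866.result N hNc t hgenN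
  have hyN : y ∈ N := by
    rw [hN, Subgroup.mem_comap, hyy]; exact Subgroup.mem_zpowers _
  let φ : N →* Δ :=
    { toFun := fun a => t * a.1 * t⁻¹ * a.1⁻¹
      map_one' := by simp
      map_mul' := fun a b => e3 a.1 a.2 b.1 b.2 }
  have hφk : ∀ k : N, k.1 ∈ τ.ker → φ k = 1 := by
    intro k hk'
    change t * k.1 * t⁻¹ * k.1⁻¹ = 1
    rw [(Subgroup.mem_center_iff.mp (hc hk')) t]; group
  refine ⟨φ ⟨y, hyN⟩, ?_, ?_⟩
  · rw [← map_pow]
    apply hφk
    change y ^ n ∈ τ.ker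
    rw [MonoidHom.mem_ker, map_pow, hyy, hy]
  · intro k hk'
    obtain ⟨a, ha, rfl⟩ := e2 k (hk hk')
    have ha' : τ a ∈ C := ha
    obtain ⟨i, hi⟩ := Subgroup.mem_zpowers_iff.mp ha'
    have h1 : (⟨y, hyN⟩ : N) ^ (-i) * ⟨a, ha⟩ ∈ (τ.ker).subgroupOf N := by
      rw [Subgroup.mem_subgroupOf, MonoidHom.mem_ker]
      change τ (y ^ (-i) * a) = 1
      rw [map_mul, map_zpow, hyy, ← hi]; simp
    have h2 : φ ((⟨y, hyN⟩ : N) ^ (-i) * ⟨a, ha⟩) = 1 := hφk _ h1
    rw [map_mul, map_zpow, zpow_neg, inv_mul_eq_one] at h2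
    change φ ⟨a, ha⟩ ∈ _
    rw [← h2]
    exact Subgroup.zpow_mem_zpowers _ _

/-- consequence: surjection from `ZMod n` -/
theorem stem_exists_surjective_zmod {Δ : Type u} {G : Type v} [Group Δ] [Finite Δ] [CommGroup G]
    (τ : Δ →* G) (hτ : Cfsg.IsStemExtension τ) (x₀ y₀ : G)
    (hgen : Subgroup.zpowers y₀ ⊔ Subgroup.zpowers x₀ = ⊤) (n : ℕ) (hy : y₀ ^ n = 1) :
    ∃ f : Multiplicative (ZMod n) →* τ.ker, Function.Surjective f := by
  obtain ⟨z, hz, hle⟩ := stem_ker_le_zpowers τ hτ x₀ y₀ hgen n hy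
  have hcyc : IsCyclic τ.ker :=
    isCyclic_of_surjective (Subgroup.subgroupOfEquivOfLe hle).toMonoidHom
      (Subgroup.subgroupOfEquivOfLe hle).surjective
  apply exists_surjective_zmod_of_cyclic
  calc Nat.card τ.ker ∣ Nat.card (Subgroup.zpowers z) := Subgroup.card_dvd_of_le hle
    _ = orderOf z := Nat.card_zpowers z
    _ ∣ n := orderOf_dvd_of_pow_eq_one hz

end Cfsg.Agent.H2
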