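import Mathlib
import Cfsg.Agent.Lib_helper2_SchurDirect

set_option autoImplicit false
open scoped commutatorElement

namespace Cfsg.Agent.H2

/-- rotations as a homomorphism -/
def rotHom (n : ℕ) : Multiplicative (ZMod n) →* DihedralGroup n where
  toFun i := DihedralGroup.r (Multiplicative.toAdd i)
  map_one' := rfl
  map_mul' _ _ := rfl

theorem rot_mem (n : ℕ) (i : ZMod n) : DihedralGroup.r i ∈ (rotHom n).range := ⟨Multiplicative.ofAdd i, rfl⟩

theorem rot_normal (n : ℕ) : (rotHom n).range.Normal := by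
  constructor
  rintro _ ⟨i, rfl⟩ (j | j)
  · refine ⟨i, ?_⟩
    change DihedralGroup.r (Multiplicative.toAdd i) =
      DihedralGroup.r j * DihedralGroup.r (Multiplicative.toAdd i) * (DihedralGroup.r j)⁻¹
    simp
  · refine ⟨i⁻¹, ?_⟩
    change DihedralGroup.r (-Multiplicative.toAdd i) =
      DihedralGroup.sr j * DihedralGroup.r (Multiplicative.toAdd i) * (DihedralGroup.sr j)⁻¹
    simp

theorem rot_cyclic (n : ℕ) : IsCyclic (rotHom n).range :=
  isCyclic_of_surjective (rotHom n).rangeRestrict (rotHom n).rangeRestrict_surjective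

theorem rot_gen (n : ℕ) : (rotHom n).range ⊔ Subgroup.zpowers (DihedralGroup.sr (0 : ZMod n)) = ⊤ := by
  rw [eq_top_iff]
  rintro (i | i) _
  · exact Subgroup.mem_sup_left (rot_mem n i)
  · have : DihedralGroup.sr i = DihedralGroup.sr 0 * DihedralGroup.r i := by simp
    rw [this]
    exact Subgroup.mul_mem _ (Subgroup.mem_sup_right (Subgroup.mem_zpowers _)) (Subgroup.mem_sup_left (rot_mem n i))

theorem rot_cent (n : ℕ) (g : DihedralGroup n)
    (hg : g ∈ (rotHom n).range ⊓ Subgroup.centralizer {DihedralGroup.sr (0 : ZMod n)}) :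
    ∃ i : ZMod n, g = DihedralGroup.r i ∧ i + i = 0 := by
  obtain ⟨⟨i, rfl⟩, h2⟩ := hg
  refine ⟨Multiplicative.toAdd i, rfl, ?_⟩
  change _ ∈ Subgroup.centralizer _ at h2
  rw [Subgroup.mem_centralizer_iff] at h2
  have := h2 _ rfl
  change DihedralGroup.sr 0 * DihedralGroup.r (Multiplicative.toAdd i)
    = DihedralGroup.r (Multiplicative.toAdd i) * DihedralGroup.sr 0 at this
  simp only [DihedralGroup.sr_mul_r, DihedralGroup.r_mul_sr] at this
  have h3 := DihedralGroup.sr.inj this
  linear_combination h3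

/-- solutions of `2 i = 0` in `ZMod n` -/
theorem zmod_add_self_eq_zero (n : ℕ) [NeZero n] (i : ZMod n) (h : i + i = 0) :
    i = 0 ∨ (Even n ∧ i = ((n / 2 : ℕ) : ZMod n)) := by
  have h1 : ((i.val + i.val : ℕ) : ZMod n) = 0 := by
    push_cast
    simpa using h
  rw [ZMod.natCast_eq_zero_iff] at h1
  have h2 : i.val < n := ZMod.val_lt i
  obtain ⟨k, hk⟩ := h1
  have hk2 : k < 2 := by
    by_contra hcon
    have : 2 ≤ k := by omega
    nlinarith
  have h3 : i = ((i.val : ℕ) : ZMod n) := by simp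
  interval_cases k
  · left
    have : i.val = 0 := by omega
    rw [h3, this]; simp
  · right
    refine ⟨⟨i.val, by omega⟩, ?_⟩
    have : i.val = n / 2 := by omega
    rw [← this]; exact h3

theorem card_le_two_of {α : Type*} (a b : α) (h : ∀ x : α, x = a ∨ x = b) : Nat.card α ≤ 2 := by
  classical
  have : Fintype α := ⟨{a, b}, fun x => by rcases h x with h | h <;> simp [h]⟩
  rw [Nat.card_eq_fintype_card]
  calc Fintype.card α = (Finset.univ : Finset α).card := rfl
    _ ≤ ({a, b} : Finset α).card := Finset.card_le_card (fun x _ => by rcases h x with h | h <;> simp [h])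
    _ ≤ 2 := Finset.card_le_two

theorem dihedral_stem_odd (n : ℕ) (hn : Odd n) (Γ : Type) [Group Γ] [Finite Γ] (σ : Γ →* DihedralGroup n)
    (hσ : Cfsg.IsStemExtension σ) : Nat.card σ.ker = 1 := by
  have : NeZero n := ⟨by rintro rfl; simp at hn⟩
  obtain ⟨t, ht⟩ := hσ.1 (DihedralGroup.sr 0)
  have := rot_normal n
  have key := stem_card_key σ hσ (rotHom n).range (rot_cyclic n) t (by rw [ht]; exact rot_gen n)
  rw [ht] at key
  have h1 : Nat.card ↥((rotHom n).range ⊓ Subgroup.centralizer {DihedralGroup.sr (0 : ZMod n)}) = 1 := by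
    rw [Nat.card_eq_one_iff_unique]
    refine ⟨⟨?_⟩, ⟨1⟩⟩
    have hh : ∀ g ∈ (rotHom n).range ⊓ Subgroup.centralizer {DihedralGroup.sr (0 : ZMod n)}, g = 1 := by
      intro g hg
      obtain ⟨i, rfl, hi⟩ := rot_cent n g hg
      rcases zmod_add_self_eq_zero n i hi with h | ⟨h, _⟩
      · rw [h]; rfl
      · exact absurd h (Nat.not_even_iff_odd.mpr hn)
    rintro ⟨a, ha⟩ ⟨b, hb⟩
    apply Subtype.ext
    change a = b
    rw [hh a ha, hh b hb]
  rw [h1] at key
  exact Nat.eq_one_of_mul_eq_one_right key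

theorem dihedral_stem_even (n : ℕ) [NeZero n] (Γ : Type) [Group Γ] [Finite Γ] (σ : Γ →* DihedralGroup n)
    (hσ : Cfsg.IsStemExtension σ) : Nat.card σ.ker ≤ 2 := by
  obtain ⟨t, ht⟩ := hσ.1 (DihedralGroup.sr 0)
  have := rot_normal n
  have key := stem_card_key σ hσ (rotHom n).range (rot_cyclic n) t (by rw [ht]; exact rot_gen n)
  rw [ht] at key
  have h1 : Nat.card ↥((rotHom n).range ⊓ Subgroup.centralizer {DihedralGroup.sr (0 : ZMod n)}) ≤ 2 := by
    by_cases hex : ∃ g : ↥((rotHom n).range ⊓ Subgroup.centralizer {DihedralGroup.sr (0 : ZMod n)}), g ≠ 1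
    · obtain ⟨g, hg⟩ := hex
      apply card_le_two_of 1 g
      rintro ⟨x, hx⟩
      obtain ⟨i, rfl, hi⟩ := rot_cent n x hx
      rcases zmod_add_self_eq_zero n i hi with h | ⟨_, h⟩
      · left; subst h; rfl
      · right
        obtain ⟨g, hg'⟩ := g
        obtain ⟨j, rfl, hj⟩ := rot_cent n g hg'
        rcases zmod_add_self_eq_zero n j hj with h' | ⟨_, h'⟩
        · exfalso; apply hg; subst h'; rfl
        · subst h; subst h'; rfl
    · push Not at hex
      apply card_le_two_of 1 1
      intro x; left; exact hex x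
  have hpos : 0 < Nat.card ↥(((rotHom n).range.comap σ ⊓ Subgroup.centralizer {t}).map σ) := Nat.card_pos
  calc Nat.card σ.ker ≤ Nat.card σ.ker * Nat.card ↥(((rotHom n).range.comap σ ⊓ Subgroup.centralizer {t}).map σ) :=
        Nat.le_mul_of_pos_right _ hpos
    _ ≤ 2 := by rw [key]; exact h1

end Cfsg.Agent.H2
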