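import Mathlib

set_option autoImplicit false

namespace Cfsg.Agent.H3

open Subgroup

/-- The size of the conjugacy class of `x` is the index of the centralizer. -/
theorem card_isConj_eq_index {G : Type*} [Group G] (x : G) :
    Nat.card {y : G // IsConj x y} = (centralizer ({x} : Set G)).index := by
  classical
  rw [Subgroup.index_eq_card]
  symm
  let f : G ⧸ centralizer ({x} : Set G) → {y : G // IsConj x y} := fun q =>
    Quotient.liftOn' q (fun a => (⟨a * x * a⁻¹, isConj_iff.mpr ⟨a, rfl⟩⟩ : {y : G // IsConj x y}))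
      (by
        intro a b hab
        have h1 : a⁻¹ * b ∈ centralizer ({x} : Set G) := QuotientGroup.leftRel_apply.mp hab
        have h2 := (mem_centralizer_iff.mp h1) x rfl
        apply Subtype.ext
        show a * x * a⁻¹ = b * x * b⁻¹
        calc a * x * a⁻¹ = a * (x * (a⁻¹ * b)) * b⁻¹ := by group
          _ = a * ((a⁻¹ * b) * x) * b⁻¹ := by rw [h2]
          _ = b * x * b⁻¹ := by group)
  apply Nat.card_congr
  apply Equiv.ofBijective f
  constructor
  · intro q1 q2
    induction q1 using QuotientGroup.induction_on with | _ a => ?_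
    induction q2 using QuotientGroup.induction_on with | _ b => ?_
    intro h
    have h1 : a * x * a⁻¹ = b * x * b⁻¹ := congrArg Subtype.val h
    apply QuotientGroup.eq.mpr
    rw [mem_centralizer_iff]
    intro y hy
    rw [Set.mem_singleton_iff] at hy
    subst hy
    calc y * (a⁻¹ * b) = a⁻¹ * (a * y * a⁻¹) * b := by group
      _ = a⁻¹ * (b * y * b⁻¹) * b := by rw [h1]
      _ = a⁻¹ * b * y := by group
  · rintro ⟨y, hy⟩
    obtain ⟨a, ha⟩ := isConj_iff.mp hy
    exact ⟨(a : G ⧸ centralizer ({x} : Set G)), Subtype.ext ha⟩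

/-- An involution on a finite type of odd cardinality has a fixed point. -/
theorem exists_fixed_of_involutive_of_odd {α : Type*} [Finite α] (f : α → α)
    (hf : Function.Involutive f) (hodd : ¬ 2 ∣ Nat.card α) : ∃ a, f a = a := by
  classical
  have := Fintype.ofFinite α
  by_contra hcon
  push Not at hcon
  apply hodd
  rw [Nat.card_eq_fintype_card]
  have : Fact (Nat.Prime 2) := ⟨Nat.prime_two⟩
  let F : Function.End α := f
  have hF : F ^ 2 ^ 1 = 1 := by
    rw [pow_one, pow_two]
    funext a
    exact hf a
  have h := Equiv.Perm.card_fixedPoints_modEq (α := α) (f := F) (p := 2) (n := 1) hF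
  have h0 : Fintype.card (Function.fixedPoints F) = 0 := by
    rw [Fintype.card_eq_zero_iff]
    exact ⟨fun a => hcon a.1 a.2⟩
  rw [h0] at h
  exact (Nat.modEq_zero_iff_dvd).mp h

end Cfsg.Agent.H3
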