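import Mathlib
import Cfsg.Agent.Lib_helper7_WellPlaced
import Cfsg.Agent.Lib_helper8_FusAQ
import Cfsg.Agent.Lib_helper5_CharP1

set_option autoImplicit false

namespace Cfsg.Agent.H3

variable {G : Type*} [Group G]

/-- If for every fully normalised `U ≤ P` one has `N_G(U) = C_G(U) (N_G(U) ∩ M)`, then `M` controls
strong fusion in `P`. -/
theorem control_of_local [Finite G] {p : ℕ} [Fact p.Prime] (P : Sylow p G) (M : Subgroup G)
    (hloc : ∀ U : Subgroup G, U ≤ (P : Subgroup G) →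
      H7.IsSylowIn p ((P : Subgroup G) ⊓ Subgroup.normalizer (U : Set G)) (Subgroup.normalizer (U : Set G)) →
      ∀ m ∈ Subgroup.normalizer (U : Set G), ∃ c ∈ Subgroup.centralizer (U : Set G), ∃ n ∈ M, m = c * n)
    (X : Set G) (g : G) (hX : X ⊆ (P : Subgroup G)) (hg : (fun a => g⁻¹ * a * g) '' X ⊆ (P : Subgroup G)) :
    ∃ n ∈ M, ∀ a ∈ X, g⁻¹ * a * g = n⁻¹ * a * n := by
  classical
  let R : Subgroup G → G → Prop := fun T x => x ∈ Subgroup.normalizer (T : Set G) ∧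
    ∃ n ∈ M, ∀ t ∈ T, x⁻¹ * t * x = n⁻¹ * t * n
  have hRn : ∀ T x, R T x → x ∈ Subgroup.normalizer (T : Set G) := fun T x h => h.1
  have hRi : ∀ T x, R T x → R T x⁻¹ := by
    rintro T x ⟨h1, n, hn, h2⟩
    refine ⟨Subgroup.inv_mem _ h1, n⁻¹, Subgroup.inv_mem _ hn, fun t ht => ?_⟩
    have ht' : x * t * x⁻¹ ∈ T := (Subgroup.mem_normalizer_iff.1 h1 t).1 ht
    have := h2 _ ht'
    have e : x⁻¹ * (x * t * x⁻¹) * x = t := by group
    rw [e] at this
    rw [inv_inv, inv_inv]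
    calc x * t * x⁻¹ = n * (n⁻¹ * (x * t * x⁻¹) * n) * n⁻¹ := by group
      _ = n * t * n⁻¹ := by rw [← this]
  have hfin : ∀ (Y : Set G) (y : G), H7.Chain R Y y →
      ∃ n ∈ M, ∀ a ∈ Y, y⁻¹ * a * y = n⁻¹ * a * n := by
    intro Y y h
    induction h with
    | nil Y => exact ⟨1, Subgroup.one_mem _, by simp⟩
    | cons Y T x y hR hYT _ ih =>
      obtain ⟨n2, hn2, h2⟩ := ih
      obtain ⟨-, n1, hn1, h1⟩ := hR
      refine ⟨n1 * n2, Subgroup.mul_mem _ hn1 hn2, fun a ha => ?_⟩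
      have e1 := h1 a (hYT ha)
      have e2 := h2 (x⁻¹ * a * x) ⟨a, ha, rfl⟩
      calc (x * y)⁻¹ * a * (x * y) = y⁻¹ * (x⁻¹ * a * x) * y := by group
        _ = n2⁻¹ * (x⁻¹ * a * x) * n2 := e2
        _ = n2⁻¹ * (n1⁻¹ * a * n1) * n2 := by rw [e1]
        _ = _ := by group
  have key := H7.alperin_general (R := R) P hRn hRi (by
    intro Q hQ _
    obtain ⟨h, h1, h2⟩ := H7.exists_fully_normalized P (P.2.to_le hQ)
    refine ⟨H7.rc h Q, h1, ⟨h, rfl⟩, h2, ?_⟩
    intro m hm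
    obtain ⟨c, hc, n, hn, rfl⟩ := hloc _ h1 h2 m hm
    refine H7.Chain.single (T := H7.rc h Q) ⟨hm, n, hn, fun t ht => ?_⟩ (le_refl _)
    have h3 := Subgroup.mem_centralizer_iff.1 hc t ht
    calc (c * n)⁻¹ * t * (c * n) = n⁻¹ * (c⁻¹ * (t * c)) * n := by group
      _ = n⁻¹ * (c⁻¹ * (c * t)) * n := by rw [h3]
      _ = n⁻¹ * t * n := by group)
  exact hfin _ _ (H7.alperin_general_set P key X g hX hg)

theorem map_pResidual_le (p : ℕ) (V : Subgroup G) :
    (Cfsg.pResidual p V).map V.subtype ≤ Cfsg.pResidual p G := by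
  unfold Cfsg.pResidual
  rw [MonoidHom.map_closure, Subgroup.closure_le]
  rintro _ ⟨a, ha, rfl⟩
  apply Subgroup.subset_closure
  have : orderOf (V.subtype a) = orderOf a := Subgroup.orderOf_coe a
  show (orderOf (V.subtype a)).Coprime p
  rw [this]; exact ha

/-- A subgroup controlling strong fusion in `P` has the same hyperfocal subgroup. -/
theorem hyperfocal_of_control [Finite G] {p : ℕ} [Fact p.Prime] (P : Sylow p G) (V : Subgroup G)
    (hPV : (P : Subgroup G) ≤ V)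
    (hctl : ∀ Q : Subgroup G, Q ≤ (P : Subgroup G) → ∀ g : G, (∀ x ∈ Q, g * x * g⁻¹ ∈ (P : Subgroup G)) →
      ∃ v ∈ V, ∀ x ∈ Q, g * x * g⁻¹ = v * x * v⁻¹) :
    (P : Subgroup G) ⊓ Cfsg.pResidual p G = (P : Subgroup G) ⊓ (Cfsg.pResidual p V).map V.subtype := by
  apply le_antisymm
  · refine le_inf inf_le_left ?_
    rw [← H8.hyperfocal_group, H8.hyperfocal_eq, Subgroup.closure_le]
    rintro _ ⟨Q, α, x, hQ, hα, rfl⟩
    have hOp : H8.Op (Cfsg.groupFusionSystem (P : Subgroup G)) p Q ≤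
        Cfsg.autInducedBy ((Cfsg.pResidual p V).map V.subtype) Q := by
      rw [H8.Op_eq_closure, Subgroup.closure_le]
      rintro β ⟨h1, h2⟩
      obtain ⟨-, g, hg⟩ := H8.isMap_group_iff.1 ((H8.mem_autGroup_iff hQ).1 h1)
      obtain ⟨v, hv, hgv⟩ := hctl Q hQ g (fun x hx => (hg x hx).2)
      have hβ : ∀ x : Q, ((β x : Q) : G) = v * x * v⁻¹ := fun x => by
        rw [← hgv x x.2, ← (hg x x.2).1, H8.autFun_coe]
      obtain ⟨k, hk, hk1⟩ := H8.exists_pow_p'Part p v (orderOf_pos β).ne' h2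
      have hpow : ∀ (n : ℕ) (x : Q), (((β ^ n) x : Q) : G) = v ^ n * x * (v ^ n)⁻¹ := by
        intro n
        induction n with
        | zero => intro x; simp
        | succ n ih =>
          intro x
          rw [pow_succ', MulAut.mul_apply, hβ, ih, pow_succ']
          group
      have e : β ^ k = β := by
        conv_rhs => rw [← pow_one β]
        exact pow_eq_pow_iff_modEq.2 hk1
      refine H8.mem_autInducedBy_iff.2 ⟨v ^ k, ⟨⟨v ^ k, V.pow_mem hv k⟩, ?_, rfl⟩, fun x => ?_⟩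
      · apply H1.mem_pResidual_of_coprime p
        rw [← Subgroup.orderOf_coe]
        exact hk
      · rw [← hpow k x, e]
    obtain ⟨w, hw, hw'⟩ := H8.mem_autInducedBy_iff.1 (hOp hα)
    rw [hw']
    have hnorm := H5.le_normalizer_map_subtype (H := V) _ (H1.pResidual_normal (G := V) p)
    have hx : (x : G)⁻¹ ∈ V := V.inv_mem (hPV (hQ x.2))
    have h1 := (Subgroup.mem_normalizer_iff.1 (hnorm hx) w).1 hw
    have e : (x : G)⁻¹ * (w * x * w⁻¹) = ((x : G)⁻¹ * w * ((x : G)⁻¹)⁻¹) * w⁻¹ := by group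
    show (x : G)⁻¹ * (w * x * w⁻¹) ∈ (Cfsg.pResidual p V).map V.subtype
    rw [e]
    exact Subgroup.mul_mem _ h1 (Subgroup.inv_mem _ hw)
  · exact inf_le_inf_left _ (map_pResidual_le p V)

end Cfsg.Agent.H3
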