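import Mathlib
import Cfsg.Agent.Lib_helper3_Sylow2
import Cfsg.Agent.Lib_helper3_Conj

set_option autoImplicit false

namespace Cfsg.Agent.H3

open scoped Pointwise

variable {G : Type*} [Group G]

/-- The non-identity elements of the conjugates of `A` number at most `[G : N(A)] (|A| - 1)`. -/
theorem card_conj_cover_le [Finite G] (A : Subgroup G) :
    Nat.card {x : G // x ≠ 1 ∧ ∃ g : G, x ∈ MulAut.conj g • A} ≤
      (Subgroup.normalizer (A : Set G)).index * (Nat.card A - 1) := by
  classical
  let f : (G ⧸ Subgroup.normalizer (A : Set G)) × {a : A // a ≠ 1} →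
      {x : G // x ≠ 1 ∧ ∃ g : G, x ∈ MulAut.conj g • A} := fun qa =>
    ⟨qa.1.out * (qa.2.1 : G) * qa.1.out⁻¹, by
      intro h
      apply qa.2.2
      apply Subtype.ext
      have : (qa.2.1 : G) = qa.1.out⁻¹ * (qa.1.out * (qa.2.1 : G) * qa.1.out⁻¹) * qa.1.out := by group
      rw [this, h]; simp, qa.1.out, by
      rw [mem_conj_smul_iff]
      have : qa.1.out⁻¹ * (qa.1.out * (qa.2.1 : G) * qa.1.out⁻¹) * qa.1.out = (qa.2.1 : G) := by group
      rw [this]; exact qa.2.1.2⟩
  have hf : Function.Surjective f := by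
    rintro ⟨x, hx1, g, hg⟩
    rw [mem_conj_smul_iff] at hg
    have hq : ((g : G ⧸ Subgroup.normalizer (A : Set G))).out⁻¹ * g ∈ Subgroup.normalizer (A : Set G) :=
      QuotientGroup.eq.mp (QuotientGroup.out_eq' _)
    set r := ((g : G ⧸ Subgroup.normalizer (A : Set G))).out with hr
    have hmem : r⁻¹ * x * r ∈ A := by
      have : r⁻¹ * x * r = (r⁻¹ * g) * (g⁻¹ * x * g) * (r⁻¹ * g)⁻¹ := by group
      rw [this]
      exact (Subgroup.mem_normalizer_iff.mp hq _).mp hg
    refine ⟨((g : G ⧸ Subgroup.normalizer (A : Set G)), ⟨⟨r⁻¹ * x * r, hmem⟩, ?_⟩), ?_⟩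
    · intro hc
      have hc' : r⁻¹ * x * r = 1 := congrArg Subtype.val hc
      apply hx1
      have : x = r * (r⁻¹ * x * r) * r⁻¹ := by group
      rw [this, hc']; simp
    · apply Subtype.ext
      show r * (r⁻¹ * x * r) * r⁻¹ = x
      group
  have h1 := Nat.card_le_card_of_surjective f hf
  have h2 : Nat.card {a : A // a ≠ 1} = Nat.card A - 1 := by
    have := Fintype.ofFinite A
    rw [Nat.card_eq_fintype_card, Nat.card_eq_fintype_card, Fintype.card_subtype_compl]
    simp
  rw [Nat.card_prod, ← Subgroup.index_eq_card, h2] at h1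
  exact h1

/-- If the conjugates of two subgroups cover `G`, one of them is self-normalizing (or everything). -/
theorem normalizer_eq_of_cover [Finite G] (A B : Subgroup G)
    (hcov : ∀ x : G, (∃ g : G, x ∈ MulAut.conj g • A) ∨ (∃ g : G, x ∈ MulAut.conj g • B)) :
    Subgroup.normalizer (A : Set G) = A ∨ Subgroup.normalizer (B : Set G) = B := by
  classical
  by_contra hcon
  push Not at hcon
  obtain ⟨hA, hB⟩ := hcon
  have key : ∀ C : Subgroup G, Subgroup.normalizer (C : Set G) ≠ C →
      2 * ((Subgroup.normalizer (C : Set G)).index * (Nat.card C - 1)) + 2 ≤ Nat.card G := by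
    intro C hC
    have hlt : C < Subgroup.normalizer (C : Set G) := lt_of_le_of_ne Subgroup.le_normalizer (Ne.symm hC)
    have h1 : Nat.card C ∣ Nat.card (Subgroup.normalizer (C : Set G)) := Subgroup.card_dvd_of_le hlt.le
    obtain ⟨k, hk⟩ := h1
    have hpos : 0 < Nat.card (Subgroup.normalizer (C : Set G)) := Nat.card_pos
    have hCpos : 0 < Nat.card C := Nat.card_pos
    have hk2 : 2 ≤ k := by
      rcases k with _ | _ | k
      · simp at hk; omega
      · exfalso
        apply hC
        exact (Subgroup.eq_of_le_of_card_ge hlt.le (by rw [hk]; simp)).symm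
      · omega
    have h3 := Subgroup.index_mul_card (Subgroup.normalizer (C : Set G))
    have hi : 0 < (Subgroup.normalizer (C : Set G)).index :=
      Nat.pos_of_ne_zero Subgroup.index_ne_zero_of_finite
    set i := (Subgroup.normalizer (C : Set G)).index
    set c := Nat.card C
    rw [hk] at h3
    obtain ⟨c', hc'⟩ : ∃ c', c = c' + 1 := ⟨c - 1, by omega⟩
    rw [hc'] at h3 ⊢
    simp only [Nat.add_sub_cancel]
    have h4 : i * ((c' + 1) * 2) ≤ i * ((c' + 1) * k) := by gcongr
    nlinarith
  have hA' := key A hA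
  have hB' := key B hB
  have cA := card_conj_cover_le A
  have cB := card_conj_cover_le B
  have hG : Nat.card {x : G // x ≠ 1} ≤
      Nat.card {x : G // x ≠ 1 ∧ ∃ g : G, x ∈ MulAut.conj g • A} +
      Nat.card {x : G // x ≠ 1 ∧ ∃ g : G, x ∈ MulAut.conj g • B} := by
    have := Fintype.ofFinite G
    simp only [Nat.card_eq_fintype_card, Fintype.card_subtype]
    refine le_trans ?_ (Finset.card_union_le _ _)
    apply Finset.card_le_card
    intro x hx
    simp only [Finset.mem_filter, Finset.mem_univ, true_and, Finset.mem_union] at hx ⊢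
    rcases hcov x with h | h
    · exact Or.inl ⟨hx, h⟩
    · exact Or.inr ⟨hx, h⟩
  have hG' : Nat.card {x : G // x ≠ 1} = Nat.card G - 1 := by
    have := Fintype.ofFinite G
    rw [Nat.card_eq_fintype_card, Nat.card_eq_fintype_card, Fintype.card_subtype_compl]
    simp
  omega

end Cfsg.Agent.H3
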