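import Mathlib
import Cfsg.Agent.Lib_helper3_FrobN

set_option autoImplicit false

namespace Cfsg.Agent.H3

theorem totient_dvd_card_orderOf {G : Type*} [Group G] [Finite G] (m : ℕ) :
    Nat.totient m ∣ Nat.card {g : G // orderOf g = m} := by
  classical
  have key := dvd_card_fiberwise (α := {g : G // orderOf g = m})
    (fun x => Subgroup.zpowers x.1) (fun _ => True) (Nat.totient m) ?_
  · rwa [Nat.card_congr (Equiv.subtypeUnivEquiv (fun _ => trivial))] at key
  · intro H _
    by_cases hH : Nonempty {a : {g : G // orderOf g = m} // Subgroup.zpowers a.1 = H}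
    · obtain ⟨⟨⟨x0, hx0⟩, rfl⟩⟩ := hH
      have e : Nat.card {a : {g : G // orderOf g = m} // Subgroup.zpowers a.1 = Subgroup.zpowers x0}
          = Nat.card {h : Subgroup.zpowers x0 // orderOf h = m} := by
        apply Nat.card_congr
        refine ⟨fun a => ⟨⟨a.1.1, ?_⟩, ?_⟩, fun h => ⟨⟨h.1.1, ?_⟩, ?_⟩, ?_, ?_⟩
        · have h1 : a.1.1 ∈ Subgroup.zpowers a.1.1 := Subgroup.mem_zpowers a.1.1
          have h2 : Subgroup.zpowers a.1.1 ≤ Subgroup.zpowers x0 := le_of_eq a.2
          exact h2 h1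
        · rw [Subgroup.orderOf_mk]
          exact a.1.2
        · rw [Subgroup.orderOf_coe]
          exact h.2
        · apply Subgroup.eq_of_le_of_card_ge
          · exact Subgroup.zpowers_le.mpr h.1.2
          · rw [Nat.card_zpowers, Nat.card_zpowers, hx0, Subgroup.orderOf_coe, h.2]
        · intro a; rfl
        · intro h; rfl
      rw [e]
      have := Fintype.ofFinite (Subgroup.zpowers x0)
      have h1 := IsCyclic.card_orderOf_eq_totient (α := Subgroup.zpowers x0) (d := m)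
        (by rw [← Nat.card_eq_fintype_card, Nat.card_zpowers, hx0])
      rw [Nat.card_eq_fintype_card, Fintype.card_subtype, h1]
    · rw [not_nonempty_iff] at hH
      simp

/-- the number of non-identity `p`-elements is divisible by `p - 1` -/
theorem pred_dvd_card_pElements {G : Type*} [Group G] [Finite G] (p : ℕ) (hp : p.Prime) :
    (p - 1) ∣ Nat.card {g : G // ∃ k : ℕ, orderOf g = p ^ (k + 1)} := by
  apply dvd_card_fiberwise (fun g : G => orderOf g) (fun m => ∃ k : ℕ, m = p ^ (k + 1))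
  rintro m ⟨k, rfl⟩
  refine Dvd.dvd.trans ?_ (totient_dvd_card_orderOf (p ^ (k + 1)))
  rw [Nat.totient_prime_pow_succ hp]
  exact Dvd.intro_left _ rfl

theorem card_pElements_eq {G : Type*} [Group G] [Finite G] (p : ℕ) (hp : p.Prime) :
    Nat.card {g : G // ∃ k : ℕ, orderOf g = p ^ k}
      = 1 + Nat.card {g : G // ∃ k : ℕ, orderOf g = p ^ (k + 1)} := by
  rw [card_split (α := {g : G // ∃ k : ℕ, orderOf g = p ^ k}) (fun g => g.1 = 1)]
  congr 1
  · rw [Nat.card_eq_one_iff_unique]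
    refine ⟨⟨?_⟩, ⟨⟨⟨1, 0, by simp⟩, rfl⟩⟩⟩
    rintro ⟨⟨a, _⟩, ha⟩ ⟨⟨b, _⟩, hb⟩
    simp only at ha hb
    subst ha; subst hb; rfl
  · apply Nat.card_congr
    refine ⟨fun a => ⟨a.1.1, ?_⟩, fun a => ⟨⟨a.1, ?_⟩, ?_⟩, ?_, ?_⟩
    · obtain ⟨⟨a, k, hk⟩, ha⟩ := a
      simp only at ha
      cases k with
      | zero => exact absurd (orderOf_eq_one_iff.mp (by simpa using hk)) ha
      | succ k => exact ⟨k, hk⟩
    · obtain ⟨k, hk⟩ := a.2
      exact ⟨k + 1, hk⟩
    · obtain ⟨k, hk⟩ := a.2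
      intro h
      simp only at h
      rw [h, orderOf_one] at hk
      have h2 : 1 < p ^ (k + 1) := Nat.one_lt_pow (Nat.succ_ne_zero k) hp.one_lt
      omega
    · intro a; rfl
    · intro a; rfl

theorem pElement_iff_pow_card_sylow {G : Type*} [Group G] [Finite G] (p : ℕ) [Fact p.Prime]
    (P : Sylow p G) (g : G) : (∃ k : ℕ, orderOf g = p ^ k) ↔ g ^ Nat.card (P : Subgroup G) = 1 := by
  have hp : p.Prime := Fact.out
  rw [← orderOf_dvd_iff_pow_eq_one, Sylow.card_eq_multiplicity]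
  constructor
  · rintro ⟨k, hk⟩
    rw [hk]
    apply pow_dvd_pow
    rw [← hp.pow_dvd_iff_le_factorization Nat.card_pos.ne', ← hk]
    exact orderOf_dvd_natCard g
  · intro h
    obtain ⟨k, _, hk⟩ := (Nat.dvd_prime_pow hp).mp h
    exact ⟨k, hk⟩

theorem card_pElements_eq_pow {G : Type*} [Group G] [Finite G] (p : ℕ) [Fact p.Prime]
    (P : Sylow p G) : Nat.card {g : G // ∃ k : ℕ, orderOf g = p ^ k}
      = Nat.card {g : G // g ^ Nat.card (P : Subgroup G) = 1} :=
  Nat.card_congr (Equiv.subtypeEquivRight (pElement_iff_pow_card_sylow p P))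

theorem card_sylow_dvd_card_pElements {G : Type*} [Group G] [Finite G] (p : ℕ) [Fact p.Prime]
    (P : Sylow p G) : Nat.card (P : Subgroup G) ∣ Nat.card {g : G // ∃ k : ℕ, orderOf g = p ^ k} := by
  rw [card_pElements_eq_pow p P]
  have h := frobenius_pow_eq_one (G := G) (Nat.card (P : Subgroup G))
  rwa [Nat.gcd_eq_left (Subgroup.card_subgroup_dvd_card _)] at h

theorem card_pElements_ge {G : Type*} [Group G] [Finite G] (p : ℕ) [Fact p.Prime]
    (P : Sylow p G) (hP : ¬ (P : Subgroup G).Normal) :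
    p * Nat.card (P : Subgroup G) ≤ Nat.card {g : G // ∃ k : ℕ, orderOf g = p ^ k} := by
  have hp : p.Prime := Fact.out
  obtain ⟨t, ht⟩ := card_sylow_dvd_card_pElements p P
  have hsub : ((P : Subgroup G) : Set G) ⊆ {g : G | ∃ k : ℕ, orderOf g = p ^ k} := by
    intro x hx
    obtain ⟨k, hk⟩ := (IsPGroup.iff_orderOf.mp P.2) ⟨x, hx⟩
    exact ⟨k, by rw [← hk, Subgroup.orderOf_mk]⟩
  have ht1 : t ≠ 1 := by
    intro h1
    apply hP
    rw [h1, mul_one] at ht
    have heq : ((P : Subgroup G) : Set G) = {g : G | ∃ k : ℕ, orderOf g = p ^ k} := by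
      apply Set.eq_of_subset_of_ncard_le hsub _ (Set.toFinite _)
      rw [← Nat.card_coe_set_eq, ← Nat.card_coe_set_eq]
      exact le_of_eq ht
    constructor
    intro x hx g
    have h2 : g * x * g⁻¹ ∈ ((P : Subgroup G) : Set G) := by
      rw [heq]
      obtain ⟨k, hk⟩ := hsub hx
      refine ⟨k, ?_⟩
      rw [← hk]
      have := orderOf_injective (MulAut.conj g).toMonoidHom (MulAut.conj g).injective x
      simpa using this
    exact h2
  have ht0 : t ≠ 0 := by
    intro h0
    rw [h0, mul_zero, card_pElements_eq p hp] at ht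
    omega
  obtain ⟨w, hw⟩ := pred_dvd_card_pElements (G := G) p hp
  rw [card_pElements_eq p hp, hw] at ht
  obtain ⟨a, ha⟩ := P.2.exists_card_eq
  have h1 : ((p : ℤ) - 1) ∣ (p : ℤ) ^ a - 1 := by
    have := sub_dvd_pow_sub_pow (p : ℤ) 1 a
    rwa [one_pow] at this
  have hp1 : 1 ≤ p := hp.one_lt.le
  have h2 : ((p : ℤ) - 1) ∣ (t : ℤ) - 1 := by
    have h3 : (t : ℤ) - 1 = ((p : ℤ) - 1) * w - t * ((p : ℤ) ^ a - 1) := by
      have h4 : (1 : ℤ) + ((p : ℤ) - 1) * w = (p : ℤ) ^ a * t := by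
        rw [ha] at ht
        have := congr_arg (fun n : ℕ => (n : ℤ)) ht
        push_cast [Nat.cast_sub hp1] at this
        exact this
      linear_combination -h4
    rw [h3]
    exact dvd_sub (Dvd.intro _ rfl) (Dvd.dvd.mul_left h1 _)
  have h5 : (p : ℤ) - 1 ≤ (t : ℤ) - 1 := by
    apply Int.le_of_dvd _ h2
    have : 2 ≤ t := by omega
    have : (2 : ℤ) ≤ t := by exact_mod_cast this
    linarith
  have h6 : p ≤ t := by
    have : (p : ℤ) ≤ t := by linarith
    exact_mod_cast this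
  rw [card_pElements_eq p hp, hw, ht, mul_comm]
  exact Nat.mul_le_mul_left _ h6

end Cfsg.Agent.H3
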