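import Cfsg.Agent.Lib_helper4_BlkBX
import Cfsg.Agent.Lib_helper1_Cores2

set_option autoImplicit false
set_option linter.style.haveILetI false
set_option linter.unusedSectionVars false
namespace Cfsg.Agent.H4
open Module
open scoped ComplexConjugate
universe u v w

section SP
variable {p : ℕ} {M : Ideal AlgInt} {G : Type u} [Group G]

theorem principal_of_ker_solvable [Finite G] [Group.IsSolvable G] [Fact p.Prime] (hM : IsPModular p M)
    (χ : IrrCharacter G) (h : ∀ n ∈ pPrimeCore p G, (χ : G → ℂ) n = (χ : G → ℂ) 1) :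
    χ ∈ principalBlock M G := by
  haveI := pPrimeCore_normal' (G := G) p
  obtain ⟨χ', rfl⟩ := exists_infl (pPrimeCore p G) χ h
  have h0 := Cfsg.Agent.H1.pPrimeCore_quotient_eq_bot (G := G) p
  have h1 := Cfsg.Agent.H1.fitting_eq_pCore_of_pPrimeCore_eq_bot p h0
  have h2 := Cfsg.Agent.H1.centralizer_fitting_le (G := G ⧸ pPrimeCore p G)
  rw [h1] at h2
  have h3 := single_block_of_constrained hM h2 (trivIrr _) χ'
  exact sameBlock_infl hM (pPrimeCore p G) _ _ h3

theorem exists_irr_ne_triv [Finite G] (x : G) (hx : x ≠ 1) :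
    ∃ χ : IrrCharacter G, (χ : G → ℂ) ≠ fun _ => 1 := by
  haveI : Nontrivial (ConjClasses G) := ⟨ConjClasses.mk 1, ConjClasses.mk x, fun h => by
    rw [ConjClasses.mk_eq_mk_iff_isConj] at h
    exact hx (isConj_one_right.mp h)⟩
  haveI := Fintype.ofFinite (IrrCharacter G)
  have h1 : 1 < Nat.card (IrrCharacter G) := by
    rw [card_irr]; exact Finite.one_lt_card
  haveI : Nontrivial (IrrCharacter G) := Finite.one_lt_card_iff_nontrivial.mp h1
  obtain ⟨χ, hχ⟩ := exists_ne (trivIrr G)
  exact ⟨χ, fun h => hχ (Subtype.ext h)⟩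

theorem solvable_principal_inter [Finite G] [Group.IsSolvable G] (π : Set ℕ)
    (hπ : ∀ p ∈ π, p.Prime ∧ p ∣ Nat.card G) (M : ℕ → Ideal AlgInt) (hM : ∀ p ∈ π, IsPModular p (M p)) :
    (∀ χ : IrrCharacter G, (∀ p ∈ π, χ ∈ principalBlock (M p) G) → (χ : G → ℂ) = fun _ => 1) ↔
      ⨆ p ∈ π, pPrimeCore p G = ⊤ := by
  constructor
  · intro h
    by_contra hne
    haveI hKn : (⨆ p ∈ π, pPrimeCore p G).Normal := by
      have e : (⨆ p ∈ π, pPrimeCore p G) = sSup ((fun p => pPrimeCore p G) '' π) := by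
        rw [sSup_image]
      rw [e]
      apply Subgroup.sSup_normal
      rintro _ ⟨q, -, rfl⟩
      exact pPrimeCore_normal' q
    obtain ⟨x, hx⟩ : ∃ x : G, x ∉ (⨆ p ∈ π, pPrimeCore p G) := by
      by_contra hcon
      push Not at hcon
      exact hne ((Subgroup.eq_top_iff' _).mpr hcon)
    obtain ⟨χ', hχ'⟩ := exists_irr_ne_triv (x : G ⧸ (⨆ p ∈ π, pPrimeCore p G))
      (fun h0 => hx ((QuotientGroup.eq_one_iff x).mp h0))
    have h2 := h (infl _ χ') (fun q hq => by
      haveI : Fact q.Prime := ⟨(hπ q hq).1⟩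
      exact principal_of_ker_solvable (hM q hq) _ (fun n hn => infl_ker _ χ' n
        (le_iSup₂ (f := fun q (_ : q ∈ π) => pPrimeCore q G) q hq hn)))
    apply hχ'
    funext y
    obtain ⟨g, rfl⟩ := QuotientGroup.mk_surjective y
    exact congrFun h2 g
  · intro h χ hχ
    let T : Subgroup G :=
      { carrier := {g | ∀ x, (χ : G → ℂ) (g * x) = (χ : G → ℂ) x}
        mul_mem' := fun {a b} ha hb x => by rw [mul_assoc, ha, hb]
        one_mem' := fun x => by rw [one_mul]
        inv_mem' := fun {a} ha x => by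
          have := ha (a⁻¹ * x)
          rw [mul_inv_cancel_left] at this
          exact this.symm }
    have hle : (⨆ p ∈ π, pPrimeCore p G) ≤ T := by
      apply iSup₂_le
      intro q hq n hn x
      haveI := pPrimeCore_normal' (G := G) q
      obtain ⟨χ', hχ'⟩ := exists_infl (pPrimeCore q G) χ (principal_ker (hM q hq) χ (hχ q hq))
      rw [← hχ']
      show (χ' : G ⧸ pPrimeCore q G → ℂ) ((n * x : G) : G ⧸ pPrimeCore q G) = (χ' : G ⧸ pPrimeCore q G → ℂ) (x : G ⧸ pPrimeCore q G)
      have e : ((n * x : G) : G ⧸ pPrimeCore q G) = (x : G ⧸ pPrimeCore q G) := by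
        rw [QuotientGroup.mk_mul, (QuotientGroup.eq_one_iff n).mpr hn, one_mul]
      rw [e]
    rw [h] at hle
    have hconst : ∀ g : G, (χ : G → ℂ) g = (χ : G → ℂ) 1 := fun g => by
      have := hle (Subgroup.mem_top g) 1
      rwa [mul_one] at this
    have h1 := linear_of_ker_of_abelian_quotient (⊤ : Subgroup G) (fun _ _ => Subgroup.mem_top _) χ.2
      (fun n _ => hconst n)
    funext g
    rw [hconst g, h1]

end SP
end Cfsg.Agent.H4
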