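import Cfsg.Agent.Lib_helper4_BlkBY
import Cfsg.Agent.Lib_helper2_ItoM

set_option autoImplicit false
set_option linter.style.haveILetI false
set_option linter.unusedSectionVars false
namespace Cfsg.Agent.H4
open Module
open scoped ComplexConjugate
universe u v w

section PS
variable {p : ℕ} {M : Ideal AlgInt} {G : Type u} [Group G]

theorem psolv_abelian_iff [Finite G] [Fact p.Prime] (hM : IsPModular p M) (hsolv : IsPSolvable p G)
    (P : Sylow p G) :
    IsMulCommutative P ↔ ∀ χ ∈ principalBlock M G, blockHeight p (principalBlock M G) (χ : G → ℂ) = 0 := by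
  classical
  haveI := Fintype.ofFinite G
  haveI := Fintype.ofFinite (IrrCharacter G)
  have hp : p.Prime := Fact.out
  haveI hKn := pPrimeCore_normal' (G := G) p
  have hsolQ : IsPSolvable p (G ⧸ pPrimeCore p G) := Cfsg.Agent.H7.isPSolvable_quotient hp hsolv _
  have hcore : pPrimeCore p (G ⧸ pPrimeCore p G) = ⊥ := Cfsg.Agent.H1.pPrimeCore_quotient_eq_bot p
  have hHH := Cfsg.Agent.H7.hall_higman_123 hsolQ hcore
  have hmem : ∀ χ' : IrrCharacter (G ⧸ pPrimeCore p G), infl (pPrimeCore p G) χ' ∈ principalBlock M G :=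
    fun χ' => sameBlock_infl hM _ _ _ (single_block_of_constrained hM hHH (trivIrr _) χ')
  have hex : ∀ χ ∈ principalBlock M G, ∃ χ', infl (pPrimeCore p G) χ' = χ :=
    fun χ hχ => exists_infl _ χ (principal_ker hM χ hχ)
  have hht : ∀ χ : IrrCharacter G, blockHeight p (principalBlock M G) (χ : G → ℂ)
      = (charDegree (χ : G → ℂ)).factorization p := by
    intro χ
    unfold blockHeight
    have h0 : sInf ((fun ψ : IrrCharacter G => (charDegree (ψ : G → ℂ)).factorization p) '' principalBlock M G)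
        = 0 := by
      apply Nat.eq_zero_of_le_zero
      apply Nat.sInf_le
      refine ⟨trivIrr G, SameBlock.refl hM _, ?_⟩
      have h5 : charDegree (trivIrr G : G → ℂ) = 1 := charDegree_eq (by show (1 : ℂ) = ((1 : ℕ) : ℂ); simp)
      show (charDegree (trivIrr G : G → ℂ)).factorization p = 0
      rw [h5]; simp
    rw [h0, Nat.sub_zero]
  have hdeg0 : ∀ χ : IrrCharacter G, charDegree (χ : G → ℂ) ≠ 0 := by
    intro χ h0
    have h1 := charDegree_cast χ
    rw [h0] at h1
    exact IsIrrCharacter.apply_one_ne_zero χ.2 (by rw [← h1]; simp)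
  have hzero : ∀ χ : IrrCharacter G, (charDegree (χ : G → ℂ)).factorization p = 0 ↔
      ¬ p ∣ charDegree (χ : G → ℂ) := by
    intro χ
    rw [Nat.factorization_eq_zero_iff]
    constructor
    · rintro (h | h | h)
      · exact absurd hp h
      · exact h
      · exact absurd h (hdeg0 χ)
    · intro h; exact Or.inr (Or.inl h)
  have hIM := Cfsg.Agent.H2.ito_michler hsolQ (P.mapSurjective (QuotientGroup.mk'_surjective (pPrimeCore p G)))
  have hS' : ((P.mapSurjective (QuotientGroup.mk'_surjective (pPrimeCore p G)) : Sylow p (G ⧸ pPrimeCore p G)) :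
      Subgroup (G ⧸ pPrimeCore p G)) = (P : Subgroup G).map (QuotientGroup.mk' (pPrimeCore p G)) := rfl
  constructor
  · intro hab χ hχ
    rw [hht, hzero]
    obtain ⟨χ', rfl⟩ := hex χ hχ
    rw [charDegree_infl]
    refine hIM.mp ?_ χ'
    have hcomm : ∀ x ∈ (P : Subgroup G).map (QuotientGroup.mk' (pPrimeCore p G)),
        ∀ y ∈ (P : Subgroup G).map (QuotientGroup.mk' (pPrimeCore p G)), x * y = y * x := by
      rintro _ ⟨a, ha, rfl⟩ _ ⟨b, hb, rfl⟩
      rw [← map_mul, ← map_mul]
      congr 1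
      exact congrArg Subtype.val (hab.is_comm.comm ⟨a, ha⟩ ⟨b, hb⟩)
    rw [hS']
    refine ⟨?_, hcomm⟩
    have hle : pCore p (G ⧸ pPrimeCore p G) ≤ (P : Subgroup G).map (QuotientGroup.mk' (pPrimeCore p G)) := by
      rw [Cfsg.Agent.H1.pCore_eq_iInf_sylow, ← hS']
      exact iInf_le _ _
    have hge : (P : Subgroup G).map (QuotientGroup.mk' (pPrimeCore p G)) ≤ pCore p (G ⧸ pPrimeCore p G) := by
      intro x hx
      apply hHH
      rw [Subgroup.mem_centralizer_iff]
      intro y hy
      exact hcomm y (hle hy) x hx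
    rw [le_antisymm hge hle]
    exact Cfsg.Agent.H1.pCore_normal p
  · intro h
    have h1 : ∀ χ' : IrrCharacter (G ⧸ pPrimeCore p G), ¬ p ∣ charDegree (χ' : G ⧸ pPrimeCore p G → ℂ) := by
      intro χ'
      have h2 := h _ (hmem χ')
      rw [hht, hzero, charDegree_infl] at h2
      exact h2
    obtain ⟨-, hcomm⟩ := hIM.mpr h1
    rw [hS'] at hcomm
    refine ⟨⟨fun a b => ?_⟩⟩
    apply Subtype.ext
    show (a : G) * (b : G) = (b : G) * (a : G)
    have h3 := hcomm _ ⟨a, a.2, rfl⟩ _ ⟨b, b.2, rfl⟩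
    rw [← map_mul, ← map_mul] at h3
    have h4 : ((b : G) * (a : G))⁻¹ * ((a : G) * (b : G)) ∈ pPrimeCore p G := by
      rw [← QuotientGroup.eq]; exact h3.symm
    have h5 : ((b : G) * (a : G))⁻¹ * ((a : G) * (b : G)) ∈ (P : Subgroup G) :=
      mul_mem (inv_mem (mul_mem b.2 a.2)) (mul_mem a.2 b.2)
    obtain ⟨k, hk⟩ := P.2 ⟨_, h5⟩
    have hk' : (((b : G) * (a : G))⁻¹ * ((a : G) * (b : G))) ^ p ^ k = 1 := by
      simpa using congrArg Subtype.val hk
    have hreg : ¬ p ∣ orderOf (((b : G) * (a : G))⁻¹ * ((a : G) * (b : G))) := by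
      intro hd
      have h6 : orderOf (((b : G) * (a : G))⁻¹ * ((a : G) * (b : G))) ∣ Nat.card (pPrimeCore p G) := by
        have := orderOf_dvd_natCard (⟨_, h4⟩ : pPrimeCore p G)
        rwa [Subgroup.orderOf_mk] at this
      exact not_dvd_card_pPrimeCore hp (hd.trans h6)
    have h7 := eq_one_of_p_and_reg _ k hk' hreg
    exact (inv_mul_eq_one.mp h7).symm

end PS
end Cfsg.Agent.H4
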