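import Mathlib
import Cfsg.Prelude.Def_LieExceptional
import Cfsg.Agent.Lib_helper1_FrobNPC
import Cfsg.Agent.Lib_helper5_PGrp

set_option autoImplicit false

namespace Cfsg.Agent.H5.CN

open Subgroup
open scoped commutatorElement

variable {G : Type*} [Group G]

/-- the `p`-part of a (nilpotent) subgroup, as a subgroup of the ambient group. -/
noncomputable def pPart (p : ℕ) (S : Subgroup G) : Subgroup G :=
  ((Classical.arbitrary (Sylow p S) : Sylow p S) : Subgroup S).map S.subtype

theorem pPart_le (p : ℕ) (S : Subgroup G) : pPart p S ≤ S := map_subtype_le _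

theorem isPGroup_pPart (p : ℕ) (S : Subgroup G) : IsPGroup p (pPart p S) :=
  (Classical.arbitrary (Sylow p S)).2.map _

theorem le_pPart [Finite G] {p : ℕ} [Fact p.Prime] {S : Subgroup G} (hS : Group.IsNilpotent S)
    {Q : Subgroup G} (hQS : Q ≤ S) (hQ : IsPGroup p Q) : Q ≤ pPart p S := by
  have hn : ((Classical.arbitrary (Sylow p S) : Sylow p S) : Subgroup S).Normal :=
    (Group.isNilpotent_of_finite_tfae.out 0 3 rfl rfl).mp hS p inferInstance _
  have h1 : IsPGroup p (Q.subgroupOf S) := hQ.comap_subtype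
  obtain ⟨P', hP'⟩ := h1.exists_le_sylow
  have := Sylow.unique_of_normal _ hn
  have h2 : P' = Classical.arbitrary (Sylow p S) := Subsingleton.elim _ _
  intro x hx
  exact ⟨⟨x, hQS hx⟩, h2 ▸ hP' (mem_subgroupOf.2 hx), rfl⟩

theorem le_normalizer_pPart [Finite G] {p : ℕ} [Fact p.Prime] {S : Subgroup G}
    (hS : Group.IsNilpotent S) : S ≤ normalizer (pPart p S : Set G) := by
  have hn : ((Classical.arbitrary (Sylow p S) : Sylow p S) : Subgroup S).Normal :=
    (Group.isNilpotent_of_finite_tfae.out 0 3 rfl rfl).mp hS p inferInstance _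
  rw [← normal_subgroupOf_iff_le_normalizer (pPart_le p S)]
  have : (pPart p S).subgroupOf S = (Classical.arbitrary (Sylow p S) : Sylow p S) :=
    comap_map_eq_self_of_injective S.subtype_injective _
  rw [this]
  exact hn

theorem isPGroup_zpowers {p : ℕ} {x : G} {k : ℕ} (hk : x ^ p ^ k = 1) :
    IsPGroup p (zpowers x) := by
  rintro ⟨y, hy⟩
  obtain ⟨n, rfl⟩ := mem_zpowers_iff.1 hy
  refine ⟨k, ?_⟩
  apply Subtype.ext
  show (x ^ n) ^ p ^ k = 1
  rw [← zpow_natCast, ← zpow_mul, mul_comm, zpow_mul, zpow_natCast, hk, one_zpow]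

theorem mem_pPart [Finite G] {p : ℕ} [Fact p.Prime] {S : Subgroup G} (hS : Group.IsNilpotent S)
    {x : G} (hx : x ∈ S) {k : ℕ} (hk : x ^ p ^ k = 1) : x ∈ pPart p S :=
  le_pPart hS (zpowers_le.2 hx) (isPGroup_zpowers hk) (mem_zpowers x)

theorem commute_of_mem_pPart [Finite G] {p : ℕ} [Fact p.Prime] {S : Subgroup G}
    (hS : Group.IsNilpotent S) {x y : G} (hx : x ∈ pPart p S) (hy : y ∈ S)
    (hc : (orderOf y).Coprime p) : Commute x y := by
  obtain ⟨n, hn⟩ := (isPGroup_pPart p S).exists_card_eq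
  have h1 := Cfsg.Agent.H1.commutator_eq_bot_of_nilpotent_coprime (K := pPart p S)
    (A := zpowers y) hS (pPart_le p S) (zpowers_le.2 hy)
    ((zpowers_le.2 hy).trans (le_normalizer_pPart hS))
    (by rw [Nat.card_zpowers, hn]; exact Nat.Coprime.pow_right n hc)
    (Or.inl inferInstance)
  have h2 : ⁅x, y⁆ ∈ ⁅pPart p S, zpowers y⁆ := commutator_mem_commutator hx (mem_zpowers y)
  rw [h1, mem_bot] at h2
  exact commutatorElement_eq_one_iff_commute.1 h2

/-- in a nilpotent subgroup a `p`-element commutes with a `p'`-element. -/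
theorem commute_of_nilpotent [Finite G] {p : ℕ} [Fact p.Prime] {S : Subgroup G}
    (hS : Group.IsNilpotent S) {x y : G} (hx : x ∈ S) (hy : y ∈ S) {k : ℕ} (hk : x ^ p ^ k = 1)
    (hc : (orderOf y).Coprime p) : Commute x y :=
  commute_of_mem_pPart hS (mem_pPart hS hx hk) hy hc

theorem central_of_pPart [Finite G] {p : ℕ} [Fact p.Prime] {S : Subgroup G}
    (hS : Group.IsNilpotent S) {z : G} (hz : z ∈ pPart p S)
    (hc : ∀ t ∈ pPart p S, t * z = z * t) : ∀ h ∈ S, h * z = z * h := by
  intro h hh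
  obtain ⟨a, ha, b, hb, hab, ⟨k, hk⟩, hcop⟩ := Cfsg.Agent.H1.exists_p_decomposition p h
  have haS : a ∈ S := zpowers_le.2 hh ha
  have hbS : b ∈ S := zpowers_le.2 hh hb
  have h1 := hc a (mem_pPart hS haS hk)
  have h2 : z * b = b * z := commute_of_mem_pPart hS hz hbS hcop
  rw [hab, mul_assoc, ← h2, ← mul_assoc, h1, mul_assoc]

theorem pPart_ne_bot [Finite G] {p : ℕ} [Fact p.Prime] {S : Subgroup G}
    (hS : Group.IsNilpotent S) (hp : p ∣ Nat.card S) : pPart p S ≠ ⊥ := by
  obtain ⟨x, hx⟩ := exists_prime_orderOf_dvd_card' p hp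
  intro h
  have h1 : (x : G) ∈ pPart p S := mem_pPart hS x.2 (k := 1) (by
    rw [pow_one, ← Subgroup.orderOf_coe] at *
    rw [← hx]; exact pow_orderOf_eq_one _)
  rw [h, mem_bot] at h1
  have : x = 1 := Subtype.ext h1
  rw [this, orderOf_one] at hx
  exact (Fact.out : p.Prime).one_lt.ne hx

theorem exists_central [Finite G] {p : ℕ} [Fact p.Prime] {S : Subgroup G}
    (hS : Group.IsNilpotent S) (hp : p ∣ Nat.card S) :
    ∃ z ∈ pPart p S, orderOf z = p ∧ ∀ h ∈ S, h * z = z * h := by
  obtain ⟨z, hz, hzo, hzc⟩ := Cfsg.Agent.H5.exists_central_orderOf_eq (isPGroup_pPart p S) le_rfl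
    le_normalizer (pPart_ne_bot hS hp)
  exact ⟨z, hz, hzo, central_of_pPart hS hz hzc⟩

theorem nilpotent_of_le {S T : Subgroup G} (hT : Group.IsNilpotent T) (h : S ≤ T) :
    Group.IsNilpotent S := by
  have h1 : Group.IsNilpotent (S.subgroupOf T) := inferInstance
  exact Group.nilpotent_of_mulEquiv (Subgroup.subgroupOfEquivOfLe h)

theorem nilpotent_map {G' : Type*} [Group G'] (f : G →* G') {S : Subgroup G}
    (hS : Group.IsNilpotent S) : Group.IsNilpotent (S.map f) :=
  Group.nilpotent_of_surjective (f.subgroupMap S) (f.subgroupMap_surjective S)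

/-- a maximal nilpotent subgroup of a CN-group is the centralizer of each of its nontrivial
central elements. -/
theorem centralizer_eq_of_max (hCN : Cfsg.IsCNGroup G) {H : Subgroup G}
    (hmax : ∀ L : Subgroup G, Group.IsNilpotent L → H ≤ L → L = H) {z : G} (hz1 : z ≠ 1)
    (hc : ∀ h ∈ H, h * z = z * h) : centralizer ({z} : Set G) = H := by
  apply hmax _ (hCN z hz1)
  intro h hh
  rw [mem_centralizer_singleton_iff]
  exact hc h hh

end Cfsg.Agent.H5.CN
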