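import Mathlib

set_option autoImplicit false

namespace Cfsg.Agent.H5

open scoped BigOperators

/-- An automorphism acting trivially modulo a normal abelian subgroup `A` and fixing pointwise a
subgroup `T` of index prime to `|A|` is conjugation by an element of `A`. -/
theorem inner_of_cocycle {G : Type*} [Group G] [Finite G] (A : Subgroup G) [hAn : A.Normal]
    (hAc : ∀ a ∈ A, ∀ b ∈ A, a * b = b * a) (T : Subgroup G)
    (hcop : (Nat.card A).Coprime T.index) (α : MulAut G) (hA : ∀ g, α g * g⁻¹ ∈ A)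
    (hT : ∀ t ∈ T, α t = t) : ∃ u ∈ A, ∀ x, α x = u * x * u⁻¹ := by
  classical
  letI : CommGroup ↥A :=
    { (inferInstance : Group ↥A) with
      mul_comm := fun a b => Subtype.ext (hAc a a.2 b b.2) }
  letI : Fintype (G ⧸ T) := Fintype.ofFinite _
  let d : G → ↥A := fun g => ⟨α g * g⁻¹, hA g⟩
  have hd_mul : ∀ g h : G, d (g * h) = d g * MulAut.conjNormal g (d h) := by
    intro g h
    apply Subtype.ext
    change α (g * h) * (g * h)⁻¹ = (α g * g⁻¹) * ((MulAut.conjNormal g (d h) : ↥A) : G)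
    rw [MulAut.conjNormal_apply]
    change α (g * h) * (g * h)⁻¹ = (α g * g⁻¹) * (g * (α h * h⁻¹) * g⁻¹)
    rw [map_mul]
    group
  have hd_T : ∀ t ∈ T, d t = 1 := by
    intro t ht
    apply Subtype.ext
    change α t * t⁻¹ = 1
    rw [hT t ht, mul_inv_cancel]
  have hd_coset : ∀ (g : G) (t : T), d (g * t) = d g := by
    intro g t
    rw [hd_mul, hd_T t t.2, map_one, mul_one]
  let D : G ⧸ T → ↥A := fun q => d q.out
  have hD : ∀ g : G, D (QuotientGroup.mk g) = d g := by
    intro g
    obtain ⟨t, ht⟩ := QuotientGroup.mk_out_eq_mul T g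
    change d (QuotientGroup.mk g : G ⧸ T).out = d g
    rw [ht, hd_coset]
  let w : ↥A := ∏ q : G ⧸ T, D q
  have hw : ∀ h : G, w = d h ^ T.index * MulAut.conjNormal h w := by
    intro h
    have h1 : ∏ q : G ⧸ T, D (h • q) = w :=
      Equiv.prod_comp (MulAction.toPerm h : Equiv.Perm (G ⧸ T)) D
    have h2 : ∀ q : G ⧸ T, D (h • q) = d h * MulAut.conjNormal h (D q) := by
      intro q
      have : h • q = QuotientGroup.mk (h * q.out) := by
        conv_lhs => rw [← QuotientGroup.out_eq' q]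
        rfl
      rw [this, hD, hd_mul]
    calc w = ∏ q : G ⧸ T, D (h • q) := h1.symm
      _ = ∏ q : G ⧸ T, (d h * MulAut.conjNormal h (D q)) :=
          Finset.prod_congr rfl (fun q _ => h2 q)
      _ = d h ^ T.index * MulAut.conjNormal h w := by
          rw [Finset.prod_mul_distrib, Finset.prod_const, Finset.card_univ,
            ← Nat.card_eq_fintype_card, map_prod]
          rfl
  obtain ⟨u, hu⟩ : ∃ u : ↥A, u ^ T.index = w := ⟨(powCoprime hcop).symm w,
    (powCoprime hcop).apply_symm_apply w⟩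
  refine ⟨u, u.2, fun x => ?_⟩
  have h3 : (d x * MulAut.conjNormal x u * u⁻¹) ^ T.index = 1 := by
    rw [mul_pow, mul_pow, ← map_pow, inv_pow, hu, ← hw x, mul_inv_cancel]
  have h4 : d x * MulAut.conjNormal x u * u⁻¹ = 1 := by
    apply (powCoprime hcop).injective
    change (d x * MulAut.conjNormal x u * u⁻¹) ^ T.index = 1 ^ T.index
    rw [h3, one_pow]
  have h5 := congrArg (Subtype.val : ↥A → G) h4
  simp only [Subgroup.coe_mul, Subgroup.coe_inv, MulAut.conjNormal_apply, Subgroup.coe_one] at h5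
  change α x * x⁻¹ * (x * u * x⁻¹) * (u : G)⁻¹ = 1 at h5
  calc α x = (α x * x⁻¹ * (x * u * x⁻¹) * (u : G)⁻¹) * (u * x * (u : G)⁻¹) := by group
    _ = u * x * (u : G)⁻¹ := by rw [h5, one_mul]

end Cfsg.Agent.H5
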