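import Mathlib
import Cfsg.Agent.Lib_helper6_SLCard

set_option autoImplicit false

namespace Cfsg.Agent.H6.Aff

open SemidirectProduct

variable (E : Type) [Field E] (k : ℕ)

/-- the action of the `k`-th roots of unity on the additive group of a field -/
noncomputable def phi : rootsOfUnity k E →* MulAut (Multiplicative E) :=
  (MulAutMultiplicative E).symm.toMonoidHom.comp (DistribMulAction.toAddAut (rootsOfUnity k E) E)

theorem phi_apply (u : rootsOfUnity k E) (x : E) :
    phi E k u (Multiplicative.ofAdd x) = Multiplicative.ofAdd (((u : Eˣ) : E) * x) := rfl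

/-- the group of affine maps `x ↦ u x + b`, `u ^ k = 1` -/
abbrev AffG : Type := Multiplicative E ⋊[phi E k] rootsOfUnity k E

variable {E k}

theorem isSolvable_affG : Group.IsSolvable (AffG E k) :=
  Group.isSolvable_of_ker_le_range (inl : Multiplicative E →* AffG E k) rightHom
    (le_of_eq range_inl_eq_ker_rightHom.symm)

theorem finite_affG [Finite E] : Finite (AffG E k) :=
  Finite.of_equiv _ (equivProd (φ := phi E k)).symm

theorem pow_right (g : AffG E k) (m : ℕ) : (g ^ m).right = g.right ^ m := by
  exact map_pow rightHom g m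

theorem pow_left (g : AffG E k) (m : ℕ) :
    (((g.right : Eˣ) : E) - 1) * Multiplicative.toAdd (g ^ m).left =
      Multiplicative.toAdd g.left * (((g.right : Eˣ) : E) ^ m - 1) := by
  induction m with
  | zero => simp
  | succ m ih =>
    rw [pow_succ, mul_left, pow_right]
    have h1 : phi E k (g.right ^ m) g.left =
        Multiplicative.ofAdd ((((g.right ^ m : rootsOfUnity k E) : Eˣ) : E) *
          Multiplicative.toAdd g.left) := rfl
    rw [h1, toAdd_mul, toAdd_ofAdd, mul_add, ih]
    push_cast
    ring

theorem pow_left_of_right_eq_one (g : AffG E k) (hg : g.right = 1) (m : ℕ) :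
    Multiplicative.toAdd (g ^ m).left = m * Multiplicative.toAdd g.left := by
  induction m with
  | zero => simp
  | succ m ih =>
    rw [pow_succ, mul_left, pow_right, hg, one_pow, map_one, MulAut.one_apply, toAdd_mul, ih]
    push_cast
    ring

theorem orderOf_of_right_ne_one (g : AffG E k) (hg : g.right ≠ 1) :
    orderOf g = orderOf g.right := by
  rw [orderOf_eq_orderOf_iff]
  intro m
  constructor
  · intro h
    rw [← pow_right, h, one_right]
  · intro h
    apply SemidirectProduct.ext
    · have h1 := pow_left g m
      have h2 : ((g.right : Eˣ) : E) ^ m = 1 := by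
        have := congrArg (fun u : rootsOfUnity k E => ((u : Eˣ) : E)) h
        simpa using this
      rw [h2, sub_self, mul_zero] at h1
      have h3 : ((g.right : Eˣ) : E) - 1 ≠ 0 := by
        intro h0
        apply hg
        apply Subtype.ext
        apply Units.ext
        simpa using sub_eq_zero.mp h0
      have h4 := (mul_eq_zero.mp h1).resolve_left h3
      rw [one_left]
      exact Multiplicative.toAdd.injective h4
    · rw [pow_right, h, one_right]

theorem orderOf_dvd_of_right_eq_one (p : ℕ) [CharP E p] (g : AffG E k) (hg : g.right = 1) :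
    orderOf g ∣ p := by
  apply orderOf_dvd_of_pow_eq_one
  apply SemidirectProduct.ext
  · rw [one_left]
    apply Multiplicative.toAdd.injective
    rw [pow_left_of_right_eq_one g hg, CharP.cast_eq_zero, zero_mul]
    rfl
  · rw [pow_right, hg, one_pow, one_right]

theorem exists_orderOf_of_dvd {G : Type*} [Group G] {g : G} {N m : ℕ} (hg : orderOf g = N)
    (hN : N ≠ 0) (hm : m ∣ N) : ∃ x : G, orderOf x = m := by
  obtain ⟨k, rfl⟩ := hm
  have hk : k ≠ 0 := by rintro rfl; simp at hN
  refine ⟨g ^ k, ?_⟩
  rw [orderOf_pow_of_dvd hk (by rw [hg]; exact Dvd.intro_left m rfl), hg,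
    Nat.mul_div_cancel _ (Nat.pos_of_ne_zero hk)]

theorem spectrum_affG [Fintype E] (p : ℕ) [Fact p.Prime] [CharP E p]
    (hk : k ∣ Fintype.card E - 1) :
    Set.range (orderOf : AffG E k → ℕ) = {m : ℕ | m ∣ p ∨ m ∣ k} := by
  have hp : p.Prime := Fact.out
  have hq : 2 ≤ Fintype.card E := Fintype.one_lt_card
  have hk0 : k ≠ 0 := by
    rintro rfl
    rw [zero_dvd_iff] at hk
    omega
  ext m
  simp only [Set.mem_range, Set.mem_ofPred_eq]
  constructor
  · rintro ⟨g, rfl⟩
    by_cases hg : g.right = 1
    · exact Or.inl (orderOf_dvd_of_right_eq_one p g hg)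
    · right
      rw [orderOf_of_right_ne_one g hg]
      apply orderOf_dvd_of_pow_eq_one
      apply Subtype.ext
      have := g.right.2
      rw [mem_rootsOfUnity] at this
      exact this
  · rintro (h | h)
    · rcases (Nat.dvd_prime hp).mp h with rfl | rfl
      · exact ⟨1, orderOf_one⟩
      · refine ⟨inl (Multiplicative.ofAdd 1), ?_⟩
        apply orderOf_eq_prime
        · exact orderOf_dvd_iff_pow_eq_one.mp (orderOf_dvd_of_right_eq_one m _ rfl)
        · intro h1
          have := congrArg (fun g : AffG E k => Multiplicative.toAdd g.left) h1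
          simp at this
    · have hcard : Nat.card (rootsOfUnity k E) = k := by
        rw [card_rootsOfUnity_field, Nat.gcd_eq_left hk]
      haveI : NeZero k := ⟨hk0⟩
      obtain ⟨u, hu⟩ := IsCyclic.exists_generator (α := rootsOfUnity k E)
      have hord : orderOf u = k := by
        rw [orderOf_eq_card_of_forall_mem_zpowers hu, hcard]
      obtain ⟨v, hv⟩ := exists_orderOf_of_dvd hord hk0 h
      refine ⟨inr v, ?_⟩
      rw [orderOf_injective _ inr_injective, hv]

end Cfsg.Agent.H6.Aff
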