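import Cfsg.Agent.Lib_helper6_Alt

/-! Symplectic bases for alternating forms. -/

set_option autoImplicit false

namespace Cfsg.Agent.H6.Alt

variable {F V : Type*} [Field F] [AddCommGroup V] [Module F V]

/-- A hyperbolic system of size `m`. -/
def Hyp (B : LinearMap.BilinForm F V) (m : ℕ) (e f : Fin m → V) : Prop :=
  (∀ i j, B (e i) (f j) = if i = j then 1 else 0) ∧ (∀ i j, B (e i) (e j) = 0) ∧
    (∀ i j, B (f i) (f j) = 0)

variable {B : LinearMap.BilinForm F V}

theorem Hyp.fe (hA : B.IsAlt) {m : ℕ} {e f : Fin m → V} (h : Hyp B m e f) (i j : Fin m) :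
    B (f i) (e j) = if i = j then -1 else 0 := by
  rw [swap hA, h.1]
  by_cases hij : i = j
  · simp [hij]
  · simp [hij, Ne.symm hij]

theorem Hyp.linearIndependent (hA : B.IsAlt) {m : ℕ} {e f : Fin m → V} (h : Hyp B m e f)
    {κ : Type*} [Fintype κ] (r : κ → V) (hr : LinearIndependent F r)
    (hrad : ∀ j v, B (r j) v = 0) : LinearIndependent F (Sum.elim (Sum.elim e f) r) := by
  classical
  rw [Fintype.linearIndependent_iff]
  intro g hg
  simp only [Fintype.sum_sum_type, Sum.elim_inl, Sum.elim_inr] at hg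
  have ha : ∀ j, g (Sum.inl (Sum.inl j)) = 0 := by
    intro j
    have := congrArg (fun x => B x (f j)) hg
    simpa only [map_add, map_sum, map_smul, LinearMap.add_apply, LinearMap.sum_apply,
      LinearMap.smul_apply, h.1, h.2.2, hrad, smul_eq_mul, mul_ite, mul_one, mul_zero,
      Finset.sum_ite_eq', Finset.mem_univ, if_true, Finset.sum_const_zero, add_zero,
      LinearMap.zero_apply, map_zero] using this
  have hb : ∀ j, g (Sum.inl (Sum.inr j)) = 0 := by
    intro j
    have := congrArg (fun x => B x (e j)) hg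
    simpa only [map_add, map_sum, map_smul, LinearMap.add_apply, LinearMap.sum_apply,
      LinearMap.smul_apply, h.fe hA, h.2.1, hrad, smul_eq_mul, mul_ite, mul_neg, mul_one, mul_zero,
      Finset.sum_ite_eq', Finset.mem_univ, if_true, Finset.sum_const_zero, add_zero, zero_add,
      LinearMap.zero_apply, neg_eq_zero, map_zero] using this
  simp only [ha, hb, zero_smul, Finset.sum_const_zero, zero_add] at hg
  have hc := Fintype.linearIndependent_iff.mp hr (fun j => g (Sum.inr j)) hg
  rintro ((i | i) | i)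
  · exact ha i
  · exact hb i
  · exact hc i

theorem Hyp.cons (hA : B.IsAlt) {m : ℕ} {e f : Fin m → V} (h : Hyp B m e f) {u v : V}
    (huv : B u v = 1) (hue : ∀ i, B u (e i) = 0) (huf : ∀ i, B u (f i) = 0)
    (hve : ∀ i, B v (e i) = 0) (hvf : ∀ i, B v (f i) = 0) :
    Hyp B (m + 1) (Fin.cons u e) (Fin.cons v f) := by
  refine ⟨fun i j => ?_, fun i j => ?_, fun i j => ?_⟩
  · refine Fin.cases ?_ (fun i => ?_) i <;> refine Fin.cases ?_ (fun j => ?_) j
    · simp [huv]
    · simp [huf, (Fin.succ_ne_zero j).symm]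
    · simp [swap hA (e i) v, hve, Fin.succ_ne_zero i]
    · simp [h.1]
  · refine Fin.cases ?_ (fun i => ?_) i <;> refine Fin.cases ?_ (fun j => ?_) j
    · simp [hA u]
    · simp [hue]
    · simp [swap hA (e i) u, hue]
    · simp [h.2.1]
  · refine Fin.cases ?_ (fun i => ?_) i <;> refine Fin.cases ?_ (fun j => ?_) j
    · simp [hA v]
    · simp [hvf]
    · simp [swap hA (f i) v, hvf]
    · simp [h.2.2]

/-- The projection onto the orthogonal complement of a hyperbolic system. -/
def hypProj (B : LinearMap.BilinForm F V) {m : ℕ} (e f : Fin m → V) (x : V) : V :=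
  x - ∑ i, B x (f i) • e i + ∑ i, B x (e i) • f i

theorem hypProj_e (hA : B.IsAlt) {m : ℕ} {e f : Fin m → V} (h : Hyp B m e f) (x : V)
    (j : Fin m) : B (hypProj B e f x) (e j) = 0 := by
  classical
  simp only [hypProj, map_add, map_sub, map_sum, map_smul, LinearMap.add_apply,
    LinearMap.sub_apply, LinearMap.sum_apply, LinearMap.smul_apply, h.fe hA, h.2.1, smul_eq_mul,
    mul_ite, mul_neg, mul_one, mul_zero, Finset.sum_ite_eq', Finset.mem_univ, if_true,
    Finset.sum_const_zero]
  ring

theorem hypProj_f {m : ℕ} {e f : Fin m → V} (h : Hyp B m e f) (x : V)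
    (j : Fin m) : B (hypProj B e f x) (f j) = 0 := by
  classical
  simp only [hypProj, map_add, map_sub, map_sum, map_smul, LinearMap.add_apply,
    LinearMap.sub_apply, LinearMap.sum_apply, LinearMap.smul_apply, h.1, h.2.2, smul_eq_mul,
    mul_ite, mul_one, mul_zero, Finset.sum_ite_eq', Finset.mem_univ, if_true,
    Finset.sum_const_zero]
  ring

variable [FiniteDimensional F V]

theorem Hyp.two_mul_le (hA : B.IsAlt) {m : ℕ} {e f : Fin m → V} (h : Hyp B m e f) :
    2 * m ≤ Module.finrank F V := by
  have := (h.linearIndependent hA (fun x : Empty => x.elim) linearIndependent_empty_type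
    (fun j => j.elim)).fintype_card_le_finrank
  simp at this
  omega

theorem exists_maximal_hyp (hA : B.IsAlt) :
    ∃ (m : ℕ) (e f : Fin m → V), Hyp B m e f ∧ ¬ ∃ e' f' : Fin (m + 1) → V, Hyp B (m + 1) e' f' := by
  by_contra hcon
  push Not at hcon
  have : ∀ m : ℕ, ∃ e f : Fin m → V, Hyp B m e f := by
    intro m
    induction m with
    | zero => exact ⟨Fin.elim0, Fin.elim0, fun i => i.elim0, fun i => i.elim0, fun i => i.elim0⟩
    | succ m ih =>
      obtain ⟨e, f, h⟩ := ih
      exact hcon m e f h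
  obtain ⟨e, f, h⟩ := this (Module.finrank F V + 1)
  have := h.two_mul_le hA
  omega

/-- Classification of alternating forms. -/
theorem exists_symplectic_basis (hA : B.IsAlt) :
    ∃ (m k : ℕ) (b : Module.Basis ((Fin m ⊕ Fin m) ⊕ Fin k) F V),
      (∀ i j : Fin m, B (b (Sum.inl (Sum.inl i))) (b (Sum.inl (Sum.inr j))) = if i = j then 1 else 0) ∧
      (∀ i j : Fin m, B (b (Sum.inl (Sum.inl i))) (b (Sum.inl (Sum.inl j))) = 0) ∧
      (∀ i j : Fin m, B (b (Sum.inl (Sum.inr i))) (b (Sum.inl (Sum.inr j))) = 0) ∧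
      (∀ (j : Fin k) (v : V), B (b (Sum.inr j)) v = 0) := by
  obtain ⟨m, e, f, h, hmax⟩ := exists_maximal_hyp (B := B) hA
  have hperp : ∀ x y : V, (∀ i, B x (e i) = 0) → (∀ i, B x (f i) = 0) → (∀ i, B y (e i) = 0) →
      (∀ i, B y (f i) = 0) → B x y = 0 := by
    intro x y hxe hxf hye hyf
    by_contra hxy
    apply hmax
    refine ⟨_, _, h.cons hA (u := x) (v := (B x y)⁻¹ • y) ?_ hxe hxf ?_ ?_⟩
    · rw [map_smul, smul_eq_mul, inv_mul_cancel₀ hxy]
    · intro i; rw [map_smul, LinearMap.smul_apply, hye, smul_zero]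
    · intro i; rw [map_smul, LinearMap.smul_apply, hyf, smul_zero]
  have hdecomp : ∀ y : V, y = hypProj B e f y + ∑ i, B y (f i) • e i - ∑ i, B y (e i) • f i := by
    intro y
    simp only [hypProj]
    abel
  have hrad : ∀ x y : V, B (hypProj B e f x) y = 0 := by
    intro x y
    rw [hdecomp y]
    simp only [map_add, map_sub, map_sum, map_smul, hypProj_e hA h, hypProj_f h, smul_zero,
      Finset.sum_const_zero, add_zero, sub_zero]
    exact hperp _ _ (hypProj_e hA h x) (hypProj_f h x) (hypProj_e hA h y) (hypProj_f h y)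
  set R : Submodule F V := LinearMap.ker B with hR
  set r : Fin (Module.finrank F R) → V := fun j => ((Module.finBasis F R j : R) : V) with hr
  have hrli : LinearIndependent F r :=
    (Module.finBasis F R).linearIndependent.map' R.subtype (Submodule.ker_subtype R)
  have hrrad : ∀ j v, B (r j) v = 0 := by
    intro j v
    have : B (r j) = 0 := LinearMap.mem_ker.mp (Module.finBasis F R j).2
    rw [this]; rfl
  have hli := h.linearIndependent hA r hrli hrrad
  have hsp : ⊤ ≤ Submodule.span F (Set.range (Sum.elim (Sum.elim e f) r)) := by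
    intro x _
    rw [hdecomp x]
    refine Submodule.sub_mem _ (Submodule.add_mem _ ?_ ?_) ?_
    · have hx : hypProj B e f x ∈ R := by
        rw [hR, LinearMap.mem_ker]
        ext y
        exact hrad x y
      have h1 : (⟨hypProj B e f x, hx⟩ : R) ∈
          Submodule.span F (Set.range (Module.finBasis F R)) := by
        rw [(Module.finBasis F R).span_eq]; trivial
      have h2 := Submodule.mem_map_of_mem (f := R.subtype) h1
      rw [Submodule.map_span, ← Set.range_comp] at h2
      refine Submodule.span_mono ?_ h2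
      rintro _ ⟨j, rfl⟩
      exact ⟨Sum.inr j, rfl⟩
    · exact Submodule.sum_mem _ fun i _ => Submodule.smul_mem _ _
        (Submodule.subset_span ⟨Sum.inl (Sum.inl i), rfl⟩)
    · exact Submodule.sum_mem _ fun i _ => Submodule.smul_mem _ _
        (Submodule.subset_span ⟨Sum.inl (Sum.inr i), rfl⟩)
  refine ⟨m, Module.finrank F R, Module.Basis.mk hli hsp, ?_, ?_, ?_, ?_⟩
  · intro i j; simp only [Module.Basis.mk_apply, Sum.elim_inl, Sum.elim_inr]; exact h.1 i j
  · intro i j; simp only [Module.Basis.mk_apply, Sum.elim_inl]; exact h.2.1 i j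
  · intro i j; simp only [Module.Basis.mk_apply, Sum.elim_inl, Sum.elim_inr]; exact h.2.2 i j
  · intro j v; simp only [Module.Basis.mk_apply, Sum.elim_inr]; exact hrrad j v

end Cfsg.Agent.H6.Alt
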