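import Cfsg.Agent.Lib_helper6_SympIsom
import Cfsg.Agent.Lib_helper6_AltStab

/-! Stabilisers of subspaces in the matrix symplectic group vs. the abstract isometry group. -/

set_option autoImplicit false

namespace Cfsg.Agent.H6

open Matrix

variable {F : Type*} [Field F] {m : ℕ}

local notation "V" => (Fin m ⊕ Fin m → F)
local notation "M" => Matrix (Fin m ⊕ Fin m) (Fin m ⊕ Fin m) F
local notation "Sp" => symplecticGroup (Fin m) F

theorem sympEquivIsom_symm_apply (g : Alt.Isom (sympB m F)) (x : V) :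
    ((sympEquivIsom.symm g : Sp) : M) *ᵥ x = g.1 x := by
  rw [← sympEquivIsom_apply, MulEquiv.apply_symm_apply]

/-- The stabiliser of a subspace, in matrices and abstractly. -/
noncomputable def stabilizingEquivStab (W : Submodule F V) :
    ↥(Cfsg.stabilizing (Cfsg.spToMat m F) (W : Set V)) ≃* ↥(Alt.Stab (sympB m F) W) where
  toFun A := ⟨(sympEquivIsom A.1).1, (sympEquivIsom A.1).2, A.2⟩
  invFun g := ⟨sympEquivIsom.symm ⟨g.1, g.2.1⟩, fun v => by
    have := g.2.2 v
    change v ∈ W ↔ ((sympEquivIsom.symm ⟨g.1, g.2.1⟩ : Sp) : M) *ᵥ v ∈ W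
    rw [sympEquivIsom_symm_apply]
    exact this⟩
  left_inv A := by
    apply Subtype.ext
    exact sympEquivIsom.symm_apply_apply A.1
  right_inv g := by
    apply Subtype.ext
    change (sympEquivIsom (sympEquivIsom.symm ⟨g.1, g.2.1⟩)).1 = g.1
    rw [MulEquiv.apply_symm_apply]
  map_mul' A C := by
    apply Subtype.ext
    change (sympEquivIsom (A.1 * C.1)).1 = (sympEquivIsom A.1).1 * (sympEquivIsom C.1).1
    rw [map_mul]
    rfl

end Cfsg.Agent.H6
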