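import Cfsg.Agent.Lib_helper6_AltBasis
import Cfsg.Agent.Lib_helper6_SympStab

/-! Non-degenerate alternating spaces are standard; stabilisers of non-degenerate subspaces. -/

set_option autoImplicit false

namespace Cfsg.Agent.H6.Alt

variable {F V : Type*} [Field F] [AddCommGroup V] [Module F V]
variable {B : LinearMap.BilinForm F V}

/-- Transport of isometry groups along a linear isometry. -/
def isomCongr {V' : Type*} [AddCommGroup V'] [Module F V'] {B' : LinearMap.BilinForm F V'}
    (Φ : V ≃ₗ[F] V') (h : ∀ x y, B' (Φ x) (Φ y) = B x y) : Isom B ≃* Isom B' where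
  toFun g := ⟨Φ.symm.trans (g.1.trans Φ), fun u v => by
    change B' (Φ (g.1 (Φ.symm u))) (Φ (g.1 (Φ.symm v))) = B' u v
    rw [h, g.2, ← h, Φ.apply_symm_apply, Φ.apply_symm_apply]⟩
  invFun g := ⟨Φ.trans (g.1.trans Φ.symm), fun u v => by
    change B (Φ.symm (g.1 (Φ u))) (Φ.symm (g.1 (Φ v))) = B u v
    rw [← h, Φ.apply_symm_apply, Φ.apply_symm_apply, g.2, h]⟩
  left_inv g := by
    apply Subtype.ext
    ext x
    change Φ.symm (Φ (g.1 (Φ.symm (Φ x)))) = g.1 x
    simp
  right_inv g := by
    apply Subtype.ext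
    ext x
    change Φ (Φ.symm (g.1 (Φ (Φ.symm x)))) = g.1 x
    simp
  map_mul' a b := by
    apply Subtype.ext
    ext x
    change Φ (a.1 (b.1 (Φ.symm x))) = Φ (a.1 (Φ.symm (Φ (b.1 (Φ.symm x)))))
    simp

variable [FiniteDimensional F V]

theorem exists_isometry_sympB (hB : B.Nondegenerate) (hA : B.IsAlt) {k : ℕ}
    (hdim : Module.finrank F V = 2 * k) :
    ∃ Φ : V ≃ₗ[F] (Fin k ⊕ Fin k → F), ∀ x y, sympB k F (Φ x) (Φ y) = B x y := by
  obtain ⟨m, r, b, h1, h2, h3, h4⟩ := exists_symplectic_basis hA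
  have hr : r = 0 := by
    by_contra hr
    have hpos : 0 < r := Nat.pos_of_ne_zero hr
    exact b.ne_zero (Sum.inr ⟨0, hpos⟩) (hB.1 _ (h4 ⟨0, hpos⟩))
  subst hr
  have hm : m = k := by
    have := Module.finrank_eq_card_basis b
    simp at this
    omega
  subst hm
  set σ : (Fin m ⊕ Fin m) ⊕ Fin 0 ≃ Fin m ⊕ Fin m :=
    (Equiv.sumEmpty _ _).trans (Equiv.sumComm _ _) with hσ
  set b' := b.reindex σ with hb'
  have hbl : ∀ i, b' (Sum.inl i) = b (Sum.inl (Sum.inr i)) := fun i => by
    rw [hb', Module.Basis.reindex_apply]; rfl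
  have hbr : ∀ i, b' (Sum.inr i) = b (Sum.inl (Sum.inl i)) := fun i => by
    rw [hb', Module.Basis.reindex_apply]; rfl
  have hΦ : ∀ i, b'.equivFun (b' i) = Pi.single i 1 := by
    intro i
    ext j
    rw [Module.Basis.equivFun_self, Pi.single_apply]
    simp [eq_comm]
  refine ⟨b'.equivFun, ?_⟩
  have key : (sympB m F).comp b'.equivFun.toLinearMap b'.equivFun.toLinearMap = B := by
    apply LinearMap.BilinForm.ext_basis b'
    intro i j
    rw [LinearMap.BilinForm.comp_apply]
    change sympB m F (b'.equivFun (b' i)) (b'.equivFun (b' j)) = _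
    rw [hΦ, hΦ, sympB_apply]
    rcases i with a | a <;> rcases j with c | c
    · rw [sympForm_single_inl, hbl, hbl, h3]; simp
    · rw [sympForm_single_inr, hbl, hbr, swap hA, h1]
      simp [Pi.single_apply, eq_comm]
    · rw [sympForm_single_inl, hbr, hbl, h1]
      simp [Pi.single_apply, eq_comm]
    · rw [sympForm_single_inr, hbr, hbr, h2]; simp
  intro x y
  rw [← key]
  rfl

/-- The isometry group of a non-degenerate alternating form is the symplectic group. -/
theorem nonempty_isom_mulEquiv_symp (hB : B.Nondegenerate) (hA : B.IsAlt) {k : ℕ}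
    (hdim : Module.finrank F V = 2 * k) :
    Nonempty (Isom B ≃* Matrix.symplecticGroup (Fin k) F) := by
  obtain ⟨Φ, hΦ⟩ := exists_isometry_sympB hB hA hdim
  exact ⟨(isomCongr Φ hΦ).trans sympEquivIsom.symm⟩

theorem mem_Stab_of_forall {W : Submodule F V} {g : V ≃ₗ[F] V} (hg : g ∈ Isom B)
    (h : ∀ v ∈ W, g v ∈ W) : g ∈ Stab B W := by
  refine ⟨hg, fun v => ⟨h v, fun hv => ?_⟩⟩
  have hle : W.map (g : V →ₗ[F] V) ≤ W := by
    rintro _ ⟨w, hw, rfl⟩
    exact h w hw
  have heq : W.map (g : V →ₗ[F] V) = W :=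
    Submodule.eq_of_le_of_finrank_eq hle (LinearEquiv.finrank_map_eq g W)
  rw [← heq] at hv
  obtain ⟨w, hw, hwv⟩ := hv
  have : w = v := g.injective hwv
  rw [← this]; exact hw

omit [FiniteDimensional F V] in
theorem Stab_le_Stab_orthogonal (W : Submodule F V) : Stab B W ≤ Stab B (B.orthogonal W) := by
  intro g hg
  refine ⟨hg.1, fun v => ?_⟩
  rw [LinearMap.BilinForm.mem_orthogonal_iff, LinearMap.BilinForm.mem_orthogonal_iff]
  constructor
  · intro h n hn
    have h1 : g⁻¹ n ∈ W := ((inv_mem hg).2 n).mp hn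
    have h2 := hg.1 (g⁻¹ n) v
    rw [← LinearEquiv.mul_apply, mul_inv_cancel] at h2
    change B n (g v) = _ at h2
    rw [h2, h _ h1]
  · intro h n hn
    rw [← hg.1 n v]
    exact h _ ((hg.2 n).mp hn)

omit [FiniteDimensional F V] in
theorem resHom_mem_Isom (W : Submodule F V) (g : Stab B W) :
    resHom B W g ∈ Isom (B.restrict W) := by
  intro u v
  exact g.2.1 u v

/-- The stabiliser of `W` maps to the product of the isometry groups of `W` and `W^⊥`. -/
def stabToProd (B : LinearMap.BilinForm F V) (W : Submodule F V) :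
    Stab B W →* Isom (B.restrict W) × Isom (B.restrict (B.orthogonal W)) :=
  MonoidHom.prod ((resHom B W).codRestrict _ (resHom_mem_Isom W))
    (((resHom B (B.orthogonal W)).comp
      (Subgroup.inclusion (Stab_le_Stab_orthogonal W))).codRestrict _
        (fun g => resHom_mem_Isom _ _))

theorem stabToProd_bijective (hA : B.IsAlt) (W : Submodule F V)
    (hc : IsCompl W (B.orthogonal W)) : Function.Bijective (stabToProd B W) := by
  have horth : ∀ w ∈ W, ∀ p ∈ B.orthogonal W, B w p = 0 := fun w hw p hp =>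
    LinearMap.BilinForm.mem_orthogonal_iff.mp hp w hw
  have horth' : ∀ w ∈ W, ∀ p ∈ B.orthogonal W, B p w = 0 := fun w hw p hp => by
    rw [swap hA, horth w hw p hp, neg_zero]
  set E := Submodule.prodEquivOfIsCompl W (B.orthogonal W) hc with hE
  constructor
  · intro g g' h
    apply Subtype.ext
    ext v
    obtain ⟨⟨w, p⟩, rfl⟩ := E.surjective v
    rw [hE, Submodule.coe_prodEquivOfIsCompl', map_add, map_add]
    have h1 := congrArg (fun x => (((x.1 : Isom (B.restrict W)) : W ≃ₗ[F] W) w : V)) h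
    have h2 := congrArg (fun x => (((x.2 : Isom (B.restrict (B.orthogonal W))) :
      B.orthogonal W ≃ₗ[F] B.orthogonal W) p : V)) h
    change g.1 (w : V) = g'.1 (w : V) at h1
    change g.1 (p : V) = g'.1 (p : V) at h2
    change g.1 (w : V) + g.1 (p : V) = g'.1 (w : V) + g'.1 (p : V)
    rw [h1, h2]
  · rintro ⟨a, c⟩
    set g : V ≃ₗ[F] V := E.symm.trans ((a.1.prodCongr c.1).trans E) with hg
    have hgE : ∀ (w : W) (p : B.orthogonal W),
        g ((w : V) + (p : V)) = ((a.1 w : W) : V) + ((c.1 p : B.orthogonal W) : V) := by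
      intro w p
      have : (w : V) + (p : V) = E (w, p) := by
        rw [hE, Submodule.coe_prodEquivOfIsCompl']
      rw [this, hg]
      change E ((a.1.prodCongr c.1) (E.symm (E (w, p)))) = _
      rw [E.symm_apply_apply, hE, Submodule.coe_prodEquivOfIsCompl']
      rfl
    have hgI : g ∈ Isom B := by
      intro u v
      obtain ⟨⟨w, p⟩, rfl⟩ := E.surjective u
      obtain ⟨⟨w', p'⟩, rfl⟩ := E.surjective v
      rw [hE, Submodule.coe_prodEquivOfIsCompl', Submodule.coe_prodEquivOfIsCompl', hgE, hgE]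
      have ha : B ((a.1 w : W) : V) ((a.1 w' : W) : V) = B (w : V) (w' : V) := a.2 w w'
      have hc' : B ((c.1 p : B.orthogonal W) : V) ((c.1 p' : B.orthogonal W) : V) =
        B (p : V) (p' : V) := c.2 p p'
      simp only [map_add, LinearMap.add_apply, ha, hc', horth _ (a.1 w).2 _ (c.1 p').2,
        horth' _ (a.1 w').2 _ (c.1 p).2, horth _ w.2 _ p'.2, horth' _ w'.2 _ p.2]
    have hgW : ∀ w : W, g (w : V) = ((a.1 w : W) : V) := by
      intro w
      have := hgE w 0
      simpa using this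
    have hgP : ∀ p : B.orthogonal W, g (p : V) = ((c.1 p : B.orthogonal W) : V) := by
      intro p
      have := hgE 0 p
      simpa using this
    have hgS : g ∈ Stab B W := mem_Stab_of_forall hgI (fun v hv => by
      rw [hgW ⟨v, hv⟩]; exact (a.1 ⟨v, hv⟩).2)
    refine ⟨⟨g, hgS⟩, ?_⟩
    apply Prod.ext
    · apply Subtype.ext
      ext w
      exact hgW w
    · apply Subtype.ext
      ext p
      exact hgP p

end Cfsg.Agent.H6.Alt
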