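import Cfsg.Agent.Lib_helper6_IsoCount
import Cfsg.Agent.Lib_helper6_AltIso

/-! Counting totally isotropic subspaces for alternating forms. -/

set_option autoImplicit false

namespace Cfsg.Agent.H6

/-- Double counting for a relation whose fibres have constant sizes. -/
theorem card_mul_eq_card_mul_of_fibres {A C : Type*} [Finite A] [Finite C] (R : A → C → Prop)
    (r s : ℕ) (hr : ∀ a, Nat.card {c // R a c} = r) (hs : ∀ c, Nat.card {a // R a c} = s) :
    Nat.card A * r = Nat.card C * s := by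
  have := Fintype.ofFinite A
  have := Fintype.ofFinite C
  have e : (Σ a : A, {c // R a c}) ≃ (Σ c : C, {a // R a c}) :=
    ⟨fun p => ⟨p.2.1, p.1, p.2.2⟩, fun p => ⟨p.2.1, p.1, p.2.2⟩, fun _ => rfl, fun _ => rfl⟩
  have h := Nat.card_congr e
  rw [Nat.card_sigma, Nat.card_sigma] at h
  simp only [hr, hs, Finset.sum_const, Finset.card_univ, smul_eq_mul] at h
  rw [Nat.card_eq_fintype_card, Nat.card_eq_fintype_card]
  exact h

namespace Alt

variable {F V : Type*} [Field F] [AddCommGroup V] [Module F V]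
variable {B : LinearMap.BilinForm F V}

theorem Isom_eq_IsomOf : Isom B = IsomOf (F := F) (fun x y => B x y) := rfl

theorem Stab_eq_StabOf (W : Submodule F V) : Stab B W = StabOf (fun x y => B x y) W := rfl

theorem moving [FiniteDimensional F V] (hB : B.Nondegenerate) (hA : B.IsAlt) :
    Moving F (fun x y => B x y) :=
  fun W _ _ hx hy hxy _ _ => exists_fix_map hB hA W hx hy hxy

theorem card_Isom_eq_card_isotropic_mul [FiniteDimensional F V] (hB : B.Nondegenerate)
    (hA : B.IsAlt) (W : Submodule F V) (hW : ∀ u ∈ W, ∀ v ∈ W, B u v = 0) {k : ℕ}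
    (hk : Module.finrank F W = k) :
    Nat.card (Isom B) =
      Nat.card {W' : Submodule F V // Module.finrank F W' = k ∧ ∀ u ∈ W', ∀ v ∈ W', B u v = 0} *
        Nat.card (Stab B W) :=
  card_IsomOf_eq_card_const_subspaces_mul (moving hB hA) 0 W hW hk

open scoped Pointwise in
theorem card_isotropic_through_eq {g : V ≃ₗ[F] V} (hg : g ∈ Isom B) (v : V) (k : ℕ) :
    Nat.card {W : Submodule F V // Module.finrank F W = k ∧ v ∈ W ∧ ∀ u ∈ W, ∀ w ∈ W, B u w = 0} =
    Nat.card {W : Submodule F V // Module.finrank F W = k ∧ g v ∈ W ∧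
      ∀ u ∈ W, ∀ w ∈ W, B u w = 0} := by
  refine Nat.card_congr (Equiv.subtypeEquiv (MulAction.toPerm g) fun W => ?_)
  change _ ↔ (Module.finrank F ↥(g • W) = k ∧ g v ∈ g • W ∧ ∀ u ∈ g • W, ∀ w ∈ g • W, B u w = 0)
  have h1 : Module.finrank F ↥(g • W) = Module.finrank F W := LinearEquiv.finrank_map_eq g W
  have h2 : g v ∈ g • W ↔ v ∈ W := by
    rw [mem_smul_submodule_iff]
    constructor
    · rintro ⟨w, hw, hwv⟩
      rw [← g.injective hwv]; exact hw
    · intro h; exact ⟨v, h, rfl⟩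
  have h3 : (∀ u ∈ g • W, ∀ w ∈ g • W, B u w = 0) ↔ ∀ u ∈ W, ∀ w ∈ W, B u w = 0 := by
    constructor
    · intro h u hu w hw
      rw [← hg u w]
      exact h _ ((mem_smul_submodule_iff g W _).mpr ⟨u, hu, rfl⟩) _
        ((mem_smul_submodule_iff g W _).mpr ⟨w, hw, rfl⟩)
    · intro h u hu w hw
      obtain ⟨u', hu', rfl⟩ := (mem_smul_submodule_iff g W u).mp hu
      obtain ⟨w', hw', rfl⟩ := (mem_smul_submodule_iff g W w).mp hw
      rw [hg u' w']
      exact h u' hu' w' hw'
  rw [h1, h2, h3]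

/-- Double counting of incident (non-zero vector, totally isotropic `k`-subspace) pairs. -/
theorem card_through_mul [FiniteDimensional F V] [Finite F] (hB : B.Nondegenerate) (hA : B.IsAlt)
    {v : V} (hv : v ≠ 0) (k : ℕ) :
    (Nat.card V - 1) *
      Nat.card {W : Submodule F V // Module.finrank F W = k ∧ v ∈ W ∧
        ∀ u ∈ W, ∀ w ∈ W, B u w = 0} =
    Nat.card {W : Submodule F V // Module.finrank F W = k ∧ ∀ u ∈ W, ∀ w ∈ W, B u w = 0} *
      (Nat.card F ^ k - 1) := by
  classical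
  have : Finite V := Module.finite_of_finite F
  have hcard0 : ∀ (U : Type _) [AddCommGroup U] [Finite U], Nat.card {x : U // x ≠ 0} = Nat.card U - 1 := by
    intro U _ _
    have := Fintype.ofFinite U
    rw [Nat.card_eq_fintype_card, Nat.card_eq_fintype_card, Fintype.card_subtype_compl,
      Fintype.card_subtype_eq]
  rw [← hcard0 V]
  apply card_mul_eq_card_mul_of_fibres
    (fun (x : {x : V // x ≠ 0}) (W : {W : Submodule F V // Module.finrank F W = k ∧
      ∀ u ∈ W, ∀ w ∈ W, B u w = 0}) => x.1 ∈ W.1)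
  · intro x
    obtain ⟨g, hg, -, hgv⟩ := exists_fix_map hB hA ⊥ (x := x.1) (y := v)
      (fun h => x.2 ((Submodule.mem_bot F).mp h)) (fun h => hv ((Submodule.mem_bot F).mp h))
      (fun z hz => by rw [(Submodule.mem_bot F).mp hz]; simp)
    rw [card_isotropic_through_eq hg v k, hgv]
    exact Nat.card_congr ⟨fun W => ⟨W.1.1, W.1.2.1, W.2, W.1.2.2⟩,
      fun W => ⟨⟨W.1, W.2.1, W.2.2.2⟩, W.2.2.1⟩, fun _ => rfl, fun _ => rfl⟩
  · intro W
    have h1 : Nat.card {x : W.1 // x ≠ 0} = Nat.card F ^ k - 1 := by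
      rw [hcard0 W.1, Module.natCard_eq_pow_finrank (K := F), W.2.1]
    rw [← h1]
    exact Nat.card_congr ⟨fun x => ⟨⟨x.1.1, x.2⟩, fun h => x.1.2 (congrArg Subtype.val h)⟩,
      fun x => ⟨⟨x.1.1, fun h => x.2 (Subtype.ext h)⟩, x.1.2⟩, fun _ => rfl, fun _ => rfl⟩

end Alt

end Cfsg.Agent.H6
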