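import Cfsg.Agent.Lib_helper6_QuadOrder

/-! The standard quadratic forms as `QuadraticForm`s: non-degeneracy, zero counts. -/

set_option autoImplicit false

namespace Cfsg.Agent.H6.Quad

variable {F : Type*} [Field F]

theorem nondeg_of_left {V : Type*} [AddCommGroup V] [Module F V] {Q : QuadraticForm F V}
    (h : ∀ v, (∀ w, pol Q v w = 0) → v = 0) : (pol Q).Nondegenerate :=
  ⟨h, fun p hp => h p fun p' => by rw [pol_comm]; exact hp p'⟩

/-- The plus type form. -/
noncomputable def qPlus (m : ℕ) (F : Type*) [Field F] : QuadraticForm F (Fin m ⊕ Fin m → F) :=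
  ∑ i : Fin m, QuadraticMap.linMulLin (LinearMap.proj (Sum.inl i)) (LinearMap.proj (Sum.inr i))

theorem qPlus_apply (m : ℕ) (v : Fin m ⊕ Fin m → F) : qPlus m F v = Cfsg.quadFormPlus m F v := by
  simp [qPlus, Cfsg.quadFormPlus]

theorem pol_qPlus (m : ℕ) (v w : Fin m ⊕ Fin m → F) : pol (qPlus m F) v w =
    ∑ i : Fin m, (v (.inl i) * w (.inr i) + w (.inl i) * v (.inr i)) := by
  rw [QuadraticMap.polarBilin_apply_apply, QuadraticMap.polar, qPlus_apply, qPlus_apply,
    qPlus_apply]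
  simp only [Cfsg.quadFormPlus, Pi.add_apply, ← Finset.sum_sub_distrib]
  exact Finset.sum_congr rfl fun i _ => by ring

theorem nondeg_qPlus (m : ℕ) : (pol (qPlus m F)).Nondegenerate := by
  classical
  apply nondeg_of_left
  intro v hv
  ext (i | i)
  · have := hv (Pi.single (.inr i) 1)
    rw [pol_qPlus] at this
    simpa [Pi.single_apply] using this
  · have := hv (Pi.single (.inl i) 1)
    rw [pol_qPlus] at this
    simpa [Pi.single_apply] using this

/-- The odd-dimensional form. -/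
noncomputable def qOdd (m : ℕ) (F : Type*) [Field F] :
    QuadraticForm F (Unit ⊕ (Fin m ⊕ Fin m) → F) :=
  QuadraticMap.linMulLin (LinearMap.proj (Sum.inl ())) (LinearMap.proj (Sum.inl ())) +
  ∑ i : Fin m, QuadraticMap.linMulLin (LinearMap.proj (Sum.inr (Sum.inl i)))
    (LinearMap.proj (Sum.inr (Sum.inr i)))

theorem qOdd_apply (m : ℕ) (v : Unit ⊕ (Fin m ⊕ Fin m) → F) :
    qOdd m F v = Cfsg.quadFormOdd m F v := by
  simp [qOdd, Cfsg.quadFormOdd, sq]

theorem pol_qOdd (m : ℕ) (v w : Unit ⊕ (Fin m ⊕ Fin m) → F) : pol (qOdd m F) v w =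
    2 * v (.inl ()) * w (.inl ()) +
    ∑ i : Fin m, (v (.inr (.inl i)) * w (.inr (.inr i)) + w (.inr (.inl i)) * v (.inr (.inr i))) := by
  rw [QuadraticMap.polarBilin_apply_apply, QuadraticMap.polar, qOdd_apply, qOdd_apply,
    qOdd_apply]
  simp only [Cfsg.quadFormOdd, Pi.add_apply]
  have : ∑ i : Fin m, (v (.inr (.inl i)) + w (.inr (.inl i))) *
      (v (.inr (.inr i)) + w (.inr (.inr i))) =
      ∑ i : Fin m, v (.inr (.inl i)) * v (.inr (.inr i)) +
      ∑ i : Fin m, w (.inr (.inl i)) * w (.inr (.inr i)) +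
      ∑ i : Fin m, (v (.inr (.inl i)) * w (.inr (.inr i)) +
        w (.inr (.inl i)) * v (.inr (.inr i))) := by
    rw [← Finset.sum_add_distrib, ← Finset.sum_add_distrib]
    exact Finset.sum_congr rfl fun i _ => by ring
  rw [this]
  ring

theorem nondeg_qOdd (h2 : (2 : F) ≠ 0) (m : ℕ) : (pol (qOdd m F)).Nondegenerate := by
  classical
  apply nondeg_of_left
  intro v hv
  ext (i | i | i)
  · have := hv (Pi.single (.inl ()) 1)
    rw [pol_qOdd] at this
    simpa [Pi.single_apply, h2] using this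
  · have := hv (Pi.single (.inr (.inr i)) 1)
    rw [pol_qOdd] at this
    simpa [Pi.single_apply] using this
  · have := hv (Pi.single (.inr (.inl i)) 1)
    rw [pol_qOdd] at this
    simpa [Pi.single_apply] using this

/-- The minus type form. -/
noncomputable def qMinus (m : ℕ) (F : Type*) [Field F] (a b : F) :
    QuadraticForm F ((Fin m ⊕ Fin m) ⊕ Fin 2 → F) :=
  ∑ i : Fin m, QuadraticMap.linMulLin (LinearMap.proj (Sum.inl (Sum.inl i)))
    (LinearMap.proj (Sum.inl (Sum.inr i))) +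
  (QuadraticMap.linMulLin (LinearMap.proj (Sum.inr 0)) (LinearMap.proj (Sum.inr 0)) +
    a • QuadraticMap.linMulLin (LinearMap.proj (Sum.inr 0)) (LinearMap.proj (Sum.inr 1)) +
    b • QuadraticMap.linMulLin (LinearMap.proj (Sum.inr 1)) (LinearMap.proj (Sum.inr 1)))

theorem qMinus_apply (m : ℕ) (a b : F) (v : (Fin m ⊕ Fin m) ⊕ Fin 2 → F) :
    qMinus m F a b v = Cfsg.quadFormMinus m F a b v := by
  simp [qMinus, Cfsg.quadFormMinus, sq, mul_assoc]

theorem pol_qMinus (m : ℕ) (a b : F) (v w : (Fin m ⊕ Fin m) ⊕ Fin 2 → F) :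
    pol (qMinus m F a b) v w =
    ∑ i : Fin m, (v (.inl (.inl i)) * w (.inl (.inr i)) + w (.inl (.inl i)) * v (.inl (.inr i))) +
    (2 * v (.inr 0) * w (.inr 0) + a * (v (.inr 0) * w (.inr 1) + w (.inr 0) * v (.inr 1)) +
      2 * b * v (.inr 1) * w (.inr 1)) := by
  rw [QuadraticMap.polarBilin_apply_apply, QuadraticMap.polar, qMinus_apply, qMinus_apply,
    qMinus_apply]
  simp only [Cfsg.quadFormMinus, Pi.add_apply]
  have : ∑ i : Fin m, (v (.inl (.inl i)) + w (.inl (.inl i))) *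
      (v (.inl (.inr i)) + w (.inl (.inr i))) =
      ∑ i : Fin m, v (.inl (.inl i)) * v (.inl (.inr i)) +
      ∑ i : Fin m, w (.inl (.inl i)) * w (.inl (.inr i)) +
      ∑ i : Fin m, (v (.inl (.inl i)) * w (.inl (.inr i)) +
        w (.inl (.inl i)) * v (.inl (.inr i))) := by
    rw [← Finset.sum_add_distrib, ← Finset.sum_add_distrib]
    exact Finset.sum_congr rfl fun i _ => by ring
  rw [this]
  ring

theorem nondeg_qMinus [Finite F] (m : ℕ) (a b : F)
    (hab : ∀ z₁ z₂ : F, z₁ ^ 2 + a * z₁ * z₂ + b * z₂ ^ 2 = 0 → z₁ = 0 ∧ z₂ = 0) :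
    (pol (qMinus m F a b)).Nondegenerate := by
  classical
  apply nondeg_of_left
  intro v hv
  have h0 : 2 * v (.inr 0) + a * v (.inr 1) = 0 := by
    have := hv (Pi.single (.inr 0) 1)
    rw [pol_qMinus] at this
    simpa [Pi.single_apply] using this
  have h1 : a * v (.inr 0) + 2 * b * v (.inr 1) = 0 := by
    have := hv (Pi.single (.inr 1) 1)
    rw [pol_qMinus] at this
    simpa [Pi.single_apply] using this
  have hz : v (.inr 0) = 0 ∧ v (.inr 1) = 0 := by
    by_cases h2 : (2 : F) = 0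
    · have ha : a ≠ 0 := by
        rintro rfl
        have hchar : ringChar F = 2 := by
          have : CharP F 2 := CharTwo.of_one_ne_zero_of_two_eq_zero one_ne_zero h2
          exact ringChar.eq F 2
        have := Fintype.ofFinite F
        obtain ⟨s, hs⟩ := FiniteField.isSquare_of_char_two hchar b
        have := (hab s 1 (by rw [hs]; linear_combination s * s * h2)).2
        exact one_ne_zero this
      rw [h2] at h0 h1
      simp only [zero_mul, zero_add, add_zero, mul_eq_zero, ha, false_or] at h0 h1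
      exact ⟨h1, h0⟩
    · apply hab
      have : 2 * (v (.inr 0) ^ 2 + a * v (.inr 0) * v (.inr 1) + b * v (.inr 1) ^ 2) = 0 := by
        linear_combination v (.inr 0) * h0 + v (.inr 1) * h1
      exact (mul_eq_zero.mp this).resolve_left h2
  ext ((i | i) | i)
  · have := hv (Pi.single (.inl (.inr i)) 1)
    rw [pol_qMinus] at this
    simpa [Pi.single_apply] using this
  · have := hv (Pi.single (.inl (.inl i)) 1)
    rw [pol_qMinus] at this
    simpa [Pi.single_apply] using this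
  · fin_cases i
    · exact hz.1
    · exact hz.2

theorem card_zeros_plus [Finite F] (m : ℕ) :
    Nat.card {v : Fin m ⊕ Fin m → F // qPlus m F v = 0} = zc (Nat.card F) m 0 := by
  have e : {v : Fin m ⊕ Fin m → F // qPlus m F v = 0} ≃
      {p : (Fin m → F) × (Fin m → F) × Unit // p.1 ⬝ᵥ p.2.1 + (fun _ => (0 : F)) p.2.2 = 0} :=
    ⟨fun v => ⟨(fun i => v.1 (.inl i), fun i => v.1 (.inr i), ()), by
        have := v.2
        rw [qPlus_apply] at this
        simpa [Cfsg.quadFormPlus, dotProduct] using this⟩,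
      fun p => ⟨Sum.elim p.1.1 p.1.2.1, by
        rw [qPlus_apply]
        simpa [Cfsg.quadFormPlus, dotProduct] using p.2⟩,
      fun v => Subtype.ext (by ext (i | i) <;> rfl), fun p => rfl⟩
  rw [Nat.card_congr e, card_zeros_dot (fun _ : Unit => (0 : F)), Fintype.card_fin]
  have h1 : Nat.card {t : Unit // (fun _ => (0 : F)) t = 0} = 1 := by
    have : Unique {t : Unit // (fun _ => (0 : F)) t = 0} := ⟨⟨⟨(), rfl⟩⟩, fun _ => rfl⟩
    exact Nat.card_unique
  rw [h1, Nat.card_unique (α := Unit), mul_one, mul_one, zc, add_zero]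

theorem card_zeros_odd [Finite F] (m : ℕ) :
    Nat.card {v : Unit ⊕ (Fin m ⊕ Fin m) → F // qOdd m F v = 0} = zc (Nat.card F) m 1 := by
  have e : {v : Unit ⊕ (Fin m ⊕ Fin m) → F // qOdd m F v = 0} ≃
      {p : (Fin m → F) × (Fin m → F) × F // p.1 ⬝ᵥ p.2.1 + (fun t : F => t ^ 2) p.2.2 = 0} :=
    ⟨fun v => ⟨(fun i => v.1 (.inr (.inl i)), fun i => v.1 (.inr (.inr i)), v.1 (.inl ())), by
        have := v.2
        rw [qOdd_apply] at this
        simp only [Cfsg.quadFormOdd] at this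
        simp only [dotProduct]
        rw [add_comm]; exact this⟩,
      fun p => ⟨Sum.elim (fun _ => p.1.2.2) (Sum.elim p.1.1 p.1.2.1), by
        have := p.2
        simp only [dotProduct] at this
        rw [qOdd_apply]
        simp only [Cfsg.quadFormOdd, Sum.elim_inl, Sum.elim_inr]
        rw [add_comm]; exact this⟩,
      fun v => Subtype.ext (by ext (i | i | i) <;> rfl), fun p => rfl⟩
  rw [Nat.card_congr e, card_zeros_dot (fun t : F => t ^ 2), Fintype.card_fin]
  have h1 : Nat.card {t : F // (fun t : F => t ^ 2) t = 0} = 1 := by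
    have : Unique {t : F // (fun t : F => t ^ 2) t = 0} := ⟨⟨⟨0, by simp⟩⟩, fun t =>
      Subtype.ext (by simpa using t.2)⟩
    exact Nat.card_unique
  rw [h1, mul_one, zc, Nat.add_sub_cancel]
  rcases Nat.eq_zero_or_pos m with rfl | hm
  · simp
  · rw [mul_assoc, ← pow_succ, Nat.sub_add_cancel hm]

theorem card_zeros_minus [Finite F] (k : ℕ) (a b : F)
    (hab : ∀ z₁ z₂ : F, z₁ ^ 2 + a * z₁ * z₂ + b * z₂ ^ 2 = 0 → z₁ = 0 ∧ z₂ = 0) :
    Nat.card {v : (Fin k ⊕ Fin k) ⊕ Fin 2 → F // qMinus k F a b v = 0} = zc (Nat.card F) k 2 := by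
  have e : {v : (Fin k ⊕ Fin k) ⊕ Fin 2 → F // qMinus k F a b v = 0} ≃
      {p : (Fin k → F) × (Fin k → F) × (F × F) // p.1 ⬝ᵥ p.2.1 +
        (fun t : F × F => t.1 ^ 2 + a * t.1 * t.2 + b * t.2 ^ 2) p.2.2 = 0} :=
    ⟨fun v => ⟨(fun i => v.1 (.inl (.inl i)), fun i => v.1 (.inl (.inr i)),
        (v.1 (.inr 0), v.1 (.inr 1))), by
        have := v.2
        rw [qMinus_apply] at this
        exact this⟩,
      fun p => ⟨Sum.elim (Sum.elim p.1.1 p.1.2.1) ![p.1.2.2.1, p.1.2.2.2], by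
        rw [qMinus_apply]
        exact p.2⟩,
      fun v => Subtype.ext (by
        ext ((i | i) | i)
        · rfl
        · rfl
        · fin_cases i <;> rfl), fun p => rfl⟩
  rw [Nat.card_congr e,
    card_zeros_dot (fun t : F × F => t.1 ^ 2 + a * t.1 * t.2 + b * t.2 ^ 2), Fintype.card_fin]
  have h1 : Nat.card {t : F × F // (fun t : F × F => t.1 ^ 2 + a * t.1 * t.2 + b * t.2 ^ 2) t = 0}
      = 1 := by
    have : Unique {t : F × F // (fun t : F × F => t.1 ^ 2 + a * t.1 * t.2 + b * t.2 ^ 2) t = 0} :=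
      ⟨⟨⟨0, by simp⟩⟩, fun t => Subtype.ext (by
        obtain ⟨h1, h2⟩ := hab _ _ t.2
        exact Prod.ext h1 h2)⟩
    exact Nat.card_unique
  rw [h1, mul_one, Nat.card_prod, zc]
  rcases Nat.eq_zero_or_pos k with rfl | hk
  · simp
  · obtain ⟨j, rfl⟩ : ∃ j, k = j + 1 := ⟨k - 1, by omega⟩
    have e1 : j + 1 + 2 - 1 = j + 2 := by omega
    have e2 : Nat.card F ^ j * (Nat.card F * Nat.card F) = Nat.card F ^ (j + 2) := by ring
    rw [Nat.add_sub_cancel, e1, mul_assoc, e2]

theorem sub_one_mul_add_one (x : ℕ) (hx : 1 ≤ x) : (x - 1) * (x + 1) = x ^ 2 - 1 := by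
  obtain ⟨k, rfl⟩ : ∃ k, x = k + 1 := ⟨x - 1, by omega⟩
  rw [Nat.add_sub_cancel]
  have : (k + 1) ^ 2 = k * (k + 1 + 1) + 1 := by ring
  rw [this, Nat.add_sub_cancel]

theorem card_isometryGroup_plus [Finite F] (m : ℕ) :
    Nat.card (Cfsg.isometryGroup F (Cfsg.quadFormPlus m F)) = ∏ j ∈ Finset.range m,
      ((Nat.card F ^ (j + 1) - 1) * (Nat.card F ^ (j + 0) + 1) * Nat.card F ^ (2 * j + 0)) := by
  rw [Nat.card_congr (isometryGroupEquiv (qPlus m F) _ (qPlus_apply m)).toEquiv,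
    card_IsomOf_of_zeros 0 1 (fun V _ _ _ Q _ hd _ => card_IsomOf_dim_zero hd) m _ (qPlus m F)
      (nondeg_qPlus m) (by simp; ring) (card_zeros_plus m), one_mul]

theorem card_isometryGroup_odd [Finite F] (h2 : (2 : F) ≠ 0) (m : ℕ) :
    Nat.card (Cfsg.isometryGroup F (Cfsg.quadFormOdd m F)) = 2 * ∏ j ∈ Finset.range m,
      ((Nat.card F ^ (j + 1) - 1) * (Nat.card F ^ (j + 1) + 1) * Nat.card F ^ (2 * j + 1)) := by
  rw [Nat.card_congr (isometryGroupEquiv (qOdd m F) _ (qOdd_apply m)).toEquiv,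
    card_IsomOf_of_zeros 1 2 (fun V _ _ _ Q hQ hd han => card_IsomOf_dim_one hQ han hd) m _
      (qOdd m F) (nondeg_qOdd h2 m) (by simp; ring) (card_zeros_odd m)]

theorem card_isometryGroup_minus [Finite F] (k : ℕ) (a b : F)
    (hab : ∀ z₁ z₂ : F, z₁ ^ 2 + a * z₁ * z₂ + b * z₂ ^ 2 = 0 → z₁ = 0 ∧ z₂ = 0) :
    Nat.card (Cfsg.isometryGroup F (Cfsg.quadFormMinus k F a b)) =
      2 * (Nat.card F + 1) * ∏ j ∈ Finset.range k,
      ((Nat.card F ^ (j + 1) - 1) * (Nat.card F ^ (j + 2) + 1) * Nat.card F ^ (2 * j + 2)) := by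
  rw [Nat.card_congr (isometryGroupEquiv (qMinus k F a b) _ (qMinus_apply k a b)).toEquiv,
    card_IsomOf_of_zeros 2 (2 * (Nat.card F + 1))
      (fun V _ _ _ Q hQ hd han => card_IsomOf_dim_two hQ han hd) k _
      (qMinus k F a b) (nondeg_qMinus k a b hab) (by simp; ring) (card_zeros_minus k a b hab)]

end Cfsg.Agent.H6.Quad
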