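import Cfsg.Agent.Lib_helper6_QuadHyp
import Cfsg.Agent.Lib_helper6_GU

/-! Orders of the isometry groups of quadratic forms over finite fields. -/

set_option autoImplicit false

namespace Cfsg.Agent.H6.Quad

universe u v

variable {F : Type u} {V : Type v} [Field F] [AddCommGroup V] [Module F V] {Q : QuadraticForm F V}

/-- A non-degenerate form in dimension at least two over a finite field is universal. -/
theorem universal [Finite F] [FiniteDimensional F V] (hQ : (pol Q).Nondegenerate)
    (hd : 2 ≤ Module.finrank F V) (c : F) : ∃ v, Q v = c := by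
  classical
  have := Fintype.ofFinite F
  have hiso : ∀ e : V, e ≠ 0 → Q e = 0 → ∃ v, Q v = c := by
    intro e he hQe
    obtain ⟨f, hf, hef⟩ := exists_hyp_partner hQ he hQe
    refine ⟨c • e + f, ?_⟩
    rw [Q_add, Q_smul, hQe, hf, map_smul, LinearMap.smul_apply, hef]; simp
  have : Nontrivial V := Module.nontrivial_of_finrank_pos (R := F) (by omega)
  obtain ⟨x, hx⟩ := exists_ne (0 : V)
  by_cases hQx : Q x = 0
  · exact hiso x hx hQx
  by_cases h2 : (2 : F) = 0
  · have hchar : ringChar F = 2 := by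
      have : CharP F 2 := CharTwo.of_one_ne_zero_of_two_eq_zero one_ne_zero h2
      exact ringChar.eq F 2
    obtain ⟨s, hs⟩ := FiniteField.isSquare_of_char_two hchar (c / Q x)
    refine ⟨s • x, ?_⟩
    rw [Q_smul, ← hs, div_mul_cancel₀ _ hQx]
  · have hker : LinearMap.ker (pol Q x) ≠ ⊥ := by
      apply LinearMap.ker_ne_bot_of_finrank_lt
      rw [Module.finrank_self]; omega
    obtain ⟨u, hu, hu0⟩ := (Submodule.ne_bot_iff _).mp hker
    rw [LinearMap.mem_ker] at hu
    by_cases hQu : Q u = 0
    · exact hiso u hu0 hQu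
    have hodd : Fintype.card F % 2 = 1 := by
      apply FiniteField.odd_card_of_char_ne_two
      intro hchar
      apply h2
      have := ringChar.Nat.cast_ringChar (R := F)
      rw [hchar] at this
      exact_mod_cast this
    obtain ⟨a, b, hab⟩ := FiniteField.exists_root_sum_quadratic
      (f := Polynomial.C (Q x) * Polynomial.X ^ 2)
      (g := Polynomial.C (Q u) * Polynomial.X ^ 2 - Polynomial.C c)
      (Polynomial.degree_C_mul_X_pow 2 hQx)
      (by
        rw [Polynomial.degree_sub_C (by rw [Polynomial.degree_C_mul_X_pow 2 hQu]; norm_num),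
          Polynomial.degree_C_mul_X_pow 2 hQu]
        rfl) hodd
    simp only [Polynomial.eval_mul, Polynomial.eval_C, Polynomial.eval_pow, Polynomial.eval_X,
      Polynomial.eval_sub] at hab
    refine ⟨a • x + b • u, ?_⟩
    rw [Q_add, Q_smul, Q_smul, map_smul, map_smul, LinearMap.smul_apply, hu]
    simp only [smul_eq_mul, mul_zero, add_zero]
    linear_combination hab

/-- The pointwise stabiliser of a hyperplane in an anisotropic space has order two. -/
theorem card_PS_hyperplane [FiniteDimensional F V] (hQ : (pol Q).Nondegenerate)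
    (han : ∀ v, Q v = 0 → v = 0) (W : Submodule F V)
    (hW : Module.finrank F W + 1 = Module.finrank F V) : Nat.card (PSOf (bet Q) W) = 2 := by
  have h1 : Module.finrank F (LinearMap.BilinForm.orthogonal (pol Q) W) = 1 := by
    rw [LinearMap.BilinForm.finrank_orthogonal hQ W]; omega
  obtain ⟨⟨u, huW⟩, hu0, hspan⟩ := finrank_eq_one_iff'.mp h1
  have hu0' : u ≠ 0 := fun h => hu0 (Subtype.ext h)
  have hQu : Q u ≠ 0 := fun h => hu0' (han u h)
  rw [LinearMap.BilinForm.mem_orthogonal_iff] at huW
  have huW' : ∀ z ∈ W, pol Q z u = 0 := huW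
  have hne : W ≠ ⊤ := by
    intro h
    rw [h, finrank_top] at hW
    omega
  obtain ⟨x, -, hx⟩ := SetLike.exists_of_lt (lt_top_iff_ne_top.mpr hne)
  have hsup : W ⊔ Submodule.span F {x} = ⊤ := by
    apply Submodule.eq_top_of_finrank_eq
    rw [Submodule.finrank_sup_span_singleton hx, hW]
  have hxu : pol Q x u ≠ 0 := by
    intro h
    apply hu0'
    apply hQ.1
    intro v
    have hv : v ∈ W ⊔ Submodule.span F {x} := by rw [hsup]; exact Submodule.mem_top
    obtain ⟨w, hw, y, hy, rfl⟩ := Submodule.mem_sup.mp hv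
    obtain ⟨a, rfl⟩ := Submodule.mem_span_singleton.mp hy
    rw [pol_comm, map_add, LinearMap.add_apply, huW' w hw, map_smul, LinearMap.smul_apply, h]
    simp
  rw [card_PS_step hQ W hx, hsup, PSOf_top, Subgroup.card_bot, mul_one, Nat.card_eq_two_iff]
  set c := pol Q x u / Q u with hc
  have hc0 : c ≠ 0 := div_ne_zero hxu hQu
  have hcQ : c * Q u = pol Q x u := div_mul_cancel₀ _ hQu
  refine ⟨⟨x, hx, fun _ _ => rfl, rfl⟩, ⟨x - c • u, ?_, ?_, ?_⟩, ?_, ?_⟩
  · intro h
    have := huW' _ h
    rw [map_sub, LinearMap.sub_apply, map_smul, LinearMap.smul_apply, pol_self, smul_eq_mul] at this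
    apply hxu
    linear_combination -this - 2 * hcQ
  · intro z hz
    rw [map_sub, map_smul, huW' z hz]; simp
  · rw [Q_sub, Q_smul, map_smul, smul_eq_mul]
    linear_combination c * hcQ
  · intro h
    have := congrArg Subtype.val h
    simp only at this
    have h2 : c • u = 0 := by
      have h3 : x - (x - c • u) = c • u := by abel
      rw [← h3, ← this, sub_self]
    exact (smul_ne_zero hc0 hu0') h2
  · rw [Set.eq_univ_iff_forall]
    rintro ⟨y, hy1, hy2, hy3⟩
    have hmem : y - x ∈ LinearMap.BilinForm.orthogonal (pol Q) W := by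
      rw [LinearMap.BilinForm.mem_orthogonal_iff]
      intro z hz
      change pol Q z (y - x) = 0
      rw [map_sub, hy2 z hz, sub_self]
    obtain ⟨t, ht⟩ := hspan ⟨y - x, hmem⟩
    have ht' : t • u = y - x := congrArg Subtype.val ht
    have hy : y = x + t • u := by rw [ht']; abel
    rw [hy, Q_add, Q_smul, map_smul, smul_eq_mul] at hy3
    have h4 : t * (t + c) = 0 := by
      have : t * (t + c) * Q u = 0 := by linear_combination hy3 + t * hcQ
      exact (mul_eq_zero.mp this).resolve_right hQu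
    rcases mul_eq_zero.mp h4 with h5 | h5
    · left
      apply Subtype.ext
      change y = x
      rw [hy, h5]; simp
    · right
      apply Subtype.ext
      change y = x - c • u
      rw [hy, eq_neg_of_add_eq_zero_left h5]; module

theorem card_IsomOf_dim_zero [FiniteDimensional F V] (hd : Module.finrank F V = 0) :
    Nat.card (IsomOf (F := F) (bet Q)) = 1 := by
  have : (⊥ : Submodule F V) = ⊤ := by
    have : Subsingleton V := Module.finrank_zero_iff.mp hd
    exact Subsingleton.elim _ _
  rw [← PSOf_bot, this, PSOf_top, Subgroup.card_bot]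

theorem card_IsomOf_dim_one [FiniteDimensional F V] (hQ : (pol Q).Nondegenerate)
    (han : ∀ v, Q v = 0 → v = 0) (hd : Module.finrank F V = 1) :
    Nat.card (IsomOf (F := F) (bet Q)) = 2 := by
  rw [← PSOf_bot]
  exact card_PS_hyperplane hQ han ⊥ (by rw [finrank_bot, hd])

theorem card_IsomOf_dim_two [Finite F] [FiniteDimensional F V] (hQ : (pol Q).Nondegenerate)
    (han : ∀ v, Q v = 0 → v = 0) (hd : Module.finrank F V = 2) :
    Nat.card (IsomOf (F := F) (bet Q)) = 2 * (Nat.card F + 1) := by
  have : Finite V := Module.finite_of_finite F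
  set G := Nat.card (IsomOf (F := F) (bet Q)) with hG
  have hfib : ∀ c : {c : F // c ≠ 0}, Nat.card {a : {v : V // v ≠ 0} // Q a.1 = c.1} * 2 = G := by
    intro c
    obtain ⟨x, hx⟩ := universal hQ (by omega) c.1
    have hx0 : x ≠ 0 := by
      rintro rfl
      rw [map_zero] at hx
      exact c.2 hx.symm
    have hxb : x ∉ (⊥ : Submodule F V) := fun h => hx0 ((Submodule.mem_bot F).mp h)
    rw [hG, ← PSOf_bot, card_PS_step hQ ⊥ hxb, card_PS_hyperplane hQ han (⊥ ⊔ Submodule.span F {x})
      (by rw [bot_sup_eq, finrank_span_singleton hx0, hd])]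
    congr 1
    refine Nat.card_congr ⟨fun a => ⟨a.1.1, fun h => a.1.2 ((Submodule.mem_bot F).mp h),
      fun z hz => by rw [(Submodule.mem_bot F).mp hz]; simp, by rw [hx]; exact a.2⟩,
      fun y => ⟨⟨y.1, fun h => y.2.1 ((Submodule.mem_bot F).mpr h)⟩, by rw [← hx]; exact y.2.2.2⟩,
      fun _ => rfl, fun _ => rfl⟩
  have hfib' : ∀ c : {c : F // c ≠ 0}, Nat.card {a : {v : V // v ≠ 0} // Q a.1 = c.1} = G / 2 := by
    intro c
    rw [← hfib c, Nat.mul_div_cancel _ (by norm_num)]
  have h := card_mul_eq_card_mul_of_fibres (A := {v : V // v ≠ 0}) (C := {c : F // c ≠ 0})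
    (fun a c => Q a.1 = c.1) 1 (G / 2) (fun a => by
      have : Unique {c : {c : F // c ≠ 0} // Q a.1 = c.1} :=
        ⟨⟨⟨⟨Q a.1, fun h => a.2 (han _ h)⟩, rfl⟩⟩, fun c => Subtype.ext (Subtype.ext c.2.symm)⟩
      exact Nat.card_unique) hfib'
  have hcV : Nat.card {v : V // v ≠ 0} = Nat.card F ^ 2 - 1 := by
    have e1 : {v : V // v ≠ 0} ≃ ↑((Set.univ : Set V) \ {0}) :=
      Equiv.subtypeEquivRight fun y => by simp
    rw [Nat.card_congr e1, Nat.card_coe_set_eq, Set.ncard_sdiff_singleton_of_mem (by simp),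
      Set.ncard_univ, Module.natCard_eq_pow_finrank (K := F), hd]
  have hcF : Nat.card {c : F // c ≠ 0} = Nat.card F - 1 := by
    have e1 : {v : F // v ≠ 0} ≃ ↑((Set.univ : Set F) \ {0}) :=
      Equiv.subtypeEquivRight fun y => by simp
    rw [Nat.card_congr e1, Nat.card_coe_set_eq, Set.ncard_sdiff_singleton_of_mem (by simp),
      Set.ncard_univ]
  rw [hcV, hcF, mul_one] at h
  have hq : 2 ≤ Nat.card F := Finite.one_lt_card
  have h2 : Nat.card F ^ 2 - 1 = (Nat.card F - 1) * (Nat.card F + 1) := by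
    obtain ⟨k, hk⟩ : ∃ k, Nat.card F = k + 1 := ⟨Nat.card F - 1, by omega⟩
    rw [hk, Nat.add_sub_cancel]
    have : (k + 1) ^ 2 = k * (k + 1 + 1) + 1 := by ring
    rw [this, Nat.add_sub_cancel]
  rw [h2] at h
  have h3 : Nat.card F + 1 = G / 2 := Nat.eq_of_mul_eq_mul_left (by omega) h
  have h4 := hfib ⟨1, one_ne_zero⟩
  rw [hfib'] at h4
  rw [← h4, ← h3, mul_comm]

/-- The number of singular vectors of `k` hyperbolic planes plus an anisotropic space of
dimension `d`. -/
def zc (q k d : ℕ) : ℕ := q ^ k + (q ^ k - 1) * q ^ (k + d - 1)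

theorem zc_zero (q d : ℕ) : zc q 0 d = 1 := by simp [zc]

theorem zc_succ_eq (q k d : ℕ) (hq : 1 ≤ q) :
    zc q (k + 1) d = (q ^ (k + 1) - 1) * (q ^ (k + d) + 1) + 1 := by
  have h1 : 1 ≤ q ^ (k + 1) := Nat.one_le_pow _ _ hq
  have e : k + 1 + d - 1 = k + d := by omega
  rw [zc, e, mul_add, mul_one]
  omega

theorem zc_succ (q k d : ℕ) (hq : 1 ≤ q) :
    zc q (k + 1) d = q * zc q k d + (q - 1) * q ^ (2 * k + d) := by
  rw [zc_succ_eq q k d hq]
  rcases k with _ | j
  · rw [zc_zero]
    simp only [zero_add, pow_one, mul_zero, mul_one, mul_add]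
    omega
  · rw [zc_succ_eq q j d hq]
    have h1 : 1 ≤ q ^ (j + 1) := Nat.one_le_pow _ _ hq
    have h2 : 1 ≤ q ^ (j + 1 + 1) := Nat.one_le_pow _ _ hq
    zify [h1, h2, hq]
    ring

theorem card_IsomOf_of_zeros [Finite F] (d A : ℕ)
    (hbase : ∀ (V : Type v) [AddCommGroup V] [Module F V] [FiniteDimensional F V]
      (Q : QuadraticForm F V), (pol Q).Nondegenerate → Module.finrank F V = d →
      (∀ v, Q v = 0 → v = 0) → Nat.card (IsomOf (F := F) (bet Q)) = A) :
    ∀ (k : ℕ) (V : Type v) [AddCommGroup V] [Module F V] [FiniteDimensional F V]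
      (Q : QuadraticForm F V), (pol Q).Nondegenerate → Module.finrank F V = 2 * k + d →
      Nat.card {v : V // Q v = 0} = zc (Nat.card F) k d →
      Nat.card (IsomOf (F := F) (bet Q)) = A * ∏ j ∈ Finset.range k,
        ((Nat.card F ^ (j + 1) - 1) * (Nat.card F ^ (j + d) + 1) * Nat.card F ^ (2 * j + d)) := by
  have hq : 2 ≤ Nat.card F := Finite.one_lt_card
  intro k
  induction k with
  | zero =>
    intro V _ _ _ Q hQ hd hZ
    have : Finite V := Module.finite_of_finite F
    rw [Finset.range_zero, Finset.prod_empty, mul_one]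
    apply hbase V Q hQ (by omega)
    intro v hv
    rw [zc_zero] at hZ
    have hs : Subsingleton {v : V // Q v = 0} := (Nat.card_eq_one_iff_unique.mp hZ).1
    exact congrArg Subtype.val (Subsingleton.elim (⟨v, hv⟩ : {v : V // Q v = 0}) ⟨0, map_zero _⟩)
  | succ k ih =>
    intro V _ _ _ Q hQ hd hZ
    have : Finite V := Module.finite_of_finite F
    obtain ⟨e, he, hQe⟩ : ∃ e : V, e ≠ 0 ∧ Q e = 0 := by
      by_contra hcon
      push Not at hcon
      have : Unique {v : V // Q v = 0} := ⟨⟨⟨0, map_zero _⟩⟩, fun v => Subtype.ext (by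
        by_contra h0
        exact hcon v.1 h0 v.2)⟩
      rw [Nat.card_unique, zc_succ_eq _ _ _ (by omega)] at hZ
      have h1 : 2 ≤ Nat.card F ^ (k + 1) :=
        le_trans hq (Nat.le_self_pow (by omega) _)
      have h2 : 0 < (Nat.card F ^ (k + 1) - 1) * (Nat.card F ^ (k + d) + 1) :=
        Nat.mul_pos (by omega) (by omega)
      omega
    obtain ⟨f, hQf, hef⟩ := exists_hyp_partner hQ he hQe
    have h : HypPair Q e f := ⟨hQe, hQf, hef⟩
    have hfr : Module.finrank F (compl Q e f) = 2 * k + d := by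
      have := h.finrank_eq
      omega
    have hcP : Nat.card (compl Q e f) = Nat.card F ^ (2 * k + d) := by
      rw [Module.natCard_eq_pow_finrank (K := F), hfr]
    have hZP : Nat.card {p : compl Q e f // resQ Q (compl Q e f) p = 0} =
        zc (Nat.card F) k d := by
      have h1 := h.card_zeros
      rw [hZ, zc_succ _ _ _ (by omega), hcP] at h1
      exact (Nat.eq_of_mul_eq_mul_left (by omega) (Nat.add_right_cancel h1)).symm
    rw [h.card_IsomOf hQ, ih (compl Q e f) (resQ Q (compl Q e f)) (h.nondeg_compl hQ) hfr hZP, hZ,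
      hcP, zc_succ_eq _ _ _ (by omega), Nat.add_sub_cancel, Finset.prod_range_succ]
    ring

/-- The matrix isometry group as `IsomOf`. -/
noncomputable def isometryGroupEquiv {ι : Type} [Fintype ι] [DecidableEq ι]
    (Q : QuadraticForm F (ι → F)) (Qf : (ι → F) → F) (hQf : ∀ v, Q v = Qf v) :
    Cfsg.isometryGroup F Qf ≃* IsomOf (F := F) (bet Q) where
  toFun g := ⟨glEquivLin ι F g.1, mem_IsomOf_iff.mpr fun v => by
    rw [hQf, hQf]
    exact g.2 v v⟩
  invFun g := ⟨(glEquivLin ι F).symm g.1, fun u _ => by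
    have := mem_IsomOf_iff.mp g.2 u
    change Qf ((((glEquivLin ι F).symm g.1 : Matrix.GeneralLinearGroup ι F) :
        Matrix ι ι F).mulVec u) = Qf u
    rw [← glEquivLin_apply, MulEquiv.apply_symm_apply, ← hQf, ← hQf]
    exact this⟩
  left_inv g := by
    apply Subtype.ext
    exact (glEquivLin ι F).symm_apply_apply g.1
  right_inv g := by
    apply Subtype.ext
    exact (glEquivLin ι F).apply_symm_apply g.1
  map_mul' a b := by
    apply Subtype.ext
    exact map_mul (glEquivLin ι F) a.1 b.1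

theorem isometryGroupEquiv_apply {ι : Type} [Fintype ι] [DecidableEq ι]
    (Q : QuadraticForm F (ι → F)) (Qf : (ι → F) → F) (hQf : ∀ v, Q v = Qf v)
    (g : Cfsg.isometryGroup F Qf) (v : ι → F) : (isometryGroupEquiv Q Qf hQf g).1 v =
      ((g : Matrix.GeneralLinearGroup ι F) : Matrix ι ι F).mulVec v := rfl

end Cfsg.Agent.H6.Quad
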