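import Cfsg.Agent.Lib_helper6_QuadRefl
import Cfsg.Agent.Lib_helper6_QuadOrder
import Cfsg.Prelude.Def_ClassicalGeometry

/-! Reflection and Siegel matrices. -/

set_option autoImplicit false

namespace Cfsg.Agent.H6.Quad

open Matrix

variable {F : Type*} [Field F] {ι : Type} [Fintype ι] [DecidableEq ι]
variable (Q : QuadraticForm F (ι → F))

theorem polarVec_dotProduct (v x : ι → F) : Cfsg.polarVec ⇑Q v ⬝ᵥ x = pol Q v x := by
  rw [LinearMap.pi_apply_eq_sum_univ (pol Q v) x, dotProduct]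
  refine Finset.sum_congr rfl fun i _ => ?_
  rw [smul_eq_mul, mul_comm, Cfsg.polarVec, QuadraticMap.polarBilin_apply_apply]
  congr 2
  ext j
  simp [Pi.single_apply, eq_comm]

theorem reflectionMatrix_mulVec (v x : ι → F) :
    Cfsg.reflectionMatrix ⇑Q v *ᵥ x = x - (pol Q x v / Q v) • v := by
  rw [Cfsg.reflectionMatrix, sub_mulVec, one_mulVec, smul_mulVec, vecMulVec_mulVec,
    polarVec_dotProduct, pol_comm]
  ext i
  simp only [Pi.sub_apply, Pi.smul_apply, smul_eq_mul, MulOpposite.smul_eq_mul_unop,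
    MulOpposite.unop_op]
  ring

theorem siegelMatrix_mulVec (u v : ι → F) (c : F) (x : ι → F) :
    Cfsg.siegelMatrix ⇑Q u v c *ᵥ x = x + c • (pol Q u x • v - pol Q v x • u) := by
  rw [Cfsg.siegelMatrix, add_mulVec, one_mulVec, smul_mulVec, sub_mulVec, vecMulVec_mulVec,
    vecMulVec_mulVec, polarVec_dotProduct, polarVec_dotProduct]
  ext i
  simp only [Pi.add_apply, Pi.sub_apply, Pi.smul_apply, smul_eq_mul, MulOpposite.smul_eq_mul_unop,
    MulOpposite.unop_op]
  ring

theorem det_reflectionMatrix (v : ι → F) (hv : Q v ≠ 0) :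
    (Cfsg.reflectionMatrix ⇑Q v).det = -1 := by
  have : Cfsg.reflectionMatrix ⇑Q v =
      1 + replicateCol Unit (-(Q v)⁻¹ • v) * replicateRow Unit (Cfsg.polarVec ⇑Q v) := by
    rw [Cfsg.reflectionMatrix, ← vecMulVec_eq, sub_eq_add_neg]
    congr 1
    ext i j
    simp [vecMulVec_apply, mul_assoc]
  rw [this, det_one_add_replicateCol_mul_replicateRow, dotProduct_smul, polarVec_dotProduct,
    pol_self, smul_eq_mul]
  field_simp
  ring

theorem det_mul_det_eq_one {Q : QuadraticForm F (ι → F)} (hQ : (pol Q).Nondegenerate)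
    (G : Matrix ι ι F) (hG : ∀ v, Q (G *ᵥ v) = Q v) : G.det * G.det = 1 := by
  set M := LinearMap.BilinForm.toMatrix' (pol Q) with hM
  have hMdet : M.det ≠ 0 :=
    Matrix.nondegenerate_iff_det_ne_zero.mp (LinearMap.BilinForm.nondegenerate_toMatrix'_iff.mpr hQ)
  have hcomp : (pol Q).comp (Matrix.toLin' G) (Matrix.toLin' G) = pol Q := by
    ext x y
    exact pol_map (T := Matrix.toLin' G) (fun v => by rw [Matrix.toLin'_apply]; exact hG v) _ _
  have h1 := LinearMap.BilinForm.toMatrix'_comp (pol Q) (Matrix.toLin' G) (Matrix.toLin' G)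
  rw [hcomp, LinearMap.toMatrix'_toLin', ← hM] at h1
  have h2 := congrArg Matrix.det h1
  rw [Matrix.det_mul, Matrix.det_mul, Matrix.det_transpose] at h2
  have h3 : M.det * (G.det * G.det) = M.det * 1 := by linear_combination -h2
  exact mul_left_cancel₀ hMdet h3

/-- The reflection as an element of the matrix isometry group. -/
noncomputable def reflElt (v : ι → F) (hv : Q v ≠ 0) : Cfsg.isometryGroup F ⇑Q :=
  ⟨Matrix.GeneralLinearGroup.mkOfDetNeZero (Cfsg.reflectionMatrix ⇑Q v) (by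
    rw [det_reflectionMatrix Q v hv]; exact neg_ne_zero.mpr one_ne_zero), fun x _ => by
    change Q (Cfsg.reflectionMatrix ⇑Q v *ᵥ x) = Q x
    rw [reflectionMatrix_mulVec, Q_sub, Q_smul, map_smul, smul_eq_mul]
    field_simp
    ring⟩

theorem reflElt_val (v : ι → F) (hv : Q v ≠ 0) :
    ((reflElt Q v hv : Matrix.GeneralLinearGroup ι F) : Matrix ι ι F) =
      Cfsg.reflectionMatrix ⇑Q v := rfl

/-- The abstract reflection group pulled back to matrices. -/
theorem mem_of_ReflGrp {Q : QuadraticForm F (ι → F)} (C : Subgroup (Cfsg.isometryGroup F ⇑Q))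
    (hC : ∀ v (hv : Q v ≠ 0), reflElt Q v hv ∈ C) (x : Cfsg.isometryGroup F ⇑Q)
    (hx : (isometryGroupEquiv Q ⇑Q (fun _ => rfl) x).1 ∈ ReflGrp Q) : x ∈ C := by
  set e := isometryGroupEquiv Q ⇑Q (fun _ => rfl) with he
  set K : Subgroup ((ι → F) ≃ₗ[F] (ι → F)) :=
    (C.map e.toMonoidHom).map (IsomOf (F := F) (bet Q)).subtype with hK
  have hle : ReflGrp Q ≤ K := by
    rw [ReflGrp, Subgroup.closure_le]
    rintro g ⟨u, hu, hg⟩
    refine ⟨e (reflElt Q u hu), ⟨_, hC u hu, rfl⟩, ?_⟩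
    ext1 v
    rw [hg]
    exact reflectionMatrix_mulVec Q u v
  obtain ⟨y, ⟨c, hc, rfl⟩, hy⟩ := hle hx
  have : c = x := e.injective (Subtype.ext hy)
  rw [← this]
  exact hc

end Cfsg.Agent.H6.Quad
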