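import Cfsg.Agent.Lib_helper6_Spinor
import Cfsg.Agent.Lib_helper6_QuadMat

/-! Consequences of the sign characters: index of the commutator subgroup, spinor norm criterion. -/

set_option autoImplicit false

namespace Cfsg.Agent.H6

theorem map_commutator_equiv {G G' : Type*} [Group G] [Group G'] (e : G ≃* G') :
    (commutator G).map e.toMonoidHom = commutator G' := by
  rw [commutator_def, Subgroup.map_commutator, commutator_def,
    Subgroup.map_top_of_surjective _ e.surjective]

theorem mem_commutator_equiv {G G' : Type*} [Group G] [Group G'] (e : G ≃* G') (g : G) :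
    g ∈ commutator G ↔ e g ∈ commutator G' := by
  rw [← map_commutator_equiv e]
  constructor
  · intro h
    exact ⟨g, h, rfl⟩
  · rintro ⟨x, hx, hxg⟩
    have : x = g := e.injective hxg
    rw [← this]; exact hx

theorem index_commutator_equiv {G G' : Type*} [Group G] [Group G'] (e : G ≃* G') :
    (commutator G).index = (commutator G').index := by
  rw [← map_commutator_equiv e]
  exact (Subgroup.index_map_equiv _ e).symm

namespace Quad

variable {F V : Type*} [Field F] [AddCommGroup V] [Module F V] {Q : QuadraticForm F V}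
variable [FiniteDimensional F V]

theorem index_commutator [Finite F] (h2 : (2 : F) ≠ 0) (hQ : (pol Q).Nondegenerate)
    (hd : 2 ≤ Module.finrank F V) : (commutator (IsomOf (F := F) (bet Q))).index = 4 := by
  classical
  have := Fintype.ofFinite F
  obtain ⟨α, hα⟩ := FiniteField.exists_nonsquare (F := F) (by
    intro hchar
    apply h2
    have := ringChar.Nat.cast_ringChar (R := F)
    rw [hchar] at this
    exact_mod_cast this)
  have hα0 : α ≠ 0 := fun h => hα (h ▸ IsSquare.zero)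
  set Θ : IsomOf (F := F) (bet Q) →* ℤˣ × ℤˣ := (chi Q 1).prod (chi Q α) with hΘ
  have hker : Θ.ker = commutator (IsomOf (F := F) (bet Q)) := by
    ext g
    rw [mem_commutator_iff h2 hQ hd hα, MonoidHom.mem_ker, hΘ, MonoidHom.prod_apply,
      Prod.mk_eq_one]
  obtain ⟨v1, hv1⟩ := universal hQ hd 1
  obtain ⟨vα, hvα⟩ := universal hQ hd α
  have hv1' : Q v1 ≠ 0 := by rw [hv1]; exact one_ne_zero
  have hvα' : Q vα ≠ 0 := by rw [hvα]; exact hα0
  obtain ⟨a1, a2⟩ := chi_Rf_of_sq h2 hQ hα v1 hv1' (by rw [hv1]; exact IsSquare.one)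
  obtain ⟨b1, b2⟩ := chi_Rf_of_not_sq h2 hQ hα vα hvα' (by rw [hvα]; exact hα)
  have hsurj : Function.Surjective Θ := by
    rintro ⟨x, y⟩
    rcases Int.units_eq_one_or x with rfl | rfl <;> rcases Int.units_eq_one_or y with rfl | rfl
    · exact ⟨1, map_one _⟩
    · exact ⟨Rf hQ vα hvα', by rw [hΘ, MonoidHom.prod_apply, b1, b2]⟩
    · exact ⟨Rf hQ v1 hv1', by rw [hΘ, MonoidHom.prod_apply, a1, a2]⟩
    · exact ⟨Rf hQ v1 hv1' * Rf hQ vα hvα', by
        rw [hΘ, MonoidHom.prod_apply, map_mul, map_mul, a1, a2, b1, b2]; rfl⟩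
  rw [← hker, Subgroup.index_ker, MonoidHom.range_eq_top.mpr hsurj]
  simp [Nat.card_eq_fintype_card]

/-- The reflection, or the identity for singular vectors. -/
noncomputable def Rf' (hQ : (pol Q).Nondegenerate) (u : V) : IsomOf (F := F) (bet Q) := by
  classical
  exact if hu : Q u ≠ 0 then Rf hQ u hu else 1

theorem Rf'_eq (hQ : (pol Q).Nondegenerate) (u : V) (hu : Q u ≠ 0) : Rf' hQ u = Rf hQ u hu := by
  rw [Rf', dif_pos hu]

theorem isSquare_mul_iff_of_sq {a b : F} (ha0 : a ≠ 0) (ha : IsSquare a) :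
    IsSquare (a * b) ↔ IsSquare b := by
  obtain ⟨s, rfl⟩ := ha
  have hs : s ≠ 0 := fun h => ha0 (by rw [h, mul_zero])
  constructor
  · rintro ⟨t, ht⟩
    exact ⟨t * s⁻¹, by
      have : b = s * s * b * (s⁻¹ * s⁻¹) := by field_simp
      rw [this, ht]; ring⟩
  · rintro ⟨t, rfl⟩
    exact ⟨s * t, by ring⟩

theorem isSquare_mul_iff_of_not_sq [Finite F] {a b : F} (ha : ¬ IsSquare a) (hb : b ≠ 0) :
    IsSquare (a * b) ↔ ¬ IsSquare b := by
  classical
  have := Fintype.ofFinite F
  have ha0 : a ≠ 0 := fun h => ha (h ▸ IsSquare.zero)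
  rw [← quadraticChar_one_iff_isSquare (mul_ne_zero ha0 hb), map_mul,
    (quadraticChar_neg_one_iff_not_isSquare).mpr ha, ← quadraticChar_neg_one_iff_not_isSquare]
  constructor
  · intro h
    linarith
  · intro h
    rw [h]; norm_num

theorem chi_prod [Finite F] (h2 : (2 : F) ≠ 0) (hQ : (pol Q).Nondegenerate) {α : F}
    (hα : ¬ IsSquare α) (vs : List V) (hvs : ∀ v ∈ vs, Q v ≠ 0) :
    (chi Q 1 (vs.map (Rf' hQ)).prod * chi Q α (vs.map (Rf' hQ)).prod = (-1) ^ vs.length) ∧
    (chi Q α (vs.map (Rf' hQ)).prod = 1 ↔ IsSquare (vs.map (fun v => Q v)).prod) := by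
  induction vs with
  | nil => simp
  | cons v vs ih =>
    obtain ⟨ih1, ih2⟩ := ih fun w hw => hvs w (List.mem_cons_of_mem _ hw)
    have hv : Q v ≠ 0 := hvs v List.mem_cons_self
    have hprod0 : (vs.map (fun v => Q v)).prod ≠ 0 := by
      rw [Ne, List.prod_eq_zero_iff]
      intro h
      obtain ⟨w, hw, hw0⟩ := List.mem_map.mp h
      exact hvs w (List.mem_cons_of_mem _ hw) hw0
    simp only [List.map_cons, List.prod_cons, map_mul, List.length_cons]
    rw [Rf'_eq hQ v hv]
    by_cases hs : IsSquare (Q v)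
    · obtain ⟨c1, c2⟩ := chi_Rf_of_sq h2 hQ hα v hv hs
      rw [c1, c2]
      refine ⟨?_, ?_⟩
      · rw [pow_succ, ← ih1]
        simp [mul_comm]
      · rw [one_mul, ih2, isSquare_mul_iff_of_sq hv hs]
    · obtain ⟨c1, c2⟩ := chi_Rf_of_not_sq h2 hQ hα v hv hs
      rw [c1, c2]
      refine ⟨?_, ?_⟩
      · rw [pow_succ, ← ih1]
        simp [mul_comm]
      · rw [isSquare_mul_iff_of_not_sq hs hprod0, ← ih2]
        rcases Int.units_eq_one_or (chi Q α (vs.map (Rf' hQ)).prod) with h | h <;> rw [h] <;> decide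

/-- The spinor norm criterion. -/
theorem prod_mem_commutator_iff [Finite F] (h2 : (2 : F) ≠ 0) (hQ : (pol Q).Nondegenerate)
    (hd : 2 ≤ Module.finrank F V) (vs : List V) (hvs : ∀ v ∈ vs, Q v ≠ 0) :
    (vs.map (Rf' hQ)).prod ∈ commutator (IsomOf (F := F) (bet Q)) ↔
      Even vs.length ∧ IsSquare (vs.map (fun v => Q v)).prod := by
  classical
  have := Fintype.ofFinite F
  obtain ⟨α, hα⟩ := FiniteField.exists_nonsquare (F := F) (by
    intro hchar
    apply h2
    have := ringChar.Nat.cast_ringChar (R := F)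
    rw [hchar] at this
    exact_mod_cast this)
  obtain ⟨h1, h3⟩ := chi_prod h2 hQ hα vs hvs
  rw [mem_commutator_iff h2 hQ hd hα, ← h3, ← neg_one_pow_eq_one_iff_even (R := ℤˣ) (by decide),
    ← h1]
  constructor
  · rintro ⟨a, b⟩
    rw [a, b]; simp
  · rintro ⟨a, b⟩
    rw [b, mul_one] at a
    exact ⟨a, b⟩

end Quad

end Cfsg.Agent.H6
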