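import Cfsg.Agent.Lib_helper6_Parity
import Cfsg.Agent.Lib_helper6_Spinor2
import Cfsg.Agent.Lib_helper6_QuadStd

/-! The Dickson invariant, in every characteristic. -/

set_option autoImplicit false

namespace Cfsg.Agent.H6.Quad

variable {F V : Type*} [Field F] [AddCommGroup V] [Module F V] [FiniteDimensional F V]
  {Q : QuadraticForm F V}

/-- The reflections generate the isometry group. -/
theorem closure_Rf [Finite F] (hQ : (pol Q).Nondegenerate)
    (hex : Nat.card F ≠ 2 ∨ Module.finrank F V ≠ 4) :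
    Subgroup.closure {g : IsomOf (F := F) (bet Q) | ∃ u hu, g = Rf hQ u hu} = ⊤ := by
  rw [eq_top_iff]
  intro x _
  have hx : x.1 ∈ ReflGrp Q := by rw [ReflGrp_eq hQ hex]; exact x.2
  have himg : {g | IsRefl Q g} =
      (IsomOf (F := F) (bet Q)).subtype '' {g : IsomOf (F := F) (bet Q) | ∃ u hu, g = Rf hQ u hu} := by
    ext g
    constructor
    · rintro ⟨u, hu, hg⟩
      refine ⟨Rf hQ u hu, ⟨u, hu, rfl⟩, ?_⟩
      ext v
      rw [hg]
      exact Rf_apply hQ u hu v
    · rintro ⟨_, ⟨u, hu, rfl⟩, rfl⟩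
      exact ⟨u, hu, Rf_apply hQ u hu⟩
  rw [ReflGrp, himg, ← MonoidHom.map_closure] at hx
  obtain ⟨y, hy, hyx⟩ := hx
  have : y = x := Subtype.ext hyx
  rw [← this]
  exact hy

theorem hom_ext_of_Rf [Finite F] (hQ : (pol Q).Nondegenerate)
    (hex : Nat.card F ≠ 2 ∨ Module.finrank F V ≠ 4) {N : Type*} [Monoid N]
    {φ ψ : IsomOf (F := F) (bet Q) →* N} (h : ∀ u hu, φ (Rf hQ u hu) = ψ (Rf hQ u hu)) : φ = ψ := by
  apply MonoidHom.eq_of_eqOn_dense (closure_Rf hQ hex)
  rintro _ ⟨u, hu, rfl⟩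
  exact h u hu

theorem finrank_map_isom (g : V ≃ₗ[F] V) (U : Submodule F V) :
    Module.finrank F (U.map (g : V →ₗ[F] V)) = Module.finrank F U :=
  LinearEquiv.finrank_map_eq g U

theorem singular_map {g : V ≃ₗ[F] V} (hg : g ∈ IsomOf (F := F) (bet Q)) {U : Submodule F V}
    (hU : ∀ u ∈ U, Q u = 0) : ∀ u ∈ U.map (g : V →ₗ[F] V), Q u = 0 := by
  rintro _ ⟨u, hu, rfl⟩
  change Q (g u) = 0
  rw [mem_IsomOf_iff.mp hg, hU u hu]

theorem neg_one_pow_eq_mul {a b c : ℕ} (h : Even (a + b + c)) :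
    ((-1 : ℤˣ)) ^ c = (-1) ^ a * (-1) ^ b := by
  have h1 : ((-1 : ℤˣ)) ^ (a + b + c) = 1 := h.neg_one_pow
  rw [pow_add] at h1
  have h2 : ((-1 : ℤˣ)) ^ c * (-1) ^ c = 1 := by
    rw [← pow_add, ← two_mul, pow_mul]; simp
  calc ((-1 : ℤˣ)) ^ c = ((-1) ^ (a + b) * (-1) ^ c) * (-1) ^ c := by rw [h1, one_mul]
    _ = (-1) ^ a * (-1) ^ b := by rw [mul_assoc, h2, mul_one, pow_add]

/-- The class character attached to a maximal totally singular subspace of half the dimension. -/
noncomputable def lagHom (hQ : (pol Q).Nondegenerate) {m : ℕ} (hV : Module.finrank F V = 2 * m)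
    (U : Submodule F V) (hUm : Module.finrank F U = m) (hU : ∀ u ∈ U, Q u = 0) :
    IsomOf (F := F) (bet Q) →* ℤˣ where
  toFun g := (-1) ^ (m - Module.finrank F ↥(U ⊓ U.map (g.1 : V →ₗ[F] V)))
  map_one' := by
    have : U ⊓ U.map (((1 : IsomOf (F := F) (bet Q)).1 : V ≃ₗ[F] V) : V →ₗ[F] V) = U := by
      have : (((1 : IsomOf (F := F) (bet Q)).1 : V ≃ₗ[F] V) : V →ₗ[F] V) = LinearMap.id := rfl
      rw [this, Submodule.map_id, inf_idem]
    rw [this, hUm]; simp
  map_mul' g h := by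
    have e1 : U.map ((g * h).1 : V →ₗ[F] V) = (U.map (h.1 : V →ₗ[F] V)).map (g.1 : V →ₗ[F] V) := by
      rw [← Submodule.map_comp]; rfl
    have e2 : U.map (g.1 : V →ₗ[F] V) ⊓ U.map ((g * h).1 : V →ₗ[F] V) =
        (U ⊓ U.map (h.1 : V →ₗ[F] V)).map (g.1 : V →ₗ[F] V) := by
      rw [e1, Submodule.map_inf _ g.1.injective]
    have := parity hQ hV hUm hU (W := U.map (g.1 : V →ₗ[F] V)) (X := U.map ((g * h).1 : V →ₗ[F] V))
      (by rw [finrank_map_isom, hUm]) (singular_map g.2 hU)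
      (by rw [finrank_map_isom, hUm]) (singular_map (g * h).2 hU)
    rw [e2, finrank_map_isom] at this
    exact neg_one_pow_eq_mul this

theorem lagHom_apply (hQ : (pol Q).Nondegenerate) {m : ℕ} (hV : Module.finrank F V = 2 * m)
    (U : Submodule F V) (hUm : Module.finrank F U = m) (hU : ∀ u ∈ U, Q u = 0)
    (g : IsomOf (F := F) (bet Q)) : lagHom hQ hV U hUm hU g =
      (-1) ^ (m - Module.finrank F ↥(U ⊓ U.map (g.1 : V →ₗ[F] V))) := rfl

theorem finrank_inf_map_Rf (hQ : (pol Q).Nondegenerate) {m : ℕ} (hV : Module.finrank F V = 2 * m)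
    (U : Submodule F V) (hUm : Module.finrank F U = m) (hU : ∀ u ∈ U, Q u = 0) (u : V)
    (hu : Q u ≠ 0) :
    Module.finrank F ↥(U ⊓ U.map ((Rf hQ u hu).1 : V →ₗ[F] V)) + 1 = m := by
  set f : Module.Dual F U := ((pol Q).flip u).comp U.subtype with hf
  have hfapp : ∀ x : U, f x = pol Q x u := fun x => rfl
  have huU : u ∉ U := fun h => hu (hU u h)
  have hf0 : f ≠ 0 := by
    intro h0
    apply huU
    rw [← orthogonal_eq_self hQ hV hUm hU, LinearMap.BilinForm.mem_orthogonal_iff]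
    intro x hx
    have := hfapp ⟨x, hx⟩
    rw [h0] at this
    exact this.symm
  have hker : (LinearMap.ker f).map U.subtype = U ⊓ U.map ((Rf hQ u hu).1 : V →ₗ[F] V) := by
    apply le_antisymm
    · rintro _ ⟨x, hx, rfl⟩
      refine ⟨x.2, ⟨x, x.2, ?_⟩⟩
      change (Rf hQ u hu).1 x = _
      have : pol Q x u = 0 := by rw [← hfapp]; exact hx
      rw [Rf_apply, this]; simp
    · rintro x ⟨hx, ⟨y, hy, hyx⟩⟩
      change (Rf hQ u hu).1 y = x at hyx
      rw [Rf_apply] at hyx
      have hc : pol Q y u = 0 := by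
        by_contra hc
        apply huU
        have hc' : pol Q y u / Q u ≠ 0 := div_ne_zero hc hu
        have : u = (pol Q y u / Q u)⁻¹ • (y - x) := by
          rw [← hyx, sub_sub_cancel, smul_smul, inv_mul_cancel₀ hc', one_smul]
        rw [this]
        exact U.smul_mem _ (U.sub_mem hy hx)
      rw [hc] at hyx
      simp at hyx
      refine ⟨⟨y, hy⟩, ?_, hyx⟩
      rw [SetLike.mem_coe, LinearMap.mem_ker, hfapp]
      exact hc
  rw [← hker, Submodule.finrank_map_subtype_eq, Module.Dual.finrank_ker_add_one_of_ne_zero hf0, hUm]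

theorem lagHom_Rf (hQ : (pol Q).Nondegenerate) {m : ℕ} (hV : Module.finrank F V = 2 * m)
    (U : Submodule F V) (hUm : Module.finrank F U = m) (hU : ∀ u ∈ U, Q u = 0) (u : V)
    (hu : Q u ≠ 0) : lagHom hQ hV U hUm hU (Rf hQ u hu) = -1 := by
  rw [lagHom_apply]
  have := finrank_inf_map_Rf hQ hV U hUm hU u hu
  have e : m - Module.finrank F ↥(U ⊓ U.map ((Rf hQ u hu).1 : V →ₗ[F] V)) = 1 := by omega
  rw [e, pow_one]

/-- The form `Q ⊥ -Q`. -/
noncomputable def dbl (Q : QuadraticForm F V) : QuadraticForm F (V × V) :=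
  Q.comp (LinearMap.fst F V V) - Q.comp (LinearMap.snd F V V)

theorem dbl_apply (x : V × V) : dbl Q x = Q x.1 - Q x.2 := rfl

theorem pol_dbl (x y : V × V) : pol (dbl Q) x y = pol Q x.1 y.1 - pol Q x.2 y.2 := by
  simp only [pol, QuadraticMap.polarBilin_apply_apply, QuadraticMap.polar, dbl_apply, Prod.fst_add,
    Prod.snd_add]
  ring

theorem nondeg_dbl (hQ : (pol Q).Nondegenerate) : (pol (dbl Q)).Nondegenerate := by
  apply nondeg_of_left
  intro v hv
  have a1 : v.1 = 0 := by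
    apply hQ.1
    intro y
    have := hv (y, 0)
    rw [pol_dbl] at this
    simpa using this
  have a2 : v.2 = 0 := by
    apply hQ.1
    intro y
    have := hv (0, y)
    rw [pol_dbl] at this
    simpa using this
  exact Prod.ext a1 a2

/-- `g ↦ 1 × g`. -/
def dblHom (Q : QuadraticForm F V) :
    IsomOf (F := F) (bet Q) →* IsomOf (F := F) (bet (dbl Q)) where
  toFun g := ⟨LinearEquiv.prodCongr (LinearEquiv.refl F V) g.1, mem_IsomOf_iff.mpr fun v => by
    rw [dbl_apply, dbl_apply]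
    change Q v.1 - Q (g.1 v.2) = _
    rw [mem_IsomOf_iff.mp g.2]⟩
  map_one' := by
    apply Subtype.ext
    ext v <;> rfl
  map_mul' g h := by
    apply Subtype.ext
    ext v <;> rfl

theorem dblHom_apply (g : IsomOf (F := F) (bet Q)) (v : V × V) :
    (dblHom Q g).1 v = (v.1, g.1 v.2) := rfl

/-- The diagonal. -/
def diag (F V : Type*) [Field F] [AddCommGroup V] [Module F V] : Submodule F (V × V) :=
  LinearMap.range (LinearMap.prod (LinearMap.id : V →ₗ[F] V) LinearMap.id)

theorem mem_diag {x : V × V} : x ∈ diag F V ↔ x.1 = x.2 := by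
  constructor
  · rintro ⟨v, rfl⟩; rfl
  · intro h
    exact ⟨x.1, Prod.ext rfl h⟩

theorem prod_id_injective :
    Function.Injective (LinearMap.prod (LinearMap.id : V →ₗ[F] V) LinearMap.id) := by
  intro a b h
  exact congrArg Prod.fst h

theorem finrank_diag : Module.finrank F (diag F V) = Module.finrank F V :=
  LinearMap.finrank_range_of_inj prod_id_injective

theorem finrank_dbl : Module.finrank F (V × V) = 2 * Module.finrank F V := by
  rw [Module.finrank_prod]; ring

theorem diag_singular : ∀ u ∈ diag F V, dbl Q u = 0 := by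
  intro u hu
  rw [dbl_apply, mem_diag.mp hu, sub_self]

/-- The Dickson character. -/
noncomputable def dick (hQ : (pol Q).Nondegenerate) : IsomOf (F := F) (bet Q) →* ℤˣ :=
  (lagHom (nondeg_dbl hQ) finrank_dbl (diag F V) finrank_diag diag_singular).comp (dblHom Q)

theorem dick_apply (hQ : (pol Q).Nondegenerate) (g : IsomOf (F := F) (bet Q)) :
    dick hQ g = (-1) ^ Module.finrank F (LinearMap.range ((g.1 : V →ₗ[F] V) - LinearMap.id)) := by
  rw [dick, MonoidHom.comp_apply, lagHom_apply]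
  have h1 : diag F V ⊓ (diag F V).map ((dblHom Q g).1 : V × V →ₗ[F] V × V) =
      (LinearMap.ker ((g.1 : V →ₗ[F] V) - LinearMap.id)).map
        (LinearMap.prod (LinearMap.id : V →ₗ[F] V) LinearMap.id) := by
    ext x
    constructor
    · rintro ⟨hx, ⟨y, hy, hyx⟩⟩
      change (dblHom Q g).1 y = x at hyx
      rw [dblHom_apply] at hyx
      have hx' := mem_diag.mp hx
      have hy' := mem_diag.mp hy
      refine ⟨x.1, ?_, Prod.ext rfl hx'⟩
      rw [SetLike.mem_coe, LinearMap.mem_ker, LinearMap.sub_apply, sub_eq_zero]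
      change g.1 x.1 = x.1
      rw [← hyx] at hx' ⊢
      change y.1 = g.1 y.2 at hx'
      change g.1 y.1 = y.1
      rw [hy', ← hx', hy']
    · rintro ⟨v, hv, rfl⟩
      rw [SetLike.mem_coe, LinearMap.mem_ker, LinearMap.sub_apply, sub_eq_zero] at hv
      change g.1 v = v at hv
      refine ⟨⟨v, rfl⟩, ⟨(v, v), ⟨v, rfl⟩, ?_⟩⟩
      change (dblHom Q g).1 (v, v) = _
      rw [dblHom_apply]
      exact Prod.ext rfl hv
  have h2 : Module.finrank F ↥((LinearMap.ker ((g.1 : V →ₗ[F] V) - LinearMap.id)).map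
        (LinearMap.prod (LinearMap.id : V →ₗ[F] V) LinearMap.id)) =
      Module.finrank F (LinearMap.ker ((g.1 : V →ₗ[F] V) - LinearMap.id)) :=
    (Submodule.equivMapOfInjective _ prod_id_injective _).finrank_eq.symm
  rw [h1, h2]
  have h3 := LinearMap.finrank_range_add_finrank_ker ((g.1 : V →ₗ[F] V) - LinearMap.id)
  congr 1
  omega

theorem dick_Rf (hQ : (pol Q).Nondegenerate) (u : V) (hu : Q u ≠ 0) :
    dick hQ (Rf hQ u hu) = -1 := by
  have h0 : dbl Q (0, u) ≠ 0 := by
    rw [dbl_apply]; simpa using hu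
  have : dblHom Q (Rf hQ u hu) = Rf (nondeg_dbl hQ) (0, u) h0 := by
    apply Subtype.ext
    ext1 v
    rw [dblHom_apply, Rf_apply, Rf_apply, pol_dbl, dbl_apply]
    apply Prod.ext
    · simp
    · simp only [map_zero, zero_sub, Prod.snd_sub, Prod.smul_snd, neg_div_neg_eq]
  rw [dick, MonoidHom.comp_apply, this, lagHom_Rf]

theorem lagHom_eq_dick [Finite F] (hQ : (pol Q).Nondegenerate)
    (hex : Nat.card F ≠ 2 ∨ Module.finrank F V ≠ 4) {m : ℕ} (hV : Module.finrank F V = 2 * m)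
    (U : Submodule F V) (hUm : Module.finrank F U = m) (hU : ∀ u ∈ U, Q u = 0) :
    lagHom hQ hV U hUm hU = dick hQ :=
  hom_ext_of_Rf hQ hex fun u hu => by rw [lagHom_Rf, dick_Rf]

theorem exists_nonsingular (hQ : (pol Q).Nondegenerate) (hd : 1 ≤ Module.finrank F V) :
    ∃ u, Q u ≠ 0 := by
  by_contra hcon
  push Not at hcon
  have := two_mul_finrank_le hQ ⊤ (fun w _ => hcon w)
  rw [finrank_top] at this
  omega

/-- In characteristic two the commutator subgroup is the kernel of the Dickson character. -/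
theorem mem_commutator_iff_dick [Finite F] (h2 : (2 : F) = 0) (hQ : (pol Q).Nondegenerate)
    (hex : Nat.card F ≠ 2 ∨ Module.finrank F V ≠ 4) (g : IsomOf (F := F) (bet Q)) :
    g ∈ commutator (IsomOf (F := F) (bet Q)) ↔ dick hQ g = 1 := by
  constructor
  · intro hg
    exact Abelianization.commutator_subset_ker (dick hQ) hg
  intro hg
  by_cases hd : 1 ≤ Module.finrank F V
  swap
  · have h0 : Module.finrank F V = 0 := by omega
    have := Module.finrank_zero_iff.mp h0
    have : g = 1 := by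
      apply Subtype.ext
      ext v
      exact Subsingleton.elim _ _
    rw [this]; exact one_mem _
  obtain ⟨u₀, hu₀⟩ := exists_nonsingular hQ hd
  have : CharP F 2 := by
    apply CharTwo.of_one_ne_zero_of_two_eq_zero one_ne_zero h2
  have hsq : ∀ c : F, ∃ s, c = s * s := by
    intro c
    have := Fintype.ofFinite F
    obtain ⟨s, hs⟩ := FiniteField.isSquare_of_char_two (F := F) (ringChar.eq F 2) c
    exact ⟨s, hs⟩
  set ρ := Abelianization.of (Rf hQ u₀ hu₀) with hρ
  have hρs : ρ * ρ = 1 := by rw [hρ, ← map_mul, Rf_mul_self, map_one]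
  have key : ∀ x : IsomOf (F := F) (bet Q), ∃ a : ℕ, Abelianization.of x = ρ ^ a ∧
      dick hQ x = (-1) ^ a := by
    intro x
    have hx : x ∈ Subgroup.closure {g : IsomOf (F := F) (bet Q) | ∃ u hu, g = Rf hQ u hu} := by
      rw [closure_Rf hQ hex]; trivial
    induction hx using Subgroup.closure_induction with
    | mem x hx =>
      obtain ⟨u, hu, rfl⟩ := hx
      refine ⟨1, ?_, by rw [dick_Rf, pow_one]⟩
      rw [pow_one]
      obtain ⟨s, hs⟩ := hsq (Q u / Q u₀)
      apply of_Rf_eq hQ u u₀ hu hu₀ (s := s)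
      rw [← hs]; field_simp
    | one => exact ⟨0, by simp, by simp⟩
    | mul x y _ _ hx hy =>
      obtain ⟨a, e1, e2⟩ := hx
      obtain ⟨b, e1', e2'⟩ := hy
      exact ⟨a + b, by rw [map_mul, e1, e1', pow_add], by rw [map_mul, e2, e2', pow_add]⟩
    | inv x _ hx =>
      obtain ⟨a, e1, e2⟩ := hx
      have i1 : ρ⁻¹ = ρ := inv_eq_of_mul_eq_one_left hρs
      exact ⟨a, by rw [map_inv, e1, ← inv_pow, i1], by rw [map_inv, e2, ← inv_pow]; simp⟩
  obtain ⟨a, e1, e2⟩ := key g
  rw [hg] at e2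
  obtain ⟨a', rfl⟩ := (neg_one_pow_eq_one_iff_even (by decide)).mp e2.symm
  rw [pow_add, ← mul_pow, hρs, one_pow] at e1
  rw [← Abelianization.ker_of, MonoidHom.mem_ker]
  exact e1

theorem index_commutator_char_two [Finite F] (h2 : (2 : F) = 0) (hQ : (pol Q).Nondegenerate)
    (hex : Nat.card F ≠ 2 ∨ Module.finrank F V ≠ 4) (hd : 1 ≤ Module.finrank F V) :
    (commutator (IsomOf (F := F) (bet Q))).index = 2 := by
  have hker : (dick hQ).ker = commutator (IsomOf (F := F) (bet Q)) := by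
    ext g
    rw [mem_commutator_iff_dick h2 hQ hex, MonoidHom.mem_ker]
  obtain ⟨u₀, hu₀⟩ := exists_nonsingular hQ hd
  have hsurj : Function.Surjective (dick hQ) := by
    intro x
    rcases Int.units_eq_one_or x with rfl | rfl
    · exact ⟨1, map_one _⟩
    · exact ⟨_, dick_Rf hQ u₀ hu₀⟩
  rw [← hker, Subgroup.index_ker, MonoidHom.range_eq_top.mpr hsurj]
  simp

end Cfsg.Agent.H6.Quad
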