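import Cfsg.Agent.Lib_helper6_Spinor2
import Cfsg.Agent.Lib_helper6_QuadStd

/-! Involutions negating hyperbolic pairs and their spinor norms. -/

set_option autoImplicit false

namespace Cfsg.Agent.H6.Quad

variable {F V : Type*} [Field F] [AddCommGroup V] [Module F V] {Q : QuadraticForm F V}
variable [FiniteDimensional F V]

theorem hypNeg [Finite F] (h2 : (2 : F) ≠ 0) (hQ : (pol Q).Nondegenerate) {α : F}
    (hα : ¬ IsSquare α) {e f : V} (he : Q e = 0) (hf : Q f = 0) (hef : pol Q e f = 1) :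
    ∃ H : IsomOf (F := F) (bet Q),
      (∀ x, H.1 x = x - (2 * pol Q x f) • e - (2 * pol Q x e) • f) ∧
      (IsSquare (-1 : F) → chi Q 1 H = 1 ∧ chi Q α H = 1) ∧
      (¬ IsSquare (-1 : F) → chi Q 1 H = -1 ∧ chi Q α H = -1) := by
  have hfe : pol Q f e = 1 := by rw [pol_comm, hef]
  have hee : pol Q e e = 0 := by rw [pol_self, he, mul_zero]
  have hff : pol Q f f = 0 := by rw [pol_self, hf, mul_zero]
  have h1 : Q (e + f) = 1 := by rw [Q_add, he, hf, hef]; ring
  have h3 : Q (e - f) = -1 := by rw [Q_sub, he, hf, hef]; ring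
  have h1' : Q (e + f) ≠ 0 := by rw [h1]; exact one_ne_zero
  have h3' : Q (e - f) ≠ 0 := by rw [h3]; exact neg_ne_zero.mpr one_ne_zero
  refine ⟨Rf hQ (e + f) h1' * Rf hQ (e - f) h3', fun x => ?_, fun hs => ?_, fun hs => ?_⟩
  · change (Rf hQ (e + f) h1').1 ((Rf hQ (e - f) h3').1 x) = _
    rw [Rf_apply, Rf_apply, h1, h3]
    simp only [map_add, map_sub, map_smul, LinearMap.add_apply, LinearMap.sub_apply,
      LinearMap.smul_apply, smul_eq_mul, hee, hff, hef, hfe]
    match_scalars <;> field_simp <;> ring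
  · obtain ⟨a1, a2⟩ := chi_Rf_of_sq h2 hQ hα (e + f) h1' (by rw [h1]; exact IsSquare.one)
    obtain ⟨b1, b2⟩ := chi_Rf_of_sq h2 hQ hα (e - f) h3' (by rw [h3]; exact hs)
    rw [map_mul, map_mul, a1, a2, b1, b2]
    exact ⟨rfl, rfl⟩
  · obtain ⟨a1, a2⟩ := chi_Rf_of_sq h2 hQ hα (e + f) h1' (by rw [h1]; exact IsSquare.one)
    obtain ⟨b1, b2⟩ := chi_Rf_of_not_sq h2 hQ hα (e - f) h3' (by rw [h3]; exact hs)
    rw [map_mul, map_mul, a1, a2, b1, b2]
    exact ⟨rfl, rfl⟩

end Cfsg.Agent.H6.Quad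

namespace Cfsg.Agent.H6.Quad

variable {F : Type*} [Field F] {ι : Type} [Fintype ι] [DecidableEq ι]

/-- The involution negating the first `i` hyperbolic pairs of coordinates. -/
theorem exists_negPairs [Finite F] (h2 : (2 : F) ≠ 0) {Q : QuadraticForm F (ι → F)}
    (hQ : (pol Q).Nondegenerate) {α : F} (hα : ¬ IsSquare α) {m : ℕ} (a b : Fin m → ι)
    (hinj : Function.Injective (Sum.elim a b))
    (hQa : ∀ j, Q (Pi.single (a j) 1) = 0) (hQb : ∀ j, Q (Pi.single (b j) 1) = 0)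
    (hBa : ∀ x j, pol Q x (Pi.single (a j) 1) = x (b j))
    (hBb : ∀ x j, pol Q x (Pi.single (b j) 1) = x (a j)) (i : ℕ) (hi : i ≤ m) :
    ∃ d : IsomOf (F := F) (bet Q),
      (∀ x k, (∃ j : Fin m, j.val < i ∧ (k = a j ∨ k = b j)) → d.1 x k = - x k) ∧
      (∀ x k, (¬ ∃ j : Fin m, j.val < i ∧ (k = a j ∨ k = b j)) → d.1 x k = x k) ∧
      (IsSquare (-1 : F) → chi Q 1 d = 1 ∧ chi Q α d = 1) ∧
      (¬ IsSquare (-1 : F) → chi Q 1 d = (-1) ^ i ∧ chi Q α d = (-1) ^ i) := by
  induction i with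
  | zero =>
    exact ⟨1, fun x k ⟨j, hj, _⟩ => absurd hj (Nat.not_lt_zero _), fun x k _ => rfl,
      fun _ => ⟨map_one _, map_one _⟩, fun _ => ⟨by simp, by simp⟩⟩
  | succ i ih =>
    obtain ⟨d, hd1, hd2, hd3, hd4⟩ := ih (by omega)
    set j0 : Fin m := ⟨i, by omega⟩ with hj0
    obtain ⟨H, hH, hH3, hH4⟩ := hypNeg h2 hQ hα (hQa j0) (hQb j0) (by rw [hBb]; simp)
    have hab : ∀ j j', a j ≠ b j' := by
      intro j j' h
      have := hinj (a₁ := Sum.inl j) (a₂ := Sum.inr j') h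
      simp at this
    have haa : ∀ j j', a j = a j' → j = j' := by
      intro j j' h
      have := hinj (a₁ := Sum.inl j) (a₂ := Sum.inl j') h
      simpa using this
    have hbb : ∀ j j', b j = b j' → j = j' := by
      intro j j' h
      have := hinj (a₁ := Sum.inr j) (a₂ := Sum.inr j') h
      simpa using this
    have hHk : ∀ y k, H.1 y k = if k = a j0 ∨ k = b j0 then - y k else y k := by
      intro y k
      rw [hH, hBa, hBb]
      simp only [Pi.sub_apply, Pi.smul_apply, smul_eq_mul, Pi.single_apply]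
      by_cases h1 : k = a j0
      · subst h1
        simp [hab]
        ring
      · by_cases h3 : k = b j0
        · subst h3
          simp [(hab _ _).symm]
          ring
        · simp [h1, h3]
    have hnot : ∀ k, (k = a j0 ∨ k = b j0) → ¬ ∃ j : Fin m, j.val < i ∧ (k = a j ∨ k = b j) := by
      rintro k hk ⟨j, hj, hkj⟩
      have hne : j ≠ j0 := by
        intro h
        rw [h, hj0] at hj
        simp at hj
      rcases hk with rfl | rfl <;> rcases hkj with h | h
      · exact hne (haa _ _ h).symm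
      · exact hab _ _ h
      · exact hab _ _ h.symm
      · exact hne (hbb _ _ h).symm
    refine ⟨H * d, fun x k hk => ?_, fun x k hk => ?_, fun hs => ?_, fun hs => ?_⟩
    · change H.1 (d.1 x) k = _
      rw [hHk]
      by_cases hk0 : k = a j0 ∨ k = b j0
      · rw [if_pos hk0, hd2 x k (hnot k hk0)]
      · rw [if_neg hk0]
        apply hd1
        obtain ⟨j, hj, hkj⟩ := hk
        refine ⟨j, ?_, hkj⟩
        rcases Nat.lt_succ_iff_lt_or_eq.mp hj with h | h
        · exact h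
        · exfalso
          apply hk0
          have : j = j0 := Fin.ext h
          rw [← this]; exact hkj
    · change H.1 (d.1 x) k = _
      rw [hHk]
      have hk0 : ¬ (k = a j0 ∨ k = b j0) := fun h => hk ⟨j0, by simp [hj0], h⟩
      rw [if_neg hk0]
      apply hd2
      rintro ⟨j, hj, hkj⟩
      exact hk ⟨j, by omega, hkj⟩
    · obtain ⟨a1, a2⟩ := hd3 hs
      obtain ⟨b1, b2⟩ := hH3 hs
      rw [map_mul, map_mul, a1, a2, b1, b2]
      exact ⟨rfl, rfl⟩
    · obtain ⟨a1, a2⟩ := hd4 hs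
      obtain ⟨b1, b2⟩ := hH4 hs
      rw [map_mul, map_mul, a1, a2, b1, b2, pow_succ, mul_comm]
      exact ⟨rfl, rfl⟩

/-- Transfer between matrices and linear automorphisms. -/
theorem exists_mem_Omega_iff (Q : QuadraticForm F (ι → F)) (Qf : (ι → F) → F)
    (hQf : ∀ v, Q v = Qf v) (d : IsomOf (F := F) (bet Q)) (D : Matrix ι ι F)
    (hd : ∀ x, d.1 x = D.mulVec x) :
    (∃ g : Cfsg.isometryGroup F Qf, g ∈ Cfsg.Omega F Qf ∧
      ((g : Matrix.GeneralLinearGroup ι F) : Matrix ι ι F) = D) ↔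
    d ∈ commutator (IsomOf (F := F) (bet Q)) := by
  set e := isometryGroupEquiv Q Qf hQf with he
  constructor
  · rintro ⟨g, hg, hgD⟩
    have h1 : e g = d := by
      apply Subtype.ext
      ext1 x
      rw [he, isometryGroupEquiv_apply, hgD, hd]
    rw [← h1]
    exact (mem_commutator_equiv e g).mp hg
  · intro h
    refine ⟨e.symm d, (mem_commutator_equiv e _).mpr (by rw [MulEquiv.apply_symm_apply]; exact h), ?_⟩
    apply Matrix.ext_iff_mulVec.mpr
    intro x
    rw [← hd, ← isometryGroupEquiv_apply Q Qf hQf, ← he, MulEquiv.apply_symm_apply]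

theorem pow_mod_four_iff [Fintype F] {q : ℕ} (hF : Fintype.card F = q) (hq : Odd q) (i : ℕ) :
    q ^ i % 4 = 1 ↔ (IsSquare (-1 : F) ∨ Even i) := by
  rw [FiniteField.isSquare_neg_one_iff, hF]
  have h4 : q % 4 = 1 ∨ q % 4 = 3 := by
    obtain ⟨k, rfl⟩ := hq
    omega
  rcases h4 with h | h
  · have : q ^ i % 4 = 1 := by rw [Nat.pow_mod, h]; simp
    simp [this, h]
  · have h3 : q ^ i % 4 = 3 ^ i % 4 := by rw [Nat.pow_mod, h]
    rw [h3]
    simp only [h, ne_eq, not_true_eq_false, false_or]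
    constructor
    · intro h5
      by_contra hodd
      rw [Nat.not_even_iff_odd] at hodd
      obtain ⟨k, rfl⟩ := hodd
      rw [pow_succ, pow_mul, Nat.mul_mod, Nat.pow_mod] at h5
      simp at h5
    · rintro ⟨k, rfl⟩
      rw [← two_mul, pow_mul, Nat.pow_mod]
      simp

theorem two_ne_zero_of_odd [Fintype F] {q : ℕ} (hF : Fintype.card F = q) (hq : Odd q) :
    (2 : F) ≠ 0 := by
  intro h
  have : CharP F 2 := CharTwo.of_one_ne_zero_of_two_eq_zero one_ne_zero h
  have h1 : ringChar F = 2 := ringChar.eq F 2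
  rw [FiniteField.even_card_iff_char_two, hF] at h1
  obtain ⟨k, rfl⟩ := hq
  omega

/-- The criterion for the involution negating `i` hyperbolic pairs. -/
theorem negPairs_mem_iff [Fintype F] {q : ℕ} (hF : Fintype.card F = q) (hq : Odd q)
    {Q : QuadraticForm F (ι → F)} (hQ : (pol Q).Nondegenerate) (hd : 2 ≤ Fintype.card ι)
    {α : F} (hα : ¬ IsSquare α) {i : ℕ} (d : IsomOf (F := F) (bet Q))
    (h3 : IsSquare (-1 : F) → chi Q 1 d = 1 ∧ chi Q α d = 1)
    (h4 : ¬ IsSquare (-1 : F) → chi Q 1 d = (-1) ^ i ∧ chi Q α d = (-1) ^ i) :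
    d ∈ commutator (IsomOf (F := F) (bet Q)) ↔ q ^ i % 4 = 1 := by
  rw [mem_commutator_iff (two_ne_zero_of_odd hF hq) hQ (by simpa using hd) hα,
    pow_mod_four_iff hF hq]
  by_cases hs : IsSquare (-1 : F)
  · simp [hs, h3 hs]
  · obtain ⟨a1, a2⟩ := h4 hs
    rw [a1, a2, and_self, neg_one_pow_eq_one_iff_even (by decide)]
    simp [hs]

end Cfsg.Agent.H6.Quad
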