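import Cfsg.Agent.Lib_helper6_Dickson
import Cfsg.Agent.Lib_helper6_Spinor3

/-! The Dickson invariant for matrix groups. -/

set_option autoImplicit false

namespace Cfsg.Agent.H6.Quad

variable {F : Type*} [Field F] {ι : Type} [Fintype ι] [DecidableEq ι]

theorem equiv_toLin (Q : QuadraticForm F (ι → F)) (Qf : (ι → F) → F) (hQf : ∀ v, Q v = Qf v)
    (g : Cfsg.isometryGroup F Qf) :
    ((isometryGroupEquiv Q Qf hQf g).1 : (ι → F) →ₗ[F] (ι → F)) =
      Matrix.mulVecLin ((g : Matrix.GeneralLinearGroup ι F) : Matrix ι ι F) := by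
  apply LinearMap.ext
  intro v
  exact isometryGroupEquiv_apply Q Qf hQf g v

theorem equiv_reflElt (Q : QuadraticForm F (ι → F)) (hQ : (pol Q).Nondegenerate) (v : ι → F)
    (hv : Q v ≠ 0) : isometryGroupEquiv Q ⇑Q (fun _ => rfl) (reflElt Q v hv) = Rf hQ v hv := by
  apply Subtype.ext
  ext1 x
  rw [isometryGroupEquiv_apply, Rf_apply]
  exact reflectionMatrix_mulVec Q v x

theorem closure_reflElt [Finite F] (Q : QuadraticForm F (ι → F)) (hQ : (pol Q).Nondegenerate)
    (hex : Nat.card F ≠ 2 ∨ Fintype.card ι ≠ 4) :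
    Subgroup.closure {g : Cfsg.isometryGroup F ⇑Q | ∃ v hv, g = reflElt Q v hv} = ⊤ := by
  rw [eq_top_iff]
  intro x _
  apply mem_of_ReflGrp
  · intro v hv
    exact Subgroup.subset_closure ⟨v, hv, rfl⟩
  · rw [ReflGrp_eq hQ (by simpa using hex)]
    exact Subtype.property _

/-- The Dickson character on matrices. -/
noncomputable def dickM (Q : QuadraticForm F (ι → F)) (hQ : (pol Q).Nondegenerate)
    (Qf : (ι → F) → F) (hQf : ∀ v, Q v = Qf v) : Cfsg.isometryGroup F Qf →* ℤˣ :=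
  (dick hQ).comp (isometryGroupEquiv Q Qf hQf).toMonoidHom

theorem dickM_apply (Q : QuadraticForm F (ι → F)) (hQ : (pol Q).Nondegenerate)
    (Qf : (ι → F) → F) (hQf : ∀ v, Q v = Qf v) (g : Cfsg.isometryGroup F Qf) :
    dickM Q hQ Qf hQf g = (-1) ^ (((g : Matrix.GeneralLinearGroup ι F) : Matrix ι ι F) - 1).rank := by
  change dick hQ (isometryGroupEquiv Q Qf hQf g) = _
  rw [dick_apply, equiv_toLin, Matrix.rank]
  have : Matrix.mulVecLin ((g : Matrix.GeneralLinearGroup ι F) : Matrix ι ι F) - LinearMap.id =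
      Matrix.mulVecLin (((g : Matrix.GeneralLinearGroup ι F) : Matrix ι ι F) - 1) := by
    apply LinearMap.ext
    intro v
    simp [Matrix.sub_mulVec]
  rw [this]

theorem dickM_reflElt (Q : QuadraticForm F (ι → F)) (hQ : (pol Q).Nondegenerate) (v : ι → F)
    (hv : Q v ≠ 0) : dickM Q hQ ⇑Q (fun _ => rfl) (reflElt Q v hv) = -1 := by
  change dick hQ (isometryGroupEquiv Q ⇑Q (fun _ => rfl) (reflElt Q v hv)) = _
  rw [equiv_reflElt Q hQ, dick_Rf]

theorem dickM_eq_one_of_mem (Q : QuadraticForm F (ι → F)) (hQ : (pol Q).Nondegenerate)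
    (Qf : (ι → F) → F) (hQf : ∀ v, Q v = Qf v) {g : Cfsg.isometryGroup F Qf}
    (hg : g ∈ Cfsg.Omega F Qf) : dickM Q hQ Qf hQf g = 1 :=
  Abelianization.commutator_subset_ker _ hg

theorem mem_Omega_iff_dickM [Finite F] (h2 : (2 : F) = 0) (Q : QuadraticForm F (ι → F))
    (hQ : (pol Q).Nondegenerate) (hex : Nat.card F ≠ 2 ∨ Fintype.card ι ≠ 4)
    (Qf : (ι → F) → F) (hQf : ∀ v, Q v = Qf v) (g : Cfsg.isometryGroup F Qf) :
    g ∈ Cfsg.Omega F Qf ↔ dickM Q hQ Qf hQf g = 1 := by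
  rw [mem_commutator_equiv (isometryGroupEquiv Q Qf hQf),
    mem_commutator_iff_dick h2 hQ (by simpa using hex)]
  rfl

theorem mem_Omega_iff_even_rank [Finite F] (h2 : (2 : F) = 0) (Q : QuadraticForm F (ι → F))
    (hQ : (pol Q).Nondegenerate) (hex : Nat.card F ≠ 2 ∨ Fintype.card ι ≠ 4)
    (Qf : (ι → F) → F) (hQf : ∀ v, Q v = Qf v) (g : Cfsg.isometryGroup F Qf) :
    g ∈ Cfsg.Omega F Qf ↔ Even (((g : Matrix.GeneralLinearGroup ι F) : Matrix ι ι F) - 1).rank := by
  rw [mem_Omega_iff_dickM h2 Q hQ hex Qf hQf, dickM_apply, neg_one_pow_eq_one_iff_even (by decide)]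

theorem index_Omega_char_two [Finite F] (h2 : (2 : F) = 0) (Q : QuadraticForm F (ι → F))
    (hQ : (pol Q).Nondegenerate) (hex : Nat.card F ≠ 2 ∨ Fintype.card ι ≠ 4)
    (hd : 1 ≤ Fintype.card ι) (Qf : (ι → F) → F) (hQf : ∀ v, Q v = Qf v) :
    (Cfsg.Omega F Qf).index = 2 := by
  rw [index_commutator_equiv (isometryGroupEquiv Q Qf hQf)]
  exact index_commutator_char_two h2 hQ (by simpa using hex) (by simpa using hd)

/-- The class of a maximal totally singular subspace is governed by the Dickson character. -/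
theorem even_lag_iff_dickM [Finite F] (Q : QuadraticForm F (ι → F))
    (hQ : (pol Q).Nondegenerate) (hex : Nat.card F ≠ 2 ∨ Fintype.card ι ≠ 4)
    (Qf : (ι → F) → F) (hQf : ∀ v, Q v = Qf v) {m : ℕ} (hm : Fintype.card ι = 2 * m)
    (U : Submodule F (ι → F)) (hUm : Module.finrank F U = m) (hU : ∀ u ∈ U, Qf u = 0)
    (g : Cfsg.isometryGroup F Qf) :
    Even (m - Module.finrank F ↥(U ⊓ U.map (Matrix.mulVecLin
      ((g : Matrix.GeneralLinearGroup ι F) : Matrix ι ι F)))) ↔ dickM Q hQ Qf hQf g = 1 := by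
  have hU' : ∀ u ∈ U, Q u = 0 := fun u hu => by rw [hQf, hU u hu]
  have hV : Module.finrank F (ι → F) = 2 * m := by simpa using hm
  change _ ↔ dick hQ (isometryGroupEquiv Q Qf hQf g) = 1
  rw [← lagHom_eq_dick hQ (by simpa using hex) hV U hUm hU', lagHom_apply, equiv_toLin,
    neg_one_pow_eq_one_iff_even (by decide)]

/-- Without any generation hypothesis: elements of `Ω` preserve the classes. -/
theorem even_lag_of_mem_Omega (Q : QuadraticForm F (ι → F))
    (hQ : (pol Q).Nondegenerate)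
    (Qf : (ι → F) → F) (hQf : ∀ v, Q v = Qf v) {m : ℕ} (hm : Fintype.card ι = 2 * m)
    (U : Submodule F (ι → F)) (hUm : Module.finrank F U = m) (hU : ∀ u ∈ U, Qf u = 0)
    {g : Cfsg.isometryGroup F Qf} (hg : g ∈ Cfsg.Omega F Qf) :
    Even (m - Module.finrank F ↥(U ⊓ U.map (Matrix.mulVecLin
      ((g : Matrix.GeneralLinearGroup ι F) : Matrix ι ι F)))) := by
  have hU' : ∀ u ∈ U, Q u = 0 := fun u hu => by rw [hQf, hU u hu]
  have hV : Module.finrank F (ι → F) = 2 * m := by simpa using hm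
  have h1 : lagHom hQ hV U hUm hU' (isometryGroupEquiv Q Qf hQf g) = 1 :=
    Abelianization.commutator_subset_ker _ ((mem_commutator_equiv _ g).mp hg)
  rwa [lagHom_apply, equiv_toLin, neg_one_pow_eq_one_iff_even (by decide)] at h1

/-- In odd characteristic the Dickson character is the determinant. -/
theorem dickM_eq_one_iff_det [Finite F] (h2 : (2 : F) ≠ 0) (Q : QuadraticForm F (ι → F))
    (hQ : (pol Q).Nondegenerate) (Qf : (ι → F) → F) (hQf : ∀ v, Q v = Qf v)
    (g : Cfsg.isometryGroup F Qf) :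
    dickM Q hQ Qf hQf g = 1 ↔ ((g : Matrix.GeneralLinearGroup ι F) : Matrix ι ι F).det = 1 := by
  obtain rfl : Qf = ⇑Q := by funext v; rw [hQf]
  set φ : Cfsg.isometryGroup F ⇑Q →* Fˣ :=
    (Units.map (Int.castRingHom F).toMonoidHom).comp (dickM Q hQ ⇑Q hQf) with hφ
  set ψ : Cfsg.isometryGroup F ⇑Q →* Fˣ :=
    Matrix.GeneralLinearGroup.det.comp (Cfsg.isometryGroup F ⇑Q).subtype with hψ
  have heq : φ = ψ := by
    apply MonoidHom.eq_of_eqOn_dense (closure_reflElt Q hQ (Or.inl (card_ne_two h2)))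
    rintro _ ⟨v, hv, rfl⟩
    apply Units.ext
    change ((dickM Q hQ ⇑Q hQf (reflElt Q v hv) : ℤˣ) : ℤ) = (Cfsg.reflectionMatrix ⇑Q v).det
    rw [dickM_reflElt, det_reflectionMatrix Q v hv]
    simp
  have h1 : ((g : Matrix.GeneralLinearGroup ι F) : Matrix ι ι F).det =
      (((dickM Q hQ ⇑Q hQf g : ℤˣ) : ℤ) : F) := by
    have := congrArg (fun f => ((f g : Fˣ) : F)) heq
    exact this.symm
  rw [h1]
  rcases Int.units_eq_one_or (dickM Q hQ ⇑Q hQf g) with h | h
  · rw [h]; simp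
  · rw [h]
    simp only [Units.val_neg, Units.val_one, Int.cast_neg, Int.cast_one]
    constructor
    · intro h'; exact absurd h' (by decide)
    · intro h'
      exfalso
      apply h2
      linear_combination -h'

end Cfsg.Agent.H6.Quad

namespace Cfsg.Agent.H6.Quad

variable {F : Type*} [Field F]

/-- The standard maximal totally singular subspace `y = 0`. -/
theorem finrank_ker_inr (m : ℕ) : Module.finrank F
    (LinearMap.ker (LinearMap.funLeft F F (Sum.inr : Fin m → Fin m ⊕ Fin m))) = m := by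
  have h1 := LinearMap.finrank_range_add_finrank_ker
    (LinearMap.funLeft F F (Sum.inr : Fin m → Fin m ⊕ Fin m))
  rw [LinearMap.range_eq_top.mpr (LinearMap.funLeft_surjective_of_injective F F _
    Sum.inr_injective), finrank_top] at h1
  simp at h1
  omega

theorem singular_ker_inr (m : ℕ) : ∀ u ∈
    LinearMap.ker (LinearMap.funLeft F F (Sum.inr : Fin m → Fin m ⊕ Fin m)),
    Cfsg.quadFormPlus m F u = 0 := by
  intro u hu
  have h : ∀ i, u (Sum.inr i) = 0 := fun i => congrFun (LinearMap.mem_ker.mp hu) i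
  simp [Cfsg.quadFormPlus, h]

end Cfsg.Agent.H6.Quad
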