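import Mathlib

set_option autoImplicit false

namespace Cfsg.Agent.H6

theorem two_ne_zero_of_odd_card {F : Type*} [Field F] [Fintype F] (h : Odd (Fintype.card F)) :
    (2 : F) ≠ 0 := by
  apply Ring.two_ne_zero
  intro h2
  rw [FiniteField.even_card_iff_char_two] at h2
  rw [Nat.odd_iff] at h
  omega

end Cfsg.Agent.H6
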