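import Cfsg.Agent.Lib_helper6_LagCount
import Cfsg.Agent.Lib_helper6_DicksonMat

/-! Involutions of orthogonal groups in characteristic two: `O`-classes versus `Ω`-classes. -/

set_option autoImplicit false

namespace Cfsg.Agent.H6.Quad

open Matrix

variable {F : Type*} [Field F] {ι : Type} [Fintype ι] [DecidableEq ι]

theorem conj_Omega_of_fixed [Finite F] (h2 : (2 : F) = 0) (Q : QuadraticForm F (ι → F))
    (hQ : (pol Q).Nondegenerate) (hex : Nat.card F ≠ 2 ∨ Fintype.card ι ≠ 4)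
    (Qf : (ι → F) → F) (hQf : ∀ v, Q v = Qf v) (t g : Cfsg.isometryGroup F Qf) (a : ι → F)
    (ha : Qf a ≠ 0) (hta : ((t : GL ι F) : Matrix ι ι F) *ᵥ a = a) :
    ∃ g' ∈ Cfsg.Omega F Qf, g' * t * g'⁻¹ = g * t * g⁻¹ := by
  obtain rfl : Qf = ⇑Q := by funext v; rw [hQf]
  by_cases hg : g ∈ Cfsg.Omega F ⇑Q
  · exact ⟨g, hg, rfl⟩
  set e := isometryGroupEquiv Q ⇑Q (fun _ => rfl) with he
  set r := reflElt Q a ha with hr
  have hcomm : t * r * t⁻¹ = r := by
    apply e.injective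
    have hk : Q ((e t).1 a) ≠ 0 := by
      rw [he, isometryGroupEquiv_apply, hta]; exact ha
    rw [map_mul, map_mul, map_inv, hr, he, equiv_reflElt Q hQ, conj_Rf hQ a ha _ hk]
    congr 1
  have h1 : dickM Q hQ ⇑Q (fun _ => rfl) g = -1 := by
    rcases Int.units_eq_one_or (dickM Q hQ ⇑Q (fun _ => rfl) g) with h | h
    · exact absurd ((mem_Omega_iff_dickM h2 Q hQ hex _ _ g).mpr h) hg
    · exact h
  refine ⟨g * r, ?_, ?_⟩
  · rw [mem_Omega_iff_dickM h2 Q hQ hex _ (fun _ => rfl), map_mul, h1, hr, dickM_reflElt]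
    rfl
  · have h3 : r * t * r⁻¹ = t := by
      have : t * r = r * t := by
        calc t * r = (t * r * t⁻¹) * t := by group
          _ = r * t := by rw [hcomm]
      rw [← this]; group
    calc g * r * t * (g * r)⁻¹ = g * (r * t * r⁻¹) * g⁻¹ := by group
      _ = g * t * g⁻¹ := by rw [h3]

theorem involution_no_fixed [Finite F] (h2 : (2 : F) = 0) (Q : QuadraticForm F (ι → F))
    (hQ : (pol Q).Nondegenerate) (M : Matrix ι ι F) (hM : M * M = 1)
    (hno : ∀ a, M *ᵥ a = a → Q a = 0) :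
    2 * (M - 1).rank = Fintype.card ι ∧ (∀ v, Q (v + M *ᵥ v) = 0) ∧
      2 * Module.finrank F (LinearMap.ker (M - 1).mulVecLin) = Fintype.card ι ∧
      ∀ u ∈ LinearMap.ker (M - 1).mulVecLin, Q u = 0 := by
  have hK : ∀ u ∈ LinearMap.ker (M - 1).mulVecLin, Q u = 0 := by
    intro u hu
    apply hno
    have : (M - 1) *ᵥ u = 0 := hu
    rw [sub_mulVec, one_mulVec, sub_eq_zero] at this
    exact this
  have hsq : (M - 1) * (M - 1) = 0 := by
    have : (M - 1) * (M - 1) = M * M - (2 : F) • M + 1 := by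
      rw [two_smul]; noncomm_ring
    rw [this, hM, h2, zero_smul, sub_zero]
    have : (1 : Matrix ι ι F) + 1 = (2 : F) • 1 := by rw [two_smul]
    rw [this, h2, zero_smul]
  have hle : LinearMap.range (M - 1).mulVecLin ≤ LinearMap.ker (M - 1).mulVecLin := by
    rintro _ ⟨v, rfl⟩
    change (M - 1) *ᵥ ((M - 1) *ᵥ v) = 0
    rw [mulVec_mulVec, hsq, zero_mulVec]
  have h1 := LinearMap.finrank_range_add_finrank_ker (M - 1).mulVecLin
  have h3 := two_mul_finrank_le hQ _ hK
  have h4 := Submodule.finrank_mono hle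
  rw [Module.finrank_fintype_fun_eq_card] at h1 h3
  refine ⟨?_, fun v => ?_, ?_, hK⟩
  · rw [Matrix.rank]; omega
  · apply hK
    apply hle
    refine ⟨v, ?_⟩
    change (M - 1) *ᵥ v = _
    rw [sub_mulVec, one_mulVec]
    have : v + M *ᵥ v = M *ᵥ v - v + (2 : F) • v := by rw [two_smul]; abel
    rw [this, h2, zero_smul, add_zero]
  · omega

end Cfsg.Agent.H6.Quad
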