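import Cfsg.Agent.Lib_helper6_StabProd

/-! Counting subspaces on which the invariant is constant, by orbit-stabiliser and Witt. -/

set_option autoImplicit false

namespace Cfsg.Agent.H6

open scoped Pointwise

variable {F V α : Type*} [Field F] [AddCommGroup V] [Module F V]

theorem mem_smul_submodule_iff (g : V ≃ₗ[F] V) (W : Submodule F V) (x : V) :
    x ∈ g • W ↔ ∃ w ∈ W, g w = x := by
  constructor
  · intro h
    obtain ⟨w, hw, hwx⟩ := h
    exact ⟨w, hw, hwx⟩
  · rintro ⟨w, hw, rfl⟩
    exact ⟨w, hw, rfl⟩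

theorem card_IsomOf_eq_card_const_subspaces_mul [FiniteDimensional F V] {β : V → V → α}
    (hmove : Moving F β) (c : α) (W : Submodule F V) (hW : ∀ u ∈ W, ∀ v ∈ W, β u v = c) {k : ℕ}
    (hk : Module.finrank F W = k) :
    Nat.card (IsomOf (F := F) β) =
      Nat.card {W' : Submodule F V // Module.finrank F W' = k ∧ ∀ u ∈ W', ∀ v ∈ W', β u v = c} *
        Nat.card (StabOf β W) := by
  apply card_subgroup_eq_card_orbit_mul (IsomOf (F := F) β) (StabOf β W) W
    {W' : Submodule F V | Module.finrank F W' = k ∧ ∀ u ∈ W', ∀ v ∈ W', β u v = c}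
  · intro W'
    constructor
    · rintro ⟨hk', hW'⟩
      let e : W ≃ₗ[F] W' := LinearEquiv.ofFinrankEq W W' (by rw [hk, hk'])
      obtain ⟨g, hg, hge⟩ := witt_of_moving hmove W (W'.subtype ∘ₗ e.toLinearMap)
        (fun a b h => e.injective (Subtype.ext h))
        (fun x x' => by
          rw [hW x x.2 x' x'.2]
          exact hW' _ (e x).2 _ (e x').2)
      refine ⟨g, hg, ?_⟩
      ext x
      rw [mem_smul_submodule_iff]
      constructor
      · rintro ⟨w, hw, rfl⟩
        rw [hge ⟨w, hw⟩]
        exact (e ⟨w, hw⟩).2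
      · intro hx
        refine ⟨(e.symm ⟨x, hx⟩ : W), (e.symm ⟨x, hx⟩).2, ?_⟩
        rw [hge]
        simp
    · rintro ⟨g, hg, rfl⟩
      constructor
      · rw [← hk]
        exact LinearEquiv.finrank_map_eq g W
      · intro u hu v hv
        obtain ⟨u', hu', rfl⟩ := (mem_smul_submodule_iff g W u).mp hu
        obtain ⟨v', hv', rfl⟩ := (mem_smul_submodule_iff g W v).mp hv
        rw [hg u' v']
        exact hW u' hu' v' hv'
  · intro g
    constructor
    · rintro ⟨hg, hgW⟩
      refine ⟨hg, ?_⟩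
      ext x
      rw [mem_smul_submodule_iff]
      constructor
      · rintro ⟨w, hw, rfl⟩
        exact (hgW w).mp hw
      · intro hx
        refine ⟨g⁻¹ x, ?_, ?_⟩
        · rw [hgW, ← LinearEquiv.mul_apply, mul_inv_cancel]; exact hx
        · rw [← LinearEquiv.mul_apply, mul_inv_cancel]; rfl
    · rintro ⟨hg, hgW⟩
      apply mem_StabOf_of_forall hg
      intro v hv
      rw [← hgW]
      exact (mem_smul_submodule_iff g W _).mpr ⟨v, hv, rfl⟩

end Cfsg.Agent.H6
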