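import Cfsg.Agent.Lib_helper6_AltCount

/-! Generic counting lemmas for zeros of `b x y + c t`. -/

set_option autoImplicit false

namespace Cfsg.Agent.H6

/-- All fibres of a surjective additive map to `F` have the same size. -/
theorem card_fibre_mul {F V : Type*} [Field F] [Finite F] [AddCommGroup V] [Module F V] [Finite V]
    (φ : V →ₗ[F] F) (hφ : φ ≠ 0) (s : F) :
    Nat.card {y : V // φ y = s} * Nat.card F = Nat.card V := by
  obtain ⟨w, hw⟩ : ∃ w, φ w ≠ 0 := by
    by_contra h
    push Not at h
    exact hφ (LinearMap.ext h)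
  have key : ∀ t : F, Nat.card {y : V // φ y = t} = Nat.card {y : V // φ y = s} := by
    intro t
    refine Nat.card_congr ⟨fun y => ⟨y.1 + ((s - t) / φ w) • w, ?_⟩,
      fun y => ⟨y.1 - ((s - t) / φ w) • w, ?_⟩, fun y => by simp, fun y => by simp⟩
    · rw [map_add, map_smul, y.2, smul_eq_mul, div_mul_cancel₀ _ hw]; ring
    · rw [map_sub, map_smul, y.2, smul_eq_mul, div_mul_cancel₀ _ hw]; ring
  have h := card_mul_eq_card_mul_of_fibres (A := V) (C := F) (fun y t => φ y = t) 1
    (Nat.card {y : V // φ y = s}) (fun a => by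
      have : Unique {c : F // φ a = c} := ⟨⟨⟨φ a, rfl⟩⟩, fun c => Subtype.ext c.2.symm⟩
      exact Nat.card_unique) key
  rw [mul_one] at h
  rw [h, mul_comm]

/-- The generic zero count. -/
theorem card_zeros_pairing {F X Y T : Type*} [Field F] [Finite X] [Finite Y] [Finite T]
    (x0 : X) (b : X → Y → F) (N : ℕ) (h0 : ∀ y, b x0 y = 0)
    (hN : ∀ x, x ≠ x0 → ∀ s, Nat.card {y // b x y = s} = N) (c : T → F) :
    Nat.card {p : X × Y × T // b p.1 p.2.1 + c p.2.2 = 0} =
      Nat.card Y * Nat.card {t // c t = 0} + (Nat.card X - 1) * N * Nat.card T := by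
  classical
  have := Fintype.ofFinite X
  have := Fintype.ofFinite T
  have e : {p : X × Y × T // b p.1 p.2.1 + c p.2.2 = 0} ≃
      (Σ x : X, Σ t : T, {y : Y // b x y + c t = 0}) :=
    ⟨fun p => ⟨p.1.1, p.1.2.2, p.1.2.1, p.2⟩, fun p => ⟨(p.1, p.2.2.1, p.2.1), p.2.2.2⟩,
      fun _ => rfl, fun _ => rfl⟩
  rw [Nat.card_congr e, Nat.card_sigma]
  have h1 : ∀ x : X, Nat.card (Σ t : T, {y : Y // b x y + c t = 0}) =
      if x = x0 then Nat.card Y * Nat.card {t // c t = 0} else N * Nat.card T := by
    intro x
    rw [Nat.card_sigma]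
    split_ifs with hx
    · subst hx
      have : ∀ t : T, Nat.card {y : Y // b x y + c t = 0} = if c t = 0 then Nat.card Y else 0 := by
        intro t
        split_ifs with ht
        · exact Nat.card_congr ⟨fun y => y.1, fun y => ⟨y, by rw [h0, ht, add_zero]⟩,
            fun _ => rfl, fun _ => rfl⟩
        · have : IsEmpty {y : Y // b x y + c t = 0} := ⟨fun y => ht (by
            have := y.2
            rwa [h0, zero_add] at this)⟩
          exact Nat.card_of_isEmpty
      simp only [this]
      rw [Finset.sum_ite, Finset.sum_const, Finset.sum_const, smul_eq_mul, smul_eq_mul, mul_zero,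
        add_zero, Nat.card_eq_fintype_card (α := {t // c t = 0}), Fintype.card_subtype, mul_comm]
    · have : ∀ t : T, Nat.card {y : Y // b x y + c t = 0} = N := by
        intro t
        rw [← hN x hx (-c t)]
        exact Nat.card_congr (Equiv.subtypeEquivRight fun y => by
          rw [add_eq_zero_iff_eq_neg])
      simp only [this]
      rw [Finset.sum_const, smul_eq_mul, Finset.card_univ, Nat.card_eq_fintype_card, mul_comm]
  simp only [h1]
  rw [Finset.sum_ite, Finset.sum_const, Finset.sum_const, smul_eq_mul, smul_eq_mul]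
  have h2 : (Finset.univ.filter fun x : X => x = x0).card = 1 := by
    rw [Finset.filter_eq' Finset.univ x0]; simp
  have h3 : (Finset.univ.filter fun x : X => ¬ x = x0).card = Nat.card X - 1 := by
    have := Finset.card_filter_add_card_filter_not (s := (Finset.univ : Finset X))
      (fun x : X => x = x0)
    rw [Finset.card_univ, h2] at this
    rw [Nat.card_eq_fintype_card]
    omega
  rw [h2, h3, one_mul, mul_assoc]

/-- Zeros of `a * b + c t`. -/
theorem card_zeros_hyp {F T : Type*} [Field F] [Finite F] [Finite T] (c : T → F) :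
    Nat.card {p : F × F × T // p.1 * p.2.1 + c p.2.2 = 0} =
      Nat.card F * Nat.card {t // c t = 0} + (Nat.card F - 1) * Nat.card T := by
  have h := card_zeros_pairing (X := F) (Y := F) (0 : F) (fun a b => a * b) 1
    (fun y => zero_mul y) (fun x hx s => by
      have : Unique {y : F // x * y = s} := ⟨⟨⟨s / x, mul_div_cancel₀ s hx⟩⟩, fun y =>
        Subtype.ext (by
          change y.1 = s / x
          rw [eq_div_iff hx, mul_comm, y.2])⟩
      exact Nat.card_unique) c
  rw [mul_one] at h
  exact h

/-- Zeros of `x ⬝ᵥ y + c t`. -/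
theorem card_zeros_dot {F T I : Type*} [Field F] [Finite F] [Finite T] [Fintype I] (c : T → F) :
    Nat.card {p : (I → F) × (I → F) × T // p.1 ⬝ᵥ p.2.1 + c p.2.2 = 0} =
      Nat.card F ^ Fintype.card I * Nat.card {t // c t = 0} +
        (Nat.card F ^ Fintype.card I - 1) * Nat.card F ^ (Fintype.card I - 1) * Nat.card T := by
  classical
  have hcard : Nat.card (I → F) = Nat.card F ^ Fintype.card I := by
    rw [Nat.card_fun, Nat.card_eq_fintype_card (α := I)]
  have h := card_zeros_pairing (X := I → F) (Y := I → F) (0 : I → F) (fun a b => a ⬝ᵥ b)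
    (Nat.card F ^ (Fintype.card I - 1))
    (fun y => zero_dotProduct y) (fun x hx s => by
      have hI : 0 < Fintype.card I := by
        rw [Fintype.card_pos_iff]
        by_contra hI
        rw [not_nonempty_iff] at hI
        exact hx (Subsingleton.elim _ _)
      have h1 := card_fibre_mul (dotProductBilin F F x) (fun h => hx (by
        ext i
        have := LinearMap.congr_fun h (Pi.single i 1)
        simpa using this)) s
      rw [hcard] at h1
      have h2 : Nat.card F ^ Fintype.card I = Nat.card F ^ (Fintype.card I - 1) * Nat.card F := by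
        rw [← pow_succ, Nat.sub_add_cancel hI]
      rw [h2] at h1
      exact Nat.eq_of_mul_eq_mul_right Nat.card_pos h1) c
  rw [hcard] at h
  exact h

end Cfsg.Agent.H6
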