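import Cfsg.Agent.Lib_helper6_WittCard

/-! Setwise stabilisers for a general invariant `β`; orthogonal decompositions. -/

set_option autoImplicit false

namespace Cfsg.Agent.H6

variable {F V α : Type*} [Field F] [AddCommGroup V] [Module F V]

/-- The setwise stabiliser of a subspace in `IsomOf β`. -/
def StabOf (β : V → V → α) (W : Submodule F V) : Subgroup (V ≃ₗ[F] V) where
  carrier := {g | g ∈ IsomOf (F := F) β ∧ ∀ v, v ∈ W ↔ g v ∈ W}
  mul_mem' {a b} ha hb := ⟨mul_mem ha.1 hb.1, fun v => by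
    rw [LinearEquiv.mul_apply]
    exact (hb.2 v).trans (ha.2 _)⟩
  one_mem' := ⟨one_mem _, fun v => Iff.rfl⟩
  inv_mem' {a} ha := ⟨inv_mem ha.1, fun v => by
    have h := ha.2 (a⁻¹ v)
    rw [← LinearEquiv.mul_apply, mul_inv_cancel] at h
    exact h.symm⟩

theorem mem_StabOf {β : V → V → α} {W : Submodule F V} {g : V ≃ₗ[F] V} :
    g ∈ StabOf β W ↔ g ∈ IsomOf (F := F) β ∧ ∀ v, v ∈ W ↔ g v ∈ W := Iff.rfl

/-- Restriction of the stabiliser to the subspace. -/
def resHomOf (β : V → V → α) (W : Submodule F V) : StabOf β W →* (W ≃ₗ[F] W) where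
  toFun g := LinearEquiv.ofLinearMap
    (g.1.toLinearMap.restrict fun v hv => (g.2.2 v).mp hv)
    ((g⁻¹).1.toLinearMap.restrict fun v hv => ((g⁻¹).2.2 v).mp hv)
    (by
      ext v
      change g.1 ((g.1)⁻¹ (v : V)) = v
      rw [← LinearEquiv.mul_apply, mul_inv_cancel]; rfl)
    (by
      ext v
      change (g.1)⁻¹ (g.1 (v : V)) = v
      rw [← LinearEquiv.mul_apply, inv_mul_cancel]; rfl)
  map_one' := by ext; rfl
  map_mul' a b := by ext; rfl

theorem resHomOf_apply {β : V → V → α} (W : Submodule F V) (g : StabOf β W) (w : W) :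
    ((resHomOf β W g w : W) : V) = g.1 (w : V) := rfl

theorem card_ker_resHomOf {β : V → V → α} (W : Submodule F V) :
    Nat.card (resHomOf β W).ker = Nat.card (PSOf β W) := by
  refine Nat.card_congr ⟨fun g => ⟨g.1.1, g.1.2.1, fun z hz => ?_⟩,
    fun g => ⟨⟨g.1, g.2.1, fun v => ?_⟩, ?_⟩, fun g => rfl, fun g => rfl⟩
  · have := MonoidHom.mem_ker.mp g.2
    have h2 := congrArg (fun e : W ≃ₗ[F] W => ((e ⟨z, hz⟩ : W) : V)) this
    exact h2
  · constructor
    · intro hv; rw [g.2.2 v hv]; exact hv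
    · intro hv
      have h1 := g.2.2 _ hv
      have h2 : g.1 v = v := g.1.injective h1
      rw [← h2]; exact hv
  · rw [MonoidHom.mem_ker]
    ext w
    exact g.2.2 w w.2

/-- The restriction of `β` to a subspace. -/
def resβ (β : V → V → α) (W : Submodule F V) : W → W → α := fun x y => β (x : V) (y : V)

theorem resHomOf_mem_IsomOf {β : V → V → α} (W : Submodule F V) (g : StabOf β W) :
    resHomOf β W g ∈ IsomOf (F := F) (resβ β W) := by
  intro u v
  exact g.2.1 u v

theorem mem_StabOf_of_forall [FiniteDimensional F V] {β : V → V → α} {W : Submodule F V}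
    {g : V ≃ₗ[F] V} (hg : g ∈ IsomOf (F := F) β) (h : ∀ v ∈ W, g v ∈ W) : g ∈ StabOf β W := by
  refine ⟨hg, fun v => ⟨h v, fun hv => ?_⟩⟩
  have hle : W.map (g : V →ₗ[F] V) ≤ W := by
    rintro _ ⟨w, hw, rfl⟩
    exact h w hw
  have heq : W.map (g : V →ₗ[F] V) = W :=
    Submodule.eq_of_le_of_finrank_eq hle (LinearEquiv.finrank_map_eq g W)
  rw [← heq] at hv
  obtain ⟨w, hw, hwv⟩ := hv
  have : w = v := g.injective hwv
  rw [← this]; exact hw

/-- The stabiliser of `W` maps to the product of the isometry groups of `W` and a complement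
which it also stabilises. -/
def stabToProdOf (β : V → V → α) (W P : Submodule F V) (hle : StabOf β W ≤ StabOf β P) :
    StabOf β W →* IsomOf (F := F) (resβ β W) × IsomOf (F := F) (resβ β P) :=
  MonoidHom.prod ((resHomOf β W).codRestrict _ (resHomOf_mem_IsomOf W))
    (((resHomOf β P).comp (Subgroup.inclusion hle)).codRestrict _
        (fun _ => resHomOf_mem_IsomOf _ _))

theorem stabToProdOf_bijective [FiniteDimensional F V] [Add α] {β : V → V → α}
    (W P : Submodule F V) (hle : StabOf β W ≤ StabOf β P) (hc : IsCompl W P)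
    (hadd : ∀ w ∈ W, ∀ w' ∈ W, ∀ p ∈ P, ∀ p' ∈ P, β (w + p) (w' + p') = β w w' + β p p') :
    Function.Bijective (stabToProdOf β W P hle) := by
  set E := Submodule.prodEquivOfIsCompl W P hc with hE
  constructor
  · intro g g' h
    apply Subtype.ext
    ext v
    obtain ⟨⟨w, p⟩, rfl⟩ := E.surjective v
    rw [hE, Submodule.coe_prodEquivOfIsCompl', map_add, map_add]
    have h1 := congrArg (fun x => (((x.1 : IsomOf (F := F) (resβ β W)) : W ≃ₗ[F] W) w : V)) h
    have h2 := congrArg (fun x => (((x.2 : IsomOf (F := F) (resβ β P)) : P ≃ₗ[F] P) p : V)) h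
    change g.1 (w : V) = g'.1 (w : V) at h1
    change g.1 (p : V) = g'.1 (p : V) at h2
    change g.1 (w : V) + g.1 (p : V) = g'.1 (w : V) + g'.1 (p : V)
    rw [h1, h2]
  · rintro ⟨a, c⟩
    set g : V ≃ₗ[F] V := E.symm.trans ((a.1.prodCongr c.1).trans E) with hg
    have hgE : ∀ (w : W) (p : P),
        g ((w : V) + (p : V)) = ((a.1 w : W) : V) + ((c.1 p : P) : V) := by
      intro w p
      have : (w : V) + (p : V) = E (w, p) := by
        rw [hE, Submodule.coe_prodEquivOfIsCompl']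
      rw [this, hg]
      change E ((a.1.prodCongr c.1) (E.symm (E (w, p)))) = _
      rw [E.symm_apply_apply, hE, Submodule.coe_prodEquivOfIsCompl']
      rfl
    have hgI : g ∈ IsomOf (F := F) β := by
      intro u v
      obtain ⟨⟨w, p⟩, rfl⟩ := E.surjective u
      obtain ⟨⟨w', p'⟩, rfl⟩ := E.surjective v
      rw [hE, Submodule.coe_prodEquivOfIsCompl', Submodule.coe_prodEquivOfIsCompl', hgE, hgE]
      have ha : β ((a.1 w : W) : V) ((a.1 w' : W) : V) = β (w : V) (w' : V) := a.2 w w'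
      have hc' : β ((c.1 p : P) : V) ((c.1 p' : P) : V) = β (p : V) (p' : V) := c.2 p p'
      rw [hadd _ (a.1 w).2 _ (a.1 w').2 _ (c.1 p).2 _ (c.1 p').2, ha, hc']
      exact (hadd _ w.2 _ w'.2 _ p.2 _ p'.2).symm
    have hgW : ∀ w : W, g (w : V) = ((a.1 w : W) : V) := by
      intro w
      have := hgE w 0
      simpa using this
    have hgP : ∀ p : P, g (p : V) = ((c.1 p : P) : V) := by
      intro p
      have := hgE 0 p
      simpa using this
    have hgS : g ∈ StabOf β W := mem_StabOf_of_forall hgI (fun v hv => by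
      rw [hgW ⟨v, hv⟩]; exact (a.1 ⟨v, hv⟩).2)
    refine ⟨⟨g, hgS⟩, ?_⟩
    apply Prod.ext
    · apply Subtype.ext
      ext w
      exact hgW w
    · apply Subtype.ext
      ext p
      exact hgP p

/-- Transport of isometry groups along a linear isometry. -/
def isomOfCongr {V' : Type*} [AddCommGroup V'] [Module F V'] {β : V → V → α} {β' : V' → V' → α}
    (Φ : V ≃ₗ[F] V') (h : ∀ x y, β' (Φ x) (Φ y) = β x y) :
    IsomOf (F := F) β ≃* IsomOf (F := F) β' where
  toFun g := ⟨Φ.symm.trans (g.1.trans Φ), fun u v => by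
    change β' (Φ (g.1 (Φ.symm u))) (Φ (g.1 (Φ.symm v))) = β' u v
    rw [h, g.2, ← h, Φ.apply_symm_apply, Φ.apply_symm_apply]⟩
  invFun g := ⟨Φ.trans (g.1.trans Φ.symm), fun u v => by
    change β (Φ.symm (g.1 (Φ u))) (Φ.symm (g.1 (Φ v))) = β u v
    rw [← h, Φ.apply_symm_apply, Φ.apply_symm_apply, g.2, h]⟩
  left_inv g := by
    apply Subtype.ext
    ext x
    change Φ.symm (Φ (g.1 (Φ.symm (Φ x)))) = g.1 x
    simp
  right_inv g := by
    apply Subtype.ext
    ext x
    change Φ (Φ.symm (g.1 (Φ (Φ.symm x)))) = g.1 x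
    simp
  map_mul' a b := by
    apply Subtype.ext
    ext x
    change Φ (a.1 (b.1 (Φ.symm x))) = Φ (a.1 (Φ.symm (Φ (b.1 (Φ.symm x)))))
    simp

end Cfsg.Agent.H6
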