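import Cfsg.Agent.Lib_helper6_Quad
import Cfsg.Agent.Lib_helper6_WittCard
import Cfsg.Agent.Lib_helper6_StabProd
import Cfsg.Agent.Lib_helper6_QuadCount

/-! Hyperbolic pairs in a quadratic space: splitting, zero count recursion, order recursion. -/

set_option autoImplicit false

namespace Cfsg.Agent.H6.Quad

variable {F V : Type*} [Field F] [AddCommGroup V] [Module F V] {Q : QuadraticForm F V}

theorem exists_hyp_partner (hQ : (pol Q).Nondegenerate) {e : V} (he : e ≠ 0) (hQe : Q e = 0) :
    ∃ f, Q f = 0 ∧ pol Q e f = 1 := by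
  obtain ⟨w, hw⟩ : ∃ w, pol Q e w ≠ 0 := by
    by_contra h
    push Not at h
    exact he (hQ.1 e h)
  have h1 : pol Q e ((pol Q e w)⁻¹ • w) = 1 := by
    rw [map_smul, smul_eq_mul, inv_mul_cancel₀ hw]
  generalize (pol Q e w)⁻¹ • w = w' at h1
  refine ⟨w' - Q w' • e, ?_, ?_⟩
  · rw [Q_sub, Q_smul, hQe, map_smul, pol_comm w' e, h1]; simp
  · rw [map_sub, map_smul, pol_self, hQe, h1]; simp

/-- A hyperbolic pair. -/
structure HypPair (Q : QuadraticForm F V) (e f : V) : Prop where
  e0 : Q e = 0
  f0 : Q f = 0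
  ef : pol Q e f = 1

/-- The orthogonal complement of a pair of vectors. -/
def compl (Q : QuadraticForm F V) (e f : V) : Submodule F V :=
  LinearMap.ker (pol Q e) ⊓ LinearMap.ker (pol Q f)

theorem mem_compl {e f v : V} : v ∈ compl Q e f ↔ pol Q e v = 0 ∧ pol Q f v = 0 := Iff.rfl

/-- The restriction of a quadratic form to a subspace. -/
def resQ (Q : QuadraticForm F V) (P : Submodule F V) : QuadraticForm F P := Q.comp P.subtype

theorem resQ_apply (P : Submodule F V) (p : P) : resQ Q P p = Q (p : V) := rfl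

theorem pol_resQ (P : Submodule F V) (p p' : P) : pol (resQ Q P) p p' = pol Q (p : V) (p' : V) := by
  rw [QuadraticMap.polarBilin_apply_apply, QuadraticMap.polarBilin_apply_apply]
  rfl

namespace HypPair

variable {e f : V} (h : HypPair Q e f)
include h

theorem fe : pol Q f e = 1 := by rw [pol_comm, h.ef]

theorem ee : pol Q e e = 0 := by rw [pol_self, h.e0, mul_zero]

theorem ff : pol Q f f = 0 := by rw [pol_self, h.f0, mul_zero]

theorem proj_mem (v : V) : v - pol Q f v • e - pol Q e v • f ∈ compl Q e f := by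
  rw [mem_compl]
  constructor
  · simp only [map_sub, map_smul, h.ee, h.ef, smul_eq_mul]; ring
  · simp only [map_sub, map_smul, h.ff, h.fe, smul_eq_mul]; ring

theorem Q_decomp (a b : F) {p : V} (hp : p ∈ compl Q e f) :
    Q (a • e + b • f + p) = a * b + Q p := by
  obtain ⟨h1, h2⟩ := mem_compl.mp hp
  rw [Q_add, Q_add, Q_smul, Q_smul, h.e0, h.f0]
  simp only [map_add, map_smul, LinearMap.add_apply, LinearMap.smul_apply, h.ef, h1, h2,
    smul_eq_mul]
  ring

/-- The splitting `V ≃ F × F × P`. -/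
def split : V ≃ₗ[F] F × F × compl Q e f where
  toFun v := (pol Q f v, pol Q e v, ⟨v - pol Q f v • e - pol Q e v • f, h.proj_mem v⟩)
  map_add' v w := by
    refine Prod.ext (map_add _ _ _) (Prod.ext (map_add _ _ _) (Subtype.ext ?_))
    simp only [map_add, Prod.snd_add, Submodule.coe_add]
    module
  map_smul' c v := by
    refine Prod.ext (map_smul _ _ _) (Prod.ext (map_smul _ _ _) (Subtype.ext ?_))
    simp only [map_smul, RingHom.id_apply, Prod.smul_snd, Submodule.coe_smul, smul_eq_mul]
    module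
  invFun t := t.1 • e + t.2.1 • f + (t.2.2 : V)
  left_inv v := by simp
  right_inv t := by
    obtain ⟨a, b, p, hp⟩ := t
    obtain ⟨h1, h2⟩ := mem_compl.mp hp
    refine Prod.ext ?_ (Prod.ext ?_ (Subtype.ext ?_))
    · simp only [map_add, map_smul, smul_eq_mul, h.fe, h.ff, h2]; ring
    · simp only [map_add, map_smul, smul_eq_mul, h.ee, h.ef, h1]; ring
    · simp only [map_add, map_smul, smul_eq_mul, h.fe, h.ff, h2, h.ee, h.ef, h1]; module

theorem split_symm_apply (t : F × F × compl Q e f) :
    h.split.symm t = t.1 • e + t.2.1 • f + (t.2.2 : V) := rfl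

theorem split_apply_fst (v : V) : (h.split v).1 = pol Q f v := rfl

theorem split_apply_snd (v : V) : (h.split v).2.1 = pol Q e v := rfl

theorem decomp (v : V) : v = pol Q f v • e + pol Q e v • f + ((h.split v).2.2 : V) :=
  (h.split.symm_apply_apply v).symm

theorem Q_split_symm (t : F × F × compl Q e f) :
    Q (h.split.symm t) = t.1 * t.2.1 + resQ Q (compl Q e f) t.2.2 := by
  rw [split_symm_apply, h.Q_decomp _ _ t.2.2.2]; rfl

theorem finrank_eq [FiniteDimensional F V] :
    Module.finrank F V = Module.finrank F (compl Q e f) + 2 := by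
  rw [h.split.finrank_eq, Module.finrank_prod, Module.finrank_prod, Module.finrank_self]
  omega

theorem nondeg_compl (hQ : (pol Q).Nondegenerate) :
    (pol (resQ Q (compl Q e f))).Nondegenerate := by
  have key : ∀ p : compl Q e f, (∀ p', pol (resQ Q (compl Q e f)) p p' = 0) → p = 0 := by
    intro p hp
    apply Subtype.ext
    apply hQ.1
    intro v
    obtain ⟨h1, h2⟩ := mem_compl.mp p.2
    rw [h.decomp v, map_add, map_add, map_smul, map_smul, pol_comm _ e, pol_comm _ f, h1, h2,
      ← pol_resQ, hp]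
    simp
  exact ⟨key, fun p hp => key p fun p' => by rw [pol_comm]; exact hp p'⟩

theorem card_zeros [Finite F] [FiniteDimensional F V] :
    Nat.card {v : V // Q v = 0} =
      Nat.card F * Nat.card {p : compl Q e f // resQ Q (compl Q e f) p = 0} +
        (Nat.card F - 1) * Nat.card (compl Q e f) := by
  have : Finite V := Module.finite_of_finite F
  rw [← card_zeros_hyp]
  exact Nat.card_congr (h.split.toEquiv.subtypeEquiv fun v => by
    conv_lhs => rw [← h.split.symm_apply_apply v, h.Q_split_symm]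
    rfl)

theorem card_partners :
    Nat.card {y : V // Q y = 0 ∧ pol Q e y = 1} = Nat.card (compl Q e f) := by
  refine Nat.card_congr ⟨fun y => (h.split y.1).2.2,
    fun p => ⟨(-Q (p : V)) • e + (1 : F) • f + (p : V), ?_, ?_⟩, fun y => ?_, fun p => ?_⟩
  · rw [h.Q_decomp _ _ p.2]; ring
  · obtain ⟨h1, h2⟩ := mem_compl.mp p.2
    simp only [map_add, map_smul, smul_eq_mul, h.ee, h.ef, h1]; ring
  · apply Subtype.ext
    have h1 := h.decomp y.1
    have h2 := y.2.1
    rw [h1, h.Q_decomp _ _ (h.split y.1).2.2.2, y.2.2, mul_one] at h2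
    change (-Q ((h.split y.1).2.2 : V)) • e + (1 : F) • f + ((h.split y.1).2.2 : V) = y.1
    conv_rhs => rw [h1, y.2.2]
    rw [← eq_neg_of_add_eq_zero_left h2]
  · have := h.split.apply_symm_apply (-Q (p : V), (1 : F), p)
    rw [split_symm_apply] at this
    exact congrArg (fun t => t.2.2) this

end HypPair

theorem card_PS_step [FiniteDimensional F V] (hQ : (pol Q).Nondegenerate) (W : Submodule F V)
    {x : V} (hx : x ∉ W) :
    Nat.card (PSOf (bet Q) W) =
      Nat.card {y : V // y ∉ W ∧ (∀ z ∈ W, pol Q z y = pol Q z x) ∧ Q y = Q x} *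
        Nat.card (PSOf (bet Q) (W ⊔ Submodule.span F {x})) := by
  rw [card_PSOf_step (moving hQ) W hx]
  congr 1
  refine Nat.card_congr (Equiv.subtypeEquivRight fun y => ?_)
  constructor
  · rintro ⟨h1, h2, -, -⟩
    have hn : Q y = Q x := by
      have := h2 0 (zero_mem _)
      simpa [bet] using this
    refine ⟨h1, fun z hz => ?_, hn⟩
    have h3 : Q (z + y) = Q (z + x) := h2 z hz
    rw [Q_add, Q_add, hn] at h3
    linear_combination h3
  · rintro ⟨h1, h2, h3⟩
    refine ⟨h1, fun z hz => ?_, fun z hz => ?_, ?_⟩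
    · change Q (z + y) = Q (z + x)
      rw [Q_add, Q_add, h3, h2 z hz]
    · change Q (y + z) = Q (x + z)
      rw [add_comm y, add_comm x, Q_add, Q_add, h3, h2 z hz]
    · change Q (y + y) = Q (x + x)
      rw [Q_add, Q_add, pol_self, pol_self, h3]

theorem resβ_bet (P : Submodule F V) : resβ (bet Q) P = bet (resQ Q P) := rfl

namespace HypPair

variable {e f : V} (h : HypPair Q e f)
include h

theorem split_e : h.split e = (1, 0, 0) := by
  rw [← LinearEquiv.eq_symm_apply, split_symm_apply]; simp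

theorem split_f : h.split f = (0, 1, 0) := by
  rw [← LinearEquiv.eq_symm_apply, split_symm_apply]; simp

theorem split_coe (p : compl Q e f) : h.split (p : V) = (0, 0, p) := by
  rw [← LinearEquiv.eq_symm_apply, split_symm_apply]; simp

theorem e_ne_zero : e ≠ 0 := by
  intro h0
  have := h.ef
  rw [h0] at this
  simp at this

omit h in
theorem mem_PS_pair {g : V ≃ₗ[F] V} :
    g ∈ PSOf (bet Q) (⊥ ⊔ Submodule.span F {e} ⊔ Submodule.span F {f}) ↔
      (∀ v, Q (g v) = Q v) ∧ g e = e ∧ g f = f := by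
  rw [mem_PSOf, mem_IsomOf_iff]
  constructor
  · rintro ⟨h1, h2⟩
    exact ⟨h1, h2 e (Submodule.mem_sup_left (Submodule.mem_sup_right
      (Submodule.mem_span_singleton_self e))),
      h2 f (Submodule.mem_sup_right (Submodule.mem_span_singleton_self f))⟩
  · rintro ⟨h1, h2, h3⟩
    refine ⟨h1, fun z hz => ?_⟩
    rw [bot_sup_eq] at hz
    obtain ⟨x, hx, y, hy, rfl⟩ := Submodule.mem_sup.mp hz
    obtain ⟨a, rfl⟩ := Submodule.mem_span_singleton.mp hx
    obtain ⟨b, rfl⟩ := Submodule.mem_span_singleton.mp hy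
    rw [map_add, map_smul, map_smul, h2, h3]

theorem card_PS_pair [FiniteDimensional F V] :
    Nat.card (PSOf (bet Q) (⊥ ⊔ Submodule.span F {e} ⊔ Submodule.span F {f})) =
      Nat.card (IsomOf (F := F) (bet (resQ Q (compl Q e f)))) := by
  have hst : ∀ g : PSOf (bet Q) (⊥ ⊔ Submodule.span F {e} ⊔ Submodule.span F {f}),
      g.1 ∈ StabOf (bet Q) (compl Q e f) := by
    intro g
    obtain ⟨h1, h2, h3⟩ := mem_PS_pair.mp g.2
    refine mem_StabOf_of_forall g.2.1 fun v hv => ?_
    obtain ⟨hv1, hv2⟩ := mem_compl.mp hv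
    have hp := pol_map (T := g.1.toLinearMap) h1
    rw [mem_compl]
    constructor
    · have := hp e v
      simp only [LinearEquiv.coe_coe, h2] at this
      rw [this, hv1]
    · have := hp f v
      simp only [LinearEquiv.coe_coe, h3] at this
      rw [this, hv2]
  refine Nat.card_congr (Equiv.ofBijective
    (fun g => ⟨resHomOf (bet Q) (compl Q e f) ⟨g.1, hst g⟩,
      resHomOf_mem_IsomOf (β := bet Q) (compl Q e f) ⟨g.1, hst g⟩⟩) ⟨?_, ?_⟩)
  · intro g g' hgg
    apply Subtype.ext
    ext v
    obtain ⟨-, h2, h3⟩ := mem_PS_pair.mp g.2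
    obtain ⟨-, h2', h3'⟩ := mem_PS_pair.mp g'.2
    have h4 : g.1 ((h.split v).2.2 : V) = g'.1 ((h.split v).2.2 : V) := by
      have := congrArg (fun k : IsomOf (F := F) (bet (resQ Q (compl Q e f))) =>
        ((k.1 (h.split v).2.2 : compl Q e f) : V)) hgg
      exact this
    rw [h.decomp v]
    simp only [map_add, map_smul, h2, h3, h2', h3', h4]
  · intro k
    have hk := mem_IsomOf_iff.mp k.2
    set g : V ≃ₗ[F] V := (h.split.trans ((LinearEquiv.refl F F).prodCongr
      ((LinearEquiv.refl F F).prodCongr k.1))).trans h.split.symm with hg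
    have hgv : ∀ v, g v = h.split.symm ((h.split v).1, (h.split v).2.1, k.1 (h.split v).2.2) :=
      fun v => rfl
    have hmem : g ∈ PSOf (bet Q) (⊥ ⊔ Submodule.span F {e} ⊔ Submodule.span F {f}) := by
      rw [mem_PS_pair]
      refine ⟨fun v => ?_, ?_, ?_⟩
      · rw [hgv, h.Q_split_symm]
        conv_rhs => rw [← h.split.symm_apply_apply v, h.Q_split_symm]
        simp only [hk]
      · rw [hgv, h.split_e, split_symm_apply]; simp
      · rw [hgv, h.split_f, split_symm_apply]; simp
    refine ⟨⟨g, hmem⟩, ?_⟩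
    apply Subtype.ext
    ext p
    change g (p : V) = _
    rw [hgv, h.split_coe, split_symm_apply]; simp

theorem card_IsomOf [Finite F] [FiniteDimensional F V] (hQ : (pol Q).Nondegenerate) :
    Nat.card (IsomOf (F := F) (bet Q)) =
      (Nat.card {v : V // Q v = 0} - 1) * Nat.card (compl Q e f) *
        Nat.card (IsomOf (F := F) (bet (resQ Q (compl Q e f)))) := by
  have : Finite V := Module.finite_of_finite F
  have he : e ∉ (⊥ : Submodule F V) := fun h0 => h.e_ne_zero ((Submodule.mem_bot F).mp h0)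
  have hf : f ∉ (⊥ : Submodule F V) ⊔ Submodule.span F {e} := by
    rw [bot_sup_eq]
    intro h0
    obtain ⟨a, rfl⟩ := Submodule.mem_span_singleton.mp h0
    have := h.ef
    rw [map_smul, h.ee] at this
    simp at this
  rw [← PSOf_bot, card_PS_step hQ ⊥ he, card_PS_step hQ _ hf, h.card_PS_pair, ← mul_assoc]
  congr 2
  · have e1 : {y : V // y ∉ (⊥ : Submodule F V) ∧ (∀ z ∈ (⊥ : Submodule F V),
        pol Q z y = pol Q z e) ∧ Q y = Q e} ≃ ↑({v : V | Q v = 0} \ {0}) :=
      Equiv.subtypeEquivRight fun y => by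
        rw [h.e0]
        constructor
        · rintro ⟨h1, -, h3⟩
          exact ⟨h3, fun h0 => h1 ((Submodule.mem_bot F).mpr h0)⟩
        · rintro ⟨h1, h2⟩
          refine ⟨fun h0 => h2 ((Submodule.mem_bot F).mp h0), fun z hz => ?_, h1⟩
          rw [(Submodule.mem_bot F).mp hz]; simp
    rw [Nat.card_congr e1, Nat.card_coe_set_eq, Set.ncard_sdiff_singleton_of_mem (by simp),
      ← Nat.card_coe_set_eq]
    rfl
  · rw [← h.card_partners]
    refine Nat.card_congr (Equiv.subtypeEquivRight fun y => ?_)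
    rw [h.f0]
    constructor
    · rintro ⟨-, h2, h3⟩
      refine ⟨h3, ?_⟩
      rw [h2 e (Submodule.mem_sup_right (Submodule.mem_span_singleton_self e)), h.ef]
    · rintro ⟨h1, h2⟩
      refine ⟨fun h0 => ?_, fun z hz => ?_, h1⟩
      · rw [bot_sup_eq] at h0
        obtain ⟨a, rfl⟩ := Submodule.mem_span_singleton.mp h0
        rw [map_smul, h.ee] at h2
        simp at h2
      · rw [bot_sup_eq] at hz
        obtain ⟨a, rfl⟩ := Submodule.mem_span_singleton.mp hz
        simp only [map_smul, LinearMap.smul_apply, h2, h.ef]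

end HypPair

end Cfsg.Agent.H6.Quad
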