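import Cfsg.Statements.S0290
import Cfsg.Agent.Lib_helper6_QuadCount

set_option autoImplicit false
open Cfsg

namespace Cfsg.Agent.S0290

/-- The minus-type quadratic form on F^(2m), m at least 1, has q^(2m-1) + q^(m-1) - q^m zeros (that is, (q^m + 1)(q^(m-1) - 1) non-zero isotropic vectors). -/
theorem result {F : Type*} [Field F] [Fintype F] {q : ℕ} (hF : Fintype.card F = q) (m : ℕ) (hm : 1 ≤ m) (a b : F) (hab : ∀ z₁ z₂ : F, z₁ ^ 2 + a * z₁ * z₂ + b * z₂ ^ 2 = 0 → z₁ = 0 ∧ z₂ = 0) : Nat.card {v : (Fin (m - 1) ⊕ Fin (m - 1)) ⊕ Fin 2 → F // Cfsg.quadFormMinus (m - 1) F a b v = 0} = q ^ (2 * m - 1) + q ^ (m - 1) - q ^ m := by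
  obtain ⟨k, rfl⟩ : ∃ k, m = k + 1 := ⟨m - 1, by omega⟩
  rw [Nat.add_sub_cancel]
  have e : {v : (Fin k ⊕ Fin k) ⊕ Fin 2 → F // Cfsg.quadFormMinus k F a b v = 0} ≃
      {p : (Fin k → F) × (Fin k → F) × (F × F) // p.1 ⬝ᵥ p.2.1 +
        (fun t : F × F => t.1 ^ 2 + a * t.1 * t.2 + b * t.2 ^ 2) p.2.2 = 0} :=
    ⟨fun v => ⟨(fun i => v.1 (.inl (.inl i)), fun i => v.1 (.inl (.inr i)),
        (v.1 (.inr 0), v.1 (.inr 1))), v.2⟩,
      fun p => ⟨Sum.elim (Sum.elim p.1.1 p.1.2.1) ![p.1.2.2.1, p.1.2.2.2], p.2⟩,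
      fun v => Subtype.ext (by
        ext ((i | i) | i)
        · rfl
        · rfl
        · fin_cases i <;> rfl), fun p => rfl⟩
  rw [Nat.card_congr e, Cfsg.Agent.H6.card_zeros_dot (fun t : F × F => t.1 ^ 2 + a * t.1 * t.2 + b * t.2 ^ 2), Nat.card_eq_fintype_card (α := F), hF,
    Fintype.card_fin]
  have h1 : Nat.card {t : F × F // (fun t : F × F => t.1 ^ 2 + a * t.1 * t.2 + b * t.2 ^ 2) t = 0}
      = 1 := by
    have : Unique {t : F × F // (fun t : F × F => t.1 ^ 2 + a * t.1 * t.2 + b * t.2 ^ 2) t = 0} :=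
      ⟨⟨⟨0, by simp⟩⟩, fun t => Subtype.ext (by
        obtain ⟨h1, h2⟩ := hab _ _ t.2
        exact Prod.ext h1 h2)⟩
    exact Nat.card_unique
  rw [h1, mul_one, Nat.card_prod, Nat.card_eq_fintype_card (α := F), hF]
  have hq : 1 ≤ q := by rw [← hF]; exact Fintype.card_pos
  rcases Nat.eq_zero_or_pos k with rfl | hk
  · simp
  · have e1 : q ^ (k - 1) * (q * q) = q ^ (k + 1) := by
      obtain ⟨j, rfl⟩ : ∃ j, k = j + 1 := ⟨k - 1, by omega⟩
      rw [Nat.add_sub_cancel]; ring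
    have e2 : 2 * (k + 1) - 1 = k + (k + 1) := by omega
    rw [mul_assoc, e1, Nat.sub_mul, one_mul, ← pow_add, e2]
    have h2 : q ^ (k + 1) ≤ q ^ (k + (k + 1)) := Nat.pow_le_pow_right hq (by omega)
    omega

end Cfsg.Agent.S0290
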