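import Cfsg.Agent.Lib_helper6_QuadRefl
import Cfsg.Agent.Lib_helper6_QuadHyp
import Cfsg.Agent.Lib_helper6_QuadStd
import Cfsg.Agent.S0290

/-! Zero count of a quadratic space with a maximal totally singular subspace of half dimension;
the minus type forms have none. -/

set_option autoImplicit false

namespace Cfsg.Agent.H6.Quad

universe u v

theorem pol_eq_zero_of_sing {F : Type*} {V : Type*} [Field F] [AddCommGroup V] [Module F V]
    {Q : QuadraticForm F V} {U : Submodule F V} (hU : ∀ u ∈ U, Q u = 0) {x y : V} (hx : x ∈ U)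
    (hy : y ∈ U) : pol Q x y = 0 := by
  have := Q_add (Q := Q) x y
  rw [hU _ (U.add_mem hx hy), hU x hx, hU y hy] at this
  linear_combination -this

theorem card_zeros_of_lagrangian {F : Type u} [Field F] [Finite F] (m : ℕ) :
    ∀ {V : Type v} [AddCommGroup V] [Module F V] [FiniteDimensional F V] (Q : QuadraticForm F V)
      (_ : (pol Q).Nondegenerate) (_ : Module.finrank F V = 2 * m) (U : Submodule F V)
      (_ : ∀ u ∈ U, Q u = 0) (_ : Module.finrank F U = m),
      Nat.card F * Nat.card {v : V // Q v = 0} =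
        Nat.card F ^ (2 * m) + (Nat.card F - 1) * Nat.card F ^ m := by
  have hq : 1 ≤ Nat.card F := Nat.card_pos
  induction m with
  | zero =>
    intro V _ _ _ Q hQ hV U hU hUm
    have hsub : Subsingleton V := (Module.finrank_zero_iff (R := F)).mp hV
    have : Unique {v : V // Q v = 0} := ⟨⟨⟨0, map_zero Q⟩⟩, fun t => Subtype.ext (Subsingleton.elim _ _)⟩
    rw [@Nat.card_unique {v : V // Q v = 0} _ _]
    simp only [mul_zero, pow_zero, mul_one]
    omega
  | succ m ih =>
    intro V _ _ _ Q hQ hV U hU hUm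
    have hUne : U ≠ ⊥ := by
      rintro rfl
      rw [finrank_bot] at hUm
      omega
    obtain ⟨e, heU, he0⟩ := Submodule.exists_mem_ne_zero_of_ne_bot hUne
    obtain ⟨f, hQf, hef⟩ := exists_hyp_partner hQ he0 (hU e heU)
    have H : HypPair Q e f := ⟨hU e heU, hQf, hef⟩
    have hPd : Module.finrank F (compl Q e f) = 2 * m := by
      have := H.finrank_eq
      omega
    have hKd : m ≤ Module.finrank F ↥(U ⊓ LinearMap.ker (pol Q f)) := by
      have h1 := Submodule.finrank_sup_add_finrank_inf_eq U (LinearMap.ker (pol Q f))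
      have h2 : Module.finrank F ↥(U ⊔ LinearMap.ker (pol Q f)) ≤ Module.finrank F V :=
        Submodule.finrank_le _
      have h3 := LinearMap.finrank_range_add_finrank_ker (pol Q f)
      have h4 : Module.finrank F (LinearMap.range (pol Q f)) ≤ 1 := by
        have := Submodule.finrank_le (LinearMap.range (pol Q f))
        rwa [Module.finrank_self] at this
      omega
    have hKP : (U ⊓ LinearMap.ker (pol Q f)) ≤ (compl Q e f) := by
      intro x hx
      exact ⟨pol_eq_zero_of_sing hU heU hx.1, hx.2⟩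
    have hU'd : Module.finrank F (Submodule.comap (compl Q e f).subtype (U ⊓ LinearMap.ker (pol Q f))) =
        Module.finrank F ↥(U ⊓ LinearMap.ker (pol Q f)) :=
      (Submodule.comapSubtypeEquivOfLe hKP).finrank_eq
    have hU's : ∀ u ∈ (Submodule.comap (compl Q e f).subtype (U ⊓ LinearMap.ker (pol Q f))), resQ Q (compl Q e f) u = 0 := fun u hu => hU _ (show (u : V) ∈ (U ⊓ LinearMap.ker (pol Q f)) from hu).1
    have hPn := H.nondeg_compl hQ
    have hle := two_mul_finrank_le hPn (Submodule.comap (compl Q e f).subtype (U ⊓ LinearMap.ker (pol Q f))) hU's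
    have hU'm : Module.finrank F (Submodule.comap (compl Q e f).subtype (U ⊓ LinearMap.ker (pol Q f))) = m := by omega
    have hrec := ih (resQ Q (compl Q e f)) hPn hPd (Submodule.comap (compl Q e f).subtype (U ⊓ LinearMap.ker (pol Q f))) hU's hU'm
    rw [H.card_zeros, Module.natCard_eq_pow_finrank (K := F) (V := (compl Q e f)), hPd]
    obtain ⟨r, hr⟩ : ∃ r, Nat.card F = r + 1 := ⟨Nat.card F - 1, by omega⟩
    rw [hr] at hrec ⊢
    simp only [Nat.add_sub_cancel] at hrec ⊢
    have e1 : (r + 1) * ((r + 1) * Nat.card {p : (compl Q e f) // resQ Q (compl Q e f) p = 0} + r * (r + 1) ^ (2 * m)) =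
        (r + 1) * ((r + 1) * Nat.card {p : (compl Q e f) // resQ Q (compl Q e f) p = 0}) + (r + 1) * (r * (r + 1) ^ (2 * m)) := by
      ring
    rw [e1, hrec]
    ring

/-- The minus type form has no totally singular subspace of half the dimension. -/
theorem finrank_lt_of_singular_qMinus {F : Type*} [Field F] [Finite F] (k : ℕ) (a b : F)
    (hab : ∀ z₁ z₂ : F, z₁ ^ 2 + a * z₁ * z₂ + b * z₂ ^ 2 = 0 → z₁ = 0 ∧ z₂ = 0)
    (U : Submodule F ((Fin k ⊕ Fin k) ⊕ Fin 2 → F)) (hU : ∀ u ∈ U, qMinus k F a b u = 0) :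
    Module.finrank F U ≤ k := by
  classical
  have := Fintype.ofFinite F
  have hQ := nondeg_qMinus k a b hab
  have hV : Module.finrank F ((Fin k ⊕ Fin k) ⊕ Fin 2 → F) = 2 * (k + 1) := by
    simp; ring
  have h1 := two_mul_finrank_le hQ U hU
  by_contra hcon
  have hUm : Module.finrank F U = k + 1 := by omega
  have h2 := card_zeros_of_lagrangian (k + 1) (qMinus k F a b) hQ hV U hU hUm
  have h3 := Cfsg.Agent.S0290.result (F := F) rfl (k + 1) (by omega) a b hab
  rw [Nat.add_sub_cancel] at h3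
  have h4 : Nat.card {v : (Fin k ⊕ Fin k) ⊕ Fin 2 → F // qMinus k F a b v = 0} =
      Nat.card {v : (Fin k ⊕ Fin k) ⊕ Fin 2 → F // Cfsg.quadFormMinus k F a b v = 0} := by
    simp only [qMinus_apply]
  rw [h4, h3, Nat.card_eq_fintype_card] at h2
  have hq : 2 ≤ Fintype.card F := Fintype.one_lt_card
  obtain ⟨r, hr⟩ : ∃ r, Fintype.card F = r + 2 := ⟨Fintype.card F - 2, by omega⟩
  rw [hr] at h2
  have e0 : 2 * (k + 1) - 1 = 2 * k + 1 := by omega
  have e1 : r + 2 - 1 = r + 1 := by omega
  rw [e0, e1] at h2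
  have h5 : (r + 2) ^ (k + 1) ≤ (r + 2) ^ (2 * k + 1) := Nat.pow_le_pow_right (by omega) (by omega)
  have h6 : (r + 2) * ((r + 2) ^ (2 * k + 1) + (r + 2) ^ k - (r + 2) ^ (k + 1)) + (r + 2) * (r + 2) ^ (k + 1) =
      (r + 2) * ((r + 2) ^ (2 * k + 1) + (r + 2) ^ k) := by
    rw [← Nat.mul_add, Nat.sub_add_cancel (by omega)]
  rw [h2] at h6
  have h7 : (r + 2) ^ (2 * (k + 1)) + (r + 1) * (r + 2) ^ (k + 1) + (r + 2) * (r + 2) ^ (k + 1) =
      (r + 2) * ((r + 2) ^ (2 * k + 1) + (r + 2) ^ k) + (2 * r + 2) * (r + 2) ^ (k + 1) := by ring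
  rw [h6] at h7
  have h8 : 0 < (2 * r + 2) * (r + 2) ^ (k + 1) := by positivity
  omega

end Cfsg.Agent.H6.Quad
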