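import Mathlib
import Cfsg.Agent.Lib_helper6_SL2Conj

set_option autoImplicit false

namespace Cfsg.Agent.H6.NatExt

open SemidirectProduct H6.GL2C

variable (E : Type) [Field E] (k : ℕ)

/-- `SL₂(E)` acting on `k` copies of its natural module (the `2 × k` matrices) -/
noncomputable def phi : Matrix.SpecialLinearGroup (Fin 2) E →*
    MulAut (Multiplicative (Matrix (Fin 2) (Fin k) E)) where
  toFun s :=
    { toFun := fun v => Multiplicative.ofAdd ((s : Matrix (Fin 2) (Fin 2) E) * Multiplicative.toAdd v)
      invFun := fun v => Multiplicative.ofAdd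
        (((s⁻¹ : Matrix.SpecialLinearGroup (Fin 2) E) : Matrix (Fin 2) (Fin 2) E) *
          Multiplicative.toAdd v)
      left_inv := by
        intro v
        simp only [toAdd_ofAdd]
        rw [← Matrix.mul_assoc, ← Matrix.SpecialLinearGroup.coe_mul, inv_mul_cancel]
        simp
      right_inv := by
        intro v
        simp only [toAdd_ofAdd]
        rw [← Matrix.mul_assoc, ← Matrix.SpecialLinearGroup.coe_mul, mul_inv_cancel]
        simp
      map_mul' := by
        intro v w
        simp only [toAdd_mul, Matrix.mul_add, ofAdd_add] }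
  map_one' := by
    ext v
    simp
  map_mul' := by
    intro s t
    ext v
    simp [Matrix.mul_assoc]

theorem phi_apply (s : Matrix.SpecialLinearGroup (Fin 2) E)
    (v : Multiplicative (Matrix (Fin 2) (Fin k) E)) :
    phi E k s v = Multiplicative.ofAdd ((s : Matrix (Fin 2) (Fin 2) E) * Multiplicative.toAdd v) :=
  rfl

/-- the split extension of `k` copies of the natural module by `SL₂(E)` -/
abbrev ExtG : Type := Multiplicative (Matrix (Fin 2) (Fin k) E) ⋊[phi E k]
  Matrix.SpecialLinearGroup (Fin 2) E

variable {E k}

theorem finite_extG [Finite E] : Finite (ExtG E k) :=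
  Finite.of_equiv _ (equivProd (φ := phi E k)).symm

theorem card_extG [Fintype E] : Nat.card (ExtG E k) =
    Fintype.card E ^ (2 * k) * Nat.card (Matrix.SpecialLinearGroup (Fin 2) E) := by
  rw [SemidirectProduct.card]
  congr 1
  rw [Nat.card_congr (Multiplicative.toAdd (α := Matrix (Fin 2) (Fin k) E))]
  show Nat.card (Fin 2 → Fin k → E) = _
  rw [Nat.card_fun, Nat.card_fun, Nat.card_eq_fintype_card, Nat.card_eq_fintype_card,
    Nat.card_eq_fintype_card, Fintype.card_fin, Fintype.card_fin, ← pow_mul, mul_comm]

theorem sq_eq_one_of_fix (h2 : (2 : E) = 0) (s : Matrix.SpecialLinearGroup (Fin 2) E)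
    (v : Matrix (Fin 2) (Fin k) E) (hv : v ≠ 0) (h : (s : Matrix (Fin 2) (Fin 2) E) * v = v) :
    s * s = 1 := by
  obtain ⟨j, hj⟩ : ∃ j, v.col j ≠ 0 := by
    by_contra hcon
    push Not at hcon
    apply hv
    ext i j
    exact congrFun (hcon j) i
  have h1 : ((s : Matrix (Fin 2) (Fin 2) E) - 1).mulVec (v.col j) = 0 := by
    rw [Matrix.sub_mulVec, Matrix.one_mulVec, sub_eq_zero]
    ext i
    exact congrFun (congrFun h i) j
  have hdet : ((s : Matrix (Fin 2) (Fin 2) E) - 1).det = 0 :=
    Matrix.exists_mulVec_eq_zero_iff.mp ⟨_, hj, h1⟩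
  have htr : (s : Matrix (Fin 2) (Fin 2) E).trace = 0 := by
    have hs := s.2
    rw [Matrix.det_fin_two] at hs hdet
    rw [Matrix.trace_fin_two]
    simp only [Matrix.sub_apply, Matrix.one_apply_eq, Matrix.one_apply_ne (show (0 : Fin 2) ≠ 1 by decide),
      Matrix.one_apply_ne (show (1 : Fin 2) ≠ 0 by decide)] at hdet
    linear_combination hs - hdet + h2
  apply Subtype.ext
  rw [Matrix.SpecialLinearGroup.coe_mul, (sq_eq_neg_one_iff s).mpr htr]
  have : (-1 : Matrix (Fin 2) (Fin 2) E) = 1 := by
    rw [neg_eq_iff_add_eq_zero, ← two_smul E (1 : Matrix (Fin 2) (Fin 2) E), h2, zero_smul]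
  rw [this]; rfl

theorem exists_orderOf_iff (h2 : (2 : E) = 0) {p r : ℕ} (hp : p.Prime) (hr : r.Prime)
    (hne : p ≠ r) :
    (∃ h : ExtG E k, orderOf h = p * r) ↔
      ∃ s : Matrix.SpecialLinearGroup (Fin 2) E, orderOf s = p * r := by
  constructor
  · rintro ⟨h, hh⟩
    set s := h.right with hs
    set o := orderOf s with ho
    set y := h ^ o with hy
    have hyr : y.right = 1 := by
      have : y.right = s ^ o := map_pow rightHom h o
      rw [this, ho, pow_orderOf_eq_one]
    have hom : o ∣ p * r := by
      apply orderOf_dvd_of_pow_eq_one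
      have : (h ^ (p * r)).right = s ^ (p * r) := map_pow rightHom h (p * r)
      rw [← this, ← hh, pow_orderOf_eq_one]; rfl
    by_cases hy1 : y = 1
    · refine ⟨s, ?_⟩
      have : p * r ∣ o := by rw [← hh]; exact orderOf_dvd_of_pow_eq_one hy1
      exact Nat.dvd_antisymm hom this
    · exfalso
      have hyy : y * y = 1 := by
        apply SemidirectProduct.ext
        · rw [mul_left, hyr, map_one, MulAut.one_apply, one_left]
          apply Multiplicative.toAdd.injective
          rw [toAdd_mul, toAdd_one, ← two_smul E, h2, zero_smul]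
        · rw [mul_right, hyr, one_mul, one_right]
      have hv : Multiplicative.toAdd y.left ≠ 0 := by
        intro h0
        apply hy1
        apply SemidirectProduct.ext
        · rw [one_left]
          exact Multiplicative.toAdd.injective h0
        · rw [hyr, one_right]
      have hcomm : h * y = y * h := by
        rw [hy, ← pow_succ', ← pow_succ]
      have hfix : (s : Matrix (Fin 2) (Fin 2) E) * Multiplicative.toAdd y.left =
          Multiplicative.toAdd y.left := by
        have h1 := congrArg SemidirectProduct.left hcomm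
        rw [mul_left, mul_left, hyr, map_one, MulAut.one_apply, mul_comm y.left] at h1
        have h3 := mul_left_cancel h1
        rw [phi_apply] at h3
        exact congrArg Multiplicative.toAdd h3
      have hss := sq_eq_one_of_fix h2 s _ hv hfix
      have ho2 : o ∣ 2 := by
        apply orderOf_dvd_of_pow_eq_one
        rw [sq]; exact hss
      have h4 : p * r ∣ 2 * 2 := by
        have h5 : p * r ∣ o * 2 := by
          rw [← hh]
          apply orderOf_dvd_of_pow_eq_one
          rw [pow_mul, sq]; exact hyy
        exact h5.trans (Nat.mul_dvd_mul_right ho2 2)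
      have hp2 : p = 2 := by
        have : p ∣ 2 * 2 := (dvd_mul_right p r).trans h4
        rcases (Nat.Prime.dvd_mul hp).mp this with h | h <;>
          exact (Nat.prime_dvd_prime_iff_eq hp Nat.prime_two).mp h
      have hr2 : r = 2 := by
        have : r ∣ 2 * 2 := (dvd_mul_left r p).trans h4
        rcases (Nat.Prime.dvd_mul hr).mp this with h | h <;>
          exact (Nat.prime_dvd_prime_iff_eq hr Nat.prime_two).mp h
      exact hne (hp2.trans hr2.symm)
  · rintro ⟨s, hs⟩
    exact ⟨inr s, by rw [orderOf_injective inr inr_injective s, hs]⟩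

end Cfsg.Agent.H6.NatExt
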