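import Cfsg.Agent.Lib_helper6_Witt

/-! Witt's lemma inside a subgroup: if the movers can be taken in a subgroup `R` of the isometry
group, then `R` is the whole isometry group. -/

set_option autoImplicit false

namespace Cfsg.Agent.H6

variable {F V α : Type*} [Field F] [AddCommGroup V] [Module F V]

/-- The moving property with movers in a subgroup. -/
def MovingIn (R : Subgroup (V ≃ₗ[F] V)) (β : V → V → α) : Prop :=
  ∀ (W : Submodule F V) (x y : V), x ∉ W → y ∉ W → (∀ z ∈ W, β z y = β z x) →
    (∀ z ∈ W, β y z = β x z) → β y y = β x x →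
    ∃ g ∈ R, (∀ z ∈ W, g z = z) ∧ g y = x

theorem witt_of_movingIn [FiniteDimensional F V] {β : V → V → α} {R : Subgroup (V ≃ₗ[F] V)}
    (hR : R ≤ IsomOf (F := F) β) (hmove : MovingIn R β)
    (X : Submodule F V) (φ : X →ₗ[F] V)
    (hinj : Function.Injective φ) (hφ : ∀ x x' : X, β (φ x) (φ x') = β (x : V) (x' : V)) :
    ∃ g ∈ R, ∀ x : X, g (x : V) = φ x := by
  classical
  have key : ∀ s : Finset X, ∃ g ∈ R, ∀ x ∈ s, g (x : V) = φ x := by
    intro s
    induction s using Finset.induction_on with
    | empty => exact ⟨1, one_mem _, by simp⟩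
    | insert a s ha ih =>
      obtain ⟨g, hgR, hgs⟩ := ih
      have hg := hR hgR
      have hspan : ∀ x ∈ Submodule.span F (s : Set X), g (x : V) = φ x := by
        intro x hx
        exact LinearMap.eqOn_span (f := g.toLinearMap ∘ₗ X.subtype) (g := φ)
          (fun y hy => hgs y hy) hx
      by_cases has : a ∈ Submodule.span F (s : Set X)
      · refine ⟨g, hgR, fun x hx => ?_⟩
        rcases Finset.mem_insert.mp hx with rfl | hx
        · exact hspan _ has
        · exact hgs x hx
      · set W : Submodule F V := (Submodule.span F (s : Set X)).map X.subtype with hW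
        have haW : (a : V) ∉ W := by
          rintro ⟨w, hw, hwa⟩
          have : w = a := Subtype.ext hwa
          exact has (this ▸ hw)
        have hyW : g.symm (φ a) ∉ W := by
          rintro ⟨w, hw, hwa⟩
          have h1 : g (w : V) = φ a := by
            have : (w : V) = g.symm (φ a) := hwa
            rw [this, LinearEquiv.apply_symm_apply]
          rw [hspan w hw] at h1
          exact has (hinj h1 ▸ hw)
        obtain ⟨h, hh, hhW, hha⟩ := hmove W _ _ hyW haW (by
          rintro z ⟨w, hw, rfl⟩
          have : β (g (w : V)) (g (g.symm (φ a))) = β (w : V) (g.symm (φ a)) := hg _ _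
          rw [LinearEquiv.apply_symm_apply, hspan w hw, hφ] at this
          exact this) (by
          rintro z ⟨w, hw, rfl⟩
          have : β (g (g.symm (φ a))) (g (w : V)) = β (g.symm (φ a)) (w : V) := hg _ _
          rw [LinearEquiv.apply_symm_apply, hspan w hw, hφ] at this
          exact this) (by
          have : β (g (g.symm (φ a))) (g (g.symm (φ a))) = β (g.symm (φ a)) (g.symm (φ a)) :=
            hg _ _
          rw [LinearEquiv.apply_symm_apply, hφ] at this
          exact this)
        refine ⟨g * h, mul_mem hgR hh, fun x hx => ?_⟩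
        rw [LinearEquiv.mul_apply]
        rcases Finset.mem_insert.mp hx with rfl | hx
        · rw [hha, LinearEquiv.apply_symm_apply]
        · rw [hhW (x : V) ⟨x, Submodule.subset_span hx, rfl⟩]
          exact hgs x hx
  obtain ⟨S, hS⟩ := (Module.Finite.fg_top : (⊤ : Submodule F X).FG)
  obtain ⟨g, hg, hgS⟩ := key S
  refine ⟨g, hg, fun x => ?_⟩
  exact LinearMap.eqOn_span (f := g.toLinearMap ∘ₗ X.subtype) (g := φ)
    (fun y hy => hgS y hy) (hS ▸ Submodule.mem_top : x ∈ Submodule.span F (S : Set X))

/-- A subgroup of the isometry group containing enough movers is everything. -/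
theorem eq_IsomOf_of_movingIn [FiniteDimensional F V] {β : V → V → α} {R : Subgroup (V ≃ₗ[F] V)}
    (hR : R ≤ IsomOf (F := F) β) (hmove : MovingIn R β) : R = IsomOf (F := F) β := by
  apply le_antisymm hR
  intro h hh
  obtain ⟨g, hg, hgx⟩ := witt_of_movingIn hR hmove ⊤ (h.toLinearMap ∘ₗ (⊤ : Submodule F V).subtype)
    (fun a b hab => Subtype.ext (h.injective hab)) (fun x x' => hh _ _)
  have : g = h := by
    ext v
    exact hgx ⟨v, Submodule.mem_top⟩
  rw [← this]
  exact hg

end Cfsg.Agent.H6
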