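import Cfsg.Agent.Lib_helper6_QuadHyp
import Cfsg.Agent.Lib_helper6_WittGen

/-! Generation of the orthogonal group by reflections. -/

set_option autoImplicit false
set_option linter.unnecessarySeqFocus false

namespace Cfsg.Agent.H6.Quad

variable {F V : Type*} [Field F] [AddCommGroup V] [Module F V] {Q : QuadraticForm F V}

/-- `g` is the reflection along `u`. -/
def IsRefl (Q : QuadraticForm F V) (g : V ≃ₗ[F] V) : Prop :=
  ∃ u, Q u ≠ 0 ∧ ∀ v, g v = v - (pol Q v u / Q u) • u

/-- The subgroup generated by the reflections. -/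
def ReflGrp (Q : QuadraticForm F V) : Subgroup (V ≃ₗ[F] V) := Subgroup.closure {g | IsRefl Q g}

theorem IsRefl.mem_IsomOf {g : V ≃ₗ[F] V} (hg : IsRefl Q g) : g ∈ IsomOf (F := F) (bet Q) := by
  obtain ⟨u, hu, hgv⟩ := hg
  rw [mem_IsomOf_iff]
  intro v
  rw [hgv, Q_sub, Q_smul, map_smul, smul_eq_mul]
  field_simp
  ring

theorem ReflGrp_le : ReflGrp Q ≤ IsomOf (F := F) (bet Q) :=
  (Subgroup.closure_le _).mpr fun _ hg => IsRefl.mem_IsomOf hg

variable [FiniteDimensional F V]

theorem exists_refl_mem (hQ : (pol Q).Nondegenerate) (u : V) (hu : Q u ≠ 0) :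
    ∃ g ∈ ReflGrp Q, ∀ v, g v = v - (pol Q v u / Q u) • u := by
  obtain ⟨g, -, hg⟩ := exists_refl hQ u hu
  exact ⟨g, Subgroup.subset_closure ⟨u, hu, hg⟩, hg⟩

/-- A Siegel transformation along a non-singular vector is a product of two reflections. -/
theorem siegel_mem_of_ne (hQ : (pol Q).Nondegenerate) {u a : V} (hu : Q u = 0)
    (hua : pol Q u a = 0) (ha : Q a ≠ 0) {g : V ≃ₗ[F] V}
    (hg : ∀ v, g v = v + pol Q v a • u - pol Q v u • a - (Q a * pol Q v u) • u) :
    g ∈ ReflGrp Q := by
  have hQb : Q (a - Q a • u) = Q a := by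
    rw [Q_sub, Q_smul, hu, map_smul, pol_comm, hua]; simp
  obtain ⟨r1, hr1, hr1v⟩ := exists_refl_mem hQ a ha
  obtain ⟨r2, hr2, hr2v⟩ := exists_refl_mem hQ (a - Q a • u) (by rw [hQb]; exact ha)
  have : g = r1 * r2 := by
    ext v
    rw [LinearEquiv.mul_apply, hg, hr1v, hr2v, hQb]
    simp only [map_sub, map_smul, LinearMap.sub_apply, LinearMap.smul_apply, smul_eq_mul,
      pol_self a, hua]
    match_scalars <;> field_simp <;> ring
  rw [this]
  exact mul_mem hr1 hr2

omit [FiniteDimensional F V] in
/-- A totally singular subspace has at most half the dimension. -/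
theorem two_mul_finrank_le [FiniteDimensional F V] (hQ : (pol Q).Nondegenerate)
    (W : Submodule F V) (hW : ∀ w ∈ W, Q w = 0) :
    2 * Module.finrank F W ≤ Module.finrank F V := by
  have hle : W ≤ LinearMap.BilinForm.orthogonal (pol Q) W := by
    intro x hx
    rw [LinearMap.BilinForm.mem_orthogonal_iff]
    intro y hy
    change pol Q y x = 0
    have := Q_add (Q := Q) y x
    rw [hW _ (W.add_mem hy hx), hW _ hx, hW _ hy] at this
    linear_combination -this
  have h1 := LinearMap.BilinForm.finrank_orthogonal hQ W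
  have h2 := Submodule.finrank_mono hle
  have h3 := Submodule.finrank_le W
  omega

/-- Splitting a singular vector orthogonal to `u` into two non-singular ones. -/
theorem exists_split [Finite F] (hQ : (pol Q).Nondegenerate)
    (hex : Nat.card F ≠ 2 ∨ Module.finrank F V ≠ 4) {u a : V} (hu0 : u ≠ 0) (hu : Q u = 0)
    (hua : pol Q u a = 0) (ha : Q a = 0) (hau : a ∉ Submodule.span F {u}) :
    ∃ w, pol Q u w = 0 ∧ Q w ≠ 0 ∧ Q (a - w) ≠ 0 := by
  by_cases hq : Nat.card F = 2
  · -- the dimension is at least five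
    have h4 : 4 ≤ Module.finrank F V := by
      have h1 := two_mul_finrank_le hQ (Submodule.span F {u} ⊔ Submodule.span F {a}) (by
        intro w hw
        obtain ⟨x, hx, y, hy, rfl⟩ := Submodule.mem_sup.mp hw
        obtain ⟨s, rfl⟩ := Submodule.mem_span_singleton.mp hx
        obtain ⟨t, rfl⟩ := Submodule.mem_span_singleton.mp hy
        rw [Q_add, Q_smul, Q_smul, hu, ha, map_smul, map_smul, LinearMap.smul_apply, hua]
        simp)
      rw [Submodule.finrank_sup_span_singleton hau, finrank_span_singleton hu0] at h1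
      omega
    have h5 : 5 ≤ Module.finrank F V := by
      rcases hex with h | h
      · exact absurd hq h
      · omega
    obtain ⟨T, hT⟩ : ∃ T, T = LinearMap.ker ((pol Q u).prod (pol Q a)) := ⟨_, rfl⟩
    have hTfr : Module.finrank F V ≤ Module.finrank F T + 2 := by
      rw [hT]
      have h1 := LinearMap.finrank_range_add_finrank_ker ((pol Q u).prod (pol Q a))
      have h3 := Submodule.finrank_le (LinearMap.range ((pol Q u).prod (pol Q a)))
      rw [Module.finrank_prod, Module.finrank_self] at h3
      omega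
    obtain ⟨w, hwT, hQw⟩ : ∃ w ∈ T, Q w ≠ 0 := by
      by_contra hcon
      push Not at hcon
      have := two_mul_finrank_le hQ T hcon
      omega
    rw [hT, LinearMap.mem_ker] at hwT
    have huw : pol Q u w = 0 := congrArg Prod.fst hwT
    have haw : pol Q a w = 0 := congrArg Prod.snd hwT
    refine ⟨w, huw, hQw, ?_⟩
    rw [Q_sub, ha, haw]
    simpa using hQw
  · obtain ⟨s, hs0, hs1⟩ : ∃ s : F, s ≠ 0 ∧ s ≠ 1 := by
      by_contra hcon
      push Not at hcon
      apply hq
      rw [Nat.card_eq_two_iff]
      refine ⟨0, 1, zero_ne_one, ?_⟩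
      rw [Set.eq_univ_iff_forall]
      intro x
      by_cases hx : x = 0
      · left; exact hx
      · right; exact hcon x hx
    obtain ⟨w0, hw0u, haw0⟩ := exists_orth_nonorth hQ _ hau
    obtain ⟨b, hub, hab⟩ : ∃ b, pol Q u b = 0 ∧ pol Q a b = 1 :=
      ⟨(pol Q a w0)⁻¹ • w0, by
        rw [map_smul, hw0u u (Submodule.mem_span_singleton_self u), smul_zero], by
        rw [map_smul, smul_eq_mul, inv_mul_cancel₀ haw0]⟩
    have hQb' : Q (b - Q b • a) = 0 := by
      rw [Q_sub, Q_smul, ha, map_smul, pol_comm, hab]; simp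
    have hab' : pol Q a (b - Q b • a) = 1 := by
      rw [map_sub, map_smul, pol_self, ha, hab]; simp
    have hub' : pol Q u (b - Q b • a) = 0 := by
      rw [map_sub, map_smul, hub, hua]; simp
    generalize b - Q b • a = b' at hQb' hab' hub'
    refine ⟨s • a + b', ?_, ?_, ?_⟩
    · rw [map_add, map_smul, hua, hub']; simp
    · rw [Q_add, Q_smul, ha, hQb', map_smul, LinearMap.smul_apply, hab']
      simpa using hs0
    · have e : a - (s • a + b') = (1 - s) • a - b' := by module
      rw [e, Q_sub, Q_smul, ha, hQb', map_smul, LinearMap.smul_apply, hab']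
      simp only [mul_zero, add_zero, smul_eq_mul, mul_one, zero_sub, neg_sub]
      exact sub_ne_zero.mpr hs1

/-- Every Siegel transformation is a product of reflections. -/
theorem siegel_mem [Finite F] (hQ : (pol Q).Nondegenerate)
    (hex : Nat.card F ≠ 2 ∨ Module.finrank F V ≠ 4) {u a : V} (hu : Q u = 0)
    (hua : pol Q u a = 0) {g : V ≃ₗ[F] V}
    (hg : ∀ v, g v = v + pol Q v a • u - pol Q v u • a - (Q a * pol Q v u) • u) :
    g ∈ ReflGrp Q := by
  by_cases ha : Q a = 0
  · by_cases hau : a ∈ Submodule.span F {u}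
    · obtain ⟨s, rfl⟩ := Submodule.mem_span_singleton.mp hau
      have : g = 1 := by
        ext v
        rw [hg, ha, map_smul, smul_eq_mul]
        simp only [zero_mul, zero_smul, sub_zero, LinearEquiv.coe_one, id_eq]
        module
      rw [this]
      exact one_mem _
    · by_cases hu0 : u = 0
      · have : g = 1 := by
          ext v
          rw [hg, hu0]
          simp
        rw [this]
        exact one_mem _
      obtain ⟨w, huw, hQw, hQaw⟩ := exists_split hQ hex hu0 hu hua ha hau
      obtain ⟨g1, -, hg1⟩ := exists_siegel hQ u w hu huw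
      obtain ⟨g2, -, hg2⟩ := exists_siegel hQ u (a - w) hu (by rw [map_sub, hua, huw, sub_zero])
      have : g = g1 * g2 := by
        ext v
        rw [LinearEquiv.mul_apply, hg, hg1, hg2]
        have huu : pol Q u u = 0 := by rw [pol_self, hu, mul_zero]
        have hwu : pol Q w u = 0 := by rw [pol_comm, huw]
        have hau' : pol Q a u = 0 := by rw [pol_comm, hua]
        have hQ2 : Q (a - w) = Q w - pol Q a w := by rw [Q_sub, ha]; ring
        simp only [map_sub, map_add, map_smul, LinearMap.sub_apply, LinearMap.add_apply,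
          LinearMap.smul_apply, smul_eq_mul, huu, hwu, hau', huw, ha, hQ2, pol_self w]
        match_scalars <;> ring
      rw [this]
      exact mul_mem (siegel_mem_of_ne hQ hu huw hQw hg1)
        (siegel_mem_of_ne hQ hu (by rw [map_sub, hua, huw, sub_zero]) hQaw hg2)
  · exact siegel_mem_of_ne hQ hu hua ha hg

/-- The moving lemma with movers in the group generated by the reflections. -/
theorem exists_fix_map_refl [Finite F] (hQ : (pol Q).Nondegenerate)
    (hex : Nat.card F ≠ 2 ∨ Module.finrank F V ≠ 4) (W : Submodule F V) {x y : V}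
    (hx : x ∉ W) (hy : y ∉ W) (hxy : ∀ z ∈ W, pol Q z y = pol Q z x) (hn : Q y = Q x) :
    ∃ g ∈ ReflGrp Q, (∀ z ∈ W, g z = z) ∧ g y = x := by
  set u := y - x with hu
  have huW : ∀ z ∈ W, pol Q z u = 0 := fun z hz => by rw [hu, map_sub, hxy z hz, sub_self]
  have hyu : pol Q y u = Q u := by
    have h1 : x = y - u := by rw [hu]; abel
    have h2 := Q_sub (Q := Q) y u
    rw [← h1, hn] at h2
    linear_combination h2
  by_cases hQu : Q u = 0
  · by_cases hyW : y ∈ W ⊔ Submodule.span F {u}
    · -- case (3)
      obtain ⟨w, hw, t, ht, hwt⟩ := Submodule.mem_sup.mp hyW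
      obtain ⟨c, rfl⟩ := Submodule.mem_span_singleton.mp ht
      have hc0 : c ≠ 0 := by
        rintro rfl
        apply hy
        rw [← hwt]; simpa using hw
      have hxw : x = w + (c - 1) • u := by
        have : x = y - u := by rw [hu]; abel
        rw [this, ← hwt]; module
      have hc1 : c - 1 ≠ 0 := by
        intro h
        apply hx
        rw [hxw, h]; simpa using hw
      have huW' : u ∉ W := by
        intro h
        apply hy
        rw [← hwt]
        exact W.add_mem hw (W.smul_mem _ h)
      obtain ⟨a0, ha0W, hua0⟩ := exists_orth_nonorth hQ W huW'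
      obtain ⟨a, haW, hua⟩ : ∃ a, (∀ z ∈ W, pol Q z a = 0) ∧ pol Q u a = 1 :=
        ⟨(pol Q u a0)⁻¹ • a0, fun z hz => by rw [map_smul, ha0W z hz, smul_zero],
          by rw [map_smul, smul_eq_mul, inv_mul_cancel₀ hua0]⟩
      set u' := a - Q a • u with hu'
      have hQu' : Q u' = 0 := by
        rw [hu', Q_sub, Q_smul, hQu, map_smul, pol_comm, hua]; simp
      have huu' : pol Q u u' = 1 := by
        rw [hu', map_sub, map_smul, hua, pol_self, hQu]; simp
      have hu'u : pol Q u' u = 1 := by rw [pol_comm, huu']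
      have hu'W : ∀ z ∈ W, pol Q z u' = 0 := fun z hz => by
        rw [hu', map_sub, map_smul, haW z hz, huW z hz]; simp
      set t := (c - 1) / c with ht
      have ht0 : t ≠ 0 := div_ne_zero hc1 hc0
      have hQa1 : Q (u + t • u') = t := by
        rw [Q_add, Q_smul, hQu, hQu', map_smul, huu']; simp
      have hQa2 : Q (u + u') = 1 := by
        rw [Q_add, hQu, hQu', huu']; simp
      obtain ⟨g1, hg1, hg1v⟩ := exists_refl_mem hQ (u + t • u') (by rw [hQa1]; exact ht0)
      obtain ⟨g2, hg2, hg2v⟩ := exists_refl_mem hQ (u + u') (by rw [hQa2]; exact one_ne_zero)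
      have h1u : g1 u = (-t) • u' := by
        rw [hg1v, hQa1, map_add, map_smul, pol_self, hQu, huu']
        simp only [mul_zero, zero_add, smul_eq_mul, mul_one, div_self ht0]
        module
      have h2u' : g2 u' = -u := by
        rw [hg2v, hQa2, map_add, pol_self, hQu', hu'u]
        simp
      refine ⟨g2 * g1, mul_mem hg2 hg1, fun z hz => ?_, ?_⟩
      · have e1 : g1 z = z := by
          rw [hg1v, map_add, map_smul, huW z hz, hu'W z hz]; simp
        have e2 : g2 z = z := by
          rw [hg2v, map_add, huW z hz, hu'W z hz]; simp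
        rw [LinearEquiv.mul_apply, e1, e2]
      · have e1 : g1 w = w := by
          rw [hg1v, map_add, map_smul, huW w hw, hu'W w hw]; simp
        have e2 : g2 w = w := by
          rw [hg2v, map_add, huW w hw, hu'W w hw]; simp
        rw [LinearEquiv.mul_apply, ← hwt, map_add, map_smul, e1, h1u, map_add, map_smul, map_smul,
          e2, h2u', hxw, ht]
        have : c • -((c - 1) / c) • -u = (c * ((c - 1) / c)) • u := by module
        rw [this, mul_div_cancel₀ _ hc0]
    · -- case (2)
      obtain ⟨a0, ha0W, hya0⟩ := exists_orth_nonorth hQ _ hyW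
      obtain ⟨a, haW, hya⟩ : ∃ a, (∀ z ∈ W ⊔ Submodule.span F {u}, pol Q z a = 0) ∧
          pol Q y a = -1 :=
        ⟨(-(pol Q y a0)⁻¹) • a0, fun z hz => by rw [map_smul, ha0W z hz, smul_zero],
          by rw [map_smul, smul_eq_mul, neg_mul, inv_mul_cancel₀ hya0]⟩
      have hua : pol Q u a = 0 :=
        haW u (Submodule.mem_sup_right (Submodule.mem_span_singleton_self u))
      obtain ⟨g, -, hgv⟩ := exists_siegel hQ u a hQu hua
      refine ⟨g, siegel_mem hQ hex hQu hua hgv, fun z hz => ?_, ?_⟩
      · rw [hgv, haW z (Submodule.mem_sup_left hz), huW z hz]; simp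
      · rw [hgv, hya, hyu, hQu, hu]; simp
  · obtain ⟨g, hg, hgv⟩ := exists_refl_mem hQ u hQu
    refine ⟨g, hg, fun z hz => ?_, ?_⟩
    · rw [hgv, huW z hz]; simp
    · rw [hgv, hyu, div_self hQu, hu]; simp

/-- The isometry group is generated by the reflections. -/
theorem ReflGrp_eq [Finite F] (hQ : (pol Q).Nondegenerate)
    (hex : Nat.card F ≠ 2 ∨ Module.finrank F V ≠ 4) : ReflGrp Q = IsomOf (F := F) (bet Q) := by
  apply eq_IsomOf_of_movingIn ReflGrp_le
  intro W x y hx hy hxy _ _
  have hn : Q y = Q x := by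
    have := hxy 0 (zero_mem _)
    simpa [bet] using this
  apply exists_fix_map_refl hQ hex W hx hy ?_ hn
  intro z hz
  have h1 : Q (z + y) = Q (z + x) := hxy z hz
  rw [Q_add, Q_add, hn] at h1
  linear_combination h1

end Cfsg.Agent.H6.Quad
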