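import Cfsg.Agent.Lib_helper6_AltBasis
import Cfsg.Agent.Lib_helper6_QuadRefl

/-! The parity theorem for maximal totally singular subspaces. -/

set_option autoImplicit false

namespace Cfsg.Agent.H6

namespace Alt

variable {F V : Type*} [Field F] [AddCommGroup V] [Module F V] [FiniteDimensional F V]
  {B : LinearMap.BilinForm F V}

/-- An alternating form has even rank. -/
theorem finrank_eq_two_mul_add_ker (hA : B.IsAlt) :
    ∃ m, Module.finrank F V = 2 * m + Module.finrank F (LinearMap.ker B) := by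
  classical
  obtain ⟨m, k, b, h1, h2, h3, h4⟩ := exists_symplectic_basis (B := B) hA
  refine ⟨m, ?_⟩
  have hker : LinearMap.ker B = Submodule.span F (Set.range (fun j => b (Sum.inr j))) := by
    apply le_antisymm
    · intro x hx
      have hx0 : ∀ y, B x y = 0 := by
        intro y
        rw [LinearMap.mem_ker.mp hx]; rfl
      have hexp : ∀ y, B x y = ∑ i, b.repr x (Sum.inl (Sum.inl i)) * B (b (Sum.inl (Sum.inl i))) y +
          ∑ i, b.repr x (Sum.inl (Sum.inr i)) * B (b (Sum.inl (Sum.inr i))) y := by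
        intro y
        conv_lhs => rw [← b.sum_repr x]
        rw [map_sum, LinearMap.sum_apply, Fintype.sum_sum_type, Fintype.sum_sum_type]
        simp only [map_smul, LinearMap.smul_apply, smul_eq_mul, h4, mul_zero, Finset.sum_const_zero,
          add_zero]
      have c1 : ∀ j, b.repr x (Sum.inl (Sum.inl j)) = 0 := by
        intro j
        have := hexp (b (Sum.inl (Sum.inr j)))
        rw [hx0] at this
        simp only [h1, h3, mul_zero, Finset.sum_const_zero, add_zero, mul_ite, mul_one,
          Finset.sum_ite_eq', Finset.mem_univ, if_true] at this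
        exact this.symm
      have c2 : ∀ j, b.repr x (Sum.inl (Sum.inr j)) = 0 := by
        intro j
        have := hexp (b (Sum.inl (Sum.inl j)))
        rw [hx0] at this
        have hs : ∀ i, B (b (Sum.inl (Sum.inr i))) (b (Sum.inl (Sum.inl j))) =
            if i = j then -1 else 0 := by
          intro i
          rw [swap hA, h1]
          by_cases hij : i = j
          · simp [hij]
          · simp [hij, Ne.symm hij]
        simp only [h2, hs, mul_zero, Finset.sum_const_zero, zero_add, mul_ite,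
          Finset.sum_ite_eq', Finset.mem_univ, if_true] at this
        linear_combination this
      rw [← b.sum_repr x, Fintype.sum_sum_type, Fintype.sum_sum_type]
      simp only [c1, c2, zero_smul, Finset.sum_const_zero, zero_add]
      exact Submodule.sum_mem _ fun j _ => Submodule.smul_mem _ _ (Submodule.subset_span ⟨j, rfl⟩)
    · rw [Submodule.span_le]
      rintro _ ⟨j, rfl⟩
      rw [SetLike.mem_coe, LinearMap.mem_ker]
      ext v
      exact h4 j v
  have hli : LinearIndependent F (fun j => b (Sum.inr j)) :=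
    b.linearIndependent.comp _ Sum.inr_injective
  rw [hker, finrank_span_eq_card hli, Module.finrank_eq_card_basis b]
  simp
  ring

end Alt

namespace Quad

variable {F V : Type*} [Field F] [AddCommGroup V] [Module F V] [FiniteDimensional F V]
  {Q : QuadraticForm F V}

theorem pol_eq_zero_of_singular {U : Submodule F V} (hU : ∀ u ∈ U, Q u = 0) {x y : V} (hx : x ∈ U)
    (hy : y ∈ U) : pol Q x y = 0 := by
  have := Q_add (Q := Q) x y
  rw [hU _ (U.add_mem hx hy), hU _ hx, hU _ hy] at this
  linear_combination -this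

/-- A maximal totally singular subspace of half the dimension is its own orthogonal. -/
theorem orthogonal_eq_self (hQ : (pol Q).Nondegenerate) {m : ℕ} (hV : Module.finrank F V = 2 * m)
    {U : Submodule F V} (hUm : Module.finrank F U = m) (hU : ∀ u ∈ U, Q u = 0) :
    (pol Q).orthogonal U = U := by
  symm
  apply Submodule.eq_of_le_of_finrank_eq
  · intro x hx
    rw [LinearMap.BilinForm.mem_orthogonal_iff]
    intro y hy
    exact pol_eq_zero_of_singular hU hy hx
  · rw [LinearMap.BilinForm.finrank_orthogonal hQ, hV, hUm]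
    omega

theorem exists_proj (U W : Submodule F V) :
    ∃ π : V →ₗ[F] V, (∀ y, π y ∈ U) ∧ ∀ y ∈ U ⊔ W, y - π y ∈ W := by
  set σ : U × W →ₗ[F] V := LinearMap.coprod U.subtype W.subtype with hσ
  obtain ⟨g, hg⟩ := σ.rangeRestrict.exists_rightInverse_of_surjective
    (LinearMap.range_rangeRestrict σ)
  obtain ⟨s, hs⟩ := LinearMap.exists_extend g
  refine ⟨U.subtype ∘ₗ LinearMap.fst F U W ∘ₗ s, fun y => (s y).1.2, ?_⟩
  intro y hy
  have hy' : y ∈ LinearMap.range σ := by
    obtain ⟨u, hu, w, hw, rfl⟩ := Submodule.mem_sup.mp hy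
    exact ⟨(⟨u, hu⟩, ⟨w, hw⟩), rfl⟩
  have h1 : s y = g ⟨y, hy'⟩ := by
    rw [← hs]; rfl
  have h2 : σ (g ⟨y, hy'⟩) = y := by
    have := LinearMap.congr_fun hg ⟨y, hy'⟩
    exact congrArg Subtype.val this
  have h3 : y = ((s y).1 : V) + ((s y).2 : V) := by
    rw [h1]
    exact h2.symm
  have h4 : y - (U.subtype ∘ₗ LinearMap.fst F U W ∘ₗ s) y = ((s y).2 : V) := by
    change y - ((s y).1 : V) = _
    exact sub_eq_of_eq_add' h3
  rw [h4]
  exact (s y).2.2

/-- The parity theorem. -/
theorem parity (hQ : (pol Q).Nondegenerate) {m : ℕ} (hV : Module.finrank F V = 2 * m)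
    {U W X : Submodule F V} (hUm : Module.finrank F U = m) (hU : ∀ u ∈ U, Q u = 0)
    (hWm : Module.finrank F W = m) (hW : ∀ u ∈ W, Q u = 0)
    (hXm : Module.finrank F X = m) (hX : ∀ u ∈ X, Q u = 0) :
    Even ((m - Module.finrank F ↥(U ⊓ W)) + (m - Module.finrank F ↥(W ⊓ X)) +
      (m - Module.finrank F ↥(U ⊓ X))) := by
  have hrefl : (pol Q).IsRefl := pol_isRefl
  have oU := orthogonal_eq_self hQ hV hUm hU
  have oW := orthogonal_eq_self hQ hV hWm hW
  have oX := orthogonal_eq_self hQ hV hXm hX
  set D := U ⊓ W with hD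
  set Y := X ⊓ (U ⊔ W) with hY
  -- `D^⊥ = U ⊔ W`
  have hDperp : (pol Q).orthogonal D ≤ U ⊔ W := by
    have h1 : (pol Q).orthogonal (U ⊔ W) ≤ D := by
      apply le_inf
      · exact (LinearMap.BilinForm.orthogonal_le le_sup_left).trans oU.le
      · exact (LinearMap.BilinForm.orthogonal_le le_sup_right).trans oW.le
    have h2 := LinearMap.BilinForm.orthogonal_le (B := pol Q) h1
    rwa [LinearMap.BilinForm.orthogonal_orthogonal hQ hrefl] at h2
  have hDUW : ∀ d ∈ D, ∀ y ∈ U ⊔ W, pol Q d y = 0 := by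
    intro d hd y hy
    obtain ⟨u, hu, w, hw, rfl⟩ := Submodule.mem_sup.mp hy
    rw [map_add, pol_eq_zero_of_singular hU hd.1 hu, pol_eq_zero_of_singular hW hd.2 hw, add_zero]
  have hYeq : Y = (pol Q).orthogonal (X ⊔ D) := by
    apply le_antisymm
    · intro y hy
      rw [LinearMap.BilinForm.mem_orthogonal_iff]
      intro z hz
      obtain ⟨x, hx, d, hd, rfl⟩ := Submodule.mem_sup.mp hz
      rw [map_add, LinearMap.add_apply, pol_eq_zero_of_singular hX hx hy.1, hDUW d hd y hy.2,
        add_zero]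
    · apply le_inf
      · exact (LinearMap.BilinForm.orthogonal_le le_sup_left).trans oX.le
      · exact (LinearMap.BilinForm.orthogonal_le le_sup_right).trans hDperp
  have hYperp : (pol Q).orthogonal Y = X ⊔ D := by
    rw [hYeq, LinearMap.BilinForm.orthogonal_orthogonal hQ hrefl]
  obtain ⟨π, hπU, hπW⟩ := exists_proj U W
  set β : LinearMap.BilinForm F Y := (pol Q).comp (π ∘ₗ Y.subtype) Y.subtype with hβ
  have hβapp : ∀ y y' : Y, β y y' = pol Q (π y) y' := fun y y' => rfl
  have hAlt : β.IsAlt := by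
    intro y
    rw [hβapp]
    have h1 : Q (y : V) = 0 := hX _ y.2.1
    have h2 : (y : V) = π y + ((y : V) - π y) := by abel
    have h3 := Q_add (Q := Q) (π y) ((y : V) - π y)
    rw [← h2, h1, hU _ (hπU _), hW _ (hπW _ y.2.2)] at h3
    have h4 : pol Q (π y) (π y) = 0 := by rw [pol_self, hU _ (hπU _), mul_zero]
    have h5 : pol Q (π y) (y : V) = pol Q (π y) (π y) + pol Q (π y) ((y : V) - π y) := by
      rw [← map_add, ← h2]
    rw [h5, h4]
    linear_combination -h3
  have hker : (LinearMap.ker β).map Y.subtype = (X ⊓ U) ⊔ (X ⊓ W) := by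
    apply le_antisymm
    · rintro _ ⟨y, hy, rfl⟩
      have h1 : π y ∈ (pol Q).orthogonal Y := by
        rw [LinearMap.BilinForm.mem_orthogonal_iff]
        intro z hz
        rw [pol_comm]
        have := LinearMap.congr_fun (LinearMap.mem_ker.mp hy) ⟨z, hz⟩
        exact this
      rw [hYperp] at h1
      obtain ⟨x, hx, d, hd, hxd⟩ := Submodule.mem_sup.mp h1
      have hxU : x ∈ U := by
        have : x = π y - d := by rw [← hxd]; abel
        rw [this]
        exact U.sub_mem (hπU _) hd.1
      have e : (y : V) = x + (d + ((y : V) - π y)) := by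
        rw [← add_assoc, hxd]; abel
      change (y : V) ∈ _
      rw [e]
      refine Submodule.add_mem_sup ⟨hx, hxU⟩ ⟨?_, W.add_mem hd.2 (hπW _ y.2.2)⟩
      have : d + ((y : V) - π y) = (y : V) - x := by rw [← hxd]; abel
      rw [this]
      exact X.sub_mem y.2.1 hx
    · intro y hy
      obtain ⟨a, ha, b, hb, rfl⟩ := Submodule.mem_sup.mp hy
      have hyY : a + b ∈ Y := ⟨X.add_mem ha.1 hb.1, Submodule.add_mem_sup ha.2 hb.2⟩
      refine ⟨⟨a + b, hyY⟩, ?_, rfl⟩
      rw [SetLike.mem_coe, LinearMap.mem_ker]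
      ext y'
      rw [hβapp]
      change pol Q (π (a + b)) y' = 0
      have hd : π (a + b) - a ∈ D := by
        refine ⟨U.sub_mem (hπU _) ha.2, ?_⟩
        have : π (a + b) - a = b - ((a + b) - π (a + b)) := by abel
        rw [this]
        exact W.sub_mem hb.2 (hπW _ hyY.2)
      have e : π (a + b) = a + (π (a + b) - a) := by abel
      rw [e, map_add, LinearMap.add_apply, pol_eq_zero_of_singular hX ha.1 y'.2.1,
        hDUW _ hd _ y'.2.2, add_zero]
  obtain ⟨k, hk⟩ := Alt.finrank_eq_two_mul_add_ker hAlt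
  have hkerdim : Module.finrank F (LinearMap.ker β) = Module.finrank F ↥((X ⊓ U) ⊔ (X ⊓ W)) := by
    rw [← hker, Submodule.finrank_map_subtype_eq]
  have d1 : Module.finrank F Y = 2 * m - Module.finrank F ↥(X ⊔ D) := by
    rw [hYeq, LinearMap.BilinForm.finrank_orthogonal hQ, hV]
  have d2 := Submodule.finrank_sup_add_finrank_inf_eq X D
  have d3 := Submodule.finrank_sup_add_finrank_inf_eq (X ⊓ U) (X ⊓ W)
  have e1 : (X ⊓ U) ⊓ (X ⊓ W) = X ⊓ D := by
    rw [hD, ← inf_inf_distrib_left]
  have e2 : W ⊓ X = X ⊓ W := inf_comm _ _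
  have e3 : U ⊓ X = X ⊓ U := inf_comm _ _
  rw [e1] at d3
  rw [e2, e3]
  have b1 : Module.finrank F D ≤ m := hUm ▸ Submodule.finrank_mono inf_le_left
  have b2 : Module.finrank F ↥(X ⊓ W) ≤ m := hXm ▸ Submodule.finrank_mono inf_le_left
  have b3 : Module.finrank F ↥(X ⊓ U) ≤ m := hXm ▸ Submodule.finrank_mono inf_le_left
  have b4 : Module.finrank F ↥(X ⊔ D) ≤ 2 * m := hV ▸ Submodule.finrank_le _
  rw [hkerdim] at hk
  rw [hXm] at d2
  rw [Nat.even_iff]
  omega

end Quad

end Cfsg.Agent.H6
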