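import Cfsg.Agent.Lib_helper6_Witt

/-! Abstract quadratic forms with non-degenerate polar form: reflections, Siegel maps, the moving
lemma and Witt's lemma. -/

set_option autoImplicit false

namespace Cfsg.Agent.H6.Quad

variable {F V : Type*} [Field F] [AddCommGroup V] [Module F V]

/-- The polar form. -/
abbrev pol (Q : QuadraticForm F V) : LinearMap.BilinForm F V := QuadraticMap.polarBilin Q

variable {Q : QuadraticForm F V}

theorem Q_add (x y : V) : Q (x + y) = Q x + Q y + pol Q x y := by
  rw [QuadraticMap.polarBilin_apply_apply, QuadraticMap.polar]; ring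

theorem Q_smul (a : F) (x : V) : Q (a • x) = a * a * Q x := by
  rw [QuadraticMap.map_smul, smul_eq_mul]

theorem pol_comm (x y : V) : pol Q x y = pol Q y x := by
  rw [QuadraticMap.polarBilin_apply_apply, QuadraticMap.polarBilin_apply_apply,
    QuadraticMap.polar_comm]

theorem pol_self (x : V) : pol Q x x = 2 * Q x := by
  rw [QuadraticMap.polarBilin_apply_apply, QuadraticMap.polar_self]; simp

theorem Q_sub (x y : V) : Q (x - y) = Q x + Q y - pol Q x y := by
  rw [sub_eq_add_neg, Q_add, QuadraticMap.map_neg, map_neg]; ring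

theorem pol_isRefl : (pol Q).IsRefl := fun x y h => by rw [pol_comm, h]

/-- The invariant used with the general Witt machinery. -/
def bet (Q : QuadraticForm F V) : V → V → F := fun u v => Q (u + v)

theorem mem_IsomOf_iff {g : V ≃ₗ[F] V} : g ∈ IsomOf (F := F) (bet Q) ↔ ∀ v, Q (g v) = Q v := by
  constructor
  · intro h v
    have := h v 0
    simpa [bet] using this
  · intro h u v
    change Q (g u + g v) = Q (u + v)
    rw [← map_add, h]

theorem pol_map {T : V →ₗ[F] V} (hT : ∀ v, Q (T v) = Q v) (v w : V) :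
    pol Q (T v) (T w) = pol Q v w := by
  have h1 := Q_add (Q := Q) (T v) (T w)
  have h2 := Q_add (Q := Q) v w
  rw [← map_add, hT, hT, hT] at h1
  linear_combination h2 - h1

variable [FiniteDimensional F V]

/-- A `Q`-preserving linear map is an automorphism. -/
noncomputable def ofPreserving (hQ : (pol Q).Nondegenerate) (T : V →ₗ[F] V)
    (hT : ∀ v, Q (T v) = Q v) : V ≃ₗ[F] V :=
  LinearEquiv.ofInjectiveEndo T (by
    rw [← LinearMap.ker_eq_bot, LinearMap.ker_eq_bot']
    intro v hv
    apply hQ.1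
    intro w
    rw [← pol_map hT, hv]; simp)

theorem ofPreserving_apply (hQ : (pol Q).Nondegenerate) (T : V →ₗ[F] V)
    (hT : ∀ v, Q (T v) = Q v) (v : V) : ofPreserving hQ T hT v = T v := rfl

theorem ofPreserving_mem (hQ : (pol Q).Nondegenerate) (T : V →ₗ[F] V)
    (hT : ∀ v, Q (T v) = Q v) : ofPreserving hQ T hT ∈ IsomOf (F := F) (bet Q) :=
  mem_IsomOf_iff.mpr hT

omit [FiniteDimensional F V] in
/-- The reflection along `u`. -/
theorem exists_reflLin (u : V) (hu : Q u ≠ 0) : ∃ T : V →ₗ[F] V,
    (∀ v, T v = v - (pol Q v u / Q u) • u) ∧ ∀ v, Q (T v) = Q v := by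
  refine ⟨LinearMap.id - ((Q u)⁻¹ • (pol Q).flip u).smulRight u, fun v => ?_, fun v => ?_⟩
  · simp [div_eq_inv_mul]
  · have : (LinearMap.id - ((Q u)⁻¹ • (pol Q).flip u).smulRight u : V →ₗ[F] V) v =
        v - (pol Q v u / Q u) • u := by simp [div_eq_inv_mul]
    rw [this, Q_sub, Q_smul, map_smul, smul_eq_mul]
    field_simp
    ring

theorem exists_refl (hQ : (pol Q).Nondegenerate) (u : V) (hu : Q u ≠ 0) :
    ∃ g ∈ IsomOf (F := F) (bet Q), ∀ v, g v = v - (pol Q v u / Q u) • u := by
  obtain ⟨T, hT, hTQ⟩ := exists_reflLin u hu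
  exact ⟨ofPreserving hQ T hTQ, ofPreserving_mem hQ T hTQ, hT⟩

/-- The Siegel transformation. -/
theorem exists_siegel (hQ : (pol Q).Nondegenerate) (u a : V) (hu : Q u = 0)
    (hua : pol Q u a = 0) : ∃ g ∈ IsomOf (F := F) (bet Q),
      ∀ v, g v = v + pol Q v a • u - pol Q v u • a - (Q a * pol Q v u) • u := by
  set T : V →ₗ[F] V := LinearMap.id + ((pol Q).flip a).smulRight u - ((pol Q).flip u).smulRight a -
    (Q a • (pol Q).flip u).smulRight u with hT
  have hTv : ∀ v, T v = v + pol Q v a • u - pol Q v u • a - (Q a * pol Q v u) • u := by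
    intro v; simp [hT]
  have hTQ : ∀ v, Q (T v) = Q v := by
    intro v
    have e : T v = v + ((pol Q v a - Q a * pol Q v u) • u + (-(pol Q v u)) • a) := by
      rw [hTv]; module
    rw [e, Q_add, Q_add, Q_smul, Q_smul, hu]
    simp only [map_add, map_smul, LinearMap.smul_apply, smul_eq_mul, hua]
    ring
  exact ⟨ofPreserving hQ T hTQ, ofPreserving_mem hQ T hTQ, hTv⟩

theorem exists_orth_nonorth (hQ : (pol Q).Nondegenerate) (W : Submodule F V) {x : V}
    (hx : x ∉ W) : ∃ w, (∀ z ∈ W, pol Q z w = 0) ∧ pol Q x w ≠ 0 := by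
  by_contra hcon
  push Not at hcon
  apply hx
  rw [← LinearMap.BilinForm.orthogonal_orthogonal hQ pol_isRefl W,
    LinearMap.BilinForm.mem_orthogonal_iff]
  intro n hn
  rw [LinearMap.BilinForm.mem_orthogonal_iff] at hn
  rw [pol_comm, hcon n hn]

/-- The moving lemma for quadratic forms, in terms of `Q` and its polar form. -/
theorem exists_fix_map (hQ : (pol Q).Nondegenerate) (W : Submodule F V) {x y : V}
    (hx : x ∉ W) (hy : y ∉ W) (hxy : ∀ z ∈ W, pol Q z y = pol Q z x) (hn : Q y = Q x) :
    ∃ g ∈ IsomOf (F := F) (bet Q), (∀ z ∈ W, g z = z) ∧ g y = x := by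
  set u := y - x with hu
  have huW : ∀ z ∈ W, pol Q z u = 0 := fun z hz => by rw [hu, map_sub, hxy z hz, sub_self]
  have hyu : pol Q y u = Q u := by
    have h1 : x = y - u := by rw [hu]; abel
    have h2 := Q_sub (Q := Q) y u
    rw [← h1, hn] at h2
    linear_combination h2
  by_cases hQu : Q u = 0
  · by_cases hyW : y ∈ W ⊔ Submodule.span F {u}
    · -- case (3)
      obtain ⟨w, hw, t, ht, hwt⟩ := Submodule.mem_sup.mp hyW
      obtain ⟨c, rfl⟩ := Submodule.mem_span_singleton.mp ht
      have hc0 : c ≠ 0 := by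
        rintro rfl
        apply hy
        rw [← hwt]; simpa using hw
      have hxw : x = w + (c - 1) • u := by
        have : x = y - u := by rw [hu]; abel
        rw [this, ← hwt]; module
      have hc1 : c - 1 ≠ 0 := by
        intro h
        apply hx
        rw [hxw, h]; simpa using hw
      have huW' : u ∉ W := by
        intro h
        apply hy
        rw [← hwt]
        exact W.add_mem hw (W.smul_mem _ h)
      obtain ⟨a0, ha0W, hua0⟩ := exists_orth_nonorth hQ W huW'
      obtain ⟨a, haW, hua⟩ : ∃ a, (∀ z ∈ W, pol Q z a = 0) ∧ pol Q u a = 1 :=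
        ⟨(pol Q u a0)⁻¹ • a0, fun z hz => by rw [map_smul, ha0W z hz, smul_zero],
          by rw [map_smul, smul_eq_mul, inv_mul_cancel₀ hua0]⟩
      set u' := a - Q a • u with hu'
      have hQu' : Q u' = 0 := by
        rw [hu', Q_sub, Q_smul, hQu, map_smul, pol_comm, hua]; simp
      have huu' : pol Q u u' = 1 := by
        rw [hu', map_sub, map_smul, hua, pol_self, hQu]; simp
      have hu'u : pol Q u' u = 1 := by rw [pol_comm, huu']
      have hu'W : ∀ z ∈ W, pol Q z u' = 0 := fun z hz => by
        rw [hu', map_sub, map_smul, haW z hz, huW z hz]; simp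
      set t := (c - 1) / c with ht
      have ht0 : t ≠ 0 := div_ne_zero hc1 hc0
      have hQa1 : Q (u + t • u') = t := by
        rw [Q_add, Q_smul, hQu, hQu', map_smul, huu']; simp
      have hQa2 : Q (u + u') = 1 := by
        rw [Q_add, hQu, hQu', huu']; simp
      obtain ⟨g1, hg1, hg1v⟩ := exists_refl hQ (u + t • u') (by rw [hQa1]; exact ht0)
      obtain ⟨g2, hg2, hg2v⟩ := exists_refl hQ (u + u') (by rw [hQa2]; exact one_ne_zero)
      have h1u : g1 u = (-t) • u' := by
        rw [hg1v, hQa1, map_add, map_smul, pol_self, hQu, huu']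
        simp only [mul_zero, zero_add, smul_eq_mul, mul_one, div_self ht0]
        module
      have h2u' : g2 u' = -u := by
        rw [hg2v, hQa2, map_add, pol_self, hQu', hu'u]
        simp
      refine ⟨g2 * g1, mul_mem hg2 hg1, fun z hz => ?_, ?_⟩
      · have e1 : g1 z = z := by
          rw [hg1v, map_add, map_smul, huW z hz, hu'W z hz]; simp
        have e2 : g2 z = z := by
          rw [hg2v, map_add, huW z hz, hu'W z hz]; simp
        rw [LinearEquiv.mul_apply, e1, e2]
      · have e1 : g1 w = w := by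
          rw [hg1v, map_add, map_smul, huW w hw, hu'W w hw]; simp
        have e2 : g2 w = w := by
          rw [hg2v, map_add, huW w hw, hu'W w hw]; simp
        rw [LinearEquiv.mul_apply, ← hwt, map_add, map_smul, e1, h1u, map_add, map_smul, map_smul,
          e2, h2u', hxw, ht]
        have : c • -((c - 1) / c) • -u = (c * ((c - 1) / c)) • u := by module
        rw [this, mul_div_cancel₀ _ hc0]
    · -- case (2)
      obtain ⟨a0, ha0W, hya0⟩ := exists_orth_nonorth hQ _ hyW
      obtain ⟨a, haW, hya⟩ : ∃ a, (∀ z ∈ W ⊔ Submodule.span F {u}, pol Q z a = 0) ∧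
          pol Q y a = -1 :=
        ⟨(-(pol Q y a0)⁻¹) • a0, fun z hz => by rw [map_smul, ha0W z hz, smul_zero],
          by rw [map_smul, smul_eq_mul, neg_mul, inv_mul_cancel₀ hya0]⟩
      have hua : pol Q u a = 0 :=
        haW u (Submodule.mem_sup_right (Submodule.mem_span_singleton_self u))
      obtain ⟨g, hg, hgv⟩ := exists_siegel hQ u a hQu hua
      refine ⟨g, hg, fun z hz => ?_, ?_⟩
      · rw [hgv, haW z (Submodule.mem_sup_left hz), huW z hz]; simp
      · rw [hgv, hya, hyu, hQu, hu]; simp
  · obtain ⟨g, hg, hgv⟩ := exists_refl hQ u hQu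
    refine ⟨g, hg, fun z hz => ?_, ?_⟩
    · rw [hgv, huW z hz]; simp
    · rw [hgv, hyu, div_self hQu, hu]; simp

theorem moving (hQ : (pol Q).Nondegenerate) : Moving F (bet Q) := by
  intro W x y hx hy hxy _ _
  have hn : Q y = Q x := by
    have := hxy 0 (zero_mem _)
    simpa [bet] using this
  apply exists_fix_map hQ W hx hy ?_ hn
  intro z hz
  have h1 : Q (z + y) = Q (z + x) := hxy z hz
  rw [Q_add, Q_add, hn] at h1
  linear_combination h1

end Cfsg.Agent.H6.Quad
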