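import Mathlib
import Cfsg.Agent.Lib_helper6_SL2Norm

set_option autoImplicit false

namespace Cfsg.Agent.H6.GL2C

variable {F : Type*} [Field F]

theorem exists_conj_entry (A : Matrix.SpecialLinearGroup (Fin 2) F)
    (hA : NonScalar (A : Matrix (Fin 2) (Fin 2) F)) :
    ∃ P : Matrix.SpecialLinearGroup (Fin 2) F,
      ((P * A * P⁻¹ : Matrix.SpecialLinearGroup (Fin 2) F) : Matrix (Fin 2) (Fin 2) F) 1 0 ≠ 0 := by
  by_cases h10 : (A : Matrix (Fin 2) (Fin 2) F) 1 0 = 0
  · by_cases h01 : (A : Matrix (Fin 2) (Fin 2) F) 0 1 = 0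
    · have hne : (A : Matrix (Fin 2) (Fin 2) F) 0 0 ≠ (A : Matrix (Fin 2) (Fin 2) F) 1 1 := by
        rcases hA with h | h | h
        · exact absurd h01 h
        · exact absurd h10 h
        · exact h
      obtain ⟨P, hP⟩ : ∃ P : Matrix.SpecialLinearGroup (Fin 2) F,
          (P : Matrix (Fin 2) (Fin 2) F) = !![1, 0; 1, 1] :=
        ⟨⟨_, by simp [Matrix.det_fin_two_of]⟩, rfl⟩
      refine ⟨P, ?_⟩
      rw [Matrix.SpecialLinearGroup.coe_mul, Matrix.SpecialLinearGroup.coe_mul,
        Matrix.SpecialLinearGroup.coe_inv, hP, Matrix.adjugate_fin_two,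
        Matrix.eta_fin_two (A : Matrix (Fin 2) (Fin 2) F), h10, h01]
      simp only [Matrix.mul_fin_two, Matrix.of_apply, Matrix.cons_val_zero, Matrix.cons_val_one,
        Matrix.cons_val', Matrix.cons_val_fin_one]
      intro h
      apply hne
      linear_combination h
    · obtain ⟨P, hP⟩ : ∃ P : Matrix.SpecialLinearGroup (Fin 2) F,
          (P : Matrix (Fin 2) (Fin 2) F) = !![0, 1; -1, 0] :=
        ⟨⟨_, by simp [Matrix.det_fin_two_of]⟩, rfl⟩
      refine ⟨P, ?_⟩
      rw [Matrix.SpecialLinearGroup.coe_mul, Matrix.SpecialLinearGroup.coe_mul,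
        Matrix.SpecialLinearGroup.coe_inv, hP, Matrix.adjugate_fin_two,
        Matrix.eta_fin_two (A : Matrix (Fin 2) (Fin 2) F)]
      simp only [Matrix.mul_fin_two, Matrix.of_apply, Matrix.cons_val_zero, Matrix.cons_val_one,
        Matrix.cons_val', Matrix.cons_val_fin_one]
      intro h
      apply h01
      linear_combination -h
  · exact ⟨1, by simpa using h10⟩

/-- transport of a factorisation into two conjugates along a conjugation -/
theorem cover_of_conj {G : Type*} [Group G] (x g P A B : G) (hA : IsConj x A) (hB : IsConj x B)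
    (h : P * g * P⁻¹ = A * B) : ∃ u v : G, g = (u * x * u⁻¹) * (v * x * v⁻¹) := by
  obtain ⟨u, rfl⟩ := isConj_iff.mp hA
  obtain ⟨v, rfl⟩ := isConj_iff.mp hB
  refine ⟨P⁻¹ * u, P⁻¹ * v, ?_⟩
  have : g = P⁻¹ * (P * g * P⁻¹) * P := by group
  rw [this, h]
  group

/-- a split regular semisimple class squared covers all non-central elements of `SL₂` -/
theorem cover_split (X G : Matrix.SpecialLinearGroup (Fin 2) F)
    (hX : NonScalar (X : Matrix (Fin 2) (Fin 2) F))
    (hG : NonScalar (G : Matrix (Fin 2) (Fin 2) F)) {l m : F}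
    (ht : (X : Matrix (Fin 2) (Fin 2) F).trace = l + m) (hlm : l * m = 1) (hne : l ≠ m) :
    ∃ U V : Matrix.SpecialLinearGroup (Fin 2) F, G = (U * X * U⁻¹) * (V * X * V⁻¹) := by
  obtain ⟨P, hP⟩ := exists_conj_entry G hG
  set G' := P * G * P⁻¹ with hG'
  obtain ⟨a, b, c, d, hGm⟩ : ∃ a b c d, (G' : Matrix (Fin 2) (Fin 2) F) = !![a, b; c, d] :=
    ⟨_, _, _, _, Matrix.eta_fin_two _⟩
  have hc : c ≠ 0 := by
    rw [hGm] at hP
    simpa using hP
  have hm0 : m ≠ 0 := by rintro rfl; simp at hlm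
  obtain ⟨A, hA⟩ : ∃ A : Matrix.SpecialLinearGroup (Fin 2) F,
      (A : Matrix (Fin 2) (Fin 2) F) = !![m, (l * a + m * d - (l + m)) / c; 0, l] :=
    ⟨⟨_, by rw [Matrix.det_fin_two_of]; linear_combination hlm⟩, rfl⟩
  have hsurj : ∀ e : F, ∃ α β, nrm (X : Matrix (Fin 2) (Fin 2) F).trace 1 α β = e := by
    intro e
    rw [ht, ← hlm]
    exact exists_nrm_eq_split hne e
  have hB : ((A⁻¹ * G' : Matrix.SpecialLinearGroup (Fin 2) F) : Matrix (Fin 2) (Fin 2) F) =
      !![l * a - (l * a + m * d - (l + m)) / c * c, l * b - (l * a + m * d - (l + m)) / c * d;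
        m * c, m * d] := by
    rw [Matrix.SpecialLinearGroup.coe_mul, Matrix.SpecialLinearGroup.coe_inv, hA, hGm,
      Matrix.adjugate_fin_two]
    simp only [Matrix.mul_fin_two, Matrix.of_apply, Matrix.cons_val_zero, Matrix.cons_val_one,
      Matrix.cons_val', Matrix.cons_val_fin_one]
    ext i j
    fin_cases i <;> fin_cases j <;> simp <;> ring
  refine cover_of_conj X G P A (A⁻¹ * G') ?_ ?_ (by rw [mul_inv_cancel_left])
  · apply isConj_SL_of_trace_eq X A hX _ _ hsurj
    · right; right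
      rw [hA]
      simpa using hne.symm
    · rw [ht, hA]
      simp [Matrix.trace_fin_two]
      ring
  · apply isConj_SL_of_trace_eq X _ hX _ _ hsurj
    · right; left
      rw [hB]
      simpa using ⟨hm0, hc⟩
    · rw [ht, hB]
      simp only [Matrix.trace_fin_two, Matrix.of_apply, Matrix.cons_val_zero, Matrix.cons_val_one,
        Matrix.cons_val', Matrix.cons_val_fin_one]
      field_simp
      ring

theorem exists_conj_zero_entry (G : Matrix.SpecialLinearGroup (Fin 2) F)
    (hG : NonScalar (G : Matrix (Fin 2) (Fin 2) F)) :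
    ∃ P : Matrix.SpecialLinearGroup (Fin 2) F,
      ((P * G * P⁻¹ : Matrix.SpecialLinearGroup (Fin 2) F) : Matrix (Fin 2) (Fin 2) F) 0 0 = 0 ∧
      ((P * G * P⁻¹ : Matrix.SpecialLinearGroup (Fin 2) F) : Matrix (Fin 2) (Fin 2) F) 1 0 ≠ 0 := by
  obtain ⟨P, hP⟩ := exists_conj_entry G hG
  set G' := P * G * P⁻¹ with hG'
  obtain ⟨a, b, c, d, hGm⟩ : ∃ a b c d, (G' : Matrix (Fin 2) (Fin 2) F) = !![a, b; c, d] :=
    ⟨_, _, _, _, Matrix.eta_fin_two _⟩
  have hc : c ≠ 0 := by
    rw [hGm] at hP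
    simpa using hP
  obtain ⟨U, hU⟩ : ∃ U : Matrix.SpecialLinearGroup (Fin 2) F,
      (U : Matrix (Fin 2) (Fin 2) F) = !![1, -a / c; 0, 1] :=
    ⟨⟨_, by simp [Matrix.det_fin_two_of]⟩, rfl⟩
  refine ⟨U * P, ?_⟩
  have e : U * P * G * (U * P)⁻¹ = U * G' * U⁻¹ := by rw [hG']; group
  rw [e, Matrix.SpecialLinearGroup.coe_mul, Matrix.SpecialLinearGroup.coe_mul,
    Matrix.SpecialLinearGroup.coe_inv, hU, hGm, Matrix.adjugate_fin_two]
  simp only [Matrix.mul_fin_two, Matrix.of_apply, Matrix.cons_val_zero, Matrix.cons_val_one,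
    Matrix.cons_val', Matrix.cons_val_fin_one]
  constructor
  · field_simp
    ring
  · simpa using hc

open Polynomial in
/-- the discriminant condition can be met -/
theorem exists_disc_sq [Fintype F] (h2 : (2 : F) ≠ 0) (t τ : F) (ht : t ≠ 0) (hτ : τ ≠ 2) :
    ∃ w s : F, (τ * w + t * (1 - τ)) ^ 2 + 4 * (t * w - w ^ 2 - 1) = s ^ 2 := by
  have hodd : Fintype.card F % 2 = 1 := by
    by_contra h
    have hchar : ringChar F = 2 := FiniteField.even_card_iff_char_two.mpr (by omega)
    apply h2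
    have := ringChar.Nat.cast_ringChar (R := F)
    rw [hchar] at this
    exact_mod_cast this
  by_cases hα : τ ^ 2 - 4 = 0
  · have hτ2 : τ = -2 := by
      have : (τ - 2) * (τ + 2) = 0 := by linear_combination hα
      rcases mul_eq_zero.mp this with h | h
      · exact absurd (sub_eq_zero.mp h) hτ
      · linear_combination h
    subst hτ2
    have h8 : (8 : F) * t ≠ 0 := by
      have : (8 : F) = 2 * 2 * 2 := by norm_num
      rw [this]
      exact mul_ne_zero (mul_ne_zero (mul_ne_zero h2 h2) h2) ht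
    refine ⟨(9 * t ^ 2 - 4) / (8 * t), 0, ?_⟩
    have hw : 8 * t * ((9 * t ^ 2 - 4) / (8 * t)) = 9 * t ^ 2 - 4 := mul_div_cancel₀ _ h8
    linear_combination -hw
  · set f : F[X] := C (τ ^ 2 - 4) * X ^ 2 + C (2 * τ * t * (1 - τ) + 4 * t) * X +
      C (t ^ 2 * (1 - τ) ^ 2 - 4) with hf
    set g : F[X] := C (-1) * X ^ 2 with hg
    have hf2 : f.degree = 2 := by
      rw [hf]; compute_degree!
    have hg2 : g.degree = 2 := by
      rw [hg]
      have : (-1 : F) ≠ 0 := by simp
      compute_degree!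
    obtain ⟨w, s, hws⟩ := FiniteField.exists_root_sum_quadratic hf2 hg2 hodd
    refine ⟨w, s, ?_⟩
    rw [hf, hg] at hws
    simp only [eval_add, eval_mul, eval_C, eval_pow, eval_X] at hws
    linear_combination hws

theorem nonScalar_of_aniso_trace {A : Matrix.SpecialLinearGroup (Fin 2) F}
    (h : ∀ a b, nrm (A : Matrix (Fin 2) (Fin 2) F).trace 1 a b = 0 → a = 0 ∧ b = 0) :
    NonScalar (A : Matrix (Fin 2) (Fin 2) F) := by
  by_contra hns
  have hg := eq_smul_one_of_not_nonScalar hns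
  have hdet := A.2
  set r := (A : Matrix (Fin 2) (Fin 2) F) 0 0 with hr
  have htr : (A : Matrix (Fin 2) (Fin 2) F).trace = r + r := by
    rw [hg]
    simp
    ring
  rw [hg] at hdet
  simp only [Matrix.det_smul, Fintype.card_fin, Matrix.det_one, mul_one] at hdet
  have := (h (-r) 1 (by rw [htr]; unfold nrm; linear_combination -hdet)).2
  exact one_ne_zero this

/-- a non-split regular semisimple class of non-zero trace: its square covers every non-central
element of trace different from `2` -/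
theorem cover_aniso [Fintype F] (h2 : (2 : F) ≠ 0) (X G : Matrix.SpecialLinearGroup (Fin 2) F)
    (hX : ∀ a b, nrm (X : Matrix (Fin 2) (Fin 2) F).trace 1 a b = 0 → a = 0 ∧ b = 0)
    (ht0 : (X : Matrix (Fin 2) (Fin 2) F).trace ≠ 0)
    (hG : NonScalar (G : Matrix (Fin 2) (Fin 2) F))
    (hτ : (G : Matrix (Fin 2) (Fin 2) F).trace ≠ 2) :
    ∃ U V : Matrix.SpecialLinearGroup (Fin 2) F, G = (U * X * U⁻¹) * (V * X * V⁻¹) := by
  obtain ⟨P, hP0, hP1⟩ := exists_conj_zero_entry G hG
  set G' := P * G * P⁻¹ with hG'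
  set t := (X : Matrix (Fin 2) (Fin 2) F).trace with htdef
  set τ := (G : Matrix (Fin 2) (Fin 2) F).trace with hτdef
  obtain ⟨a, b, c, d, hGm⟩ : ∃ a b c d, (G' : Matrix (Fin 2) (Fin 2) F) = !![a, b; c, d] :=
    ⟨_, _, _, _, Matrix.eta_fin_two _⟩
  have ha : a = 0 := by rw [hGm] at hP0; simpa using hP0
  have hc : c ≠ 0 := by rw [hGm] at hP1; simpa using hP1
  subst ha
  have hd : d = τ := by
    have := trace_conj P G
    rw [← hG', hGm, Matrix.trace_fin_two_of] at this
    linear_combination this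
  have hb : b * c = -1 := by
    have := G'.2
    rw [hGm, Matrix.det_fin_two_of] at this
    linear_combination -this
  obtain ⟨w, s, hws⟩ := exists_disc_sq h2 t τ ht0 hτ
  set e := τ * w + t * (1 - τ) with he
  obtain ⟨A, hA⟩ : ∃ A : Matrix.SpecialLinearGroup (Fin 2) F,
      (A : Matrix (Fin 2) (Fin 2) F) = !![t - w, (s - e) / 2 / c; (s + e) / 2 * c, w] :=
    ⟨⟨_, by
      rw [Matrix.det_fin_two_of]
      field_simp
      linear_combination hws⟩, rfl⟩
  have hsurj : ∀ e : F, ∃ α β, nrm (X : Matrix (Fin 2) (Fin 2) F).trace 1 α β = e :=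
    exists_nrm_eq hX
  have htA : (A : Matrix (Fin 2) (Fin 2) F).trace = t := by
    rw [hA]; simp [Matrix.trace_fin_two]
  have htB : ((A⁻¹ * G' : Matrix.SpecialLinearGroup (Fin 2) F) :
      Matrix (Fin 2) (Fin 2) F).trace = t := by
    rw [Matrix.SpecialLinearGroup.coe_mul, Matrix.SpecialLinearGroup.coe_inv, hA, hGm,
      Matrix.adjugate_fin_two]
    simp only [Matrix.mul_fin_two, Matrix.of_apply, Matrix.cons_val_zero, Matrix.cons_val_one,
      Matrix.cons_val', Matrix.cons_val_fin_one, Matrix.trace_fin_two]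
    rw [hd, he]
    field_simp
    linear_combination (-(s + (τ * w + t * (1 - τ)))) * hb
  refine cover_of_conj X G P A (A⁻¹ * G') ?_ ?_ (by rw [mul_inv_cancel_left])
  · exact isConj_SL_of_trace_eq X A (nonScalar_of_aniso_trace hX)
      (nonScalar_of_aniso_trace (by rw [htA]; exact hX)) htA.symm hsurj
  · exact isConj_SL_of_trace_eq X _ (nonScalar_of_aniso_trace hX)
      (nonScalar_of_aniso_trace (by rw [htB]; exact hX)) htB.symm hsurj

end Cfsg.Agent.H6.GL2C
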