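import Cfsg.Agent.Lib_helper6_QuadRefl
import Cfsg.Agent.Lib_helper6_QuadOrder

/-! Sign characters of orthogonal groups over finite fields of odd order (spinor norm). -/

set_option autoImplicit false

namespace Cfsg.Agent.H6.Quad

/-- The sign of an involution. -/
theorem sign_of_mul_self {α : Type*} [DecidableEq α] [Fintype α] (π : Equiv.Perm α)
    (h : π * π = 1) : ∃ k, 2 * k = π.support.card ∧ Equiv.Perm.sign π = (-1) ^ k := by
  by_cases h1 : π = 1
  · exact ⟨0, by simp [h1], by simp [h1]⟩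
  have ho : orderOf π = 2 := orderOf_eq_prime (by rw [pow_two, h]) h1
  obtain ⟨n, hn⟩ := Equiv.Perm.cycleType_prime_order (σ := π) (by rw [ho]; exact Nat.prime_two)
  rw [ho] at hn
  refine ⟨n + 1, ?_, ?_⟩
  · rw [← Equiv.Perm.sum_cycleType, hn, Multiset.sum_replicate, smul_eq_mul, mul_comm]
  · rw [Equiv.Perm.sign_of_cycleType', hn, Multiset.map_replicate, Multiset.prod_replicate]
    simp

variable {F V : Type*} [Field F] [AddCommGroup V] [Module F V]

/-- The action on a level set of the form. -/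
def permHom (Q : QuadraticForm F V) (e : F) :
    IsomOf (F := F) (bet Q) →* Equiv.Perm {x : V // Q x = e} where
  toFun g :=
    { toFun := fun x => ⟨g.1 x.1, by rw [mem_IsomOf_iff.mp g.2, x.2]⟩
      invFun := fun x => ⟨(g⁻¹).1 x.1, by rw [mem_IsomOf_iff.mp (g⁻¹).2, x.2]⟩
      left_inv := fun x => by
        apply Subtype.ext
        change (g⁻¹ * g).1 x.1 = x.1
        rw [inv_mul_cancel]; rfl
      right_inv := fun x => by
        apply Subtype.ext
        change (g * g⁻¹).1 x.1 = x.1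
        rw [mul_inv_cancel]; rfl }
  map_one' := by
    ext x
    rfl
  map_mul' g h := by
    ext x
    rfl

theorem permHom_apply (Q : QuadraticForm F V) (e : F) (g : IsomOf (F := F) (bet Q))
    (x : {x : V // Q x = e}) : (permHom Q e g x).1 = g.1 x.1 := rfl

/-- The sign character on a level set. -/
noncomputable def chi [Finite F] [FiniteDimensional F V] (Q : QuadraticForm F V) (e : F) :
    IsomOf (F := F) (bet Q) →* ℤˣ :=
  haveI : Finite V := Module.finite_of_finite F
  (@Equiv.Perm.sign {x : V // Q x = e} (Classical.decEq _) (Fintype.ofFinite _)).comp (permHom Q e)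

/-- Minus the identity. -/
def negO (Q : QuadraticForm F V) : IsomOf (F := F) (bet Q) :=
  ⟨LinearEquiv.neg F, mem_IsomOf_iff.mpr fun v => by simp⟩

theorem negO_apply (Q : QuadraticForm F V) (v : V) : (negO Q).1 v = -v := rfl

variable {Q : QuadraticForm F V}

theorem chi_refl [Finite F] [FiniteDimensional F V] (h2 : (2 : F) ≠ 0) {e : F} (he : e ≠ 0) {u : V}
    (hu : Q u ≠ 0) (r : IsomOf (F := F) (bet Q))
    (hr : ∀ v, r.1 v = v - (pol Q v u / Q u) • u) :
    (IsSquare (e / Q u) → chi Q e r = -1) ∧ (¬ IsSquare (e / Q u) → chi Q e r = 1) := by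
  have : Finite V := Module.finite_of_finite F
  let _ : DecidableEq {x : V // Q x = e} := Classical.decEq _
  let _ : Fintype {x : V // Q x = e} := Fintype.ofFinite _
  have hchi : ∀ g, chi Q e g = Equiv.Perm.sign (permHom Q e g) := fun g => rfl
  have hu0 : u ≠ 0 := by
    rintro rfl
    simp at hu
  set r' := negO Q * r with hr'
  have hr'a : ∀ v, r'.1 v = -(v - (pol Q v u / Q u) • u) := fun v => by
    change -(r.1 v) = _
    rw [hr]
  have hnn : negO Q * negO Q = 1 := by
    apply Subtype.ext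
    ext v
    change - - v = v
    simp
  have hr'r' : r' * r' = 1 := by
    apply Subtype.ext
    ext v
    change r'.1 (r'.1 v) = v
    rw [hr'a, hr'a]
    simp only [map_neg, map_sub, map_smul, LinearMap.neg_apply, LinearMap.sub_apply,
      LinearMap.smul_apply, smul_eq_mul, pol_self]
    have : (-(pol Q v u - pol Q v u / Q u * (2 * Q u)) / Q u) = pol Q v u / Q u := by
      field_simp
      ring
    rw [this]
    abel
  have hrr : r = negO Q * r' := by rw [hr', ← mul_assoc, hnn, one_mul]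
  obtain ⟨k1, hk1, hs1⟩ := sign_of_mul_self (permHom Q e (negO Q)) (by rw [← map_mul, hnn, map_one])
  obtain ⟨k2, hk2, hs2⟩ := sign_of_mul_self (permHom Q e r') (by rw [← map_mul, hr'r', map_one])
  have hsupp1 : (permHom Q e (negO Q)).support = Finset.univ := by
    ext x
    simp only [Equiv.Perm.mem_support, Finset.mem_univ, iff_true]
    intro h
    have h1 : -x.1 = x.1 := congrArg Subtype.val h
    have h3 : (2 : F) • x.1 = 0 := by
      rw [two_smul]
      nth_rewrite 1 [← h1]
      simp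
    have h4 : x.1 = 0 := (smul_eq_zero.mp h3).resolve_left h2
    have := x.2
    rw [h4, map_zero] at this
    exact he this.symm
  have hfix : ∀ x : {x : V // Q x = e}, permHom Q e r' x = x ↔ ∃ t : F, x.1 = t • u := by
    intro x
    constructor
    · intro h
      have h1 : -(x.1 - (pol Q x.1 u / Q u) • u) = x.1 := by
        rw [← hr'a]; exact congrArg Subtype.val h
      refine ⟨2⁻¹ * (pol Q x.1 u / Q u), ?_⟩
      have h3 : (2 : F) • x.1 = (pol Q x.1 u / Q u) • u := by
        rw [two_smul]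
        nth_rewrite 1 [← h1]
        abel
      rw [mul_smul, ← h3, smul_smul, inv_mul_cancel₀ h2, one_smul]
    · rintro ⟨t, ht⟩
      apply Subtype.ext
      change r'.1 x.1 = x.1
      rw [hr'a, ht, map_smul, LinearMap.smul_apply, pol_self, smul_eq_mul]
      have : t * (2 * Q u) / Q u = 2 * t := by field_simp
      rw [this]
      module
  have hcard : (permHom Q e r').support.card +
      (Finset.univ.filter fun x => permHom Q e r' x = x).card =
      (Finset.univ : Finset {x : V // Q x = e}).card := by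
    have : (permHom Q e r').support = Finset.univ.filter fun x => ¬ permHom Q e r' x = x := by
      ext x
      simp
    rw [this, add_comm]
    exact Finset.card_filter_add_card_filter_not _
  rw [hsupp1] at hk1
  rw [hrr, map_mul, hchi, hchi, hs1, hs2, ← pow_add]
  constructor
  · intro hsq
    obtain ⟨s, hs⟩ := hsq
    have hs0 : s ≠ 0 := by
      rintro rfl
      rw [mul_zero] at hs
      exact (div_ne_zero he hu) hs
    have hQs : Q (s • u) = e := by
      rw [Q_smul, ← hs, div_mul_cancel₀ _ hu]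
    have hQs' : Q ((-s) • u) = e := by
      rw [Q_smul, neg_mul_neg, ← hs, div_mul_cancel₀ _ hu]
    have hf : (Finset.univ.filter fun x => permHom Q e r' x = x) =
        {⟨s • u, hQs⟩, ⟨(-s) • u, hQs'⟩} := by
      ext x
      simp only [Finset.mem_filter, Finset.mem_univ, true_and, Finset.mem_insert,
        Finset.mem_singleton, hfix]
      constructor
      · rintro ⟨t, ht⟩
        have h1 := x.2
        rw [ht, Q_smul] at h1
        have h3 : t * t = s * s := by
          rw [← hs, eq_div_iff hu, h1]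
        rcases mul_self_eq_mul_self_iff.mp h3 with h | h
        · left; apply Subtype.ext; rw [ht, h]
        · right; apply Subtype.ext; rw [ht, h]
      · rintro (h | h)
        · exact ⟨s, by rw [h]⟩
        · exact ⟨-s, by rw [h]⟩
    have hne : (⟨s • u, hQs⟩ : {x : V // Q x = e}) ≠ ⟨(-s) • u, hQs'⟩ := by
      intro h
      have h1 : s • u = (-s) • u := congrArg Subtype.val h
      have h3 : s = -s := smul_left_injective F hu0 h1
      have h4 : (2 : F) * s = 0 := by linear_combination h3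
      rcases mul_eq_zero.mp h4 with h | h
      · exact h2 h
      · exact hs0 h
    rw [hf, Finset.card_pair hne] at hcard
    apply Odd.neg_one_pow
    exact ⟨k2, by omega⟩
  · intro hsq
    have hf : (Finset.univ.filter fun x => permHom Q e r' x = x) = ∅ := by
      rw [Finset.filter_eq_empty_iff]
      intro x _ hx
      obtain ⟨t, ht⟩ := (hfix x).mp hx
      apply hsq
      refine ⟨t, ?_⟩
      have h1 := x.2
      rw [ht, Q_smul] at h1
      rw [div_eq_iff hu, h1]
    rw [hf, Finset.card_empty] at hcard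
    apply Even.neg_one_pow
    exact ⟨k2, by omega⟩

theorem isSquare_div_iff [Finite F] (_h2 : (2 : F) ≠ 0) {α c : F} (hα : ¬ IsSquare α) (hc : c ≠ 0) :
    IsSquare (α / c) ↔ ¬ IsSquare c := by
  classical
  have := Fintype.ofFinite F
  have hα0 : α ≠ 0 := fun h => hα (h ▸ IsSquare.zero)
  have e1 : α / c = α * c * (c⁻¹ * c⁻¹) := by field_simp
  have e2 : IsSquare (α / c) ↔ IsSquare (α * c) := by
    constructor
    · rintro ⟨s, hs⟩
      exact ⟨s * c, by
        have : α * c = α / c * (c * c) := by field_simp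
        rw [this, hs]; ring⟩
    · rintro ⟨s, hs⟩
      exact ⟨s * c⁻¹, by rw [e1, hs]; ring⟩
  rw [e2, ← quadraticChar_one_iff_isSquare (mul_ne_zero hα0 hc), map_mul,
    (quadraticChar_neg_one_iff_not_isSquare).mpr hα, ← quadraticChar_neg_one_iff_not_isSquare]
  constructor
  · intro h
    linarith
  · intro h
    rw [h]; norm_num

theorem isSquare_one_div_iff {c : F} : IsSquare (1 / c) ↔ IsSquare c := by
  rw [one_div]
  exact isSquare_inv

variable [FiniteDimensional F V]

/-- The reflection in a non-singular vector. -/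
noncomputable def Rf (hQ : (pol Q).Nondegenerate) (u : V) (hu : Q u ≠ 0) :
    IsomOf (F := F) (bet Q) :=
  ⟨(exists_refl hQ u hu).choose, (exists_refl hQ u hu).choose_spec.1⟩

theorem Rf_apply (hQ : (pol Q).Nondegenerate) (u : V) (hu : Q u ≠ 0) (v : V) :
    (Rf hQ u hu).1 v = v - (pol Q v u / Q u) • u := (exists_refl hQ u hu).choose_spec.2 v

theorem Rf_mul_self (hQ : (pol Q).Nondegenerate) (u : V) (hu : Q u ≠ 0) :
    Rf hQ u hu * Rf hQ u hu = 1 := by
  apply Subtype.ext
  ext v
  change (Rf hQ u hu).1 ((Rf hQ u hu).1 v) = v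
  rw [Rf_apply, Rf_apply]
  simp only [map_sub, map_smul, LinearMap.sub_apply, LinearMap.smul_apply, smul_eq_mul, pol_self]
  have : (pol Q v u - pol Q v u / Q u * (2 * Q u)) / Q u = - (pol Q v u / Q u) := by
    field_simp
    ring
  rw [this]
  module

theorem Rf_smul (hQ : (pol Q).Nondegenerate) (u : V) (hu : Q u ≠ 0) {c : F} (hc : c ≠ 0)
    (hcu : Q (c • u) ≠ 0) : Rf hQ (c • u) hcu = Rf hQ u hu := by
  apply Subtype.ext
  ext v
  rw [Rf_apply, Rf_apply, Q_smul, map_smul, smul_smul, smul_eq_mul]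
  congr 2
  field_simp

theorem conj_Rf (hQ : (pol Q).Nondegenerate) (u : V) (hu : Q u ≠ 0) (k : IsomOf (F := F) (bet Q))
    (hku : Q (k.1 u) ≠ 0) : k * Rf hQ u hu * k⁻¹ = Rf hQ (k.1 u) hku := by
  apply Subtype.ext
  ext v
  change k.1 ((Rf hQ u hu).1 ((k⁻¹).1 v)) = _
  have e1 : k.1 ((k⁻¹).1 v) = v := by
    change (k * k⁻¹).1 v = v
    rw [mul_inv_cancel]; rfl
  rw [Rf_apply, Rf_apply, map_sub, map_smul, e1, mem_IsomOf_iff.mp k.2]
  congr 3
  have := pol_map (T := k.1.toLinearMap) (mem_IsomOf_iff.mp k.2) ((k⁻¹).1 v) u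
  simp only [LinearEquiv.coe_coe] at this
  rw [e1] at this
  exact this.symm

theorem chi_Rf_of_sq [Finite F] (h2 : (2 : F) ≠ 0) (hQ : (pol Q).Nondegenerate) {α : F}
    (hα : ¬ IsSquare α) (u : V) (hu : Q u ≠ 0) (hs : IsSquare (Q u)) :
    chi Q 1 (Rf hQ u hu) = -1 ∧ chi Q α (Rf hQ u hu) = 1 := by
  have hα0 : α ≠ 0 := fun h => hα (h ▸ IsSquare.zero)
  exact ⟨(chi_refl h2 one_ne_zero hu _ (Rf_apply hQ u hu)).1 (isSquare_one_div_iff.mpr hs),
    (chi_refl h2 hα0 hu _ (Rf_apply hQ u hu)).2 (by rw [isSquare_div_iff h2 hα hu]; simpa using hs)⟩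

theorem chi_Rf_of_not_sq [Finite F] (h2 : (2 : F) ≠ 0) (hQ : (pol Q).Nondegenerate) {α : F}
    (hα : ¬ IsSquare α) (u : V) (hu : Q u ≠ 0) (hs : ¬ IsSquare (Q u)) :
    chi Q 1 (Rf hQ u hu) = 1 ∧ chi Q α (Rf hQ u hu) = -1 := by
  have hα0 : α ≠ 0 := fun h => hα (h ▸ IsSquare.zero)
  exact ⟨(chi_refl h2 one_ne_zero hu _ (Rf_apply hQ u hu)).2 (by rw [isSquare_one_div_iff]; exact hs),
    (chi_refl h2 hα0 hu _ (Rf_apply hQ u hu)).1 ((isSquare_div_iff h2 hα hu).mpr hs)⟩

theorem card_ne_two [Finite F] (h2 : (2 : F) ≠ 0) : Nat.card F ≠ 2 := by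
  intro h
  apply h2
  have := Fintype.ofFinite F
  have h1 : ((Fintype.card F : ℕ) : F) = 0 := Nat.cast_card_eq_zero F
  rw [← Nat.card_eq_fintype_card, h] at h1
  exact_mod_cast h1

/-- Two reflections in vectors with the same value of `Q` up to squares are conjugate. -/
theorem of_Rf_eq [Finite F] (hQ : (pol Q).Nondegenerate) (u w : V) (hu : Q u ≠ 0) (hw : Q w ≠ 0)
    {s : F} (hs : Q u = s * s * Q w) :
    Abelianization.of (Rf hQ u hu) = Abelianization.of (Rf hQ w hw) := by
  have hs0 : s ≠ 0 := by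
    rintro rfl
    simp at hs
    exact hu hs
  have hw0 : w ≠ 0 := by
    rintro rfl
    simp at hw
  have hu0 : u ≠ 0 := by
    rintro rfl
    simp at hu
  have hQ' : Q (s⁻¹ • u) = Q w := by
    rw [Q_smul, hs]; field_simp
  obtain ⟨k, hk, -, hkv⟩ := exists_fix_map hQ ⊥ (x := s⁻¹ • u) (y := w)
    (by simpa using ⟨hs0, hu0⟩) (by simpa using hw0) (by
      intro y hy
      rw [(Submodule.mem_bot _).mp hy]; simp) hQ'.symm
  have h1 : Q (s⁻¹ • u) ≠ 0 := by rw [hQ']; exact hw
  have h3 := conj_Rf hQ w hw ⟨k, hk⟩ (by change Q (k w) ≠ 0; rw [hkv]; exact h1)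
  have h4 : Rf hQ ((⟨k, hk⟩ : IsomOf (F := F) (bet Q)).1 w)
      (by change Q (k w) ≠ 0; rw [hkv]; exact h1) = Rf hQ u hu := by
    rw [← Rf_smul hQ u hu (inv_ne_zero hs0) h1]
    congr 1
  rw [← h4, ← h3, map_mul, map_mul, map_inv, mul_comm, inv_mul_cancel_left]

/-- The commutator subgroup is the common kernel of the two sign characters. -/
theorem mem_commutator_iff [Finite F] (h2 : (2 : F) ≠ 0) (hQ : (pol Q).Nondegenerate)
    (hd : 2 ≤ Module.finrank F V) {α : F} (hα : ¬ IsSquare α) (g : IsomOf (F := F) (bet Q)) :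
    g ∈ commutator (IsomOf (F := F) (bet Q)) ↔ chi Q 1 g = 1 ∧ chi Q α g = 1 := by
  constructor
  · intro hg
    exact ⟨Abelianization.commutator_subset_ker (chi Q 1) hg,
      Abelianization.commutator_subset_ker (chi Q α) hg⟩
  rintro ⟨hg1, hgα⟩
  have hα0 : α ≠ 0 := fun h => hα (h ▸ IsSquare.zero)
  obtain ⟨v1, hv1⟩ := universal hQ hd 1
  obtain ⟨vα, hvα⟩ := universal hQ hd α
  have hv1' : Q v1 ≠ 0 := by rw [hv1]; exact one_ne_zero
  have hvα' : Q vα ≠ 0 := by rw [hvα]; exact hα0
  set ρ1 := Abelianization.of (Rf hQ v1 hv1') with hρ1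
  set ρα := Abelianization.of (Rf hQ vα hvα') with hρα
  have hρ1s : ρ1 * ρ1 = 1 := by rw [hρ1, ← map_mul, Rf_mul_self, map_one]
  have hραs : ρα * ρα = 1 := by rw [hρα, ← map_mul, Rf_mul_self, map_one]
  have key : ∀ x ∈ ReflGrp Q, ∀ hx : x ∈ IsomOf (F := F) (bet Q), ∃ a b : ℕ,
      Abelianization.of (⟨x, hx⟩ : IsomOf (F := F) (bet Q)) = ρ1 ^ a * ρα ^ b ∧
      chi Q 1 ⟨x, hx⟩ = (-1) ^ a ∧ chi Q α ⟨x, hx⟩ = (-1) ^ b := by
    intro x hx
    induction hx using Subgroup.closure_induction with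
    | mem x hx =>
      intro hxO
      obtain ⟨u, hu, hxu⟩ := hx
      have hxR : (⟨x, hxO⟩ : IsomOf (F := F) (bet Q)) = Rf hQ u hu := by
        apply Subtype.ext
        ext v
        rw [Rf_apply]; exact hxu v
      rw [hxR]
      by_cases hs : IsSquare (Q u)
      · obtain ⟨s, hs'⟩ := hs
        obtain ⟨c1, c2⟩ := chi_Rf_of_sq h2 hQ hα u hu ⟨s, hs'⟩
        refine ⟨1, 0, ?_, by rw [c1]; simp, by rw [c2]; simp⟩
        rw [pow_one, pow_zero, mul_one]
        exact of_Rf_eq hQ u v1 hu hv1' (s := s) (by rw [hv1, mul_one, hs'])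
      · obtain ⟨c1, c2⟩ := chi_Rf_of_not_sq h2 hQ hα u hu hs
        refine ⟨0, 1, ?_, by rw [c1]; simp, by rw [c2]; simp⟩
        rw [pow_one, pow_zero, one_mul]
        obtain ⟨s, hs'⟩ := (isSquare_div_iff h2 hα hu).mpr hs
        have hs0 : s ≠ 0 := by
          rintro rfl
          rw [mul_zero] at hs'
          exact (div_ne_zero hα0 hu) hs'
        apply of_Rf_eq hQ u vα hu hvα' (s := s⁻¹)
        rw [hvα]
        have : α = s * s * Q u := by rw [← hs']; field_simp
        rw [this]; field_simp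
    | one =>
      intro hxO
      have : (⟨1, hxO⟩ : IsomOf (F := F) (bet Q)) = 1 := rfl
      rw [this]
      exact ⟨0, 0, by simp, by simp, by simp⟩
    | mul x y hx' hy' hx hy =>
      intro hxO
      have hxO' := ReflGrp_le hx'
      have hyO' := ReflGrp_le hy'
      obtain ⟨a, b, e1, e2, e3⟩ := hx hxO'
      obtain ⟨a', b', e1', e2', e3'⟩ := hy hyO'
      have : (⟨x * y, hxO⟩ : IsomOf (F := F) (bet Q)) = ⟨x, hxO'⟩ * ⟨y, hyO'⟩ := rfl
      refine ⟨a + a', b + b', ?_, ?_, ?_⟩
      · rw [this, map_mul, e1, e1', pow_add, pow_add]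
        exact mul_mul_mul_comm _ _ _ _
      · rw [this, map_mul, e2, e2', pow_add]
      · rw [this, map_mul, e3, e3', pow_add]
    | inv x hx' hx =>
      intro hxO
      have hxO' := ReflGrp_le hx'
      obtain ⟨a, b, e1, e2, e3⟩ := hx hxO'
      have : (⟨x⁻¹, hxO⟩ : IsomOf (F := F) (bet Q)) = (⟨x, hxO'⟩ : IsomOf (F := F) (bet Q))⁻¹ := rfl
      have i1 : ρ1⁻¹ = ρ1 := inv_eq_of_mul_eq_one_left hρ1s
      have iα : ρα⁻¹ = ρα := inv_eq_of_mul_eq_one_left hραs
      refine ⟨a, b, ?_, ?_, ?_⟩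
      · rw [this, map_inv, e1, mul_inv, ← inv_pow, ← inv_pow, i1, iα]
      · rw [this, map_inv, e2, ← inv_pow]; simp
      · rw [this, map_inv, e3, ← inv_pow]; simp
  obtain ⟨a, b, e1, e2, e3⟩ := key g.1 (by
    rw [ReflGrp_eq hQ (Or.inl (card_ne_two h2))]; exact g.2) g.2
  rw [hg1] at e2
  rw [hgα] at e3
  have ha : Even a := (neg_one_pow_eq_one_iff_even (by decide)).mp e2.symm
  have hb : Even b := (neg_one_pow_eq_one_iff_even (by decide)).mp e3.symm
  obtain ⟨a', rfl⟩ := ha
  obtain ⟨b', rfl⟩ := hb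
  rw [pow_add, ← mul_pow, hρ1s, one_pow, pow_add, ← mul_pow, hραs, one_pow, one_mul] at e1
  rw [← Abelianization.ker_of]
  exact e1

end Cfsg.Agent.H6.Quad
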