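import Mathlib

/-! Normal form of square-zero endomorphisms; conjugacy in GL and SL. -/

set_option autoImplicit false

namespace Cfsg.Agent.H6

variable {F V : Type*} [Field F] [AddCommGroup V] [Module F V] [FiniteDimensional F V]

abbrev SqM (F : Type*) [Field F] (l k : ℕ) := (Fin l → F) × (Fin l → F) × (Fin k → F)

theorem sqzero_normal_form (N : Module.End F V) (hN : N * N = 0) {l k : ℕ}
    (hl : Module.finrank F (LinearMap.range N) = l) (hV : Module.finrank F V = 2 * l + k) :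
    ∃ f : SqM F l k ≃ₗ[F] V, ∀ m, N (f m) = f (0, m.1, 0) := by
  have hNN : ∀ x, N (N x) = 0 := fun x => by
    have := congrArg (fun g : Module.End F V => g x) hN
    simpa using this
  have hRK : LinearMap.range N ≤ LinearMap.ker N := by
    rintro _ ⟨x, rfl⟩
    exact hNN x
  obtain ⟨C, hC⟩ := Submodule.exists_isCompl (LinearMap.range N)
  obtain ⟨W, hWdef⟩ : ∃ W, W = LinearMap.ker N ⊓ C := ⟨_, rfl⟩
  have hWK : W ≤ LinearMap.ker N := hWdef ▸ inf_le_left
  have hdisj : LinearMap.range N ⊓ W = ⊥ := by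
    rw [eq_bot_iff, ← hC.inf_eq_bot, hWdef]
    exact inf_le_inf_left _ inf_le_right
  have hsup : LinearMap.range N ⊔ W = LinearMap.ker N := by
    rw [hWdef, inf_comm, ← sup_inf_assoc_of_le _ hRK, hC.sup_eq_top, top_inf_eq]
  have hK : Module.finrank F (LinearMap.ker N) = l + k := by
    have := LinearMap.finrank_range_add_finrank_ker N
    omega
  have hW : Module.finrank F W = k := by
    have := Submodule.finrank_sup_add_finrank_inf_eq (LinearMap.range N) W
    rw [hsup, hdisj, finrank_bot] at this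
    omega
  let α : LinearMap.range N ≃ₗ[F] (Fin l → F) :=
    LinearEquiv.ofFinrankEq _ _ (by rw [hl, Module.finrank_fin_fun])
  let β : W ≃ₗ[F] (Fin k → F) :=
    LinearEquiv.ofFinrankEq _ _ (by rw [hW, Module.finrank_fin_fun])
  obtain ⟨s, hs⟩ := N.rangeRestrict.exists_rightInverse_of_surjective
    (LinearMap.range_rangeRestrict N)
  have hs' : ∀ r : LinearMap.range N, N (s r) = r := fun r => by
    have := congrArg (fun g => ((g r : LinearMap.range N) : V)) hs
    simpa using this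
  let f₀ : SqM F l k →ₗ[F] V :=
    (s ∘ₗ α.symm.toLinearMap) ∘ₗ LinearMap.fst F _ _ +
    ((LinearMap.range N).subtype ∘ₗ α.symm.toLinearMap) ∘ₗ
      (LinearMap.fst F _ _ ∘ₗ LinearMap.snd F _ _) +
    (W.subtype ∘ₗ β.symm.toLinearMap) ∘ₗ (LinearMap.snd F _ _ ∘ₗ LinearMap.snd F _ _)
  have hf₀ : ∀ m : SqM F l k, f₀ m = s (α.symm m.1) + (α.symm m.2.1 : V) + (β.symm m.2.2 : V) :=
    fun m => rfl
  have hNf : ∀ m : SqM F l k, N (f₀ m) = (α.symm m.1 : V) := by
    intro m
    rw [hf₀, map_add, map_add, hs']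
    have h1 : N (α.symm m.2.1 : V) = 0 := hRK (α.symm m.2.1).2
    have h2 : N (β.symm m.2.2 : V) = 0 := hWK (β.symm m.2.2).2
    rw [h1, h2, add_zero, add_zero]
  have hinj : Function.Injective f₀ := by
    rw [← LinearMap.ker_eq_bot, LinearMap.ker_eq_bot']
    intro m hm
    have h1 : m.1 = 0 := by
      have := hNf m
      rw [hm, map_zero] at this
      have h2 : α.symm m.1 = 0 := Subtype.ext this.symm
      exact α.symm.map_eq_zero_iff.mp h2
    rw [hf₀, h1, map_zero, map_zero, zero_add] at hm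
    have h3 : (α.symm m.2.1 : V) ∈ LinearMap.range N ⊓ W := by
      refine ⟨(α.symm m.2.1).2, ?_⟩
      have : (α.symm m.2.1 : V) = - (β.symm m.2.2 : V) := eq_neg_of_add_eq_zero_left hm
      rw [this]
      exact W.neg_mem (β.symm m.2.2).2
    rw [hdisj, Submodule.mem_bot] at h3
    have h4 : m.2.1 = 0 := α.symm.map_eq_zero_iff.mp (Subtype.ext h3)
    rw [h3, zero_add] at hm
    have h5 : m.2.2 = 0 := β.symm.map_eq_zero_iff.mp (Subtype.ext hm)
    exact Prod.ext h1 (Prod.ext h4 h5)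
  have hdim : Module.finrank F (SqM F l k) = Module.finrank F V := by
    rw [hV, Module.finrank_prod, Module.finrank_prod, Module.finrank_fin_fun,
      Module.finrank_fin_fun]
    omega
  refine ⟨LinearMap.linearEquivOfInjective f₀ hinj hdim, fun m => ?_⟩
  change N (f₀ m) = f₀ (0, m.1, 0)
  rw [hNf, hf₀]
  simp

theorem sqzero_two_mul_le (N : Module.End F V) (hN : N * N = 0) :
    2 * Module.finrank F (LinearMap.range N) ≤ Module.finrank F V := by
  have hRK : LinearMap.range N ≤ LinearMap.ker N := by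
    rintro _ ⟨x, rfl⟩
    have := congrArg (fun g : Module.End F V => g x) hN
    simpa using this
  have h1 := LinearMap.finrank_range_add_finrank_ker N
  have h2 := Submodule.finrank_mono hRK
  omega

theorem sqzero_conj (N N' : Module.End F V) (hN : N * N = 0) (hN' : N' * N' = 0)
    (hr : Module.finrank F (LinearMap.range N) = Module.finrank F (LinearMap.range N')) :
    ∃ g : V ≃ₗ[F] V, ∀ v, g (N v) = N' (g v) := by
  obtain ⟨k, hk⟩ := Nat.exists_eq_add_of_le (sqzero_two_mul_le N hN)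
  obtain ⟨f, hf⟩ := sqzero_normal_form N hN rfl hk
  obtain ⟨f', hf'⟩ := sqzero_normal_form N' hN' hr.symm hk
  refine ⟨f.symm.trans f', fun v => ?_⟩
  obtain ⟨m, rfl⟩ := f.surjective v
  rw [hf]
  simp only [LinearEquiv.trans_apply, LinearEquiv.symm_apply_apply]
  rw [hf']

theorem sqzero_exists_commute_det (N : Module.End F V) (hN : N * N = 0) {l k : ℕ}
    (hl : Module.finrank F (LinearMap.range N) = l) (hV : Module.finrank F V = 2 * l + k)
    (γ : Module.End F (Fin l → F)) (δ : Module.End F (Fin k → F)) :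
    ∃ c : Module.End F V, (∀ v, c (N v) = N (c v)) ∧
      LinearMap.det c = LinearMap.det γ * (LinearMap.det γ * LinearMap.det δ) := by
  obtain ⟨f, hf⟩ := sqzero_normal_form N hN hl hV
  refine ⟨f.toLinearMap ∘ₗ (γ.prodMap (γ.prodMap δ)) ∘ₗ f.symm.toLinearMap, fun v => ?_, ?_⟩
  · obtain ⟨m, rfl⟩ := f.surjective v
    rw [hf]
    simp only [LinearMap.comp_apply, LinearEquiv.coe_coe, LinearEquiv.symm_apply_apply]
    rw [hf]
    simp
  · rw [LinearMap.det_conj, LinearMap.det_prodMap, LinearMap.det_prodMap]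

theorem exists_end_det {m : ℕ} (hm : 1 ≤ m) (d : F) :
    ∃ γ : Module.End F (Fin m → F), LinearMap.det γ = d := by
  refine ⟨Matrix.toLin' (Matrix.diagonal (Function.update (fun _ => 1) ⟨0, hm⟩ d)), ?_⟩
  rw [LinearMap.det_toLin', Matrix.det_diagonal, Finset.prod_update_of_mem (Finset.mem_univ _)]
  simp

theorem sqzero_conj_det_one (N N' : Module.End F V) (hN : N * N = 0) (hN' : N' * N' = 0)
    (hr : Module.finrank F (LinearMap.range N) = Module.finrank F (LinearMap.range N'))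
    (hcond : 2 * Module.finrank F (LinearMap.range N) < Module.finrank F V ∨
      (1 ≤ Module.finrank F (LinearMap.range N) ∧ ∀ d : F, IsSquare d)) :
    ∃ g : Module.End F V, LinearMap.det g = 1 ∧ ∀ v, g (N v) = N' (g v) := by
  obtain ⟨g₀, hg₀⟩ := sqzero_conj N N' hN hN' hr
  obtain ⟨k, hk⟩ := Nat.exists_eq_add_of_le (sqzero_two_mul_le N hN)
  have hd : LinearMap.det (g₀ : V →ₗ[F] V) ≠ 0 := (LinearEquiv.isUnit_det' g₀).ne_zero
  obtain ⟨c, hc, hdet⟩ : ∃ c : Module.End F V, (∀ v, c (N v) = N (c v)) ∧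
      LinearMap.det c = (LinearMap.det (g₀ : V →ₗ[F] V))⁻¹ := by
    rcases hcond with h | ⟨h1, hsq⟩
    · obtain ⟨δ, hδ⟩ := exists_end_det (F := F) (m := k) (by omega)
        (LinearMap.det (g₀ : V →ₗ[F] V))⁻¹
      obtain ⟨c, hc, hdet⟩ := sqzero_exists_commute_det N hN rfl hk 1 δ
      refine ⟨c, hc, ?_⟩
      rw [hdet, hδ, map_one, one_mul, one_mul]
    · obtain ⟨r, hr⟩ := hsq (LinearMap.det (g₀ : V →ₗ[F] V))⁻¹
      obtain ⟨γ, hγ⟩ := exists_end_det (F := F) h1 r
      obtain ⟨c, hc, hdet⟩ := sqzero_exists_commute_det N hN rfl hk γ 1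
      refine ⟨c, hc, ?_⟩
      rw [hdet, hγ, map_one, mul_one, hr]
  refine ⟨(g₀ : V →ₗ[F] V) ∘ₗ c, ?_, fun v => ?_⟩
  · rw [LinearMap.det_comp, hdet, mul_inv_cancel₀ hd]
  · simp only [LinearMap.comp_apply, LinearEquiv.coe_coe]
    rw [hc, hg₀]

theorem finrank_range_toLin' {n : ℕ} (M : Matrix (Fin n) (Fin n) F) :
    Module.finrank F (LinearMap.range (Matrix.toLin' M)) = M.rank := by
  rw [Matrix.toLin'_apply', Matrix.rank]

theorem eq_zero_of_rank_eq_zero {n : ℕ} (M : Matrix (Fin n) (Fin n) F) (h : M.rank = 0) :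
    M = 0 := by
  rw [← finrank_range_toLin', Submodule.finrank_eq_zero, LinearMap.range_eq_bot] at h
  exact Matrix.toLin'.map_eq_zero_iff.mp h

theorem SL_isConj_of_sqzero {n : ℕ} (a b : Matrix.SpecialLinearGroup (Fin n) F)
    (ha : ((a : Matrix (Fin n) (Fin n) F) - 1) * ((a : Matrix (Fin n) (Fin n) F) - 1) = 0)
    (hb : ((b : Matrix (Fin n) (Fin n) F) - 1) * ((b : Matrix (Fin n) (Fin n) F) - 1) = 0)
    (hr : ((a : Matrix (Fin n) (Fin n) F) - 1).rank = ((b : Matrix (Fin n) (Fin n) F) - 1).rank)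
    (hcond : 2 * ((a : Matrix (Fin n) (Fin n) F) - 1).rank < n ∨
      (1 ≤ ((a : Matrix (Fin n) (Fin n) F) - 1).rank ∧ ∀ d : F, IsSquare d)) : IsConj a b := by
  obtain ⟨g, hdet, hg⟩ := sqzero_conj_det_one
    (Matrix.toLin' ((a : Matrix (Fin n) (Fin n) F) - 1))
    (Matrix.toLin' ((b : Matrix (Fin n) (Fin n) F) - 1))
    (by rw [Module.End.mul_eq_comp, ← Matrix.toLin'_mul, ha, map_zero])
    (by rw [Module.End.mul_eq_comp, ← Matrix.toLin'_mul, hb, map_zero])
    (by rw [finrank_range_toLin', finrank_range_toLin', hr])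
    (by rw [Module.finrank_fin_fun, finrank_range_toLin']; exact hcond)
  have hG : (LinearMap.toMatrix' g).det = 1 := by rw [LinearMap.det_toMatrix', hdet]
  have hcomm : LinearMap.toMatrix' g * ((a : Matrix (Fin n) (Fin n) F) - 1) =
      ((b : Matrix (Fin n) (Fin n) F) - 1) * LinearMap.toMatrix' g := by
    apply Matrix.toLin'.injective
    rw [Matrix.toLin'_mul, Matrix.toLin'_mul, Matrix.toLin'_toMatrix']
    apply LinearMap.ext
    intro v
    exact hg v
  rw [isConj_iff]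
  obtain ⟨G, hGv⟩ : ∃ G : Matrix.SpecialLinearGroup (Fin n) F,
      (G : Matrix (Fin n) (Fin n) F) = LinearMap.toMatrix' g := ⟨⟨LinearMap.toMatrix' g, hG⟩, rfl⟩
  rw [← hGv] at hcomm
  refine ⟨G, ?_⟩
  rw [mul_inv_eq_iff_eq_mul]
  apply Subtype.ext
  rw [mul_sub, sub_mul, mul_one, one_mul] at hcomm
  simpa using hcomm

theorem GL_isConj_of_sqzero {n : ℕ} (a b : GL (Fin n) F)
    (ha : ((a : Matrix (Fin n) (Fin n) F) - 1) * ((a : Matrix (Fin n) (Fin n) F) - 1) = 0)
    (hb : ((b : Matrix (Fin n) (Fin n) F) - 1) * ((b : Matrix (Fin n) (Fin n) F) - 1) = 0)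
    (hr : ((a : Matrix (Fin n) (Fin n) F) - 1).rank = ((b : Matrix (Fin n) (Fin n) F) - 1).rank) :
    IsConj a b := by
  obtain ⟨g, hg⟩ := sqzero_conj
    (Matrix.toLin' ((a : Matrix (Fin n) (Fin n) F) - 1))
    (Matrix.toLin' ((b : Matrix (Fin n) (Fin n) F) - 1))
    (by rw [Module.End.mul_eq_comp, ← Matrix.toLin'_mul, ha, map_zero])
    (by rw [Module.End.mul_eq_comp, ← Matrix.toLin'_mul, hb, map_zero])
    (by rw [finrank_range_toLin', finrank_range_toLin', hr])
  have hG : (LinearMap.toMatrix' (g : (Fin n → F) →ₗ[F] (Fin n → F))).det ≠ 0 := by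
    rw [LinearMap.det_toMatrix']
    exact (LinearEquiv.isUnit_det' g).ne_zero
  have hcomm : LinearMap.toMatrix' (g : (Fin n → F) →ₗ[F] (Fin n → F)) *
      ((a : Matrix (Fin n) (Fin n) F) - 1) =
      ((b : Matrix (Fin n) (Fin n) F) - 1) *
        LinearMap.toMatrix' (g : (Fin n → F) →ₗ[F] (Fin n → F)) := by
    apply Matrix.toLin'.injective
    rw [Matrix.toLin'_mul, Matrix.toLin'_mul, Matrix.toLin'_toMatrix']
    apply LinearMap.ext
    intro v
    exact hg v
  rw [isConj_iff]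
  refine ⟨Matrix.GeneralLinearGroup.mkOfDetNeZero _ hG, ?_⟩
  rw [mul_inv_eq_iff_eq_mul]
  apply Units.ext
  rw [mul_sub, sub_mul, mul_one, one_mul] at hcomm
  simpa using hcomm

end Cfsg.Agent.H6
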