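import Mathlib
import Cfsg.Prelude.Def_ClassicalGeometry

set_option autoImplicit false

namespace Cfsg.Agent.H6

open Matrix

variable {m : ℕ} {F : Type*} [CommRing F]

theorem sympForm_eq_sum (u v : Fin m ⊕ Fin m → F) :
    Cfsg.sympForm m F u v =
      ∑ i, (u (Sum.inr i) * v (Sum.inl i) - u (Sum.inl i) * v (Sum.inr i)) := by
  simp only [Cfsg.sympForm, dotProduct, Fintype.sum_sum_type, Matrix.J, mulVec, fromBlocks_apply₁₁,
    fromBlocks_apply₁₂, fromBlocks_apply₂₁, fromBlocks_apply₂₂, Matrix.zero_apply,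
    Matrix.neg_apply, Matrix.one_apply, Finset.sum_sub_distrib]
  simp [Finset.sum_ite_eq]
  ring

theorem sympForm_add_left (u u' v : Fin m ⊕ Fin m → F) :
    Cfsg.sympForm m F (u + u') v = Cfsg.sympForm m F u v + Cfsg.sympForm m F u' v := by
  simp [Cfsg.sympForm, add_dotProduct]

theorem sympForm_add_right (u v v' : Fin m ⊕ Fin m → F) :
    Cfsg.sympForm m F u (v + v') = Cfsg.sympForm m F u v + Cfsg.sympForm m F u v' := by
  simp [Cfsg.sympForm, mulVec_add, dotProduct_add]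

theorem sympForm_smul_left (c : F) (u v : Fin m ⊕ Fin m → F) :
    Cfsg.sympForm m F (c • u) v = c * Cfsg.sympForm m F u v := by
  simp [Cfsg.sympForm, smul_dotProduct]

theorem sympForm_smul_right (c : F) (u v : Fin m ⊕ Fin m → F) :
    Cfsg.sympForm m F u (c • v) = c * Cfsg.sympForm m F u v := by
  simp [Cfsg.sympForm, mulVec_smul, dotProduct_smul]

theorem sympForm_self (v : Fin m ⊕ Fin m → F) : Cfsg.sympForm m F v v = 0 := by
  rw [sympForm_eq_sum]
  exact Finset.sum_eq_zero (fun i _ => by ring)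

theorem sympForm_swap (u v : Fin m ⊕ Fin m → F) :
    Cfsg.sympForm m F u v = - Cfsg.sympForm m F v u := by
  rw [sympForm_eq_sum, sympForm_eq_sum, ← Finset.sum_neg_distrib]
  exact Finset.sum_congr rfl (fun i _ => by ring)

theorem sympForm_neg_left (u v : Fin m ⊕ Fin m → F) :
    Cfsg.sympForm m F (-u) v = - Cfsg.sympForm m F u v := by
  simp [Cfsg.sympForm]

theorem sympForm_neg_right (u v : Fin m ⊕ Fin m → F) :
    Cfsg.sympForm m F u (-v) = - Cfsg.sympForm m F u v := by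
  simp [Cfsg.sympForm, mulVec_neg]

theorem sympForm_sub_left (u u' v : Fin m ⊕ Fin m → F) :
    Cfsg.sympForm m F (u - u') v = Cfsg.sympForm m F u v - Cfsg.sympForm m F u' v := by
  rw [sub_eq_add_neg, sympForm_add_left, sympForm_neg_left, sub_eq_add_neg]

theorem sympForm_sub_right (u v v' : Fin m ⊕ Fin m → F) :
    Cfsg.sympForm m F u (v - v') = Cfsg.sympForm m F u v - Cfsg.sympForm m F u v' := by
  rw [sub_eq_add_neg, sympForm_add_right, sympForm_neg_right, sub_eq_add_neg]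

theorem sympForm_zero_left (v : Fin m ⊕ Fin m → F) : Cfsg.sympForm m F 0 v = 0 := by
  simp [Cfsg.sympForm]

theorem sympForm_zero_right (v : Fin m ⊕ Fin m → F) : Cfsg.sympForm m F v 0 = 0 := by
  simp [Cfsg.sympForm]

theorem sympForm_mulVec_mulVec (A : Matrix (Fin m ⊕ Fin m) (Fin m ⊕ Fin m) F)
    (u v : Fin m ⊕ Fin m → F) :
    Cfsg.sympForm m F (A *ᵥ u) (A *ᵥ v) = u ⬝ᵥ ((Aᵀ * J (Fin m) F * A) *ᵥ v) := by
  simp only [Cfsg.sympForm]
  rw [← mulVec_mulVec, ← mulVec_mulVec, dotProduct_mulVec u Aᵀ, vecMul_transpose]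

theorem mem_symplecticGroup_iff_preserves (A : Matrix (Fin m ⊕ Fin m) (Fin m ⊕ Fin m) F) :
    A ∈ symplecticGroup (Fin m) F ↔
      ∀ u v, Cfsg.sympForm m F (A *ᵥ u) (A *ᵥ v) = Cfsg.sympForm m F u v := by
  rw [SymplecticGroup.mem_iff']
  constructor
  · intro h u v
    rw [sympForm_mulVec_mulVec, h]
    rfl
  · intro h
    ext i j
    have := h (Pi.single i 1) (Pi.single j 1)
    rw [sympForm_mulVec_mulVec] at this
    simpa [Cfsg.sympForm] using this

theorem sympTransvection_mulVec (v : Fin m ⊕ Fin m → F) (c : F) (x : Fin m ⊕ Fin m → F) :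
    Cfsg.sympTransvection m v c *ᵥ x = x + (c * Cfsg.sympForm m F x v) • v := by
  simp only [Cfsg.sympTransvection, add_mulVec, one_mulVec, smul_mulVec, vecMulVec_mulVec,
    Cfsg.sympForm]
  rw [dotProduct_comm x]
  ext i
  simp only [Pi.add_apply, Pi.smul_apply, smul_eq_mul, MulOpposite.smul_eq_mul_unop,
    MulOpposite.unop_op]
  ring

theorem sympTransvection_mem (v : Fin m ⊕ Fin m → F) (c : F) :
    Cfsg.sympTransvection m v c ∈ symplecticGroup (Fin m) F := by
  rw [mem_symplecticGroup_iff_preserves]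
  intro x y
  simp only [sympTransvection_mulVec, sympForm_add_left, sympForm_add_right, sympForm_smul_left,
    sympForm_smul_right, sympForm_self]
  rw [sympForm_swap v y]
  ring

theorem sympForm_single_inr (v : Fin m ⊕ Fin m → F) (i : Fin m) :
    Cfsg.sympForm m F v (Pi.single (Sum.inr i) 1) = - v (Sum.inl i) := by
  rw [sympForm_eq_sum]
  simp [Pi.single_apply]

theorem sympForm_single_inl (v : Fin m ⊕ Fin m → F) (i : Fin m) :
    Cfsg.sympForm m F v (Pi.single (Sum.inl i) 1) = v (Sum.inr i) := by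
  rw [sympForm_eq_sum]
  simp [Pi.single_apply]

theorem sympForm_nondeg {v : Fin m ⊕ Fin m → F} (hv : v ≠ 0) :
    ∃ x, Cfsg.sympForm m F v x ≠ 0 := by
  obtain ⟨k, hk⟩ := Function.ne_iff.mp hv
  rcases k with i | i
  · exact ⟨Pi.single (Sum.inr i) 1, by rw [sympForm_single_inr]; simpa using hk⟩
  · exact ⟨Pi.single (Sum.inl i) 1, by rw [sympForm_single_inl]; simpa using hk⟩

theorem sympTransvection_fix {u x : Fin m ⊕ Fin m → F} (c : F) (h : Cfsg.sympForm m F u x = 0) :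
    Cfsg.sympTransvection m x c *ᵥ u = u := by
  rw [sympTransvection_mulVec, h]
  simp

/-- The subgroup of the symplectic group generated by the transvections. -/
def TS (m : ℕ) (F : Type*) [CommRing F] : Subgroup (symplecticGroup (Fin m) F) :=
  Subgroup.closure {A : symplecticGroup (Fin m) F | ∃ (w : Fin m ⊕ Fin m → F) (c : F),
    (A : Matrix (Fin m ⊕ Fin m) (Fin m ⊕ Fin m) F) = Cfsg.sympTransvection m w c}

/-- The transvection as an element of the symplectic group. -/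
def sympT (v : Fin m ⊕ Fin m → F) (c : F) : symplecticGroup (Fin m) F :=
  ⟨Cfsg.sympTransvection m v c, sympTransvection_mem v c⟩

theorem sympT_mem_TS (v : Fin m ⊕ Fin m → F) (c : F) : sympT v c ∈ TS m F :=
  Subgroup.subset_closure ⟨v, c, rfl⟩

end Cfsg.Agent.H6

namespace Cfsg.Agent.H6

open Matrix

variable {m : ℕ} {F : Type*} [Field F]

theorem sympTransvection_step {v w : Fin m ⊕ Fin m → F} (h : Cfsg.sympForm m F v w ≠ 0) :
    Cfsg.sympTransvection m (v - w) (Cfsg.sympForm m F v w)⁻¹ *ᵥ v = w := by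
  rw [sympTransvection_mulVec, sympForm_sub_right, sympForm_self, zero_sub, mul_neg,
    inv_mul_cancel₀ h]
  simp

/-- Two nonzero vectors admit a common non-orthogonal vector. -/
theorem exists_common_nonorth {v w : Fin m ⊕ Fin m → F} (hv : v ≠ 0) (hw : w ≠ 0) :
    ∃ z, Cfsg.sympForm m F v z ≠ 0 ∧ Cfsg.sympForm m F w z ≠ 0 := by
  obtain ⟨x, hx⟩ := sympForm_nondeg hv
  obtain ⟨y, hy⟩ := sympForm_nondeg hw
  by_cases h1 : Cfsg.sympForm m F w x = 0
  · by_cases h2 : Cfsg.sympForm m F v y = 0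
    · refine ⟨x + y, ?_, ?_⟩
      · rw [sympForm_add_right, h2, add_zero]; exact hx
      · rw [sympForm_add_right, h1, zero_add]; exact hy
    · exact ⟨y, h2, hy⟩
  · exact ⟨x, hx, h1⟩

theorem exists_TS_map {v w : Fin m ⊕ Fin m → F} (hv : v ≠ 0) (hw : w ≠ 0) :
    ∃ A ∈ TS m F, (A : Matrix (Fin m ⊕ Fin m) (Fin m ⊕ Fin m) F) *ᵥ v = w := by
  obtain ⟨z, hz1, hz2⟩ := exists_common_nonorth hv hw
  refine ⟨sympT (z - w) (Cfsg.sympForm m F z w)⁻¹ * sympT (v - z) (Cfsg.sympForm m F v z)⁻¹,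
    mul_mem (sympT_mem_TS _ _) (sympT_mem_TS _ _), ?_⟩
  have hz2' : Cfsg.sympForm m F z w ≠ 0 := by rw [sympForm_swap]; exact neg_ne_zero.mpr hz2
  change (Cfsg.sympTransvection m _ _ * Cfsg.sympTransvection m _ _) *ᵥ v = w
  rw [← mulVec_mulVec, sympTransvection_step hz1, sympTransvection_step hz2']

/-- Moving `v` to `v'` while fixing `u`, when `f u v = f u v' = 1`. -/
theorem exists_TS_map_fix {u v v' : Fin m ⊕ Fin m → F} (h : Cfsg.sympForm m F u v = 1)
    (h' : Cfsg.sympForm m F u v' = 1) :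
    ∃ A ∈ TS m F, (A : Matrix (Fin m ⊕ Fin m) (Fin m ⊕ Fin m) F) *ᵥ u = u ∧
      (A : Matrix (Fin m ⊕ Fin m) (Fin m ⊕ Fin m) F) *ᵥ v = v' := by
  by_cases hvv : Cfsg.sympForm m F v v' = 0
  · have h1 : Cfsg.sympForm m F v (v + u) ≠ 0 := by
      rw [sympForm_add_right, sympForm_self, zero_add, sympForm_swap, h]; simp
    have h2 : Cfsg.sympForm m F (v + u) v' ≠ 0 := by
      rw [sympForm_add_left, hvv, zero_add, h']; simp
    refine ⟨sympT ((v + u) - v') (Cfsg.sympForm m F (v + u) v')⁻¹ *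
      sympT (v - (v + u)) (Cfsg.sympForm m F v (v + u))⁻¹,
      mul_mem (sympT_mem_TS _ _) (sympT_mem_TS _ _), ?_, ?_⟩
    · change (Cfsg.sympTransvection m _ _ * Cfsg.sympTransvection m _ _) *ᵥ u = u
      have e1 : Cfsg.sympForm m F u (v - (v + u)) = 0 := by
        rw [sympForm_sub_right, sympForm_add_right, sympForm_self, h]; ring
      have e2 : Cfsg.sympForm m F u ((v + u) - v') = 0 := by
        rw [sympForm_sub_right, sympForm_add_right, sympForm_self, h, h']; ring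
      rw [← mulVec_mulVec, sympTransvection_fix _ e1, sympTransvection_fix _ e2]
    · change (Cfsg.sympTransvection m _ _ * Cfsg.sympTransvection m _ _) *ᵥ v = v'
      rw [← mulVec_mulVec, sympTransvection_step h1, sympTransvection_step h2]
  · refine ⟨sympT (v - v') (Cfsg.sympForm m F v v')⁻¹, sympT_mem_TS _ _, ?_, ?_⟩
    · change Cfsg.sympTransvection m _ _ *ᵥ u = u
      rw [sympTransvection_fix]
      rw [sympForm_sub_right, h, h']; ring
    · exact sympTransvection_step hvv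

theorem symp_preserves (A : symplecticGroup (Fin m) F) (u v : Fin m ⊕ Fin m → F) :
    Cfsg.sympForm m F ((A : Matrix (Fin m ⊕ Fin m) (Fin m ⊕ Fin m) F) *ᵥ u)
      ((A : Matrix (Fin m ⊕ Fin m) (Fin m ⊕ Fin m) F) *ᵥ v) = Cfsg.sympForm m F u v :=
  (mem_symplecticGroup_iff_preserves _).mp A.2 u v

theorem exists_TS_map_pair {u v u' v' : Fin m ⊕ Fin m → F} (h : Cfsg.sympForm m F u v = 1)
    (h' : Cfsg.sympForm m F u' v' = 1) :
    ∃ A ∈ TS m F, (A : Matrix (Fin m ⊕ Fin m) (Fin m ⊕ Fin m) F) *ᵥ u = u' ∧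
      (A : Matrix (Fin m ⊕ Fin m) (Fin m ⊕ Fin m) F) *ᵥ v = v' := by
  have hu : u ≠ 0 := by
    rintro rfl; rw [sympForm_zero_left] at h; exact zero_ne_one h
  have hu' : u' ≠ 0 := by
    rintro rfl; rw [sympForm_zero_left] at h'; exact zero_ne_one h'
  obtain ⟨A, hA, hAu⟩ := exists_TS_map hu hu'
  have h1 : Cfsg.sympForm m F u' ((A : Matrix (Fin m ⊕ Fin m) (Fin m ⊕ Fin m) F) *ᵥ v) = 1 := by
    rw [← hAu, symp_preserves, h]
  obtain ⟨B, hB, hBu, hBv⟩ := exists_TS_map_fix h1 h'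
  refine ⟨B * A, mul_mem hB hA, ?_, ?_⟩
  · change ((B : Matrix (Fin m ⊕ Fin m) (Fin m ⊕ Fin m) F) *
      (A : Matrix (Fin m ⊕ Fin m) (Fin m ⊕ Fin m) F)) *ᵥ u = u'
    rw [← mulVec_mulVec, hAu, hBu]
  · change ((B : Matrix (Fin m ⊕ Fin m) (Fin m ⊕ Fin m) F) *
      (A : Matrix (Fin m ⊕ Fin m) (Fin m ⊕ Fin m) F)) *ᵥ v = v'
    rw [← mulVec_mulVec, hBv]

end Cfsg.Agent.H6
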