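import Mathlib
import Cfsg.Agent.Lib_helper6_Symp

set_option autoImplicit false

namespace Cfsg.Agent.H6

open Matrix

variable {m : ℕ} {F : Type*} [Field F]

/-- `sympForm` as a bilinear form. -/
noncomputable def sympB (m : ℕ) (F : Type*) [Field F] :
    LinearMap.BilinForm F (Fin m ⊕ Fin m → F) := Matrix.toBilin' (J (Fin m) F)

theorem sympB_apply (u v : Fin m ⊕ Fin m → F) : sympB m F u v = Cfsg.sympForm m F u v :=
  Matrix.toBilin'_apply' _ _ _

theorem sympB_isAlt : (sympB m F).IsAlt := fun x => by rw [sympB_apply, sympForm_self]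

theorem sympB_isRefl : (sympB m F).IsRefl := sympB_isAlt.isRefl

theorem sympB_nondegenerate : (sympB m F).Nondegenerate := by
  constructor
  · intro x hx
    by_contra h
    obtain ⟨y, hy⟩ := sympForm_nondeg h
    exact hy (by rw [← sympB_apply]; exact hx y)
  · intro x hx
    by_contra h
    obtain ⟨y, hy⟩ := sympForm_nondeg h
    apply hy
    rw [sympForm_swap, ← sympB_apply, hx y, neg_zero]

theorem exists_orth_nonorth (W : Submodule F (Fin m ⊕ Fin m → F)) {x : Fin m ⊕ Fin m → F}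
    (hx : x ∉ W) : ∃ w, (∀ z ∈ W, Cfsg.sympForm m F z w = 0) ∧ Cfsg.sympForm m F x w ≠ 0 := by
  by_contra hcon
  push Not at hcon
  apply hx
  rw [← LinearMap.BilinForm.orthogonal_orthogonal sympB_nondegenerate sympB_isRefl W,
    LinearMap.BilinForm.mem_orthogonal_iff]
  intro n hn
  rw [LinearMap.BilinForm.mem_orthogonal_iff] at hn
  rw [sympB_apply, sympForm_swap, hcon n (fun z hz => by rw [← sympB_apply]; exact hn z hz),
    neg_zero]

theorem exists_TS_fix_map (W : Submodule F (Fin m ⊕ Fin m → F)) {x y : Fin m ⊕ Fin m → F}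
    (hx : x ∉ W) (hy : y ∉ W)
    (hxy : ∀ z ∈ W, Cfsg.sympForm m F z y = Cfsg.sympForm m F z x) :
    ∃ B ∈ TS m F, (∀ z ∈ W, (B : Matrix (Fin m ⊕ Fin m) (Fin m ⊕ Fin m) F) *ᵥ z = z) ∧
      (B : Matrix (Fin m ⊕ Fin m) (Fin m ⊕ Fin m) F) *ᵥ y = x := by
  by_cases hyx : Cfsg.sympForm m F y x = 0
  · obtain ⟨w, hwW, hxw, hyw⟩ : ∃ w, (∀ z ∈ W, Cfsg.sympForm m F z w = 0) ∧
        Cfsg.sympForm m F x w ≠ 0 ∧ Cfsg.sympForm m F y w ≠ 0 := by
      obtain ⟨w1, hw1, hxw1⟩ := exists_orth_nonorth W hx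
      obtain ⟨w2, hw2, hyw2⟩ := exists_orth_nonorth W hy
      by_cases h1 : Cfsg.sympForm m F y w1 = 0
      · by_cases h2 : Cfsg.sympForm m F x w2 = 0
        · refine ⟨w1 + w2, fun z hz => ?_, ?_, ?_⟩
          · rw [sympForm_add_right, hw1 z hz, hw2 z hz, add_zero]
          · rw [sympForm_add_right, h2, add_zero]; exact hxw1
          · rw [sympForm_add_right, h1, zero_add]; exact hyw2
        · exact ⟨w2, hw2, h2, hyw2⟩
      · exact ⟨w1, hw1, hxw1, h1⟩
    have h1 : Cfsg.sympForm m F y (x + w) ≠ 0 := by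
      rw [sympForm_add_right, hyx, zero_add]; exact hyw
    have h2 : Cfsg.sympForm m F (x + w) x ≠ 0 := by
      rw [sympForm_add_left, sympForm_self, zero_add, sympForm_swap]; exact neg_ne_zero.mpr hxw
    refine ⟨sympT ((x + w) - x) (Cfsg.sympForm m F (x + w) x)⁻¹ *
      sympT (y - (x + w)) (Cfsg.sympForm m F y (x + w))⁻¹,
      mul_mem (sympT_mem_TS _ _) (sympT_mem_TS _ _), fun z hz => ?_, ?_⟩
    · change (Cfsg.sympTransvection m _ _ * Cfsg.sympTransvection m _ _) *ᵥ z = z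
      have e1 : Cfsg.sympForm m F z (y - (x + w)) = 0 := by
        rw [sympForm_sub_right, sympForm_add_right, hxy z hz, hwW z hz]; ring
      have e2 : Cfsg.sympForm m F z ((x + w) - x) = 0 := by
        rw [sympForm_sub_right, sympForm_add_right, hwW z hz]; ring
      rw [← mulVec_mulVec, sympTransvection_fix _ e1, sympTransvection_fix _ e2]
    · change (Cfsg.sympTransvection m _ _ * Cfsg.sympTransvection m _ _) *ᵥ y = x
      rw [← mulVec_mulVec, sympTransvection_step h1, sympTransvection_step h2]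
  · refine ⟨sympT (y - x) (Cfsg.sympForm m F y x)⁻¹, sympT_mem_TS _ _, fun z hz => ?_, ?_⟩
    · change Cfsg.sympTransvection m _ _ *ᵥ z = z
      rw [sympTransvection_fix]
      rw [sympForm_sub_right, hxy z hz]; ring
    · exact sympTransvection_step hyx

/-- The fixed subspace of a matrix. -/
def fixSub (A : Matrix (Fin m ⊕ Fin m) (Fin m ⊕ Fin m) F) : Submodule F (Fin m ⊕ Fin m → F) :=
  LinearMap.ker (Matrix.toLin' A - LinearMap.id)

theorem mem_fixSub (A : Matrix (Fin m ⊕ Fin m) (Fin m ⊕ Fin m) F) (x : Fin m ⊕ Fin m → F) :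
    x ∈ fixSub A ↔ A *ᵥ x = x := by
  simp [fixSub, LinearMap.mem_ker, sub_eq_zero]

theorem eq_one_of_fixSub_eq_top (A : symplecticGroup (Fin m) F)
    (h : fixSub (A : Matrix (Fin m ⊕ Fin m) (Fin m ⊕ Fin m) F) = ⊤) : A = 1 := by
  apply Subtype.ext
  rw [Matrix.ext_iff_mulVec]
  intro x
  have : x ∈ fixSub (A : Matrix (Fin m ⊕ Fin m) (Fin m ⊕ Fin m) F) := by rw [h]; trivial
  rw [mem_fixSub] at this
  rw [this]
  simp

theorem symp_mulVec_injective (A : symplecticGroup (Fin m) F) :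
    Function.Injective ((A : Matrix (Fin m ⊕ Fin m) (Fin m ⊕ Fin m) F).mulVec) := by
  intro x y hxy
  have h : ((A⁻¹ * A : symplecticGroup (Fin m) F) :
      Matrix (Fin m ⊕ Fin m) (Fin m ⊕ Fin m) F) = 1 := by rw [inv_mul_cancel]; rfl
  have h' : ((A⁻¹ : symplecticGroup (Fin m) F) : Matrix (Fin m ⊕ Fin m) (Fin m ⊕ Fin m) F) *
      (A : Matrix (Fin m ⊕ Fin m) (Fin m ⊕ Fin m) F) = 1 := h
  have := congrArg (((A⁻¹ : symplecticGroup (Fin m) F) :
    Matrix (Fin m ⊕ Fin m) (Fin m ⊕ Fin m) F).mulVec) hxy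
  simpa [mulVec_mulVec, h'] using this

theorem mem_TS_of_codim (n : ℕ) : ∀ A : symplecticGroup (Fin m) F,
    Module.finrank F (Fin m ⊕ Fin m → F) ≤
      Module.finrank F (fixSub (A : Matrix (Fin m ⊕ Fin m) (Fin m ⊕ Fin m) F)) + n →
    A ∈ TS m F := by
  induction n with
  | zero =>
    intro A hA
    have : fixSub (A : Matrix (Fin m ⊕ Fin m) (Fin m ⊕ Fin m) F) = ⊤ :=
      Submodule.eq_top_of_finrank_eq (le_antisymm (Submodule.finrank_le _) (by simpa using hA))
    rw [eq_one_of_fixSub_eq_top A this]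
    exact one_mem _
  | succ n ih =>
    intro A hA
    by_cases htop : fixSub (A : Matrix (Fin m ⊕ Fin m) (Fin m ⊕ Fin m) F) = ⊤
    · rw [eq_one_of_fixSub_eq_top A htop]
      exact one_mem _
    · obtain ⟨x, hx⟩ : ∃ x, x ∉ fixSub (A : Matrix (Fin m ⊕ Fin m) (Fin m ⊕ Fin m) F) := by
        by_contra hcon
        push Not at hcon
        exact htop (eq_top_iff.mpr fun x _ => hcon x)
      have hy : (A : Matrix (Fin m ⊕ Fin m) (Fin m ⊕ Fin m) F) *ᵥ x ∉
          fixSub (A : Matrix (Fin m ⊕ Fin m) (Fin m ⊕ Fin m) F) := by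
        intro hy
        rw [mem_fixSub] at hy
        exact hx ((mem_fixSub _ _).mpr (symp_mulVec_injective A hy))
      obtain ⟨B, hB, hBW, hBy⟩ := exists_TS_fix_map _ hx hy (fun z hz => by
        rw [mem_fixSub] at hz
        conv_lhs => rw [← hz]
        exact symp_preserves A z x)
      have hlt : fixSub (A : Matrix (Fin m ⊕ Fin m) (Fin m ⊕ Fin m) F) <
          fixSub ((B * A : symplecticGroup (Fin m) F) :
            Matrix (Fin m ⊕ Fin m) (Fin m ⊕ Fin m) F) := by
        have hmul : ∀ z, ((B * A : symplecticGroup (Fin m) F) :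
            Matrix (Fin m ⊕ Fin m) (Fin m ⊕ Fin m) F) *ᵥ z =
            (B : Matrix (Fin m ⊕ Fin m) (Fin m ⊕ Fin m) F) *ᵥ
              ((A : Matrix (Fin m ⊕ Fin m) (Fin m ⊕ Fin m) F) *ᵥ z) := fun z => by
          rw [mulVec_mulVec]; rfl
        refine lt_of_le_of_ne (fun z hz => ?_) (fun heq => hx ?_)
        · rw [mem_fixSub, hmul, (mem_fixSub _ _).mp hz, hBW z hz]
        · rw [heq, mem_fixSub, hmul, hBy]
      have := Submodule.finrank_lt_finrank_of_lt hlt
      have hBA := ih (B * A) (by omega)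
      have : A = B⁻¹ * (B * A) := by group
      rw [this]
      exact mul_mem (inv_mem hB) hBA

theorem TS_eq_top : TS m F = ⊤ :=
  eq_top_iff.mpr fun A _ => mem_TS_of_codim _ A (Nat.le_add_left _ _)

end Cfsg.Agent.H6
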