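import Cfsg.Agent.Lib_helper6_SympPerfect
import Cfsg.Agent.Lib_helper6_AltCard

/-! The matrix symplectic group as the isometry group of `sympB`. -/

set_option autoImplicit false

namespace Cfsg.Agent.H6

open Matrix

variable {F : Type*} [Field F] {m : ℕ}

local notation "V" => (Fin m ⊕ Fin m → F)
local notation "M" => Matrix (Fin m ⊕ Fin m) (Fin m ⊕ Fin m) F
local notation "Sp" => symplecticGroup (Fin m) F

/-- A symplectic matrix as a linear equivalence. -/
def sympToLin (A : Sp) : V ≃ₗ[F] V :=
  { Matrix.toLin' (A : M) with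
    invFun := fun x => ((A⁻¹ : Sp) : M) *ᵥ x
    left_inv := fun x => by
      simp only [AddHom.toFun_eq_coe, LinearMap.coe_toAddHom, Matrix.toLin'_apply]
      exact symp_inv_apply_apply A x
    right_inv := fun x => by
      simp only [AddHom.toFun_eq_coe, LinearMap.coe_toAddHom, Matrix.toLin'_apply]
      exact symp_apply_inv_apply A x }

theorem sympToLin_apply (A : Sp) (x : V) : sympToLin A x = (A : M) *ᵥ x := rfl

theorem sympToLin_mem (A : Sp) : sympToLin A ∈ Alt.Isom (sympB m F) := by
  intro u v
  rw [sympB_apply, sympB_apply, sympToLin_apply, sympToLin_apply, symp_preserves]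

/-- `Sp_{2m}(F)` is the isometry group of `sympB`. -/
noncomputable def sympEquivIsom : Sp ≃* Alt.Isom (sympB m F) where
  toFun A := ⟨sympToLin A, sympToLin_mem A⟩
  invFun g := ⟨LinearMap.toMatrix' g.1.toLinearMap, by
    rw [mem_symplecticGroup_iff_preserves]
    intro u v
    have := g.2 u v
    rw [sympB_apply, sympB_apply] at this
    simpa [← Matrix.toLin'_apply] using this⟩
  left_inv A := by
    apply symp_ext
    intro x
    simp [← Matrix.toLin'_apply, sympToLin_apply]
  right_inv g := by
    apply Subtype.ext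
    ext x : 1
    rw [sympToLin_apply]
    simp [← Matrix.toLin'_apply]
  map_mul' A C := by
    apply Subtype.ext
    ext x : 1
    change sympToLin (A * C) x = sympToLin A (sympToLin C x)
    rw [sympToLin_apply, sympToLin_apply, sympToLin_apply, symp_mul_apply]

theorem sympEquivIsom_apply (A : Sp) (x : V) : (sympEquivIsom A : V ≃ₗ[F] V) x = (A : M) *ᵥ x := rfl

theorem card_symp [Finite F] :
    Nat.card Sp = Nat.card F ^ (m ^ 2) * ∏ i ∈ Finset.range m, (Nat.card F ^ (2 * (i + 1)) - 1) := by
  rw [Nat.card_congr sympEquivIsom.toEquiv]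
  apply Alt.card_Isom sympB_nondegenerate sympB_isAlt
  simp
  ring

end Cfsg.Agent.H6
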