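import Mathlib
import Cfsg.Agent.Lib_helper6_SympGen
import Cfsg.Agent.Lib_helper6_Field

set_option autoImplicit false

namespace Cfsg.Agent.H6

open Matrix
open scoped commutatorElement

variable {m : ℕ} {F : Type*} [Field F]

local notation "V" => (Fin m ⊕ Fin m → F)
local notation "M" => Matrix (Fin m ⊕ Fin m) (Fin m ⊕ Fin m) F
local notation "Sp" => symplecticGroup (Fin m) F

theorem sympT_apply (v : V) (c : F) (x : V) :
    (sympT v c : M) *ᵥ x = x + (c * Cfsg.sympForm m F x v) • v := sympTransvection_mulVec v c x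

theorem symp_mul_apply (A B : Sp) (x : V) : ((A * B : Sp) : M) *ᵥ x = (A : M) *ᵥ ((B : M) *ᵥ x) := by
  rw [mulVec_mulVec]; rfl

theorem symp_ext {A B : Sp} (h : ∀ x : V, (A : M) *ᵥ x = (B : M) *ᵥ x) : A = B :=
  Subtype.ext (Matrix.ext_iff_mulVec.mpr h)

theorem symp_inv_apply_apply (A : Sp) (x : V) : ((A⁻¹ : Sp) : M) *ᵥ ((A : M) *ᵥ x) = x := by
  rw [← symp_mul_apply, inv_mul_cancel]
  change (1 : M) *ᵥ x = x
  simp

theorem symp_apply_inv_apply (A : Sp) (x : V) : (A : M) *ᵥ (((A⁻¹ : Sp) : M) *ᵥ x) = x := by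
  rw [← symp_mul_apply, mul_inv_cancel]
  change (1 : M) *ᵥ x = x
  simp

theorem sympT_inv (v : V) (c : F) : (sympT v c)⁻¹ = sympT v (-c) := by
  apply inv_eq_of_mul_eq_one_right
  apply symp_ext
  intro x
  rw [symp_mul_apply]
  simp only [sympT_apply, sympForm_add_left, sympForm_smul_left, sympForm_self]
  change _ = (1 : M) *ᵥ x
  rw [one_mulVec]
  module

theorem conj_sympT (A : Sp) (v : V) (c : F) :
    A * sympT v c * A⁻¹ = sympT ((A : M) *ᵥ v) c := by
  apply symp_ext
  intro x
  rw [symp_mul_apply, symp_mul_apply, sympT_apply, sympT_apply, mulVec_add, mulVec_smul,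
    symp_apply_inv_apply]
  congr 3
  rw [← symp_preserves A, symp_apply_inv_apply]

theorem sympT_smul (a : F) (v : V) (c : F) : sympT (a • v) c = sympT v (a ^ 2 * c) := by
  apply symp_ext
  intro x
  simp only [sympT_apply, sympForm_smul_right]
  module

theorem sympT_mul (v : V) (c d : F) : sympT v c * sympT v d = sympT v (c + d) := by
  apply symp_ext
  intro x
  rw [symp_mul_apply]
  simp only [sympT_apply, sympForm_add_left, sympForm_smul_left, sympForm_self]
  module

theorem sympT_zero_vec (c : F) : sympT (0 : V) c = 1 := by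
  apply symp_ext
  intro x
  rw [sympT_apply]
  change _ = (1 : M) *ᵥ x
  simp

/-- It is enough to have all transvections in the commutator subgroup. -/
theorem commutator_eq_top_of_sympT_mem
    (h : ∀ (v : V) (c : F), sympT v c ∈ commutator Sp) : commutator Sp = ⊤ := by
  rw [eq_top_iff, ← TS_eq_top, TS, Subgroup.closure_le]
  rintro A ⟨w, c, hA⟩
  have : A = sympT w c := Subtype.ext hA
  rw [this]
  exact h w c

/-- It is enough to have, for all `c`, one transvection `T_u(c)`, `u ≠ 0`, in the commutator. -/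
theorem sympT_mem_commutator_of_one {u : V} (hu : u ≠ 0)
    (h : ∀ c : F, sympT u c ∈ commutator Sp) (v : V) (c : F) : sympT v c ∈ commutator Sp := by
  by_cases hv : v = 0
  · rw [hv, sympT_zero_vec]; exact one_mem _
  obtain ⟨A, _, hA⟩ := exists_TS_map hu hv
  rw [← hA, ← conj_sympT]
  exact (inferInstance : (commutator Sp).Normal).conj_mem _ (h c) A

theorem commutatorElement_mem (A B : Sp) : ⁅A, B⁆ ∈ commutator Sp :=
  Subgroup.commutator_mem_commutator (Subgroup.mem_top _) (Subgroup.mem_top _)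

/-- Trick I: large fields. -/
theorem commutator_symp_eq_top_of_sq_ne_one {a : F} (ha : a ≠ 0) (ha2 : a ^ 2 ≠ 1) :
    commutator Sp = ⊤ := by
  apply commutator_eq_top_of_sympT_mem
  intro v c
  by_cases hv : v = 0
  · rw [hv, sympT_zero_vec]; exact one_mem _
  obtain ⟨D, _, hD⟩ := exists_TS_map hv (smul_ne_zero ha hv)
  have h1 : ⁅D, sympT v (c / (a ^ 2 - 1))⁆ = sympT v c := by
    rw [commutatorElement_def, conj_sympT, hD, sympT_smul, sympT_inv, sympT_mul]
    congr 1
    have : a ^ 2 - 1 ≠ 0 := sub_ne_zero_of_ne ha2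
    field_simp
    ring
  rw [← h1]
  exact commutatorElement_mem _ _

/-- The element `x ↦ x + c f(x,a) b + c f(x,b) a`. -/
def sympR (a b : V) (c : F) : Sp := sympT (a + b) c * sympT a (-c) * sympT b (-c)

theorem conj_sympR (A : Sp) (a b : V) (c : F) :
    A * sympR a b c * A⁻¹ = sympR ((A : M) *ᵥ a) ((A : M) *ᵥ b) c := by
  unfold sympR
  rw [← mulVec_add, ← conj_sympT, ← conj_sympT, ← conj_sympT]
  group

theorem sympR_apply {a b : V} (hab : Cfsg.sympForm m F a b = 0) (c : F) (x : V) :
    (sympR a b c : M) *ᵥ x =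
      x + (c * Cfsg.sympForm m F x a) • b + (c * Cfsg.sympForm m F x b) • a := by
  have hba : Cfsg.sympForm m F b a = 0 := by rw [sympForm_swap, hab, neg_zero]
  unfold sympR
  rw [symp_mul_apply, symp_mul_apply]
  simp only [sympT_apply, sympForm_add_left, sympForm_smul_left, sympForm_add_right,
    sympForm_self, hab, hba]
  module

/-- Trick II: odd characteristic, an isotropic plane. -/
theorem sympT_mem_commutator_of_two_ne_zero (h2 : (2 : F) ≠ 0) {u w : V}
    (hw : w ∉ Submodule.span F {u}) (huw : Cfsg.sympForm m F u w = 0) (c : F) :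
    sympT u c ∈ commutator Sp := by
  have hx : u + w ∉ Submodule.span F {u} := by
    intro h
    apply hw
    have := Submodule.sub_mem _ h (Submodule.mem_span_singleton_self u)
    simpa using this
  obtain ⟨g, _, hgW, hgw⟩ := exists_TS_fix_map (Submodule.span F {u}) hx hw (fun z hz => by
    obtain ⟨t, rfl⟩ := Submodule.mem_span_singleton.mp hz
    simp [sympForm_smul_left, sympForm_add_right, sympForm_self, huw])
  have hgu := hgW u (Submodule.mem_span_singleton_self u)
  have hwu : Cfsg.sympForm m F w u = 0 := by rw [sympForm_swap, huw, neg_zero]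
  have h1 : ∀ d : F, ⁅g, sympR u w d⁆ = sympT u (2 * d) := by
    intro d
    rw [commutatorElement_def, conj_sympR, hgu, hgw]
    rw [mul_inv_eq_iff_eq_mul]
    apply symp_ext
    intro x
    rw [symp_mul_apply, sympR_apply (by simp [sympForm_add_right, sympForm_self, huw]),
      sympR_apply huw, sympT_apply]
    simp only [sympForm_add_left, sympForm_smul_left, sympForm_add_right, sympForm_self, hwu]
    module
  have : c = 2 * (c / 2) := by field_simp
  rw [this, ← h1]
  exact commutatorElement_mem _ _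

/-- Trick III: an isotropic 3-space. -/
theorem sympT_mem_commutator_of_three {e₁ e₂ e₃ : V} (h12 : Cfsg.sympForm m F e₁ e₂ = 0)
    (h13 : Cfsg.sympForm m F e₁ e₃ = 0) (h23 : Cfsg.sympForm m F e₂ e₃ = 0)
    (h2 : e₂ ≠ 0) (h12' : e₁ + e₂ ≠ 0)
    (h3 : e₃ ∉ Submodule.span F {e₁}) (h32 : e₃ + e₂ ∉ Submodule.span F {e₁}) (c : F) :
    sympT e₁ c ∈ commutator Sp := by
  have h21 : Cfsg.sympForm m F e₂ e₁ = 0 := by rw [sympForm_swap, h12, neg_zero]
  have h31 : Cfsg.sympForm m F e₃ e₁ = 0 := by rw [sympForm_swap, h13, neg_zero]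
  have h32'' : Cfsg.sympForm m F e₃ e₂ = 0 := by rw [sympForm_swap, h23, neg_zero]
  -- `R_{e₁,e₂}(c)` is a commutator
  obtain ⟨g', _, hgW, hg3⟩ := exists_TS_fix_map (Submodule.span F {e₁}) h32 h3 (fun z hz => by
    obtain ⟨t, rfl⟩ := Submodule.mem_span_singleton.mp hz
    simp [sympForm_smul_left, sympForm_add_right, h12, h13])
  have hg1 := hgW e₁ (Submodule.mem_span_singleton_self e₁)
  have hR : sympR e₁ e₂ c ∈ commutator Sp := by
    have h1 : ⁅g', sympR e₁ e₃ c⁆ = sympR e₁ e₂ c := by
      rw [commutatorElement_def, conj_sympR, hg1, hg3, mul_inv_eq_iff_eq_mul]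
      apply symp_ext
      intro x
      rw [symp_mul_apply, sympR_apply (by simp [sympForm_add_right, h12, h13]),
        sympR_apply h13, sympR_apply h12]
      simp only [sympForm_add_left, sympForm_smul_left, sympForm_add_right, sympForm_self,
        h12, h13, h23, h21, h31, h32'']
      module
    rw [← h1]
    exact commutatorElement_mem _ _
  obtain ⟨g, _, hg⟩ := exists_TS_map h2 h12'
  have h2' : ⁅g, sympT e₂ c⁆ = sympT e₁ c * sympR e₁ e₂ c := by
    rw [commutatorElement_def, conj_sympT, hg, mul_inv_eq_iff_eq_mul]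
    apply symp_ext
    intro x
    rw [symp_mul_apply, symp_mul_apply, sympR_apply h12]
    simp only [sympT_apply, sympForm_add_left, sympForm_smul_left, sympForm_add_right,
      sympForm_self, h12, h21]
    module
  have : sympT e₁ c = ⁅g, sympT e₂ c⁆ * (sympR e₁ e₂ c)⁻¹ := by rw [h2']; group
  rw [this]
  exact mul_mem (commutatorElement_mem _ _) (inv_mem hR)

end Cfsg.Agent.H6
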