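import Cfsg.Agent.Lib_helper7_WellPlaced

set_option autoImplicit false

namespace Cfsg.Agent.H7

variable {G : Type*} [Group G]

/-- Abstract form of Alperin's induction. -/
theorem alperin_abstract [Finite G] {p : ℕ} [Fact p.Prime] (S : Sylow p G) (D : Subgroup G → G → Prop)
    (hmono : ∀ (Q Q' : Subgroup G) (g : G), Q ≤ Q' → D Q' g → D Q g)
    (htrans : ∀ (Q : Subgroup G) (g h : G), D Q g → D (rc g Q) h → D Q (g * h))
    (hsymm : ∀ (Q : Subgroup G) (g : G), D Q g → D (rc g Q) g⁻¹)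
    (hstep : ∀ Q : Subgroup G, Q ≤ S →
      (∀ Q' : Subgroup G, Q' ≤ S → Nat.card Q < Nat.card Q' → ∀ g, rc g Q' ≤ S → D Q' g) →
      ∃ U : Subgroup G, U ≤ S ∧ (∃ h : G, rc h Q = U) ∧
        IsSylowIn p ((S : Subgroup G) ⊓ Subgroup.normalizer (U : Set G)) (Subgroup.normalizer (U : Set G)) ∧
        ∀ m ∈ Subgroup.normalizer (U : Set G), D U m) :
    ∀ Q : Subgroup G, Q ≤ S → ∀ g, rc g Q ≤ S → D Q g := by
  suffices H : ∀ n : ℕ, ∀ Q : Subgroup G, Nat.card (S : Subgroup G) - Nat.card Q = n →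
      Q ≤ S → ∀ g, rc g Q ≤ S → D Q g from fun Q => H _ Q rfl
  intro n
  induction n using Nat.strong_induction_on with
  | _ n ih =>
  intro Q hn hQ g hg
  have IH : ∀ Q' : Subgroup G, Q' ≤ S → Nat.card Q < Nat.card Q' → ∀ g, rc g Q' ≤ S → D Q' g := by
    intro Q' hQ' hlt g' hg'
    have hle : Nat.card Q' ≤ Nat.card (S : Subgroup G) := Subgroup.card_le_of_le hQ'
    exact ih (Nat.card (S : Subgroup G) - Nat.card Q') (by omega) Q' rfl hQ' g' hg'
  obtain ⟨U, hU, ⟨h, hh⟩, hSyl, hm⟩ := hstep Q hQ IH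
  have hcU : Nat.card U = Nat.card Q := by rw [← hh, card_rc]
  by_cases hQS : Q = S
  · have hUS : U = S := Subgroup.eq_of_le_of_card_ge hU (by rw [hcU, hQS])
    have hgN : g ∈ Subgroup.normalizer (U : Set G) := by
      rw [← rc_eq_self_iff, hUS]
      refine Subgroup.eq_of_le_of_card_ge (by rw [hQS] at hg; exact hg) (by rw [card_rc])
    have := hm g hgN
    rwa [hUS, ← hQS] at this
  · have claim : ∀ Q1 : Subgroup G, Q1 ≤ S → Nat.card Q1 = Nat.card Q → ∀ h1, rc h1 Q1 = U →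
        ∃ k, rc k Q1 = U ∧ D Q1 k := by
      intro Q1 hQ1 hc h1 hh1
      have hlt : Q1 < S := by
        refine lt_of_le_of_ne hQ1 ?_
        intro he
        apply hQS
        exact Subgroup.eq_of_le_of_card_ge hQ (by rw [← hc, he])
      have hN := lt_inf_normalizer S.2 hlt
      obtain ⟨k, hk1, hk2, -⟩ := exists_rc_normalizer_le S.2 h1 hh1 hSyl
      refine ⟨k, hk1, ?_⟩
      have hcard : Nat.card Q < Nat.card ((S : Subgroup G) ⊓ Subgroup.normalizer (Q1 : Set G) : Subgroup G) := by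
        rw [← hc]
        exact card_lt_of_lt hN
      exact hmono _ _ _ hN.le (IH _ inf_le_left hcard k (hk2.trans inf_le_left))
    obtain ⟨k1, hk1, hc1⟩ := claim Q hQ rfl h hh
    obtain ⟨k2, hk2, hc2⟩ := claim (rc g Q) hg (card_rc g Q) (g⁻¹ * h) (by rw [← rc_mul]; simpa using hh)
    have hmN : k1⁻¹ * g * k2 ∈ Subgroup.normalizer (U : Set G) := by
      rw [← rc_eq_self_iff]
      nth_rewrite 1 [← hk1]
      rw [← rc_mul, ← hk2, ← rc_mul]
      congr 1
      group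
    have e : g = k1 * (k1⁻¹ * g * k2) * k2⁻¹ := by group
    rw [e]
    refine htrans _ _ _ (htrans _ _ _ hc1 ?_) ?_
    · rw [hk1]; exact hm _ hmN
    · have h3 := hsymm _ _ hc2
      have e2 : rc (k1 * (k1⁻¹ * g * k2)) Q = rc k2 (rc g Q) := by
        rw [← rc_mul]; congr 1; group
      rw [e2]; exact h3

end Cfsg.Agent.H7
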