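import Cfsg.Agent.Lib_helper7_CL

set_option autoImplicit false
open scoped Pointwise

namespace Cfsg.Agent.H7

variable {G : Type*} [Group G]

theorem sup_le_centralizer_sup {H K : Subgroup G} (hH : H ≤ Subgroup.centralizer (H : Set G))
    (hK : K ≤ Subgroup.centralizer (K : Set G)) (hHK : H ≤ Subgroup.centralizer (K : Set G)) :
    H ⊔ K ≤ Subgroup.centralizer ((H ⊔ K : Subgroup G) : Set G) := by
  rw [centralizer_sup_eq]
  exact sup_le (le_inf hH hHK) (le_inf (Subgroup.le_centralizer_iff.mp hHK) hK)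

theorem mem_maxAbelian_iff (A : Subgroup G) :
    A ∈ Cfsg.maxAbelianSubgroups G ↔ A ≤ Subgroup.centralizer (A : Set G) ∧
      ∀ B : Subgroup G, B ≤ Subgroup.centralizer (B : Set G) → Nat.card B ≤ Nat.card A := by
  unfold Cfsg.maxAbelianSubgroups
  simp only [Set.mem_ofPred_eq, Subgroup.le_centralizer_iff_isMulCommutative]

theorem maxAbelian_centralizer [Finite G] {A : Subgroup G} (hA : A ∈ Cfsg.maxAbelianSubgroups G) :
    Subgroup.centralizer (A : Set G) = A := by
  rw [mem_maxAbelian_iff] at hA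
  apply le_antisymm _ hA.1
  intro x hx
  have hx' : Subgroup.zpowers x ≤ Subgroup.centralizer (A : Set G) := by
    rwa [Subgroup.zpowers_le]
  have h1 : A ⊔ Subgroup.zpowers x ≤
      Subgroup.centralizer ((A ⊔ Subgroup.zpowers x : Subgroup G) : Set G) := by
    apply sup_le_centralizer_sup hA.1
    · exact Subgroup.le_centralizer_iff_isMulCommutative.mpr inferInstance
    · exact Subgroup.le_centralizer_iff.mp hx'
  have h2 := eq_of_le_of_card_le (le_sup_left : A ≤ A ⊔ Subgroup.zpowers x) (hA.2 _ h1)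
  rw [h2]
  exact (le_sup_right : Subgroup.zpowers x ≤ A ⊔ Subgroup.zpowers x) (Subgroup.mem_zpowers x)

theorem exists_maxAbelian [Finite G] : ∃ A : Subgroup G, A ∈ Cfsg.maxAbelianSubgroups G := by
  have hfin : {B : Subgroup G | B ≤ Subgroup.centralizer (B : Set G)}.Finite := Set.toFinite _
  obtain ⟨A, hA, hmax⟩ := Set.exists_max_image _ (fun B : Subgroup G => Nat.card B) hfin
    ⟨⊥, (bot_le : (⊥ : Subgroup G) ≤ _)⟩
  exact ⟨A, (mem_maxAbelian_iff A).mpr ⟨hA, hmax⟩⟩

/-- The key computation for a centrally large `Q` and a large abelian `A`. -/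
theorem IsCL.sup_maxAbelian [Finite G] {Q A : Subgroup G} (hQ : IsCL Q)
    (hA : A ∈ Cfsg.maxAbelianSubgroups G) :
    IsCL (Q ⊔ A) ∧ ((Q ⊔ A : Subgroup G) : Set G) = (Q : Set G) * (A : Set G) ∧
    ((Q ⊓ A) ⊔ Subgroup.centralizer (Q : Set G)) ∈ Cfsg.maxAbelianSubgroups G ∧
    (((Q ⊓ A) ⊔ Subgroup.centralizer (Q : Set G) : Subgroup G) : Set G) =
      ((Q ⊓ A : Subgroup G) : Set G) * (Subgroup.centralizer (Q : Set G) : Set G) := by
  have hCA := maxAbelian_centralizer hA
  have hA' := (mem_maxAbelian_iff A).mp hA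
  have hZQ := hQ.centralizer_le
  set Z := Subgroup.centralizer (Q : Set G) with hZ
  have hZab : Z ≤ Subgroup.centralizer (Z : Set G) :=
    hZQ.trans (le_centralizer_centralizer Q)
  have hAs : (Q ⊓ A) ⊔ Z ≤ Subgroup.centralizer (((Q ⊓ A) ⊔ Z : Subgroup G) : Set G) := by
    apply sup_le_centralizer_sup _ hZab
    · exact inf_le_left.trans (le_centralizer_centralizer Q)
    · exact inf_le_right.trans (hA'.1.trans
        (Subgroup.centralizer_le (SetLike.coe_subset_coe.mpr inf_le_right)))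
  have e1 := card_mul_card_le Q A
  have e2 := card_mul_card_le (Q ⊓ A) Z
  have e3 := hA'.2 _ hAs
  have e4 := hQ.isCD (Q ⊔ A)
  unfold cdm at e4
  rw [centralizer_sup_eq, hCA, ← hZ] at e4
  have hinf : (Q ⊓ A) ⊓ Z = Z ⊓ A := by
    rw [inf_comm, ← inf_assoc, inf_eq_left.mpr hZQ]
  rw [hinf] at e2
  set q := Nat.card Q
  set a := Nat.card A
  set t := Nat.card (Q ⊔ A : Subgroup G)
  set i := Nat.card (Q ⊓ A : Subgroup G)
  set z := Nat.card Z
  set w := Nat.card (Z ⊓ A : Subgroup G)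
  set s := Nat.card ((Q ⊓ A) ⊔ Z : Subgroup G)
  have hq : 0 < q := Nat.card_pos
  have ha : 0 < a := Nat.card_pos
  have hw : 0 < w := Nat.card_pos
  have hi : 0 < i := Nat.card_pos
  have hs : 0 < s := Nat.card_pos
  -- q a w ≤ t i w = (t w) i ≤ q z i ≤ q s w ≤ q a w
  have c1 : q * a * w ≤ t * i * w := Nat.mul_le_mul_right _ e1
  have c2 : t * i * w ≤ q * z * i := by
    calc t * i * w = (t * w) * i := by ring
      _ ≤ _ := Nat.mul_le_mul_right _ e4
  have c3 : q * z * i ≤ q * (s * w) := by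
    calc q * z * i = q * (i * z) := by ring
      _ ≤ _ := Nat.mul_le_mul_left _ e2
  have c4 : q * (s * w) ≤ q * a * w := by
    calc q * (s * w) = q * s * w := by ring
      _ ≤ _ := Nat.mul_le_mul_right _ (Nat.mul_le_mul_left _ e3)
  have r1 : q * a = t * i := by
    have : t * i * w ≤ q * a * w := c2.trans (c3.trans c4)
    exact le_antisymm e1 (Nat.le_of_mul_le_mul_right this hw)
  have r2 : a ≤ s := by
    have : q * a * w ≤ q * s * w := by
      calc q * a * w ≤ q * (s * w) := c1.trans (c2.trans c3)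
        _ = _ := by ring
    exact Nat.le_of_mul_le_mul_left (Nat.le_of_mul_le_mul_right this hw) hq
  have r3 : i * z = s * w := by
    have : q * (s * w) ≤ q * (i * z) := by
      calc q * (s * w) ≤ q * z * i := c4.trans (c1.trans c2)
        _ = _ := by ring
    exact le_antisymm e2 (Nat.le_of_mul_le_mul_left this hq)
  have r4 : q * z ≤ t * w := by
    have : q * z * i ≤ t * w * i := by
      calc q * z * i ≤ t * i * w := c3.trans (c4.trans c1)
        _ = _ := by ring
    exact Nat.le_of_mul_le_mul_right this hi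
  refine ⟨?_, coe_sup_eq_mul_of_card Q A r1, ?_, ?_⟩
  · rw [isCL_iff]
    constructor
    · apply hQ.isCD.of_cdm_le
      unfold cdm
      rw [centralizer_sup_eq, hCA, ← hZ]
      exact r4
    · rw [centralizer_sup_eq]
      exact inf_le_left.trans (hZQ.trans le_sup_left)
  · rw [mem_maxAbelian_iff]
    exact ⟨hAs, fun B hB => (hA'.2 B hB).trans r2⟩
  · apply coe_sup_eq_mul_of_card
    rw [hinf]
    exact r3

theorem IsCL.centralizer_inf_maxAbelian [Finite G] {Q A : Subgroup G} (hQ : IsCL Q)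
    (hA : A ∈ Cfsg.maxAbelianSubgroups G) :
    (Q ⊔ A) ⊓ Subgroup.centralizer ((Q ⊓ A : Subgroup G) : Set G) =
      Subgroup.centralizer (Q : Set G) ⊔ A ∧
    ((Subgroup.centralizer (Q : Set G) ⊔ A : Subgroup G) : Set G) =
      (Subgroup.centralizer (Q : Set G) : Set G) * (A : Set G) := by
  obtain ⟨-, h2, h3, h4⟩ := hQ.sup_maxAbelian hA
  have hA' := (mem_maxAbelian_iff A).mp hA
  have hZQ := hQ.centralizer_le
  have hC := maxAbelian_centralizer h3
  set Z := Subgroup.centralizer (Q : Set G) with hZ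
  have hAc : A ≤ Subgroup.centralizer ((Q ⊓ A : Subgroup G) : Set G) :=
    hA'.1.trans (Subgroup.centralizer_le (SetLike.coe_subset_coe.mpr inf_le_right))
  have key : (((Q ⊔ A) ⊓ Subgroup.centralizer ((Q ⊓ A : Subgroup G) : Set G) : Subgroup G) : Set G)
      ⊆ (Z : Set G) * (A : Set G) := by
    intro x hx
    have hx1 : x ∈ ((Q ⊔ A : Subgroup G) : Set G) := hx.1
    have hx2 : x ∈ Subgroup.centralizer ((Q ⊓ A : Subgroup G) : Set G) := hx.2
    rw [h2] at hx1
    obtain ⟨y, hy, a, ha, rfl⟩ := Set.mem_mul.mp hx1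
    have hy1 : y ∈ Subgroup.centralizer ((Q ⊓ A : Subgroup G) : Set G) := by
      have := Subgroup.mul_mem _ hx2 (Subgroup.inv_mem _ (hAc ha))
      simpa using this
    have hy2 : y ∈ Subgroup.centralizer (Z : Set G) := le_centralizer_centralizer Q hy
    have hy3 : y ∈ (Q ⊓ A) ⊔ Z := by
      rw [← hC, centralizer_sup_eq]
      exact ⟨hy1, hy2⟩
    have hy4 : y ∈ (((Q ⊓ A) ⊔ Z : Subgroup G) : Set G) := hy3
    rw [h4] at hy4
    obtain ⟨b, hb, c, hc, rfl⟩ := Set.mem_mul.mp hy4
    have hbc : b * c = c * b := by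
      have := (Subgroup.mem_centralizer_iff.mp hc) b hb.1
      exact this
    refine Set.mem_mul.mpr ⟨c, hc, b * a, A.mul_mem hb.2 ha, ?_⟩
    rw [hbc, mul_assoc]
  have k2 : (Z : Set G) * (A : Set G) ⊆ ((Z ⊔ A : Subgroup G) : Set G) :=
    Subgroup.mul_subset (SetLike.coe_subset_coe.mpr le_sup_left)
      (SetLike.coe_subset_coe.mpr le_sup_right)
  have k3 : Z ⊔ A ≤ (Q ⊔ A) ⊓ Subgroup.centralizer ((Q ⊓ A : Subgroup G) : Set G) := by
    apply le_inf
    · exact sup_le_sup_right hZQ A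
    · exact sup_le (Subgroup.centralizer_le (SetLike.coe_subset_coe.mpr inf_le_left)) hAc
  constructor
  · exact le_antisymm (fun x hx => k2 (key hx)) k3
  · exact le_antisymm (fun x hx => key (k3 hx)) k2

/-- A centrally large subgroup containing `J(P)` contains `C(Z(J(P)))`. -/
theorem IsCL.centralizer_center_thompson_le [Finite G] {T : Subgroup G} (hT : IsCL T)
    (hJ : Cfsg.thompsonSubgroupA G ≤ T) :
    Subgroup.centralizer ((Cfsg.thompsonSubgroupA G ⊓
      Subgroup.centralizer (Cfsg.thompsonSubgroupA G : Set G) : Subgroup G) : Set G) ≤ T := by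
  obtain ⟨A, hA⟩ := exists_maxAbelian (G := G)
  have hAJ : A ≤ Cfsg.thompsonSubgroupA G := le_sSup hA
  have h1 : Subgroup.centralizer (T : Set G) ≤ Cfsg.thompsonSubgroupA G ⊓
      Subgroup.centralizer (Cfsg.thompsonSubgroupA G : Set G) := by
    apply le_inf
    · refine le_trans ?_ hAJ
      conv_rhs => rw [← maxAbelian_centralizer hA]
      exact Subgroup.centralizer_le (SetLike.coe_subset_coe.mpr (hAJ.trans hJ))
    · exact Subgroup.centralizer_le (SetLike.coe_subset_coe.mpr hJ)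
  calc _ ≤ Subgroup.centralizer ((Subgroup.centralizer (T : Set G) : Subgroup G) : Set G) :=
        Subgroup.centralizer_le (SetLike.coe_subset_coe.mpr h1)
    _ = T := hT.isCD.centralizer_centralizer

theorem IsCL.sup_thompson [Finite G] {Q : Subgroup G} (hQ : IsCL Q) :
    IsCL (Q ⊔ Cfsg.thompsonSubgroupA G) := by
  obtain ⟨A, hA⟩ := exists_maxAbelian (G := G)
  have h1 : Q ⊔ Cfsg.thompsonSubgroupA G =
      SupSet.sSup ((fun B => Q ⊔ B) '' Cfsg.maxAbelianSubgroups G) := by
    unfold Cfsg.thompsonSubgroupA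
    apply le_antisymm
    · apply sup_le
      · exact le_sup_left.trans (le_sSup ⟨A, hA, rfl⟩)
      · apply sSup_le
        intro B hB
        exact le_sup_right.trans (le_sSup ⟨B, hB, rfl⟩)
    · apply sSup_le
      rintro _ ⟨B, hB, rfl⟩
      exact sup_le_sup_left (le_sSup hB) Q
  rw [h1]
  refine IsCL.sSup _ ⟨Q ⊔ A, A, hA, rfl⟩ ?_
  rintro _ ⟨B, hB, rfl⟩
  exact (hQ.sup_maxAbelian hB).1

end Cfsg.Agent.H7
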