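import Cfsg.Agent.Lib_helper7_CL2

set_option autoImplicit false
open scoped Pointwise
open scoped commutatorElement

namespace Cfsg.Agent.H7

variable {G : Type*} [Group G]

theorem commutatorElement_mul_left_of_commute {a z y : G} (h : Commute z y) :
    ⁅a * z, y⁆ = ⁅a, y⁆ := by
  rw [commutatorElement_def, commutatorElement_def, mul_inv_rev, mul_assoc a z y, h.eq]
  group

theorem commutatorElement_mul_right_of_commute {x b z : G} (h : Commute z x) :
    ⁅x, b * z⁆ = ⁅x, b⁆ := by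
  have h' : z * x⁻¹ = x⁻¹ * z := (h.inv_right).eq
  rw [commutatorElement_def, commutatorElement_def, mul_inv_rev]
  calc x * (b * z) * x⁻¹ * (z⁻¹ * b⁻¹) = x * b * (z * x⁻¹) * z⁻¹ * b⁻¹ := by group
    _ = x * b * (x⁻¹ * z) * z⁻¹ * b⁻¹ := by rw [h']
    _ = _ := by group

theorem IsMinCL.inf_sup_centralizer [Finite G] {Q R : Subgroup G} (hQ : IsMinCL Q) (hR : IsCL R) :
    (Q ⊓ R) ⊔ Subgroup.centralizer (Q : Set G) = Q := by
  have hQc := hQ.1.isCD
  have hRc := hR.isCD
  apply hQ.2 _ (sup_le inf_le_left hQ.1.centralizer_le)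
  rw [isCL_iff]
  refine ⟨(hQc.inf hRc).sup hQc.centralizer, ?_⟩
  rw [centralizer_sup_eq, hQc.centralizer_centralizer, hQc.centralizer_inf hRc]
  intro x hx
  have hx1 : x ∈ ((Subgroup.centralizer (Q : Set G) ⊔ Subgroup.centralizer (R : Set G) :
      Subgroup G) : Set G) := hx.1
  have hx2 : x ∈ Q := hx.2
  rw [hQc.centralizer.coe_sup hRc.centralizer] at hx1
  obtain ⟨a, ha, b, hb, rfl⟩ := Set.mem_mul.mp hx1
  have hbQ : b ∈ Q := by
    have := Q.mul_mem (Q.inv_mem (hQ.1.centralizer_le ha)) hx2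
    simpa using this
  exact Subgroup.mul_mem _ ((le_sup_right : _ ≤ (Q ⊓ R) ⊔ Subgroup.centralizer (Q : Set G)) ha)
    ((le_sup_left : _ ≤ (Q ⊓ R) ⊔ Subgroup.centralizer (Q : Set G)) ⟨hbQ, hR.centralizer_le hb⟩)

theorem IsMinCL.commutator_eq_inf [Finite G] {Q R : Subgroup G} (hQ : IsMinCL Q) (hR : IsCL R) :
    ⁅Q, Q⁆ = ⁅Q ⊓ R, Q ⊓ R⁆ := by
  apply le_antisymm _ (Subgroup.commutator_mono inf_le_left inf_le_left)
  have h1 := hQ.inf_sup_centralizer hR
  have h2 := (hQ.1.isCD.inf hR.isCD).coe_sup hQ.1.isCD.centralizer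
  rw [h1] at h2
  rw [Subgroup.commutator_le]
  intro g₁ hg₁ g₂ hg₂
  have hg₁' : g₁ ∈ (Q : Set G) := hg₁
  have hg₂' : g₂ ∈ (Q : Set G) := hg₂
  rw [h2] at hg₁' hg₂'
  obtain ⟨a, ha, z, hz, rfl⟩ := Set.mem_mul.mp hg₁'
  obtain ⟨b, hb, z', hz', rfl⟩ := Set.mem_mul.mp hg₂'
  have c1 : Commute z (b * z') := ((Subgroup.mem_centralizer_iff.mp hz) _ hg₂).symm
  have c2 : Commute z' a := ((Subgroup.mem_centralizer_iff.mp hz') _ ha.1).symm
  rw [commutatorElement_mul_left_of_commute c1, commutatorElement_mul_right_of_commute c2]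
  exact Subgroup.commutator_mem_commutator ha hb

theorem IsMinCL.inf_inf_centralizer [Finite G] {Q R : Subgroup G} (hQ : IsMinCL Q) (hR : IsCL R) :
    (Q ⊓ R) ⊓ Subgroup.centralizer (Q : Set G) =
      (Q ⊓ R) ⊓ Subgroup.centralizer ((Q ⊓ R : Subgroup G) : Set G) := by
  apply le_antisymm
  · exact inf_le_inf_left _ (Subgroup.centralizer_le (SetLike.coe_subset_coe.mpr inf_le_left))
  · apply le_inf inf_le_left
    intro x hx
    have h1 := hQ.inf_sup_centralizer hR
    have h2 : x ∈ Subgroup.centralizer (((Q ⊓ R) ⊔ Subgroup.centralizer (Q : Set G) :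
        Subgroup G) : Set G) := by
      rw [centralizer_sup_eq]
      exact ⟨hx.2, le_centralizer_centralizer Q hx.1.1⟩
    rwa [h1] at h2

theorem IsMinCL.card_eq [Finite G] {Q R : Subgroup G} (hQ : IsMinCL Q) (hR : IsMinCL R) :
    Nat.card Q = Nat.card R ∧ Nat.card (Subgroup.centralizer (Q : Set G)) =
      Nat.card (Subgroup.centralizer (R : Set G)) := by
  have e1 := ((hQ.1.isCD.inf hR.1.isCD).main hQ.1.isCD.centralizer).2.2.1
  have e2 := ((hR.1.isCD.inf hQ.1.isCD).main hR.1.isCD.centralizer).2.2.1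
  rw [hQ.inf_sup_centralizer hR.1, hQ.inf_inf_centralizer hR.1] at e1
  rw [hR.inf_sup_centralizer hQ.1, hR.inf_inf_centralizer hQ.1, inf_comm R Q] at e2
  have e3 := hQ.1.isCD.cdm_eq hR.1.isCD
  unfold cdm at e3
  set q := Nat.card Q
  set r := Nat.card R
  set zq := Nat.card (Subgroup.centralizer (Q : Set G))
  set zr := Nat.card (Subgroup.centralizer (R : Set G))
  set i := Nat.card (Q ⊓ R : Subgroup G)
  set z0 := Nat.card ((Q ⊓ R) ⊓ Subgroup.centralizer ((Q ⊓ R : Subgroup G) : Set G) : Subgroup G)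
  have hz0 : 0 < z0 := Nat.card_pos
  have hr : 0 < r := Nat.card_pos
  have h1 : q * q * z0 = r * r * z0 := by
    calc q * q * z0 = q * (q * z0) := by ring
      _ = q * (i * zq) := by rw [e1]
      _ = i * (q * zq) := by ring
      _ = i * (r * zr) := by rw [e3]
      _ = r * (i * zr) := by ring
      _ = r * (r * z0) := by rw [e2]
      _ = _ := by ring
  have h2 : q * q = r * r := Nat.eq_of_mul_eq_mul_right hz0 h1
  have h3 : q = r := Nat.mul_self_inj.mp h2
  refine ⟨h3, ?_⟩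
  rw [h3] at e3
  exact Nat.eq_of_mul_eq_mul_left hr e3

theorem IsMinCL.commutator_eq [Finite G] {Q R : Subgroup G} (hQ : IsMinCL Q) (hR : IsMinCL R) :
    ⁅Q, Q⁆ = ⁅R, R⁆ := by
  rw [hQ.commutator_eq_inf hR.1, hR.commutator_eq_inf hQ.1, inf_comm]

theorem IsMinCL.iff_maxAbelian_of_abelian [Finite G] {Q : Subgroup G} (hQ : IsMinCL Q)
    (hab : Q ≤ Subgroup.centralizer (Q : Set G)) (X : Subgroup G) :
    IsMinCL X ↔ X ∈ Cfsg.maxAbelianSubgroups G := by
  have hCQ : Subgroup.centralizer (Q : Set G) = Q := le_antisymm hQ.1.centralizer_le hab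
  have hbound : ∀ B : Subgroup G, B ≤ Subgroup.centralizer (B : Set G) →
      Nat.card B ≤ Nat.card Q := by
    intro B hB
    have h1 := hQ.1.isCD B
    unfold cdm at h1
    rw [hCQ] at h1
    have h2 : Nat.card B * Nat.card B ≤ Nat.card Q * Nat.card Q :=
      (Nat.mul_le_mul_left _ (Subgroup.card_le_of_le hB)).trans h1
    exact Nat.mul_self_le_mul_self_iff.mp h2
  constructor
  · intro hX
    rw [mem_maxAbelian_iff]
    constructor
    · rw [← Subgroup.commutator_eq_bot_iff_le_centralizer, hX.commutator_eq hQ,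
        Subgroup.commutator_eq_bot_iff_le_centralizer]
      exact hab
    · intro B hB
      rw [(hX.card_eq hQ).1]
      exact hbound B hB
  · intro hX
    have hCX := maxAbelian_centralizer hX
    have hX' := (mem_maxAbelian_iff X).mp hX
    have hcard : Nat.card X = Nat.card Q := le_antisymm (hbound X hX'.1) (hX'.2 Q hab)
    have hXcd : IsCD X := by
      apply hQ.1.isCD.of_cdm_le
      unfold cdm
      rw [hCQ, hCX, hcard]
    refine ⟨(isCL_iff X).mpr ⟨hXcd, hCX.le⟩, fun K hK hKcl => ?_⟩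
    have hKab : K ≤ Subgroup.centralizer (K : Set G) :=
      hK.trans (hX'.1.trans (Subgroup.centralizer_le (SetLike.coe_subset_coe.mpr hK)))
    have hCK : Subgroup.centralizer (K : Set G) = K := le_antisymm hKcl.centralizer_le hKab
    have h1 := hKcl.isCD.cdm_eq hXcd
    unfold cdm at h1
    rw [hCK, hCX] at h1
    exact eq_of_le_of_card_le hK (Nat.mul_self_inj.mp h1).ge

end Cfsg.Agent.H7
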