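import Mathlib
import Cfsg.Agent.Lib_helper7_RankTwo

set_option autoImplicit false

namespace Cfsg.Agent.H7

open Subgroup

/-- if abelian subgroups of order `p ^ 2` are conjugate, a Sylow `p`-subgroup has exponent `p` or a
unique subgroup of order `p`. -/
theorem exp_or_unique_of_conj {G : Type*} [Group G] [Finite G] (p : ℕ) [hp : Fact p.Prime]
    (hB : ∀ A B : Subgroup G, IsMulCommutative ↥A → IsMulCommutative ↥B → Nat.card ↥A = p ^ 2 →
      Nat.card ↥B = p ^ 2 → ∃ g : G, B = A.map (MulAut.conj g).toMonoidHom)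
    (P : Sylow p G) :
    (∀ x ∈ (P : Subgroup G), x ^ p = 1) ∨
      (∀ H K : Subgroup (P : Subgroup G), Nat.card H = p → Nat.card K = p → H = K) := by
  have hpp := hp.out
  by_contra hcon
  push Not at hcon
  obtain ⟨⟨x, hxP, hx⟩, H, K, hH, hK, hne⟩ := hcon
  obtain ⟨E, hE1, hE2, hE3⟩ := exists_elemAb_sq_of_two_subgroups P.2 hH hK hne
  obtain ⟨k, hk⟩ := (IsPGroup.iff_orderOf.1 P.2) ⟨x, hxP⟩
  rw [Subgroup.orderOf_mk] at hk
  have hk2 : 2 ≤ k := by
    by_contra h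
    apply hx
    rw [← orderOf_dvd_iff_pow_eq_one, hk]
    have : k ≤ 1 := by omega
    calc p ^ k ∣ p ^ 1 := pow_dvd_pow p this
      _ = p := pow_one p
  obtain ⟨j, rfl⟩ : ∃ j, k = j + 2 := ⟨k - 2, by omega⟩
  have hc : orderOf (x ^ (p ^ j)) = p ^ 2 := by
    rw [orderOf_pow_of_dvd (pow_ne_zero _ hpp.ne_zero) (by rw [hk]; exact pow_dvd_pow p (by omega)),
      hk, pow_add, Nat.mul_div_cancel_left _ (pow_pos hpp.pos j)]
  have hEc : IsMulCommutative (E.map (P : Subgroup G).subtype) := by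
    refine ⟨⟨?_⟩⟩
    rintro ⟨_, u, hu, rfl⟩ ⟨_, v, hv, rfl⟩
    apply Subtype.ext
    show (u : G) * (v : G) = (v : G) * (u : G)
    exact congrArg (fun t : (P : Subgroup G) => (t : G)) (hE2 u hu v hv)
  obtain ⟨g, hg⟩ := hB (zpowers (x ^ (p ^ j))) (E.map (P : Subgroup G).subtype)
    inferInstance hEc (by rw [Nat.card_zpowers, hc])
    (by rw [Subgroup.card_map_of_injective (P : Subgroup G).subtype_injective, hE1])
  have hmem : g * (x ^ (p ^ j)) * g⁻¹ ∈ E.map (P : Subgroup G).subtype := by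
    rw [hg]
    exact ⟨x ^ (p ^ j), mem_zpowers _, rfl⟩
  obtain ⟨u, hu, hu2⟩ := hmem
  have h1 : (g * (x ^ (p ^ j)) * g⁻¹) ^ p = 1 := by
    rw [← hu2]
    have := hE3 u hu
    exact congrArg Subtype.val this
  rw [conj_pow, conj_eq_one_iff, ← orderOf_dvd_iff_pow_eq_one, hc] at h1
  have := Nat.le_of_dvd hpp.pos h1
  have h2 : p < p ^ 2 := by
    rw [pow_two]; nlinarith [hpp.one_lt]
  omega

end Cfsg.Agent.H7
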