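import Mathlib
import Cfsg.Agent.Lib_helper7_MaxClass5
import Cfsg.Agent.Lib_helper7_CycIdx

set_option autoImplicit false

namespace Cfsg.Agent.H7

open Subgroup

/-- automorphisms of cyclic `2`-groups have `2`-power order. -/
theorem mulAut_pow_of_cyclic {Q : Type*} [Group Q] [Finite Q] (hQ : IsPGroup 2 Q) (hc : IsCyclic Q)
    (α : MulAut Q) : ∃ k : ℕ, α ^ (2 ^ k) = 1 := by
  haveI : Fact (Nat.Prime 2) := ⟨Nat.prime_two⟩
  obtain ⟨j, hj⟩ := hQ.exists_card_eq
  have h1 := IsCyclic.card_mulAut Q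
  rw [hj] at h1
  haveI : Finite (MulAut Q) := Nat.finite_of_card_ne_zero (by
    rw [h1]; exact (Nat.totient_pos.2 (by positivity)).ne')
  cases j with
  | zero =>
    refine ⟨0, ?_⟩
    rw [pow_zero, Nat.totient_one] at h1
    rw [pow_zero, pow_one]
    haveI := (Nat.card_eq_one_iff_unique.1 h1).1
    exact Subsingleton.elim _ _
  | succ j =>
    refine ⟨j, ?_⟩
    rw [Nat.totient_prime_pow_succ Nat.prime_two] at h1
    have h2 : α ^ Nat.card (MulAut Q) = 1 := pow_card_eq_one'
    rw [h1] at h2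
    simpa using h2

/-- a `2`-group with a cyclic subgroup such that all elements outside are involutions and products
of two elements outside lie inside, which is not a four-group: all automorphisms have `2`-power
order. -/
theorem mulAut_pow_of_dihedral_like {Q : Type*} [Group Q] [Finite Q] (hQ : IsPGroup 2 Q) (c : Q)
    (hinv : ∀ q : Q, q ∉ zpowers c → q ^ 2 = 1)
    (hmul : ∀ q q' : Q, q ∉ zpowers c → q' ∉ zpowers c → q * q' ∈ zpowers c)
    (hK : ¬ IsKleinFour Q) (α : MulAut Q) : ∃ k : ℕ, α ^ (2 ^ k) = 1 := by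
  haveI : Fact (Nat.Prime 2) := ⟨Nat.prime_two⟩
  by_cases hc : IsCyclic Q
  · exact mulAut_pow_of_cyclic hQ hc α
  obtain ⟨x, hx⟩ : ∃ x : Q, x ∉ zpowers c := by
    by_contra hcon
    push Not at hcon
    exact hc ⟨c, hcon⟩
  have hidx : (zpowers c).index = 2 := by
    rw [index_eq_two_iff]
    refine ⟨x, fun b => ?_⟩
    by_cases hb : b ∈ zpowers c
    · right
      refine ⟨hb, fun h => hx ?_⟩
      have := mul_mem (inv_mem hb) h
      rwa [inv_mul_cancel_left] at this
    · left
      exact ⟨hmul b x hb hx, hb⟩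
  obtain ⟨m, hm⟩ := (IsPGroup.iff_orderOf.1 hQ) c
  have hcard : Nat.card Q = 2 ^ m * 2 := by
    have := (zpowers c).card_mul_index
    rw [hidx, Nat.card_zpowers, hm] at this
    exact this.symm
  by_cases hm2 : 2 ≤ m
  · apply exists_pow_eq_one_of_cyclic_index_two c m hm hidx α
    by_contra hcon
    have h1 := hinv _ hcon
    rw [← map_pow] at h1
    have h2 : c ^ 2 = 1 := by
      apply α.injective
      rw [h1, map_one]
    have h3 := orderOf_le_of_pow_eq_one (by norm_num) h2
    rw [hm] at h3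
    have : 2 ^ 2 ≤ 2 ^ m := Nat.pow_le_pow_right (by norm_num) hm2
    omega
  · exfalso
    rcases (by omega : m = 0 ∨ m = 1) with rfl | rfl
    · apply hc
      exact isCyclic_of_prime_card (p := 2) (by rw [hcard]; norm_num)
    · apply hK
      have hc2 : c ^ 2 = 1 := by
        have := pow_orderOf_eq_one c
        rwa [hm, pow_one] at this
      have hall : ∀ q : Q, q ^ 2 = 1 := by
        intro q
        by_cases hq : q ∈ zpowers c
        · obtain ⟨i, rfl⟩ := hq
          show (c ^ i) ^ 2 = 1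
          rw [← zpow_natCast, ← zpow_mul, mul_comm, zpow_mul, zpow_natCast, hc2, one_zpow]
        · exact hinv q hq
      refine ⟨by rw [hcard]; norm_num, ?_⟩
      apply Nat.dvd_antisymm (Monoid.exponent_dvd_of_forall_pow_eq_one hall)
      have h1 : orderOf c ∣ Monoid.exponent Q := Monoid.order_dvd_exponent c
      rwa [hm, pow_one] at h1

/-- the dihedral-like property of a subgroup. -/
def DihLike {X : Type*} [Group X] (S : Subgroup X) (r : X) : Prop :=
  r ∈ S ∧ (∀ s ∈ S, s ∉ zpowers r → s ^ 2 = 1) ∧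
    ∀ s ∈ S, ∀ s' ∈ S, s ∉ zpowers r → s' ∉ zpowers r → s * s' ∈ zpowers r

theorem dihLike_of_equiv {X : Type*} [Group X] (S : Subgroup X) (n : ℕ)
    (e : S ≃* DihedralGroup n) : ∃ r : X, DihLike S r := by
  have hz : ∀ s : S, (s : X) ∈ zpowers ((e.symm (DihedralGroup.r 1) : S) : X) ↔
      ∃ i : ZMod n, e s = DihedralGroup.r i := by
    intro s
    constructor
    · rintro ⟨k, hk⟩
      refine ⟨(k : ZMod n), ?_⟩
      have h1 : s = (e.symm (DihedralGroup.r 1)) ^ k := Subtype.ext (by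
        rw [Subgroup.coe_zpow]; exact hk.symm)
      rw [h1, map_zpow, MulEquiv.apply_symm_apply, DihedralGroup.r_one_zpow]
    · rintro ⟨i, hi⟩
      obtain ⟨k, rfl⟩ := ZMod.intCast_surjective i
      refine ⟨k, ?_⟩
      have h1 : s = (e.symm (DihedralGroup.r 1)) ^ k := by
        apply e.injective
        rw [hi, map_zpow, MulEquiv.apply_symm_apply, DihedralGroup.r_one_zpow]
      rw [h1, Subgroup.coe_zpow]
  refine ⟨((e.symm (DihedralGroup.r 1) : S) : X), (e.symm (DihedralGroup.r 1)).2, ?_, ?_⟩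
  · intro s hs hsr
    have h1 := (hz ⟨s, hs⟩).not.1 hsr
    have h2 : (⟨s, hs⟩ : S) ^ 2 = 1 := by
      apply e.injective
      rw [map_pow, map_one]
      cases h : e ⟨s, hs⟩ with
      | r i => exact absurd ⟨i, h⟩ h1
      | sr i => rw [pow_two, DihedralGroup.sr_mul_self]
    simpa using congrArg Subtype.val h2
  · intro s hs s' hs' hsr hsr'
    have h1 := (hz ⟨s, hs⟩).not.1 hsr
    have h2 := (hz ⟨s', hs'⟩).not.1 hsr'
    have h3 : ((⟨s, hs⟩ * ⟨s', hs'⟩ : S) : X) ∈ zpowers ((e.symm (DihedralGroup.r 1) : S) : X) := by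
      rw [hz, map_mul]
      cases h : e ⟨s, hs⟩ with
      | r i => exact absurd ⟨i, h⟩ h1
      | sr i =>
        cases h' : e ⟨s', hs'⟩ with
        | r j => exact absurd ⟨j, h'⟩ h2
        | sr j => exact ⟨j - i, DihedralGroup.sr_mul_sr i j⟩
    exact h3

/-- an element inducing an automorphism of `2`-power order and having odd order centralizes. -/
theorem mem_centralizer_of_pow {X : Type*} [Group X] {Q : Subgroup X} {g : X}
    (hg : g ∈ normalizer (Q : Set X)) (hodd : Nat.Coprime (orderOf g) 2) {k : ℕ}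
    (hk : (Q.normalizerMonoidHom ⟨g, hg⟩) ^ (2 ^ k) = 1) : g ∈ centralizer (Q : Set X) := by
  have h1 : (Q.normalizerMonoidHom ⟨g, hg⟩) ^ (orderOf g) = 1 := by
    rw [← map_pow]
    have : (⟨g, hg⟩ : normalizer (Q : Set X)) ^ orderOf g = 1 :=
      Subtype.ext (by simp [pow_orderOf_eq_one])
    rw [this, map_one]
  have h2 : Q.normalizerMonoidHom ⟨g, hg⟩ = 1 := by
    have hd1 := orderOf_dvd_of_pow_eq_one h1
    have hd2 := orderOf_dvd_of_pow_eq_one hk
    have hcop : Nat.Coprime (orderOf g) (2 ^ k) := hodd.pow_right k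
    exact orderOf_eq_one_iff.1 (Nat.eq_one_of_dvd_coprimes hcop hd1 hd2)
  have h3 : (⟨g, hg⟩ : normalizer (Q : Set X)) ∈ Q.normalizerMonoidHom.ker := h2
  rw [normalizerMonoidHom_ker, mem_subgroupOf] at h3
  exact h3

theorem centralizes_of_dihLike {X : Type*} [Group X] [Finite X] {S : Subgroup X} {r : X}
    (hS : IsPGroup 2 S) (hD : DihLike S r) {Q : Subgroup X} (hQS : Q ≤ S) (hK : ¬ IsKleinFour Q)
    {g : X} (hg : g ∈ normalizer (Q : Set X)) (hodd : Nat.Coprime (orderOf g) 2) :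
    g ∈ centralizer (Q : Set X) := by
  obtain ⟨-, hinv, hmul⟩ := hD
  have hcyc : IsCyclic ↥(Q ⊓ zpowers r) := Subgroup.isCyclic_of_le (H' := zpowers r) inf_le_right
  obtain ⟨c, hc⟩ := exists_zpowers_eq_of_isCyclic _ hcyc
  have hcQ : c ∈ Q := (hc ▸ mem_zpowers c : c ∈ Q ⊓ zpowers r).1
  have hmem : ∀ q : Q, q ∈ zpowers (⟨c, hcQ⟩ : Q) ↔ (q : X) ∈ zpowers r := by
    intro q
    constructor
    · rintro ⟨k, hk⟩
      have : (q : X) = c ^ k := by rw [← hk]; simp
      rw [this]
      exact ((hc ▸ zpow_mem (mem_zpowers c) k : c ^ k ∈ Q ⊓ zpowers r)).2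
    · intro h
      have : (q : X) ∈ zpowers c := by rw [hc]; exact ⟨q.2, h⟩
      obtain ⟨k, hk⟩ := this
      exact ⟨k, Subtype.ext (by simpa using hk)⟩
  have hQ2 : IsPGroup 2 Q := hS.to_le hQS
  obtain ⟨k, hk⟩ := mulAut_pow_of_dihedral_like hQ2 ⟨c, hcQ⟩
    (fun q hq => Subtype.ext (by
      simpa using hinv q (hQS q.2) (fun h => hq ((hmem q).2 h))))
    (fun q q' hq hq' => (hmem _).2 (hmul q (hQS q.2) q' (hQS q'.2) (fun h => hq ((hmem q).2 h))
      (fun h => hq' ((hmem q').2 h)))) hK (Q.normalizerMonoidHom ⟨g, hg⟩)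
  exact mem_centralizer_of_pow hg hodd hk

/-- subgroups of exponent `2` of a dihedral-like group have order at most `4`. -/
theorem card_le_four_of_dihLike {X : Type*} [Group X] [Finite X] {S : Subgroup X} {r : X}
    (hD : DihLike S r) {B : Subgroup X} (hBS : B ≤ S) (hB2 : ∀ b ∈ B, b ^ 2 = 1) :
    Nat.card B ≤ 4 := by
  obtain ⟨-, hinv, hmul⟩ := hD
  have hcyc : IsCyclic ↥(B ⊓ zpowers r) := Subgroup.isCyclic_of_le (H' := zpowers r) inf_le_right
  have h2 : Nat.card ↥(B ⊓ zpowers r) ≤ 2 := by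
    obtain ⟨g, hg⟩ := hcyc.exists_ofOrder_eq_natCard
    have hg2 : (g : X) ^ 2 = 1 := hB2 g g.2.1
    rw [← hg, ← Subgroup.orderOf_coe]
    exact orderOf_le_of_pow_eq_one (by norm_num) hg2
  by_cases hle : B ≤ zpowers r
  · have : B ⊓ zpowers r = B := inf_eq_left.2 hle
    rw [this] at h2
    omega
  · obtain ⟨b₀, hb₀, hb₀r⟩ := SetLike.not_le_iff_exists.1 hle
    have hsub : (B : Set X) ⊆ ((B ⊓ zpowers r : Subgroup X) : Set X) ∪
        (fun v => b₀ * v) '' ((B ⊓ zpowers r : Subgroup X) : Set X) := by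
      intro b hb
      by_cases hbr : b ∈ zpowers r
      · exact Or.inl ⟨hb, hbr⟩
      · right
        refine ⟨b₀ * b, ⟨mul_mem hb₀ hb, hmul b₀ (hBS hb₀) b (hBS hb) hb₀r hbr⟩, ?_⟩
        show b₀ * (b₀ * b) = b
        rw [← mul_assoc, ← pow_two, hB2 b₀ hb₀, one_mul]
    calc Nat.card B = (B : Set X).ncard := rfl
      _ ≤ _ := Set.ncard_le_ncard hsub (Set.toFinite _)
      _ ≤ _ := Set.ncard_union_le _ _
      _ ≤ ((B ⊓ zpowers r : Subgroup X) : Set X).ncard +
          ((B ⊓ zpowers r : Subgroup X) : Set X).ncard :=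
          Nat.add_le_add_left (Set.ncard_image_le (Set.toFinite _)) _
      _ ≤ 4 := by
          have : ((B ⊓ zpowers r : Subgroup X) : Set X).ncard ≤ 2 := h2
          omega

/-- the elements of a group of order `4`. -/
theorem four_elems {X : Type*} [Group X] (Q : Subgroup X) (hQ4 : Nat.card Q = 4) {t q : X}
    (htQ : t ∈ Q) (hqQ : q ∈ Q) (ht : t ≠ 1) (ht2 : t ^ 2 = 1) (hq : q ≠ 1) (hqt : q ≠ t) :
    ∀ v ∈ Q, v = 1 ∨ v = t ∨ v = q ∨ v = q * t := by
  haveI : Finite Q := Nat.finite_of_card_ne_zero (by rw [hQ4]; norm_num)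
  have hfin : (Q : Set X).Finite := Set.toFinite _
  have hsub : ({1, t, q, q * t} : Set X) ⊆ (Q : Set X) := by
    rintro v (rfl | rfl | rfl | rfl)
    · exact one_mem Q
    · exact htQ
    · exact hqQ
    · exact mul_mem hqQ htQ
  have hcard : ({1, t, q, q * t} : Set X).ncard = 4 := by
    rw [Set.ncard_insert_of_notMem, Set.ncard_insert_of_notMem, Set.ncard_pair]
    · intro h
      exact ht (by simpa using h.symm)
    · rintro (h | h)
      · exact hqt h.symm
      · have h' : t = q * t := h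
        exact hq (by simpa using h'.symm)
    · rintro (h | h | h)
      · exact ht h.symm
      · exact hq h.symm
      · have h' : (1 : X) = q * t := h
        apply hqt
        rw [pow_two] at ht2
        exact mul_right_cancel (h'.symm.trans ht2.symm)
  have heq := Set.eq_of_subset_of_ncard_le hsub (by rw [hcard]; exact hQ4.le) hfin
  intro v hv
  have : v ∈ ({1, t, q, q * t} : Set X) := by rw [heq]; exact hv
  exact this

end Cfsg.Agent.H7
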