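import Mathlib.GroupTheory.Transfer
import Mathlib.GroupTheory.Abelianization.Defs
import Cfsg.Agent.Lib_helper7_Sylow

set_option autoImplicit false

namespace Cfsg.Agent.H7

variable {G : Type*} [Group G]

open MulAction in
/-- Evaluation of the transfer on an element `x ∈ M` when `M ∩ k⁻¹Mk ≤ ker ϕ` for `k ∉ M`. -/
theorem transfer_eq_of_TI [Finite G] {A : Type*} [CommGroup A] (M : Subgroup G) (ϕ : M →* A)
    (hTI : ∀ k : G, k ∉ M → ∀ y : M, k * (y : G) * k⁻¹ ∈ M → ϕ y = 1) (x : M) :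
    MonoidHom.transfer ϕ (x : G) = ϕ x := by
  classical
  let _ : Fintype (Quotient (orbitRel (Subgroup.zpowers (x : G)) (G ⧸ M))) := Fintype.ofFinite _
  rw [MonoidHom.transfer_eq_prod_quotient_orbitRel_zpowers_quot]
  set q₀ : Quotient (orbitRel (Subgroup.zpowers (x : G)) (G ⧸ M)) :=
    Quotient.mk'' ((1 : G) : G ⧸ M) with hq₀
  have hfix : (x : G) • (((1 : G) : G ⧸ M)) = ((1 : G) : G ⧸ M) := by
    rw [MulAction.Quotient.smul_coe, smul_eq_mul, mul_one, QuotientGroup.eq]
    simp
  have hfixz : ∀ z ∈ Subgroup.zpowers (x : G), z • (((1 : G) : G ⧸ M)) = ((1 : G) : G ⧸ M) := by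
    intro z hz
    have : Subgroup.zpowers (x : G) ≤ MulAction.stabilizer G (((1 : G) : G ⧸ M)) := by
      rw [Subgroup.zpowers_le]; exact hfix
    exact this hz
  have hout : q₀.out = ((1 : G) : G ⧸ M) := by
    have h1 : (Quotient.mk'' q₀.out : Quotient (orbitRel (Subgroup.zpowers (x : G)) (G ⧸ M))) =
        Quotient.mk'' ((1 : G) : G ⧸ M) := Quotient.out_eq' q₀
    rw [Quotient.eq''] at h1
    obtain ⟨z, hz⟩ := h1
    rw [← hz]
    exact hfixz z.1 z.2
  rw [Finset.prod_eq_single q₀]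
  · have hper : Function.minimalPeriod ((x : G) • ·) q₀.out = 1 := by
      rw [Function.minimalPeriod_eq_one_iff_isFixedPt, hout]
      exact hfix
    have hk : q₀.out.out ∈ M := by
      have h2 : ((q₀.out.out : G) : G ⧸ M) = ((1 : G) : G ⧸ M) := by
        rw [QuotientGroup.out_eq', hout]
      rw [QuotientGroup.eq] at h2
      simpa using M.inv_mem h2
    have : (⟨q₀.out.out⁻¹ * (x : G) ^ Function.minimalPeriod ((x : G) • ·) q₀.out * q₀.out.out,
        QuotientGroup.out_conj_pow_minimalPeriod_mem M (x : G) q₀.out⟩ : M) =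
        (⟨q₀.out.out, hk⟩ : M)⁻¹ * x * ⟨q₀.out.out, hk⟩ := by
      apply Subtype.ext
      simp [hper]
    rw [this, map_mul, map_mul, map_inv, mul_comm, mul_inv_cancel_left]
  · intro q _ hq
    apply hTI q.out.out
    · intro hk
      apply hq
      have h2 : ((q.out.out : G) : G ⧸ M) = ((1 : G) : G ⧸ M) := by
        rw [QuotientGroup.eq]
        simpa using M.inv_mem hk
      rw [QuotientGroup.out_eq'] at h2
      rw [hq₀, ← h2]
      exact (Quotient.out_eq' q).symm
    · have : q.out.out * (q.out.out⁻¹ * (x : G) ^ Function.minimalPeriod ((x : G) • ·) q.out *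
          q.out.out) * q.out.out⁻¹ = (x : G) ^ Function.minimalPeriod ((x : G) • ·) q.out := by
        group
      simp only [this]
      exact M.pow_mem x.2 _
  · intro h
    exact absurd (Finset.mem_univ _) h

/-- Frobenius–Wielandt for an abelian quotient (by transfer): if `H ⊴ M`, `M/H` is abelian and
`M ∩ gMg⁻¹ ≤ H` for `g ∉ M`, then `G` has a normal subgroup `K` with `K ∩ M = H`. -/
theorem exists_normal_inf_eq_of_TI [Finite G] (H M : Subgroup G) (hHM : H ≤ M)
    (hn : M ≤ Subgroup.normalizer (H : Set G))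
    (hab : ∀ a ∈ M, ∀ b ∈ M, a * b * a⁻¹ * b⁻¹ ∈ H)
    (hTI : ∀ g : G, g ∉ M → M ⊓ M.map (MulAut.conj g).toMonoidHom ≤ H) :
    ∃ K : Subgroup G, K.Normal ∧ K ⊓ M = H ∧ ∀ a b : G, a * b * a⁻¹ * b⁻¹ ∈ K := by
  have hnorm : (H.subgroupOf M).Normal := by
    rw [← Subgroup.normalizer_eq_top_iff, eq_top_iff]
    intro m _
    rw [Subgroup.mem_normalizer_iff]
    intro h
    have := (Subgroup.mem_normalizer_iff.mp (hn m.2)) (h : G)
    simpa [Subgroup.mem_subgroupOf] using this
  let _ : CommGroup (M ⧸ H.subgroupOf M) :=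
    { (inferInstance : Group (M ⧸ H.subgroupOf M)) with
      mul_comm := by
        intro a b
        induction a using QuotientGroup.induction_on with
        | H a =>
          induction b using QuotientGroup.induction_on with
          | H b =>
            rw [← QuotientGroup.mk_mul, ← QuotientGroup.mk_mul, QuotientGroup.eq,
              Subgroup.mem_subgroupOf]
            have := hab _ (M.inv_mem b.2) _ (M.inv_mem a.2)
            simpa [mul_assoc] using this }
  let ϕ : M →* (M ⧸ H.subgroupOf M) := QuotientGroup.mk' (H.subgroupOf M)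
  have hϕ : ∀ y : M, ϕ y = 1 ↔ (y : G) ∈ H := by
    intro y
    show QuotientGroup.mk' (H.subgroupOf M) y = 1 ↔ _
    rw [QuotientGroup.mk'_apply, QuotientGroup.eq_one_iff, Subgroup.mem_subgroupOf]
  have hV : ∀ x : M, MonoidHom.transfer ϕ (x : G) = ϕ x := by
    apply transfer_eq_of_TI M ϕ
    intro k hk y hy
    rw [hϕ]
    apply hTI k⁻¹ (fun h => hk (by simpa using M.inv_mem h))
    refine ⟨y.2, ?_⟩
    show (y : G) ∈ M.map (MulAut.conj k⁻¹).toMonoidHom
    rw [mem_map_conj]
    simpa using hy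
  refine ⟨(MonoidHom.transfer ϕ).ker, inferInstance, ?_, ?_⟩
  swap
  · intro a b
    rw [MonoidHom.mem_ker]
    simp only [map_mul, map_inv]
    rw [mul_comm (MonoidHom.transfer ϕ a), mul_inv_cancel_right, mul_inv_cancel]
  ext x
  constructor
  · rintro ⟨hx1, hx2⟩
    have := hV ⟨x, hx2⟩
    have hx1' : MonoidHom.transfer ϕ x = 1 := hx1
    rw [← hϕ ⟨x, hx2⟩, ← this]
    exact hx1'
  · intro hx
    refine ⟨?_, hHM hx⟩
    show MonoidHom.transfer ϕ x = 1
    have := hV ⟨x, hHM hx⟩
    rw [(hϕ ⟨x, hHM hx⟩).mpr hx] at this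
    exact this

end Cfsg.Agent.H7
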