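import Cfsg.Agent.Lib_helper7_FW
import Mathlib.GroupTheory.SpecificGroups.Cyclic

set_option autoImplicit false

namespace Cfsg.Agent.H7

variable {G : Type*} [Group G]

/-- If `H` is maximal in `M` and `L ≥ H` contains an element of `M` outside `H` then `M ≤ L`. -/
theorem le_of_isCoatom_subgroupOf {H M L : Subgroup G}
    (hmax : IsCoatom (H.subgroupOf M)) (hHL : H ≤ L) {x : G} (hxM : x ∈ M) (hxL : x ∈ L)
    (hxH : x ∉ H) : M ≤ L := by
  have h1 : H.subgroupOf M < L.subgroupOf M := by
    refine lt_of_le_of_ne (fun y hy => hHL hy) ?_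
    intro he
    apply hxH
    have : (⟨x, hxM⟩ : M) ∈ L.subgroupOf M := hxL
    rw [← he] at this
    exact this
  have h2 := hmax.2 _ h1
  rwa [Subgroup.subgroupOf_eq_top] at h2

/-- A normal maximal subgroup has abelian quotient. -/
theorem commutator_mem_of_isCoatom_of_normal {H M : Subgroup G}
    (hmax : IsCoatom (H.subgroupOf M)) (hn : M ≤ Subgroup.normalizer (H : Set G)) :
    ∀ a ∈ M, ∀ b ∈ M, a * b * a⁻¹ * b⁻¹ ∈ H := by
  have hnorm : (H.subgroupOf M).Normal := by
    rw [← Subgroup.normalizer_eq_top_iff, eq_top_iff]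
    intro m _
    rw [Subgroup.mem_normalizer_iff]
    intro h
    have := (Subgroup.mem_normalizer_iff.mp (hn m.2)) (h : G)
    simpa [Subgroup.mem_subgroupOf] using this
  obtain ⟨x, hx⟩ : ∃ x : M, x ∉ H.subgroupOf M := by
    by_contra hcon
    push Not at hcon
    exact hmax.1 (eq_top_iff.mpr fun x _ => hcon x)
  have hcyc : IsCyclic (M ⧸ H.subgroupOf M) := by
    refine ⟨⟨QuotientGroup.mk x, fun q => ?_⟩⟩
    have h1 : H.subgroupOf M < (Subgroup.zpowers (QuotientGroup.mk x : M ⧸ H.subgroupOf M)).comap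
        (QuotientGroup.mk' (H.subgroupOf M)) := by
      refine lt_of_le_of_ne ?_ ?_
      · intro h hh
        rw [Subgroup.mem_comap, QuotientGroup.mk'_apply, (QuotientGroup.eq_one_iff h).mpr hh]
        exact Subgroup.one_mem _
      · intro he
        apply hx
        rw [he, Subgroup.mem_comap]
        exact Subgroup.mem_zpowers _
    have h2 := hmax.2 _ h1
    induction q using QuotientGroup.induction_on with
    | H g =>
      have : g ∈ (Subgroup.zpowers (QuotientGroup.mk x : M ⧸ H.subgroupOf M)).comap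
        (QuotientGroup.mk' (H.subgroupOf M)) := by rw [h2]; trivial
      exact this
  intro a ha b hb
  let _ := IsCyclic.commGroup (α := M ⧸ H.subgroupOf M)
  have h3 : (QuotientGroup.mk (⟨a, ha⟩ : M) : M ⧸ H.subgroupOf M) * QuotientGroup.mk (⟨b, hb⟩ : M) =
      QuotientGroup.mk (⟨b, hb⟩ : M) * QuotientGroup.mk (⟨a, ha⟩ : M) := mul_comm _ _
  rw [← QuotientGroup.mk_mul, ← QuotientGroup.mk_mul, eq_comm, QuotientGroup.eq,
    Subgroup.mem_subgroupOf] at h3
  have h4 := H.inv_mem h3
  have h5 : a * b * a⁻¹ * b⁻¹ = (b * a) * ((b * a)⁻¹ * (a * b)) * (b * a)⁻¹ := by group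
  rw [h5]
  have h6 := (Subgroup.mem_normalizer_iff.mp (hn (M.mul_mem hb ha))) ((b * a)⁻¹ * (a * b))
  apply h6.mp
  simpa using h3

/-- Flavell's transfer-like theorem. -/
theorem flavell_closure [Finite G] (H M : Subgroup G) (hHM : H ≤ M)
    (hcl : ∀ g : G, (H ⊔ H.map (MulAut.conj g).toMonoidHom) ⊓ M = H)
    (hmaxH : IsCoatom (H.subgroupOf M)) (hmaxM : IsCoatom M) :
    Subgroup.normalClosure (H : Set G) ⊓ M = H := by
  have hle : H ≤ Subgroup.normalClosure (H : Set G) ⊓ M :=
    le_inf Subgroup.subset_normalClosure hHM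
  -- it suffices to find a normal `K ≥ H` with `K ⊓ M = H`
  suffices hK : ∃ K : Subgroup G, K.Normal ∧ K ⊓ M = H by
    obtain ⟨K, hKn, hKM⟩ := hK
    apply le_antisymm _ hle
    have hHK : H ≤ K := by rw [← hKM]; exact inf_le_left
    calc Subgroup.normalClosure (H : Set G) ⊓ M ≤ K ⊓ M :=
          inf_le_inf_right _ (Subgroup.normalClosure_le_normal hHK)
      _ = H := hKM
  have hstar : ∀ g : G, H.map (MulAut.conj g).toMonoidHom ≤ M →
      H.map (MulAut.conj g).toMonoidHom ≤ H := by
    intro g hg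
    have h1 := hcl g
    rw [inf_eq_left.mpr (sup_le hHM hg)] at h1
    exact le_sup_right.trans h1.le
  have hn : M ≤ Subgroup.normalizer (H : Set G) := by
    apply le_normalizer_of_forall_map_conj_le
    intro m hm
    apply hstar
    rw [map_conj_le_iff]
    intro x hx
    exact M.mul_mem (M.mul_mem hm (hHM hx)) (M.inv_mem hm)
  by_cases hNtop : Subgroup.normalizer (H : Set G) = ⊤
  · exact ⟨H, Subgroup.normalizer_eq_top_iff.mp hNtop, inf_eq_left.mpr hHM⟩
  have hNM : Subgroup.normalizer (H : Set G) = M := by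
    by_contra hne
    exact hNtop (hmaxM.2 _ (lt_of_le_of_ne hn (Ne.symm hne)))
  by_cases hcase : ∃ (g x : G), x ∈ M ∧ x ∉ H ∧
      x ∈ Subgroup.normalizer ((H.map (MulAut.conj g).toMonoidHom : Subgroup G) : Set G) ∧
      ¬ H.map (MulAut.conj g).toMonoidHom ≤ H
  · obtain ⟨g, x, hxM, hxH, hxN, hg⟩ := hcase
    set K := H ⊔ H.map (MulAut.conj g).toMonoidHom with hKdef
    have hxK : x ∈ Subgroup.normalizer (K : Set G) := by
      rw [← map_conj_eq_self_iff, hKdef, Subgroup.map_sup, map_conj_eq_self_iff.mpr (hn hxM),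
        map_conj_eq_self_iff.mpr hxN]
    have hMK : M ≤ Subgroup.normalizer (K : Set G) :=
      le_of_isCoatom_subgroupOf hmaxH (le_sup_left.trans Subgroup.le_normalizer) hxM hxK hxH
    have hKM : ¬ K ≤ M := by
      intro h
      apply hg
      apply hstar
      exact le_sup_right.trans h
    have htop : Subgroup.normalizer (K : Set G) = ⊤ := by
      apply hmaxM.2
      refine lt_of_le_of_ne hMK ?_
      intro he
      apply hKM
      rw [he]
      exact Subgroup.le_normalizer
    exact ⟨K, Subgroup.normalizer_eq_top_iff.mp htop, hcl g⟩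
  · push Not at hcase
    suffices hTI : ∀ g : G, g ∉ M → M ⊓ M.map (MulAut.conj g).toMonoidHom ≤ H by
      obtain ⟨K, h1, h2, -⟩ := exists_normal_inf_eq_of_TI H M hHM hn
        (commutator_mem_of_isCoatom_of_normal hmaxH hn) hTI
      exact ⟨K, h1, h2⟩
    intro g hg x hx
    by_contra hxH
    have hxN : x ∈ Subgroup.normalizer ((H.map (MulAut.conj g).toMonoidHom : Subgroup G) : Set G) := by
      rw [normalizer_map_conj]
      exact Subgroup.map_mono hn hx.2
    have h1 := hcase g x hx.1 hxH hxN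
    have h2 : H.map (MulAut.conj g).toMonoidHom = H :=
      Subgroup.eq_of_le_of_card_ge h1 (card_map_conj H g).ge
    apply hg
    rw [← hNM]
    exact map_conj_eq_self_iff.mp h2

end Cfsg.Agent.H7
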