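import Cfsg.Agent.Lib_helper7_Omega
import Mathlib

set_option autoImplicit false

namespace Cfsg.Agent.H7

variable {G : Type*} [Group G]

/-- Internal form: for odd `p`, a `p'`-subgroup `A` normalizing the `p`-subgroup `P` and centralizing
all `x ∈ P` with `x ^ p = 1` centralizes `P`. -/
theorem le_centralizer_of_fix_omega [Finite G] {p : ℕ} [Fact p.Prime] (hp2 : p ≠ 2)
    (P A : Subgroup G) (hP : IsPGroup p P) (hA : A ≤ Subgroup.normalizer (P : Set G))
    (hcop : (Nat.card A).Coprime p)
    (hfix : ∀ x ∈ P, x ^ p = 1 → ∀ a ∈ A, a * x = x * a) :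
    A ≤ Subgroup.centralizer (P : Set G) := by
  intro a ha
  set φ : MulAut P := P.normalizerMonoidHom ⟨a, hA ha⟩ with hφ
  have hφa : ∀ x : P, ((φ x : P) : G) = a * x * a⁻¹ := fun x => rfl
  have hord : Nat.Coprime (orderOf φ) p := by
    apply hcop.coprime_dvd_left
    have h1 : orderOf φ ∣ orderOf (⟨a, hA ha⟩ : Subgroup.normalizer (P : Set G)) :=
      orderOf_map_dvd _ _
    rw [Subgroup.orderOf_mk] at h1
    have h2 := orderOf_dvd_natCard (⟨a, ha⟩ : A)
    rw [Subgroup.orderOf_mk] at h2
    exact h1.trans h2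
  have h1 := aut_fix_of_fix_omega hp2 hP φ hord ⊤ (by
    intro x _ hx
    apply Subtype.ext
    rw [hφa]
    have hx' : (x : G) ^ p = 1 := by
      have := congrArg Subtype.val hx
      simpa using this
    rw [hfix x x.2 hx' a ha, mul_inv_cancel_right]) (fun _ _ => Subgroup.mem_top _)
  rw [Subgroup.mem_centralizer_iff]
  intro x hx
  have h2 := h1 ⟨x, hx⟩ (Subgroup.mem_top _)
  have h3 : a * x * a⁻¹ = x := by
    have := congrArg Subtype.val h2
    rwa [hφa] at this
  calc x * a = (a * x * a⁻¹) * a := by rw [h3]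
    _ = a * x := by group

end Cfsg.Agent.H7
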