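import Cfsg.Agent.Lib_helper7_TT2
import Mathlib

set_option autoImplicit false

namespace Cfsg.Agent.H7

open Subgroup MulAction
open scoped Pointwise

variable {G : Type*} [Group G]

/-- The number of cosets `xS` with `x⁻¹ y x ∈ T` is odd, when the transfer kills `y`. -/
theorem tt_odd_count_idx [Finite G] (S : Sylow 2 G) (T : Subgroup G) (hTS : T ≤ S)
    [hTn : (T.subgroupOf (S : Subgroup G)).Normal]
    (hcyc : IsCyclic (↥(S : Subgroup G) ⧸ T.subgroupOf (S : Subgroup G)))
    (y : G) (hy : orderOf y = 2) (hyS : y ∈ S) (hyT : y ∉ T)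
    (hN : ∀ N : Subgroup G, N.Normal →
      N.index ∣ Nat.card (↥(S : Subgroup G) ⧸ T.subgroupOf (S : Subgroup G)) → y ∈ N) :
    ¬ 2 ∣ Nat.card {q : G ⧸ (S : Subgroup G) // q.out⁻¹ * y * q.out ∈ T} := by
  classical
  have := Fintype.ofFinite (G ⧸ (S : Subgroup G))
  letI : CommGroup (↥(S : Subgroup G) ⧸ T.subgroupOf (S : Subgroup G)) := hcyc.commGroup
  set ϕ : ↥(S : Subgroup G) →* (↥(S : Subgroup G) ⧸ T.subgroupOf (S : Subgroup G)) :=
    QuotientGroup.mk' (T.subgroupOf (S : Subgroup G)) with hϕ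
  have hyy : y * y = 1 := by rw [← pow_two, ← hy]; exact pow_orderOf_eq_one y
  have hϕ1 : ∀ (u : G) (hu : u ∈ (S : Subgroup G)), ϕ ⟨u, hu⟩ = 1 ↔ u ∈ T := by
    intro u hu
    rw [hϕ, QuotientGroup.mk'_apply, QuotientGroup.eq_one_iff, mem_subgroupOf]
  -- V y = 1
  have hV : MonoidHom.transfer ϕ y = 1 := by
    have h1 : y ∈ (MonoidHom.transfer ϕ).ker := by
      apply hN _ inferInstance
      rw [index_ker]
      exact card_subgroup_dvd_card _
    exact h1
  set t := ϕ ⟨y, hyS⟩ with ht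
  have ht1 : t ≠ 1 := fun h => hyT ((hϕ1 y hyS).mp h)
  have ht2 : t ^ 2 = 1 := by
    rw [ht, ← map_pow]
    have : (⟨y, hyS⟩ : (S : Subgroup G)) ^ 2 = 1 := Subtype.ext (by simpa [pow_two] using hyy)
    rw [this, map_one]
  have hfix : ∀ q : G ⧸ (S : Subgroup G), y • q = q ↔ q.out⁻¹ * y * q.out ∈ (S : Subgroup G) := by
    intro q
    conv_lhs => rw [← QuotientGroup.out_eq' q]
    have h1 : y • ((q.out : G) : G ⧸ (S : Subgroup G)) = ((y * q.out : G) : G ⧸ (S : Subgroup G)) := rfl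
    rw [h1, eq_comm, QuotientGroup.eq, mul_assoc]
  rw [transfer_involution ϕ hyy] at hV
  have hfac : ∀ q ∈ Finset.univ.filter (fun q : G ⧸ (S : Subgroup G) => y • q = q),
      extOne ϕ (q.out⁻¹ * y * q.out) = if q.out⁻¹ * y * q.out ∈ T then 1 else t := by
    intro q hq
    have hq' := (hfix q).mp (Finset.mem_filter.mp hq).2
    rw [extOne_of_mem ϕ hq']
    split_ifs with h
    · exact (hϕ1 _ hq').mpr h
    · apply cyclic_involution_unique _ ht2 (fun h' => h ((hϕ1 _ hq').mp h')) ht1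
      rw [← map_pow]
      have : (⟨q.out⁻¹ * y * q.out, hq'⟩ : (S : Subgroup G)) ^ 2 = 1 := by
        apply Subtype.ext
        change (q.out⁻¹ * y * q.out) ^ 2 = 1
        rw [pow_two]
        calc q.out⁻¹ * y * q.out * (q.out⁻¹ * y * q.out) = q.out⁻¹ * (y * y) * q.out := by group
          _ = 1 := by rw [hyy]; group
      rw [this, map_one]
  rw [Finset.prod_congr rfl hfac, Finset.prod_ite, Finset.prod_const_one, one_mul,
    Finset.prod_const] at hV
  -- parity
  have heven : Even ((Finset.univ.filter (fun q : G ⧸ (S : Subgroup G) => y • q = q)).filter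
      (fun q => ¬ q.out⁻¹ * y * q.out ∈ T)).card := by
    rcases Nat.even_or_odd' ((Finset.univ.filter (fun q : G ⧸ (S : Subgroup G) => y • q = q)).filter
      (fun q => ¬ q.out⁻¹ * y * q.out ∈ T)).card with ⟨j, hj | hj⟩
    · rw [hj]; exact even_two_mul j
    · exfalso
      rw [hj, pow_succ, pow_mul, ht2, one_pow, one_mul] at hV
      exact ht1 hV
  have hnf := even_card_filter_not_fixed (fun q : G ⧸ (S : Subgroup G) => y • q) (by
    intro q
    rw [← mul_smul, hyy, one_smul])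
  have htot : Odd (Fintype.card (G ⧸ (S : Subgroup G))) := by
    rw [← Nat.card_eq_fintype_card, ← index_eq_card, ← Nat.not_even_iff_odd, even_iff_two_dvd]
    exact S.not_dvd_index
  have hsum1 := Finset.card_filter_add_card_filter_not (s := (Finset.univ : Finset (G ⧸ (S : Subgroup G))))
    (fun q : G ⧸ (S : Subgroup G) => y • q = q)
  have hsum2 := Finset.card_filter_add_card_filter_not
    (s := Finset.univ.filter (fun q : G ⧸ (S : Subgroup G) => y • q = q))
    (fun q => q.out⁻¹ * y * q.out ∈ T)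
  have hset : (Finset.univ.filter (fun q : G ⧸ (S : Subgroup G) => y • q = q)).filter
      (fun q => q.out⁻¹ * y * q.out ∈ T) =
      Finset.univ.filter (fun q : G ⧸ (S : Subgroup G) => q.out⁻¹ * y * q.out ∈ T) := by
    ext q
    simp only [Finset.mem_filter, Finset.mem_univ, true_and]
    exact ⟨fun h => h.2, fun h => ⟨(hfix q).mpr (hTS h), h⟩⟩
  rw [hset] at hsum2
  rw [Nat.card_eq_fintype_card, Fintype.card_subtype]
  rw [Finset.card_univ] at hsum1
  intro hdvd
  have h3 : Even (Finset.univ.filter (fun q : G ⧸ (S : Subgroup G) => q.out⁻¹ * y * q.out ∈ T)).card :=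
    even_iff_two_dvd.mpr hdvd
  have h4 : Even (Fintype.card (G ⧸ (S : Subgroup G))) := by
    rw [← hsum1, ← hsum2]
    exact (h3.add heven).add hnf
  exact (Nat.not_even_iff_odd.mpr htot) h4

/-- Thompson transfer, extremal form. -/
theorem thompson_transfer_extremal_idx [Finite G] (S : Sylow 2 G) (T : Subgroup G) (hTS : T ≤ S)
    [hTn : (T.subgroupOf (S : Subgroup G)).Normal]
    (hcyc : IsCyclic (↥(S : Subgroup G) ⧸ T.subgroupOf (S : Subgroup G)))
    (y : G) (hy : orderOf y = 2) (hyS : y ∈ S) (hyT : y ∉ T)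
    (hN : ∀ N : Subgroup G, N.Normal →
      N.index ∣ Nat.card (↥(S : Subgroup G) ⧸ T.subgroupOf (S : Subgroup G)) → y ∈ N) :
    ∃ g : G, g * y * g⁻¹ ∈ T ∧
      ¬ 2 ∣ ((S : Subgroup G) ⊓ centralizer {g * y * g⁻¹}).relIndex (centralizer {g * y * g⁻¹}) ∧
      ((S : Subgroup G) ⊓ centralizer {y}).map (MulAut.conj g).toMonoidHom ≤
        (S : Subgroup G) ⊓ centralizer {g * y * g⁻¹} := by
  have hodd := tt_odd_count_idx S T hTS hcyc y hy hyS hyT hN
  obtain ⟨R, hCR, hR⟩ := exists_isSylowIn_ge (p := 2) (Q := (S : Subgroup G) ⊓ centralizer {y})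
    (H := centralizer {y}) (S.2.to_le inf_le_left) inf_le_right
  have hTconj : ∀ s ∈ (S : Subgroup G), ∀ v ∈ T, s⁻¹ * v * s ∈ T := by
    intro s hs v hv
    have := hTn.conj_mem ⟨v, hTS hv⟩ (mem_subgroupOf.mpr hv) (⟨s, hs⟩ : (S : Subgroup G))⁻¹
    simpa [mem_subgroupOf] using this
  have hmem : ∀ x : G, ((x : G ⧸ (S : Subgroup G))).out⁻¹ * y * ((x : G ⧸ (S : Subgroup G))).out ∈ T ↔
      x⁻¹ * y * x ∈ T := by
    intro x
    obtain ⟨h, hh⟩ := QuotientGroup.mk_out_eq_mul (S : Subgroup G) x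
    rw [hh]
    have e : (x * h)⁻¹ * y * (x * h) = (h : G)⁻¹ * (x⁻¹ * y * x) * h := by group
    rw [e]
    constructor
    · intro h1
      have := hTconj (h : G)⁻¹ (inv_mem h.2) _ h1
      simpa [mul_assoc] using this
    · intro h1
      exact hTconj h h.2 _ h1
  let X : SubMulAction R (G ⧸ (S : Subgroup G)) :=
    { carrier := {q | q.out⁻¹ * y * q.out ∈ T}
      smul_mem' := by
        intro r q hq
        have h1 : r • q = (((r : G) * q.out : G) : G ⧸ (S : Subgroup G)) := by
          conv_lhs => rw [← QuotientGroup.out_eq' q]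
          rfl
        change (r • q).out⁻¹ * y * (r • q).out ∈ T
        rw [h1, hmem]
        have hr : (r : G) * y = y * r := mem_centralizer_singleton_iff.mp (hR.1 r.2)
        have e : ((r : G) * q.out)⁻¹ * y * ((r : G) * q.out) = q.out⁻¹ * y * q.out := by
          calc ((r : G) * q.out)⁻¹ * y * ((r : G) * q.out) = q.out⁻¹ * (r : G)⁻¹ * (y * r) * q.out := by
                group
            _ = q.out⁻¹ * (r : G)⁻¹ * (r * y) * q.out := by rw [hr]
            _ = q.out⁻¹ * y * q.out := by group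
        rw [e]
        exact hq }
  have hX : ¬ 2 ∣ Nat.card X := hodd
  obtain ⟨⟨q, hq⟩, hfix⟩ := hR.2.1.nonempty_fixed_point_of_prime_not_dvd_card X hX
  have hq : q.out⁻¹ * y * q.out ∈ T := hq
  have hRS : ∀ r ∈ R, q.out⁻¹ * r * q.out ∈ (S : Subgroup G) := by
    intro r hr
    have h1 : (⟨r, hr⟩ : R) • (⟨q, hq⟩ : X) = ⟨q, hq⟩ := hfix ⟨r, hr⟩
    have h2 : r • q = q := congrArg Subtype.val h1
    conv_lhs at h2 => rw [← QuotientGroup.out_eq' q]
    have h3 : r • ((q.out : G) : G ⧸ (S : Subgroup G)) = ((r * q.out : G) : G ⧸ (S : Subgroup G)) := rfl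
    rw [h3] at h2
    have h4 : ((q.out : G) : G ⧸ (S : Subgroup G)) = ((r * q.out : G) : G ⧸ (S : Subgroup G)) := by
      rw [h2, QuotientGroup.out_eq']
    rw [QuotientGroup.eq] at h4
    rwa [mul_assoc]
  refine ⟨q.out⁻¹, by rwa [inv_inv], ?_, ?_⟩
  all_goals
    have hRle : R.map (MulAut.conj q.out⁻¹).toMonoidHom ≤
        (S : Subgroup G) ⊓ centralizer {q.out⁻¹ * y * q.out⁻¹⁻¹} := by
      apply le_inf
      · rw [map_conj_le_iff]
        intro r hr
        rw [inv_inv]
        exact hRS r hr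
      · rw [← centralizer_singleton_map_conj]
        exact map_mono hR.1
  · have h5 := hR.map_conj q.out⁻¹
    rw [centralizer_singleton_map_conj] at h5
    exact fun h => h5.2.2 (h.trans (relIndex_dvd_of_le_left _ hRle))
  · exact (map_mono hCR).trans hRle

end Cfsg.Agent.H7
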