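import Cfsg.Agent.Lib_helper8_FusCM

set_option autoImplicit false

namespace Cfsg.Agent.H8
open Cfsg

variable {Ω : Type*} [Group Ω]

/-- `Ω₁` of an abelian subgroup, as a set of elements -/
def omS (p : ℕ) (A : Subgroup Ω) (hA : Ab A) : Subgroup Ω where
  carrier := {a | a ∈ A ∧ a ^ p = 1}
  one_mem' := ⟨A.one_mem, one_pow _⟩
  mul_mem' := by
    rintro x y ⟨hx, hx'⟩ ⟨hy, hy'⟩
    have : Commute x y := hA x hx y hy
    exact ⟨A.mul_mem hx hy, by rw [this.mul_pow, hx', hy', one_mul]⟩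
  inv_mem' := by
    rintro x ⟨hx, hx'⟩
    exact ⟨A.inv_mem hx, by rw [inv_pow, hx', inv_one]⟩

theorem mem_omS {p : ℕ} {A : Subgroup Ω} {hA : Ab A} {x : Ω} :
    x ∈ omS p A hA ↔ x ∈ A ∧ x ^ p = 1 := Iff.rfl

theorem omegaOne_eq_omS (p : ℕ) (A : Subgroup Ω) (hA : Ab A) : omegaOne p A = omS p A hA := by
  apply le_antisymm
  · unfold omegaOne
    rw [Subgroup.closure_le]
    exact fun x hx => hx
  · intro x hx
    exact Subgroup.subset_closure hx

theorem ab_of_isMulCommutative {A : Subgroup Ω} (h : IsMulCommutative A) : Ab A := by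
  intro a ha b hb
  have := h.is_comm.comm ⟨a, ha⟩ ⟨b, hb⟩
  exact congrArg Subtype.val this

theorem isMulCommutative_of_ab {A : Subgroup Ω} (h : Ab A) : IsMulCommutative A :=
  ⟨⟨fun a b => Subtype.ext (h a a.2 b b.2)⟩⟩

namespace Repl
variable {A B : Subgroup Ω} {b : Ω}

theorem u_pow (h : Repl A B b) {n : ℕ} (hn : Odd n) {a : Ω} (ha : a ∈ A) (han : a ^ n = 1) :
    (cm a b) ^ n = 1 := by
  have hy : b * a⁻¹ * b⁻¹ ∈ A ⊔ cjs b A := Subgroup.mem_sup_right (cj_mem_cjs (A.inv_mem ha))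
  rw [u_eq, h.cl2X.mul_pow (Subgroup.mem_sup_left ha) hy, han, one_mul]
  have e1 : (b * a⁻¹ * b⁻¹) ^ n = 1 := by
    rw [conj_pow, inv_pow, han]; group
  obtain ⟨k, rfl⟩ := hn
  have e2 : (2 * k + 1).choose 2 = (2 * k + 1) * k := by
    rw [Nat.choose_two_right, Nat.add_sub_cancel, mul_comm 2 k, ← mul_assoc, Nat.mul_div_cancel _ two_pos]
  rw [e1, one_mul, e2, pow_mul, ← h.cl2X.pow_left hy (Subgroup.mem_sup_left ha), e1, cm_one_left,
    one_pow]

theorem card_om_le (h : Repl A B b) [Finite A] {p : ℕ} (hp : Odd p) :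
    Nat.card (omS p A h.ab) ≤ Nat.card (omS p h.star h.star_ab) := by
  set E := omS p A h.ab with hE
  set E' := omS p h.star h.star_ab with hE'
  have hfs : Finite h.star := Nat.finite_of_card_ne_zero (by rw [h.card_star]; exact Nat.card_pos.ne')
  have hEA : E ≤ A := fun x hx => hx.1
  have hfE : Finite E := Finite.of_injective (Subgroup.inclusion hEA) (Subgroup.inclusion_injective _)
  have hE'A : E' ≤ h.star := fun x hx => hx.1
  have hfE' : Finite E' :=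
    Finite.of_injective (Subgroup.inclusion hE'A) (Subgroup.inclusion_injective _)
  have hnorm : ∀ x ∈ Subgroup.normalizer (A : Set Ω), x ∈ Subgroup.normalizer (E : Set Ω) := by
    intro x hx
    refine Subgroup.mem_normalizer_iff.2 fun e => ⟨fun he => ?_, fun he => ?_⟩
    · exact ⟨(Subgroup.mem_normalizer_iff.1 hx e).1 he.1, by rw [conj_pow, he.2]; group⟩
    · refine ⟨(Subgroup.mem_normalizer_iff.1 hx e).2 he.1, ?_⟩
      have h2 := he.2
      rw [conj_pow] at h2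
      have := congrArg (fun t => x⁻¹ * t * x) h2
      simpa [mul_assoc] using this
  have h1 := H1.card_sup_mul_card_inf' E (cjs b E)
    (fun x hx => hnorm x (h.n1 (by
      obtain ⟨y, hy, rfl⟩ := hx
      exact cj_mem_cjs (hEA hy))))
  have h2 := H1.card_sup_mul_card_inf' E E' (fun x hx => hnorm x (h.star_le_normalizer hx.1))
  have hinf : E ⊓ E' = E ⊓ cjs b E := by
    apply le_antisymm
    · rintro x ⟨hx, hx'⟩
      refine ⟨hx, ?_⟩
      have h3 : x ∈ A ⊓ h.star := ⟨hx.1, hx'.1⟩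
      rw [h.inf_star] at h3
      refine mem_cjs.2 ⟨mem_cjs.1 h3.2, ?_⟩
      have e : b⁻¹ * x * b = b⁻¹ * x * b⁻¹⁻¹ := by group
      rw [e, conj_pow, hx.2]; group
    · rintro x ⟨hx, hx'⟩
      refine ⟨hx, h.Z_le_star ⟨hx.1, ?_⟩, hx.2⟩
      exact mem_cjs.2 (hEA (mem_cjs.1 hx'))
  have hsup : E ⊔ cjs b E ≤ E ⊔ E' := by
    refine sup_le le_sup_left fun x hx => ?_
    have hc := mem_cjs.1 hx
    have e : x = (cm (b⁻¹ * x * b) b)⁻¹ * (b⁻¹ * x * b) := by unfold cm; group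
    rw [e]
    refine mul_mem (Subgroup.mem_sup_right (inv_mem ?_)) (Subgroup.mem_sup_left hc)
    exact ⟨h.u_mem_star hc.1, h.u_pow hp hc.1 hc.2⟩
  have hfsup : Finite (E ⊔ E' : Subgroup Ω) := by
    apply Nat.finite_of_card_ne_zero
    intro h0
    rw [h0, zero_mul] at h2
    have := Nat.mul_pos (Nat.card_pos (α := E)) (Nat.card_pos (α := E'))
    omega
  have h3 : Nat.card (E ⊔ cjs b E : Subgroup Ω) ≤ Nat.card (E ⊔ E' : Subgroup Ω) :=
    Subgroup.card_le_of_le hsup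
  rw [card_cjs] at h1
  rw [hinf] at h2
  have h4 : Nat.card E * Nat.card E ≤ Nat.card E * Nat.card E' := by
    rw [← h1, ← h2]; exact Nat.mul_le_mul_right _ h3
  exact Nat.le_of_mul_le_mul_left h4 Nat.card_pos

end Repl

/-- Glauberman's replacement theorem with all the extra properties -/
theorem exists_replacement' {p : ℕ} [hp' : Fact p.Prime] (hp : p ≠ 2) {A B : Subgroup Ω}
    [Finite (A ⊔ B : Subgroup Ω)] (hpg : IsPGroup p (A ⊔ B : Subgroup Ω)) (hA : Ab A)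
    (hAB : A ≤ Subgroup.normalizer (B : Set Ω)) (hcl : Cl2 B) (hder : ∀ x ∈ B, ∀ y ∈ B, cm x y ∈ A)
    (hn : ¬ B ≤ Subgroup.normalizer (A : Set Ω)) :
    ∃ A' : Subgroup Ω, Ab A' ∧ Nat.card A' = Nat.card A ∧ A ⊓ B < A' ⊓ B ∧
      A' ≤ Subgroup.normalizer (A : Set Ω) ∧ (∀ x ∈ B, ∀ y ∈ B, cm x y ∈ A') ∧
      (∀ D : Subgroup Ω, A ≤ D → (∀ y ∈ B, ∀ d ∈ D, y * d * y⁻¹ ∈ D) → A' ≤ D) ∧
      (∀ n : ℕ, Odd n → (∀ a ∈ A, a ^ n = 1) → ∀ x ∈ A', x ^ n = 1) ∧
      Nat.card (omegaOne p A) ≤ Nat.card (omegaOne p A') := by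
  obtain ⟨b, hb, h⟩ := exists_repl hp hpg hA hAB hcl hder hn
  have : Finite A := Finite.of_injective (Subgroup.inclusion (le_sup_left : A ≤ A ⊔ B))
    (Subgroup.inclusion_injective _)
  refine ⟨h.star, h.star_ab, h.card_star, h.inf_lt hb, h.star_le_normalizer,
    fun x hx y hy => h.der_le_star hx hy, fun D hAD hD => h.star_le hAD (hD b h.hb),
    fun n hn hA => h.star_pow hn hA, ?_⟩
  rw [omegaOne_eq_omS p A h.ab, omegaOne_eq_omS p _ h.star_ab]
  exact h.card_om_le (hp'.out.odd_of_ne_two hp)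

end Cfsg.Agent.H8
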