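import Cfsg.Agent.Lib_helper8_FusR
import Cfsg.Agent.Lib_helper1_Cores

set_option autoImplicit false

namespace Cfsg.Agent.H8
open Cfsg Cfsg.FusionSystem
open scoped commutatorElement

section nps
variable {p : ℕ}

theorem mem_pCore_of_injective {A B : Type*} [Group A] [Group B] (Φ : A →* B)
    (hΦ : Function.Injective Φ) (a : A) (ha : Φ a ∈ pCore p B) : a ∈ pCore p A := by
  have hn : ((pCore p B).comap Φ).Normal := (H1.pCore_normal p).comap Φ
  have hpg : IsPGroup p ((pCore p B).comap Φ) := (H1.pCore_isPGroup p).comap_of_injective Φ hΦ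
  exact H1.le_pCore p hn hpg ha

theorem mem_pCore_of_surjective {A B : Type*} [Group A] [Group B] (Φ : A →* B)
    (hΦ : Function.Surjective Φ) (a : A) (ha : a ∈ pCore p A) : Φ a ∈ pCore p B := by
  have hn : ((pCore p A).map Φ).Normal := (H1.pCore_normal p).map Φ hΦ
  have hpg : IsPGroup p ((pCore p A).map Φ) := (H1.pCore_isPGroup p).map Φ
  exact H1.le_pCore p hn hpg ⟨a, ha, rfl⟩

theorem pCore_iff_of_hom {Y M : Type*} [Group Y] [Group M] (c : Y →* M) (A : Subgroup M)
    (hA : ∀ y, c y ∈ A) (hsurj : ∀ α ∈ A, ∃ y, c y = α) (C' : Subgroup Y) [C'.Normal]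
    (hker : ∀ y, y ∈ C' ↔ c y = 1) (y : Y) :
    ((QuotientGroup.mk (s := C') y) ∈ pCore p (Y ⧸ C')) ↔ c y ∈ (pCore p A).map A.subtype := by
  let c' : Y →* A := c.codRestrict A hA
  let Ψ : Y ⧸ C' →* A := QuotientGroup.lift C' c' (fun x hx => Subtype.ext ((hker x).1 hx))
  have hΨ : ∀ x : Y, Ψ (QuotientGroup.mk x) = c' x := fun x => rfl
  have hinj : Function.Injective Ψ := by
    rw [injective_iff_map_eq_one]
    intro q
    induction q using QuotientGroup.induction_on with
    | H x =>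
      intro h
      exact (QuotientGroup.eq_one_iff _).2 ((hker _).2 (congrArg Subtype.val h))
  have hs : Function.Surjective Ψ := by
    rintro ⟨α, hα⟩
    obtain ⟨x, hx⟩ := hsurj α hα
    exact ⟨QuotientGroup.mk x, Subtype.ext hx⟩
  constructor
  · intro h
    exact ⟨Ψ (QuotientGroup.mk y), mem_pCore_of_surjective Ψ hs _ h, rfl⟩
  · rintro ⟨a, ha, hay⟩
    apply mem_pCore_of_injective Ψ hinj
    have : Ψ (QuotientGroup.mk y) = a := Subtype.ext hay.symm
    rw [this]; exact ha

variable {Ω : Type*} [Group Ω]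

/-- quadratic action of an element, in elementwise form -/
theorem quad_iff (Q : Subgroup Ω) (g : Ω) :
    ⁅⁅Q, Subgroup.zpowers g⁆, Subgroup.zpowers g⁆ = ⊥ ↔ ∀ a ∈ Q, ⁅a, g⁆ * g = g * ⁅a, g⁆ := by
  constructor
  · intro h a ha
    have h1 : ⁅⁅a, g⁆, g⁆ ∈ ⁅⁅Q, Subgroup.zpowers g⁆, Subgroup.zpowers g⁆ :=
      Subgroup.commutator_mem_commutator
        (Subgroup.commutator_mem_commutator ha (Subgroup.mem_zpowers g)) (Subgroup.mem_zpowers g)
    rw [h, Subgroup.mem_bot, commutatorElement_eq_one_iff_mul_comm] at h1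
    exact h1
  · intro h
    rw [Subgroup.commutator_eq_bot_iff_le_centralizer]
    set D := Subgroup.centralizer ((Subgroup.zpowers g : Subgroup Ω) : Set Ω) with hD
    have hDmem : ∀ x, x * g = g * x → x ∈ D := by
      intro x hx
      rw [hD, Subgroup.mem_centralizer_iff]
      rintro z hz
      obtain ⟨k, rfl⟩ := Subgroup.mem_zpowers_iff.1 hz
      have hc : Commute g x := hx.symm
      exact (hc.zpow_left k).eq
    have hgD : ∀ k : ℤ, g ^ k ∈ D := fun k => hDmem _ ((Commute.refl g).zpow_left k).eq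
    have hbase : ∀ a ∈ Q, ⁅a, g⁆ ∈ D := fun a ha => hDmem _ (h a ha)
    have hall : ∀ k : ℤ, ∀ a ∈ Q, ⁅a, g ^ k⁆ ∈ D := by
      intro k
      induction k using Int.induction_on with
      | zero => intro a _; simp [commutatorElement_def]
      | succ k ih =>
        intro a ha
        have e : ⁅a, g ^ ((k : ℤ) + 1)⁆ = ⁅a, g ^ (k : ℤ)⁆ * (g ^ (k : ℤ) * ⁅a, g⁆ * (g ^ (k : ℤ))⁻¹) := by
          simp only [commutatorElement_def, zpow_add, zpow_one]; group
        rw [e]
        exact mul_mem (ih a ha) (mul_mem (mul_mem (hgD _) (hbase a ha)) (inv_mem (hgD _)))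
      | pred k ih =>
        intro a ha
        have e : ⁅a, g ^ (-(k : ℤ) - 1)⁆ = ⁅a, g ^ (-(k : ℤ))⁆ *
            (g ^ (-(k : ℤ) - 1) * ⁅a, g⁆⁻¹ * (g ^ (-(k : ℤ) - 1))⁻¹) := by
          simp only [commutatorElement_def, zpow_sub, zpow_one]; group
        rw [e]
        exact mul_mem (ih a ha) (mul_mem (mul_mem (hgD _) (inv_mem (hbase a ha))) (inv_mem (hgD _)))
    rw [Subgroup.commutator_le]
    intro a ha z hz
    obtain ⟨k, rfl⟩ := Subgroup.mem_zpowers_iff.1 hz
    exact hall k a ha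

end nps

end Cfsg.Agent.H8
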