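import Mathlib
import Cfsg.Agent.Lib_helper1_Hall
import Cfsg.Agent.Lib_helper4_CharD

set_option autoImplicit false
set_option linter.style.haveILetI false
set_option linter.unusedSectionVars false

/-! Groups with an abelian 2-complement. -/

namespace Cfsg.Agent.LeadBr

open Subgroup

universe u

/-- `G` has an abelian 2-complement -/
def Ab2 (G : Type u) [Group G] : Prop :=
  ∃ C : Subgroup G, IsMulCommutative C ∧ Odd (Nat.card C) ∧ ∃ k : ℕ, C.index = 2 ^ k

theorem Ab2.normal {G : Type u} [Group G] [Finite G] (h : Ab2 G) (N : Subgroup G) [N.Normal] :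
    Ab2 N := by
  obtain ⟨C, hC, hodd, k, hk⟩ := h
  refine ⟨C.subgroupOf N, inferInstance, ?_, ?_⟩
  · rw [← inf_subgroupOf_right, H1.card_subgroupOf_of_le inf_le_right]
    exact Odd.of_dvd_nat hodd (card_dvd_of_le inf_le_left)
  · have h1 := H1.card_sup_mul_card_inf C N
    have h2 := H1.relIndex_mul_card_inf C N
    have h3 : Nat.card (C ⊔ N : Subgroup G) ∣ Nat.card G := card_subgroup_dvd_card _
    have h4 : C.index * Nat.card C = Nat.card G := C.index_mul_card
    have hd : 0 < Nat.card (C ⊓ N : Subgroup G) := Nat.card_pos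
    have hc : 0 < Nat.card C := Nat.card_pos
    have h5 : Nat.card (C ⊔ N : Subgroup G) = Nat.card C * C.relIndex N := by
      apply Nat.eq_of_mul_eq_mul_right hd
      rw [h1, ← h2]; ring
    have h6 : C.relIndex N ∣ 2 ^ k := by
      rw [h5, ← h4, hk, mul_comm] at h3
      exact Nat.dvd_of_mul_dvd_mul_right hc h3
    obtain ⟨j, -, hj⟩ := (Nat.dvd_prime_pow Nat.prime_two).mp h6
    exact ⟨j, hj⟩

theorem Ab2.quot {G : Type u} [Group G] [Finite G] (h : Ab2 G) (N : Subgroup G) [N.Normal] :
    Ab2 (G ⧸ N) := by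
  obtain ⟨C, hC, hodd, k, hk⟩ := h
  refine ⟨C.map (QuotientGroup.mk' N), inferInstance, ?_, ?_⟩
  · exact Odd.of_dvd_nat hodd (card_map_dvd C _)
  · have h6 := index_map_dvd C (QuotientGroup.mk'_surjective N)
    rw [hk] at h6
    obtain ⟨j, -, hj⟩ := (Nat.dvd_prime_pow Nat.prime_two).mp h6
    exact ⟨j, hj⟩

theorem Ab2.solvable_aux (n : ℕ) : ∀ (G : Type u) [Group G] [Finite G], Nat.card G = n → Ab2 G →
    Group.IsSolvable G := by
  induction n using Nat.strong_induction_on with
  | _ n ih =>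
    intro G _ _ hn hab
    by_cases hsimple : IsSimpleGroup G
    · obtain ⟨C, hC, hodd, k, hk⟩ := hab
      by_cases hCbot : C = ⊥
      · have h4 : C.index * Nat.card C = Nat.card G := C.index_mul_card
        rw [hk, hCbot, card_bot, mul_one] at h4
        exact H4.burnside_paqb 2 3 k 0 Nat.prime_two Nat.prime_three (by rw [← h4]; simp)
      · obtain ⟨a, ha, ha1⟩ : ∃ a ∈ C, a ≠ 1 := by
          by_contra hcon
          push Not at hcon
          exact hCbot ((eq_bot_iff_forall C).mpr hcon)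
        have hle : C ≤ centralizer ({a} : Set G) := by
          intro c hc
          rw [mem_centralizer_singleton_iff]
          exact congrArg Subtype.val ((isMulCommutative_iff.mp hC) ⟨c, hc⟩ ⟨a, ha⟩)
        have h6 := index_dvd_of_le hle
        rw [hk] at h6
        obtain ⟨j, -, hj⟩ := (Nat.dvd_prime_pow Nat.prime_two).mp h6
        have hprime := H4.prime_card_of_class_prime_pow 2 j Nat.prime_two a ha1 hj
        haveI : Fact (Nat.card G).Prime := ⟨hprime⟩
        have hcyc : IsCyclic G := isCyclic_of_prime_card rfl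
        exact Group.isSolvable_of_comm (isMulCommutative_iff.mp hcyc.isMulCommutative)
    · by_cases hsub : Subsingleton G
      · infer_instance
      rw [not_subsingleton_iff_nontrivial] at hsub
      have : ∃ N : Subgroup G, N.Normal ∧ N ≠ ⊥ ∧ N ≠ ⊤ := by
        by_contra hcon
        push Not at hcon
        apply hsimple
        exact ⟨fun N hN => by
          by_cases h : N = ⊥
          · left; exact h
          · right; exact hcon N hN h⟩
      obtain ⟨N, hN, hNbot, hNtop⟩ := this
      have hlt1 : Nat.card N < n := by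
        rw [← hn]
        have hne : Nat.card N ≠ Nat.card G := fun h => hNtop (Subgroup.eq_top_of_card_eq N h)
        exact lt_of_le_of_ne (Subgroup.card_le_card_group N) hne
      have hlt2 : Nat.card (G ⧸ N) < n := by
        rw [← hn, Subgroup.card_eq_card_quotient_mul_card_subgroup N]
        have : 1 < Nat.card N := by
          rw [Finite.one_lt_card_iff_nontrivial]
          exact (Subgroup.nontrivial_iff_ne_bot N).mpr hNbot
        have hpos : 0 < Nat.card (G ⧸ N) := Nat.card_pos
        nlinarith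
      have s1 := ih _ hlt1 N rfl (hab.normal N)
      have s2 := ih _ hlt2 (G ⧸ N) rfl (hab.quot N)
      exact (Group.isSolvable_iff_subgroup_quotient N).mpr ⟨s1, s2⟩

theorem Ab2.solvable {G : Type u} [Group G] [Finite G] (h : Ab2 G) : Group.IsSolvable G :=
  Ab2.solvable_aux _ G rfl h

theorem Ab2.subgroup {G : Type u} [Group G] [Finite G] (h : Ab2 G) (L : Subgroup G) : Ab2 L := by
  haveI hsol : Group.IsSolvable G := h.solvable
  obtain ⟨C, hC, hodd, k, hk⟩ := h
  obtain ⟨j, m, hm, hjm⟩ := Nat.exists_eq_two_pow_mul_odd (Nat.card_pos (α := L)).ne'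
  have hcop : m.Coprime (2 ^ j) := (Nat.Coprime.pow_right j (Nat.coprime_two_right.mpr hm))
  obtain ⟨B, hB, -⟩ := (H1.hall_aux _ L m (2 ^ j) rfl (by rw [hjm, mul_comm]) hcop).1 ⊥
    (by rw [card_bot]; exact Nat.coprime_one_left _)
  have hcopC : (Nat.card C).Coprime (2 ^ k) := (Nat.Coprime.pow_right k (Nat.coprime_two_right.mpr hodd))
  have hG : Nat.card G = Nat.card C * 2 ^ k := by rw [← hk, mul_comm]; exact C.index_mul_card.symm
  have hall := H1.hall_aux _ G (Nat.card C) (2 ^ k) rfl hG hcopC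
  have hB' : Nat.card (B.map L.subtype) = m := by
    rw [card_map_of_injective L.subtype_injective, hB]
  obtain ⟨H0, hH0, hBH0⟩ := hall.1 (B.map L.subtype)
    (by rw [hB']; exact (Nat.Coprime.pow_right k (Nat.coprime_two_right.mpr hm)))
  obtain ⟨g, hg⟩ := hall.2 H0 C hH0 rfl
  refine ⟨B, ?_, by rw [hB]; exact hm, j, ?_⟩
  · rw [isMulCommutative_iff]
    intro x y
    have hx : g * ((x : L) : G) * g⁻¹ ∈ C := by
      rw [← hg]
      exact ⟨_, hBH0 (mem_map.mpr ⟨x, x.2, rfl⟩), rfl⟩
    have hy : g * ((y : L) : G) * g⁻¹ ∈ C := by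
      rw [← hg]
      exact ⟨_, hBH0 (mem_map.mpr ⟨y, y.2, rfl⟩), rfl⟩
    have hxy := congrArg Subtype.val ((isMulCommutative_iff.mp hC) ⟨_, hx⟩ ⟨_, hy⟩)
    have hxy' : g * ((x : L) : G) * g⁻¹ * (g * ((y : L) : G) * g⁻¹) =
        g * ((y : L) : G) * g⁻¹ * (g * ((x : L) : G) * g⁻¹) := hxy
    apply Subtype.ext
    apply Subtype.ext
    show ((x : L) : G) * ((y : L) : G) = ((y : L) : G) * ((x : L) : G)
    have e1 : g * (((x : L) : G) * ((y : L) : G)) * g⁻¹ = g * (((y : L) : G) * ((x : L) : G)) * g⁻¹ := by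
      calc g * (((x : L) : G) * ((y : L) : G)) * g⁻¹
          = g * ((x : L) : G) * g⁻¹ * (g * ((y : L) : G) * g⁻¹) := by group
        _ = g * ((y : L) : G) * g⁻¹ * (g * ((x : L) : G) * g⁻¹) := hxy'
        _ = _ := by group
    exact mul_left_cancel (mul_right_cancel e1)
  · have h4 : B.index * Nat.card B = Nat.card L := B.index_mul_card
    rw [hB, hjm] at h4
    exact Nat.eq_of_mul_eq_mul_right hm.pos h4

theorem Ab2.exists_compl {G : Type u} [Group G] [Finite G] (h : Ab2 G) :
    ∃ (P : Sylow 2 G) (D : Subgroup G), IsMulCommutative D ∧ IsComplement' (P : Subgroup G) D := by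
  obtain ⟨C, hC, hodd, k, hk⟩ := h
  let P : Sylow 2 G := default
  refine ⟨P, C, hC, ?_⟩
  obtain ⟨a, ha⟩ := IsPGroup.exists_card_eq P.2
  have hP : ¬ 2 ∣ (P : Subgroup G).index := P.not_dvd_index
  have h1 : (P : Subgroup G).index * Nat.card (P : Subgroup G) = Nat.card G :=
    (P : Subgroup G).index_mul_card
  have h2 : C.index * Nat.card C = Nat.card G := C.index_mul_card
  rw [hk] at h2
  have ha' : Nat.card (P : Subgroup G) = 2 ^ a := ha
  rw [ha'] at h1
  have hcopC : (2 ^ a).Coprime (Nat.card C) :=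
    (Nat.Coprime.pow_left a (Nat.coprime_two_left.mpr hodd))
  have hcopP : (2 ^ k).Coprime (P : Subgroup G).index :=
    (Nat.Coprime.pow_left k ((Nat.Prime.coprime_iff_not_dvd Nat.prime_two).mpr hP))
  have d1 : 2 ^ a ∣ 2 ^ k := by
    apply hcopC.dvd_of_dvd_mul_right
    rw [h2, ← h1]; exact dvd_mul_left _ _
  have d2 : 2 ^ k ∣ 2 ^ a := by
    apply hcopP.dvd_of_dvd_mul_left
    rw [h1, ← h2]; exact dvd_mul_right _ _
  have e : 2 ^ a = 2 ^ k := Nat.dvd_antisymm d1 d2
  apply isComplement'_of_coprime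
  · rw [ha', e, h2]
  · rw [ha']; exact hcopC

theorem ab2_of_compl {G : Type u} [Group G] [Finite G] (S : Sylow 2 G) (C : Subgroup G)
    (hC : IsMulCommutative C) (hSC : IsComplement' (S : Subgroup G) C) : Ab2 G := by
  refine ⟨C, hC, ?_, ?_⟩
  · rw [← hSC.symm.index_eq_card, ← Nat.not_even_iff_odd, even_iff_two_dvd]
    exact S.not_dvd_index
  · rw [hSC.index_eq_card]
    exact IsPGroup.exists_card_eq S.2

end Cfsg.Agent.LeadBr
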