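import Mathlib
import Cfsg.Prelude.Def_Characters
import Cfsg.Prelude.Def_Blocks
import Cfsg.Agent.Lib_lead_Br13

set_option autoImplicit false
set_option linter.style.haveILetI false

/-! Combinations of characters with algebraic-integer coefficients. -/

namespace Cfsg.Agent.LeadBr

open Cfsg Cfsg.Agent.H4 MulAction Subgroup
open scoped commutatorElement ComplexConjugate

universe u

variable {G : Type u} [Group G]

/-- combinations of characters with algebraic integer coefficients -/
def RC (K : Type u) [Group K] : Submodule AlgInt (K → ℂ) :=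
  Submodule.span AlgInt {χ | IsCharacter K χ}

theorem RC_smul_eq {K : Type u} (r : AlgInt) (f : K → ℂ) : r • f = (r : ℂ) • f := rfl

theorem RC_ind [Fintype G] (H : Subgroup G) {f : H → ℂ} (hf : f ∈ RC H) : indFun H f ∈ RC G := by
  induction hf using Submodule.span_induction with
  | mem f hf => exact Submodule.subset_span (IsCharacter.ind H hf)
  | zero => rw [indFun_zero]; exact Submodule.zero_mem _
  | add x y _ _ hx hy => rw [indFun_add]; exact Submodule.add_mem _ hx hy
  | smul r x _ hx =>
    rw [RC_smul_eq, indFun_smul, ← RC_smul_eq]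
    exact Submodule.smul_mem _ r hx

theorem RC_mul_char {K : Type u} [Group K] {f ψ : K → ℂ} (hf : f ∈ RC K) (hψ : IsCharacter K ψ) :
    ψ * f ∈ RC K := by
  induction hf using Submodule.span_induction with
  | mem f hf => exact Submodule.subset_span (IsCharacter.mul hψ hf)
  | zero => rw [mul_zero]; exact Submodule.zero_mem _
  | add x y _ _ hx hy => rw [mul_add]; exact Submodule.add_mem _ hx hy
  | smul r x _ hx =>
    rw [RC_smul_eq, mul_smul_comm, ← RC_smul_eq]
    exact Submodule.smul_mem _ r hx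

theorem RC_comp {K K' : Type u} [Group K] [Group K'] (φ : K →* K') {f : K' → ℂ} (hf : f ∈ RC K') :
    (fun x => f (φ x)) ∈ RC K := by
  induction hf using Submodule.span_induction with
  | mem f hf => exact Submodule.subset_span (IsCharacter.comp φ hf)
  | zero => exact Submodule.zero_mem _
  | add x y _ _ hx hy => exact Submodule.add_mem _ hx hy
  | smul r x _ hx => exact Submodule.smul_mem _ r hx

theorem RC_coeff [Fintype G] [Fintype (IrrCharacter G)] {f : G → ℂ} (hf : f ∈ RC G) :
    ∃ c : IrrCharacter G → ℂ, (∀ χ, c χ ∈ AlgInt) ∧ f = ∑ χ : IrrCharacter G, c χ • (χ : G → ℂ) := by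
  induction hf using Submodule.span_induction with
  | mem f hf =>
    obtain ⟨m, hm⟩ := IsCharacter.exists_mult hf
    exact ⟨fun χ => (m χ : ℂ), fun χ => natCast_mem _ _, hm⟩
  | zero => exact ⟨fun _ => 0, fun _ => zero_mem _, by simp⟩
  | add x y _ _ hx hy =>
    obtain ⟨c, hc, rfl⟩ := hx
    obtain ⟨d, hd, rfl⟩ := hy
    refine ⟨fun χ => c χ + d χ, fun χ => add_mem (hc χ) (hd χ), ?_⟩
    rw [← Finset.sum_add_distrib]
    apply Finset.sum_congr rfl
    intro χ _
    rw [add_smul]
  | smul r x _ hx =>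
    obtain ⟨c, hc, rfl⟩ := hx
    refine ⟨fun χ => (r : ℂ) * c χ, fun χ => mul_mem r.2 (hc χ), ?_⟩
    rw [RC_smul_eq, Finset.smul_sum]
    apply Finset.sum_congr rfl
    intro χ _
    rw [mul_smul]

theorem RC_of_classInner [Fintype G] {f : G → ℂ} (hf : IsClassFunction G f)
    (h : ∀ β : IrrCharacter G, classInner f (β : G → ℂ) ∈ AlgInt) : f ∈ RC G := by
  haveI := Fintype.ofFinite (IrrCharacter G)
  rw [classFunction_expansion' f hf]
  apply Submodule.sum_mem
  intro β _
  have : classInner f (β : G → ℂ) • (β : G → ℂ)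
      = (⟨classInner f (β : G → ℂ), h β⟩ : AlgInt) • (β : G → ℂ) := rfl
  rw [this]
  exact Submodule.smul_mem _ _ (Submodule.subset_span (IsIrrCharacter.isCharacter β.2))

theorem RI_mul_RC [Fintype G] {F : Subgroup G → Prop} {f : G → ℂ} (hf : f ∈ RI F) {ϑ : G → ℂ}
    (hϑ : IsClassFunction G ϑ) (hres : ∀ H : Subgroup G, F H → (fun h : H => ϑ h) ∈ RC H) :
    f * ϑ ∈ RC G := by
  induction hf using AddSubgroup.closure_induction with
  | mem f hf =>
    obtain ⟨H, hH, ψ, hψ, rfl⟩ := hf
    rw [← indFun_mul_restrict H ψ ϑ hϑ]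
    exact RC_ind H (RC_mul_char (hres H hH) hψ)
  | zero => rw [zero_mul]; exact Submodule.zero_mem _
  | add x y _ _ hx hy => rw [add_mul]; exact Submodule.add_mem _ hx hy
  | neg x _ hx => rw [neg_mul]; exact Submodule.neg_mem _ hx

/-- the algebraic-integer version of Brauer's characterization -/
theorem brauer_RC [Fintype G] {ϑ : G → ℂ} (hϑ : IsClassFunction G ϑ)
    (hres : ∀ (E : Subgroup G) (p : ℕ), p.Prime → IsElementary p E → (fun h : E => ϑ h) ∈ RC E) :
    ϑ ∈ RC G := by
  have h1 := RI_mul_RC (brauer_one (G := G)) hϑ (fun H ⟨p, hp, hH⟩ => hres H p hp hH)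
  have h2 : (fun _ : G => (1 : ℂ)) * ϑ = ϑ := by funext x; simp
  rwa [h2] at h1

end Cfsg.Agent.LeadBr
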