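import Mathlib
import Cfsg.Prelude.Def_Characters
import Cfsg.Prelude.Def_Blocks
import Cfsg.Agent.Lib_lead_Br14

set_option autoImplicit false
set_option linter.style.haveILetI false

/-! The characteristic functions of sections (Isaacs 8.19). -/

namespace Cfsg.Agent.LeadBr

open Cfsg Cfsg.Agent.H4 MulAction Subgroup
open scoped commutatorElement ComplexConjugate

universe u

variable {G : Type u} [Group G]

theorem nilpotent_split (E : Type*) [Group E] [Finite E] [Group.IsNilpotent E] (m n : ℕ)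
    (hcop : m.Coprime n) (hdvd : Nat.card E ∣ m * n) :
    ∃ A B : Subgroup E, A.Normal ∧ B.Normal ∧ Nat.card A ∣ m ∧ Nat.card B ∣ n ∧ A.index ∣ n ∧
      (∀ x : E, ∃ a ∈ A, ∃ b ∈ B, x = a * b) ∧ (∀ a ∈ A, ∀ b ∈ B, Commute a b) := by
  set a := (Nat.card E).gcd m with ha
  set b := (Nat.card E).gcd n with hb
  have hab : Nat.card E = a * b := by
    rw [ha, hb, ← Nat.Coprime.gcd_mul _ hcop, Nat.gcd_eq_left hdvd]
  have hcop' : a.Coprime b :=
    Nat.Coprime.coprime_dvd_left (Nat.gcd_dvd_right _ _)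
      (Nat.Coprime.coprime_dvd_right (Nat.gcd_dvd_right _ _) hcop)
  obtain ⟨A, hA⟩ := Cfsg.Agent.S0003.result (G := E) a b hab hcop'
  obtain ⟨B, hB⟩ := Cfsg.Agent.S0003.result (G := E) b a (by rw [hab, mul_comm]) hcop'.symm
  have hapos : 0 < a := by rw [← hA]; exact Nat.card_pos
  have hbpos : 0 < b := by rw [← hB]; exact Nat.card_pos
  have hAi : A.index = b := by
    have := A.card_mul_index
    rw [hA, hab] at this
    exact Nat.eq_of_mul_eq_mul_left hapos this
  have hBi : B.index = a := by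
    have := B.card_mul_index
    rw [hB, hab, mul_comm a b] at this
    exact Nat.eq_of_mul_eq_mul_left hbpos this
  have hAn : A.Normal := H1.hall_normal_of_nilpotent A (by rw [hA, hAi]; exact hcop')
  have hBn : B.Normal := H1.hall_normal_of_nilpotent B (by rw [hB, hBi]; exact hcop'.symm)
  have hcompl : IsComplement' A B :=
    isComplement'_of_coprime (by rw [hA, hB, hab]) (by rw [hA, hB]; exact hcop')
  refine ⟨A, B, hAn, hBn, ?_, ?_, ?_, ?_, ?_⟩
  · rw [hA]; exact Nat.gcd_dvd_right _ _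
  · rw [hB]; exact Nat.gcd_dvd_right _ _
  · rw [hAi]; exact Nat.gcd_dvd_right _ _
  · intro x
    obtain ⟨⟨a', b'⟩, h⟩ := hcompl.2 x
    exact ⟨a', a'.2, b', b'.2, h.symm⟩
  · intro a' ha' b' hb'
    exact commute_of_normal_of_disjoint A B hAn hBn hcompl.disjoint a' b' ha' hb'

theorem isConj_conj_iff (h y g : G) : IsConj (h * y * h⁻¹) g ↔ IsConj y g :=
  ⟨fun H => (isConj_iff.mpr ⟨h, rfl⟩ : IsConj y (h * y * h⁻¹)).trans H,
   fun H => ((isConj_iff.mpr ⟨h, rfl⟩ : IsConj y (h * y * h⁻¹)).symm).trans H⟩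

open Classical in
theorem section_RC [Fintype G] (m n t : ℕ) (hmn : Nat.card G = m * n) (hcop : m.Coprime n)
    (ht0 : t ≡ 0 [MOD m]) (g : G) :
    (fun x : G => if IsConj (x ^ t) g then (n : ℂ) else 0) ∈ RC G := by
  have hcl : IsClassFunction G (fun x : G => if IsConj (x ^ t) g then (n : ℂ) else 0) := by
    intro x h
    simp only [conj_pow, isConj_conj_iff]
  apply brauer_RC hcl
  intro E q hq hE
  haveI : Fintype E := Fintype.ofFinite _
  haveI := isElementary_nilpotent hq hE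
  obtain ⟨A, B, hAn, hBn, hAm, hBn', hAi, hdec, hcomm⟩ := nilpotent_split E m n hcop
    (hmn ▸ card_subgroup_dvd_card E)
  have hmt : m ∣ t := (Nat.modEq_zero_iff_dvd).mp ht0
  have hAt : ∀ a ∈ A, a ^ t = 1 := by
    intro a ha
    rw [← orderOf_dvd_iff_pow_eq_one]
    have h1 := orderOf_dvd_natCard (⟨a, ha⟩ : A)
    rw [Subgroup.orderOf_mk] at h1
    exact dvd_trans h1 (dvd_trans hAm hmt)
  have key : ∀ x : E, ∀ a' ∈ A, (x * a') ^ t = x ^ t := by
    intro x a' ha'
    obtain ⟨a, ha, b, hb, rfl⟩ := hdec x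
    have e1 : a * b * a' = (a * a') * b := by
      rw [mul_assoc, ((hcomm a' ha' b hb).eq).symm, mul_assoc]
    rw [e1, (hcomm (a * a') (A.mul_mem ha ha') b hb).mul_pow, (hcomm a ha b hb).mul_pow,
      hAt a ha, hAt _ (A.mul_mem ha ha')]
  set ϑE : E → ℂ := fun e => if IsConj ((e : G) ^ t) g then (n : ℂ) else 0 with hϑE
  have hϑEcl : IsClassFunction E ϑE := fun x h => hcl x h
  obtain ⟨c, hc⟩ := hAi
  set d : E ⧸ A → ℕ := fun y => if IsConj ((y.out : G) ^ t) g then c else 0 with hd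
  set fb : E ⧸ A → ℂ := fun y => ϑE y.out with hfb
  have hfbx : ∀ x : E, fb (x : E ⧸ A) = ϑE x := by
    intro x
    obtain ⟨h, hh⟩ := QuotientGroup.mk_out_eq_mul A x
    simp only [hfb, hϑE]
    rw [hh]
    have := congrArg (fun e : E => (e : G)) (key x h h.2)
    simp only [coe_pow] at this
    rw [this]
  have hfbcl : IsClassFunction (E ⧸ A) fb := by
    intro y z
    obtain ⟨y, rfl⟩ := QuotientGroup.mk_surjective y
    obtain ⟨z, rfl⟩ := QuotientGroup.mk_surjective z
    rw [← QuotientGroup.mk_inv, ← QuotientGroup.mk_mul, ← QuotientGroup.mk_mul, hfbx, hfbx]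
    exact hϑEcl y z
  haveI : Fintype (E ⧸ A) := Fintype.ofFinite _
  have hfbd : ∀ y, fb y = (Nat.card (E ⧸ A) : ℂ) * (d y : ℂ) := by
    intro y
    simp only [hfb, hϑE, hd]
    have : Nat.card (E ⧸ A) = A.index := rfl
    split_ifs
    · rw [this, hc]; push_cast; ring
    · simp
  have hmem : fb ∈ RC (E ⧸ A) := by
    apply RC_of_classInner hfbcl
    intro β
    unfold classInner
    rw [Finset.mul_sum]
    apply Subalgebra.sum_mem
    intro y _
    rw [hfbd y]
    have hne : (Nat.card (E ⧸ A) : ℂ) ≠ 0 := by exact_mod_cast Nat.card_pos.ne'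
    have e2 : (Nat.card (E ⧸ A) : ℂ)⁻¹ * ((Nat.card (E ⧸ A) : ℂ) * (d y : ℂ) * conj ((β : E ⧸ A → ℂ) y))
        = (d y : ℂ) * conj ((β : E ⧸ A → ℂ) y) := by
      field_simp
    rw [e2]
    exact mul_mem (natCast_mem _ _)
      (isIntegral_conj (IsCharacter.isIntegral (IsIrrCharacter.isCharacter β.2) y))
  have := RC_comp (QuotientGroup.mk' A) hmem
  convert this using 1
  funext x
  exact (hfbx x).symm

end Cfsg.Agent.LeadBr
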