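import Mathlib
import Cfsg.Prelude.Def_Characters
import Cfsg.Agent.Lib_lead_Br17

set_option autoImplicit false
set_option linter.style.haveILetI false

/-! More on generalized characters. -/

namespace Cfsg.Agent.LeadBr

open Cfsg Cfsg.Agent.H4 MulAction Subgroup
open scoped commutatorElement ComplexConjugate

universe u

variable {G : Type u} [Group G]

theorem IsGeneralizedCharacter.zsmul' {K : Type*} [Group K] {a : K → ℂ}
    (ha : IsGeneralizedCharacter K a) (z : ℤ) : IsGeneralizedCharacter K ((z : ℂ) • a) := by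
  obtain ⟨a1, a2, h1, h2, rfl⟩ := ha
  rcases Int.eq_nat_or_neg z with ⟨n, rfl | rfl⟩
  · exact ⟨(n : ℂ) • a1, (n : ℂ) • a2, IsCharacter.nsmul n h1, IsCharacter.nsmul n h2, by
      push_cast; rw [smul_sub]⟩
  · exact ⟨(n : ℂ) • a2, (n : ℂ) • a1, IsCharacter.nsmul n h2, IsCharacter.nsmul n h1, by
      push_cast; rw [smul_sub, neg_smul, neg_smul]; abel⟩

theorem IsGeneralizedCharacter.sum' {K : Type*} [Group K] {ι : Type*} (s : Finset ι)
    (f : ι → K → ℂ) (h : ∀ i ∈ s, IsGeneralizedCharacter K (f i)) :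
    IsGeneralizedCharacter K (∑ i ∈ s, f i) := by
  classical
  induction s using Finset.induction_on with
  | empty => simpa using IsCharacter.isGeneralized (IsCharacter.zero (G := K))
  | insert a s ha ih =>
    rw [Finset.sum_insert ha]
    exact IsGeneralizedCharacter.add' (h a (Finset.mem_insert_self a s))
      (ih (fun i hi => h i (Finset.mem_insert_of_mem hi)))

theorem isGeneralized_of_int_sum [Fintype (IrrCharacter G)] (c : IrrCharacter G → ℤ) :
    IsGeneralizedCharacter G (∑ ψ : IrrCharacter G, (c ψ : ℂ) • (ψ : G → ℂ)) :=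
  IsGeneralizedCharacter.sum' _ _ (fun ψ _ => IsGeneralizedCharacter.zsmul'
    (IsCharacter.isGeneralized (IsIrrCharacter.isCharacter ψ.2)) (c ψ))

theorem IsGeneralizedCharacter.restrict' (H : Subgroup G) {a : G → ℂ}
    (ha : IsGeneralizedCharacter G a) : IsGeneralizedCharacter H (fun h : H => a h) := by
  obtain ⟨a1, a2, h1, h2, rfl⟩ := ha
  exact ⟨_, _, IsCharacter.restrict H h1, IsCharacter.restrict H h2, rfl⟩

theorem IsGeneralizedCharacter.classInner_int [Fintype G] {a ψ : G → ℂ}
    (ha : IsGeneralizedCharacter G a) (hψ : IsCharacter G ψ) : ∃ z : ℤ, classInner a ψ = z := by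
  haveI := Fintype.ofFinite (IrrCharacter G)
  obtain ⟨a1, a2, h1, h2, rfl⟩ := ha
  obtain ⟨n1, e1⟩ := IsCharacter.classInner_nat h1 hψ
  obtain ⟨n2, e2⟩ := IsCharacter.classInner_nat h2 hψ
  exact ⟨(n1 : ℤ) - n2, by rw [classInner_sub_left, e1, e2]; push_cast; rfl⟩

/-- a generalized character vanishing on the nonidentity elements of a subgroup has degree
divisible by the order of the subgroup -/
theorem card_dvd_of_vanish [Finite G] (P : Subgroup G) {a : G → ℂ}
    (ha : IsGeneralizedCharacter G a) (hv : ∀ x ∈ P, x ≠ 1 → a x = 0) :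
    ∃ z : ℤ, a 1 = (Nat.card P : ℂ) * z := by
  classical
  haveI := Fintype.ofFinite P
  obtain ⟨z, hz⟩ := IsGeneralizedCharacter.classInner_int
    (IsGeneralizedCharacter.restrict' P ha) (IsCharacter.one (G := P))
  refine ⟨z, ?_⟩
  rw [← hz]
  unfold classInner
  have h1 : ∑ g : P, a g * conj (1 : ℂ) = a 1 := by
    rw [Finset.sum_eq_single (1 : P)]
    · simp
    · intro b _ hb
      rw [hv b b.2 (fun h => hb (Subtype.ext h)), zero_mul]
    · intro h; exact absurd (Finset.mem_univ _) h
  rw [h1]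
  have : (Nat.card P : ℂ) ≠ 0 := by exact_mod_cast Nat.card_pos.ne'
  field_simp

end Cfsg.Agent.LeadBr
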