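import Mathlib
import Cfsg.Prelude.Def_Characters
import Cfsg.Agent.Lib_lead_Br18

set_option autoImplicit false
set_option linter.style.haveILetI false

/-! Characters of a group with a Frobenius-type normal subgroup. -/

namespace Cfsg.Agent.LeadBr

open Cfsg Cfsg.Agent.H4 Subgroup
open scoped ComplexConjugate

universe u

variable {N : Type u} [Group N]

theorem frob_ind_irr [Fintype N] (K : Subgroup N) [hK : K.Normal]
    (hC : ∀ k ∈ K, k ≠ 1 → ∀ n : N, n * k = k * n → n ∈ K) (τ : K → ℂ)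
    (hτ : IsIrrCharacter K τ) (hτ1 : τ ≠ fun _ => 1) : IsIrrCharacter N (indFun K τ) := by
  classical
  haveI := Fintype.ofFinite (IrrCharacter N)
  rw [isIrrCharacter_iff]
  refine ⟨IsCharacter.ind K (IsIrrCharacter.isCharacter hτ), ?_⟩
  have h1 := card_mul_classInner_ind_ind hK τ τ hτ hτ
  have h2 : Nat.card {g : N // conjFun hK τ g = τ} = Nat.card K := by
    apply Nat.card_congr
    apply Equiv.subtypeEquivRight
    intro g
    constructor
    · intro hg
      by_contra hgK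
      apply hτ1
      apply eq_one_of_conjFun_eq hK g _ hτ hg
      intro k hk x hx hkx
      by_contra hx1
      apply hgK
      have := K.mul_mem (K.inv_mem hk) (hC x hx hx1 (k * g) hkx)
      simpa using this
    · intro hg
      ext n
      exact IsCharacter.isClassFunction (IsIrrCharacter.isCharacter hτ) n ⟨g, hg⟩
  rw [h2] at h1
  have hne : (Nat.card K : ℂ) ≠ 0 := by exact_mod_cast Nat.card_pos.ne'
  exact mul_left_cancel₀ hne (by rw [h1, mul_one])

theorem frob_exists_ind [Fintype N] (K : Subgroup N) [hK : K.Normal]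
    (hC : ∀ k ∈ K, k ≠ 1 → ∀ n : N, n * k = k * n → n ∈ K) (χ : N → ℂ)
    (hχ : IsIrrCharacter N χ) (hne : ∃ k ∈ K, χ k ≠ χ 1) :
    ∃ τ : K → ℂ, IsIrrCharacter K τ ∧ τ ≠ (fun _ => 1) ∧ χ = indFun K τ := by
  classical
  haveI := Fintype.ofFinite K
  have hres : IsCharacter K (fun k : K => χ k) := IsCharacter.restrict K (IsIrrCharacter.isCharacter hχ)
  obtain ⟨τ, hτ⟩ := IsCharacter.exists_constituent hres
    (IsCharacter.ne_zero_of_apply_one (IsIrrCharacter.apply_one_ne_zero hχ))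
  have hτ1 : (τ : K → ℂ) ≠ fun _ => 1 := by
    intro h
    rw [h] at hτ
    obtain ⟨k, hk, hk1⟩ := hne
    exact hk1 ((ker_iff_classInner_one K hχ).mpr hτ k hk)
  refine ⟨τ, τ.2, hτ1, ?_⟩
  have hirr := frob_ind_irr K hC τ τ.2 hτ1
  apply irr_eq_of_classInner_ne_zero hχ hirr
  rw [← classInner_conj_symm, frobenius_reciprocity _ _ _ (IsCharacter.isClassFunction
    (IsIrrCharacter.isCharacter hχ)), classInner_conj_symm]
  exact hτ

theorem frob_ind_nontrivial [Fintype N] (K : Subgroup N) [hK : K.Normal]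
    (hC : ∀ k ∈ K, k ≠ 1 → ∀ n : N, n * k = k * n → n ∈ K) (τ : K → ℂ)
    (hτ : IsIrrCharacter K τ) (hτ1 : τ ≠ fun _ => 1) :
    ∃ k ∈ K, indFun K τ k ≠ indFun K τ 1 := by
  classical
  haveI := Fintype.ofFinite K
  by_contra hcon
  push Not at hcon
  have hirr := frob_ind_irr K hC τ hτ hτ1
  have h1 := (ker_iff_classInner_one K hirr).mp hcon
  apply h1
  rw [← classInner_conj_symm, ← frobenius_reciprocity _ _ _ (IsCharacter.isClassFunction
    (IsIrrCharacter.isCharacter hirr))]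
  have h2 := card_mul_classInner_ind_ind hK (fun _ => 1) τ (trivIrr K).2 hτ
  have h3 : IsEmpty {g : N // conjFun hK τ g = fun _ => 1} := by
    constructor
    rintro ⟨g, hg⟩
    apply hτ1
    funext n
    have := congrFun hg ⟨g⁻¹ * n * g, by simpa using hK.conj_mem n n.2 g⁻¹⟩
    rw [conjFun_apply] at this
    rw [← this]
    congr 1
    apply Subtype.ext
    simp [mul_assoc]
  rw [@Nat.card_of_isEmpty _ h3] at h2
  have hne : (Nat.card K : ℂ) ≠ 0 := by exact_mod_cast Nat.card_pos.ne'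
  have h4 : classInner (indFun K (fun _ => (1:ℂ))) (indFun K τ) = 0 := by
    rcases mul_eq_zero.mp (h2.trans (by simp)) with h | h
    · exact absurd h hne
    · exact h
  rw [h4]; simp

/-- A class function whose multiplicities on the characters nontrivial on `K` are proportional to
the degrees is constant on the nonidentity elements of `K`. -/
theorem const_of_prop [Fintype N] [Fintype (IrrCharacter N)] (K : Subgroup N) (Φ : N → ℂ)
    (hΦ : IsClassFunction N Φ) (c : ℂ)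
    (hc : ∀ θ : IrrCharacter N, (∃ k ∈ K, (θ : N → ℂ) k ≠ (θ : N → ℂ) 1) →
      classInner Φ (θ : N → ℂ) = c * (θ : N → ℂ) 1) (k : N) (hk : k ∈ K) (hk1 : k ≠ 1) :
    Φ k = ∑ θ : IrrCharacter N, (classInner Φ (θ : N → ℂ) - c * (θ : N → ℂ) 1) * (θ : N → ℂ) 1 := by
  classical
  have h1 := congrFun (classFunction_expansion' Φ hΦ) k
  simp only [Finset.sum_apply, Pi.smul_apply, smul_eq_mul] at h1
  have h2 := column_orthogonality' k (1 : N)
  have h3 : IsEmpty {x : N // x * 1 * x⁻¹ = k} := by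
    constructor
    rintro ⟨x, hx⟩
    apply hk1
    rw [← hx]; simp
  rw [@Nat.card_of_isEmpty _ h3] at h2
  have h4 : ∑ θ : IrrCharacter N, c * (θ : N → ℂ) 1 * (θ : N → ℂ) k = 0 := by
    have : ∑ θ : IrrCharacter N, c * (θ : N → ℂ) 1 * (θ : N → ℂ) k
        = c * ∑ θ : IrrCharacter N, (θ : N → ℂ) k * conj ((θ : N → ℂ) 1) := by
      rw [Finset.mul_sum]
      apply Finset.sum_congr rfl
      intro θ _
      obtain ⟨n, _, hn⟩ := IsIrrCharacter.apply_one θ.2
      rw [hn, Complex.conj_natCast]; ring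
    rw [this, h2]; simp
  rw [h1, ← sub_zero (∑ θ : IrrCharacter N, classInner Φ (θ : N → ℂ) * (θ : N → ℂ) k), ← h4,
    ← Finset.sum_sub_distrib]
  apply Finset.sum_congr rfl
  intro θ _
  by_cases hθ : ∃ k ∈ K, (θ : N → ℂ) k ≠ (θ : N → ℂ) 1
  · rw [hc θ hθ]; ring
  · push Not at hθ
    rw [hθ k hk]; ring

theorem exists_prop_of_orth [Fintype N] (K : Subgroup N) (Φ : N → ℂ)
    (horth : ∀ θ ξ : IrrCharacter N, (∃ k ∈ K, (θ : N → ℂ) k ≠ (θ : N → ℂ) 1) →
      (∃ k ∈ K, (ξ : N → ℂ) k ≠ (ξ : N → ℂ) 1) →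
      classInner Φ ((ξ : N → ℂ) 1 • (θ : N → ℂ) - (θ : N → ℂ) 1 • (ξ : N → ℂ)) = 0)
    (hint : ∀ θ : IrrCharacter N, ∃ q : ℚ, classInner Φ (θ : N → ℂ) = q) :
    ∃ c : ℚ, ∀ θ : IrrCharacter N, (∃ k ∈ K, (θ : N → ℂ) k ≠ (θ : N → ℂ) 1) →
      classInner Φ (θ : N → ℂ) = c * (θ : N → ℂ) 1 := by
  classical
  by_cases hS : ∃ ξ : IrrCharacter N, ∃ k ∈ K, (ξ : N → ℂ) k ≠ (ξ : N → ℂ) 1
  · obtain ⟨ξ, hξ⟩ := hS
    obtain ⟨q, hq⟩ := hint ξ
    obtain ⟨n, hn0, hn⟩ := IsIrrCharacter.apply_one ξ.2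
    refine ⟨q / n, ?_⟩
    intro θ hθ
    have h := horth θ ξ hθ hξ
    obtain ⟨m, _, hm⟩ := IsIrrCharacter.apply_one θ.2
    rw [classInner_sub_right, classInner_smul_right, classInner_smul_right, hn, hm, hq,
      Complex.conj_natCast, Complex.conj_natCast] at h
    have hn' : (n : ℂ) ≠ 0 := by exact_mod_cast hn0.ne'
    rw [hm]
    push_cast
    field_simp
    linear_combination h
  · push Not at hS
    exact ⟨0, fun θ ⟨k, hk, hk1⟩ => absurd (hS θ k hk) hk1⟩

/-- integral version -/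
theorem const_int_of_orth [Fintype N] (K : Subgroup N) (Φ : N → ℂ)
    (hΦ : IsGeneralizedCharacter N Φ)
    (horth : ∀ θ ξ : IrrCharacter N, (∃ k ∈ K, (θ : N → ℂ) k ≠ (θ : N → ℂ) 1) →
      (∃ k ∈ K, (ξ : N → ℂ) k ≠ (ξ : N → ℂ) 1) →
      classInner Φ ((ξ : N → ℂ) 1 • (θ : N → ℂ) - (θ : N → ℂ) 1 • (ξ : N → ℂ)) = 0) :
    ∃ d : ℤ, ∀ k ∈ K, k ≠ 1 → Φ k = d := by
  classical
  haveI := Fintype.ofFinite (IrrCharacter N)
  have hint : ∀ θ : IrrCharacter N, ∃ z : ℤ, classInner Φ (θ : N → ℂ) = z := fun θ =>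
    IsGeneralizedCharacter.classInner_int hΦ (IsIrrCharacter.isCharacter θ.2)
  obtain ⟨c, hc⟩ := exists_prop_of_orth K Φ horth (fun θ => by
    obtain ⟨z, hz⟩ := hint θ
    exact ⟨z, by rw [hz]; simp⟩)
  have hcl : IsClassFunction N Φ := by
    obtain ⟨a, b, ha, hb, rfl⟩ := hΦ
    intro g h
    simp only [Pi.sub_apply]
    rw [IsCharacter.isClassFunction ha, IsCharacter.isClassFunction hb]
  have hconst := const_of_prop K Φ hcl c hc
  by_cases hk : ∃ k ∈ K, k ≠ 1
  · obtain ⟨k, hk, hk1⟩ := hk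
    choose z hz using hint
    have hdeg : ∀ θ : IrrCharacter N, ∃ n : ℕ, (θ : N → ℂ) 1 = n := fun θ => by
      obtain ⟨n, _, hn⟩ := IsIrrCharacter.apply_one θ.2
      exact ⟨n, hn⟩
    choose n hn using hdeg
    have hq : ∑ θ : IrrCharacter N, (classInner Φ (θ : N → ℂ) - c * (θ : N → ℂ) 1) * (θ : N → ℂ) 1
        = ((∑ θ : IrrCharacter N, ((z θ : ℚ) - c * n θ) * n θ : ℚ) : ℂ) := by
      push_cast
      apply Finset.sum_congr rfl
      intro θ _
      rw [hz, hn]
    have hI : IsIntegral ℤ (Φ k) := by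
      obtain ⟨a, b, ha, hb, rfl⟩ := hΦ
      exact (IsCharacter.isIntegral ha k).sub (IsCharacter.isIntegral hb k)
    rw [hconst k hk hk1, hq] at hI
    obtain ⟨d, hd⟩ := exists_int_of_isIntegral_rat _ hI
    refine ⟨d, ?_⟩
    intro k' hk' hk1'
    rw [hconst k' hk' hk1', hq, ← hd]
    simp
  · push Not at hk
    exact ⟨0, fun k hk' hk1 => absurd (hk k hk') hk1⟩

/-- inner product of a function constant off the identity with a nontrivial irreducible character -/
theorem classInner_const_off_one {K : Type u} [Group K] [Fintype K] (f : K → ℂ) (c : ℂ)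
    (hf : ∀ k : K, k ≠ 1 → f k = c) (σ : K → ℂ) (hσ : IsIrrCharacter K σ) (hσ1 : σ ≠ fun _ => 1) :
    classInner f σ = (f 1 - c) * σ 1 / (Nat.card K : ℂ) := by
  classical
  have h0 : classInner (fun _ : K => (1 : ℂ)) σ = 0 := by
    by_contra h
    exact hσ1 (irr_eq_of_classInner_ne_zero (trivIrr K).2 hσ h).symm
  have h1 : f = c • (fun _ : K => (1 : ℂ)) + (f 1 - c) • (fun k : K => if k = 1 then (1 : ℂ) else 0) := by
    funext k
    by_cases hk : k = 1
    · simp [hk]
    · simp [hk, hf k hk]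
  rw [h1, classInner_add_left, classInner_smul_left, classInner_smul_left, h0, mul_zero, zero_add]
  have h2 : classInner (fun k : K => if k = 1 then (1 : ℂ) else 0) σ = σ 1 / (Nat.card K : ℂ) := by
    unfold classInner
    obtain ⟨n, _, hn⟩ := IsIrrCharacter.apply_one hσ
    simp only [ite_mul, one_mul, zero_mul, Finset.sum_ite_eq', Finset.mem_univ, if_true]
    rw [hn, Complex.conj_natCast]
    ring
  rw [h2]
  simp only [Pi.add_apply, Pi.smul_apply, smul_eq_mul, if_true, mul_one]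
  ring

end Cfsg.Agent.LeadBr
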