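import Mathlib
import Cfsg.Prelude.Def_Characters
import Cfsg.Agent.Lib_lead_Fk1

set_option autoImplicit false
set_option linter.style.haveILetI false

/-! T.I. subgroups with Frobenius normalizer: the concrete setting. -/

namespace Cfsg.Agent.LeadBr

open Cfsg Cfsg.Agent.H4 Subgroup
open scoped ComplexConjugate

universe u

variable {G : Type u} [Group G]

theorem tifn_hC (K : Subgroup G) (hC : ∀ k ∈ K, k ≠ 1 → centralizer ({k} : Set G) ≤ K) :
    ∀ k ∈ K.subgroupOf (normalizer (K : Set G)), k ≠ 1 → ∀ n : normalizer (K : Set G),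
      n * k = k * n → n ∈ K.subgroupOf (normalizer (K : Set G)) := by
  intro k hk hk1 n hn
  rw [mem_subgroupOf] at hk ⊢
  apply hC k hk (fun h => hk1 (Subtype.ext h))
  rw [mem_centralizer_singleton_iff]
  exact congrArg Subtype.val hn

theorem tifn_struct [Finite G] (K : Subgroup G) [Fintype (normalizer (K : Set G))]
    (hC : ∀ k ∈ K, k ≠ 1 → centralizer ({k} : Set G) ≤ K)
    (χ : normalizer (K : Set G) → ℂ) (hχ : IsIrrCharacter (normalizer (K : Set G)) χ)
    (hne : ∃ k : normalizer (K : Set G), (k : G) ∈ K ∧ χ k ≠ χ 1) :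
    ∃ τ : K.subgroupOf (normalizer (K : Set G)) → ℂ,
      IsIrrCharacter (K.subgroupOf (normalizer (K : Set G))) τ ∧ τ ≠ (fun _ => 1) ∧
      χ = indFun (K.subgroupOf (normalizer (K : Set G))) τ := by
  classical
  obtain ⟨k, hk, hk1⟩ := hne
  exact frob_exists_ind _ (tifn_hC K hC) χ hχ ⟨k, mem_subgroupOf.mpr hk, hk1⟩

theorem tifn_vanish [Finite G] (K : Subgroup G)
    (hC : ∀ k ∈ K, k ≠ 1 → centralizer ({k} : Set G) ≤ K)
    (χ : normalizer (K : Set G) → ℂ) (hχ : IsIrrCharacter (normalizer (K : Set G)) χ)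
    (hne : ∃ k : normalizer (K : Set G), (k : G) ∈ K ∧ χ k ≠ χ 1)
    (x : normalizer (K : Set G)) (hx : (x : G) ∉ K) : χ x = 0 := by
  classical
  haveI := Fintype.ofFinite (normalizer (K : Set G))
  obtain ⟨τ, _, _, rfl⟩ := tifn_struct K hC χ hχ hne
  exact indFun_normal_not_mem inferInstance τ (fun h => hx (mem_subgroupOf.mp h))

end Cfsg.Agent.LeadBr
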