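import Mathlib
import Cfsg.Prelude.Def_Characters
import Cfsg.Prelude.Def_OddOrderChar
import Cfsg.Agent.Lib_lead_Fk2

set_option autoImplicit false
set_option linter.style.haveILetI false

/-! Coherent sets of characters of a Frobenius normalizer of a T.I. subgroup. -/

namespace Cfsg.Agent.LeadBr

open Cfsg Cfsg.Agent.H4 Subgroup
open scoped ComplexConjugate

universe u v

theorem star_comb {L : Type u} [Group L] [Fintype L] {G : Type v} [Group G] [Fintype G]
    {S : Set (L → ℂ)} {star : (L → ℂ) → (G → ℂ)} (hstar : IsLinearIsometryOn (zspan S) star)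
    {θ ξ : L → ℂ} (hθ : θ ∈ S) (hξ : ξ ∈ S) (a b : ℤ) :
    star ((a : ℂ) • θ - (b : ℂ) • ξ) = (a : ℂ) • star θ - (b : ℂ) • star ξ := by
  have e1 : (a : ℂ) • θ - (b : ℂ) • ξ = a • θ + (-b) • ξ := by
    funext x; simp; ring
  have hθ' : θ ∈ zspan S := Submodule.subset_span hθ
  have hξ' : ξ ∈ zspan S := Submodule.subset_span hξ
  rw [e1, hstar.1 _ (Submodule.smul_mem _ a hθ') _ (Submodule.smul_mem _ (-b) hξ'),
    hstar.2.1 _ hθ', hstar.2.1 _ hξ']
  funext x; simp; ring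

theorem comb_mem {L : Type u} [Group L] {S : Set (L → ℂ)} {θ ξ : L → ℂ} (hθ : θ ∈ S) (hξ : ξ ∈ S)
    (a b : ℤ) (ha : θ 1 = a) (hb : ξ 1 = b) :
    (b : ℂ) • θ - (a : ℂ) • ξ ∈ zspanOn S ({1}ᶜ : Set L) := by
  have e1 : (b : ℂ) • θ - (a : ℂ) • ξ = b • θ + (-a) • ξ := by
    funext x; simp; ring
  constructor
  · rw [e1]
    exact Submodule.add_mem _ (Submodule.smul_mem _ b (Submodule.subset_span hθ))
      (Submodule.smul_mem _ (-a) (Submodule.subset_span hξ))
  · intro x hx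
    have hx1 : x = 1 := by simpa using hx
    rw [hx1]
    simp only [Pi.sub_apply, Pi.smul_apply, smul_eq_mul, ha, hb]
    ring

theorem classInner_restrict_eq {G : Type u} [Group G] [Fintype G] (H : Subgroup G) [Fintype H]
    (Ψ : G → ℂ) (hΨ : IsClassFunction G Ψ) (α : H → ℂ) :
    classInner (fun n : H => Ψ n) α = classInner Ψ (indFun H α) := by
  rw [← classInner_conj_symm, ← frobenius_reciprocity _ _ _ hΨ, classInner_conj_symm]

theorem IsGeneralizedCharacter.isClassFunction' {K : Type*} [Group K] {Φ : K → ℂ}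
    (hΦ : IsGeneralizedCharacter K Φ) : IsClassFunction K Φ := by
  obtain ⟨a, b, ha, hb, rfl⟩ := hΦ
  intro g h
  simp only [Pi.sub_apply]
  rw [IsCharacter.isClassFunction ha, IsCharacter.isClassFunction hb]

variable {G : Type u} [Group G]

/-- the irreducible characters of the normalizer of `K` that are nontrivial on `K` -/
def tifnS (K : Subgroup G) : Set (normalizer (K : Set G) → ℂ) :=
  {χ | IsIrrCharacter (normalizer (K : Set G)) χ ∧
    ∃ k : normalizer (K : Set G), (k : G) ∈ K ∧ χ k ≠ χ 1}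

theorem tifn_const [Fintype G] (K : Subgroup G) [Fintype (normalizer (K : Set G))]
    (star : (normalizer (K : Set G) → ℂ) → (G → ℂ))
    (hstar : IsLinearIsometryOn (zspan (tifnS K)) star)
    (hext : ∀ α ∈ zspanOn (tifnS K) ({1}ᶜ : Set (normalizer (K : Set G))),
      star α = indFun (normalizer (K : Set G)) α)
    (χ : normalizer (K : Set G) → ℂ) (hχ : χ ∈ tifnS K) :
    ∃ d : ℤ, ∀ k : normalizer (K : Set G), (k : G) ∈ K → k ≠ 1 → star χ k - χ k = d := by
  classical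
  have hχ' : χ ∈ zspan (tifnS K) := Submodule.subset_span hχ
  have hg1 := hstar.2.2.2 χ hχ'
  have hgen : IsGeneralizedCharacter (normalizer (K : Set G))
      ((fun n : normalizer (K : Set G) => star χ n) + -χ) :=
    IsGeneralizedCharacter.add' (IsGeneralizedCharacter.restrict' _ hg1)
      (IsGeneralizedCharacter.neg' (IsCharacter.isGeneralized (IsIrrCharacter.isCharacter hχ.1)))
  obtain ⟨d, hd⟩ := const_int_of_orth (K.subgroupOf (normalizer (K : Set G))) _ hgen (by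
    intro θ ξ hθ hξ
    have hθS : (θ : normalizer (K : Set G) → ℂ) ∈ tifnS K := by
      obtain ⟨k, hk, hk1⟩ := hθ
      exact ⟨θ.2, k, mem_subgroupOf.mp hk, hk1⟩
    have hξS : (ξ : normalizer (K : Set G) → ℂ) ∈ tifnS K := by
      obtain ⟨k, hk, hk1⟩ := hξ
      exact ⟨ξ.2, k, mem_subgroupOf.mp hk, hk1⟩
    obtain ⟨a, _, ha⟩ := IsIrrCharacter.apply_one θ.2
    obtain ⟨b, _, hb⟩ := IsIrrCharacter.apply_one ξ.2
    have hmem := comb_mem hθS hξS a b (by rw [ha]; simp) (by rw [hb]; simp)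
    rw [ha, hb]
    have e : ((b : ℕ) : ℂ) • (θ : normalizer (K : Set G) → ℂ) - ((a : ℕ) : ℂ) • (ξ : normalizer (K : Set G) → ℂ)
        = (((b : ℕ) : ℤ) : ℂ) • (θ : normalizer (K : Set G) → ℂ) - (((a : ℕ) : ℤ) : ℂ) • (ξ : normalizer (K : Set G) → ℂ) := by
      simp
    rw [e, classInner_add_left, classInner_restrict_eq _ _ (IsGeneralizedCharacter.isClassFunction' hg1), ← hext _ hmem,
      hstar.2.2.1 _ hχ' _ hmem.1, ← classInner_add_left, add_neg_cancel]
    simp [classInner])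
  refine ⟨d, fun k hk hk1 => ?_⟩
  rw [← hd k (mem_subgroupOf.mpr hk) hk1]
  simp [sub_eq_add_neg]

theorem tifn_rel [Fintype G] (K : Subgroup G) [Fintype (normalizer (K : Set G))]
    (hTI : ∀ g : G, g ∉ normalizer (K : Set G) → ∀ k ∈ K, g * k * g⁻¹ ∈ K → k = 1)
    (hC : ∀ k ∈ K, k ≠ 1 → centralizer ({k} : Set G) ≤ K)
    (star : (normalizer (K : Set G) → ℂ) → (G → ℂ))
    (hstar : IsLinearIsometryOn (zspan (tifnS K)) star)
    (hext : ∀ α ∈ zspanOn (tifnS K) ({1}ᶜ : Set (normalizer (K : Set G))),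
      star α = indFun (normalizer (K : Set G)) α)
    (χ ξ : normalizer (K : Set G) → ℂ) (hχ : χ ∈ tifnS K) (hξ : ξ ∈ tifnS K)
    (k : normalizer (K : Set G)) (hk : (k : G) ∈ K) (hk1 : k ≠ 1) :
    ξ 1 * (star χ k - χ k) = χ 1 * (star ξ k - ξ k) := by
  classical
  obtain ⟨a, _, ha⟩ := IsIrrCharacter.apply_one hχ.1
  obtain ⟨b, _, hb⟩ := IsIrrCharacter.apply_one hξ.1
  have hmem := comb_mem hχ hξ a b (by rw [ha]; simp) (by rw [hb]; simp)
  have h1 := hext _ hmem
  rw [star_comb hstar hχ hξ] at h1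
  have h2 := congrFun h1 k
  have hcl : IsClassFunction (normalizer (K : Set G))
      ((((b : ℕ) : ℤ) : ℂ) • χ - (((a : ℕ) : ℤ) : ℂ) • ξ) := by
    intro g h
    simp only [Pi.sub_apply, Pi.smul_apply]
    rw [IsCharacter.isClassFunction (IsIrrCharacter.isCharacter hχ.1),
      IsCharacter.isClassFunction (IsIrrCharacter.isCharacter hξ.1)]
  rw [indFun_TI (K : Set G) hTI _ hcl ?_ k hk hk1] at h2
  · simp only [Pi.sub_apply, Pi.smul_apply, smul_eq_mul, Int.cast_natCast] at h2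
    rw [ha, hb]
    linear_combination h2
  · intro x hx
    simp only [Pi.sub_apply, Pi.smul_apply]
    rw [tifn_vanish K hC χ hχ.1 hχ.2 x hx, tifn_vanish K hC ξ hξ.1 hξ.2 x hx]
    simp

theorem exists_common_mult {K : Type u} [Group K] [Finite K] (dd : IrrCharacter K → ℤ)
    (hrel : ∀ σ σ' : IrrCharacter K, σ ≠ trivIrr K → σ' ≠ trivIrr K →
      (σ' : K → ℂ) 1 * dd σ = (σ : K → ℂ) 1 * dd σ') :
    ∃ m : ℤ, ∀ σ : IrrCharacter K, σ ≠ trivIrr K → (dd σ : ℂ) = m * (σ : K → ℂ) 1 := by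
  classical
  haveI := Fintype.ofFinite K
  haveI := Fintype.ofFinite (IrrCharacter K)
  by_cases h : ∃ σ₀ : IrrCharacter K, σ₀ ≠ trivIrr K
  · obtain ⟨σ₀, hσ₀⟩ := h
    have hdeg : ∀ σ : IrrCharacter K, ∃ n : ℕ, n ∣ Nat.card K ∧ (σ : K → ℂ) 1 = n := fun σ => by
      obtain ⟨n, _, h1, h2⟩ := IsIrrCharacter.exists_degree σ.2
      exact ⟨n, h1, h2⟩
    choose n hn1 hn using hdeg
    obtain ⟨w, hw⟩ := hn1 σ₀
    have hrel' : ∀ σ σ' : IrrCharacter K, σ ≠ trivIrr K → σ' ≠ trivIrr K →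
        (n σ' : ℤ) * dd σ = n σ * dd σ' := by
      intro σ σ' h1 h2
      have := hrel σ σ' h1 h2
      rw [hn, hn] at this
      exact_mod_cast this
    have hsum : ∑ σ : IrrCharacter K, (n σ : ℤ) ^ 2 = Nat.card K := by
      have := sum_sq_degrees' (G := K)
      simp only [hn] at this
      exact_mod_cast this
    have htriv : n (trivIrr K) = 1 := by
      have := hn (trivIrr K)
      have h1 : ((trivIrr K : IrrCharacter K) : K → ℂ) 1 = 1 := rfl
      rw [h1] at this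
      exact_mod_cast this.symm
    rw [← Finset.add_sum_erase _ _ (Finset.mem_univ (trivIrr K)), htriv] at hsum
    refine ⟨w * dd σ₀ - ∑ σ ∈ Finset.univ.erase (trivIrr K), (n σ : ℤ) * dd σ, ?_⟩
    intro τ hτ
    rw [hn]
    have key : dd τ = (w * dd σ₀ - ∑ σ ∈ Finset.univ.erase (trivIrr K), (n σ : ℤ) * dd σ) * n τ := by
      rw [sub_mul, Finset.sum_mul]
      have h1 : ∑ σ ∈ Finset.univ.erase (trivIrr K), (n σ : ℤ) * dd σ * n τ
          = (∑ σ ∈ Finset.univ.erase (trivIrr K), (n σ : ℤ) ^ 2) * dd τ := by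
        rw [Finset.sum_mul]
        apply Finset.sum_congr rfl
        intro σ hσ
        have := hrel' σ τ (Finset.mem_erase.mp hσ).1 hτ
        linear_combination (n σ : ℤ) * this
      rw [h1]
      have h2 := hrel' σ₀ τ hσ₀ hτ
      have h3 : (Nat.card K : ℤ) = n σ₀ * w := by exact_mod_cast hw
      have h4 : ∑ σ ∈ Finset.univ.erase (trivIrr K), (n σ : ℤ) ^ 2 = n σ₀ * w - 1 := by
        rw [← h3, ← hsum]; simp
      rw [h4]
      linear_combination (-(w : ℤ)) * h2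
    exact_mod_cast key
  · push Not at h
    exact ⟨0, fun σ hσ => absurd (h σ) hσ⟩

theorem tifn_main [Fintype G] (K : Subgroup G) [Fintype (normalizer (K : Set G))]
    (hTI : ∀ g : G, g ∉ normalizer (K : Set G) → ∀ k ∈ K, g * k * g⁻¹ ∈ K → k = 1)
    (hC : ∀ k ∈ K, k ≠ 1 → centralizer ({k} : Set G) ≤ K)
    (star : (normalizer (K : Set G) → ℂ) → (G → ℂ))
    (hstar : IsLinearIsometryOn (zspan (tifnS K)) star)
    (hext : ∀ α ∈ zspanOn (tifnS K) ({1}ᶜ : Set (normalizer (K : Set G))),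
      star α = indFun (normalizer (K : Set G)) α) :
    ∃ m : ℤ, ∀ χ ∈ tifnS K, ∀ k : normalizer (K : Set G), (k : G) ∈ K → k ≠ 1 →
      star χ k - χ k = (m : ℂ) * χ 1 / ((K.subgroupOf (normalizer (K : Set G))).index : ℂ) := by
  classical
  by_cases hk0 : ∃ k₀ : normalizer (K : Set G), (k₀ : G) ∈ K ∧ k₀ ≠ 1
  swap
  · push Not at hk0
    exact ⟨0, fun χ _ k hk hk1 => absurd (hk0 k hk) hk1⟩
  obtain ⟨k₀, hk₀, hk₀1⟩ := hk0
  have hC' := tifn_hC K hC
  have hindS : ∀ σ : IrrCharacter (K.subgroupOf (normalizer (K : Set G))), σ ≠ trivIrr _ →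
      indFun (K.subgroupOf (normalizer (K : Set G))) σ ∈ tifnS K := by
    intro σ hσ
    have hσ1 : (σ : K.subgroupOf (normalizer (K : Set G)) → ℂ) ≠ fun _ => 1 :=
      fun h => hσ (Subtype.ext h)
    obtain ⟨k, hk, hk1⟩ := frob_ind_nontrivial _ hC' σ σ.2 hσ1
    exact ⟨frob_ind_irr _ hC' σ σ.2 hσ1, k, mem_subgroupOf.mp hk, hk1⟩
  have hex : ∀ σ : IrrCharacter (K.subgroupOf (normalizer (K : Set G))), ∃ d : ℤ,
      σ ≠ trivIrr _ → ∀ k : normalizer (K : Set G), (k : G) ∈ K → k ≠ 1 →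
        star (indFun (K.subgroupOf (normalizer (K : Set G))) σ) k
          - indFun (K.subgroupOf (normalizer (K : Set G))) σ k = d := by
    intro σ
    by_cases hσ : σ = trivIrr _
    · exact ⟨0, fun h => absurd hσ h⟩
    · obtain ⟨d, hd⟩ := tifn_const K star hstar hext _ (hindS σ hσ)
      exact ⟨d, fun _ => hd⟩
  choose dd hdd using hex
  have hidx : ((K.subgroupOf (normalizer (K : Set G))).index : ℂ) ≠ 0 := by
    exact_mod_cast (K.subgroupOf (normalizer (K : Set G))).index_ne_zero_of_finite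
  obtain ⟨m, hm⟩ := exists_common_mult dd (by
    intro σ σ' hσ hσ'
    have := tifn_rel K hTI hC star hstar hext _ _ (hindS σ hσ) (hindS σ' hσ') k₀ hk₀ hk₀1
    rw [hdd σ hσ k₀ hk₀ hk₀1, hdd σ' hσ' k₀ hk₀ hk₀1, indFun_apply_one, indFun_apply_one] at this
    apply mul_left_cancel₀ hidx
    linear_combination this)
  refine ⟨m, ?_⟩
  intro χ hχ k hk hk1
  obtain ⟨τ, hτ, hτ1, rfl⟩ := tifn_struct K hC χ hχ.1 hχ.2
  have hτ' : (⟨τ, hτ⟩ : IrrCharacter (K.subgroupOf (normalizer (K : Set G)))) ≠ trivIrr _ :=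
    fun h => hτ1 (congrArg Subtype.val h)
  have h1 := hdd ⟨τ, hτ⟩ hτ' k hk hk1
  rw [h1, hm _ hτ', indFun_apply_one]
  field_simp

end Cfsg.Agent.LeadBr
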