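import Mathlib
import Cfsg.Prelude.Def_Characters
import Cfsg.Prelude.Def_OddOrderChar
import Cfsg.Agent.Lib_lead_Fk3

set_option autoImplicit false
set_option linter.style.haveILetI false

/-! Coherence: building linear isometries from orthonormal families. -/

namespace Cfsg.Agent.LeadBr

open Cfsg Cfsg.Agent.H4
open scoped ComplexConjugate

universe u v

variable {L : Type u} [Group L] {G : Type v} [Group G]

theorem zsmul_eq_csmul {X : Type*} (n : ℤ) (f : X → ℂ) : n • f = (n : ℂ) • f := by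
  funext g; simp

theorem zspanOn_zero (S : Set (L → ℂ)) (A : Set L) : (0 : L → ℂ) ∈ zspanOn S A :=
  ⟨Submodule.zero_mem _, fun _ _ => rfl⟩

theorem zspanOn_add {S : Set (L → ℂ)} {A : Set L} {a b : L → ℂ} (ha : a ∈ zspanOn S A)
    (hb : b ∈ zspanOn S A) : a + b ∈ zspanOn S A :=
  ⟨Submodule.add_mem _ ha.1 hb.1, fun x hx => by simp [ha.2 x hx, hb.2 x hx]⟩

theorem zspanOn_smul {S : Set (L → ℂ)} {A : Set L} {a : L → ℂ} (ha : a ∈ zspanOn S A) (n : ℤ) :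
    n • a ∈ zspanOn S A :=
  ⟨Submodule.smul_mem _ n ha.1, fun x hx => by simp [ha.2 x hx]⟩

theorem zspanOn_mono {S S' : Set (L → ℂ)} {A : Set L} (h : S ⊆ S') {a : L → ℂ}
    (ha : a ∈ zspanOn S A) : a ∈ zspanOn S' A :=
  ⟨Submodule.span_mono h ha.1, ha.2⟩

theorem lin_sum [Fintype L] [Fintype G] {E : Set (L → ℂ)} {τ : (L → ℂ) → (G → ℂ)}
    (hτ : IsLinearIsometryOn E τ)
    (h0 : (0 : L → ℂ) ∈ E) (hadd : ∀ a ∈ E, ∀ b ∈ E, a + b ∈ E) (hsm : ∀ a ∈ E, ∀ n : ℤ, n • a ∈ E)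
    {ι : Type*} (s : Finset ι) (z : ι → ℤ) (β : ι → L → ℂ) (hβ : ∀ i ∈ s, β i ∈ E) :
    (∑ i ∈ s, z i • β i) ∈ E ∧ τ (∑ i ∈ s, z i • β i) = ∑ i ∈ s, z i • τ (β i) := by
  classical
  induction s using Finset.induction_on with
  | empty =>
    refine ⟨by simpa using h0, ?_⟩
    have := hτ.2.1 0 h0 0
    simpa using this
  | insert a s ha ih =>
    obtain ⟨h1, h2⟩ := ih (fun i hi => hβ i (Finset.mem_insert_of_mem hi))
    have h3 := hβ a (Finset.mem_insert_self a s)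
    rw [Finset.sum_insert ha, Finset.sum_insert ha]
    refine ⟨hadd _ (hsm _ h3 _) _ h1, ?_⟩
    rw [hτ.1 _ (hsm _ h3 _) _ h1, hτ.2.1 _ h3, h2]

theorem zspan_coeff [Fintype L] {S : Set (L → ℂ)} (hirr : ∀ ξ ∈ S, IsIrrCharacter L ξ) {α : L → ℂ}
    (hα : α ∈ zspan S) :
    IsClassFunction L α ∧ ∀ ξ : IrrCharacter L, ∃ z : ℤ, classInner α (ξ : L → ℂ) = z ∧
      ((ξ : L → ℂ) ∉ S → z = 0) := by
  classical
  change α ∈ Submodule.span ℤ S at hα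
  induction hα using Submodule.span_induction with
  | mem x hx =>
    refine ⟨IsCharacter.isClassFunction (IsIrrCharacter.isCharacter (hirr x hx)), fun ξ => ?_⟩
    have := irr_orthonormal (⟨x, hirr x hx⟩ : IrrCharacter L) ξ
    simp only at this
    by_cases h : (⟨x, hirr x hx⟩ : IrrCharacter L) = ξ
    · refine ⟨1, by rw [this, if_pos h]; simp, fun hn => ?_⟩
      rw [← h] at hn
      exact absurd hx hn
    · exact ⟨0, by rw [this, if_neg h]; simp, fun _ => rfl⟩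
  | zero => exact ⟨fun _ _ => rfl, fun ξ => ⟨0, by simp [classInner_zero_left], fun _ => rfl⟩⟩
  | add x y _ _ hx hy =>
    refine ⟨fun g h => by simp only [Pi.add_apply]; rw [hx.1, hy.1], fun ξ => ?_⟩
    obtain ⟨a, ha, ha'⟩ := hx.2 ξ
    obtain ⟨b, hb, hb'⟩ := hy.2 ξ
    exact ⟨a + b, by rw [classInner_add_left, ha, hb]; simp, fun h => by rw [ha' h, hb' h]; rfl⟩
  | smul n x _ hx =>
    refine ⟨fun g h => by simp only [Pi.smul_apply]; rw [hx.1], fun ξ => ?_⟩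
    obtain ⟨a, ha, ha'⟩ := hx.2 ξ
    have e : n • x = (n : ℂ) • x := by funext g; simp
    exact ⟨n * a, by rw [e, classInner_smul_left, ha]; simp, fun h => by rw [ha' h]; simp⟩

open Classical in
/-- the linear map determined by a choice of images of the members of `S` -/
noncomputable def cohMap [Fintype L] [Fintype (IrrCharacter L)] (S : Set (L → ℂ))
    (μ : (L → ℂ) → (G → ℂ)) (α : L → ℂ) : G → ℂ :=
  ∑ ξ ∈ Finset.univ.filter (fun ξ : IrrCharacter L => (ξ : L → ℂ) ∈ S),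
    classInner α (ξ : L → ℂ) • μ ξ

theorem cohMap_apply_mem [Fintype L] [Fintype (IrrCharacter L)] {S : Set (L → ℂ)}
    (μ : (L → ℂ) → (G → ℂ)) {ξ : L → ℂ} (hξ : ξ ∈ S) (hirr : IsIrrCharacter L ξ) :
    cohMap S μ ξ = μ ξ := by
  classical
  unfold cohMap
  rw [Finset.sum_eq_single (⟨ξ, hirr⟩ : IrrCharacter L)]
  · rw [IsIrrCharacter.norm_one hirr, one_smul]
  · intro b _ hb
    have := irr_orthonormal (⟨ξ, hirr⟩ : IrrCharacter L) b
    simp only at this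
    rw [this, if_neg hb.symm, zero_smul]
  · intro h
    exact absurd (Finset.mem_filter.mpr ⟨Finset.mem_univ (⟨ξ, hirr⟩ : IrrCharacter L), hξ⟩) h

theorem cohMap_isometry [Fintype L] [Fintype G] [Fintype (IrrCharacter L)] {S : Set (L → ℂ)}
    (hirr : ∀ ξ ∈ S, IsIrrCharacter L ξ) {μ : (L → ℂ) → (G → ℂ)}
    (hμo : ∀ ξ ∈ S, ∀ ξ' ∈ S, classInner (μ ξ) (μ ξ') = if ξ = ξ' then 1 else 0)
    (hμv : ∀ ξ ∈ S, IsGeneralizedCharacter G (μ ξ)) :
    IsLinearIsometryOn (zspan S) (cohMap S μ) := by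
  classical
  refine ⟨?_, ?_, ?_, ?_⟩
  · intro α _ β _
    unfold cohMap
    rw [← Finset.sum_add_distrib]
    apply Finset.sum_congr rfl
    intro ξ _
    rw [classInner_add_left, add_smul]
  · intro α _ n
    unfold cohMap
    rw [Finset.smul_sum]
    apply Finset.sum_congr rfl
    intro ξ _
    have e : n • α = (n : ℂ) • α := by funext g; simp
    rw [e, classInner_smul_left]
    funext g
    simp [mul_assoc]
  · intro α hα β hβ
    obtain ⟨hαc, hαz⟩ := zspan_coeff hirr hα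
    obtain ⟨hβc, hβz⟩ := zspan_coeff hirr hβ
    unfold cohMap
    rw [classInner_sum_left]
    have h1 : ∀ ξ ∈ Finset.univ.filter (fun ξ : IrrCharacter L => (ξ : L → ℂ) ∈ S),
        classInner (classInner α (ξ : L → ℂ) • μ ξ)
          (∑ ξ' ∈ Finset.univ.filter (fun ξ : IrrCharacter L => (ξ : L → ℂ) ∈ S),
            classInner β (ξ' : L → ℂ) • μ ξ')
        = classInner α (ξ : L → ℂ) * conj (classInner β (ξ : L → ℂ)) := by
      intro ξ hξ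
      have hξS := (Finset.mem_filter.mp hξ).2
      rw [classInner_sum_right, Finset.sum_eq_single ξ]
      · rw [classInner_smul_left, classInner_smul_right, hμo _ hξS _ hξS, if_pos rfl, mul_one]
      · intro b hb hbξ
        rw [classInner_smul_left, classInner_smul_right, hμo _ hξS _ (Finset.mem_filter.mp hb).2,
          if_neg (fun h => hbξ (Subtype.ext h).symm)]
        simp
      · intro h; exact absurd hξ h
    rw [Finset.sum_congr rfl h1]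
    conv_rhs => rw [classFunction_expansion' α hαc, classFunction_expansion' β hβc]
    rw [classInner_sum_sum, Finset.sum_filter]
    apply Finset.sum_congr rfl
    intro ξ _
    by_cases hξ : (ξ : L → ℂ) ∈ S
    · rw [if_pos hξ]
    · rw [if_neg hξ]
      obtain ⟨z, hz, hz0⟩ := hαz ξ
      rw [hz, hz0 hξ]; simp
  · intro α hα
    obtain ⟨_, hαz⟩ := zspan_coeff hirr hα
    unfold cohMap
    apply IsGeneralizedCharacter.sum'
    intro ξ hξ
    obtain ⟨z, hz, _⟩ := hαz ξ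
    rw [hz]
    exact IsGeneralizedCharacter.zsmul' (hμv _ (Finset.mem_filter.mp hξ).2) z

theorem cohMap_agree [Fintype L] [Fintype G] [Fintype (IrrCharacter L)] {S S₁ : Set (L → ℂ)}
    (hSS : S ⊆ S₁) (hirr : ∀ ξ ∈ S, IsIrrCharacter L ξ) {τ : (L → ℂ) → (G → ℂ)}
    (hτ : IsLinearIsometryOn (zspanOn S₁ ({1}ᶜ : Set L)) τ) {μ : (L → ℂ) → (G → ℂ)} {ψ : L → ℂ}
    (hψ : ψ ∈ S) (hag : ∀ ξ ∈ S, τ (ψ 1 • ξ - ξ 1 • ψ) = ψ 1 • μ ξ - ξ 1 • μ ψ) :
    ∀ α ∈ zspanOn S ({1}ᶜ : Set L), cohMap S μ α = τ α := by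
  classical
  intro α hα
  obtain ⟨hαc, hαz⟩ := zspan_coeff hirr hα.1
  choose z hz hz0 using hαz
  obtain ⟨d, hd0, hd⟩ := IsIrrCharacter.apply_one (hirr ψ hψ)
  set s := Finset.univ.filter (fun ξ : IrrCharacter L => (ξ : L → ℂ) ∈ S) with hs
  have hexp : α = ∑ ξ ∈ s, (z ξ : ℂ) • (ξ : L → ℂ) := by
    conv_lhs => rw [classFunction_expansion' α hαc]
    rw [hs, Finset.sum_filter]
    apply Finset.sum_congr rfl
    intro ξ _
    by_cases hξ : (ξ : L → ℂ) ∈ S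
    · rw [if_pos hξ, hz]
    · rw [if_neg hξ, hz, hz0 ξ hξ]; simp
  have hα1 : ∑ ξ ∈ s, (z ξ : ℂ) * (ξ : L → ℂ) 1 = 0 := by
    have h1 : α 1 = 0 := hα.2 1 (by simp)
    rw [hexp] at h1
    simpa using h1
  have hβ : ∀ ξ ∈ s, ψ 1 • (ξ : L → ℂ) - (ξ : L → ℂ) 1 • ψ ∈ zspanOn S₁ ({1}ᶜ : Set L) := by
    intro ξ hξ
    obtain ⟨n, _, hn⟩ := IsIrrCharacter.apply_one ξ.2
    have := comb_mem (hSS (Finset.mem_filter.mp hξ).2) (hSS hψ) (n : ℤ) (d : ℤ)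
      (by rw [hn]; simp) (by rw [hd]; simp)
    rw [hd, hn]
    simpa using this
  obtain ⟨_, h2⟩ := lin_sum hτ (zspanOn_zero _ _) (fun a ha b hb => zspanOn_add ha hb)
    (fun a ha n => zspanOn_smul ha n) s z
    (fun ξ => ψ 1 • (ξ : L → ℂ) - (ξ : L → ℂ) 1 • ψ) hβ
  have h3 : ∑ ξ ∈ s, z ξ • (ψ 1 • (ξ : L → ℂ) - (ξ : L → ℂ) 1 • ψ) = (d : ℤ) • α := by
    funext g
    have h4 := congrFun hexp g
    simp only [zsmul_eq_csmul, Finset.sum_apply, Pi.smul_apply, Pi.sub_apply, smul_eq_mul] at h4 ⊢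
    rw [h4, hd]
    have : ∑ ξ ∈ s, (z ξ : ℂ) * ((d : ℂ) * (ξ : L → ℂ) g - (ξ : L → ℂ) 1 * ψ g)
        = (d : ℂ) * ∑ ξ ∈ s, (z ξ : ℂ) * (ξ : L → ℂ) g
          - (∑ ξ ∈ s, (z ξ : ℂ) * (ξ : L → ℂ) 1) * ψ g := by
      rw [Finset.mul_sum, Finset.sum_mul, ← Finset.sum_sub_distrib]
      apply Finset.sum_congr rfl
      intro ξ _
      ring
    rw [this, hα1]
    simp
  rw [h3, hτ.2.1 α (zspanOn_mono hSS hα)] at h2
  have h5 : ∑ ξ ∈ s, z ξ • τ (ψ 1 • (ξ : L → ℂ) - (ξ : L → ℂ) 1 • ψ) = (d : ℤ) • cohMap S μ α := by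
    unfold cohMap
    funext g
    simp only [zsmul_eq_csmul, Finset.sum_apply, Pi.smul_apply, smul_eq_mul]
    have : ∀ ξ ∈ s, (z ξ : ℂ) * τ (ψ 1 • (ξ : L → ℂ) - (ξ : L → ℂ) 1 • ψ) g
        = (d : ℂ) * ((z ξ : ℂ) * μ ξ g) - ((z ξ : ℂ) * (ξ : L → ℂ) 1) * μ ψ g := by
      intro ξ hξ
      rw [hag ξ (Finset.mem_filter.mp hξ).2, hd]
      simp only [Pi.sub_apply, Pi.smul_apply, smul_eq_mul]
      ring
    rw [Finset.sum_congr rfl this, Finset.sum_sub_distrib, ← Finset.sum_mul, hα1, ← Finset.mul_sum]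
    simp only [hz]
    simp [hs]
  rw [h5] at h2
  have hdne : (d : ℂ) ≠ 0 := by exact_mod_cast hd0.ne'
  funext g
  rw [zsmul_eq_csmul, zsmul_eq_csmul] at h2
  have h6 := congrFun h2 g
  simp only [Pi.smul_apply, smul_eq_mul, Int.cast_natCast] at h6
  exact (mul_left_cancel₀ hdne h6).symm

theorem coh_sign [Fintype L] [Fintype G] {S : Set (L → ℂ)} (hirr : ∀ ξ ∈ S, IsIrrCharacter L ξ)
    (τ₁ : (L → ℂ) → (G → ℂ)) (hτ₁ : IsLinearIsometryOn (zspan S) τ₁)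
    (h0 : ∀ α ∈ zspan S, α 1 = 0 → τ₁ α 1 = 0) :
    ∃ ε : ℂ, (ε = 1 ∨ ε = -1) ∧ (∀ χ ∈ S, IsIrrCharacter G (ε • τ₁ χ)) ∧
      (∀ χ ∈ S, ∀ ψ ∈ S, τ₁ χ = τ₁ ψ → χ = ψ) := by
  classical
  have hinj : ∀ χ ∈ S, ∀ ψ ∈ S, τ₁ χ = τ₁ ψ → χ = ψ := by
    intro χ hχ ψ hψ h
    apply irr_eq_of_classInner_ne_zero (hirr χ hχ) (hirr ψ hψ)
    rw [← hτ₁.2.2.1 χ (Submodule.subset_span hχ) ψ (Submodule.subset_span hψ), ← h,
      hτ₁.2.2.1 χ (Submodule.subset_span hχ) χ (Submodule.subset_span hχ),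
      IsIrrCharacter.norm_one (hirr χ hχ)]
    exact one_ne_zero
  have hpm : ∀ χ ∈ S, ∃ φ : IrrCharacter G, τ₁ χ = φ ∨ τ₁ χ = -(φ : G → ℂ) := by
    intro χ hχ
    have hχ' : χ ∈ zspan S := Submodule.subset_span hχ
    exact irr_or_neg_of_norm_one (hτ₁.2.2.2 χ hχ')
      (by rw [hτ₁.2.2.1 χ hχ' χ hχ']; exact IsIrrCharacter.norm_one (hirr χ hχ))
  have hrel : ∀ χ ∈ S, ∀ ψ ∈ S, ψ 1 * τ₁ χ 1 = χ 1 * τ₁ ψ 1 := by
    intro χ hχ ψ hψ
    obtain ⟨a, _, ha⟩ := IsIrrCharacter.apply_one (hirr χ hχ)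
    obtain ⟨b, _, hb⟩ := IsIrrCharacter.apply_one (hirr ψ hψ)
    have hmem := comb_mem hχ hψ a b (by rw [ha]; simp) (by rw [hb]; simp)
    have h1 := h0 _ hmem.1 (hmem.2 1 (by simp))
    rw [star_comb hτ₁ hχ hψ] at h1
    simp only [Pi.sub_apply, Pi.smul_apply, smul_eq_mul, Int.cast_natCast] at h1
    rw [ha, hb]
    linear_combination h1
  by_cases hS : S.Nonempty
  swap
  · rw [Set.not_nonempty_iff_eq_empty] at hS
    exact ⟨1, Or.inl rfl, fun χ hχ => by rw [hS] at hχ; exact absurd hχ (Set.notMem_empty _), hinj⟩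
  obtain ⟨χ₀, hχ₀⟩ := hS
  obtain ⟨φ₀, hφ₀⟩ := hpm χ₀ hχ₀
  obtain ⟨a₀, ha₀, ha₀'⟩ := IsIrrCharacter.apply_one (hirr χ₀ hχ₀)
  obtain ⟨b₀, hb₀, hb₀'⟩ := IsIrrCharacter.apply_one φ₀.2
  rcases hφ₀ with hφ₀ | hφ₀
  · refine ⟨1, Or.inl rfl, ?_, hinj⟩
    intro χ hχ
    obtain ⟨φ, hφ⟩ := hpm χ hχ
    rcases hφ with hφ | hφ
    · rw [one_smul, hφ]; exact φ.2
    · exfalso
      obtain ⟨a, ha, ha'⟩ := IsIrrCharacter.apply_one (hirr χ hχ)
      obtain ⟨b, hb, hb'⟩ := IsIrrCharacter.apply_one φ.2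
      have := hrel χ hχ χ₀ hχ₀
      rw [hφ, hφ₀, Pi.neg_apply, ha₀', hb₀', ha', hb'] at this
      have h2 : ((a₀ * b + a * b₀ : ℕ) : ℂ) = 0 := by
        push_cast
        linear_combination -this
      have h3 : a₀ * b + a * b₀ = 0 := by exact_mod_cast h2
      have : 0 < a₀ * b := Nat.mul_pos ha₀ hb
      omega
  · refine ⟨-1, Or.inr rfl, ?_, hinj⟩
    intro χ hχ
    obtain ⟨φ, hφ⟩ := hpm χ hχ
    rcases hφ with hφ | hφ
    · exfalso
      obtain ⟨a, ha, ha'⟩ := IsIrrCharacter.apply_one (hirr χ hχ)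
      obtain ⟨b, hb, hb'⟩ := IsIrrCharacter.apply_one φ.2
      have := hrel χ hχ χ₀ hχ₀
      rw [hφ, hφ₀, Pi.neg_apply, ha₀', hb₀', ha', hb'] at this
      have h2 : ((a₀ * b + a * b₀ : ℕ) : ℂ) = 0 := by
        push_cast
        linear_combination this
      have h3 : a₀ * b + a * b₀ = 0 := by exact_mod_cast h2
      have : 0 < a₀ * b := Nat.mul_pos ha₀ hb
      omega
    · rw [hφ]
      have : (-1 : ℂ) • (-(φ : G → ℂ)) = φ := by simp
      rw [this]; exact φ.2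

end Cfsg.Agent.LeadBr
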