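import Mathlib
import Cfsg.Prelude.Def_Characters
import Cfsg.Prelude.Def_OddOrderChar
import Cfsg.Agent.Lib_lead_Coh1

set_option autoImplicit false
set_option linter.style.haveILetI false

/-! Coherence of a union of two coherent sets. -/

namespace Cfsg.Agent.LeadBr

open Cfsg Cfsg.Agent.H4
open scoped ComplexConjugate

universe u v

variable {L : Type u} [Group L] {G : Type v} [Group G]

theorem irr_inner_ite [Fintype G] {a b : G → ℂ} (ha : IsIrrCharacter G a) (hb : IsIrrCharacter G b)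
    [Decidable (a = b)] : classInner a b = if a = b then 1 else 0 := by
  classical
  have := irr_orthonormal (⟨a, ha⟩ : IrrCharacter G) ⟨b, hb⟩
  simp only at this
  rw [this]
  by_cases h : a = b
  · rw [if_pos h, if_pos (Subtype.ext h)]
  · rw [if_neg h, if_neg (fun h' => h (congrArg Subtype.val h'))]

theorem comb_ne_zero [Fintype L] {a b : L → ℂ} (ha : IsIrrCharacter L a) (hb : IsIrrCharacter L b)
    (hab : a ≠ b) : b 1 • a - a 1 • b ≠ 0 := by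
  classical
  intro h
  have h1 : classInner (b 1 • a - a 1 • b) a = b 1 := by
    rw [classInner_sub_left, classInner_smul_left, classInner_smul_left, irr_inner_ite ha ha,
      irr_inner_ite hb ha, if_pos rfl, if_neg hab.symm]
    ring
  rw [h, classInner_zero_left] at h1
  exact IsIrrCharacter.apply_one_ne_zero hb h1.symm

theorem coh_union_orth [Fintype L] [Fintype G] (S X Y : Set (L → ℂ))
    (hirr : ∀ ξ ∈ S, IsIrrCharacter L ξ) (hXS : X ⊆ S) (hYS : Y ⊆ S) (hXY : Disjoint X Y)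
    (hX2 : ∃ a ∈ X, ∃ b ∈ X, a ≠ b) (hY2 : ∃ a ∈ Y, ∃ b ∈ Y, a ≠ b)
    (α : (L → ℂ) → (G → ℂ)) (hα : IsLinearIsometryOn (zspanOn S ({1}ᶜ : Set L)) α)
    (hα1 : ∀ θ ∈ zspanOn S ({1}ᶜ : Set L), α θ 1 = 0) (σ τ : (L → ℂ) → (G → ℂ))
    (hσ : IsLinearIsometryOn (zspan X) σ) (hσα : ∀ θ ∈ zspanOn X ({1}ᶜ : Set L), σ θ = α θ)
    (hτ : IsLinearIsometryOn (zspan Y) τ) (hτα : ∀ θ ∈ zspanOn Y ({1}ᶜ : Set L), τ θ = α θ) :
    ∀ χ ∈ X, ∀ η ∈ Y, classInner (σ χ) (τ η) = 0 := by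
  classical
  have hirrX : ∀ ξ ∈ X, IsIrrCharacter L ξ := fun ξ h => hirr ξ (hXS h)
  have hirrY : ∀ ξ ∈ Y, IsIrrCharacter L ξ := fun ξ h => hirr ξ (hYS h)
  obtain ⟨εX, hεX, hXirr, hXinj⟩ := coh_sign hirrX σ hσ (by
    intro θ hθ h1
    have hm : θ ∈ zspanOn X ({1}ᶜ : Set L) := ⟨hθ, fun x hx => by
      have : x = 1 := by simpa using hx
      rw [this, h1]⟩
    rw [hσα θ hm]
    exact hα1 θ (zspanOn_mono hXS hm))
  obtain ⟨εY, hεY, hYirr, hYinj⟩ := coh_sign hirrY τ hτ (by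
    intro θ hθ h1
    have hm : θ ∈ zspanOn Y ({1}ᶜ : Set L) := ⟨hθ, fun x hx => by
      have : x = 1 := by simpa using hx
      rw [this, h1]⟩
    rw [hτα θ hm]
    exact hα1 θ (zspanOn_mono hYS hm))
  have hεX0 : εX ≠ 0 := by rcases hεX with h | h <;> rw [h] <;> norm_num
  have hεY0 : εY ≠ 0 := by rcases hεY with h | h <;> rw [h] <;> norm_num
  have hXYne : ∀ χ ∈ X, ∀ η ∈ Y, classInner χ η = 0 := by
    intro χ hχ η hη
    rw [irr_inner_ite (hirrX χ hχ) (hirrY η hη), if_neg]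
    rintro rfl
    exact Set.disjoint_left.mp hXY hχ hη
  -- the basic relation
  have hrel : ∀ χ ∈ X, ∀ χ' ∈ X, ∀ η ∈ Y, ∀ η' ∈ Y,
      χ' 1 * η' 1 * classInner (εX • σ χ) (εY • τ η) - χ' 1 * η 1 * classInner (εX • σ χ) (εY • τ η')
        - χ 1 * η' 1 * classInner (εX • σ χ') (εY • τ η)
        + χ 1 * η 1 * classInner (εX • σ χ') (εY • τ η') = 0 := by
    intro χ hχ χ' hχ' η hη η' hη'
    obtain ⟨a, _, ha⟩ := IsIrrCharacter.apply_one (hirrX χ hχ)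
    obtain ⟨a', _, ha'⟩ := IsIrrCharacter.apply_one (hirrX χ' hχ')
    obtain ⟨b, _, hb⟩ := IsIrrCharacter.apply_one (hirrY η hη)
    obtain ⟨b', _, hb'⟩ := IsIrrCharacter.apply_one (hirrY η' hη')
    have hm1 := comb_mem hχ hχ' a a' (by rw [ha]; simp) (by rw [ha']; simp)
    have hm2 := comb_mem hη hη' b b' (by rw [hb]; simp) (by rw [hb']; simp)
    have h1 := hα.2.2.1 _ (zspanOn_mono hXS hm1) _ (zspanOn_mono hYS hm2)
    rw [← hσα _ hm1, ← hτα _ hm2, star_comb hσ hχ hχ', star_comb hτ hη hη'] at h1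
    simp only [classInner_sub_left, classInner_sub_right, classInner_smul_left,
      classInner_smul_right, hXYne χ hχ η hη, hXYne χ hχ η' hη', hXYne χ' hχ' η hη,
      hXYne χ' hχ' η' hη', Int.cast_natCast, Complex.conj_natCast, mul_zero, sub_zero] at h1
    simp only [classInner_smul_left, classInner_smul_right]
    rw [ha, ha', hb, hb']
    linear_combination (εX * conj εY) * h1
  have hkey : ∀ χ ∈ X, ∀ η ∈ Y, classInner (εX • σ χ) (εY • τ η) = 0 := by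
    intro χ₁ hχ₁ η₁ hη₁
    by_contra hne
    have hPQ : εX • σ χ₁ = εY • τ η₁ :=
      irr_eq_of_classInner_ne_zero (hXirr χ₁ hχ₁) (hYirr η₁ hη₁) hne
    obtain ⟨χ', hχ', hχne⟩ : ∃ χ' ∈ X, χ' ≠ χ₁ := by
      obtain ⟨a, ha, b, hb, hab⟩ := hX2
      by_cases h : a = χ₁
      · exact ⟨b, hb, fun h' => hab (h.trans h'.symm)⟩
      · exact ⟨a, ha, h⟩
    obtain ⟨η', hη', hηne⟩ : ∃ η' ∈ Y, η' ≠ η₁ := by
      obtain ⟨a, ha, b, hb, hab⟩ := hY2
      by_cases h : a = η₁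
      · exact ⟨b, hb, fun h' => hab (h.trans h'.symm)⟩
      · exact ⟨a, ha, h⟩
    have hsmul_inj : ∀ (ε : ℂ), ε ≠ 0 → ∀ f g : G → ℂ, ε • f = ε • g → f = g := by
      intro ε hε f g h
      funext x
      have := congrFun h x
      simp only [Pi.smul_apply, smul_eq_mul] at this
      exact mul_left_cancel₀ hε this
    have h1 : classInner (εX • σ χ') (εY • τ η₁) = 0 := by
      rw [← hPQ, irr_inner_ite (hXirr χ' hχ') (hXirr χ₁ hχ₁), if_neg]
      intro h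
      exact hχne (hXinj χ' hχ' χ₁ hχ₁ (hsmul_inj εX hεX0 _ _ h))
    have h2 : classInner (εX • σ χ₁) (εY • τ η') = 0 := by
      rw [hPQ, irr_inner_ite (hYirr η₁ hη₁) (hYirr η' hη'), if_neg]
      intro h
      exact hηne (hYinj η' hη' η₁ hη₁ (hsmul_inj εY hεY0 _ _ h).symm)
    have h3 : classInner (εX • σ χ₁) (εY • τ η₁) = 1 := by
      rw [hPQ, irr_inner_ite (hYirr η₁ hη₁) (hYirr η₁ hη₁), if_pos rfl]
    have h4 := hrel χ₁ hχ₁ χ' hχ' η₁ hη₁ η' hη'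
    rw [h1, h2, h3, irr_inner_ite (hXirr χ' hχ') (hYirr η' hη')] at h4
    obtain ⟨a, ha0, ha⟩ := IsIrrCharacter.apply_one (hirrX χ₁ hχ₁)
    obtain ⟨a', ha0', ha'⟩ := IsIrrCharacter.apply_one (hirrX χ' hχ')
    obtain ⟨b, hb0, hb⟩ := IsIrrCharacter.apply_one (hirrY η₁ hη₁)
    obtain ⟨b', hb0', hb'⟩ := IsIrrCharacter.apply_one (hirrY η' hη')
    rw [ha, ha', hb, hb'] at h4
    have hpos : 0 < a' * b' := Nat.mul_pos ha0' hb0'
    split_ifs at h4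
    · have h5 : ((a' * b' + a * b : ℕ) : ℂ) = 0 := by
        push_cast
        linear_combination h4
      have h6 : a' * b' + a * b = 0 := by exact_mod_cast h5
      omega
    · have h5 : ((a' * b' : ℕ) : ℂ) = 0 := by
        push_cast
        linear_combination h4
      have h6 : a' * b' = 0 := by exact_mod_cast h5
      omega
  intro χ hχ η hη
  have := hkey χ hχ η hη
  rw [classInner_smul_left, classInner_smul_right] at this
  have hc : conj εY ≠ 0 := by simpa using hεY0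
  rcases mul_eq_zero.mp this with h | h
  · exact absurd h hεX0
  · rcases mul_eq_zero.mp h with h | h
    · exact absurd h hc
    · exact h

theorem coh_union [Fintype L] [Fintype G] (S X Y : Set (L → ℂ))
    (hirr : ∀ ξ ∈ S, IsIrrCharacter L ξ) (hXS : X ⊆ S) (hYS : Y ⊆ S) (hXY : Disjoint X Y)
    (hX2 : ∃ a ∈ X, ∃ b ∈ X, a ≠ b)
    (α : (L → ℂ) → (G → ℂ)) (hα : IsLinearIsometryOn (zspanOn S ({1}ᶜ : Set L)) α)
    (σ τ : (L → ℂ) → (G → ℂ))
    (hσ : IsLinearIsometryOn (zspan X) σ) (hσα : ∀ θ ∈ zspanOn X ({1}ᶜ : Set L), σ θ = α θ)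
    (hτ : IsLinearIsometryOn (zspan Y) τ) (hτα : ∀ θ ∈ zspanOn Y ({1}ᶜ : Set L), τ θ = α θ)
    (horth : ∀ χ ∈ X, ∀ η ∈ Y, classInner (σ χ) (τ η) = 0)
    (hex : ∃ χ₀ ∈ X, ∃ η₀ ∈ Y, α (χ₀ 1 • η₀ - η₀ 1 • χ₀) = χ₀ 1 • τ η₀ - η₀ 1 • σ χ₀) :
    IsCoherent (X ∪ Y) ({1}ᶜ : Set L) α := by
  classical
  haveI := Fintype.ofFinite (IrrCharacter L)
  have hirrX : ∀ ξ ∈ X, IsIrrCharacter L ξ := fun ξ h => hirr ξ (hXS h)
  have hirrY : ∀ ξ ∈ Y, IsIrrCharacter L ξ := fun ξ h => hirr ξ (hYS h)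
  have hirrU : ∀ ξ ∈ X ∪ Y, IsIrrCharacter L ξ := by
    rintro ξ (h | h)
    · exact hirrX ξ h
    · exact hirrY ξ h
  have hUS : X ∪ Y ⊆ S := Set.union_subset hXS hYS
  have hYX : ∀ η ∈ Y, η ∉ X := fun η hη hX => Set.disjoint_left.mp hXY hX hη
  obtain ⟨χ₀, hχ₀, η₀, hη₀, h0⟩ := hex
  constructor
  · obtain ⟨a, ha, b, hb, hab⟩ := hX2
    obtain ⟨m, _, hm⟩ := IsIrrCharacter.apply_one (hirrX a ha)
    obtain ⟨n, _, hn⟩ := IsIrrCharacter.apply_one (hirrX b hb)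
    have h1 := comb_mem ha hb m n (by rw [hm]; simp) (by rw [hn]; simp)
    refine ⟨_, zspanOn_mono Set.subset_union_left h1, ?_⟩
    have h2 := comb_ne_zero (hirrX a ha) (hirrX b hb) hab
    rw [hm, hn] at h2
    simpa using h2
  set μ : (L → ℂ) → (G → ℂ) := fun f => if f ∈ X then σ f else τ f with hμ
  have hμX : ∀ ξ ∈ X, μ ξ = σ ξ := fun ξ h => by simp only [hμ, if_pos h]
  have hμY : ∀ ξ ∈ Y, μ ξ = τ ξ := fun ξ h => by simp only [hμ, if_neg (hYX ξ h)]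
  refine ⟨cohMap (X ∪ Y) μ, cohMap_isometry hirrU ?_ ?_, cohMap_agree hUS hirrU hα
    (Set.mem_union_left Y hχ₀) ?_⟩
  · rintro ξ (hξ | hξ) ξ' (hξ' | hξ')
    · rw [hμX ξ hξ, hμX ξ' hξ', hσ.2.2.1 ξ (Submodule.subset_span hξ) ξ' (Submodule.subset_span hξ'),
        irr_inner_ite (hirrX ξ hξ) (hirrX ξ' hξ')]
    · rw [hμX ξ hξ, hμY ξ' hξ', horth ξ hξ ξ' hξ', if_neg]
      rintro rfl
      exact hYX ξ hξ' hξ
    · rw [hμY ξ hξ, hμX ξ' hξ', ← classInner_conj_symm, horth ξ' hξ' ξ hξ, if_neg]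
      · simp
      · rintro rfl
        exact hYX ξ hξ hξ'
    · rw [hμY ξ hξ, hμY ξ' hξ', hτ.2.2.1 ξ (Submodule.subset_span hξ) ξ' (Submodule.subset_span hξ'),
        irr_inner_ite (hirrY ξ hξ) (hirrY ξ' hξ')]
  · rintro ξ (hξ | hξ)
    · rw [hμX ξ hξ]; exact hσ.2.2.2 ξ (Submodule.subset_span hξ)
    · rw [hμY ξ hξ]; exact hτ.2.2.2 ξ (Submodule.subset_span hξ)
  · obtain ⟨c₀, _, hc₀⟩ := IsIrrCharacter.apply_one (hirrX χ₀ hχ₀)
    obtain ⟨e₀, he₀pos, he₀⟩ := IsIrrCharacter.apply_one (hirrY η₀ hη₀)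
    rintro ξ (hξ | hξ)
    · obtain ⟨n, _, hn⟩ := IsIrrCharacter.apply_one (hirrX ξ hξ)
      have hm := comb_mem hξ hχ₀ n c₀ (by rw [hn]; simp) (by rw [hc₀]; simp)
      rw [hμX ξ hξ, hμX χ₀ hχ₀, hc₀, hn]
      have h1 := hσα _ hm
      rw [star_comb hσ hξ hχ₀] at h1
      simp only [Int.cast_natCast] at h1
      exact h1.symm
    · obtain ⟨e, _, he⟩ := IsIrrCharacter.apply_one (hirrY ξ hξ)
      rw [hμY ξ hξ, hμX χ₀ hχ₀, hc₀, he]
      rw [hc₀, he₀] at h0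
      have hu := comb_mem (hYS hξ) (hXS hχ₀) e c₀ (by rw [he]; simp) (by rw [hc₀]; simp)
      have hv := comb_mem hξ hη₀ e e₀ (by rw [he]; simp) (by rw [he₀]; simp)
      have hw := comb_mem (hYS hη₀) (hXS hχ₀) e₀ c₀ (by rw [he₀]; simp) (by rw [hc₀]; simp)
      simp only [Int.cast_natCast] at hu hv hw
      have hv' := zspanOn_mono hYS hv
      have hid : (e₀ : ℤ) • ((c₀ : ℂ) • ξ - (e : ℂ) • χ₀)
          = (c₀ : ℤ) • ((e₀ : ℂ) • ξ - (e : ℂ) • η₀) + (e : ℤ) • ((c₀ : ℂ) • η₀ - (e₀ : ℂ) • χ₀) := by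
        rw [zsmul_eq_csmul, zsmul_eq_csmul, zsmul_eq_csmul]
        funext x
        simp only [Pi.add_apply, Pi.sub_apply, Pi.smul_apply, smul_eq_mul, Int.cast_natCast]
        ring
      have h1 := hα.2.1 _ hu (e₀ : ℤ)
      rw [hid, hα.1 _ (zspanOn_smul hv' _) _ (zspanOn_smul hw _), hα.2.1 _ hv', hα.2.1 _ hw, h0,
        ← hτα _ hv] at h1
      have h2 := star_comb hτ hξ hη₀ (e₀ : ℤ) (e : ℤ)
      simp only [Int.cast_natCast] at h2
      rw [h2] at h1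
      have hne : (e₀ : ℂ) ≠ 0 := by exact_mod_cast he₀pos.ne'
      rw [zsmul_eq_csmul, zsmul_eq_csmul, zsmul_eq_csmul] at h1
      funext x
      have h3 := congrFun h1 x
      simp only [Pi.add_apply, Pi.sub_apply, Pi.smul_apply, smul_eq_mul,
        Int.cast_natCast] at h3 ⊢
      apply mul_left_cancel₀ hne
      linear_combination -h3

end Cfsg.Agent.LeadBr
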