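import Cfsg.Statements.S3383
import Mathlib

set_option autoImplicit false
open Cfsg

namespace Cfsg.Agent.S3383

open Pointwise in
theorem mem_conj {G : Type*} [Group G] (H : Subgroup G) (g x : G) :
    x ∈ MulAut.conj g • H ↔ g⁻¹ * x * g ∈ H := by
  rw [Subgroup.mem_pointwise_smul_iff_inv_smul_mem, ← map_inv, MulAut.smul_def, MulAut.conj_apply, inv_inv]

theorem kernel_normal {L : Type*} [Group L] (H K : Subgroup L)
    (hK : (K : Set L) = Cfsg.frobeniusKernel H) : K.Normal := by
  have hmem : ∀ x, x ∈ K ↔ (x = 1 ∨ ∀ g : L, g⁻¹ * x * g ∉ H) := by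
    intro x
    rw [← SetLike.mem_coe, hK]
    simp only [Cfsg.frobeniusKernel, Set.mem_ofPred_eq, mem_conj]
  constructor
  intro x hx y
  rw [hmem] at hx ⊢
  rcases hx with rfl | hx
  · left; simp
  · right
    intro g hg
    apply hx (y⁻¹ * g)
    have : (y⁻¹ * g)⁻¹ * x * (y⁻¹ * g) = g⁻¹ * (y * x * y⁻¹) * g := by group
    rw [this]; exact hg

open Pointwise in
theorem dichotomy {L : Type*} [Group L] [Finite L]
    (H : Subgroup L) (hH : Cfsg.IsFrobeniusComplement H)
    (K : Subgroup L) (hK : (K : Set L) = Cfsg.frobeniusKernel H) (N : Subgroup L) (hN : N.Normal) :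
    K ≤ N ∨ N ≤ K := by
  have hKn := kernel_normal H K hK
  have hmem : ∀ x, x ∈ K ↔ (x = 1 ∨ ∀ g : L, g⁻¹ * x * g ∉ H) := by
    intro x
    rw [← SetLike.mem_coe, hK]
    simp only [Cfsg.frobeniusKernel, Set.mem_ofPred_eq, mem_conj]
  by_cases hNK : N ≤ K
  · right; exact hNK
  left
  rw [SetLike.not_le_iff_exists] at hNK
  obtain ⟨x, hxN, hxK⟩ := hNK
  rw [hmem] at hxK
  push Not at hxK
  obtain ⟨hx1, g, hg⟩ := hxK
  set h := g⁻¹ * x * g with hh
  have hhN : h ∈ N := by
    have := hN.conj_mem x hxN g⁻¹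
    simpa [hh] using this
  have hh1 : h ≠ 1 := by
    intro h1
    apply hx1
    have : x = g * h * g⁻¹ := by rw [hh]; group
    rw [this, h1]; group
  have hcent : ∀ k ∈ K, k * h = h * k → k = 1 := by
    intro k hk hkh
    by_contra hk1
    have hkH : k ∉ H := by
      rcases (hmem k).mp hk with h1 | h1
      · exact absurd h1 hk1
      · have := h1 1; simpa using this
    have h2 := hH.2.2 k hkH
    have h3 : h ∈ H ⊓ (MulAut.conj k • H) := by
      refine ⟨hg, (mem_conj H k h).mpr ?_⟩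
      have : k⁻¹ * h * k = h := by rw [mul_assoc, ← hkh]; group
      rw [this]; exact hg
    rw [h2, Subgroup.mem_bot] at h3
    exact hh1 h3
  have hfm : ∀ k : K, h⁻¹ * (k : L) * h * (k : L)⁻¹ ∈ K := by
    intro k
    have h1 : h⁻¹ * (k : L) * h ∈ K := by
      have := hKn.conj_mem k k.2 h⁻¹
      simpa using this
    exact K.mul_mem h1 (K.inv_mem k.2)
  let f : K → K := fun k => ⟨h⁻¹ * (k : L) * h * (k : L)⁻¹, hfm k⟩
  have hf : Function.Injective f := by
    intro a b hab
    have h1 : h⁻¹ * (a : L) * h * (a : L)⁻¹ = h⁻¹ * (b : L) * h * (b : L)⁻¹ := congrArg Subtype.val hab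
    have h3 : (a : L) * h * (a : L)⁻¹ = (b : L) * h * (b : L)⁻¹ := by
      have : (a : L) * h * (a : L)⁻¹ = h * (h⁻¹ * (a : L) * h * (a : L)⁻¹) := by group
      rw [this, h1]; group
    have h4 : (b : L)⁻¹ * a = 1 := by
      apply hcent _ (K.mul_mem (K.inv_mem b.2) a.2)
      calc (b : L)⁻¹ * a * h = (b : L)⁻¹ * ((a : L) * h * (a : L)⁻¹) * a := by group
        _ = (b : L)⁻¹ * ((b : L) * h * (b : L)⁻¹) * a := by rw [h3]
        _ = h * ((b : L)⁻¹ * a) := by group
    rw [inv_mul_eq_one] at h4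
    exact (Subtype.ext h4).symm
  intro y hy
  obtain ⟨k, hk⟩ := Finite.surjective_of_injective hf ⟨y, hy⟩
  have h1 : h⁻¹ * (k : L) * h * (k : L)⁻¹ = y := congrArg Subtype.val hk
  rw [← h1]
  have h2 : (k : L) * h * (k : L)⁻¹ ∈ N := hN.conj_mem h hhN k
  have h3 : h⁻¹ * (k : L) * h * (k : L)⁻¹ = h⁻¹ * ((k : L) * h * (k : L)⁻¹) := by group
  rw [h3]
  exact N.mul_mem (N.inv_mem hhN) h2


/-- Let H be a Frobenius complement in a finite group L and K the Frobenius kernel (as a subgroup). Then K is characteristic in L, and every normal subgroup of L either contains K or is contained in K. -/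
theorem result {L : Type*} [Group L] [Finite L]
    (H : Subgroup L) (hH : Cfsg.IsFrobeniusComplement H)
    (K : Subgroup L) (hK : (K : Set L) = Cfsg.frobeniusKernel H) :
    K.Characteristic ∧ ∀ N : Subgroup L, N.Normal → K ≤ N ∨ N ≤ K := by
  refine ⟨?_, fun N hN => dichotomy H hH K hK N hN⟩
  have hKn := kernel_normal H K hK
  rw [Subgroup.characteristic_iff_map_le]
  intro φ
  have hn : (K.map φ.toMonoidHom).Normal := hKn.map _ φ.surjective
  rcases dichotomy H hH K hK _ hn with h | h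
  · have hc : Nat.card (K.map φ.toMonoidHom) = Nat.card K := Subgroup.card_map_of_injective φ.injective
    exact (Subgroup.eq_of_le_of_card_ge h hc.le).ge
  · exact h

end Cfsg.Agent.S3383
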