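import Mathlib
import Cfsg.Agent.Lib_lead_Frob2
import Cfsg.Agent.Lib_helper1_Coprime
import Cfsg.Agent.S3383

set_option autoImplicit false

namespace Cfsg.Agent.LeadFrob

open scoped Pointwise IsMulCommutative

theorem frob_conj {G : Type*} [Group G] {H : Subgroup G} (hH : Cfsg.IsFrobeniusComplement H) (a : G) :
    Cfsg.IsFrobeniusComplement (MulAut.conj a • H) := by
  refine ⟨?_, ?_, ?_⟩
  · intro h
    apply hH.1
    have := congrArg (fun K => MulAut.conj a⁻¹ • K) h
    simpa [← mul_smul, ← map_mul] using this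
  · intro h
    apply hH.2.1
    rw [eq_top_iff]
    intro x _
    have h1 : a * x * a⁻¹ ∈ MulAut.conj a • H := by rw [h]; trivial
    rw [H1.mem_conj_smul] at h1
    have e : a⁻¹ * (a * x * a⁻¹) * a = x := by group
    rwa [e] at h1
  · intro g hg
    have hg' : a⁻¹ * g * a ∉ H := fun h => hg (H1.mem_conj_smul.2 h)
    have h1 := hH.2.2 _ hg'
    have h2 : MulAut.conj a • H ⊓ MulAut.conj g • MulAut.conj a • H =
        MulAut.conj a • (H ⊓ MulAut.conj (a⁻¹ * g * a) • H) := by
      rw [Subgroup.smul_inf, ← mul_smul, ← mul_smul, ← map_mul, ← map_mul]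
      congr 3
      group
    rw [h2, h1, Subgroup.smul_bot]

/-- fixed-point-freeness on the kernel -/
theorem frob_fpf {G : Type*} [Group G] {H N : Subgroup G} (hH : Cfsg.IsFrobeniusComplement H)
    (hd : N ⊓ H = ⊥) {h n : G} (hh : h ∈ H) (h1 : h ≠ 1) (hn : n ∈ N) (hc : n * h = h * n) : n = 1 := by
  have h2 : n ∈ H := by
    apply H3.frob_mem_of_conj_mem hH hh h1
    rw [mul_assoc, ← hc, inv_mul_cancel_left]; exact hh
  have h3 : n ∈ N ⊓ H := ⟨hn, h2⟩
  rw [hd, Subgroup.mem_bot] at h3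
  exact h3

theorem exists_invariant_abelian {G : Type*} [Group G] [Finite G] (H N : Subgroup G)
    (hH : Cfsg.IsFrobeniusComplement H) (hN : (N : Set G) = Cfsg.frobeniusKernel H) (hNn : N.Normal)
    (hc : N.IsComplement' H) :
    ∃ V : Subgroup G, V ≤ N ∧ V ≠ ⊥ ∧ IsMulCommutative V ∧ H ≤ Subgroup.normalizer (V : Set G) := by
  classical
  have cN := card_kernel_subgroup hH hN
  have hcop : (Nat.card N).Coprime (Nat.card H) := by rw [cN]; exact frob_coprime hH
  have hN1 : Nat.card N ≠ 1 := by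
    rw [cN]; exact fun h => hH.2.1 (Subgroup.index_eq_one.1 h)
  set p := (Nat.card N).minFac with hp
  have hpp : p.Prime := Nat.minFac_prime hN1
  have : Fact p.Prime := ⟨hpp⟩
  have hpd : p ∣ Nat.card N := Nat.minFac_dvd _
  let P : Sylow p N := default
  set P' : Subgroup G := (P : Subgroup N).map N.subtype with hP'
  set S : Subgroup G := Subgroup.normalizer (P' : Set G) with hS
  have hfr : ∀ a : G, ∃ k ∈ N, k * a ∈ S := by
    intro a
    exact H1.sylow_frattini_internal N P a (by rw [Subgroup.normalizer_eq_top]; trivial)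
  have hidx : N.index = Nat.card H := by
    have e1 := N.card_mul_index
    have e2 := hc.card_mul_card
    have hpos : 0 < Nat.card N := Nat.card_pos
    exact Nat.eq_of_mul_eq_mul_left hpos (e1.trans e2.symm)
  have hcop2 : (Nat.card (N.subgroupOf S)).Coprime (N.subgroupOf S).index := by
    have d1 : Nat.card (N.subgroupOf S) ∣ Nat.card N := by
      rw [← Subgroup.inf_subgroupOf_right, H1.card_subgroupOf_of_le inf_le_right]
      exact Subgroup.card_dvd_of_le inf_le_left
    have d2 : (N.subgroupOf S).index ∣ Nat.card H := by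
      rw [← hidx]; exact Subgroup.relIndex_dvd_index_of_normal N S
    exact Nat.Coprime.coprime_dvd_left d1 (Nat.Coprime.coprime_dvd_right d2 hcop)
  obtain ⟨H', hH'⟩ := Subgroup.exists_right_complement'_of_coprime hcop2
  set H'' : Subgroup G := H'.map S.subtype with hH''
  have hdis : ∀ x ∈ H'', x ∈ N → x = 1 := by
    rintro _ ⟨y, hy, rfl⟩ hyN
    have h1 : y ∈ N.subgroupOf S ⊓ H' := ⟨Subgroup.mem_subgroupOf.2 hyN, hy⟩
    rw [hH'.disjoint.eq_bot, Subgroup.mem_bot] at h1
    rw [h1]; rfl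
  have hsup : N ⊔ H'' = ⊤ := by
    rw [eq_top_iff]
    intro a _
    obtain ⟨k, hk, hka⟩ := hfr a
    have h1 : (⟨k * a, hka⟩ : S) ∈ N.subgroupOf S ⊔ H' := by rw [hH'.sup_eq_top]; trivial
    rw [Subgroup.mem_sup_of_normal_left] at h1
    obtain ⟨d, hd, h', hh', hdh⟩ := h1
    have h2 : (d : G) * (h' : G) = k * a := congrArg Subtype.val hdh
    have h3 : a = (k⁻¹ * d) * h' := by rw [mul_assoc, h2, inv_mul_cancel_left]
    rw [h3]
    exact Subgroup.mul_mem_sup (N.mul_mem (N.inv_mem hk) (Subgroup.mem_subgroupOf.1 hd))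
      (Subgroup.mem_map_of_mem S.subtype hh')
  have hcomp : N.IsComplement' H'' := by
    apply Subgroup.isComplement'_of_disjoint_and_mul_eq_univ
    · rw [disjoint_iff, eq_bot_iff]
      rintro x ⟨hx1, hx2⟩
      exact Subgroup.mem_bot.2 (hdis x hx2 hx1)
    · rw [← Subgroup.normal_mul, hsup]; rfl
  have hcard : Nat.card H'' = Nat.card H := by
    have e1 := hcomp.card_mul_card
    have e2 := hc.card_mul_card
    have hpos : 0 < Nat.card N := Nat.card_pos
    exact Nat.eq_of_mul_eq_mul_left hpos (e1.trans e2.symm)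
  obtain ⟨a, ha⟩ := le_conj_of_frob H H'' hH (by
    intro x hx hx1 hxk
    rw [← hN] at hxk
    exact hx1 (hdis x hx hxk))
  have heq : H'' = MulAut.conj a • H :=
    Subgroup.eq_of_le_of_card_ge ha (by rw [H1.card_conj_smul, hcard])
  have hle : MulAut.conj a • H ≤ Subgroup.normalizer (P' : Set G) := by
    rw [← heq]
    rintro _ ⟨y, _, rfl⟩
    exact y.2
  rw [H1.conj_smul_le_normalizer_iff] at hle
  set P'' : Subgroup G := MulAut.conj a⁻¹ • P' with hP''
  have hP'N : P' ≤ N := by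
    rintro _ ⟨y, _, rfl⟩; exact y.2
  have hP''N : P'' ≤ N := by
    intro x hx
    rw [hP'', H1.mem_conj_smul] at hx
    have h1 := hNn.conj_mem _ (hP'N hx) a⁻¹
    have e : a⁻¹ * (a⁻¹⁻¹ * x * a⁻¹) * a⁻¹⁻¹ = x := by group
    rwa [e] at h1
  have hP'p : IsPGroup p P' := P.2.map _
  have hP''p : IsPGroup p P'' := by
    have : P'' = P'.map (MulAut.conj a⁻¹).toMonoidHom := rfl
    rw [this]; exact hP'p.map _
  have hPne : (P : Subgroup N) ≠ ⊥ := P.ne_bot_of_dvd_card hpd
  have hP''ne : P'' ≠ ⊥ := by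
    intro h
    apply hPne
    have h1 : Nat.card P'' = Nat.card (P : Subgroup N) := by
      rw [hP'', H1.card_conj_smul, hP', Subgroup.card_map_of_injective N.subtype_injective]
    rw [h, Subgroup.card_bot] at h1
    exact (Subgroup.card_eq_one.1 h1.symm)
  have : Nontrivial P'' := (Subgroup.nontrivial_iff_ne_bot P'').2 hP''ne
  have hcn := hP''p.center_nontrivial
  obtain ⟨z, hz⟩ := exists_ne (1 : Subgroup.center P'')
  refine ⟨P'' ⊓ Subgroup.centralizer (P'' : Set G), inf_le_left.trans hP''N, ?_, ?_, ?_⟩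
  · intro h
    apply hz
    have h1 : ((z : P'') : G) ∈ P'' ⊓ Subgroup.centralizer (P'' : Set G) := by
      refine Subgroup.mem_inf.2 ⟨(z : P'').2, ?_⟩
      rw [Subgroup.mem_centralizer_iff]
      intro y hy
      have := Subgroup.mem_center_iff.1 z.2 ⟨y, hy⟩
      exact congrArg Subtype.val this
    rw [h, Subgroup.mem_bot] at h1
    exact Subtype.ext (Subtype.ext h1)
  · refine ⟨⟨fun x y => Subtype.ext ?_⟩⟩
    have h1 := Subgroup.mem_centralizer_iff.1 (Subgroup.mem_inf.1 y.2).2 x (Subgroup.mem_inf.1 x.2).1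
    exact h1
  · refine hle.trans ?_
    apply H1.le_normalizer_of_forall
    intro g hg x hx
    have hx' := Subgroup.mem_inf.1 hx
    refine Subgroup.mem_inf.2 ⟨(Subgroup.mem_normalizer_iff.1 hg x).1 hx'.1, ?_⟩
    rw [Subgroup.mem_centralizer_iff]
    intro y hy
    have hy' : g⁻¹ * y * g ∈ P'' := by
      have := (Subgroup.mem_normalizer_iff.1 (inv_mem hg) y).1 hy
      rwa [inv_inv] at this
    have h2 := Subgroup.mem_centralizer_iff.1 hx'.2 _ hy'
    calc y * (g * x * g⁻¹) = g * ((g⁻¹ * y * g) * x) * g⁻¹ := by group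
      _ = g * (x * (g⁻¹ * y * g)) * g⁻¹ := by rw [h2]
      _ = g * x * g⁻¹ * y := by group

/-- a Frobenius complement contained in another one is equal to it -/
theorem frob_eq_of_le {G : Type*} [Group G] [Finite G] (H H₁ : Subgroup G)
    (hH : Cfsg.IsFrobeniusComplement H) (hH₁ : Cfsg.IsFrobeniusComplement H₁) (hle : H₁ ≤ H) :
    H₁ = H := by
  classical
  obtain ⟨N, hN, hNn, hc⟩ := H3.frobenius_theorem H hH
  obtain ⟨N₁, hN₁, hNn₁, hc₁⟩ := H3.frobenius_theorem H₁ hH₁
  obtain ⟨V, hVN, hV1, hVab, hHV⟩ := exists_invariant_abelian H N hH hN hNn hc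
  by_contra hne
  have hM1 : N₁ ⊓ H ≠ ⊥ := by
    intro hM
    apply hne
    apply le_antisymm hle
    intro x hx
    have hx' : x ∈ N₁ ⊔ H₁ := by rw [hc₁.sup_eq_top]; trivial
    rw [Subgroup.mem_sup_of_normal_left] at hx'
    obtain ⟨n, hn, h, hh, rfl⟩ := hx'
    have h1 : n ∈ H := by
      have := H.mul_mem hx (H.inv_mem (hle hh)); rwa [mul_inv_cancel_right] at this
    have h2 : n ∈ N₁ ⊓ H := ⟨hn, h1⟩
    rw [hM, Subgroup.mem_bot] at h2
    rw [h2, one_mul]; exact hh
  let φ : H →* MulAut V := V.normalizerMonoidHom.comp (Subgroup.inclusion hHV)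
  have hφ : ∀ (f : H) (v : V), ((φ f v : V) : G) = (f : G) * v * (f : G)⁻¹ := fun f v => rfl
  have hfix : ∀ (f : H) (v : V), φ f v = v → (v : G) * f = f * v := by
    intro f v h
    have h1 := congrArg Subtype.val h
    rw [hφ] at h1
    exact (mul_inv_eq_iff_eq_mul.1 h1).symm
  have key := pow_card_eq_one_of_action φ (N₁.subgroupOf H) (H₁.subgroupOf H)
    (by
      intro v hv
      obtain ⟨m, hm1⟩ := (Subgroup.ne_bot_iff_exists_ne_one).1 hM1
      have hm := Subgroup.mem_inf.1 m.2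
      have h1 := hfix ⟨m, hm.2⟩ v (hv _ (Subgroup.mem_subgroupOf.2 hm.1))
      exact Subtype.ext (frob_fpf hH hc.disjoint.eq_bot hm.2 (fun h => hm1 (Subtype.ext h)) (hVN v.2) h1))
    (by
      intro v hv
      obtain ⟨m, hm1⟩ := (Subgroup.ne_bot_iff_exists_ne_one).1 hH₁.1
      have h1 := hfix ⟨m, hle m.2⟩ v (hv _ (Subgroup.mem_subgroupOf.2 m.2))
      exact Subtype.ext (frob_fpf hH hc.disjoint.eq_bot (hle m.2) (fun h => hm1 (Subtype.ext h)) (hVN v.2) h1))
    (by
      intro b hb hb1 m hm hmb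
      exact Subtype.ext (frob_fpf hH₁ hc₁.disjoint.eq_bot (Subgroup.mem_subgroupOf.1 hb)
        (fun h => hb1 (Subtype.ext h)) (Subgroup.mem_subgroupOf.1 hm) (congrArg Subtype.val hmb)))
  apply hV1
  rw [eq_bot_iff]
  intro x hx
  rw [Subgroup.mem_bot]
  have h1 := key ⟨x, hx⟩
  have h2 : orderOf (⟨x, hx⟩ : V) ∣ Nat.card H :=
    (orderOf_dvd_of_pow_eq_one h1).trans (Subgroup.card_subgroup_dvd_card _)
  have h3 : orderOf (⟨x, hx⟩ : V) ∣ Nat.card N :=
    (orderOf_dvd_natCard _).trans (Subgroup.card_dvd_of_le hVN)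
  have hcop : (Nat.card N).Coprime (Nat.card H) := by
    rw [card_kernel_subgroup hH hN]; exact frob_coprime hH
  have h5 := Nat.eq_one_of_dvd_coprimes hcop h3 h2
  exact congrArg Subtype.val (orderOf_eq_one_iff.1 h5)

end Cfsg.Agent.LeadFrob
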