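import Cfsg.Statements.S0039
import Mathlib
import Cfsg.Agent.Lib_helper1_Basic

set_option autoImplicit false
open Cfsg

namespace Cfsg.Agent.S0039

open scoped Pointwise


/-- In a finite group that is a semidirect product of a normal subgroup K by a nontrivial subgroup H, H is a Frobenius complement exactly when each nonidentity element of H acts without nonidentity fixed points on K by conjugation. -/
theorem result {G : Type*} [Group G] [Finite G] (K H : Subgroup G) [K.Normal]
    (hc : Subgroup.IsComplement' K H) (hK : K ≠ ⊥) (hH : H ≠ ⊥) :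
    Cfsg.IsFrobeniusComplement H ↔ ∀ h ∈ H, h ≠ 1 → K ⊓ Subgroup.centralizer {h} = ⊥ := by
  constructor
  · intro hF h hh hh1
    rw [eq_bot_iff]
    rintro k ⟨hkK, hkC⟩
    rw [Subgroup.mem_bot]
    have hkC' : k * h = h * k := Subgroup.mem_centralizer_singleton_iff.1 hkC
    have hkH : k ∈ H := by
      by_contra hk
      have h1 := hF.2.2 k hk
      have h2 : h ∈ H ⊓ MulAut.conj k • H := by
        refine Subgroup.mem_inf.2 ⟨hh, ?_⟩
        rw [Cfsg.Agent.H1.mem_conj_smul]
        have : k⁻¹ * h * k = h := by rw [mul_assoc, ← hkC', inv_mul_cancel_left]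
        rw [this]; exact hh
      rw [h1, Subgroup.mem_bot] at h2
      exact hh1 h2
    have h3 : k ∈ K ⊓ H := ⟨hkK, hkH⟩
    rw [hc.disjoint.eq_bot, Subgroup.mem_bot] at h3
    exact h3
  · intro hcen
    refine ⟨hH, ?_, ?_⟩
    · intro htop
      apply hK
      have := hc.disjoint.eq_bot
      rwa [htop, inf_top_eq] at this
    · intro g hg
      have hgs : g ∈ K ⊔ H := by rw [hc.sup_eq_top]; trivial
      rw [Subgroup.mem_sup_of_normal_left] at hgs
      obtain ⟨k, hk, h', hh', rfl⟩ := hgs
      have hk1 : k ≠ 1 := by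
        rintro rfl
        exact hg (by rw [one_mul]; exact hh')
      rw [eq_bot_iff]
      rintro x ⟨hx1, hx2⟩
      rw [Subgroup.mem_bot]
      by_contra hxne
      have hx2' : x ∈ MulAut.conj (k * h') • H := hx2
      rw [map_mul, mul_smul, Subgroup.conj_smul_eq_self_of_mem hh', Cfsg.Agent.H1.mem_conj_smul] at hx2'
      -- y = k⁻¹ x k ∈ H
      have h1 : x⁻¹ * (k⁻¹ * x * k) ∈ H := H.mul_mem (H.inv_mem hx1) hx2'
      have h2 : x⁻¹ * (k⁻¹ * x * k) ∈ K := by
        have e : x⁻¹ * (k⁻¹ * x * k) = (x⁻¹ * k⁻¹ * x⁻¹⁻¹) * k := by group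
        rw [e]
        exact K.mul_mem (Subgroup.Normal.conj_mem inferInstance _ (K.inv_mem hk) _) hk
      have h3 : x⁻¹ * (k⁻¹ * x * k) ∈ K ⊓ H := ⟨h2, h1⟩
      rw [hc.disjoint.eq_bot, Subgroup.mem_bot] at h3
      have h4 : k * x = x * k := by
        have e : k⁻¹ * x * k = x := by
          have := congrArg (fun t => x * t) h3
          simpa using this
        calc k * x = k * (k⁻¹ * x * k) := by rw [e]
          _ = x * k := by group
      have h5 : k ∈ K ⊓ Subgroup.centralizer {x} :=
        ⟨hk, Subgroup.mem_centralizer_singleton_iff.2 h4⟩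
      rw [hcen x hx1 hxne, Subgroup.mem_bot] at h5
      exact hk1 h5

end Cfsg.Agent.S0039
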