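import Mathlib
import Cfsg.Agent.Lib_lead_Frob
import Cfsg.Agent.S0039

set_option autoImplicit false

namespace Cfsg.Agent.LeadFrob

open scoped Pointwise

/-- recognition of Frobenius groups from a normal complement with fixed-point-free action -/
theorem frob_of_complement {G : Type*} [Group G] [Finite G] (K H : Subgroup G) [K.Normal]
    (hc : Subgroup.IsComplement' K H) (hK : K ≠ ⊥) (hH : H ≠ ⊥)
    (hfpf : ∀ h ∈ H, h ≠ 1 → ∀ k ∈ K, k * h = h * k → k = 1) :
    Cfsg.IsFrobeniusComplement H ∧ Cfsg.frobeniusKernel H = (K : Set G) := by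
  classical
  have hF : Cfsg.IsFrobeniusComplement H := by
    rw [S0039.result K H hc hK hH]
    intro h hh hh1
    rw [eq_bot_iff]
    rintro k ⟨hk1, hk2⟩
    exact Subgroup.mem_bot.2 (hfpf h hh hh1 k hk1 (Subgroup.mem_centralizer_singleton_iff.1 hk2))
  refine ⟨hF, ?_⟩
  have hsub : (K : Set G) ⊆ Cfsg.frobeniusKernel H := by
    intro x hx
    by_cases hx1 : x = 1
    · exact Or.inl hx1
    · right
      intro g hg
      rw [H1.mem_conj_smul] at hg
      have h1 : g⁻¹ * x * g ∈ K := by
        have := Subgroup.Normal.conj_mem (inferInstance : K.Normal) x hx g⁻¹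
        rwa [inv_inv] at this
      have h2 : g⁻¹ * x * g ∈ K ⊓ H := ⟨h1, hg⟩
      rw [hc.disjoint.eq_bot, Subgroup.mem_bot] at h2
      apply hx1
      have : x = g * (g⁻¹ * x * g) * g⁻¹ := by group
      rw [this, h2]; group
  symm
  apply Set.eq_of_subset_of_ncard_le hsub _ (Set.toFinite _)
  have e1 : (Cfsg.frobeniusKernel H).ncard = H.index := H3.frob_card_kernel hF
  have e2 : (K : Set G).ncard = Nat.card K := rfl
  rw [e1, e2]
  have e3 := hc.card_mul_card
  have e4 := H.card_mul_index
  have hpos : 0 < Nat.card H := Nat.card_pos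
  have : Nat.card H * H.index = Nat.card H * Nat.card K := by rw [e4, ← e3, mul_comm]
  exact (Nat.eq_of_mul_eq_mul_left hpos this).le

end Cfsg.Agent.LeadFrob
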