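import Mathlib
import Cfsg.Prelude.Def_Characters
import Cfsg.Agent.Lib_helper4_BlkD
import Cfsg.Agent.Lib_helper3_Extra
import Cfsg.Agent.Lib_lead_Coh2

set_option autoImplicit false
set_option linter.style.haveILetI false
set_option linter.unusedSectionVars false

/-! Counting characters over a faithful central character (special classes). -/

namespace Cfsg.Agent.LeadBr

open Cfsg Cfsg.Agent.H4 Subgroup
open scoped ComplexConjugate

universe u

theorem sum_centralizer_class {Q : Type u} [Group Q] [Fintype Q] (P : ConjClasses Q → Prop)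
    [DecidablePred P] :
    ∑ q : Q, (if P (ConjClasses.mk q) then (Nat.card (centralizer ({q} : Set Q)) : ℂ) else 0)
      = (Nat.card Q : ℂ) * (Nat.card {C : ConjClasses Q // P C} : ℂ) := by
  classical
  haveI := Fintype.ofFinite (ConjClasses Q)
  have h1 : ∀ C : ConjClasses Q, (Nat.card Q : ℂ) =
      ∑ q : Q, if ConjClasses.mk q = C then (Nat.card (centralizer ({q} : Set Q)) : ℂ) else 0 := by
    intro C
    obtain ⟨g0, rfl⟩ := ConjClasses.mk_surjective C
    have h2 : ∀ q : Q, (if ConjClasses.mk q = ConjClasses.mk g0 then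
        (Nat.card (centralizer ({q} : Set Q)) : ℂ) else 0) =
        ∑ x : Q, if x * g0 * x⁻¹ = q then 1 else 0 := by
      intro q
      rw [Finset.sum_boole, ← Fintype.card_subtype, ← Nat.card_eq_fintype_card]
      split_ifs with h
      · rw [card_conj_eq q g0 (ConjClasses.mk_eq_mk_iff_isConj.mp h)]
      · rw [card_conj_eq_zero q g0 (fun h' => h (ConjClasses.mk_eq_mk_iff_isConj.mpr h'))]
        simp
    simp only [h2]
    rw [Finset.sum_comm]
    simp [Nat.card_eq_fintype_card]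
  have h3 : (Nat.card Q : ℂ) * (Nat.card {C : ConjClasses Q // P C} : ℂ) =
      ∑ C : ConjClasses Q, if P C then (Nat.card Q : ℂ) else 0 := by
    rw [Nat.card_eq_fintype_card (α := {C : ConjClasses Q // P C}), Fintype.card_subtype,
      ← Finset.sum_filter, Finset.sum_const, nsmul_eq_mul, mul_comm]
  rw [h3]
  have h4 : ∀ C : ConjClasses Q, (if P C then (Nat.card Q : ℂ) else 0) =
      ∑ q : Q, if ConjClasses.mk q = C then
        (if P (ConjClasses.mk q) then (Nat.card (centralizer ({q} : Set Q)) : ℂ) else 0) else 0 := by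
    intro C
    split_ifs with h
    · rw [h1 C]
      apply Finset.sum_congr rfl
      intro q _
      split_ifs with h5 h6
      · rfl
      · exact absurd (h5 ▸ h) h6
      · rfl
    · symm
      apply Finset.sum_eq_zero
      intro q _
      split_ifs with h5 h6
      · exact absurd (h5 ▸ h6) h
      · rfl
      · rfl
  simp only [h4]
  rw [Finset.sum_comm]
  apply Finset.sum_congr rfl
  intro q _
  rw [Finset.sum_ite_eq]
  simp

section
variable {G : Type u} [Group G]

/-- `g` is special with respect to `N` -/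
def Spc (N : Subgroup G) (g : G) : Prop := ∀ x : G, x⁻¹ * g⁻¹ * x * g ∈ N → x * g = g * x

theorem Spc.conj {N : Subgroup G} [hN : N.Normal] {g : G} (h : Spc N g) (u : G) :
    Spc N (u * g * u⁻¹) := by
  intro x hx
  have h1 : (u⁻¹ * x * u)⁻¹ * g⁻¹ * (u⁻¹ * x * u) * g ∈ N := by
    have := hN.conj_mem _ hx u⁻¹
    convert this using 1
    group
  have h2 := h _ h1
  calc x * (u * g * u⁻¹) = u * ((u⁻¹ * x * u) * g) * u⁻¹ := by group
    _ = u * (g * (u⁻¹ * x * u)) * u⁻¹ := by rw [h2]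
    _ = u * g * u⁻¹ * x := by group

theorem Spc.mul_central {N : Subgroup G} (hN : N ≤ center G) {g : G} (h : Spc N g) {n : G}
    (hn : n ∈ N) : Spc N (g * n) := by
  have hc := mem_center_iff.mp (hN hn)
  intro x hx
  have h1 : x⁻¹ * g⁻¹ * x * g ∈ N := by
    convert hx using 1
    calc x⁻¹ * g⁻¹ * x * g = x⁻¹ * g⁻¹ * x * g * (n * n⁻¹) := by group
      _ = x⁻¹ * g⁻¹ * ((x * g) * n) * n⁻¹ := by group
      _ = x⁻¹ * g⁻¹ * (n * (x * g)) * n⁻¹ := by rw [hc]
      _ = x⁻¹ * ((g⁻¹ * n) * (x * g) * n⁻¹) := by group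
      _ = x⁻¹ * ((n * g⁻¹) * (x * g) * n⁻¹) := by rw [hc]
      _ = x⁻¹ * (n * (g⁻¹ * x * g * n⁻¹)) := by group
      _ = x⁻¹ * ((g⁻¹ * x * g * n⁻¹) * n) := by rw [hc]
      _ = x⁻¹ * g⁻¹ * x * g := by group
      _ = x⁻¹ * (n⁻¹ * n * g⁻¹) * x * g := by group
      _ = x⁻¹ * (n⁻¹ * (n * g⁻¹)) * x * g := by group
      _ = x⁻¹ * (n⁻¹ * (g⁻¹ * n)) * x * g := by rw [hc]
      _ = x⁻¹ * (n⁻¹ * g⁻¹) * (n * (x * g)) := by group
      _ = x⁻¹ * (n⁻¹ * g⁻¹) * ((x * g) * n) := by rw [hc]
      _ = x⁻¹ * (g * n)⁻¹ * x * (g * n) := by group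
  have h2 := h x h1
  calc x * (g * n) = (x * g) * n := by group
    _ = g * (x * n) := by rw [h2]; group
    _ = g * (n * x) := by rw [hc]
    _ = g * n * x := by group

theorem spc_class_iff (N : Subgroup G) [hN : N.Normal] (hNc : N ≤ center G) (g : G) :
    (∃ g' : G, ConjClasses.mk (g' : G ⧸ N) = ConjClasses.mk (g : G ⧸ N) ∧ Spc N g') ↔ Spc N g := by
  constructor
  · rintro ⟨g', h1, h2⟩
    obtain ⟨y, hy⟩ := isConj_iff.mp (ConjClasses.mk_eq_mk_iff_isConj.mp h1)
    obtain ⟨u, rfl⟩ := QuotientGroup.mk_surjective y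
    have h3 : ((u * g' * u⁻¹ : G) : G ⧸ N) = (g : G ⧸ N) := by
      rw [← hy]; rfl
    have h4 : (u * g' * u⁻¹)⁻¹ * g ∈ N := QuotientGroup.eq.mp h3
    have h5 := (h2.conj u).mul_central hNc h4
    rwa [mul_inv_cancel_left] at h5
  · intro h
    exact ⟨g, rfl, h⟩

end

section
variable {G : Type u} [Group G] [Fintype G]

theorem comm_of_le_center (N : Subgroup G) (hNc : N ≤ center G) (a b : N) : a * b = b * a :=
  Subtype.ext (mem_center_iff.mp (hNc b.2) a)

theorem ext_mul_central (N : Subgroup G) [hN : N.Normal] (hNc : N ≤ center G) (ψ : N → ℂ)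
    (hψ : IsIrrCharacter N ψ) (a x0 : G) (n0 : N) :
    extendByZero N ψ ((n0 : G) * (x0⁻¹ * a * x0)) = ψ n0 * extendByZero N ψ a := by
  have hcomm := comm_of_le_center N hNc
  have h1 : ψ 1 = 1 := irr_linear_of_comm hcomm hψ
  by_cases ha : a ∈ N
  · have hx : x0⁻¹ * a * x0 = a := by
      have := mem_center_iff.mp (hNc ha) x0
      rw [mul_assoc, ← this]; group
    rw [hx, extendByZero_mem _ _ ha, extendByZero_mem _ _ (N.mul_mem n0.2 ha)]
    have h2 := H3.irr_central_mul hψ (z := ⟨a, ha⟩) (by rw [mem_center_iff]; intro b; exact hcomm _ _) n0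
    rw [h1, mul_one] at h2
    rw [mul_comm (ψ n0)]; exact h2
  · have : (n0 : G) * (x0⁻¹ * a * x0) ∉ N := by
      intro h
      apply ha
      have h2 : x0⁻¹ * a * x0 ∈ N := (N.mul_mem_cancel_left n0.2).mp h
      have := hN.conj_mem _ h2 x0
      simpa [mul_assoc] using this
    rw [extendByZero_not_mem _ _ this, extendByZero_not_mem _ _ ha, mul_zero]

theorem sum_ext_comm (N : Subgroup G) [hN : N.Normal] (hNc : N ≤ center G) (ψ : N → ℂ)
    (hψ : IsIrrCharacter N ψ) (hfaith : ∀ n : N, ψ n = ψ 1 → n = 1) (g : G) [Fintype (G ⧸ N)]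
    [Decidable (Spc N g)] :
    ∑ x : G, extendByZero N ψ (g⁻¹ * x⁻¹ * g * x) =
      if Spc N g then (Nat.card N : ℂ) *
        (Nat.card (centralizer ({(g : G ⧸ N)} : Set (G ⧸ N))) : ℂ) else 0 := by
  classical
  have hcomm := comm_of_le_center N hNc
  have hψ1 : ψ 1 = 1 := irr_linear_of_comm hcomm hψ
  split_ifs with h
  · have h1 : ∀ x : G, extendByZero N ψ (g⁻¹ * x⁻¹ * g * x) =
        (fun q : G ⧸ N => if q * (g : G ⧸ N) = (g : G ⧸ N) * q then (1:ℂ) else 0) (x : G ⧸ N) := by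
      intro x
      show _ = if _ then _ else _
      by_cases hx : x⁻¹ * g⁻¹ * x * g ∈ N
      · have h2 := h x hx
        have h3 : g⁻¹ * x⁻¹ * g * x = 1 := by rw [mul_assoc, ← h2]; group
        rw [h3, extendByZero_mem _ _ N.one_mem, if_pos]
        · exact hψ1
        · rw [← QuotientGroup.mk_mul, ← QuotientGroup.mk_mul, h2]
      · rw [extendByZero_not_mem, if_neg]
        · intro h4
          apply hx
          rw [← QuotientGroup.mk_mul, ← QuotientGroup.mk_mul] at h4
          have := N.inv_mem (QuotientGroup.eq.mp h4)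
          convert this using 1
          group
        · intro h4; apply hx; have := N.inv_mem h4; convert this using 1; group
    rw [Finset.sum_congr rfl (fun x _ => h1 x), sum_comp_mk N
      (fun q : G ⧸ N => if q * (g : G ⧸ N) = (g : G ⧸ N) * q then (1:ℂ) else 0)]
    congr 1
    rw [Finset.sum_boole, ← Fintype.card_subtype, ← Nat.card_eq_fintype_card]
    congr 1
    exact Nat.card_congr (Equiv.subtypeEquivRight (fun q => mem_centralizer_singleton_iff.symm))
  · unfold Spc at h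
    push Not at h
    obtain ⟨x0, hx0, hne⟩ := h
    have hmem : g⁻¹ * x0⁻¹ * g * x0 ∈ N := by
      have := N.inv_mem hx0; convert this using 1; group
    set n0 : N := ⟨g⁻¹ * x0⁻¹ * g * x0, hmem⟩ with hn0
    have hn1 : ψ n0 ≠ 1 := by
      intro h1
      have h2 := hfaith n0 (by rw [h1, hψ1])
      have h3 : g⁻¹ * x0⁻¹ * g * x0 = 1 := congrArg Subtype.val h2
      apply hne
      have : g * x0 = x0 * g * (g⁻¹ * x0⁻¹ * g * x0) := by group
      rw [this, h3, mul_one]
    set A := ∑ x : G, extendByZero N ψ (g⁻¹ * x⁻¹ * g * x) with hA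
    have h5 : A = ψ n0 * A := by
      calc A = ∑ x : G, extendByZero N ψ (g⁻¹ * (x * x0)⁻¹ * g * (x * x0)) :=
            (Equiv.sum_comp (Equiv.mulRight x0)
              (fun x => extendByZero N ψ (g⁻¹ * x⁻¹ * g * x))).symm
        _ = ∑ x : G, ψ n0 * extendByZero N ψ (g⁻¹ * x⁻¹ * g * x) := by
            apply Finset.sum_congr rfl
            intro x _
            rw [← ext_mul_central N hNc ψ hψ _ x0 n0]
            congr 1
            rw [hn0]
            show _ = g⁻¹ * x0⁻¹ * g * x0 * _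
            group
        _ = ψ n0 * A := by rw [← Finset.mul_sum]
    have h6 : (1 - ψ n0) * A = 0 := by linear_combination h5
    rcases mul_eq_zero.mp h6 with h7 | h7
    · exact absurd (sub_eq_zero.mp h7).symm hn1
    · exact h7

theorem gal_way2 (N : Subgroup G) [hN : N.Normal] [Fintype N] (hNc : N ≤ center G) (ψ : N → ℂ)
    (hψ : IsIrrCharacter N ψ) (hfaith : ∀ n : N, ψ n = ψ 1 → n = 1) [Fintype (IrrCharacter G)] :
    ∑ χ : IrrCharacter G, ∑ g : G, ∑ n : N,
        (χ : G → ℂ) g * conj ((χ : G → ℂ) (g * n)) * ψ n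
      = (Nat.card N : ℂ) * ((Nat.card N : ℂ) * ((Nat.card (G ⧸ N) : ℂ) *
        (Nat.card {C : ConjClasses (G ⧸ N) // ∃ g : G, ConjClasses.mk (g : G ⧸ N) = C ∧ Spc N g} : ℂ))) := by
  classical
  haveI := Fintype.ofFinite (G ⧸ N)
  rw [Finset.sum_comm]
  have h1 : ∀ g : G, ∑ χ : IrrCharacter G, ∑ n : N,
      (χ : G → ℂ) g * conj ((χ : G → ℂ) (g * n)) * ψ n =
      ∑ x : G, extendByZero N ψ (g⁻¹ * x⁻¹ * g * x) := by
    intro g
    rw [Finset.sum_comm]
    have h2 : ∀ n : N, ∑ χ : IrrCharacter G, (χ : G → ℂ) g * conj ((χ : G → ℂ) (g * n)) * ψ n =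
        ∑ x : G, ψ n * (fun a : G => if x * (g * a) * x⁻¹ = g then (1:ℂ) else 0) n := by
      intro n
      rw [← Finset.sum_mul, column_orthogonality', ← Finset.mul_sum, Finset.sum_boole,
        ← Fintype.card_subtype, ← Nat.card_eq_fintype_card, mul_comm]
    rw [Finset.sum_congr rfl (fun n _ => h2 n), Finset.sum_comm]
    apply Finset.sum_congr rfl
    intro x _
    rw [← sum_extendByZero_mul N ψ (fun a : G => if x * (g * a) * x⁻¹ = g then (1:ℂ) else 0)]
    have h3 : ∀ a : G, (x * (g * a) * x⁻¹ = g) ↔ (a = g⁻¹ * x⁻¹ * g * x) := by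
      intro a
      constructor
      · intro h
        calc a = g⁻¹ * x⁻¹ * (x * (g * a) * x⁻¹) * x := by group
          _ = g⁻¹ * x⁻¹ * g * x := by rw [h]
      · rintro rfl; group
    simp only [h3, mul_ite, mul_one, mul_zero, Finset.sum_ite_eq', Finset.mem_univ, if_true]
  rw [Finset.sum_congr rfl (fun g _ => h1 g)]
  have h4 : ∀ g : G, ∑ x : G, extendByZero N ψ (g⁻¹ * x⁻¹ * g * x) =
      (fun q : G ⧸ N => (Nat.card N : ℂ) *
        (if (∃ g : G, ConjClasses.mk (g : G ⧸ N) = ConjClasses.mk q ∧ Spc N g) then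
          (Nat.card (centralizer ({q} : Set (G ⧸ N))) : ℂ) else 0)) (g : G ⧸ N) := by
    intro g
    rw [sum_ext_comm N hNc ψ hψ hfaith g]
    show _ = (Nat.card N : ℂ) * (if _ then _ else _)
    by_cases h : Spc N g
    · rw [if_pos h, if_pos ((spc_class_iff N hNc g).mpr h)]
    · rw [if_neg h, if_neg (fun h' => h ((spc_class_iff N hNc g).mp h')), mul_zero]
  rw [Finset.sum_congr rfl (fun g _ => h4 g), sum_comp_mk N (fun q : G ⧸ N => (Nat.card N : ℂ) *
        (if (∃ g : G, ConjClasses.mk (g : G ⧸ N) = ConjClasses.mk q ∧ Spc N g) then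
          (Nat.card (centralizer ({q} : Set (G ⧸ N))) : ℂ) else 0)), ← Finset.mul_sum,
    sum_centralizer_class (fun C => ∃ g : G, ConjClasses.mk (g : G ⧸ N) = C ∧ Spc N g)]

theorem gal_way1 (N : Subgroup G) [hN : N.Normal] [Fintype N] (hNc : N ≤ center G) (ψ : N → ℂ)
    (hψ : IsIrrCharacter N ψ) (χ : IrrCharacter G)
    [Decidable (classInner (fun n : N => (χ : G → ℂ) n) ψ ≠ 0)] :
    ∑ g : G, ∑ n : N, (χ : G → ℂ) g * conj ((χ : G → ℂ) (g * n)) * ψ n
      = (Nat.card G : ℂ) * (Nat.card N : ℂ) *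
        (if classInner (fun n : N => (χ : G → ℂ) n) ψ ≠ 0 then 1 else 0) := by
  classical
  have hcomm := comm_of_le_center N hNc
  have hψ1 : ψ 1 = 1 := irr_linear_of_comm hcomm hψ
  set c := classInner (fun n : N => (χ : G → ℂ) n) ψ with hc
  have h0 : (χ : G → ℂ) 1 ≠ 0 := IsIrrCharacter.apply_one_ne_zero χ.2
  have hA : ∀ (g : G) (n : N), (χ : G → ℂ) (g * n) = (χ : G → ℂ) n * (χ : G → ℂ) g / (χ : G → ℂ) 1 := by
    intro g n
    rw [eq_div_iff h0]
    exact H3.irr_central_mul χ.2 (hNc n.2) g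
  have hN0 : (Nat.card N : ℂ) ≠ 0 := card_ne_zero_C
  have hG0 : (Nat.card G : ℂ) ≠ 0 := card_ne_zero_C
  have hB : ∑ n : N, conj ((χ : G → ℂ) n) * ψ n = (Nat.card N : ℂ) * conj c := by
    rw [hc]
    unfold classInner
    rw [map_mul, map_inv₀, map_natCast, ← mul_assoc, mul_inv_cancel₀ hN0, one_mul, map_sum]
    apply Finset.sum_congr rfl
    intro n _
    rw [map_mul, Complex.conj_conj]
  have hC : ∑ g : G, (χ : G → ℂ) g * conj ((χ : G → ℂ) g) = (Nat.card G : ℂ) := by
    have h1 := irr_inner_ite χ.2 χ.2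
    rw [if_pos rfl] at h1
    unfold classInner at h1
    field_simp at h1
    exact h1
  have hD : conj c / conj ((χ : G → ℂ) 1) = if c ≠ 0 then 1 else 0 := by
    split_ifs with h
    · have h1 := restrict_of_invariant N hN (χ : G → ℂ) χ.2 ψ hψ h (by
        intro g
        funext n
        rw [conjFun_apply]
        congr 1
        apply Subtype.ext
        show g * n * g⁻¹ = n
        rw [mem_center_iff.mp (hNc n.2) g]; group)
      have h2 := congrFun h1 1
      simp only [Pi.smul_apply, smul_eq_mul, hψ1, mul_one] at h2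
      have h3 : (χ : G → ℂ) 1 = c := h2
      rw [h3]
      exact div_self ((map_ne_zero _).mpr h)
    · push Not at h
      rw [h]; simp
  calc ∑ g : G, ∑ n : N, (χ : G → ℂ) g * conj ((χ : G → ℂ) (g * n)) * ψ n
      = ∑ g : G, ((χ : G → ℂ) g * conj ((χ : G → ℂ) g)) *
          ((∑ n : N, conj ((χ : G → ℂ) n) * ψ n) / conj ((χ : G → ℂ) 1)) := by
        apply Finset.sum_congr rfl
        intro g _
        rw [Finset.sum_div, Finset.mul_sum]
        apply Finset.sum_congr rfl
        intro n _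
        rw [hA, map_div₀, map_mul]
        ring
    _ = (Nat.card G : ℂ) * (Nat.card N : ℂ) * (conj c / conj ((χ : G → ℂ) 1)) := by
        rw [← Finset.sum_mul, hC, hB]; ring
    _ = _ := by rw [hD]; congr

theorem gal_count (N : Subgroup G) [hN : N.Normal] [Fintype N] (hNc : N ≤ center G) (ψ : N → ℂ)
    (hψ : IsIrrCharacter N ψ) (hfaith : ∀ n : N, ψ n = ψ 1 → n = 1) :
    Nat.card {χ : IrrCharacter G // classInner (fun n : N => (χ : G → ℂ) n) ψ ≠ 0} =
      Nat.card {C : ConjClasses (G ⧸ N) // ∃ g : G, ConjClasses.mk (g : G ⧸ N) = C ∧ Spc N g} := by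
  classical
  haveI := Fintype.ofFinite (IrrCharacter G)
  have h1 := gal_way2 N hNc ψ hψ hfaith
  rw [Finset.sum_congr rfl (fun χ _ => gal_way1 N hNc ψ hψ χ), ← Finset.mul_sum, Finset.sum_boole,
    ← Fintype.card_subtype, ← Nat.card_eq_fintype_card,
    Subgroup.card_eq_card_quotient_mul_card_subgroup N] at h1
  have hN0 : (Nat.card N : ℂ) ≠ 0 := card_ne_zero_C
  have hQ0 : (Nat.card (G ⧸ N) : ℂ) ≠ 0 := card_ne_zero_C
  push_cast at h1
  have h2 : (Nat.card N : ℂ) * (Nat.card N : ℂ) * (Nat.card (G ⧸ N) : ℂ) *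
      (Nat.card {χ : IrrCharacter G // classInner (fun n : N => (χ : G → ℂ) n) ψ ≠ 0} : ℂ) =
      (Nat.card N : ℂ) * (Nat.card N : ℂ) * (Nat.card (G ⧸ N) : ℂ) *
      (Nat.card {C : ConjClasses (G ⧸ N) // ∃ g : G, ConjClasses.mk (g : G ⧸ N) = C ∧ Spc N g} : ℂ) := by
    linear_combination h1
  have h3 := mul_left_cancel₀ (mul_ne_zero (mul_ne_zero hN0 hN0) hQ0) h2
  exact_mod_cast h3

end

end Cfsg.Agent.LeadBr
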