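import Mathlib
import Cfsg.Agent.Lib_helper7_PSolv

set_option autoImplicit false
set_option linter.style.haveILetI false

/-! A finite `p`-soluble group has a `p`-complement (a Hall `p'`-subgroup). -/

namespace Cfsg.Agent.LeadPC

open Subgroup

universe u

theorem exists_pcomplement_aux (p : ℕ) (hp : p.Prime) (n : ℕ) :
    ∀ (G : Type u) [Group G] [Finite G], Nat.card G = n → Cfsg.IsPSolvable p G →
    ∃ K : Subgroup G, (Nat.card K).Coprime p ∧ ∃ e : ℕ, K.index = p ^ e := by
  induction n using Nat.strong_induction_on with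
  | _ n ih =>
    intro G _ _ hn hsol
    rcases subsingleton_or_nontrivial G with hs | hnt
    · refine ⟨⊤, ?_, 0, ?_⟩
      · rw [card_top, Nat.card_of_subsingleton (1 : G)]
        exact Nat.coprime_one_left p
      · rw [index_top, pow_zero]
    obtain ⟨K0, hK0n, hK0lt, -, hPP⟩ := Cfsg.Agent.H7.isPSolvable_exists_step hp hsol
      (M := ⊥) (N := ⊤) inferInstance inferInstance bot_lt_top
    rw [relIndex_bot_left] at hPP
    haveI := hK0n
    have hK0card : 1 < Nat.card K0 := by
      rw [Subgroup.one_lt_card_iff_ne_bot]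
      exact hK0lt.ne'
    have hcardG : K0.index * Nat.card K0 = Nat.card G := K0.index_mul_card
    have hidxpos : 0 < K0.index := Nat.pos_of_ne_zero index_ne_zero_of_finite
    have hlt : Nat.card (G ⧸ K0) < n := by
      rw [← hn, ← hcardG]
      show K0.index < _
      nlinarith
    obtain ⟨Kb, hKb1, e, hKb2⟩ := ih _ hlt (G ⧸ K0) rfl
      (Cfsg.Agent.H7.isPSolvable_quotient hp hsol K0)
    set K1 := Kb.comap (QuotientGroup.mk' K0) with hK1
    have hK1idx : K1.index = p ^ e := by
      rw [hK1, index_comap_of_surjective _ (QuotientGroup.mk'_surjective K0), hKb2]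
    have hK0le : K0 ≤ K1 := by
      intro x hx
      show QuotientGroup.mk' K0 x ∈ Kb
      have h1 : QuotientGroup.mk' K0 x = 1 := (QuotientGroup.eq_one_iff x).mpr hx
      rw [h1]
      exact Kb.one_mem
    have hK1card : Nat.card K1 = Nat.card Kb * Nat.card K0 := by
      have h1 : K1.index * Nat.card K1 = Nat.card G := K1.index_mul_card
      have h2 : Kb.index * Nat.card Kb = Nat.card (G ⧸ K0) := Kb.index_mul_card
      have h3 : Nat.card (G ⧸ K0) = K0.index := rfl
      rw [hK1idx] at h1
      rw [hKb2, h3] at h2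
      have h4 : p ^ e * Nat.card K1 = p ^ e * (Nat.card Kb * Nat.card K0) := by
        rw [h1, ← hcardG, ← h2]; ring
      exact Nat.eq_of_mul_eq_mul_left (pow_pos hp.pos e) h4
    rcases hPP with ⟨m, hm⟩ | hcop
    · -- `K0` is a `p`-group: Schur-Zassenhaus in `K1`
      haveI : (K0.subgroupOf K1).Normal := inferInstance
      have hNcard : Nat.card (K0.subgroupOf K1) = p ^ m := by
        rw [Nat.card_congr (Subgroup.subgroupOfEquivOfLe hK0le).toEquiv, hm]
      have hNidx : (K0.subgroupOf K1).index = Nat.card Kb := by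
        have h1 := (K0.subgroupOf K1).index_mul_card
        rw [hNcard, hK1card, hm] at h1
        exact Nat.eq_of_mul_eq_mul_right (pow_pos hp.pos m) h1
      obtain ⟨C, hC⟩ := exists_right_complement'_of_coprime (N := K0.subgroupOf K1) (by
        rw [hNcard, hNidx]
        exact (Nat.Coprime.pow_right m hKb1).symm)
      refine ⟨C.map K1.subtype, ?_, m + e, ?_⟩
      · rw [card_map_of_injective K1.subtype_injective]
        have h1 := hC.card_mul_card
        rw [hNcard, hK1card, hm, mul_comm] at h1
        rw [Nat.eq_of_mul_eq_mul_right (pow_pos hp.pos m) h1]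
        exact hKb1
      · rw [index_map_subtype, hC.index_eq_card, hNcard, hK1idx, pow_add]
    · refine ⟨K1, ?_, e, hK1idx⟩
      rw [hK1card]
      exact Nat.Coprime.mul_left hKb1 hcop

theorem exists_pcomplement (p : ℕ) (hp : p.Prime) {G : Type u} [Group G] [Finite G]
    (h : Cfsg.IsPSolvable p G) :
    ∃ K : Subgroup G, (Nat.card K).Coprime p ∧ ∃ e : ℕ, K.index = p ^ e :=
  exists_pcomplement_aux p hp _ G rfl h

end Cfsg.Agent.LeadPC
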