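import Cfsg.Statements.S0041
import Mathlib
import Cfsg.Agent.Lib_lead_Frob6
import Cfsg.Agent.Lib_helper7_Gen1

set_option autoImplicit false
open Cfsg

namespace Cfsg.Agent.S0041

open scoped Pointwise IsMulCommutative


/-- A group acting on a nontrivial abelian group so that no nonidentity element has a nonidentity fixed point is cyclic, provided it is abelian or its order is a product of two (possibly equal) primes. -/
theorem result {G : Type*} [Group G] [Finite G] (A V : Subgroup G) [IsMulCommutative V]
    (hV : V ≠ ⊥) (hAV : A ≤ Subgroup.normalizer (V : Set G)) (hfpf : ∀ a ∈ A, a ≠ 1 → V ⊓ Subgroup.centralizer {a} = ⊥)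
    (hA : IsMulCommutative A ∨ ∃ p q : ℕ, p.Prime ∧ q.Prime ∧ Nat.card A = p * q) : IsCyclic A := by
  classical
  let φ : A →* MulAut V := V.normalizerMonoidHom.comp (Subgroup.inclusion hAV)
  have hφ : ∀ (f : A) (v : V), ((φ f v : V) : G) = (f : G) * v * (f : G)⁻¹ := fun f v => rfl
  have hfix : ∀ x : A, x ≠ 1 → ∀ v : V, φ x v = v → v = 1 := by
    intro x hx v hv
    have h1 := congrArg Subtype.val hv
    rw [hφ] at h1
    have h2 : (v : G) * x = x * v := (mul_inv_eq_iff_eq_mul.1 h1).symm
    have h3 : (v : G) ∈ V ⊓ Subgroup.centralizer {(x : G)} :=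
      Subgroup.mem_inf.2 ⟨v.2, Subgroup.mem_centralizer_singleton_iff.2 h2⟩
    rw [hfpf x x.2 (fun h => hx (Subtype.ext h)), Subgroup.mem_bot] at h3
    exact Subtype.ext h3
  have hcontra : ∀ (r : ℕ), r.Prime → (∀ v : V, v ^ r = 1) → ∀ e ∈ A, e ≠ 1 → e ^ r = 1 → False := by
    intro r hr hvr e he he1 her
    have : Fact r.Prime := ⟨hr⟩
    have hVp : IsPGroup r V := fun v => ⟨1, by rw [pow_one]; exact hvr v⟩
    have hEp : IsPGroup r (Subgroup.zpowers e) :=
      IsPGroup.of_card (n := 1) (by rw [Nat.card_zpowers, pow_one]; exact orderOf_eq_prime her he1)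
    have hEV : Subgroup.zpowers e ≤ Subgroup.normalizer (V : Set G) := by
      rw [Subgroup.zpowers_le]; exact hAV he
    obtain ⟨v, hv, hv1, hc⟩ := Cfsg.Agent.LeadFrob.exists_fixed_of_pgroups hVp hEp hV hEV
    have h3 : v ∈ V ⊓ Subgroup.centralizer {e} :=
      Subgroup.mem_inf.2 ⟨hv, Subgroup.mem_centralizer_singleton_iff.2 (hc e (Subgroup.mem_zpowers e)).symm⟩
    rw [hfpf e he he1, Subgroup.mem_bot] at h3
    exact hv1 h3
  have habel : IsMulCommutative A → IsCyclic A := by
    intro hc
    by_contra hnc
    obtain ⟨r, a, b, hr, har, hbr, ha1, hb⟩ := Cfsg.Agent.H7.exists_prime_pair_of_not_isCyclic (A := A) hnc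
    have h1 := Cfsg.Agent.LeadFrob.pow_prime_eq_one_of_rank_two φ r hr b a (mul_comm' b a) hbr har ha1 hb hfix
    exact hcontra r hr h1 a a.2 (fun h => ha1 (Subtype.ext h)) (congrArg Subtype.val har)
  rcases hA with hc | ⟨p, q, hp, hq, hcard⟩
  · exact habel hc
  · by_cases hpq : p = q
    · subst hpq
      have : Fact p.Prime := ⟨hp⟩
      apply habel
      exact IsPGroup.isMulCommutative_of_card_eq_prime_sq (p := p) (by rw [hcard, sq])
    · wlog hlt : p < q generalizing p q
      · exact this q p hq hp (by rw [hcard, mul_comm]) (Ne.symm hpq) (by omega)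
      have : Fact p.Prime := ⟨hp⟩
      have : Fact q.Prime := ⟨hq⟩
      obtain ⟨y, hy⟩ := exists_prime_orderOf_dvd_card' (G := A) q (by rw [hcard]; exact dvd_mul_left q p)
      obtain ⟨x, hx⟩ := exists_prime_orderOf_dvd_card' (G := A) p (by rw [hcard]; exact dvd_mul_right p q)
      have hy1 : y ≠ 1 := by
        rintro rfl; rw [orderOf_one] at hy; exact hq.one_lt.ne hy
      have hx1 : x ≠ 1 := by
        rintro rfl; rw [orderOf_one] at hx; exact hp.one_lt.ne hx
      have cM : Nat.card (Subgroup.zpowers y) = q := by rw [Nat.card_zpowers, hy]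
      have cB : Nat.card (Subgroup.zpowers x) = p := by rw [Nat.card_zpowers, hx]
      have iM : (Subgroup.zpowers y).index = p := by
        have := (Subgroup.zpowers y).card_mul_index
        rw [cM, hcard, mul_comm p q] at this
        exact Nat.eq_of_mul_eq_mul_left hq.pos this
      have hmin : (Nat.card A).minFac = p := by
        rw [hcard]
        have h1 : (p * q).minFac.Prime := Nat.minFac_prime (by
          intro h
          have := Nat.eq_one_of_mul_eq_one_right h
          exact hp.one_lt.ne' this)
        have h2 : (p * q).minFac ∣ p * q := Nat.minFac_dvd _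
        have h3 : (p * q).minFac ≤ p := Nat.minFac_le_of_dvd hp.two_le (dvd_mul_right p q)
        rcases (Nat.Prime.dvd_mul h1).1 h2 with h | h
        · exact (Nat.prime_dvd_prime_iff_eq h1 hp).1 h
        · have := (Nat.prime_dvd_prime_iff_eq h1 hq).1 h
          omega
      have hMn : (Subgroup.zpowers y).Normal :=
        Subgroup.normal_of_index_eq_minFac_card (by rw [iM, hmin])
      by_cases hcent : ∀ b ∈ Subgroup.zpowers x, b ≠ 1 → ∀ m ∈ Subgroup.zpowers y, m * b = b * m → m = 1
      · exfalso
        have key := Cfsg.Agent.LeadFrob.pow_card_eq_one_of_action φ (Subgroup.zpowers y) (Subgroup.zpowers x)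
          (fun v hv => hfix y hy1 v (hv y (Subgroup.mem_zpowers y)))
          (fun v hv => hfix x hx1 v (hv x (Subgroup.mem_zpowers x))) hcent
        refine hcontra q hq (fun v => by have := key v; rwa [cM] at this) y y.2
          (fun h => hy1 (Subtype.ext h)) ?_
        have := pow_orderOf_eq_one y
        rw [hy] at this
        exact congrArg Subtype.val this
      · push Not at hcent
        obtain ⟨b, hb, hb1, m, hm, hmb, hm1⟩ := hcent
        have ob : orderOf b = p := by
          have h1 : orderOf b ∣ p := by
            have := orderOf_dvd_natCard (⟨b, hb⟩ : Subgroup.zpowers x)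
            rwa [Subgroup.orderOf_mk, cB] at this
          rcases (Nat.dvd_prime hp).1 h1 with h | h
          · exact absurd (orderOf_eq_one_iff.1 h) hb1
          · exact h
        have om : orderOf m = q := by
          have h1 : orderOf m ∣ q := by
            have := orderOf_dvd_natCard (⟨m, hm⟩ : Subgroup.zpowers y)
            rwa [Subgroup.orderOf_mk, cM] at this
          rcases (Nat.dvd_prime hq).1 h1 with h | h
          · exact absurd (orderOf_eq_one_iff.1 h) hm1
          · exact h
        have hco : (orderOf m).Coprime (orderOf b) := by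
          rw [om, ob]; exact (Nat.coprime_primes hq hp).2 (Ne.symm hpq)
        have h5 : orderOf (m * b) = orderOf m * orderOf b :=
          Commute.orderOf_mul_eq_mul_orderOf_of_coprime hmb hco
        exact isCyclic_of_orderOf_eq_card (m * b) (by rw [h5, om, ob, hcard, mul_comm])

end Cfsg.Agent.S0041
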