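import Cfsg.Statements.S0040
import Cfsg.Agent.S0016
import Cfsg.Agent.S0041
import Cfsg.Agent.Lib_lead_Frob3
import Cfsg.Agent.Lib_lead_Frob4

set_option autoImplicit false
open Cfsg

namespace Cfsg.Agent.S0040

/-- Sylow subgroups of Frobenius complements: if H complements a nontrivial normal subgroup K and every nonidentity element of H has trivial centraliser in K, then each Sylow subgroup of H is cyclic or isomorphic to a generalized quaternion group. -/
theorem result {G : Type*} [Group G] [Finite G] (K H : Subgroup G) [K.Normal]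
    (hc : Subgroup.IsComplement' K H) (hK : K ≠ ⊥) (hfpf : ∀ h ∈ H, h ≠ 1 → K ⊓ Subgroup.centralizer {h} = ⊥)
    (p : ℕ) [Fact p.Prime] (P : Sylow p H) :
    IsCyclic P ∨ ∃ n : ℕ, Nonempty (P ≃* QuaternionGroup (2 ^ n)) := by
  classical
  have hpp : p.Prime := Fact.out
  by_cases hH : H = ⊥
  · left
    haveI : Subsingleton H := by rw [hH]; infer_instance
    haveI : Subsingleton (P : Subgroup H) := inferInstance
    infer_instance
  have hfpf' : ∀ h ∈ H, h ≠ 1 → ∀ k ∈ K, k * h = h * k → k = 1 := by
    intro h hh h1 k hk hkh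
    have h2 : k ∈ K ⊓ Subgroup.centralizer {h} :=
      ⟨hk, Subgroup.mem_centralizer_singleton_iff.2 hkh⟩
    rw [hfpf h hh h1, Subgroup.mem_bot] at h2
    exact h2
  obtain ⟨hF, hker⟩ := Cfsg.Agent.LeadFrob.frob_of_complement K H hc hK hH hfpf'
  obtain ⟨V, hVK, hV1, hVc, hHV⟩ :=
    Cfsg.Agent.LeadFrob.exists_invariant_abelian H K hF hker.symm inferInstance hc
  -- abelian subgroups of `P` are cyclic
  have hab : ∀ Y : Subgroup (P : Subgroup H), IsMulCommutative Y → IsCyclic Y := by
    intro Y hY
    set f : (P : Subgroup H) →* G := H.subtype.comp (P : Subgroup H).subtype with hf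
    have hfinj : Function.Injective f :=
      H.subtype_injective.comp (P : Subgroup H).subtype_injective
    have hAH : Y.map f ≤ H := by
      rintro _ ⟨y, -, rfl⟩
      exact (y : H).2
    haveI : IsMulCommutative (Y.map f) := Subgroup.map_isMulCommutative Y f
    have hcyc : IsCyclic (Y.map f) := by
      apply Cfsg.Agent.S0041.result (Y.map f) V hV1 (hAH.trans hHV) ?_ (Or.inl inferInstance)
      intro a ha ha1
      rw [eq_bot_iff, ← hfpf a (hAH ha) ha1]
      exact inf_le_inf_right _ hVK
    exact isCyclic_of_surjective (Y.equivMapOfInjective f hfinj).symm.toMonoidHom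
      (Y.equivMapOfInjective f hfinj).symm.surjective
  have hPp : IsPGroup p (P : Subgroup H) := P.2
  have huniq : ∀ X₁ X₂ : Subgroup (P : Subgroup H), Nat.card X₁ = p → Nat.card X₂ = p → X₁ = X₂ := by
    have key : ∀ (u : (P : Subgroup H)), orderOf u = p → (∀ t, t * u = u * t) →
        ∀ X : Subgroup (P : Subgroup H), Nat.card X = p → X = Subgroup.zpowers u := by
      intro u huo huc X hX
      haveI : Fact (Nat.card X).Prime := ⟨by rw [hX]; exact hpp⟩
      obtain ⟨x, hx⟩ := Cfsg.Agent.H7.exists_zpowers_eq_of_isCyclic X (isCyclic_of_prime_card hX)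
      have hxo : orderOf x = p := by rw [← Nat.card_zpowers, hx, hX]
      have hYc : IsMulCommutative (Subgroup.closure ({x, u} : Set (P : Subgroup H))) := by
        apply Subgroup.isMulCommutative_closure
        rintro a (rfl | rfl) b (rfl | rfl)
        · rfl
        · exact huc a
        · exact (huc b).symm
        · rfl
      obtain ⟨y, hy⟩ := Cfsg.Agent.H7.exists_zpowers_eq_of_isCyclic _ (hab _ hYc)
      have hle : ∀ w : (P : Subgroup H), w ∈ ({x, u} : Set (P : Subgroup H)) → orderOf w = p →
          Subgroup.zpowers w = Cfsg.Agent.H7.omegaZ y p := by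
        intro w hw hwo
        apply Subgroup.eq_of_le_of_card_ge
        · rw [Subgroup.zpowers_le]
          refine ⟨?_, by have := pow_orderOf_eq_one w; rwa [hwo] at this⟩
          rw [hy]; exact Subgroup.subset_closure hw
        · rw [Nat.card_zpowers, hwo]
          exact Nat.le_of_dvd hpp.pos (Cfsg.Agent.H7.card_omegaZ_dvd y)
      rw [← hx, hle x (Or.inl rfl) hxo, hle u (Or.inr rfl) huo]
    intro X₁ X₂ h1 h2
    have hne : (⊤ : Subgroup (P : Subgroup H)) ≠ ⊥ := by
      intro h
      have h3 : X₁ ≤ ⊥ := h ▸ le_top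
      have h4 := Subgroup.card_le_of_le h3
      rw [h1, Subgroup.card_bot] at h4
      exact absurd hpp.one_lt (by omega)
    obtain ⟨u, -, huo, huc⟩ := Cfsg.Agent.H5.exists_central_orderOf_eq
      (hPp.to_subgroup ⊤) le_rfl (by rw [Subgroup.normalizer_eq_top]) hne
    rw [key u huo (fun t => huc t (Subgroup.mem_top t)) X₁ h1,
      key u huo (fun t => huc t (Subgroup.mem_top t)) X₂ h2]
  rcases Cfsg.Agent.S0016.result p hPp huniq with h | ⟨-, h⟩
  · exact Or.inl h
  · exact Or.inr h

end Cfsg.Agent.S0040
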