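import Mathlib
import Cfsg.Statements.S0048
import Cfsg.Agent.Lib_helper1_Max

set_option autoImplicit false
open Cfsg

namespace Cfsg.Agent.S0048

open Cfsg.Agent.H1 in
theorem aux.{u} : ∀ (n : ℕ) (G : Type u) [Group G] [Finite G] [Group.IsSolvable G],
    Nat.card G = n → ∀ M : Subgroup G, IsCoatom M → IsPrimePow M.index := by
  intro n
  induction n using Nat.strong_induction_on with
  | _ n ih =>
    intro G _ _ _ hn M hM
    have hnt : Nontrivial G := by
      by_contra h
      rw [not_nontrivial_iff_subsingleton] at h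
      exact hM.1 (Subsingleton.elim _ _)
    obtain ⟨p, hp, P, hPc, hPp, hPne, -⟩ := exists_normal_pgroup_of_solvable G
    have hPn : P.Normal := inferInstance
    by_cases hPM : P ≤ M
    · rw [← index_map_mk_of_le hPM]
      exact ih _ (hn ▸ card_quotient_lt hPne) (G ⧸ P) rfl _ (isCoatom_map_mk_of_le hPM hM)
    · have h1 := index_mul_card_inf_of_sup_eq_top (sup_eq_top_of_coatom_not_le hM hPM)
      haveI : Fact p.Prime := ⟨hp⟩
      obtain ⟨k, hk⟩ := IsPGroup.iff_card.mp hPp
      have hdvd : M.index ∣ p ^ k := hk ▸ Dvd.intro _ h1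
      obtain ⟨j, -, hj⟩ := (Nat.dvd_prime_pow hp).mp hdvd
      rw [isPrimePow_nat_iff]
      refine ⟨p, j, hp, ?_, hj.symm⟩
      rcases Nat.eq_zero_or_pos j with rfl | h
      · exfalso
        rw [pow_zero, Subgroup.index_eq_one] at hj
        exact hM.1 hj
      · exact h


/-- In a finite solvable group every maximal subgroup has index a prime power. -/
theorem result {G : Type*} [Group G] [Finite G] [Group.IsSolvable G]
    (M : Subgroup G) (hM : IsCoatom M) : IsPrimePow M.index := by
  exact aux _ G rfl M hM

end Cfsg.Agent.S0048
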