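import Cfsg.Statements.S3866
import Mathlib

set_option autoImplicit false
open Cfsg
open scoped commutatorElement

namespace Cfsg.Agent.S3866

/-- the commutator map as a homomorphism -/
def commMap {G : Type*} [Group G] (A : Subgroup G) [hN : A.Normal] (hA : IsMulCommutative A) (x : G) :
    A →* G where
  toFun a := x * a * x⁻¹ * (a : G)⁻¹
  map_one' := by simp
  map_mul' := by
    rintro ⟨a, ha⟩ ⟨b, hb⟩
    have hxb : x * b * x⁻¹ ∈ A := hN.conj_mem b hb x
    have hc : ∀ u ∈ A, ∀ v ∈ A, u * v = v * u := by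
      intro u hu v hv
      have := hA.is_comm.comm ⟨u, hu⟩ ⟨v, hv⟩
      exact congrArg Subtype.val this
    have h1 : (x * b * x⁻¹ * b⁻¹) * a⁻¹ = a⁻¹ * (x * b * x⁻¹ * b⁻¹) :=
      hc _ (A.mul_mem hxb (A.inv_mem hb)) _ (A.inv_mem ha)
    change x * (a * b) * x⁻¹ * (a * b)⁻¹ = (x * a * x⁻¹ * a⁻¹) * (x * b * x⁻¹ * b⁻¹)
    calc x * (a * b) * x⁻¹ * (a * b)⁻¹ = x * a * x⁻¹ * ((x * b * x⁻¹ * b⁻¹) * a⁻¹) := by group
      _ = x * a * x⁻¹ * (a⁻¹ * (x * b * x⁻¹ * b⁻¹)) := by rw [h1]
      _ = _ := by group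

theorem range_le {G : Type*} [Group G] (A : Subgroup G) [hN : A.Normal] (hA : IsMulCommutative A) (x : G) :
    (commMap A hA x).range ≤ A := by
  rintro _ ⟨⟨a, ha⟩, rfl⟩
  exact A.mul_mem (hN.conj_mem a ha x) (A.inv_mem ha)

theorem range_normal {G : Type*} [Group G] (A : Subgroup G) [hN : A.Normal] (hA : IsMulCommutative A) (x : G)
    (hgen : A ⊔ Subgroup.zpowers x = ⊤) : (commMap A hA x).range.Normal := by
  have hc : ∀ u ∈ A, ∀ v ∈ A, u * v = v * u := by
    intro u hu v hv
    have := hA.is_comm.comm ⟨u, hu⟩ ⟨v, hv⟩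
    exact congrArg Subtype.val this
  rw [← Subgroup.normalizer_eq_top_iff, eq_top_iff, ← hgen, sup_le_iff]
  constructor
  · intro a ha
    rw [Subgroup.mem_normalizer_iff]
    intro d
    constructor
    · intro hd
      have : a * d * a⁻¹ = d := by
        rw [hc a ha d (range_le A hA x hd)]; group
      rw [this]; exact hd
    · intro hd
      have hdA : d ∈ A := by
        have := hN.conj_mem _ (range_le A hA x hd) a⁻¹
        simpa [mul_assoc] using this
      have : a * d * a⁻¹ = d := by
        rw [hc a ha d hdA]; group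
      rw [this] at hd; exact hd
  · rw [Subgroup.zpowers_le, Subgroup.mem_normalizer_iff]
    intro d
    constructor
    · rintro ⟨⟨a, ha⟩, rfl⟩
      refine ⟨⟨x * a * x⁻¹, hN.conj_mem a ha x⟩, ?_⟩
      change x * (x * a * x⁻¹) * x⁻¹ * (x * a * x⁻¹)⁻¹ = x * (x * a * x⁻¹ * a⁻¹) * x⁻¹
      group
    · rintro ⟨⟨a, ha⟩, h⟩
      refine ⟨⟨x⁻¹ * a * x, by simpa using hN.conj_mem a ha x⁻¹⟩, ?_⟩
      change x * a * x⁻¹ * a⁻¹ = x * d * x⁻¹ at h
      change x * (x⁻¹ * a * x) * x⁻¹ * (x⁻¹ * a * x)⁻¹ = d
      have : d = x⁻¹ * (x * d * x⁻¹) * x := by group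
      rw [this, ← h]; group

theorem commutator_le_range {G : Type*} [Group G] (A : Subgroup G) [hN : A.Normal] (hA : IsMulCommutative A) (x : G)
    (hgen : A ⊔ Subgroup.zpowers x = ⊤) : commutator G ≤ (commMap A hA x).range := by
  have hc : ∀ u ∈ A, ∀ v ∈ A, u * v = v * u := by
    intro u hu v hv
    have := hA.is_comm.comm ⟨u, hu⟩ ⟨v, hv⟩
    exact congrArg Subtype.val this
  have hD := range_normal A hA x hgen
  set D := (commMap A hA x).range with hDdef
  let π := QuotientGroup.mk' D
  have hxa : ∀ a ∈ A, π x * π a = π a * π x := by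
    intro a ha
    rw [← map_mul, ← map_mul]
    apply (QuotientGroup.eq).mpr
    have h1 : x * a * x⁻¹ * a⁻¹ ∈ D := ⟨⟨a, ha⟩, rfl⟩
    have h2 := hD.conj_mem _ (D.inv_mem h1) (x * a)⁻¹
    have h3 : (x * a)⁻¹ * (x * a * x⁻¹ * a⁻¹)⁻¹ * ((x * a)⁻¹)⁻¹ = (x * a)⁻¹ * (a * x) := by group
    rw [h3] at h2; exact h2
  have hcen : ∀ g : G, π g ∈ Subgroup.center (G ⧸ D) := by
    have hle : (⊤ : Subgroup G) ≤ (Subgroup.center (G ⧸ D)).comap π := by
      rw [← hgen, sup_le_iff]
      constructor
      · intro a ha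
        rw [Subgroup.mem_comap, Subgroup.mem_center_iff]
        have hle2 : (⊤ : Subgroup G) ≤ (Subgroup.centralizer {π a}).comap π := by
          rw [← hgen, sup_le_iff]
          constructor
          · intro b hb
            rw [Subgroup.mem_comap, Subgroup.mem_centralizer_iff]
            rintro _ rfl
            rw [← map_mul, ← map_mul, hc a ha b hb]
          · rw [Subgroup.zpowers_le, Subgroup.mem_comap, Subgroup.mem_centralizer_iff]
            rintro _ rfl
            exact (hxa a ha).symm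
        intro q
        obtain ⟨g, rfl⟩ := QuotientGroup.mk'_surjective D q
        have := hle2 (Subgroup.mem_top g)
        rw [Subgroup.mem_comap, Subgroup.mem_centralizer_iff] at this
        exact (this _ rfl).symm
      · rw [Subgroup.zpowers_le, Subgroup.mem_comap, Subgroup.mem_center_iff]
        have hle2 : (⊤ : Subgroup G) ≤ (Subgroup.centralizer {π x}).comap π := by
          rw [← hgen, sup_le_iff]
          constructor
          · intro b hb
            rw [Subgroup.mem_comap, Subgroup.mem_centralizer_iff]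
            rintro _ rfl
            exact hxa b hb
          · rw [Subgroup.zpowers_le, Subgroup.mem_comap, Subgroup.mem_centralizer_iff]
            rintro _ rfl
            rfl
        intro q
        obtain ⟨g, rfl⟩ := QuotientGroup.mk'_surjective D q
        have := hle2 (Subgroup.mem_top g)
        rw [Subgroup.mem_comap, Subgroup.mem_centralizer_iff] at this
        exact (this _ rfl).symm
    intro g
    exact hle (Subgroup.mem_top g)
  rw [commutator_def, Subgroup.commutator_le]
  intro g _ h _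
  rw [← QuotientGroup.eq_one_iff]
  change π ⁅g, h⁆ = 1
  rw [map_commutatorElement, commutatorElement_eq_one_iff_mul_comm]
  exact ((Subgroup.mem_center_iff.mp (hcen g)) (π h)).symm

/-- Let A be a commutative normal subgroup of the finite group G with G generated by A and an element x. Then a ↦ x a x⁻¹ a⁻¹ is a surjective homomorphism from A onto the commutator subgroup of G whose kernel is the centralizer of x in A; in particular the commutator subgroup has order equal to the index in A of that centralizer. -/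
theorem result {G : Type*} [Group G] [Finite G] (A : Subgroup G) [A.Normal] (hA : IsMulCommutative A) (x : G) (hgen : A ⊔ Subgroup.zpowers x = ⊤) : (∀ a ∈ A, x * a * x⁻¹ * a⁻¹ ∈ commutator G) ∧ (∀ c ∈ commutator G, ∃ a ∈ A, x * a * x⁻¹ * a⁻¹ = c) ∧ (∀ a ∈ A, ∀ b ∈ A, x * (a * b) * x⁻¹ * (a * b)⁻¹ = (x * a * x⁻¹ * a⁻¹) * (x * b * x⁻¹ * b⁻¹)) ∧ Nat.card (commutator G) * Nat.card ↥(A ⊓ Subgroup.centralizer ({x} : Set G)) = Nat.card A := by
  have h1 : ∀ a ∈ A, x * a * x⁻¹ * a⁻¹ ∈ commutator G := by
    intro a _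
    exact Subgroup.commutator_mem_commutator (Subgroup.mem_top x) (Subgroup.mem_top a)
  have heq : (commMap A hA x).range = commutator G := by
    apply le_antisymm
    · rintro _ ⟨⟨a, ha⟩, rfl⟩
      exact h1 a ha
    · exact commutator_le_range A hA x hgen
  refine ⟨h1, ?_, ?_, ?_⟩
  · intro c hc
    rw [← heq] at hc
    obtain ⟨⟨a, ha⟩, rfl⟩ := hc
    exact ⟨a, ha, rfl⟩
  · intro a ha b hb
    exact (commMap A hA x).map_mul ⟨a, ha⟩ ⟨b, hb⟩
  · have hk : (commMap A hA x).ker.map A.subtype = A ⊓ Subgroup.centralizer ({x} : Set G) := by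
      ext g
      constructor
      · rintro ⟨⟨a, ha⟩, hk, rfl⟩
        refine ⟨ha, ?_⟩
        change a ∈ Subgroup.centralizer {x}
        rw [Subgroup.mem_centralizer_iff]
        intro y hy
        have hy' : y = x := hy
        rw [hy']
        rw [SetLike.mem_coe, MonoidHom.mem_ker] at hk
        change x * a * x⁻¹ * a⁻¹ = 1 at hk
        change x * a = a * x
        calc x * a = (x * a * x⁻¹ * a⁻¹) * (a * x) := by group
          _ = a * x := by rw [hk, one_mul]
      · rintro ⟨ha, hc⟩
        refine ⟨⟨g, ha⟩, ?_, rfl⟩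
        rw [SetLike.mem_coe, MonoidHom.mem_ker]
        change x * g * x⁻¹ * g⁻¹ = 1
        change g ∈ Subgroup.centralizer {x} at hc
        rw [Subgroup.mem_centralizer_iff] at hc
        rw [hc x rfl]; group
    rw [← heq, ← hk, Subgroup.card_map_of_injective A.subtype_injective, ← Subgroup.index_ker, mul_comm]
    exact Subgroup.card_mul_index _

end Cfsg.Agent.S3866
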