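import Cfsg.Statements.S3379
import Mathlib
import Cfsg.Agent.S3866

set_option autoImplicit false
open Cfsg

namespace Cfsg.Agent.S3379

/-- Let G be a finite group all of whose Sylow subgroups are cyclic. Then G is generated by two elements x and y of coprime orders n and m with x⁻¹yx = y^r, where gcd(r − 1, m) = 1 and r^n ≡ 1 (mod m). -/
theorem result {G : Type*} [Group G] [Finite G]
    (hZ : ∀ (p : ℕ) [Fact p.Prime] (P : Sylow p G), IsCyclic (P : Subgroup G)) :
    ∃ (x y : G) (n m r : ℕ), Subgroup.closure {x, y} = ⊤ ∧ orderOf x = n ∧ orderOf y = m ∧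
      x⁻¹ * y * x = y ^ r ∧ Nat.Coprime (r - 1) m ∧ Nat.Coprime n m ∧ 1 ≤ r ∧ r ^ n % m = 1 % m := by
  classical
  have hG : IsZGroup G := ⟨fun p hp P => by have := Fact.mk hp; exact hZ p P⟩
  obtain ⟨H, hH⟩ := Subgroup.exists_right_complement'_of_coprime hG.coprime_commutator_index
  have h1 : Abelianization G ≃* H := hH.symm.QuotientMulEquiv
  have hHc : IsCyclic H := isCyclic_of_surjective _ h1.surjective
  have hNc : IsCyclic (commutator G) := hG.isCyclic_commutator
  have hcop : (Nat.card (commutator G)).Coprime (Nat.card H) :=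
    Nat.card_congr h1.toEquiv ▸ hG.coprime_commutator_index
  obtain ⟨⟨y, hyN⟩, hy⟩ := hNc.exists_generator
  obtain ⟨⟨x, hxH⟩, hx⟩ := hHc.exists_generator
  have hNz : commutator G = Subgroup.zpowers y := by
    apply le_antisymm
    · intro g hg
      obtain ⟨k, hk⟩ := Subgroup.mem_zpowers_iff.1 (hy ⟨g, hg⟩)
      refine Subgroup.mem_zpowers_iff.2 ⟨k, ?_⟩
      have := congrArg Subtype.val hk
      simpa using this
    · rw [Subgroup.zpowers_le]; exact hyN
  have hHz : H = Subgroup.zpowers x := by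
    apply le_antisymm
    · intro g hg
      obtain ⟨k, hk⟩ := Subgroup.mem_zpowers_iff.1 (hx ⟨g, hg⟩)
      refine Subgroup.mem_zpowers_iff.2 ⟨k, ?_⟩
      have := congrArg Subtype.val hk
      simpa using this
    · rw [Subgroup.zpowers_le]; exact hxH
  have hm : orderOf y = Nat.card (commutator G) := by
    rw [hNz, Nat.card_zpowers]
  have hn : orderOf x = Nat.card H := by
    rw [hHz, Nat.card_zpowers]
  have hsup : commutator G ⊔ H = ⊤ := hH.sup_eq_top
  have hmpos : 0 < orderOf y := orderOf_pos y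
  -- the conjugate
  have hconj : x⁻¹ * y * x ∈ Subgroup.zpowers y := by
    rw [← hNz]
    have := (inferInstance : (commutator G).Normal).conj_mem y hyN x⁻¹
    simpa using this
  obtain ⟨r0, hr0⟩ := (mem_powers_iff_mem_zpowers.2 hconj)
  have hr0' : y ^ r0 = x⁻¹ * y * x := hr0
  obtain ⟨r, hr, hr1⟩ : ∃ r : ℕ, x⁻¹ * y * x = y ^ r ∧ 1 ≤ r := by
    refine ⟨r0 + orderOf y, ?_, by omega⟩
    rw [pow_add, pow_orderOf_eq_one, mul_one, hr0']
  have hiter : ∀ k : ℕ, (x ^ k)⁻¹ * y * x ^ k = y ^ (r ^ k) := by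
    intro k
    induction k with
    | zero => simp
    | succ k ih =>
      have : (x ^ (k + 1))⁻¹ * y * x ^ (k + 1) = x⁻¹ * ((x ^ k)⁻¹ * y * x ^ k) * x := by
        rw [pow_succ]; group
      rw [this, ih]
      have h2 : x⁻¹ * y ^ (r ^ k) * x = (x⁻¹ * y * x) ^ (r ^ k) := by
        have := conj_pow (a := x⁻¹) (b := y) (i := r ^ k)
        simpa using this.symm
      rw [h2, hr, ← pow_mul, pow_succ, mul_comm]
  refine ⟨x, y, orderOf x, orderOf y, r, ?_, rfl, rfl, hr, ?_, ?_, hr1, ?_⟩
  · rw [← hsup, hNz, hHz, Subgroup.zpowers_eq_closure, Subgroup.zpowers_eq_closure,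
      ← Subgroup.closure_union, Set.union_comm]
    rfl
  · -- coprime (r-1) m
    have hA : IsMulCommutative (commutator G) := hNc.isMulCommutative
    have hgen : commutator G ⊔ Subgroup.zpowers x⁻¹ = ⊤ := by
      rw [Subgroup.zpowers_inv, ← hHz]; exact hsup
    obtain ⟨a, haN, ha⟩ := (Cfsg.Agent.S3866.result (commutator G) hA x⁻¹ hgen).2.1 y hyN
    rw [hNz] at haN
    obtain ⟨k, hk⟩ := (mem_powers_iff_mem_zpowers.2 haN)
    have hk' : y ^ k = a := hk
    have h2 : x⁻¹ * y ^ k * x = (x⁻¹ * y * x) ^ k := by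
      have := conj_pow (a := x⁻¹) (b := y) (i := k)
      simpa using this.symm
    rw [← hk', inv_inv, h2, hr, ← pow_mul] at ha
    have h3 : y ^ (r * k) = y ^ (1 + k) := by
      rw [pow_add, pow_one]
      calc y ^ (r * k) = (y ^ (r * k) * (y ^ k)⁻¹) * y ^ k := by rw [inv_mul_cancel_right]
        _ = y * y ^ k := by rw [ha]
    have h4 : r * k ≡ 1 + k [MOD orderOf y] := pow_eq_pow_iff_modEq.1 h3
    have h5 : (r - 1) * k ≡ 1 [MOD orderOf y] := by
      have : r * k = (r - 1) * k + k := by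
        obtain ⟨s, rfl⟩ : ∃ s, r = s + 1 := ⟨r - 1, by omega⟩
        simp; ring
      rw [this] at h4
      exact Nat.ModEq.add_right_cancel' k h4
    have h6 : Nat.Coprime ((r - 1) * k) (orderOf y) := by
      have := h5.gcd_eq
      rw [Nat.Coprime, this]; simp
    exact Nat.Coprime.coprime_mul_right h6
  · rw [hn, hm]; exact hcop.symm
  · have h := hiter (orderOf x)
    rw [pow_orderOf_eq_one] at h
    simp at h
    have h3 : y ^ (r ^ orderOf x) = y ^ 1 := by rw [← h, pow_one]
    exact pow_eq_pow_iff_modEq.1 h3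

end Cfsg.Agent.S3379
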