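import Cfsg.Statements.S0069
import Mathlib
import Cfsg.Agent.S0040
import Cfsg.Agent.S0041
import Cfsg.Agent.S0068
import Cfsg.Agent.S0056
import Cfsg.Agent.S3379
import Cfsg.Agent.Lib_helper1_Coprime

set_option autoImplicit false
open Cfsg

namespace Cfsg.Agent.S0069

open Cfsg.Agent

theorem norm_aux {G : Type*} [Group G] [Finite G] {t y : G} {R : ℕ} (h : t * y * t⁻¹ = y ^ R)
    (W : Subgroup G) (hW : W ≤ Subgroup.zpowers y) :
    Subgroup.zpowers t ≤ Subgroup.normalizer (W : Set G) := by
  have h1 : ∀ w ∈ W, t * w * t⁻¹ ∈ W := by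
    intro w hw
    obtain ⟨j, rfl⟩ := Subgroup.mem_zpowers_iff.1 (hW hw)
    have : t * y ^ j * t⁻¹ = (y ^ j) ^ R := by
      rw [← conj_zpow, h, ← zpow_natCast, ← zpow_natCast, ← zpow_mul, ← zpow_mul, mul_comm]
    rw [this]
    exact W.pow_mem hw R
  have h2 : ∀ i : ℕ, ∀ w ∈ W, t ^ i * w * (t ^ i)⁻¹ ∈ W := by
    intro i
    induction i with
    | zero => intro w hw; simpa using hw
    | succ i ih =>
      intro w hw
      have : t ^ (i + 1) * w * (t ^ (i + 1))⁻¹ = t * (t ^ i * w * (t ^ i)⁻¹) * t⁻¹ := by
        rw [pow_succ']; group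
      rw [this]
      exact h1 _ (ih w hw)
  apply H1.le_normalizer_of_forall
  intro a ha w hw
  obtain ⟨i, hi⟩ := mem_powers_iff_mem_zpowers.2 ha
  have hi' : t ^ i = a := hi
  rw [← hi']
  exact h2 i w hw

/-- A Frobenius complement has nontrivial centre: if H ≠ 1 complements a nontrivial normal subgroup K and every nonidentity element of H has trivial centraliser in K, then the centre of H is nontrivial. -/
theorem result {G : Type*} [Group G] [Finite G] (K H : Subgroup G) [K.Normal]
    (hc : Subgroup.IsComplement' K H) (hK : K ≠ ⊥) (hH : H ≠ ⊥) (hfpf : ∀ h ∈ H, h ≠ 1 → K ⊓ Subgroup.centralizer {h} = ⊥) :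
    Subgroup.center H ≠ ⊥ := by
  classical
  have hfpf' : ∀ h ∈ H, h ≠ 1 → ∀ k ∈ K, k * h = h * k → k = 1 := by
    intro h hh h1 k hk hkh
    have h2 : k ∈ K ⊓ Subgroup.centralizer {h} :=
      ⟨hk, Subgroup.mem_centralizer_singleton_iff.2 hkh⟩
    rw [hfpf h hh h1, Subgroup.mem_bot] at h2
    exact h2
  obtain ⟨hF, hker⟩ := Cfsg.Agent.LeadFrob.frob_of_complement K H hc hK hH hfpf'
  obtain ⟨V, hVK, hV1, hVc, hHV⟩ :=
    Cfsg.Agent.LeadFrob.exists_invariant_abelian H K hF hker.symm inferInstance hc
  by_cases heven : 2 ∣ Nat.card H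
  · obtain ⟨⟨s, hsH, hs2, huniq, -⟩, -⟩ := Cfsg.Agent.S0068.result K H hc hK hfpf heven
    intro hbot
    have hmem : (⟨s, hsH⟩ : H) ∈ Subgroup.center H := by
      rw [Subgroup.mem_center_iff]
      intro g
      have h1 : (g : G) * s * (g : G)⁻¹ = s := by
        apply huniq _ (H.mul_mem (H.mul_mem g.2 hsH) (H.inv_mem g.2))
        have := MulEquiv.orderOf_eq (MulAut.conj (g : G)) s
        rw [MulAut.conj_apply] at this
        rw [this, hs2]
      apply Subtype.ext
      change (g : G) * s = s * (g : G)
      calc (g : G) * s = ((g : G) * s * (g : G)⁻¹) * g := by group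
        _ = s * g := by rw [h1]
    rw [hbot, Subgroup.mem_bot] at hmem
    have hs1 : s = 1 := congrArg Subtype.val hmem
    rw [hs1, orderOf_one] at hs2
    omega
  · have hZ : ∀ (p : ℕ) [Fact p.Prime] (P : Sylow p H), IsCyclic (P : Subgroup H) := by
      intro p _ P
      rcases Cfsg.Agent.S0040.result K H hc hK hfpf p P with h | ⟨n, ⟨e⟩⟩
      · exact h
      · exfalso
        apply heven
        have h1 : Nat.card (P : Subgroup H) = 4 * 2 ^ n := by
          rw [Nat.card_congr e.toEquiv, Nat.card_eq_fintype_card, QuaternionGroup.card]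
        have h2 : Nat.card (P : Subgroup H) ∣ Nat.card H := Subgroup.card_subgroup_dvd_card _
        rw [h1] at h2
        exact (Dvd.intro (2 * 2 ^ n) (by ring)).trans h2
    have hsolvH : Group.IsSolvable H := by
      have : IsZGroup H := ⟨fun p hp P => by have := Fact.mk hp; exact hZ p P⟩
      infer_instance
    obtain ⟨x, y, n, m, r, hgen, hxn, hym, hconj, -, hnm, -, -⟩ := Cfsg.Agent.S3379.result hZ
    -- a criterion for centrality
    have hcrit : ∀ z : H, z * x = x * z → z * y = y * z → z ≠ 1 → Subgroup.center H ≠ ⊥ := by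
      intro z hzx hzy hz1 hbot
      have hle : Subgroup.closure {x, y} ≤ Subgroup.centralizer {z} := by
        rw [Subgroup.closure_le]
        rintro a (rfl | rfl)
        · exact Subgroup.mem_centralizer_singleton_iff.2 hzx.symm
        · exact Subgroup.mem_centralizer_singleton_iff.2 hzy.symm
      have hmem : z ∈ Subgroup.center H := by
        rw [Subgroup.mem_center_iff]
        intro g
        have : g ∈ Subgroup.centralizer {z} := hle (by rw [hgen]; trivial)
        exact Subgroup.mem_centralizer_singleton_iff.1 this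
      rw [hbot, Subgroup.mem_bot] at hmem
      exact hz1 hmem
    by_cases hn1 : n = 1
    · have hx1 : x = 1 := by rw [← orderOf_eq_one_iff, hxn, hn1]
      apply hcrit y (by rw [hx1]; simp) rfl
      intro hy1
      apply hH
      rw [hx1, hy1] at hgen
      have h1 : (⊤ : Subgroup H) = ⊥ := by
        rw [← hgen]; simp
      rw [eq_bot_iff]
      intro g hg
      have : (⟨g, hg⟩ : H) ∈ (⊤ : Subgroup H) := trivial
      rw [h1, Subgroup.mem_bot] at this
      exact Subgroup.mem_bot.2 (congrArg Subtype.val this)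
    · obtain ⟨p, hp, hpn⟩ := Nat.exists_prime_and_dvd hn1
      obtain ⟨k, hk⟩ := hpn
      have hn0 : 0 < n := by rw [← hxn]; exact orderOf_pos x
      have hk0 : k ≠ 0 := by
        rintro rfl
        rw [mul_zero] at hk; omega
      have hzo : orderOf (x ^ k) = p := by
        rw [orderOf_pow_of_dvd hk0 (by rw [hxn, hk]; exact Dvd.intro_left _ rfl), hxn, hk]
        exact Nat.mul_div_cancel _ (Nat.pos_of_ne_zero hk0)
      have hiter : ∀ k : ℕ, (x ^ k)⁻¹ * y * x ^ k = y ^ (r ^ k) := by
        intro k
        induction k with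
        | zero => simp
        | succ k ih =>
          have : (x ^ (k + 1))⁻¹ * y * x ^ (k + 1) = x⁻¹ * ((x ^ k)⁻¹ * y * x ^ k) * x := by
            rw [pow_succ]; group
          rw [this, ih]
          have h2 : x⁻¹ * y ^ (r ^ k) * x = (x⁻¹ * y * x) ^ (r ^ k) := by
            have := conj_pow (a := x⁻¹) (b := y) (i := r ^ k)
            simpa using this.symm
          rw [h2, hconj, ← pow_mul, pow_succ, mul_comm]
      obtain ⟨t, ht⟩ : ∃ t : G, t = (((x ^ k)⁻¹ : H) : G) := ⟨_, rfl⟩
      obtain ⟨y', hy'⟩ : ∃ y' : G, y' = (y : G) := ⟨_, rfl⟩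
      have htH : t ∈ H := ht ▸ ((x ^ k)⁻¹ : H).2
      have hy'H : y' ∈ H := hy' ▸ y.2
      have hto : orderOf t = p := by
        rw [ht, Subgroup.orderOf_coe, orderOf_inv, hzo]
      have hy'o : orderOf y' = m := by rw [hy', Subgroup.orderOf_coe, hym]
      have hty : t * y' * t⁻¹ = y' ^ (r ^ k) := by
        have := congrArg (Subtype.val) (hiter k)
        rw [ht, hy']
        simpa using this
      have hpm : p.Coprime m := hnm.coprime_dvd_left (by rw [hk]; exact Dvd.intro _ rfl)
      have hcent : Subgroup.zpowers t ≤ Subgroup.centralizer (Subgroup.zpowers y' : Set G) := by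
        apply Cfsg.Agent.S0056.result (Subgroup.zpowers t) (Subgroup.zpowers y')
          (norm_aux hty _ le_rfl)
          (by rw [Nat.card_zpowers, Nat.card_zpowers, hto, hy'o]; exact hpm)
        intro v hv hvq a ha
        have hvH : v ∈ H := by
          have : Subgroup.zpowers y' ≤ H := by rw [Subgroup.zpowers_le]; exact hy'H
          exact this hv
        have hBH : Subgroup.zpowers v ⊔ Subgroup.zpowers t ≤ H := by
          rw [sup_le_iff, Subgroup.zpowers_le, Subgroup.zpowers_le]; exact ⟨hvH, htH⟩
        have hqm : orderOf v ∣ m := by rw [← hy'o]; exact orderOf_dvd_of_mem_zpowers hv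
        have hcop : (Nat.card (Subgroup.zpowers v)).Coprime (Nat.card (Subgroup.zpowers t)) := by
          rw [Nat.card_zpowers, Nat.card_zpowers, hto]
          exact (hpm.coprime_dvd_right hqm).symm
        have hcard : Nat.card (Subgroup.zpowers v ⊔ Subgroup.zpowers t : Subgroup G)
            = orderOf v * p := by
          have h1 := H1.card_sup_mul_card_inf' (Subgroup.zpowers v) (Subgroup.zpowers t)
            (norm_aux hty _ (by rw [Subgroup.zpowers_le]; exact hv))
          rw [(Subgroup.disjoint_of_coprime_natCard hcop).eq_bot, Subgroup.card_bot, mul_one,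
            Nat.card_zpowers, Nat.card_zpowers, hto] at h1
          exact h1
        have hcyc : IsCyclic (Subgroup.zpowers v ⊔ Subgroup.zpowers t : Subgroup G) := by
          apply Cfsg.Agent.S0041.result _ V hV1 (hBH.trans hHV) ?_
            (Or.inr ⟨orderOf v, p, hvq, hp, hcard⟩)
          intro b hb hb1
          rw [eq_bot_iff, ← hfpf b (hBH hb) hb1]
          exact inf_le_inf_right _ hVK
        have hcomm := hcyc.isMulCommutative.is_comm.comm
          ⟨a, le_sup_right (a := Subgroup.zpowers v) ha⟩
          ⟨v, le_sup_left (b := Subgroup.zpowers t) (Subgroup.mem_zpowers v)⟩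
        exact congrArg Subtype.val hcomm
      have hty' : y' * t = t * y' :=
        (Subgroup.mem_centralizer_iff.1 (hcent (Subgroup.mem_zpowers t))) y' (Subgroup.mem_zpowers y')
      have hzy : (x ^ k)⁻¹ * y = y * (x ^ k)⁻¹ := by
        apply Subtype.ext
        have : t * y' = y' * t := hty'.symm
        rw [ht, hy'] at this
        simpa using this
      apply hcrit ((x ^ k)⁻¹) ?_ hzy ?_
      · group
      · intro h1
        rw [inv_eq_one] at h1
        rw [h1, orderOf_one] at hzo
        exact hp.one_lt.ne hzo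

end Cfsg.Agent.S0069
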