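import Mathlib
import Cfsg.Statements.S0075
import Cfsg.Agent.Lib_helper1_Transfer

set_option autoImplicit false
open Cfsg

namespace Cfsg.Agent.S0075

open scoped commutatorElement

/-- For an abelian Sylow p-subgroup T, its intersection with the subgroup generated by the elements of order prime to p is the commutator of T with its normalizer. -/
theorem result {G : Type*} [Group G] [Finite G] {p : ℕ} [Fact p.Prime] (T : Sylow p G) (hT : IsMulCommutative T) : (T : Subgroup G) ⊓ Cfsg.pResidual p G = ⁅(T : Subgroup G), Subgroup.normalizer (T : Set G)⁆ := by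
  haveI := Cfsg.Agent.H1.pResidual_normal (G := G) p
  apply le_antisymm
  · have h1 : Cfsg.pResidual p G ≤ (T : Subgroup G).transferFocal.ker :=
      Cfsg.Agent.H1.pResidual_le_ker p (T.2.to_quotient _) _
    have h2 : (T : Subgroup G) ⊓ Cfsg.pResidual p G ≤ (T : Subgroup G).focalSubgroup := by
      rw [← Subgroup.ker_transferFocal_inf_eq_focalSubgroup T, inf_comm]
      exact inf_le_inf_right _ h1
    refine h2.trans ?_
    apply Cfsg.Agent.H1.focalSubgroup_le_of_control
    intro x hx u hu
    obtain ⟨n, hn, hnx⟩ := T.conj_eq_normalizer_conj_of_mem x u⁻¹ hx (by rw [inv_inv]; exact hu)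
    rw [inv_inv] at hnx
    rw [hnx]
    have : x * (n⁻¹ * x * n)⁻¹ = ⁅x, n⁻¹⁆ := by rw [commutatorElement_def]; group
    rw [this]
    exact Subgroup.commutator_mem_commutator hx (inv_mem hn)
  · refine le_inf ?_ ?_
    · exact Cfsg.Agent.H1.commutator_le_of_le_normalizer (K := (T : Subgroup G)) le_rfl
    · refine le_trans (Subgroup.commutator_mono le_top le_top) ?_
      exact Cfsg.Agent.H1.commutator_le_of_abelian_sylow T hT _
        (Cfsg.Agent.H1.isPGroup_quotient_pResidual p)

end Cfsg.Agent.S0075
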