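import Mathlib
import Cfsg.Statements.S0082
import Cfsg.Agent.Lib_helper1_AbSylow
import Cfsg.Agent.S0075

set_option autoImplicit false
open Cfsg

namespace Cfsg.Agent.S0082

open Cfsg.Agent.H1 Subgroup

/-- With a cyclic Sylow p-subgroup, either there is a normal p-complement or the elements of order prime to p generate the whole group. -/
theorem result {G : Type*} [Group G] [Finite G] {p : ℕ} [Fact p.Prime] (P : Sylow p G) (hP : IsCyclic P) : Cfsg.HasNormalPComplement p G ∨ Cfsg.pResidual p G = ⊤ := by
  have hab : IsMulCommutative P := ⟨⟨fun a b => IsCyclic.commGroup.mul_comm a b⟩⟩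
  have h75 := Cfsg.Agent.S0075.result P hab
  have hinf := abelian_sylow_decomp_inf P hab
  have hsup := abelian_sylow_decomp_sup P hab
  haveI hRn := pResidual_normal (G := G) p
  have htop : (P : Subgroup G) ⊔ Cfsg.pResidual p G = ⊤ :=
    sylow_sup_eq_top_of_isPGroup_quotient P _ (isPGroup_quotient_pResidual p)
  have hW : ⁅(P : Subgroup G), normalizer ((P : Subgroup G) : Set G)⁆ ≤ (P : Subgroup G) :=
    commutator_le_of_le_normalizer le_rfl
  rcases le_total_of_cyclic_pgroup hP P.2 (inf_le_left :
    (P : Subgroup G) ⊓ centralizer (normalizer ((P : Subgroup G) : Set G) : Set G) ≤ P) hW with h | h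
  · right
    rw [inf_eq_left.mpr h] at hinf
    rw [hinf, bot_sup_eq] at hsup
    have h1 : (P : Subgroup G) ≤ Cfsg.pResidual p G := by
      have h2 : (P : Subgroup G) ⊓ Cfsg.pResidual p G = P := h75.trans hsup
      exact inf_eq_left.mp h2
    rw [← htop]
    exact (sup_eq_right.mpr h1).symm
  · left
    rw [inf_eq_right.mpr h] at hinf
    have h2 : (P : Subgroup G) ⊓ Cfsg.pResidual p G = ⊥ := h75.trans hinf
    rw [hasNormalPComplement_iff]
    have h3 := card_sup_mul_card_inf (P : Subgroup G) (Cfsg.pResidual p G)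
    rw [htop, h2, card_bot, mul_one, card_top, ← (P : Subgroup G).index_mul_card, mul_comm] at h3
    have h4 : (P : Subgroup G).index = Nat.card (Cfsg.pResidual p G) :=
      Nat.eq_of_mul_eq_mul_left Nat.card_pos h3
    rw [← h4]
    exact ((Nat.Prime.coprime_iff_not_dvd Fact.out).mpr P.not_dvd_index).symm

end Cfsg.Agent.S0082
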