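import Mathlib
import Cfsg.Statements.S0086
import Cfsg.Agent.Lib_helper1_Transfer

set_option autoImplicit false
open Cfsg

namespace Cfsg.Agent.S0086


/-- A normal complement to a Sylow p-subgroup is exactly the set of elements of order prime to p. -/
theorem result {G : Type*} [Group G] [Finite G] {p : ℕ} [Fact p.Prime] (P : Sylow p G) (N : Subgroup G) [N.Normal] (hN : N.IsComplement' (P : Subgroup G)) (x : G) : x ∈ N ↔ Nat.Coprime (orderOf x) p := by
  have hp : p.Prime := Fact.out
  constructor
  · intro hx
    have h1 : orderOf x ∣ Nat.card N := by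
      have := orderOf_dvd_natCard (⟨x, hx⟩ : N)
      rwa [Subgroup.orderOf_mk] at this
    have h2 : ¬ p ∣ Nat.card N := by
      rw [← hN.index_eq_card]
      exact P.not_dvd_index
    exact Nat.Coprime.coprime_dvd_left h1 ((Nat.Prime.coprime_iff_not_dvd hp).mpr h2).symm
  · intro hx
    rw [← QuotientGroup.eq_one_iff]
    obtain ⟨k, hk⟩ := IsPGroup.iff_card.mp P.2
    apply Cfsg.Agent.H1.eq_one_of_pow_eq_one_of_coprime (n := orderOf x)
    · rw [← QuotientGroup.mk_pow, pow_orderOf_eq_one]
      rfl
    · rw [← Subgroup.index_eq_card, hN.symm.index_eq_card, hk]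
      exact Nat.Coprime.pow_right k hx

end Cfsg.Agent.S0086
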