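import Cfsg.Statements.S0175
import Mathlib
import Cfsg.Agent.Lib_helper4_CharL

set_option autoImplicit false
open Cfsg

namespace Cfsg.Agent.S0175

open Cfsg in
/-- a character is constant `= Φ 1` at `x` if all irreducible characters of smaller degree are -/
theorem char_const_of_irr {G : Type*} [Group G] [Fintype G] (Φ : G → ℂ) (hΦ : IsCharacter G Φ)
    (d : ℕ) (hd : Φ 1 = d) (x : G)
    (h : ∀ β : G → ℂ, IsIrrCharacter G β → ∀ n : ℕ, β 1 = n → n ≤ d → β x = β 1) : Φ x = Φ 1 := by
  classical
  have := Fintype.ofFinite (IrrCharacter G)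
  obtain ⟨m, hm⟩ := H4.IsCharacter.exists_mult hΦ
  choose deg hdeg0 _ hdeg using fun β : IrrCharacter G => H4.IsIrrCharacter.exists_degree β.2
  have h1 : (d : ℂ) = ∑ β, (m β : ℂ) * (deg β : ℂ) := by
    rw [← hd, hm]; simp [Finset.sum_apply, hdeg]
  have h1' : d = ∑ β, m β * deg β := by exact_mod_cast h1
  rw [hm]
  simp only [Finset.sum_apply, Pi.smul_apply, smul_eq_mul]
  apply Finset.sum_congr rfl
  intro β _
  by_cases hmβ : m β = 0
  · simp [hmβ]
  · congr 1
    apply h β.1 β.2 (deg β) (hdeg β)
    calc deg β ≤ m β * deg β := Nat.le_mul_of_pos_left _ (Nat.pos_of_ne_zero hmβ)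
      _ ≤ ∑ β, m β * deg β :=
        Finset.single_le_sum (f := fun β => m β * deg β) (fun _ _ => Nat.zero_le _) (Finset.mem_univ β)
      _ = d := h1'.symm

open Cfsg in
/-- if the permutation character on `G/H` takes its degree at `x` then `x ∈ H` -/
theorem mem_of_permChar {G : Type*} [Group G] [Fintype G] (H : Subgroup G) (x : G)
    (h : indFun H (fun _ => 1) x = indFun H (fun _ => 1) 1) : x ∈ H := by
  classical
  rw [H4.indFun_apply_one] at h
  unfold indFun at h
  have h1 : ∀ g : G, extendByZero H (fun _ => (1 : ℂ)) (g⁻¹ * x * g)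
      = if g⁻¹ * x * g ∈ H then 1 else 0 := by
    intro g
    by_cases hg : g⁻¹ * x * g ∈ H
    · rw [if_pos hg, H4.extendByZero_mem H _ hg]
    · rw [if_neg hg, H4.extendByZero_not_mem H _ hg]
  simp only [h1] at h
  rw [Finset.sum_boole, mul_one] at h
  have hH : (Nat.card H : ℂ) ≠ 0 := by exact_mod_cast Nat.card_pos.ne'
  have h2 : ((Finset.univ.filter (fun g : G => g⁻¹ * x * g ∈ H)).card : ℂ)
      = ((H.index * Nat.card H : ℕ) : ℂ) := by
    push_cast
    rw [← h]; field_simp
  have h3 : (Finset.univ.filter (fun g : G => g⁻¹ * x * g ∈ H)).card = Fintype.card G := by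
    rw [← Nat.card_eq_fintype_card, ← H.index_mul_card]
    exact_mod_cast h2
  have h4 : Finset.univ.filter (fun g : G => g⁻¹ * x * g ∈ H) = Finset.univ :=
    Finset.eq_univ_of_card _ h3
  have h5 : (1 : G) ∈ Finset.univ.filter (fun g : G => g⁻¹ * x * g ∈ H) := by
    rw [h4]; exact Finset.mem_univ _
  simpa using h5

open Cfsg in
theorem taketa_aux {G : Type*} [Group G] [Fintype G]
    (hM : ∀ χ : G → ℂ, IsIrrCharacter G χ → ∃ (H : Subgroup G) (lam : H →* ℂˣ),
      χ = indFun H (fun h => (lam h : ℂ))) :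
    ∀ d : ℕ, ∃ k : ℕ, ∀ β : G → ℂ, IsIrrCharacter G β → ∀ n : ℕ, β 1 = n → n ≤ d + 1 →
      ∀ x ∈ derivedSeries G k, β x = β 1 := by
  classical
  intro d
  induction d with
  | zero =>
    refine ⟨1, fun β hβ n hn hle x hx => ?_⟩
    obtain ⟨n', hn'0, -, hn'⟩ := H4.IsIrrCharacter.exists_degree hβ
    have hnn : n = n' := by
      have : (n : ℂ) = n' := by rw [← hn, hn']
      exact_mod_cast this
    have hn1 : n = 1 := by omega
    have hβ1 : β 1 = 1 := by rw [hn, hn1]; simp
    rw [derivedSeries_one] at hx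
    rw [H4.linear_commutator (H4.IsIrrCharacter.isCharacter hβ) hβ1 x hx, hβ1]
  | succ d ih =>
    obtain ⟨k, hk⟩ := ih
    refine ⟨k + 1, fun β hβ n hn hle y hy => ?_⟩
    have hDle : derivedSeries G (k + 1) ≤ derivedSeries G k := by
      rw [derivedSeries_succ]; exact Subgroup.commutator_le_left _ _
    by_cases hle' : n ≤ d + 1
    · exact hk β hβ n hn hle' y (hDle hy)
    · have hn2 : n = d + 2 := by omega
      obtain ⟨H, lam, hβeq⟩ := hM β hβ
      have hidx : H.index = n := by
        have h1 := H4.indFun_apply_one H (fun h => (lam h : ℂ))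
        rw [← hβeq, hn] at h1
        simp only [map_one, Units.val_one, mul_one] at h1
        exact_mod_cast h1.symm
      -- the permutation character
      have hπ : IsCharacter G (indFun H (fun _ => 1)) := H4.IsCharacter.ind H H4.IsCharacter.one
      have hπ1 : classInner (indFun H (fun _ => 1)) ((H4.trivIrr G : IrrCharacter G) : G → ℂ) ≠ 0 := by
        rw [H4.frobenius_reciprocity H _ _
          (H4.IsCharacter.isClassFunction (H4.IsIrrCharacter.isCharacter (H4.trivIrr G).2))]
        have := H4.IsIrrCharacter.norm_one (H4.trivIrr H).2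
        have e : classInner (fun _ : H => (1 : ℂ))
            (fun h : H => ((H4.trivIrr G : IrrCharacter G) : G → ℂ) h) = 1 := this
        rw [e]; exact one_ne_zero
      have hΦ := H4.IsCharacter.sub_constituent hπ (H4.trivIrr G).2 hπ1
      have hΦ1 : (indFun H (fun _ => 1) - ((H4.trivIrr G : IrrCharacter G) : G → ℂ)) 1
          = ((d + 1 : ℕ) : ℂ) := by
        rw [Pi.sub_apply, H4.indFun_apply_one, hidx, hn2]
        simp [H4.trivIrr]
        ring
      have hDH : derivedSeries G k ≤ H := by
        intro x hx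
        apply mem_of_permChar H x
        have h1 := char_const_of_irr _ hΦ (d + 1) hΦ1 x
          (fun γ hγ m hm hmle => hk γ hγ m hm hmle x hx)
        simp only [Pi.sub_apply] at h1
        have h2 : ((H4.trivIrr G : IrrCharacter G) : G → ℂ) x
            = ((H4.trivIrr G : IrrCharacter G) : G → ℂ) 1 := rfl
        rw [h2] at h1
        exact sub_left_injective h1
      have hker : ∀ z ∈ derivedSeries G (k + 1), ∃ hz : z ∈ H, lam ⟨z, hz⟩ = 1 := by
        have hle2 : derivedSeries G (k + 1) ≤ (lam.ker).map H.subtype := by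
          rw [derivedSeries_succ, Subgroup.commutator_le]
          intro a ha b hb
          refine ⟨⟨a, hDH ha⟩ * ⟨b, hDH hb⟩ * ⟨a, hDH ha⟩⁻¹ * ⟨b, hDH hb⟩⁻¹, ?_, rfl⟩
          rw [SetLike.mem_coe, MonoidHom.mem_ker]
          simp only [map_mul, map_inv]
          rw [mul_comm (lam ⟨a, hDH ha⟩) (lam ⟨b, hDH hb⟩)]
          group
        intro z hz
        obtain ⟨w, hw, rfl⟩ := hle2 hz
        exact ⟨w.2, hw⟩
      have hval : ∀ z ∈ derivedSeries G (k + 1),
          extendByZero H (fun h => (lam h : ℂ)) z = 1 := by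
        intro z hz
        obtain ⟨hzH, hz1⟩ := hker z hz
        rw [H4.extendByZero_mem H _ hzH, hz1]; simp
      have hnorm : (derivedSeries G (k + 1)).Normal := inferInstance
      have e1 : ∀ z ∈ derivedSeries G (k + 1), β z = (Nat.card H : ℂ)⁻¹ * (Fintype.card G : ℂ) := by
        intro z hz
        rw [hβeq]
        unfold indFun
        have h3 : ∀ g : G, extendByZero H (fun h => (lam h : ℂ)) (g⁻¹ * z * g) = 1 := by
          intro g
          apply hval
          have := hnorm.conj_mem z hz g⁻¹
          rwa [inv_inv] at this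
        simp only [h3, Finset.sum_const, Finset.card_univ, nsmul_eq_mul, mul_one]
      rw [e1 y hy, e1 1 (one_mem _)]

/-- Taketa's Theorem on M-groups: if every irreducible complex character of a finite group is induced from a linear character (a homomorphism to ℂˣ) of some subgroup, the group is solvable. -/
theorem result {G : Type*} [Group G] [Fintype G] (hM : ∀ χ : G → ℂ, Cfsg.IsIrrCharacter G χ → ∃ (H : Subgroup G) (lam : H →* ℂˣ), χ = Cfsg.indFun H (fun h => (lam h : ℂ))) : Group.IsSolvable G := by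
  classical
  obtain ⟨k, hk⟩ := taketa_aux hM (Nat.card G)
  rw [Group.isSolvable_def]
  refine ⟨k, ?_⟩
  rw [eq_bot_iff]
  intro x hx
  rw [Subgroup.mem_bot]
  have hreg : Cfsg.IsCharacter G (Representation.leftRegular ℂ G).character :=
    H4.isCharacter_of_rep _
  have h1 := char_const_of_irr _ hreg (Nat.card G) (by rw [H4.char_leftRegular, if_pos rfl]) x
    (fun β hβ n hn hle => hk β hβ n hn (by omega) x hx)
  rw [H4.char_leftRegular, H4.char_leftRegular, if_pos rfl] at h1
  by_contra hne
  rw [if_neg hne] at h1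
  have : (Nat.card G : ℂ) ≠ 0 := by exact_mod_cast Nat.card_pos.ne'
  exact this h1.symm

end Cfsg.Agent.S0175
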