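import Cfsg.Statements.S0184
import Mathlib
import Cfsg.Agent.Lib_helper4_CharL
import Cfsg.Agent.S0175

set_option autoImplicit false
open Cfsg

namespace Cfsg.Agent.S0184

open Subgroup in
theorem normal_inf_center_ne_bot {G : Type*} [Group G] [Finite G] {p : ℕ} [hp : Fact p.Prime]
    (hG : IsPGroup p G) (N : Subgroup G) [hN : N.Normal] (hne : N ≠ ⊥) : N ⊓ center G ≠ ⊥ := by
  have hNp : IsPGroup p N := hG.to_subgroup N
  have hnt : Nontrivial N := (nontrivial_iff_ne_bot N).2 hne
  have dvd : p ∣ Nat.card N := by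
    obtain ⟨n, hn0, hn⟩ := hNp.nontrivial_iff_card.mp hnt
    exact hn.symm ▸ dvd_pow_self _ (ne_of_gt hn0)
  have h1 : (1 : N) ∈ MulAction.fixedPoints (ConjAct G) N := by
    intro g
    apply Subtype.ext
    rw [ConjAct.Subgroup.val_conj_smul]
    simp
  obtain ⟨b, hb, hb1⟩ :=
    (hG.of_equiv ConjAct.toConjAct).exists_fixed_point_of_prime_dvd_card_of_fixed_point N dvd h1
  intro hbot
  apply hb1
  have hbc : (b : G) ∈ N ⊓ center G := by
    refine mem_inf.2 ⟨b.2, ?_⟩
    rw [mem_center_iff]
    intro g
    have h2 := congrArg Subtype.val (hb (ConjAct.toConjAct g))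
    rw [ConjAct.Subgroup.val_conj_smul, ConjAct.toConjAct_smul] at h2
    calc g * (b : G) = g * b * g⁻¹ * g := by group
      _ = b * g := by rw [h2]
  rw [hbot, mem_bot] at hbc
  exact (Subtype.ext hbc).symm

open Subgroup in
theorem mem_zpowers_of_cyclic {Z : Type*} [Group Z] [Finite Z] [IsCyclic Z] {p : ℕ} (hp : p.Prime)
    {w z : Z} (hw : orderOf w = p) (hz : z ^ p = 1) : z ∈ zpowers w := by
  classical
  have := Fintype.ofFinite Z
  have h1 := IsCyclic.card_pow_eq_one_le (α := Z) hp.pos
  have hT : ((zpowers w : Set Z).toFinset).card = p := by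
    rw [Set.toFinset_card, ← Nat.card_eq_fintype_card]
    exact (Nat.card_zpowers w).trans hw
  have hsub : (zpowers w : Set Z).toFinset ⊆ Finset.univ.filter (fun a : Z => a ^ p = 1) := by
    intro a ha
    rw [Set.mem_toFinset] at ha
    rw [Finset.mem_filter]
    refine ⟨Finset.mem_univ _, ?_⟩
    obtain ⟨k, rfl⟩ := mem_zpowers_iff.1 ha
    rw [← zpow_natCast, ← zpow_mul, mul_comm, zpow_mul, zpow_natCast, ← hw, pow_orderOf_eq_one,
      one_zpow]
  have heq := Finset.eq_of_subset_of_card_le hsub (h1.trans_eq hT.symm)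
  have hzm : z ∈ Finset.univ.filter (fun a : Z => a ^ p = 1) :=
    Finset.mem_filter.2 ⟨Finset.mem_univ _, hz⟩
  rw [← heq, Set.mem_toFinset] at hzm
  exact hzm

/-- A finite p-group admits a faithful irreducible complex representation if and only if its centre is cyclic. -/
theorem result {G : Type*} [Group G] [Finite G] (p : ℕ) [Fact p.Prime] (hG : IsPGroup p G) : (∃ (n : ℕ) (ρ : Representation ℂ G (Fin n → ℂ)), ρ.IsIrreducible ∧ Function.Injective ρ) ↔ IsCyclic (Subgroup.center G) := by
  classical
  have hp : p.Prime := Fact.out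
  have := Fintype.ofFinite G
  constructor
  · rintro ⟨n, ρ, hirr, hinj⟩
    have hnt : Nontrivial (Fin n → ℂ) := ((H4.irreducible_iff ρ).1 hirr).1
    obtain ⟨v, hv⟩ := exists_ne (0 : Fin n → ℂ)
    have hsc : ∀ z : Subgroup.center G, ∃ c : ℂ, ρ z = c • LinearMap.id := by
      intro z
      apply H4.schur_scalar ρ
      intro g
      rw [← Module.End.mul_eq_comp, ← Module.End.mul_eq_comp, ← map_mul, ← map_mul,
        Subgroup.mem_center_iff.mp z.2 g]
    choose c hc using hsc
    have hcv : ∀ z : Subgroup.center G, ρ z v = c z • v := fun z => by rw [hc]; simp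
    have hinjv : Function.Injective (fun a : ℂ => a • v) := smul_left_injective ℂ hv
    let f : Subgroup.center G →* ℂ :=
      { toFun := c
        map_one' := by
          apply hinjv
          simp only
          rw [← hcv]; simp
        map_mul' := fun a b => by
          apply hinjv
          simp only
          rw [← hcv, Subgroup.coe_mul, map_mul, Module.End.mul_apply, hcv, map_smul, hcv, smul_smul,
            mul_comm] }
    apply isCyclic_of_injective_ringHom f
    intro a b hab
    apply Subtype.ext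
    apply hinj
    have hab' : c a = c b := hab
    rw [hc, hc, hab']
  · intro hcyc
    by_cases hnt : Nontrivial G
    · have hZnt : Nontrivial (Subgroup.center G) := hG.center_nontrivial
      have hZp : IsPGroup p (Subgroup.center G) := hG.to_subgroup _
      have dvd : p ∣ Nat.card (Subgroup.center G) := by
        obtain ⟨n, hn0, hn⟩ := hZp.nontrivial_iff_card.mp hZnt
        exact hn.symm ▸ dvd_pow_self _ (ne_of_gt hn0)
      obtain ⟨z₁, hz₁⟩ := exists_prime_orderOf_dvd_card' (G := Subgroup.center G) p dvd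
      have hz₁ne : (z₁ : G) ≠ 1 := by
        intro h
        have : z₁ = 1 := Subtype.ext h
        rw [this, orderOf_one] at hz₁
        exact hp.one_lt.ne hz₁
      have hex : ∃ χ : G → ℂ, Cfsg.IsIrrCharacter G χ ∧ χ z₁ ≠ χ 1 := by
        by_contra hcon
        push Not at hcon
        have hreg : Cfsg.IsCharacter G (Representation.leftRegular ℂ G).character :=
          H4.isCharacter_of_rep _
        have h1 := S0175.char_const_of_irr _ hreg (Nat.card G)
          (by rw [H4.char_leftRegular, if_pos rfl]) (z₁ : G) (fun β hβ _ _ _ => hcon β hβ)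
        rw [H4.char_leftRegular, H4.char_leftRegular, if_pos rfl, if_neg hz₁ne] at h1
        have : (Nat.card G : ℂ) ≠ 0 := by exact_mod_cast Nat.card_pos.ne'
        exact this h1.symm
      obtain ⟨χ, ⟨n, ρ, hirr, rfl⟩, hne⟩ := hex
      refine ⟨n, ρ, hirr, ?_⟩
      rw [← MonoidHom.ker_eq_bot_iff]
      by_contra hker
      have hK := normal_inf_center_ne_bot hG (MonoidHom.ker ρ) hker
      have hKnt : Nontrivial (MonoidHom.ker ρ ⊓ Subgroup.center G : Subgroup G) :=
        (Subgroup.nontrivial_iff_ne_bot _).2 hK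
      have hKp : IsPGroup p (MonoidHom.ker ρ ⊓ Subgroup.center G : Subgroup G) := hG.to_subgroup _
      have dvd2 : p ∣ Nat.card (MonoidHom.ker ρ ⊓ Subgroup.center G : Subgroup G) := by
        obtain ⟨n, hn0, hn⟩ := hKp.nontrivial_iff_card.mp hKnt
        exact hn.symm ▸ dvd_pow_self _ (ne_of_gt hn0)
      obtain ⟨w, hw⟩ := exists_prime_orderOf_dvd_card'
        (G := (MonoidHom.ker ρ ⊓ Subgroup.center G : Subgroup G)) p dvd2
      have hw' : orderOf (⟨(w : G), w.2.2⟩ : Subgroup.center G) = p := by
        rw [← Subgroup.orderOf_coe, ← hw, ← Subgroup.orderOf_coe]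
      have hmem := mem_zpowers_of_cyclic hp hw' (by rw [← hz₁, pow_orderOf_eq_one] : z₁ ^ p = 1)
      obtain ⟨k, hk⟩ := Subgroup.mem_zpowers_iff.1 hmem
      have hk' : (w : G) ^ k = z₁ := congrArg Subtype.val hk
      have hzker : (z₁ : G) ∈ MonoidHom.ker ρ := by
        rw [← hk']
        exact Subgroup.zpow_mem _ w.2.1 k
      apply hne
      rw [MonoidHom.mem_ker] at hzker
      simp [Representation.character, hzker]
    · rw [not_nontrivial_iff_subsingleton] at hnt
      obtain ⟨n, ρ, hirr, -⟩ := (H4.trivIrr G).2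
      exact ⟨n, ρ, hirr, fun a b _ => Subsingleton.elim a b⟩

end Cfsg.Agent.S0184
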