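import Mathlib
import Cfsg.Statements.S0436
import Mathlib
import Cfsg.Agent.Lib_helper1_ThreeT

set_option autoImplicit false
open Cfsg

namespace Cfsg.Agent.S0436

open Cfsg.Agent.H1

/-- For distinct commuting members a, b of a set of 3-transpositions E, a member e of E centralises the product a * b if and only if it centralises both a and b. -/
theorem result {G : Type*} [Group G] {E : Set G} (hE : Cfsg.IsThreeTranspositionSet E) {a b e : G} (ha : a ∈ E) (hb : b ∈ E) (he : e ∈ E) (hab : a ≠ b) (hcomm : Commute a b) : Commute e (a * b) ↔ (Commute e a ∧ Commute e b) := by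
  constructor
  · intro h
    exact threeT_two (mul_self_of_orderOf_two (hE.1 a ha)) (mul_self_of_orderOf_two (hE.1 b hb))
      (mul_self_of_orderOf_two (hE.1 e he)) hab hcomm (threeT_dichotomy hE he ha)
      (threeT_dichotomy hE he hb) h
  · rintro ⟨h1, h2⟩
    exact h1.mul_right h2

end Cfsg.Agent.S0436
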