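import Mathlib
import Cfsg.Statements.S0437
import Mathlib
import Cfsg.Agent.Lib_helper1_ThreeT

set_option autoImplicit false
open Cfsg

namespace Cfsg.Agent.S0437

open Cfsg.Agent.H1

/-- For three distinct, pairwise commuting members a, b, c of a set of 3-transpositions E, a member e of E centralises a * b * c if and only if it centralises each of a, b and c. -/
theorem result {G : Type*} [Group G] {E : Set G} (hE : Cfsg.IsThreeTranspositionSet E) {a b c e : G} (ha : a ∈ E) (hb : b ∈ E) (hc : c ∈ E) (he : e ∈ E) (hab : a ≠ b) (hac : a ≠ c) (hbc : b ≠ c) (h₁ : Commute a b) (h₂ : Commute a c) (h₃ : Commute b c) : Commute e (a * b * c) ↔ (Commute e a ∧ Commute e b ∧ Commute e c) := by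
  have ha2 := mul_self_of_orderOf_two (hE.1 a ha)
  have hb2 := mul_self_of_orderOf_two (hE.1 b hb)
  have hc2 := mul_self_of_orderOf_two (hE.1 c hc)
  have he2 := mul_self_of_orderOf_two (hE.1 e he)
  have hai : a⁻¹ = a := inv_eq_of_mul_eq_one_left ha2
  have hbi : b⁻¹ = b := inv_eq_of_mul_eq_one_left hb2
  have hci : c⁻¹ = c := inv_eq_of_mul_eq_one_left hc2
  have da := threeT_dichotomy hE he ha
  have db := threeT_dichotomy hE he hb
  have dc := threeT_dichotomy hE he hc
  constructor
  · intro h
    have hsome : Commute e a ∨ Commute e b ∨ Commute e c := by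
      rcases da with da | da
      · exact Or.inl da
      rcases db with db | db
      · exact Or.inr (Or.inl db)
      rcases dc with dc | dc
      · exact Or.inr (Or.inr dc)
      right; right
      have h0 : e * (a * b * c) = (a * b * c) * e := h.eq
      have s1 : b * a * e * a * b = e * c * e := by
        calc b * a * e * a * b = b * a * ((e * (a * b * c)) * (a * b * c)⁻¹) * a * b := by group
          _ = b * a * ((a * b * c) * e * (a * b * c)⁻¹) * a * b := by rw [h0]
          _ = b * a * (a * b * (c * e * c) * b * a) * a * b := by
              rw [mul_inv_rev, mul_inv_rev, hai, hbi, hci]; simp only [mul_assoc]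
          _ = (b * (a * a) * b) * (c * e * c) * (b * (a * a) * b) := by simp only [mul_assoc]
          _ = c * e * c := by rw [ha2, mul_one, hb2, one_mul, mul_one]
          _ = e * c * e := dc.symm
      have hbab : b * a * b = a := by
        rw [← h₁.eq, mul_assoc, hb2, mul_one]
      have hbcb : b * c * b = c := by
        rw [h₃.eq, mul_assoc, hb2, mul_one]
      have haca : a * c * a = c := by
        rw [h₂.eq, mul_assoc, ha2, mul_one]
      have s2 : b * a * e * a * b = e * (b * e * a * e * b) * e := by
        calc b * a * e * a * b = b * (a * e * a) * b := by simp only [mul_assoc]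
          _ = b * (e * a * e) * b := by rw [da]
          _ = b * e * (b * b) * a * (b * b) * e * b := by rw [hb2]; simp only [mul_one, mul_assoc]
          _ = (b * e * b) * (b * a * b) * (b * e * b) := by simp only [mul_assoc]
          _ = (e * b * e) * a * (e * b * e) := by rw [← db, hbab]
          _ = e * (b * e * a * e * b) * e := by simp only [mul_assoc]
      have s3 : b * e * a * e * b = c := by
        have := s2.symm.trans s1
        exact mul_left_cancel (mul_right_cancel this)
      have s4 : e * a * e = c := by
        calc e * a * e = (b * b) * e * a * e * (b * b) := by rw [hb2]; simp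
          _ = b * (b * e * a * e * b) * b := by simp only [mul_assoc]
          _ = c := by rw [s3, hbcb]
      have s5 : e = c := by
        calc e = (a * a) * e * (a * a) := by rw [ha2]; simp
          _ = a * (a * e * a) * a := by simp only [mul_assoc]
          _ = c := by rw [← da, s4, haca]
      rw [s5]
    rcases hsome with h1 | h1 | h1
    · have h2 : Commute e (b * c) := by
        have : b * c = a⁻¹ * (a * b * c) := by group
        rw [this]
        exact h1.inv_right.mul_right h
      obtain ⟨h3, h4⟩ := threeT_two hb2 hc2 he2 hbc h₃ db dc h2
      exact ⟨h1, h3, h4⟩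
    · have h2 : Commute e (a * c) := by
        have : a * c = (a * b * c) * b⁻¹ := by
          rw [mul_assoc a b c, h₃.eq]; group
        rw [this]
        exact h.mul_right h1.inv_right
      obtain ⟨h3, h4⟩ := threeT_two ha2 hc2 he2 hac h₂ da dc h2
      exact ⟨h3, h1, h4⟩
    · have h2 : Commute e (a * b) := by
        have : a * b = (a * b * c) * c⁻¹ := by group
        rw [this]
        exact h.mul_right h1.inv_right
      obtain ⟨h3, h4⟩ := threeT_two ha2 hb2 he2 hab h₁ da db h2
      exact ⟨h3, h4, h1⟩
  · rintro ⟨h1, h2, h3⟩
    exact (h1.mul_right h2).mul_right h3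

end Cfsg.Agent.S0437
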