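import Cfsg.Statements.S0493
import Mathlib
import Cfsg.Agent.Lib_helper3_SylNum3
import Cfsg.Agent.Lib_helper4_CharD

set_option autoImplicit false
open Cfsg

namespace Cfsg.Agent.S0493

theorem paqb_table (n : ℕ) (h0 : 0 < n) (h : n ≤ 100) (h60 : n ≠ 60) (h84 : n ≠ 84)
    (h2 : n % 4 ≠ 2) : ∃ p q a b : ℕ, p.Prime ∧ q.Prime ∧ n = p ^ a * q ^ b := by
  interval_cases n
  · exact ⟨2, 3, 0, 0, by norm_num, by norm_num, by norm_num⟩
  · exact absurd rfl h2
  · exact ⟨3, 2, 1, 0, by norm_num, by norm_num, by norm_num⟩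
  · exact ⟨2, 3, 2, 0, by norm_num, by norm_num, by norm_num⟩
  · exact ⟨5, 2, 1, 0, by norm_num, by norm_num, by norm_num⟩
  · exact absurd rfl h2
  · exact ⟨7, 2, 1, 0, by norm_num, by norm_num, by norm_num⟩
  · exact ⟨2, 3, 3, 0, by norm_num, by norm_num, by norm_num⟩
  · exact ⟨3, 2, 2, 0, by norm_num, by norm_num, by norm_num⟩
  · exact absurd rfl h2
  · exact ⟨11, 2, 1, 0, by norm_num, by norm_num, by norm_num⟩
  · exact ⟨2, 3, 2, 1, by norm_num, by norm_num, by norm_num⟩
  · exact ⟨13, 2, 1, 0, by norm_num, by norm_num, by norm_num⟩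
  · exact absurd rfl h2
  · exact ⟨3, 5, 1, 1, by norm_num, by norm_num, by norm_num⟩
  · exact ⟨2, 3, 4, 0, by norm_num, by norm_num, by norm_num⟩
  · exact ⟨17, 2, 1, 0, by norm_num, by norm_num, by norm_num⟩
  · exact absurd rfl h2
  · exact ⟨19, 2, 1, 0, by norm_num, by norm_num, by norm_num⟩
  · exact ⟨2, 5, 2, 1, by norm_num, by norm_num, by norm_num⟩
  · exact ⟨3, 7, 1, 1, by norm_num, by norm_num, by norm_num⟩
  · exact absurd rfl h2
  · exact ⟨23, 2, 1, 0, by norm_num, by norm_num, by norm_num⟩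
  · exact ⟨2, 3, 3, 1, by norm_num, by norm_num, by norm_num⟩
  · exact ⟨5, 2, 2, 0, by norm_num, by norm_num, by norm_num⟩
  · exact absurd rfl h2
  · exact ⟨3, 2, 3, 0, by norm_num, by norm_num, by norm_num⟩
  · exact ⟨2, 7, 2, 1, by norm_num, by norm_num, by norm_num⟩
  · exact ⟨29, 2, 1, 0, by norm_num, by norm_num, by norm_num⟩
  · exact absurd rfl h2
  · exact ⟨31, 2, 1, 0, by norm_num, by norm_num, by norm_num⟩
  · exact ⟨2, 3, 5, 0, by norm_num, by norm_num, by norm_num⟩
  · exact ⟨3, 11, 1, 1, by norm_num, by norm_num, by norm_num⟩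
  · exact absurd rfl h2
  · exact ⟨5, 7, 1, 1, by norm_num, by norm_num, by norm_num⟩
  · exact ⟨2, 3, 2, 2, by norm_num, by norm_num, by norm_num⟩
  · exact ⟨37, 2, 1, 0, by norm_num, by norm_num, by norm_num⟩
  · exact absurd rfl h2
  · exact ⟨3, 13, 1, 1, by norm_num, by norm_num, by norm_num⟩
  · exact ⟨2, 5, 3, 1, by norm_num, by norm_num, by norm_num⟩
  · exact ⟨41, 2, 1, 0, by norm_num, by norm_num, by norm_num⟩
  · exact absurd rfl h2
  · exact ⟨43, 2, 1, 0, by norm_num, by norm_num, by norm_num⟩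
  · exact ⟨2, 11, 2, 1, by norm_num, by norm_num, by norm_num⟩
  · exact ⟨3, 5, 2, 1, by norm_num, by norm_num, by norm_num⟩
  · exact absurd rfl h2
  · exact ⟨47, 2, 1, 0, by norm_num, by norm_num, by norm_num⟩
  · exact ⟨2, 3, 4, 1, by norm_num, by norm_num, by norm_num⟩
  · exact ⟨7, 2, 2, 0, by norm_num, by norm_num, by norm_num⟩
  · exact absurd rfl h2
  · exact ⟨3, 17, 1, 1, by norm_num, by norm_num, by norm_num⟩
  · exact ⟨2, 13, 2, 1, by norm_num, by norm_num, by norm_num⟩
  · exact ⟨53, 2, 1, 0, by norm_num, by norm_num, by norm_num⟩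
  · exact absurd rfl h2
  · exact ⟨5, 11, 1, 1, by norm_num, by norm_num, by norm_num⟩
  · exact ⟨2, 7, 3, 1, by norm_num, by norm_num, by norm_num⟩
  · exact ⟨3, 19, 1, 1, by norm_num, by norm_num, by norm_num⟩
  · exact absurd rfl h2
  · exact ⟨59, 2, 1, 0, by norm_num, by norm_num, by norm_num⟩
  · exact absurd rfl h60
  · exact ⟨61, 2, 1, 0, by norm_num, by norm_num, by norm_num⟩
  · exact absurd rfl h2
  · exact ⟨3, 7, 2, 1, by norm_num, by norm_num, by norm_num⟩
  · exact ⟨2, 3, 6, 0, by norm_num, by norm_num, by norm_num⟩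
  · exact ⟨5, 13, 1, 1, by norm_num, by norm_num, by norm_num⟩
  · exact absurd rfl h2
  · exact ⟨67, 2, 1, 0, by norm_num, by norm_num, by norm_num⟩
  · exact ⟨2, 17, 2, 1, by norm_num, by norm_num, by norm_num⟩
  · exact ⟨3, 23, 1, 1, by norm_num, by norm_num, by norm_num⟩
  · exact absurd rfl h2
  · exact ⟨71, 2, 1, 0, by norm_num, by norm_num, by norm_num⟩
  · exact ⟨2, 3, 3, 2, by norm_num, by norm_num, by norm_num⟩
  · exact ⟨73, 2, 1, 0, by norm_num, by norm_num, by norm_num⟩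
  · exact absurd rfl h2
  · exact ⟨3, 5, 1, 2, by norm_num, by norm_num, by norm_num⟩
  · exact ⟨2, 19, 2, 1, by norm_num, by norm_num, by norm_num⟩
  · exact ⟨7, 11, 1, 1, by norm_num, by norm_num, by norm_num⟩
  · exact absurd rfl h2
  · exact ⟨79, 2, 1, 0, by norm_num, by norm_num, by norm_num⟩
  · exact ⟨2, 5, 4, 1, by norm_num, by norm_num, by norm_num⟩
  · exact ⟨3, 2, 4, 0, by norm_num, by norm_num, by norm_num⟩
  · exact absurd rfl h2
  · exact ⟨83, 2, 1, 0, by norm_num, by norm_num, by norm_num⟩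
  · exact absurd rfl h84
  · exact ⟨5, 17, 1, 1, by norm_num, by norm_num, by norm_num⟩
  · exact absurd rfl h2
  · exact ⟨3, 29, 1, 1, by norm_num, by norm_num, by norm_num⟩
  · exact ⟨2, 11, 3, 1, by norm_num, by norm_num, by norm_num⟩
  · exact ⟨89, 2, 1, 0, by norm_num, by norm_num, by norm_num⟩
  · exact absurd rfl h2
  · exact ⟨7, 13, 1, 1, by norm_num, by norm_num, by norm_num⟩
  · exact ⟨2, 23, 2, 1, by norm_num, by norm_num, by norm_num⟩
  · exact ⟨3, 31, 1, 1, by norm_num, by norm_num, by norm_num⟩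
  · exact absurd rfl h2
  · exact ⟨5, 19, 1, 1, by norm_num, by norm_num, by norm_num⟩
  · exact ⟨2, 3, 5, 1, by norm_num, by norm_num, by norm_num⟩
  · exact ⟨97, 2, 1, 0, by norm_num, by norm_num, by norm_num⟩
  · exact absurd rfl h2
  · exact ⟨3, 11, 2, 1, by norm_num, by norm_num, by norm_num⟩
  · exact ⟨2, 5, 2, 2, by norm_num, by norm_num, by norm_num⟩


/-- A finite simple group of order at most 100 that is not cyclic has order 60. -/
theorem result {G : Type*} [Group G] [Finite G] [IsSimpleGroup G]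
    (hG : ¬ IsCyclic G) (h : Nat.card G ≤ 100) : Nat.card G = 60 := by
  by_contra h60
  have hsolv : ¬ Group.IsSolvable G := by
    intro hs
    have hcomm := IsSimpleGroup.comm_iff_isSolvable.mpr hs
    letI : CommGroup G := { (inferInstance : Group G) with mul_comm := hcomm }
    exact hG inferInstance
  by_cases h84 : Nat.card G = 84
  · haveI : Fact (Nat.Prime 7) := ⟨by norm_num⟩
    obtain ⟨P⟩ : Nonempty (Sylow 7 G) := inferInstance
    have h1 : Nat.card (Sylow 7 G) ∣ 84 := by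
      rw [← h84]
      exact (Sylow.card_dvd_index P).trans (Subgroup.index_dvd_card _)
    have h2 : Nat.card (Sylow 7 G) % 7 = 1 := card_sylow_modEq_one 7 G
    have h3 : ∀ k ≤ 84, k ∣ 84 → k % 7 = 1 → k = 1 := by decide
    have h4 := h3 _ (Nat.le_of_dvd (by norm_num) h1) h1 h2
    haveI : Subsingleton (Sylow 7 G) := (Nat.card_eq_one_iff_unique.mp h4).1
    have hn : (P : Subgroup G).Normal := Sylow.normal_of_subsingleton P
    rcases hn.eq_bot_or_eq_top with hb | ht
    · exact P.ne_bot_of_dvd_card (by rw [h84]; norm_num) hb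
    · obtain ⟨k, hk⟩ := P.isPGroup'.exists_card_eq
      rw [ht, Subgroup.card_top, h84] at hk
      have : 2 ∣ 7 ^ k := by rw [← hk]; norm_num
      have := Nat.Prime.dvd_of_dvd_pow Nat.prime_two this
      omega
  by_cases h2 : Nat.card G % 4 = 2
  · haveI : Fact (Nat.Prime 2) := ⟨Nat.prime_two⟩
    obtain ⟨T⟩ : Nonempty (Sylow 2 G) := inferInstance
    have hd : 2 ∣ Nat.card G := by omega
    have hT : Nat.card T = 2 := by
      obtain ⟨k, hk⟩ := T.isPGroup'.exists_card_eq
      have h1 : Nat.card T ∣ Nat.card G := Subgroup.card_subgroup_dvd_card _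
      have h2' : (T : Subgroup G) ≠ ⊥ := T.ne_bot_of_dvd_card hd
      have hk1 : k ≠ 0 := by
        rintro rfl
        rw [pow_zero] at hk
        exact h2' (Subgroup.card_eq_one.mp hk)
      have hk2 : k < 2 := by
        by_contra hcon
        have : 2 ^ 2 ∣ 2 ^ k := pow_dvd_pow 2 (by omega)
        rw [← hk] at this
        have := this.trans h1
        omega
      have : k = 1 := by omega
      rw [hk, this, pow_one]
    have hcyc : IsCyclic (T : Subgroup G) := isCyclic_of_prime_card hT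
    have h3 := Cfsg.Agent.H3.simple_cyclic_sylow_two hd T hcyc
    rw [hT] at h3
    exact hG (isCyclic_of_prime_card h3)
  obtain ⟨p, q, a, b, hp, hq, hc⟩ := paqb_table (Nat.card G) Nat.card_pos h h60 h84 h2
  exact hsolv (Cfsg.Agent.H4.burnside_paqb p q a b hp hq hc)

end Cfsg.Agent.S0493
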