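import Cfsg.Statements.S1327
import Cfsg.Agent.Lib_helper5_PComp3

set_option autoImplicit false
open Cfsg

namespace Cfsg.Agent.S1327

open Cfsg.Agent.H5

theorem sylow_map_eq {X Q : Type*} [Group X] [Finite X] [Group Q] {p : ℕ} [Fact p.Prime]
    (f : X →* Q) (M : Subgroup X) (hM : IsPGroup p ↥(M.map f)) (P : Sylow p ↥M) :
    ((P : Subgroup ↥M).map M.subtype).map f = M.map f := by
  apply le_antisymm (Subgroup.map_mono (Subgroup.map_subtype_le _))
  have hψ := f.subgroupMap_surjective M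
  have h1 : (⊤ : Subgroup ↥(M.map f)) = (P.mapSurjective hψ : Subgroup ↥(M.map f)) :=
    (P.mapSurjective hψ).is_maximal' (hM.to_subgroup ⊤) le_top
  intro y hy
  have h2 : (⟨y, hy⟩ : ↥(M.map f)) ∈ (P.mapSurjective hψ : Subgroup ↥(M.map f)) :=
    h1 ▸ Subgroup.mem_top _
  rw [Sylow.coe_mapSurjective] at h2
  obtain ⟨x, hx, hxy⟩ := h2
  exact ⟨x, ⟨x, hx, rfl⟩, congrArg Subtype.val hxy⟩

theorem map_pPrimePCore {X : Type*} [Group X] (p : ℕ) :
    (Cfsg.pPrimePCore p X).map (QuotientGroup.mk' (Cfsg.pPrimeCore p X)) =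
      Cfsg.pCore p (X ⧸ Cfsg.pPrimeCore p X) := by
  unfold Cfsg.pPrimePCore
  exact Subgroup.map_comap_eq_self_of_surjective (QuotientGroup.mk'_surjective _) _

theorem backward {X : Type*} [Group X] [Finite X] (p : ℕ) [Fact p.Prime]
    (h : Cfsg.pLayer p X = ⊥) : Cfsg.IsPConstrained p X := by
  intro P
  have hE : Cfsg.layer (X ⧸ Cfsg.pPrimeCore p X) = ⊥ := by
    rw [← map_pLayer, h, Subgroup.map_bot]
  have hF : Cfsg.generalizedFittingSubgroup (X ⧸ Cfsg.pPrimeCore p X) =
      Cfsg.pCore p (X ⧸ Cfsg.pPrimeCore p X) := by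
    unfold Cfsg.generalizedFittingSubgroup
    rw [hE, bot_sup_eq]
    exact H1.fitting_eq_pCore_of_pPrimeCore_eq_bot p (H1.pPrimeCore_quotient_eq_bot p)
  have hC := centralizer_genFitting_le (G := X ⧸ Cfsg.pPrimeCore p X)
  rw [hF] at hC
  have hmap := sylow_map_eq (QuotientGroup.mk' (Cfsg.pPrimeCore p X)) (Cfsg.pPrimePCore p X)
    (by rw [map_pPrimePCore]; exact H1.pCore_isPGroup p) P
  rw [map_pPrimePCore] at hmap
  intro c hc
  change QuotientGroup.mk' (Cfsg.pPrimeCore p X) c ∈ Cfsg.pCore p (X ⧸ Cfsg.pPrimeCore p X)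
  apply hC
  rw [← hmap, Subgroup.mem_centralizer_iff]
  rintro _ ⟨x, hx, rfl⟩
  rw [← map_mul, ← map_mul, (Subgroup.mem_centralizer_iff.1 hc) x hx]

theorem forward {X : Type*} [Group X] [Finite X] (p : ℕ) [Fact p.Prime]
    (h : Cfsg.IsPConstrained p X) : Cfsg.pLayer p X = ⊥ := by
  rw [eq_bot_iff]
  apply sSup_le
  intro K hK
  exfalso
  set O := Cfsg.pPrimeCore p X with hO
  set M := Cfsg.pPrimePCore p X with hM
  haveI hMn : M.Normal := by
    rw [hM]; unfold Cfsg.pPrimePCore; infer_instance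
  have P : Sylow p ↥M := default
  have hcon := h P
  set P₀ := (P : Subgroup ↥M).map M.subtype with hP₀
  have hP₀p : IsPGroup p P₀ := P.2.map _
  have hmap : P₀.map (QuotientGroup.mk' O) = Cfsg.pCore p (X ⧸ O) := by
    have := sylow_map_eq (QuotientGroup.mk' O) M
      (by rw [map_pPrimePCore]; exact H1.pCore_isPGroup p) P
    rwa [map_pPrimePCore] at this
  have hMle : M ≤ P₀ ⊔ O := by
    have h1 : M.map (QuotientGroup.mk' O) ≤ P₀.map (QuotientGroup.mk' O) := by
      rw [hmap, map_pPrimePCore]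
    rwa [Subgroup.map_le_map_iff, QuotientGroup.ker_mk'] at h1
  have hfr : Subgroup.normalizer (P₀ : Set X) ⊔ O = ⊤ := by
    have h1 := Sylow.normalizer_sup_eq_top P
    rw [eq_top_iff, ← h1]
    apply sup_le le_sup_left
    exact hMle.trans (sup_le (Subgroup.le_normalizer.trans le_sup_left) le_sup_right)
  -- the image of `K` centralizes `O_p`
  have hKc : K.map (QuotientGroup.mk' O) ≤
      Subgroup.centralizer (Cfsg.pCore p (X ⧸ O) : Set (X ⧸ O)) := by
    rw [← Subgroup.commutator_eq_bot_iff_le_centralizer]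
    apply component_solvable hK.2.1 (H1.isSolvable_of_isPGroup (H1.pCore_isPGroup p))
    rw [Subgroup.normalizer_eq_top_iff.2 (H1.pCore_normal p)]
    exact le_top
  have hdisj : P₀ ⊓ O = ⊥ := by
    apply Subgroup.inf_eq_bot_of_coprime
    obtain ⟨n, hn⟩ := hP₀p.exists_card_eq
    rw [hn]
    exact ((H1.card_pPrimeCore_coprime p).pow_right n).symm
  have hKle : K.map (QuotientGroup.mk' O) ≤ Cfsg.pCore p (X ⧸ O) := by
    rintro _ ⟨k, hk, rfl⟩
    have hk' : k ∈ Subgroup.normalizer (P₀ : Set X) ⊔ O := hfr ▸ Subgroup.mem_top k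
    obtain ⟨n, hn, o, ho, rfl⟩ := Subgroup.mem_sup_of_normal_right.1 hk'
    have hno : QuotientGroup.mk' O (n * o) = QuotientGroup.mk' O n := by
      have ho1 : QuotientGroup.mk' O o = 1 := (QuotientGroup.eq_one_iff o).2 ho
      rw [map_mul, ho1, mul_one]
    have hnc : QuotientGroup.mk' O n ∈
        Subgroup.centralizer (Cfsg.pCore p (X ⧸ O) : Set (X ⧸ O)) := by
      rw [← hno]; exact hKc ⟨_, hk, rfl⟩
    have hnP : n ∈ Subgroup.centralizer (P₀ : Set X) := by
      rw [Subgroup.mem_centralizer_iff]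
      intro x hx
      have h1 : n * x * n⁻¹ * x⁻¹ ∈ P₀ :=
        P₀.mul_mem ((Subgroup.mem_normalizer_iff.1 hn x).1 hx) (P₀.inv_mem hx)
      have h2 : n * x * n⁻¹ * x⁻¹ ∈ O := by
        rw [← QuotientGroup.eq_one_iff, ← QuotientGroup.mk'_apply]
        have h3 := (Subgroup.mem_centralizer_iff.1 hnc) (QuotientGroup.mk' O x)
          (hmap ▸ Subgroup.mem_map_of_mem _ hx)
        rw [map_mul, map_mul, map_mul, map_inv, map_inv, ← h3]
        group
      have h4 : n * x * n⁻¹ * x⁻¹ ∈ P₀ ⊓ O := Subgroup.mem_inf.2 ⟨h1, h2⟩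
      rw [hdisj, Subgroup.mem_bot] at h4
      calc x * n = (n * x * n⁻¹ * x⁻¹)⁻¹ * (n * x) := by group
        _ = n * x := by rw [h4]; group
    rw [hno]
    exact hcon hnP
  apply perfect_not_solvable (component_perfect hK.2.1) (component_ne_bot hK.2.1)
  haveI := H1.isSolvable_of_isPGroup (H1.pCore_isPGroup (G := X ⧸ O) p)
  exact Group.isSolvable_of_isSolvable_injective (Subgroup.inclusion_injective hKle)

/-- A finite group X is p-constrained if and only if its p-layer L_{p'}(X) is trivial (equivalently X / O_{p'}(X) has trivial layer). -/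
theorem result {X : Type*} [Group X] [Finite X] (p : ℕ) [Fact p.Prime] : Cfsg.IsPConstrained p X ↔ Cfsg.pLayer p X = ⊥ := by
  exact ⟨forward p, backward p⟩

end Cfsg.Agent.S1327
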