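import Cfsg.Statements.S0631
import Cfsg.Agent.Lib_helper5_PConstr
import Cfsg.Agent.S1327

set_option autoImplicit false
open Cfsg

namespace Cfsg.Agent.S0631

open Cfsg.Agent.H5

/-- In a p-constrained group the normalizer and the centralizer of any p-subgroup are again p-constrained. -/
theorem result {G : Type*} [Group G] [Finite G] {p : ℕ} [Fact p.Prime] (hG : Cfsg.IsPConstrained p G) (P : Subgroup G) (hP : IsPGroup p P) : Cfsg.IsPConstrained p ↥(Subgroup.normalizer (P : Set G)) ∧ Cfsg.IsPConstrained p ↥(Subgroup.centralizer (P : Set G)) := by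
  rw [Cfsg.Agent.S1327.result] at hG ⊢
  rw [Cfsg.Agent.S1327.result]
  have hOc : (Nat.card (Cfsg.pPrimeCore p G)).Coprime p := H1.card_pPrimeCore_coprime p
  have hchar : CharPIn p ((Subgroup.normalizer (P : Set G)).map
      (QuotientGroup.mk' (Cfsg.pPrimeCore p G))) := by
    have h1 := (charPIn_top_quotient_of_pLayer_eq_bot hG).normalizer
      (X := P.map (QuotientGroup.mk' (Cfsg.pPrimeCore p G))) le_top (hP.map _)
    rw [top_inf_eq, ← map_normalizer_of_coprime (Cfsg.pPrimeCore p G) hOc P hP] at h1
    exact h1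
  refine ⟨(pLayer_eq_bot_of_charPIn_map p _ hchar).1, (pLayer_eq_bot_of_charPIn_map p _ ?_).1⟩
  apply hchar.of_normal (Subgroup.map_mono (Subgroup.centralizer_le_normalizer _))
  exact (Subgroup.map_mono (normalizer_le_normalizer_centralizer P)).trans
    (Subgroup.le_normalizer_map _)

end Cfsg.Agent.S0631
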