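import Cfsg.Statements.S0680
import Mathlib
import Cfsg.Agent.Lib_helper3_FrobB
import Cfsg.Agent.S4252
import Cfsg.Agent.Lib_helper1_Basic

set_option autoImplicit false
open Cfsg

namespace Cfsg.Agent.S0680

open scoped Pointwise

theorem aux {G α : Type*} [Group G] [Finite G] [Fintype α] [MulAction G α]
    (h2t : ∀ {a b c d : α}, a ≠ b → c ≠ d → ∃ g : G, g • a = c ∧ g • b = d)
    (hfix : ∀ (g : G) (a b : α), a ≠ b → g • a = a → g • b = b → g = 1)
    (h2 : 2 ≤ Fintype.card α) :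
    ∃ p j : ℕ, p.Prime ∧ 1 ≤ j ∧ Fintype.card α = p ^ j ∧ ∀ (_ : Fact p.Prime) (P : Sylow p G),
      (P : Subgroup G).Normal ∧ IsMulCommutative (P : Subgroup G) ∧ (∀ x ∈ (P : Subgroup G), x ^ p = 1) ∧
      MulAction.IsPretransitive (P : Subgroup G) α ∧ (∀ a : α, MulAction.stabilizer (P : Subgroup G) a = ⊥) ∧
      ∀ g : G, g ∈ (P : Subgroup G) ↔ g = 1 ∨ ∀ a : α, g • a ≠ a := by
  classical
  obtain ⟨a0, b0, hab0⟩ : ∃ a b : α, a ≠ b := Fintype.one_lt_card_iff.1 (by omega)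
  have htrans : ∀ a b : α, ∃ g : G, g • a = b := by
    intro a b
    by_cases h : a = b
    · exact ⟨1, by simp [h]⟩
    · obtain ⟨g, hg, _⟩ := h2t h (Ne.symm h); exact ⟨g, hg⟩
  obtain ⟨K, hKn, hKmem, hKtr⟩ : ∃ K : Subgroup G, K.Normal ∧
      (∀ g, g ∈ K ↔ g = 1 ∨ ∀ a : α, g • a ≠ a) ∧ ∀ a b : α, ∃ k ∈ K, k • a = b := by
    by_cases hnreg : ∃ g : G, g ≠ 1 ∧ ∃ a : α, g • a = a
    · have h1 := Cfsg.Agent.S4252.result (G := G) (Ω := α) (by omega) htrans hnreg
        (fun g hg a b ha hb => by by_contra hne; exact hg (hfix g a b hne ha hb)) a0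
      obtain ⟨K, hK, hKn, hc⟩ := Cfsg.Agent.H3.frobenius_theorem _ h1.1
      refine ⟨K, hKn, ?_, ?_⟩
      · intro g; rw [← SetLike.mem_coe, hK, h1.2]; rfl
      · have h3 : ∀ b, ∃ k ∈ K, k • a0 = b := by
          intro b
          obtain ⟨g, hg⟩ := htrans a0 b
          have hg' : g ∈ K ⊔ MulAction.stabilizer G a0 := by rw [hc.sup_eq_top]; trivial
          rw [Subgroup.mem_sup_of_normal_left] at hg'
          obtain ⟨k, hk, h, hh, rfl⟩ := hg'
          exact ⟨k, hk, by rw [← hg, mul_smul, MulAction.mem_stabilizer_iff.1 hh]⟩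
        intro a b
        obtain ⟨k1, hk1, e1⟩ := h3 a
        obtain ⟨k2, hk2, e2⟩ := h3 b
        exact ⟨k2 * k1⁻¹, K.mul_mem hk2 (K.inv_mem hk1), by rw [mul_smul, ← e1, inv_smul_smul, e2]⟩
    · push Not at hnreg
      refine ⟨⊤, inferInstance, fun g => ⟨fun _ => ?_, fun _ => trivial⟩, fun a b => ?_⟩
      · by_cases hg : g = 1
        · exact Or.inl hg
        · exact Or.inr (hnreg g hg)
      · obtain ⟨g, hg⟩ := htrans a b; exact ⟨g, trivial, hg⟩
  have hsemi : ∀ k ∈ K, ∀ a : α, k • a = a → k = 1 := by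
    intro k hk a ha
    rcases (hKmem k).1 hk with h | h
    · exact h
    · exact absurd ha (h a)
  have hconj : ∀ k ∈ K, k ≠ 1 → ∀ k' ∈ K, k' ≠ 1 → ∃ g : G, k' = g * k * g⁻¹ := by
    intro k hk hk1 k' hk' hk1'
    have hb : a0 ≠ k • a0 := fun h => hk1 (hsemi k hk a0 h.symm)
    have hb' : a0 ≠ k' • a0 := fun h => hk1' (hsemi k' hk' a0 h.symm)
    obtain ⟨g, hga, hgb⟩ := h2t hb hb'
    refine ⟨g, ?_⟩
    have h1 : (g * k * g⁻¹)⁻¹ * k' ∈ K := K.mul_mem (K.inv_mem (hKn.conj_mem k hk g)) hk'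
    have h2 : ((g * k * g⁻¹)⁻¹ * k') • a0 = a0 := by
      rw [mul_smul, inv_smul_eq_iff, mul_smul, mul_smul]
      have : g⁻¹ • a0 = a0 := by rw [inv_smul_eq_iff, hga]
      rw [this, hgb]
    exact (inv_mul_eq_one.1 (hsemi _ h1 a0 h2)).symm
  obtain ⟨k0, hk0, hk0a⟩ := hKtr a0 b0
  have hk01 : k0 ≠ 1 := by
    rintro rfl; exact hab0 (by simpa using hk0a)
  have hKcard1 : Nat.card K ≠ 1 := by
    intro h
    rw [Subgroup.card_eq_one] at h
    rw [h, Subgroup.mem_bot] at hk0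
    exact hk01 hk0
  set p := (Nat.card K).minFac with hpdef
  have hp : p.Prime := Nat.minFac_prime hKcard1
  have hpF : Fact p.Prime := ⟨hp⟩
  obtain ⟨x, hx⟩ := exists_prime_orderOf_dvd_card' (G := K) p (Nat.minFac_dvd _)
  have hx1 : (x : G) ≠ 1 := by
    intro h
    have : x = 1 := Subtype.ext h
    rw [this, orderOf_one] at hx
    exact hp.one_lt.ne hx
  have hxp : (x : G) ^ p = 1 := by
    have := pow_orderOf_eq_one x
    rw [hx] at this
    exact congrArg Subtype.val this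
  have hpow : ∀ k ∈ K, k ^ p = 1 := by
    intro k hk
    by_cases hk1 : k = 1
    · rw [hk1, one_pow]
    · obtain ⟨g, rfl⟩ := hconj x x.2 hx1 k hk hk1
      rw [conj_pow, hxp]; group
  have hKp : IsPGroup p K := fun k => ⟨1, by rw [pow_one]; exact Subtype.ext (hpow k k.2)⟩
  obtain ⟨j, hj⟩ := IsPGroup.iff_card.1 hKp
  have hcardα : Fintype.card α = Nat.card K := by
    rw [← Nat.card_eq_fintype_card]
    symm
    apply Nat.card_congr
    apply Equiv.ofBijective (fun k : K => (k : G) • a0)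
    constructor
    · intro k1 k2 h
      have h1 : ((k1 : G)⁻¹ * k2) • a0 = a0 := by
        rw [mul_smul, inv_smul_eq_iff]; exact h.symm
      have h2 := hsemi _ (K.mul_mem (K.inv_mem k1.2) k2.2) a0 h1
      exact Subtype.ext (inv_mul_eq_one.1 h2)
    · intro b
      obtain ⟨k, hk, e⟩ := hKtr a0 b
      exact ⟨⟨k, hk⟩, e⟩
  have hKcomm : ∀ u ∈ K, ∀ v ∈ K, u * v = v * u := by
    have : Nontrivial K := ⟨⟨⟨k0, hk0⟩, 1, fun h => hk01 (congrArg Subtype.val h)⟩⟩
    have hcn := hKp.center_nontrivial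
    obtain ⟨z, hz⟩ := exists_ne (1 : Subgroup.center K)
    have hz1 : ((z : K) : G) ≠ 1 := fun h => hz (Subtype.ext (Subtype.ext h))
    have hzc : ∀ y ∈ K, y * ((z : K) : G) = ((z : K) : G) * y := by
      intro y hy
      exact congrArg Subtype.val (Subgroup.mem_center_iff.1 z.2 ⟨y, hy⟩)
    intro u hu v hv
    by_cases hu1 : u = 1
    · rw [hu1, one_mul, mul_one]
    · obtain ⟨g, rfl⟩ := hconj _ (z : K).2 hz1 u hu hu1
      have h1 : g⁻¹ * v * g ∈ K := by
        have := hKn.conj_mem v hv g⁻¹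
        rwa [inv_inv] at this
      have h2 := hzc _ h1
      calc g * ((z : K) : G) * g⁻¹ * v = g * (((z : K) : G) * (g⁻¹ * v * g)) * g⁻¹ := by group
        _ = g * ((g⁻¹ * v * g) * ((z : K) : G)) * g⁻¹ := by rw [h2]
        _ = v * (g * ((z : K) : G) * g⁻¹) := by group
  refine ⟨p, j, hp, ?_, by rw [hcardα, hj], ?_⟩
  · by_contra hj0
    have : j = 0 := by omega
    rw [this, pow_zero] at hj
    exact hKcard1 hj
  intro _ P
  have hPK : (P : Subgroup G) = K := by
    apply le_antisymm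
    · intro g hg
      by_contra hgK
      rw [hKmem] at hgK
      push Not at hgK
      obtain ⟨hg1, a, ha⟩ := hgK
      have hZ : IsPGroup p (Subgroup.zpowers g) :=
        P.2.to_le (by rw [Subgroup.zpowers_le]; exact hg)
      have hdvd : p ∣ Nat.card α := by
        rw [Nat.card_eq_fintype_card, hcardα]; exact Nat.minFac_dvd _
      have hafix : a ∈ MulAction.fixedPoints (Subgroup.zpowers g) α := by
        rintro ⟨_, n, rfl⟩
        change g ^ n • a = a
        exact MulAction.zpow_smul_eq_iff_period_dvd.2 (by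
          rw [MulAction.period_eq_one_iff.2 ha]; simp)
      obtain ⟨b, hb, hab⟩ := hZ.exists_fixed_point_of_prime_dvd_card_of_fixed_point α hdvd hafix
      have hgb : g • b = b := hb ⟨g, Subgroup.mem_zpowers g⟩
      exact hg1 (hfix g a b hab ha hgb)
    · obtain ⟨Q, hQ⟩ := hKp.exists_le_sylow
      obtain ⟨g, rfl⟩ := MulAction.exists_smul_eq G Q P
      intro k hk
      rw [Sylow.coe_subgroup_smul, Cfsg.Agent.H1.mem_conj_smul]
      apply hQ
      have := hKn.conj_mem k hk g⁻¹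
      rwa [inv_inv] at this
  rw [hPK]
  refine ⟨hKn, ⟨⟨fun u v => Subtype.ext (hKcomm u u.2 v v.2)⟩⟩, hpow, ⟨fun a b => ?_⟩, fun a => ?_, hKmem⟩
  · obtain ⟨k, hk, e⟩ := hKtr a b
    exact ⟨⟨k, hk⟩, e⟩
  · rw [eq_bot_iff]
    intro k hk
    rw [Subgroup.mem_bot]
    exact Subtype.ext (hsemi k k.2 a (MulAction.mem_stabilizer_iff.1 hk))


/-- A finite sharply doubly transitive permutation group has degree a prime power `p ^ j`; a Sylow `p`-subgroup is normal, elementary abelian and regular, and consists of the identity together with the elements without fixed points. (Frobenius' Theorem is not needed.) -/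
theorem result {α : Type*} [Fintype α] [DecidableEq α] (G : Subgroup (Equiv.Perm α)) [MulAction.IsMultiplyPretransitive G α 2] (hsharp : ∀ x : Fin 2 ↪ α, MulAction.stabilizer G x = ⊥) (h2 : 2 ≤ Fintype.card α) : ∃ p j : ℕ, p.Prime ∧ 1 ≤ j ∧ Fintype.card α = p ^ j ∧ ∀ (hp : Fact p.Prime) (P : Sylow p G), (P : Subgroup G).Normal ∧ IsMulCommutative (P : Subgroup G) ∧ (∀ x ∈ (P : Subgroup G), x ^ p = 1) ∧ MulAction.IsPretransitive (P : Subgroup G) α ∧ (∀ a : α, MulAction.stabilizer (P : Subgroup G) a = ⊥) ∧ ∀ g : G, g ∈ (P : Subgroup G) ↔ g = 1 ∨ ∀ a : α, g • a ≠ a := by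
  apply aux
  · intro a b c d hab hcd
    exact (MulAction.is_two_pretransitive_iff.1 inferInstance) hab hcd
  · intro g a b hab ha hb
    have h1 : g ∈ MulAction.stabilizer G (Function.Embedding.embFinTwo hab) := by
      rw [MulAction.mem_stabilizer_iff]
      ext i
      fin_cases i
      · exact ha
      · exact hb
    rw [hsharp, Subgroup.mem_bot] at h1
    exact h1
  · exact h2

end Cfsg.Agent.S0680
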