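import Cfsg.Statements.S0855
import Mathlib
import Cfsg.Agent.S4456
import Cfsg.Agent.Lib_helper2_ItoM

set_option autoImplicit false
open Cfsg

namespace Cfsg.Agent.S0855

/-- For a finite group G and a prime p: every irreducible character of G has degree a power of p if and only if G has an abelian normal subgroup whose order is prime to p and whose index is a power of p. -/
theorem result {G : Type*} [Group G] [Finite G] (p : ℕ) (hp : p.Prime) : (∀ χ : Cfsg.IrrCharacter G, ∃ k : ℕ, (χ : G → ℂ) 1 = (p : ℂ) ^ k) ↔ ∃ A : Subgroup G, A.Normal ∧ (∀ a ∈ A, ∀ b ∈ A, a * b = b * a) ∧ Nat.Coprime (Nat.card A) p ∧ ∃ k : ℕ, A.index = p ^ k := by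
  classical
  have := Fintype.ofFinite G
  constructor
  · intro h
    have hdeg : ∀ χ : Cfsg.IrrCharacter G, Cfsg.charDegree (χ : G → ℂ) ≠ 1 →
        p ∣ Cfsg.charDegree (χ : G → ℂ) := by
      intro χ hne
      obtain ⟨k, hk⟩ := h χ
      have h1 : (χ : G → ℂ) 1 = ((p ^ k : ℕ) : ℂ) := by rw [hk]; push_cast; rfl
      rw [H4.charDegree_eq h1] at hne ⊢
      rcases Nat.eq_zero_or_pos k with h0 | h0
      · rw [h0, pow_zero] at hne; exact (hne rfl).elim
      · exact dvd_pow_self p h0.ne'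
    obtain ⟨N, hN, hcop, hidx⟩ := S4456.result p hp hdeg
    refine ⟨N, hN, ?_, hcop, hidx⟩
    have hcomm : ∀ a b : N, a * b = b * a := by
      rw [H4.comm_iff_irr_linear]
      intro θ
      obtain ⟨a, -, hadvd, ha⟩ := H4.IsIrrCharacter.exists_degree θ.2
      obtain ⟨χ, hχ, hc⟩ := H2.exists_over N θ.1 θ.2
      obtain ⟨k, hk⟩ := h ⟨χ, hχ⟩
      have h1 : χ 1 = ((p ^ k : ℕ) : ℂ) := by
        have hk' : χ 1 = (p : ℂ) ^ k := hk
        rw [hk']; push_cast; rfl
      have h2 : a ∣ p ^ k := H2.degree_dvd_of_over N hN χ hχ θ.1 θ.2 hc a (p ^ k) ha h1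
      have h3 : a = 1 := Nat.eq_one_of_dvd_coprimes (Nat.Coprime.pow_right k hcop) hadvd h2
      rw [ha, h3]; simp
    intro a ha b hb
    exact congrArg Subtype.val (hcomm ⟨a, ha⟩ ⟨b, hb⟩)
  · rintro ⟨A, hA, hcomm, -, k, hk⟩ χ
    obtain ⟨d, hd, hdvd⟩ := H4.ito_aux _ G rfl χ.1 χ.2 A hA hcomm
    rw [hk] at hdvd
    obtain ⟨j, -, hj⟩ := (Nat.dvd_prime_pow hp).1 hdvd
    exact ⟨j, by rw [hd, hj]; push_cast; rfl⟩

end Cfsg.Agent.S0855
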