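import Cfsg.Statements.S0865
import Mathlib
import Cfsg.Agent.Lib_helper3_LinExt

set_option autoImplicit false
open Cfsg

namespace Cfsg.Agent.S0865

/-- Let N be a normal subgroup of the finite group G and λ a character of N of degree 1, invariant under conjugation by G, whose order (under pointwise multiplication) is coprime to the index of N. Then there is a character μ of G of degree 1 restricting to λ with the same order as λ, and μ is the only degree-1 character of G restricting to λ whose order is coprime to the index of N. -/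
theorem result {G : Type*} [Group G] [Finite G] (N : Subgroup G) [hN : N.Normal] (lam : N → ℂ) (hlam : Cfsg.IsCharacter N lam ∧ lam 1 = 1) (hinv : ∀ (g : G) (n : N), lam ⟨g * n * g⁻¹, hN.conj_mem (n : G) n.2 g⟩ = lam n) (hcop : Nat.Coprime N.index (orderOf lam)) : ∃ μ : G → ℂ, (Cfsg.IsCharacter G μ ∧ μ 1 = 1 ∧ (∀ n : N, μ n = lam n) ∧ orderOf μ = orderOf lam) ∧ ∀ μ' : G → ℂ, Cfsg.IsCharacter G μ' ∧ μ' 1 = 1 → (∀ n : N, μ' n = lam n) → Nat.Coprime N.index (orderOf μ') → μ' = μ := by
  set f := H4.linearHom hlam.1 hlam.2 with hf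
  have hfa : ∀ n : N, ((f n : ℂˣ) : ℂ) = lam n := fun n => rfl
  have hord := H3.orderOf_linear hlam.1 hlam.2
  obtain ⟨μ, hμ, hμo, huniq⟩ := H3.exists_unique_extension_coprime N f
    (fun g n => Units.ext (by rw [hfa, hfa]; exact hinv g n)) (by rw [← hord]; exact hcop)
  refine ⟨fun g => (μ g : ℂ), ⟨H4.isCharacter_of_hom μ, by simp, fun n => by show ((μ (n : G) : ℂˣ) : ℂ) = lam n; rw [hμ n]; rfl, ?_⟩, ?_⟩
  · rw [H3.orderOf_homToFun, hμo, hord]
  · intro μ' hμ' hres hc
    have h1 := huniq (H4.linearHom hμ'.1 hμ'.2) (fun n => Units.ext (hres n))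
      (by rw [← H3.orderOf_linear hμ'.1 hμ'.2]; exact hc)
    funext g
    have h2 : ((H4.linearHom hμ'.1 hμ'.2 g : ℂˣ) : ℂ) = μ' g := rfl
    rw [← h2, h1]

end Cfsg.Agent.S0865
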