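import Cfsg.Statements.S0866
import Cfsg.Agent.Lib_helper2_Proj3
import Cfsg.Agent.Lib_helper3_Det2

set_option autoImplicit false
open Cfsg

namespace Cfsg.Agent.S0866

/-- Let N be a normal subgroup of the finite group G and ϑ an irreducible character of N, invariant under conjugation by G, of degree d coprime to the index of N. Then ϑ is the restriction of an irreducible character of G if and only if the determinantal character of ϑ is the restriction of a character of G of degree 1. -/
theorem result {G : Type*} [Group G] [Finite G] (N : Subgroup G) [hN : N.Normal] (ϑ : N → ℂ) (hϑ : Cfsg.IsIrrCharacter N ϑ) (hinv : ∀ (g : G) (n : N), ϑ ⟨g * n * g⁻¹, hN.conj_mem (n : G) n.2 g⟩ = ϑ n) (d : ℕ) (hd : ϑ 1 = d) (hcop : Nat.Coprime N.index d) : (∃ χ : G → ℂ, Cfsg.IsIrrCharacter G χ ∧ (∀ n : N, χ n = ϑ n)) ↔ ∃ μ : G → ℂ, Cfsg.IsCharacter G μ ∧ μ 1 = 1 ∧ ∀ n : N, μ n = Cfsg.detChar ϑ n := by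
  constructor
  · rintro ⟨χ, hχ, hχN⟩
    have hχc := H4.IsIrrCharacter.isCharacter hχ
    obtain ⟨E, hE⟩ := H3.detChar_eq_hom hχc
    refine ⟨Cfsg.detChar χ, ?_, ?_, fun n => H3.detChar_restrict N hχc hχN n⟩
    · rw [hE]; exact H4.isCharacter_of_hom E
    · rw [hE]; simp
  · rintro ⟨μ, hμ, hμ1, hμN⟩
    let δ : G →* ℂˣ := H4.linearHom hμ hμ1
    have hfin : Finite δ.graph := by
      apply Finite.of_injective (fun x : δ.graph => x.1.1)
      intro x y hxy
      apply Subtype.ext
      apply Prod.ext hxy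
      have hx := MonoidHom.mem_graph.mp x.2
      have hy := MonoidHom.mem_graph.mp y.2
      rw [← hx, ← hy]
      exact congrArg δ hxy
    obtain ⟨S, hS1, hS2, hS3⟩ := H2.exists_extSub N ϑ hϑ hinv d hd δ.graph
      (fun g => ⟨δ g, MonoidHom.mem_graph.mpr rfl⟩) (by
        intro n c hc
        rw [MonoidHom.mem_graph]
        apply Units.ext
        show μ n = c
        rw [hc, hμN])
    apply hS3
    apply H2.one_mem_of_coprime S N.index d (hS1 N le_rfl ϑ hϑ (fun n => rfl)) _ hcop
    apply hS2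
    intro z hz
    rw [MonoidHom.mem_graph] at hz
    simpa using hz.symm

end Cfsg.Agent.S0866
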