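import Cfsg.Statements.S0867
import Cfsg.Agent.S0866
import Cfsg.Agent.S0865
import Cfsg.Agent.S0862
import Cfsg.Agent.Lib_helper3_Det4

set_option autoImplicit false
open Cfsg

namespace Cfsg.Agent.S0867

/-- Let N be a normal subgroup of the finite group G and ϑ an irreducible character of N of degree d, invariant under conjugation by G, such that the index of N is coprime to the product of d and the determinantal order of ϑ. Then there is an irreducible character χ of G restricting to ϑ whose determinantal order equals that of ϑ, and χ is the only irreducible character of G restricting to ϑ whose determinantal order is coprime to the index of N. -/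
theorem result {G : Type*} [Group G] [Finite G] (N : Subgroup G) [hN : N.Normal] (ϑ : N → ℂ) (hϑ : Cfsg.IsIrrCharacter N ϑ) (hinv : ∀ (g : G) (n : N), ϑ ⟨g * n * g⁻¹, hN.conj_mem (n : G) n.2 g⟩ = ϑ n) (d : ℕ) (hd : ϑ 1 = d) (hcop : Nat.Coprime N.index (Cfsg.detOrder ϑ * d)) : ∃ χ : G → ℂ, (Cfsg.IsIrrCharacter G χ ∧ (∀ n : N, χ n = ϑ n) ∧ Cfsg.detOrder χ = Cfsg.detOrder ϑ) ∧ ∀ χ' : G → ℂ, Cfsg.IsIrrCharacter G χ' → (∀ n : N, χ' n = ϑ n) → Nat.Coprime N.index (Cfsg.detOrder χ') → χ' = χ := by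
  have hϑc := H4.IsIrrCharacter.isCharacter hϑ
  have hcop1 : Nat.Coprime N.index (Cfsg.detOrder ϑ) := Nat.Coprime.coprime_mul_right_right hcop
  have hcop2 : Nat.Coprime N.index d := Nat.Coprime.coprime_mul_left_right hcop
  obtain ⟨F, hF⟩ := H3.detChar_eq_hom hϑc
  have hlam : Cfsg.IsCharacter N (Cfsg.detChar ϑ) ∧ Cfsg.detChar ϑ 1 = 1 := by
    rw [hF]
    exact ⟨H4.isCharacter_of_hom F, by simp⟩
  have hlinv : ∀ (g : G) (n : N), Cfsg.detChar ϑ ⟨g * n * g⁻¹, hN.conj_mem (n : G) n.2 g⟩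
      = Cfsg.detChar ϑ n := by
    intro g n
    have h1 := H3.detChar_conjFun N hN hϑc g
    have h2 : H4.conjFun hN ϑ g = ϑ := funext (hinv g)
    rw [h2] at h1
    exact (congrFun h1 n).symm
  obtain ⟨μ, ⟨hμ, hμ1, hμN, hμo⟩, hμu⟩ := S0865.result N (Cfsg.detChar ϑ) hlam hlinv hcop1
  have hext := (S0866.result N ϑ hϑ hinv d hd hcop2).2 ⟨μ, hμ, hμ1, hμN⟩
  obtain ⟨χ, ⟨hχ, hχN, hχd⟩, hχu⟩ := S0862.result N ϑ hϑ d hd hcop2 hext μ ⟨hμ, hμ1⟩ hμN
  refine ⟨χ, ⟨hχ, hχN, ?_⟩, ?_⟩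
  · unfold Cfsg.detOrder
    rw [hχd, hμo]
  · intro χ' hχ' hχ'N hc
    apply hχu
    refine ⟨hχ', hχ'N, ?_⟩
    have hχ'c := H4.IsIrrCharacter.isCharacter hχ'
    obtain ⟨F', hF'⟩ := H3.detChar_eq_hom hχ'c
    apply hμu
    · rw [hF']
      exact ⟨H4.isCharacter_of_hom F', by simp⟩
    · exact fun n => H3.detChar_restrict N hχ'c hχ'N n
    · exact hc

end Cfsg.Agent.S0867
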