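import Cfsg.Statements.S0876
import Mathlib
import Cfsg.Agent.Lib_lead_Br15
import Cfsg.Agent.Lib_helper4_BlkL

set_option autoImplicit false
open Cfsg

namespace Cfsg.Agent.S0876

open Cfsg.Agent.H4


/-- Let G be a finite group, p a prime and M a maximal ideal of the ring of algebraic integers containing p. Let x, y be elements with p-parts a and b (so a⁻¹ * x and b⁻¹ * y are their p-regular parts). Then a⁻¹ * x and b⁻¹ * y are conjugate in G if and only if, for every irreducible character χ, the difference χ x - χ y lies in the local ideal at M. -/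
theorem result {G : Type*} [Group G] [Finite G] (p : ℕ) (M : Ideal Cfsg.AlgInt) (hM : Cfsg.IsPModular p M) (x y a b : G) (ha : Cfsg.IsPPart p x a) (hb : Cfsg.IsPPart p y b) : IsConj (a⁻¹ * x) (b⁻¹ * y) ↔ ∀ χ : Cfsg.IrrCharacter G, Cfsg.MemLocalIdeal M ((χ : G → ℂ) x - (χ : G → ℂ) y) := by
  classical
  haveI := Fintype.ofFinite G
  haveI := Fintype.ofFinite (Cfsg.IrrCharacter G)
  have hp : p.Prime := hM.1
  obtain ⟨x', hx', hcx, ⟨k, hk⟩, hpx⟩ := ha
  obtain ⟨y', hy', hcy, ⟨l, hl⟩, hpy⟩ := hb
  have ex : a⁻¹ * x = x' := by rw [← hx', inv_mul_cancel_left]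
  have ey : b⁻¹ * y = y' := by rw [← hy', inv_mul_cancel_left]
  rw [ex, ey]
  have hak : a ^ (p ^ k) = 1 := by rw [← hk]; exact pow_orderOf_eq_one a
  have hbl : b ^ (p ^ l) = 1 := by rw [← hl]; exact pow_orderOf_eq_one b
  constructor
  · intro hconj χ
    have hχc := IsIrrCharacter.isCharacter χ.2
    have h1 := char_mul_sub_mem hM hχc hcx hak
    have h2 := char_mul_sub_mem hM hχc hcy hbl
    rw [hx'] at h1
    rw [hy'] at h2
    have h3 : (χ : G → ℂ) x' = (χ : G → ℂ) y' := by
      obtain ⟨c, hc⟩ := isConj_iff.mp hconj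
      rw [← hc]
      exact (IsCharacter.isClassFunction hχc x' c).symm
    have h4 := MemLocalIdeal.sub hM h1 h2
    have e : (χ : G → ℂ) x - (χ : G → ℂ) x' - ((χ : G → ℂ) y - (χ : G → ℂ) y')
        = (χ : G → ℂ) x - (χ : G → ℂ) y := by rw [h3]; ring
    rwa [e] at h4
  · intro hall
    set m := p ^ (Nat.card G).factorization p with hm
    set n := Nat.card G / p ^ (Nat.card G).factorization p with hn
    have hmn : Nat.card G = m * n := (Nat.ordProj_mul_ordCompl_eq_self (Nat.card G) p).symm
    have hpn : Nat.Coprime p n := Nat.coprime_ordCompl hp Nat.card_pos.ne'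
    have hcop : m.Coprime n := Nat.Coprime.pow_left _ hpn
    obtain ⟨t, ht0, ht1⟩ := Nat.chineseRemainder hcop 0 1
    have hmt : m ∣ t := (Nat.modEq_zero_iff_dvd).mp ht0
    have hpart : ∀ (u v : G) (j : ℕ), Commute u v → orderOf u = p ^ j → ¬ p ∣ orderOf v →
        (u * v) ^ t = v := by
      intro u v j huv hu hv
      have h1 : orderOf u ∣ m := by
        have h0 := orderOf_dvd_natCard u
        rw [hu] at h0 ⊢
        exact pow_dvd_pow p ((Nat.Prime.pow_dvd_iff_le_factorization hp Nat.card_pos.ne').mp h0)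
      have h2 : orderOf v ∣ n := by
        have h0 := orderOf_dvd_natCard v
        rw [hmn] at h0
        exact Nat.Coprime.dvd_of_dvd_mul_left
          (Nat.Coprime.pow_right _ ((Nat.Prime.coprime_iff_not_dvd hp).mpr hv).symm) h0
      have h3 : u ^ t = 1 := orderOf_dvd_iff_pow_eq_one.mp (dvd_trans h1 hmt)
      have h4 : v ^ t = v := by
        conv_rhs => rw [← pow_one v]
        rw [pow_eq_pow_iff_modEq]
        exact ht1.of_dvd h2
      rw [huv.mul_pow, h3, h4, one_mul]
    have hxt : x ^ t = x' := by rw [← hx']; exact hpart a x' k hcx hk hpx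
    have hyt : y ^ t = y' := by rw [← hy']; exact hpart b y' l hcy hl hpy
    obtain ⟨c, hc, hsum⟩ := Cfsg.Agent.LeadBr.RC_coeff
      (Cfsg.Agent.LeadBr.section_RC m n t hmn hcop ht0 x')
    by_contra hnc
    have e1 := congrFun hsum x
    have e2 := congrFun hsum y
    simp only [hxt, hyt] at e1 e2
    rw [if_pos (IsConj.refl x')] at e1
    rw [if_neg (fun h => hnc h.symm)] at e2
    have e3 : (n : ℂ) = ∑ χ : Cfsg.IrrCharacter G, c χ * ((χ : G → ℂ) x - (χ : G → ℂ) y) := by
      have : (n : ℂ) = (n : ℂ) - 0 := by ring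
      rw [this, e1, e2, Finset.sum_apply, Finset.sum_apply, ← Finset.sum_sub_distrib]
      apply Finset.sum_congr rfl
      intro χ _
      simp only [Pi.smul_apply, smul_eq_mul]
      ring
    have h5 : Cfsg.MemLocalIdeal M (n : ℂ) := by
      rw [e3]
      apply MemLocalIdeal.sum hM
      intro χ _
      exact MemLocalIdeal.mul_left hM (memLocalRing_of_isIntegral hM (hc χ)) (hall χ)
    rw [memLocalIdeal_natCast_iff hM] at h5
    exact (Nat.Prime.coprime_iff_not_dvd hp).mp hpn h5

end Cfsg.Agent.S0876
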