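import Cfsg.Statements.S1269
import Cfsg.Agent.Lib_helper5_LBal3

set_option autoImplicit false
open Cfsg

namespace Cfsg.Agent.S1269

open Subgroup Cfsg.Agent.H5 Cfsg.Agent.H5.RkOne
open scoped commutatorElement

universe u

variable {X : Type u} [Group X] [Finite X] {p : ℕ} [Fact p.Prime]

theorem pcomp_of_sup_pCore {R L : Subgroup X} (hR : IsPGroup p R)
    (hL : Cfsg.IsPComponentOf p L (Subgroup.normalizer (R : Set X))) :
    Cfsg.IsPComponentOf p L
      (Subgroup.normalizer ((R ⊔ Cfsg.pCore p X : Subgroup X) : Set X)) := by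
  haveI hPn : (Cfsg.pCore p X).Normal := Cfsg.Agent.H1.pCore_normal p
  have hPp : IsPGroup p (Cfsg.pCore p X) := Cfsg.Agent.H1.pCore_isPGroup p
  have hNP : ∀ x : X, x ∈ Subgroup.normalizer ((Cfsg.pCore p X : Subgroup X) : Set X) := by
    intro x
    rw [Subgroup.normalizer_eq_top]
    exact Subgroup.mem_top x
  have hLp := IsPComponentOf.perfect hL
  have hLR : ⁅L, R⁆ = ⊥ := IsPComponentOf.commutator_pgroup hL Subgroup.le_normalizer le_rfl hR
  rw [Subgroup.commutator_eq_bot_iff_le_centralizer] at hLR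
  have hLU : ⁅L, Cfsg.pCore p X ⊓ Subgroup.normalizer (R : Set X)⁆ = ⊥ := by
    apply IsPComponentOf.commutator_pgroup hL inf_le_right _ (hPp.to_le inf_le_left)
    intro n hn
    have h1 := hNP n
    have h2 : n ∈ Subgroup.normalizer
        ((Subgroup.normalizer (R : Set X) : Subgroup X) : Set X) := Subgroup.le_normalizer hn
    rw [Subgroup.mem_normalizer_iff] at h1 h2 ⊢
    intro x
    rw [Subgroup.mem_inf, Subgroup.mem_inf, h1 x, h2 x]
  rw [Subgroup.commutator_eq_bot_iff_le_centralizer] at hLU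
  have hLP : L ≤ Subgroup.centralizer (Cfsg.pCore p X : Set X) := by
    apply perfect_le_of_coprime_mem p hLp
    · intro y _
      exact normalizer_le_normalizer_centralizer _ (hNP y)
    · intro y hy hcop
      apply thompson_element p hPp hR hcop (fun r _ => hNP r) (hNP y) (hLR hy)
      rintro r ⟨hrP, hrR⟩
      exact (Subgroup.mem_centralizer_iff.1 (hLU hy)) r
        ⟨hrP, Subgroup.centralizer_le_normalizer _ hrR⟩
  have hLA : L ≤ Subgroup.centralizer ((R ⊔ Cfsg.pCore p X : Subgroup X) : Set X) := by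
    rw [Subgroup.le_centralizer_iff]
    exact sup_le (Subgroup.le_centralizer_iff.1 hLR) (Subgroup.le_centralizer_iff.1 hLP)
  have h1 : Cfsg.IsPComponentOf p L
      (Subgroup.centralizer ((R ⊔ Cfsg.pCore p X : Subgroup X) : Set X)) :=
    IsPComponentOf.of_le hL hLA ((Subgroup.centralizer_le
      (show (R : Set X) ⊆ ((R ⊔ Cfsg.pCore p X : Subgroup X) : Set X) from
        (le_sup_left : R ≤ R ⊔ Cfsg.pCore p X))).trans
      (Subgroup.centralizer_le_normalizer _))
  exact IsPComponentOf.of_normal h1 (Subgroup.centralizer_le_normalizer _)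
      (normalizer_le_normalizer_centralizer _)

theorem pcomp_local_le_normalizer (hO : Cfsg.pPrimeCore p X = ⊥) {R J K : Subgroup X}
    (hR : IsPGroup p R) (hJ : Cfsg.IsPComponentOf p J (Subgroup.normalizer (R : Set X)))
    (hK : Cfsg.IsComponent K) : J ≤ normalizer (K : Set X) := by
  haveI hPn : (Cfsg.pCore p X).Normal := Cfsg.Agent.H1.pCore_normal p
  have hPp : IsPGroup p (Cfsg.pCore p X) := Cfsg.Agent.H1.pCore_isPGroup p
  by_cases h : J ≤ Cfsg.layer X
  · exact h.trans (layer_le_normalizer_component hK)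
  · exact pcomp_le_normalizer_component hO (hR.to_sup_of_normal_right hPp) le_sup_right
      (pcomp_of_sup_pCore hR hJ) h hK

/-- Let G be finite with O_{p'}(G) = 1, P a p-subgroup, N = N_G(P), and x an element of the preimage in N of E(N / O_{p'}(N)). Then x normalizes every component L of G. -/
theorem result {G : Type*} [Group G] [Finite G] (p : ℕ) [Fact p.Prime] (hO : Cfsg.pPrimeCore p G = ⊥) (P : Subgroup G) (hP : IsPGroup p ↥P) (L : Subgroup G) (hL : Cfsg.IsComponent L) (x : G) (hx : x ∈ (((Cfsg.layer (↥(Subgroup.normalizer ((P : Subgroup G) : Set G)) ⧸ Cfsg.pPrimeCore p ↥(Subgroup.normalizer ((P : Subgroup G) : Set G)))).comap (QuotientGroup.mk' (Cfsg.pPrimeCore p ↥(Subgroup.normalizer ((P : Subgroup G) : Set G))))).map (Subgroup.normalizer ((P : Subgroup G) : Set G)).subtype)) : L.map (MulAut.conj x).toMonoidHom = L := by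
  set Y := Subgroup.normalizer ((P : Subgroup G) : Set G) with hY
  have hOn := Cfsg.Agent.H1.pPrimeCore_normal (G := ↥Y) p
  obtain ⟨y, hy, rfl⟩ := hx
  rw [SetLike.mem_coe, mem_comap, ← map_pLayer] at hy
  obtain ⟨l, hl, hly⟩ := hy
  have hd : l⁻¹ * y ∈ Cfsg.pPrimeCore p ↥Y := QuotientGroup.eq.1 hly
  have h1 : (Cfsg.pLayer p ↥Y).map Y.subtype ≤ normalizer (L : Set G) := by
    rw [map_le_iff_le_comap]
    apply sSup_le
    intro J₀ hJ₀
    rw [← map_le_iff_le_comap]
    exact pcomp_local_le_normalizer hO hP (isPComponentOf_map_subtype hJ₀) hL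
  have h2 := (pprime_le_hat hO hP (D := (Cfsg.pPrimeCore p ↥Y).map Y.subtype) (map_subtype_le _)
    (le_normalizer_map_subtype _ hOn) (card_pPrimeCoreIn_coprime p Y)).2 L hL
  have h3 : (y : G) ∈ normalizer (L : Set G) := by
    have e : (y : G) = (l : G) * ((l⁻¹ * y : ↥Y) : G) := by simp
    rw [e]
    exact mul_mem (h1 ⟨l, hl, rfl⟩) (h2 ⟨_, hd, rfl⟩)
  exact conjBy_eq_self_iff.2 h3

end Cfsg.Agent.S1269
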