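import Cfsg.Statements.S1298
import Cfsg.Agent.Lib_helper5_LBal5

set_option autoImplicit false
open Cfsg

namespace Cfsg.Agent.S1298

open Subgroup Cfsg.Agent.H5 Cfsg.Agent.H5.RkOne

/-- Let G be finite and k ≥ 1. Suppose that for every x of order p, writing C = C_G(x), every component K of C / O_{p'}(C) has K / Z(K) locally k-balanced for p. Then G is k-balanced for p. -/
theorem result {G : Type*} [Group G] [Finite G] (p k : ℕ) [Fact p.Prime] (hk : 1 ≤ k) (h : ∀ x : G, orderOf x = p → ∀ K : Subgroup (↥(Subgroup.centralizer ({x} : Set G)) ⧸ Cfsg.pPrimeCore p ↥(Subgroup.centralizer ({x} : Set G))), Cfsg.IsComponent K → Cfsg.IsLocallyKBalanced p k (↥K ⧸ Subgroup.center ↥K)) : Cfsg.IsKBalanced p k G := by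
  intro A hA hAc b hb hAb d hd
  have hp : p.Prime := Fact.out
  set Xs := centralizer ({b} : Set G) with hXs
  have hAX : A ≤ Xs := fun a ha => mem_centralizer_singleton_iff.2 (hAb a ha)
  have hdX : d ∈ Xs := hd.2
  set O := pPrimeCore p ↥Xs with hOdef
  haveI hOn : O.Normal := H1.pPrimeCore_normal p
  have hOc : (Nat.card O).Coprime p := H1.card_pPrimeCore_coprime p
  have hO' : pPrimeCore p (↥Xs ⧸ O) = ⊥ := H1.pPrimeCore_quotient_eq_bot p
  have hA'e := elemAb_image hA (QuotientGroup.mk' O)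
  have hA'c : Nat.card ((A.subgroupOf Xs).map (QuotientGroup.mk' O)) = p ^ k := by
    rw [card_image_eq hAX (QuotientGroup.mk' O) ?_, hAc]
    intro a ha h1
    have h2 : a ∈ O := (QuotientGroup.eq_one_iff a).1 h1
    apply eq_one_of_pow_of_coprime (p := p) (k := 1)
    · rw [pow_one]
      exact Subtype.ext (by simpa using hA.2 a ha)
    · exact hOc.coprime_dvd_left (orderOf_dvd_card_of_mem O h2)
  have h3 := delta_eq_bot hO' hk (h b hb) hA'e hA'c
  have h4 : QuotientGroup.mk' O ⟨d, hdX⟩ ∈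
      signalizerDelta p ((A.subgroupOf Xs).map (QuotientGroup.mk' O)) := by
    unfold signalizerDelta
    rw [mem_iInf]
    rintro ⟨_, ⟨a, haA, rfl⟩, ha'1⟩
    have ha1 : (a : G) ≠ 1 := by
      intro h
      apply ha'1
      have h5 : a = 1 := Subtype.ext h
      rw [h5, map_one]
    apply core_map_mk_le O hOc (a := a) (Subtype.ext (by simpa using hA.2 a haA))
    refine ⟨⟨d, hdX⟩, ?_, rfl⟩
    apply core_subgroupOf_le Xs a.2
    rw [mem_subgroupOf]
    have h6 : d ∈ signalizerDelta p A := hd.1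
    unfold signalizerDelta at h6
    rw [mem_iInf] at h6
    exact h6 ⟨a, haA, ha1⟩
  rw [h3, mem_bot] at h4
  exact ⟨⟨d, hdX⟩, (QuotientGroup.eq_one_iff _).1 h4, rfl⟩

end Cfsg.Agent.S1298
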