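import Cfsg.Statements.S1297
import Cfsg.Agent.S1298

set_option autoImplicit false
open Cfsg

namespace Cfsg.Agent.S1297

open Subgroup

theorem locK_of_loc {K : Type*} [Group K] (h : IsLocallyBalanced K) :
    IsLocallyKBalanced 2 1 K := by
  intro H hH A hA hAc
  obtain ⟨x, hx, hx1⟩ : ∃ x ∈ A, x ≠ 1 := by
    by_contra hcon
    push Not at hcon
    have h1 : A = ⊥ := (eq_bot_iff_forall _).2 hcon
    rw [h1, card_bot] at hAc
    norm_num at hAc
  haveI : Fact (Nat.Prime 2) := ⟨Nat.prime_two⟩
  have hox : orderOf x = 2 := orderOf_eq_prime (hA.2 x hx) hx1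
  rw [eq_bot_iff, ← h H hH x hox]
  exact iInf_le (fun a : {a : ↥H // a ∈ A ∧ a ≠ 1} => centralizerPPrimeCore 2 (a : ↥H))
    ⟨x, hx, hx1⟩

/-- Let G be finite. Suppose that for every involution x, writing C = C_G(x), every component K of C / O(C) has K / Z(K) locally balanced. Then G is balanced. -/
theorem result {G : Type*} [Group G] [Finite G] (h : ∀ x : G, orderOf x = 2 → ∀ K : Subgroup (↥(Subgroup.centralizer ({x} : Set G)) ⧸ Cfsg.oddCore ↥(Subgroup.centralizer ({x} : Set G))), Cfsg.IsComponent K → Cfsg.IsLocallyBalanced (↥K ⧸ Subgroup.center ↥K)) : Cfsg.IsBalanced G := by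
  haveI : Fact (Nat.Prime 2) := ⟨Nat.prime_two⟩
  have hK : IsKBalanced 2 1 G :=
    Cfsg.Agent.S1298.result 2 1 le_rfl (fun x hx K hK => locK_of_loc (h x hx K hK))
  have key : ∀ x y : G, orderOf x = 2 → orderOf y = 2 → x * y = y * x →
      centralizerPPrimeCore 2 x ⊓ centralizer {y} ≤
        centralizerPPrimeCore 2 y ⊓ centralizer {x} := by
    intro x y hx hy hxy
    have hpow : ∀ a ∈ zpowers x, a = 1 ∨ a = x := by
      rintro _ ⟨n, rfl⟩
      show x ^ n = 1 ∨ x ^ n = x
      rw [← zpow_mod_orderOf, hx]
      rcases Int.emod_two_eq_zero_or_one n with h | h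
      · left; simp [h]
      · right; simp [h]
    apply le_inf
    · have hA : IsElementaryAbelian 2 (zpowers x) := by
        refine ⟨inferInstance, ?_⟩
        intro a ha
        rcases hpow a ha with rfl | rfl
        · simp
        · rw [← hx]; exact pow_orderOf_eq_one _
      have hAc : Nat.card (zpowers x) = 2 ^ 1 := by rw [Nat.card_zpowers, hx, pow_one]
      have h1 := hK (zpowers x) hA hAc y hy (by
        intro a ha
        rcases hpow a ha with rfl | rfl
        · simp
        · exact hxy)
      refine le_trans (inf_le_inf_right _ ?_) h1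
      unfold signalizerDelta
      apply le_iInf
      rintro ⟨a, ha, ha1⟩
      rcases hpow a ha with rfl | rfl
      · exact absurd rfl ha1
      · exact le_rfl
    · exact inf_le_left.trans (map_subtype_le _)
  intro x y hx hy hxy
  exact le_antisymm (key x y hx hy hxy) (key y x hy hx hxy.symm)

end Cfsg.Agent.S1297
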