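import Cfsg.Statements.S1300
import Cfsg.Agent.Lib_helper5_Basic

set_option autoImplicit false
open Cfsg

namespace Cfsg.Agent.S1300

theorem mem_zpowers_invol {G : Type*} [Group G] {x : G} (hx : orderOf x = 2) {a : G}
    (ha : a ∈ Subgroup.zpowers x) : a = 1 ∨ a = x := by
  obtain ⟨k, rfl⟩ := Subgroup.mem_zpowers_iff.1 ha
  have hxx := H5.mul_self_of_order_two hx
  rcases Int.even_or_odd' k with ⟨m, rfl | rfl⟩
  · left
    rw [zpow_mul, zpow_two, hxx, one_zpow]
  · right
    rw [zpow_add, zpow_mul, zpow_two, hxx, one_zpow, one_mul, zpow_one]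

theorem delta_zpowers {G : Type*} [Group G] {x : G} (hx : orderOf x = 2) :
    Cfsg.signalizerDelta 2 (Subgroup.zpowers x) = Cfsg.centralizerPPrimeCore 2 x := by
  unfold Cfsg.signalizerDelta
  apply le_antisymm
  · exact iInf_le_of_le ⟨x, Subgroup.mem_zpowers x, H5.ne_one_of_order_two hx⟩ le_rfl
  · apply le_iInf
    rintro ⟨a, ha, ha1⟩
    rcases mem_zpowers_invol hx ha with h | h
    · exact absurd h ha1
    · simp only [h]; exact le_rfl


/-- For a finite group G, balance in the sense of commuting involutions is the same as 1-balance for the prime 2. -/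
theorem result {G : Type*} [Group G] [Finite G] : Cfsg.IsBalanced G ↔ Cfsg.IsKBalanced 2 1 G := by
  constructor
  · intro hbal A hA hcard b hb hcomm
    -- A = zpowers a
    have h2 : Even (Nat.card A) := by rw [hcard]; norm_num
    obtain ⟨a, haA, ha2⟩ := H5.exists_invol_of_even A h2
    have hAeq : A = Subgroup.zpowers a := by
      symm
      apply Subgroup.eq_of_le_of_card_ge
      · rw [Subgroup.zpowers_le]; exact haA
      · rw [hcard, Nat.card_zpowers, ha2]; norm_num
    rw [hAeq, delta_zpowers ha2, hbal a b ha2 hb (hcomm a haA)]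
    exact inf_le_left
  · intro hk x y hx hy hxy
    have key : ∀ x y : G, orderOf x = 2 → orderOf y = 2 → x * y = y * x →
        Cfsg.centralizerPPrimeCore 2 x ⊓ Subgroup.centralizer {y} ≤
          Cfsg.centralizerPPrimeCore 2 y ⊓ Subgroup.centralizer {x} := by
      intro x y hx hy hxy
      apply le_inf
      · have h1 := hk (Subgroup.zpowers x) ⟨inferInstance, ?_⟩ ?_ y hy ?_
        · rwa [delta_zpowers hx] at h1
        · intro a ha
          rcases mem_zpowers_invol hx ha with h | h
          · rw [h, one_pow]
          · rw [h, sq, H5.mul_self_of_order_two hx]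
        · rw [Nat.card_zpowers, hx, pow_one]
        · intro a ha
          rcases mem_zpowers_invol hx ha with h | h
          · rw [h, one_mul, mul_one]
          · rw [h, hxy]
      · refine inf_le_left.trans ?_
        unfold Cfsg.centralizerPPrimeCore
        rintro _ ⟨c, -, rfl⟩
        exact c.2
    exact le_antisymm (key x y hx hy hxy) (key y x hy hx hxy.symm)

end Cfsg.Agent.S1300
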