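import Cfsg.Statements.S1313
import Cfsg.Agent.Lib_helper5_Comp4

set_option autoImplicit false
open Cfsg

namespace Cfsg.Agent.S1313

open Cfsg.Agent.H5

theorem card_mulAut_le (K : Type*) [Group K] [Finite K] :
    Nat.card (MulAut K) ≤ Nat.factorial (Nat.card K - 1) := by
  classical
  have h1 : Nat.card {x : K // x ≠ 1} = Nat.card K - 1 := by
    have := Nat.card_congr (Equiv.optionSubtypeNe (1 : K))
    rw [Finite.card_option] at this
    omega
  rw [← h1, ← Nat.card_perm]
  apply Nat.card_le_card_of_injective (fun σ : MulAut K =>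
    (Equiv.subtypeEquiv σ.toEquiv (fun a => by
      change a ≠ 1 ↔ σ a ≠ 1
      rw [Ne, Ne, map_eq_one_iff σ σ.injective]) : Equiv.Perm {x : K // x ≠ 1}))
  intro σ τ h
  ext x
  by_cases hx : x = 1
  · rw [hx, map_one, map_one]
  · have := congrArg (fun f : Equiv.Perm {x : K // x ≠ 1} => (f ⟨x, hx⟩).1) h
    exact this

/-- For a finite group H, |H| ≤ |F*(H)|!. -/
theorem result {H : Type*} [Group H] [Finite H] : Nat.card H ≤ Nat.factorial (Nat.card ↥(Cfsg.generalizedFittingSubgroup H)) := by
  haveI hn := genFitting_normal (G := H)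
  set Fs := Cfsg.generalizedFittingSubgroup H with hFs
  let φ : H →* MulAut ↥Fs := MulAut.conjNormal
  have hker : φ.ker ≤ Fs := by
    refine le_trans ?_ (centralizer_genFitting_le (G := H))
    intro x hx
    rw [Subgroup.mem_centralizer_iff]
    intro y hy
    have h1 : φ x = 1 := hx
    have h2 : φ x ⟨y, hy⟩ = ⟨y, hy⟩ := by rw [h1]; rfl
    have h3 := congrArg Subtype.val h2
    rw [MulAut.conjNormal_apply] at h3
    simp only at h3
    calc y * x = (x * y * x⁻¹) * x := by rw [h3]
      _ = x * y := by group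
  have h1 : Nat.card φ.ker ≤ Nat.card Fs := Nat.card_le_card_of_injective _
    (Subgroup.inclusion_injective hker)
  have h2 : Nat.card φ.range ≤ Nat.factorial (Nat.card Fs - 1) :=
    (Nat.card_le_card_of_injective _ Subtype.val_injective).trans (card_mulAut_le _)
  have h3 := φ.ker.card_mul_index
  rw [Subgroup.index_ker] at h3
  rw [← h3, ← Nat.mul_factorial_pred (Nat.card_pos (α := Fs)).ne']
  exact Nat.mul_le_mul h1 h2

end Cfsg.Agent.S1313
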