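import Cfsg.Statements.S1328
import Cfsg.Agent.Lib_helper5_LBal4
import Cfsg.Agent.Lib_helper5_Comp3

set_option autoImplicit false
open Cfsg

namespace Cfsg.Agent.S1328

open Subgroup Cfsg.Agent.H5 Cfsg.Agent.H5.RkOne
open scoped commutatorElement

theorem mem_normalizer_map_subtype {G : Type*} [Group G] {M : Subgroup G} {L' : Subgroup ↥M}
    {g : ↥M} (h : g ∈ normalizer (L' : Set ↥M)) :
    (g : G) ∈ normalizer ((L'.map M.subtype : Subgroup G) : Set G) := by
  have h1 := subgroupOf_normalizer_eq (map_subtype_le L' : L'.map M.subtype ≤ M)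
  have h2 : (L'.map M.subtype).subgroupOf M = L' :=
    comap_map_eq_self_of_injective M.subtype_injective _
  rw [h2] at h1
  rw [← h1] at h
  exact mem_subgroupOf.1 h

theorem mem_centralizer_of_map_subtype {G : Type*} [Group G] {M : Subgroup G} {L' : Subgroup ↥M}
    {g : ↥M} (h : (g : G) ∈ centralizer ((L'.map M.subtype : Subgroup G) : Set G)) :
    g ∈ centralizer (L' : Set ↥M) := by
  rw [mem_centralizer_iff] at h ⊢
  intro l hl
  apply Subtype.ext
  exact h l ⟨l, hl, rfl⟩

/-- Let G be finite, H ≤ G with O(H) = 1, t an involution of G normalizing H, and Y a nontrivial subgroup of O(C_H(t)). Then some component E of H is normalized by t and by Y and centralized by neither t nor Y. -/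
theorem result {G : Type*} [Group G] [Finite G] (H : Subgroup G) (hO : Cfsg.oddCore ↥H = ⊥) (t : G) (ht : orderOf t = 2) (htH : t ∈ Subgroup.normalizer (H : Set G)) (Y : Subgroup G) (hY1 : Y ≠ ⊥) (hY : Y ≤ (Cfsg.oddCore ↥(H ⊓ Subgroup.centralizer ({t} : Set G))).map (H ⊓ Subgroup.centralizer ({t} : Set G)).subtype) : ∃ E : Subgroup ↥H, Cfsg.IsComponent E ∧ (E.map H.subtype).map (MulAut.conj t).toMonoidHom = E.map H.subtype ∧ Y ≤ Subgroup.normalizer ((E.map H.subtype : Subgroup G) : Set G) ∧ ¬ (t ∈ Subgroup.centralizer ((E.map H.subtype : Subgroup G) : Set G)) ∧ ¬ (Y ≤ Subgroup.centralizer ((E.map H.subtype : Subgroup G) : Set G)) := by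
  set M : Subgroup G := H ⊔ zpowers t with hM
  have hHM : H ≤ M := le_sup_left
  have htM : t ∈ M := (le_sup_right : zpowers t ≤ M) (mem_zpowers t)
  have hMN : M ≤ normalizer (H : Set G) := sup_le le_normalizer (zpowers_le.2 htH)
  set H' : Subgroup ↥M := H.subgroupOf M with hH'
  have hH'n : H'.Normal := (normal_subgroupOf_iff_le_normalizer hHM).2 hMN
  set t' : ↥M := ⟨t, htM⟩ with ht'
  have ht'o : orderOf t' = 2 := by
    rw [← ht, ← Subgroup.orderOf_coe]
  set φ := QuotientGroup.mk' H' with hφ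
  have hφz : ∀ w : ↥M, φ w ∈ zpowers (φ t') := by
    have h1 : M ≤ ((zpowers (φ t')).comap φ).map M.subtype := by
      apply sup_le
      · intro h hh
        refine ⟨⟨h, hHM hh⟩, ?_, rfl⟩
        rw [SetLike.mem_coe, mem_comap]
        have : φ ⟨h, hHM hh⟩ = 1 := (QuotientGroup.eq_one_iff _).2 (mem_subgroupOf.2 hh)
        rw [this]; exact one_mem _
      · rw [zpowers_le]
        exact ⟨t', mem_comap.2 (mem_zpowers _), rfl⟩
    intro w
    obtain ⟨w', hw', hww⟩ := h1 w.2
    have : w' = w := Subtype.ext hww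
    rw [← this]; exact hw'
  have ht2 : φ t' ^ 2 = 1 := by
    rw [← map_pow, ← ht'o, pow_orderOf_eq_one, map_one]
  have hq2 : ∀ q : ↥M ⧸ H', q ^ 2 = 1 := by
    intro q
    obtain ⟨w, rfl⟩ := QuotientGroup.mk'_surjective H' q
    obtain ⟨i, hi⟩ := mem_zpowers_iff.1 (hφz w)
    rw [← hφ, ← hi, ← zpow_natCast, ← zpow_mul, mul_comm, zpow_mul, zpow_natCast, ht2, one_zpow]
  have hsq : ∀ w : ↥M, w ^ 2 ∈ H' := by
    intro w
    rw [← QuotientGroup.eq_one_iff]
    exact hq2 (φ w)
  have hqc : ∀ a b : ↥M ⧸ H', a * b = b * a := by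
    intro a b
    have ha : a⁻¹ = a := by rw [inv_eq_iff_mul_eq_one, ← pow_two]; exact hq2 a
    have hb : b⁻¹ = b := by rw [inv_eq_iff_mul_eq_one, ← pow_two]; exact hq2 b
    have hab : (a * b)⁻¹ = a * b := by rw [inv_eq_iff_mul_eq_one, ← pow_two]; exact hq2 _
    rw [← hab, mul_inv_rev, ha, hb]
  have hO' : Cfsg.pPrimeCore 2 ↥M = ⊥ := by
    have h1 := pPrimeCore_map_subtype_eq 2 H' hH'n.isSubnormal
    have h2 : Cfsg.pPrimeCore 2 ↥H' = ⊥ := by
      have h3 := pPrimeCore_map_equiv 2 (subgroupOfEquivOfLe hHM)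
      have hO2 : Cfsg.pPrimeCore 2 ↥H = ⊥ := hO
      rw [hO2] at h3
      exact (map_eq_bot_iff_of_injective _ (subgroupOfEquivOfLe hHM).injective).1 h3
    rw [h2, Subgroup.map_bot] at h1
    rw [eq_bot_iff]
    intro w hw
    have hw2 : w ^ 2 ∈ Cfsg.pPrimeCore 2 ↥M ⊓ H' := ⟨pow_mem hw 2, hsq w⟩
    rw [← h1, mem_bot] at hw2
    exact mem_bot.2 (eq_one_of_pow_of_coprime (p := 2) (k := 1) (by simpa using hw2)
      ((Cfsg.Agent.H1.card_pPrimeCore_coprime 2).coprime_dvd_left (orderOf_dvd_card_of_mem _ hw)))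
  -- the core
  set C₀ : Subgroup G := H ⊓ Subgroup.centralizer ({t} : Set G) with hC₀
  set D₀ : Subgroup G := (Cfsg.oddCore ↥C₀).map C₀.subtype with hD₀
  have hD₀C : D₀ ≤ C₀ := map_subtype_le _
  have hD₀M : D₀ ≤ M := hD₀C.trans (inf_le_left.trans hHM)
  have hD' : D₀.subgroupOf M ≤ Cfsg.centralizerPPrimeCore 2 t' := by
    apply le_pPrimeCoreIn
    · intro w hw
      have h1 : (w : G) ∈ Subgroup.centralizer ({t} : Set G) := (hD₀C (mem_subgroupOf.1 hw)).2
      rw [mem_centralizer_singleton_iff] at h1 ⊢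
      exact Subtype.ext h1
    · intro c hc
      have hc1 : (c : G) ∈ normalizer (C₀ : Set G) := by
        have h2 := hMN c.2
        have h3 : (c : G) ∈ normalizer ((Subgroup.centralizer ({t} : Set G) : Subgroup G) : Set G) := by
          apply le_normalizer
          rw [mem_centralizer_singleton_iff] at hc ⊢
          exact congrArg Subtype.val hc
        rw [mem_normalizer_iff] at h2 h3 ⊢
        intro x
        rw [hC₀, mem_inf, mem_inf, h2 x, h3 x]
      have hc2 := normalizer_le_normalizer_pPrimeCoreIn 2 C₀ hc1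
      rw [mem_normalizer_iff] at hc2 ⊢
      intro w
      rw [mem_subgroupOf, mem_subgroupOf]
      exact hc2 w
    · have h4 : Nat.card (D₀.subgroupOf M) = Nat.card D₀ :=
        Nat.card_congr (subgroupOfEquivOfLe hD₀M).toEquiv
      rw [h4]
      exact card_pPrimeCoreIn_coprime 2 C₀
  have hYM : Y ≤ M := hY.trans hD₀M
  have hY' : Y.subgroupOf M ≤ Cfsg.centralizerPPrimeCore 2 t' := by
    refine le_trans ?_ hD'
    intro w hw
    exact mem_subgroupOf.2 (hY (mem_subgroupOf.1 hw))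
  have hY'1 : Y.subgroupOf M ≠ ⊥ := by
    intro h
    apply hY1
    rw [eq_bot_iff]
    intro y hy
    have h5 : (⟨y, hYM hy⟩ : ↥M) ∈ Y.subgroupOf M := mem_subgroupOf.2 hy
    rw [h, mem_bot] at h5
    exact mem_bot.2 (congrArg Subtype.val h5)
  obtain ⟨L', hL', htL, hYL, htc, hYc⟩ := local_core_component hO' ht'o hY'1 hY'
  have hL'H : L' ≤ H' := by
    have h6 := perfect_le_ker_of_solvable (Group.isSolvable_of_comm hqc) φ (component_perfect hL')
    rwa [hφ, QuotientGroup.ker_mk'] at h6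
  have hE₁ : Cfsg.IsComponent (L'.subgroupOf H') := component_subgroupOf hL' hL'H
  have hE₂ := component_map_equiv (subgroupOfEquivOfLe hHM) hE₁
  have hEmap : ((L'.subgroupOf H').map (subgroupOfEquivOfLe hHM).toMonoidHom).map H.subtype =
      L'.map M.subtype := by
    ext x
    constructor
    · rintro ⟨_, ⟨w, hw, rfl⟩, rfl⟩
      exact ⟨w, mem_subgroupOf.1 hw, rfl⟩
    · rintro ⟨l, hl, rfl⟩
      exact ⟨_, ⟨⟨l, hL'H hl⟩, mem_subgroupOf.2 hl, rfl⟩, rfl⟩
  refine ⟨_, hE₂, ?_, ?_, ?_, ?_⟩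
  · rw [hEmap]
    exact conjBy_eq_self_iff.2 (mem_normalizer_map_subtype htL)
  · rw [hEmap]
    intro y hy
    exact mem_normalizer_map_subtype (hYL (show (⟨y, hYM hy⟩ : ↥M) ∈ Y.subgroupOf M from
      mem_subgroupOf.2 hy))
  · rw [hEmap]
    intro h
    exact htc (mem_centralizer_of_map_subtype h)
  · rw [hEmap]
    intro h
    apply hYc
    intro w hw
    exact mem_centralizer_of_map_subtype (h (mem_subgroupOf.1 hw))

end Cfsg.Agent.S1328
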