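import Cfsg.Statements.S1474
import Cfsg.Agent.S1477
import Cfsg.Agent.S0666
import Cfsg.Agent.S0039
import Cfsg.Agent.S0034
import Cfsg.Agent.Lib_helper1_Schmidt
import Cfsg.Agent.Lib_helper1_Wielandt
import Cfsg.Agent.Lib_helper1_Cores
import Cfsg.Agent.Lib_helper1_SZ

set_option autoImplicit false
open Cfsg

namespace Cfsg.Agent.S1474

open Subgroup
open Cfsg.Agent.S1477

theorem frob_of_cn {X : Type*} [Group X] [Finite X] (hCN : Cfsg.IsCNGroup X)
    (hX : Cfsg.IsMinimalNonNilpotent X) : ∃ H : Subgroup X, Cfsg.IsFrobeniusComplement H := by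
  obtain ⟨r, q, hr, hq, hrq, R, Q, hRc, hQn, hsup, hRn⟩ := Cfsg.Agent.H1.schmidt_structure hX
  haveI : Fact r.Prime := ⟨hr⟩
  haveI : Fact q.Prime := ⟨hq⟩
  haveI := hQn
  have hcen : ∀ c : X, (∀ x, x * c = c * x) → c = 1 := by
    intro c hc
    by_contra hc1
    apply hX.1
    have h1 := hCN c hc1
    have h2 : centralizer ({c} : Set X) = ⊤ :=
      eq_top_iff.mpr fun x _ => mem_centralizer_singleton_iff.mpr (hc x)
    rw [h2] at h1
    exact Group.nilpotent_of_mulEquiv Subgroup.topEquiv
  have hR1 : (R : Subgroup X) ≠ ⊥ := fun h => hRn (by rw [h]; infer_instance)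
  have hQ1 : (Q : Subgroup X) ≠ ⊥ := by
    intro h; rw [h, sup_bot_eq] at hsup; exact hRn (by rw [hsup]; infer_instance)
  have hcop : (Nat.card (Q : Subgroup X)).Coprime (Nat.card (R : Subgroup X)) :=
    IsPGroup.coprime_card_of_ne q r hrq.symm _ _ Q.isPGroup' R.isPGroup'
  have hcompl : IsComplement' (Q : Subgroup X) (R : Subgroup X) := by
    apply isComplement'_of_coprime _ hcop
    have := Cfsg.Agent.H1.card_sup_mul_card_inf (R : Subgroup X) (Q : Subgroup X)
    rw [hsup, card_top, (disjoint_of_coprime_natCard hcop.symm).eq_bot, card_bot, mul_one] at this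
    rw [this, mul_comm]
  refine ⟨R, (Cfsg.Agent.S0039.result (Q : Subgroup X) (R : Subgroup X) hcompl hQ1 hR1).mpr ?_⟩
  intro h hh hh1
  rw [eq_bot_iff_forall]
  intro c hc
  by_contra hc1
  obtain ⟨z, hzQ, hzo, hzc⟩ := Cfsg.Agent.H5.exists_central_orderOf_eq Q.isPGroup' le_rfl
    le_normalizer hQ1
  have hz1 : z ≠ 1 := ne_one_of_orderOf hq hzo
  have hch : c * h = h * c := mem_centralizer_singleton_iff.mp hc.2
  have ordR : ∀ t ∈ (R : Subgroup X), (orderOf t).Coprime q := by
    intro t ht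
    obtain ⟨j, hj⟩ := (IsPGroup.iff_orderOf.mp R.isPGroup') ⟨t, ht⟩
    rw [Subgroup.orderOf_mk] at hj
    rw [hj]; exact Nat.Coprime.pow_left _ ((Nat.coprime_primes hr hq).mpr hrq)
  have hzq : z ^ q ^ 1 = 1 := by rw [pow_one, ← hzo, pow_orderOf_eq_one]
  have e1 : z * h = h * z := comm_in (hCN c hc1) (p := q) (a := z) (x := h)
    (mem_centralizer_singleton_iff.mpr (hzc c hc.1).symm)
    (mem_centralizer_singleton_iff.mpr hch.symm) hzq (ordR h hh)
  have e2 : ∀ t ∈ (R : Subgroup X), z * t = t * z := by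
    intro t ht
    refine comm_in (hCN h hh1) (p := q) (mem_centralizer_singleton_iff.mpr e1)
      (mem_centralizer_singleton_iff.mpr ?_) hzq (ordR t ht)
    obtain ⟨g, hg⟩ := hRc.exists_generator
    obtain ⟨m, hm⟩ := hg ⟨t, ht⟩
    obtain ⟨n, hn⟩ := hg ⟨h, hh⟩
    have : (⟨t, ht⟩ : (R : Subgroup X)) * ⟨h, hh⟩ = ⟨h, hh⟩ * ⟨t, ht⟩ := by
      rw [← hm, ← hn]; exact ((Commute.refl g).zpow_zpow m n)
    exact congrArg Subtype.val this
  have h3 : centralizer ({z} : Set X) = ⊤ := by
    rw [eq_top_iff, ← hsup]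
    exact sup_le (fun t ht => mem_centralizer_singleton_iff.mpr (e2 t ht).symm)
      (fun t ht => mem_centralizer_singleton_iff.mpr (hzc t ht))
  exact hz1 (hcen z fun x => mem_centralizer_singleton_iff.mp (h3 ▸ mem_top x))

theorem map_conj_of_normal {G : Type*} [Group G] (N : Subgroup G) [hN : N.Normal] (g : G) :
    N.map (MulAut.conj g).toMonoidHom = N := by
  ext y
  constructor
  · rintro ⟨w, hw, rfl⟩
    exact hN.conj_mem w hw g
  · intro hy
    refine ⟨g⁻¹ * y * g, ?_, ?_⟩
    · have := hN.conj_mem y hy g⁻¹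
      rwa [inv_inv] at this
    · simp only [MulEquiv.coe_toMonoidHom, MulAut.conj_apply]
      group

theorem cn_subgroup {G : Type*} [Group G] (hCN : Cfsg.IsCNGroup G) (S : Subgroup G) :
    Cfsg.IsCNGroup S := by
  intro c hc
  have hc' : (c : G) ≠ 1 := fun h => hc (Subtype.ext h)
  have h1 := hCN (c : G) hc'
  let f : ↥(centralizer ({c} : Set S)) →* ↥(centralizer ({(c : G)} : Set G)) :=
    { toFun := fun x => ⟨((x : S) : G), by
        have := mem_centralizer_singleton_iff.mp x.2
        exact mem_centralizer_singleton_iff.mpr (congrArg Subtype.val this)⟩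
      map_one' := rfl
      map_mul' := fun _ _ => rfl }
  refine Cfsg.Agent.H1.isNilpotent_of_injective f ?_ h1
  intro a b hab
  have : ((a : S) : G) = ((b : S) : G) :=
    congrArg (fun t : ↥(centralizer ({(c : G)} : Set G)) => (t : G)) hab
  exact Subtype.ext (Subtype.ext this)

/-- Let G be a finite group in which every non-identity element has nilpotent centralizer, not itself nilpotent, and having a nontrivial normal Sylow p-subgroup for some prime p. Let H be the largest normal nilpotent Hall subgroup of G. Then H is a nontrivial proper normal subgroup with a complement E that is a Frobenius complement in G (no non-identity element of E centralizes a non-identity element of H), and G/H is nilpotent. -/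
theorem result {G : Type*} [Group G] [Finite G] (hCN : Cfsg.IsCNGroup G) (hnn : ¬ Group.IsNilpotent G) (p : ℕ) [Fact p.Prime] (P : Sylow p G)
    (hP1 : (P : Subgroup G) ≠ ⊥) (hPn : (P : Subgroup G).Normal) :
    Cfsg.fittingHall G ≠ ⊥ ∧ Cfsg.fittingHall G ≠ ⊤ ∧
      (∃ E : Subgroup G, Subgroup.IsComplement' (Cfsg.fittingHall G) E ∧ Cfsg.IsFrobeniusComplement E ∧
        ∀ e ∈ E, e ≠ 1 → Cfsg.fittingHall G ⊓ Subgroup.centralizer ({e} : Set G) = ⊥) ∧
      Group.IsNilpotent (G ⧸ Cfsg.fittingHall G) := by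
  classical
  have hp : p.Prime := Fact.out
  haveI := hPn
  obtain ⟨M, hPM, hMmax⟩ := exists_maximal_ge_of_wellFoundedGT
    (fun L : Subgroup G => Group.IsNilpotent L) (P : Subgroup G) P.isPGroup'.isNilpotent
  have hM : MaxNil M := ⟨hMmax.prop, fun L hL hle => le_antisymm (hMmax.2 hL hle) hle⟩
  have hMcard1 : Nat.card M ≠ 1 := by
    intro h
    rw [Subgroup.card_eq_one] at h
    exact hP1 (le_bot_iff.mp (h ▸ hPM))
  have hMconj : ∀ g : G, M.map (MulAut.conj g).toMonoidHom = M := by
    intro g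
    by_contra hne
    by_cases hpp : IsPrimePow (Nat.card M)
    · obtain ⟨s, k, hs, hk, hsk⟩ := hpp
      have hs' : s.Prime := hs.nat_prime
      have hpd : p ∣ Nat.card M := by
        have h1 : p ∣ Nat.card (P : Subgroup G) := by
          obtain ⟨n, hn⟩ := P.isPGroup'.exists_card_eq
          rw [hn]
          apply dvd_pow_self
          rintro rfl
          rw [pow_zero, Subgroup.card_eq_one] at hn
          exact hP1 hn
        exact h1.trans (Subgroup.card_dvd_of_le hPM)
      rw [← hsk] at hpd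
      have hps : p = s := (Nat.prime_dvd_prime_iff_eq hp hs').mp (hp.dvd_of_dvd_pow hpd)
      have hMp : IsPGroup p M := IsPGroup.of_card (n := k) (by rw [hps, hsk])
      have hMP : M = P := P.is_maximal' hMp hPM
      apply hne
      rw [hMP]
      exact map_conj_of_normal _ g
    · have hTI := (Cfsg.Agent.S1477.result hCN M hM.1 hM.2).2.1 hpp hMcard1 g hne
      apply hP1
      rw [eq_bot_iff, ← hTI]
      refine le_inf hPM ?_
      rw [← map_conj_of_normal (P : Subgroup G) g]
      exact Subgroup.map_mono hPM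
  have hMn : M.Normal := by
    constructor
    intro x hx g
    rw [← hMconj g]
    exact ⟨x, hx, rfl⟩
  have hFM : Cfsg.fittingHall G = M := by
    apply le_antisymm
    · apply sSup_le
      rintro N ⟨hNn, hNnil, -⟩
      have h1 : Cfsg.fittingSubgroup G = M := hM.2 _ Cfsg.Agent.H1.fitting_nilpotent
        (Cfsg.Agent.H1.le_fitting hMn hM.1)
      rw [← h1]
      exact Cfsg.Agent.H1.le_fitting hNn hNnil
    · exact le_sSup ⟨hMn, hM.1, hall hCN hM⟩
  have hMF : MaxNil (Cfsg.fittingHall G) := hFM ▸ hM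
  have hPF : (P : Subgroup G) ≤ Cfsg.fittingHall G := hFM ▸ hPM
  clear hFM hMn hMconj hMcard1 hM hMmax hPM
  set F := Cfsg.fittingHall G with hF
  have hF1 : F ≠ ⊥ := fun h => hP1 (le_bot_iff.mp (h ▸ hPF))
  have hF2 : F ≠ ⊤ := by
    intro h
    apply hnn
    have h1 := hMF.1
    rw [h] at h1
    exact Group.nilpotent_of_mulEquiv Subgroup.topEquiv
  have hhall : (Nat.card F).Coprime F.index := hall hCN hMF
  obtain ⟨E, hE⟩ := Subgroup.exists_right_complement'_of_coprime hhall
  have hfpf : ∀ e ∈ E, e ≠ 1 → F ⊓ Subgroup.centralizer ({e} : Set G) = ⊥ := by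
    intro e he he1
    rw [Subgroup.eq_bot_iff_forall]
    intro x hx
    by_contra hx1
    have h1 := cent_le hCN hMF (fun g hne => absurd (map_conj_of_normal F g) hne) hx.1 hx1
    have h2 : e ∈ F := h1 (Subgroup.mem_centralizer_singleton_iff.mpr
      (Subgroup.mem_centralizer_singleton_iff.mp hx.2).symm)
    have h3 : e ∈ F ⊓ E := ⟨h2, he⟩
    rw [hE.disjoint.eq_bot, Subgroup.mem_bot] at h3
    exact he1 h3
  have hE1 : E ≠ ⊥ := by
    intro h
    have := hE.sup_eq_top
    rw [h, sup_bot_eq] at this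
    exact hF2 this
  have hEnil : Group.IsNilpotent E := by
    by_contra hEn
    obtain ⟨S0, hS0E, hS0⟩ := exists_minimal_le_of_wellFoundedLT
      (fun L : Subgroup G => ¬ Group.IsNilpotent L) E hEn
    have hmin : Cfsg.IsMinimalNonNilpotent S0 := by
      refine ⟨hS0.prop, fun H hH => ?_⟩
      by_contra hHn
      have h1 : ¬ Group.IsNilpotent (H.map S0.subtype) := by
        intro h
        exact hHn (Group.nilpotent_of_mulEquiv
          (H.equivMapOfInjective _ S0.subtype_injective).symm)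
      have h2 := hS0.2 h1 (Subgroup.map_subtype_le H)
      apply hH
      rw [eq_top_iff]
      intro x _
      obtain ⟨y, hy, hyx⟩ := h2 x.2
      have : y = x := Subtype.ext hyx
      rw [← this]; exact hy
    obtain ⟨H, hH⟩ := frob_of_cn (cn_subgroup hCN S0) hmin
    set V := F ⊓ Subgroup.centralizer (F : Set G) with hV
    have hVab : IsMulCommutative V :=
      ⟨⟨fun a b => Subtype.ext ((Subgroup.mem_centralizer_iff.mp b.2.2) a a.2.1)⟩⟩
    have hV1 : V ≠ ⊥ := by
      have hc1 : Nat.card F ≠ 1 := fun h => hF1 (Subgroup.card_eq_one.mp h)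
      haveI : Fact (Nat.card F).minFac.Prime := ⟨Nat.minFac_prime hc1⟩
      obtain ⟨u, huF, huo, huc⟩ := exists_central F hMF.1 _ (Nat.minFac_dvd (Nat.card F))
      intro h
      have : u ∈ V := ⟨huF, Subgroup.mem_centralizer_iff.mpr huc⟩
      rw [h, Subgroup.mem_bot] at this
      exact ne_one_of_orderOf (Nat.minFac_prime hc1) huo this
    have hFV : S0 ≤ Subgroup.normalizer (V : Set G) := by
      apply Cfsg.Agent.H1.le_normalizer_of_forall
      intro g _ x hx
      refine ⟨(inferInstance : F.Normal).conj_mem x hx.1 g, ?_⟩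
      change g * x * g⁻¹ ∈ Subgroup.centralizer (F : Set G)
      rw [Subgroup.mem_centralizer_iff]
      intro h hh
      have h1 : g⁻¹ * h * g⁻¹⁻¹ ∈ F := (inferInstance : F.Normal).conj_mem h hh g⁻¹
      have h2 := (Subgroup.mem_centralizer_iff.mp hx.2) _ h1
      calc h * (g * x * g⁻¹) = g * ((g⁻¹ * h * g⁻¹⁻¹) * x) * g⁻¹ := by group
        _ = g * (x * (g⁻¹ * h * g⁻¹⁻¹)) * g⁻¹ := by rw [h2]
        _ = g * x * g⁻¹ * h := by group
    have hker := (Cfsg.Agent.S0034.result H hH).1
    have hcop : (Nat.card V).Coprime (Nat.card (Cfsg.frobeniusKernel H)) := by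
      rw [hker]
      have h1 : Nat.card V ∣ Nat.card F := Subgroup.card_dvd_of_le inf_le_left
      have h2 : H.index ∣ F.index := by
        rw [hE.symm.index_eq_card]
        exact (H.index_dvd_card).trans (Subgroup.card_dvd_of_le hS0E)
      exact Nat.Coprime.coprime_dvd_left h1 (Nat.Coprime.coprime_dvd_right h2 hhall)
    have hCK : V ⊓ Subgroup.centralizer (Subtype.val '' Cfsg.frobeniusKernel H : Set G) = ⊥ := by
      obtain ⟨k, hk, hk1⟩ : ∃ k ∈ Cfsg.frobeniusKernel H, k ≠ 1 := by
        by_contra hcon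
        push Not at hcon
        have h1 : Cfsg.frobeniusKernel H = {1} := by
          ext k
          constructor
          · intro hk; exact hcon k hk
          · rintro rfl; exact Or.inl rfl
        rw [h1] at hker
        simp only [Set.mem_singleton_iff, Nat.card_unique] at hker
        exact hH.2.1 (Subgroup.index_eq_one.mp hker.symm)
      rw [eq_bot_iff, ← hfpf (k : G) (hS0E k.2) (fun h => hk1 (Subtype.ext h))]
      refine inf_le_inf inf_le_left (Subgroup.centralizer_le ?_)
      rintro _ rfl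
      exact ⟨k, hk, rfl⟩
    have hne := Cfsg.Agent.S0666.result V S0 hVab hV1 hFV H hH hcop hCK
    apply hne
    obtain ⟨h, hh, hh1⟩ : ∃ h ∈ H, h ≠ 1 := by
      by_contra hcon
      push Not at hcon
      exact hH.1 ((Subgroup.eq_bot_iff_forall H).mpr hcon)
    rw [eq_bot_iff, ← hfpf (h : G) (hS0E h.2) (fun h' => hh1 (Subtype.ext h'))]
    refine inf_le_inf inf_le_left (Subgroup.centralizer_le ?_)
    rintro _ rfl
    exact ⟨h, hh, rfl⟩
  refine ⟨hF1, hF2, ⟨E, hE, (Cfsg.Agent.S0039.result F E hE hF1 hE1).mpr hfpf, hfpf⟩, ?_⟩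
  haveI := hEnil
  refine Group.nilpotent_of_surjective ((QuotientGroup.mk' F).comp E.subtype) ?_
  intro y
  obtain ⟨g, rfl⟩ := QuotientGroup.mk'_surjective F y
  have hg : g ∈ F ⊔ E := by rw [hE.sup_eq_top]; exact Subgroup.mem_top g
  obtain ⟨f, hf, e, he, rfl⟩ := Subgroup.mem_sup_of_normal_left.mp hg
  refine ⟨⟨e, he⟩, ?_⟩
  simp only [MonoidHom.comp_apply, Subgroup.subtype_apply, QuotientGroup.mk'_apply]
  rw [QuotientGroup.eq]
  have : e⁻¹ * (f * e) = e⁻¹ * f * e⁻¹⁻¹ := by group
  rw [this]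
  exact (inferInstance : F.Normal).conj_mem f hf e⁻¹

end Cfsg.Agent.S1474
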