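import Cfsg.Statements.S1483
import Cfsg.Agent.S1477

set_option autoImplicit false
open Cfsg

namespace Cfsg.Agent.S1483

open Subgroup
open Cfsg.Agent.S1477

variable {G : Type*} [Group G] [Finite G]

theorem key (hCN : Cfsg.IsCNGroup G) {H : Subgroup G} (hH : MaxNil H) (p : ℕ) [hp : Fact p.Prime]
    (hpH : p ∣ Nat.card H) : ∃ P1 : Sylow p G, (P1 : Subgroup G) ≠ ⊥ ∧
      ∀ z ∈ (P1 : Subgroup G), z ≠ 1 → (∀ t ∈ (P1 : Subgroup G), t * z = z * t) →
        centralizer ({z} : Set G) = H := by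
  obtain ⟨u, huH, huo, huc⟩ := exists_central H hH.1 p hpH
  obtain ⟨P1, hP1⟩ := exists_sylow_ge H hH.1 p
  have hu1 : u ≠ 1 := ne_one_of_orderOf hp.out huo
  have huP1 : u ∈ (P1 : Subgroup G) := hP1 u huH 1 (by rw [huo, pow_one])
  have hne : (P1 : Subgroup G) ≠ ⊥ := fun h => hu1 (by rw [h] at huP1; exact mem_bot.mp huP1)
  refine ⟨P1, hne, ?_⟩
  intro z hzP hz1 hzc
  have hzH : z ∈ H := by
    rw [← cent_eq hCN hH hu1 huc, mem_centralizer_singleton_iff]
    exact (hzc u huP1).symm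
  obtain ⟨k, hk⟩ := P1.isPGroup' ⟨z, hzP⟩
  have hk' : z ^ p ^ k = 1 := congrArg Subtype.val hk
  exact cent_eq hCN hH hz1 (central_of H hH.1 hzH (p := p) (k := k) hk'
    (fun e he j hj => hzc e (hP1 e he j hj)))

theorem conj_or_coprime (hCN : Cfsg.IsCNGroup G) {H₁ H₂ : Subgroup G} (h1 : MaxNil H₁)
    (h2 : MaxNil H₂) : (∃ g : G, H₂ = H₁.map (MulAut.conj g).toMonoidHom) ∨
      (Nat.card H₁).Coprime (Nat.card H₂) := by
  by_cases hc : (Nat.card H₁).Coprime (Nat.card H₂)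
  · exact Or.inr hc
  left
  obtain ⟨p, hp, hp1, hp2⟩ := Nat.Prime.not_coprime_iff_dvd.mp hc
  haveI : Fact p.Prime := ⟨hp⟩
  obtain ⟨P1, hP1ne, hP1⟩ := key hCN h1 p hp1
  obtain ⟨P2, hP2ne, hP2⟩ := key hCN h2 p hp2
  obtain ⟨g, hg⟩ := MulAction.exists_smul_eq G P1 P2
  have hmem : ∀ t : G, t ∈ (P2 : Subgroup G) ↔ g⁻¹ * t * g ∈ (P1 : Subgroup G) := by
    intro t
    rw [← hg, Sylow.coe_subgroup_smul, Subgroup.mem_pointwise_smul_iff_inv_smul_mem, ← map_inv,
      MulAut.smul_def, MulAut.conj_apply, inv_inv]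
  obtain ⟨z, hzP, hzo, hzc⟩ := Cfsg.Agent.H5.exists_central_orderOf_eq P1.isPGroup' le_rfl
    le_normalizer hP1ne
  have hz1 : z ≠ 1 := ne_one_of_orderOf hp hzo
  have e1 := hP1 z hzP hz1 hzc
  have e2 := hP2 (g * z * g⁻¹) (by
      rw [hmem]
      have : g⁻¹ * (g * z * g⁻¹) * g = z := by group
      rw [this]; exact hzP)
    (by
      intro h
      apply hz1
      have : z = g⁻¹ * (g * z * g⁻¹) * g := by group
      rw [this, h]; group)
    (by
      intro t ht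
      have h3 := hzc _ ((hmem t).mp ht)
      calc t * (g * z * g⁻¹) = g * ((g⁻¹ * t * g) * z) * g⁻¹ := by group
        _ = g * (z * (g⁻¹ * t * g)) * g⁻¹ := by rw [h3]
        _ = g * z * g⁻¹ * t := by group)
  refine ⟨g, ?_⟩
  rw [← e1, ← e2]
  ext y
  rw [mem_centralizer_singleton_iff]
  constructor
  · intro hy
    refine ⟨g⁻¹ * y * g, ?_, ?_⟩
    · rw [SetLike.mem_coe, mem_centralizer_singleton_iff]
      calc g⁻¹ * y * g * z = g⁻¹ * (y * (g * z * g⁻¹)) * g := by group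
        _ = g⁻¹ * ((g * z * g⁻¹) * y) * g := by rw [hy]
        _ = z * (g⁻¹ * y * g) := by group
    · simp only [MulEquiv.coe_toMonoidHom, MulAut.conj_apply]
      group
  · rintro ⟨w, hw, rfl⟩
    rw [SetLike.mem_coe, mem_centralizer_singleton_iff] at hw
    simp only [MulEquiv.coe_toMonoidHom, MulAut.conj_apply]
    calc g * w * g⁻¹ * (g * z * g⁻¹) = g * (w * z) * g⁻¹ := by group
      _ = g * (z * w) * g⁻¹ := by rw [hw]
      _ = g * z * g⁻¹ * (g * w * g⁻¹) := by group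

theorem dvd_of_mem {H : Subgroup G} {x : G} (hx : x ∈ H) (hx1 : x ≠ 1) {p : ℕ} (hp : p.Prime)
    (hxp : IsPGroup p (zpowers x)) : p ∣ Nat.card H := by
  haveI : Fact p.Prime := ⟨hp⟩
  obtain ⟨k, hk⟩ := hxp.exists_card_eq
  rw [Nat.card_zpowers] at hk
  have hk0 : k ≠ 0 := by
    rintro rfl
    rw [pow_zero, orderOf_eq_one_iff] at hk
    exact hx1 hk
  have : p ∣ orderOf x := by rw [hk]; exact dvd_pow_self p hk0
  exact this.trans (Subgroup.orderOf_dvd_natCard H hx)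

theorem exists_maxNil (L : Subgroup G) (hL : Group.IsNilpotent L) :
    ∃ M : Subgroup G, L ≤ M ∧ MaxNil M := by
  obtain ⟨M, hLM, hMmax⟩ := exists_maximal_ge_of_wellFoundedGT
    (fun L : Subgroup G => Group.IsNilpotent L) L hL
  exact ⟨M, hLM, hMmax.prop, fun L hL hle => le_antisymm (hMmax.2 hL hle) hle⟩

/-- Let G be a minimal simple group of odd order in which every non-identity element has nilpotent centralizer. Then any two nilpotent subgroups each contained in no larger nilpotent subgroup are either conjugate or of coprime orders; and for primes p, q, r: if some elements x, y ≠ 1 of p-power and q-power order commute, and some elements y', z ≠ 1 of q-power and r-power order commute, then some elements of p-power and r-power order, both ≠ 1, commute. -/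
theorem result {G : Type*} [Group G] [Finite G] (hG : Cfsg.IsMinSimpleOddOrder G) (hCN : Cfsg.IsCNGroup G) :
    (∀ H₁ H₂ : Subgroup G, (Group.IsNilpotent ↥H₁ ∧ ∀ L : Subgroup G, Group.IsNilpotent L → H₁ ≤ L → L = H₁) → (Group.IsNilpotent ↥H₂ ∧ ∀ L : Subgroup G, Group.IsNilpotent L → H₂ ≤ L → L = H₂) → (∃ g : G, H₂ = H₁.map (MulAut.conj g).toMonoidHom) ∨ (Nat.card H₁).Coprime (Nat.card H₂)) ∧
      ∀ (p q r : ℕ), p.Prime → q.Prime → r.Prime → ∀ (x y y' z : G), x ≠ 1 → y ≠ 1 → y' ≠ 1 → z ≠ 1 →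
        IsPGroup p (Subgroup.zpowers x) → IsPGroup q (Subgroup.zpowers y) → IsPGroup q (Subgroup.zpowers y') → IsPGroup r (Subgroup.zpowers z) →
        x * y = y * x → y' * z = z * y' →
        ∃ x' z' : G, x' ≠ 1 ∧ z' ≠ 1 ∧ IsPGroup p (Subgroup.zpowers x') ∧ IsPGroup r (Subgroup.zpowers z') ∧ x' * z' = z' * x' := by
  refine ⟨fun H₁ H₂ h1 h2 => conj_or_coprime hCN h1 h2, ?_⟩
  intro p q r hp hq hr x y y' z hx hy hy' hz hxp hyq hy'q hzr hxy hyz
  obtain ⟨H₁, hL1, h1⟩ := exists_maxNil _ (hCN x hx)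
  obtain ⟨H₂, hL2, h2⟩ := exists_maxNil _ (hCN z hz)
  have hxH : x ∈ H₁ := hL1 (Subgroup.mem_centralizer_singleton_iff.mpr rfl)
  have hyH : y ∈ H₁ := hL1 (Subgroup.mem_centralizer_singleton_iff.mpr hxy.symm)
  have hzH : z ∈ H₂ := hL2 (Subgroup.mem_centralizer_singleton_iff.mpr rfl)
  have hy'H : y' ∈ H₂ := hL2 (Subgroup.mem_centralizer_singleton_iff.mpr hyz)
  have hp1 := dvd_of_mem hxH hx hp hxp
  have hq1 := dvd_of_mem hyH hy hq hyq
  have hq2 := dvd_of_mem hy'H hy' hq hy'q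
  have hr2 := dvd_of_mem hzH hz hr hzr
  have hcard : Nat.card H₂ = Nat.card H₁ := by
    rcases conj_or_coprime hCN h1 h2 with ⟨g, hg⟩ | hc
    · rw [hg]; exact Subgroup.card_map_of_injective (MulAut.conj g).injective
    · exact absurd (Nat.eq_one_of_dvd_coprimes hc hq1 hq2) hq.one_lt.ne'
  rw [hcard] at hr2
  haveI : Fact p.Prime := ⟨hp⟩
  haveI : Fact r.Prime := ⟨hr⟩
  obtain ⟨x', hx'H, hx'o, hx'c⟩ := Cfsg.Agent.S1477.exists_central H₁ h1.1 p hp1
  obtain ⟨z', hz'H, hz'o, hz'c⟩ := Cfsg.Agent.S1477.exists_central H₁ h1.1 r hr2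
  refine ⟨x', z', Cfsg.Agent.S1477.ne_one_of_orderOf hp hx'o,
    Cfsg.Agent.S1477.ne_one_of_orderOf hr hz'o,
    IsPGroup.of_card (n := 1) (by rw [Nat.card_zpowers, hx'o, pow_one]),
    IsPGroup.of_card (n := 1) (by rw [Nat.card_zpowers, hz'o, pow_one]), hz'c x' hx'H⟩

end Cfsg.Agent.S1483
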