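import Cfsg.Statements.S3208
import Mathlib

set_option autoImplicit false
open Cfsg

namespace Cfsg.Agent.S3208

/-- conjugation by an element of the normalizer, as an automorphism of the subgroup -/
noncomputable def conjAut {G : Type*} [Group G] (T : Subgroup G) (n : G)
    (hn : n ∈ Subgroup.normalizer (T : Set G)) : T ≃* T :=
  ((MulAut.conj n).subgroupMap T).trans
    (MulEquiv.subgroupCongr (Subgroup.mem_normalizer_iff_map_conj_eq.mp hn))

theorem conjAut_coe {G : Type*} [Group G] (T : Subgroup G) (n : G)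
    (hn : n ∈ Subgroup.normalizer (T : Set G)) (x : T) :
    ((conjAut T n hn x : T) : G) = n * x * n⁻¹ := rfl

theorem char_conj_mem {G : Type*} [Group G] (T : Subgroup G) (K : Subgroup T) (hK : K.Characteristic)
    (n : G) (hn : n ∈ Subgroup.normalizer (T : Set G)) (x : T) (hx : x ∈ K) :
    conjAut T n hn x ∈ K := by
  have h := hK.fixed (conjAut T n hn)
  rw [← h] at hx
  exact hx

theorem mem_zpowers_two {G : Type*} [Group G] (j : G) (hj : orderOf j = 2) (y : G)
    (hy : y ∈ Subgroup.zpowers j) : y = 1 ∨ y = j := by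
  obtain ⟨k, rfl⟩ := hy
  show j ^ k = 1 ∨ j ^ k = j
  rw [← zpow_mod_orderOf, hj]
  rcases Int.emod_two_eq_zero_or_one k with h | h
  · left; simp [h]
  · right; simp [h]


/-- Let j be an involution of a finite group G, H a subgroup of G, and T a Sylow 2-subgroup of H ∩ C_G(j) containing j such that ⟨j⟩ is a characteristic subgroup of T. Then T is a Sylow 2-subgroup of H. -/
theorem result {G : Type*} [Group G] [Finite G]
    (j : G) (hj : orderOf j = 2) (H T : Subgroup G) (hT : T ≤ H ⊓ Subgroup.centralizer ({j} : Set G)) (h2 : IsPGroup 2 ↥T)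
    (hSyl : ¬ 2 ∣ T.relIndex (H ⊓ Subgroup.centralizer ({j} : Set G))) (hjT : j ∈ T)
    (hchar : ((Subgroup.zpowers j).subgroupOf T).Characteristic) :
    ¬ 2 ∣ T.relIndex H := by
  intro hdvd
  haveI : Fact (Nat.Prime 2) := ⟨Nat.prime_two⟩
  set C := H ⊓ Subgroup.centralizer ({j} : Set G) with hC
  have hTH : T ≤ H := hT.trans inf_le_left
  have hCH : C ≤ H := inf_le_left
  -- elements normalizing T centralize j
  have hcent : ∀ n : G, n ∈ Subgroup.normalizer (T : Set G) → n ∈ Subgroup.centralizer ({j} : Set G) := by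
    intro n hn
    have h1 : (⟨j, hjT⟩ : T) ∈ (Subgroup.zpowers j).subgroupOf T :=
      Subgroup.mem_subgroupOf.mpr (Subgroup.mem_zpowers j)
    have h3 : n * j * n⁻¹ ∈ Subgroup.zpowers j :=
      Subgroup.mem_subgroupOf.mp (char_conj_mem T _ hchar n hn _ h1)
    rw [Subgroup.mem_centralizer_singleton_iff]
    rcases mem_zpowers_two j hj _ h3 with h | h
    · exfalso
      have : j = 1 := by
        have : j = n⁻¹ * (n * j * n⁻¹) * n := by group
        rw [this, h]; group
      rw [this, orderOf_one] at hj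
      norm_num at hj
    · rw [mul_inv_eq_iff_eq_mul] at h
      exact h
  obtain ⟨k, hk⟩ := (IsPGroup.iff_card.mp h2)
  have hcardT' : Nat.card (T.subgroupOf H) = 2 ^ k := by
    rw [← hk]; exact Nat.card_congr (Subgroup.subgroupOfEquivOfLe hTH).toEquiv
  have hmod := Sylow.card_quotient_normalizer_modEq_card_quotient hcardT'
  have hN' : Subgroup.normalizer ((T.subgroupOf H : Subgroup H) : Set H) ≤ C.subgroupOf H := by
    rw [← Subgroup.subgroupOf_normalizer_eq hTH]
    intro n hn
    rw [Subgroup.mem_subgroupOf] at hn ⊢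
    exact ⟨n.2, hcent _ hn⟩
  have e1 : Nat.card (H ⧸ T.subgroupOf H) = T.relIndex H := rfl
  have e2 : Nat.card (Subgroup.normalizer ((T.subgroupOf H : Subgroup H) : Set H) ⧸
      Subgroup.comap (Subgroup.normalizer ((T.subgroupOf H : Subgroup H) : Set H)).subtype (T.subgroupOf H)) =
      (T.subgroupOf H).relIndex (Subgroup.normalizer ((T.subgroupOf H : Subgroup H) : Set H)) := rfl
  rw [e1, e2] at hmod
  have h4 : 2 ∣ (T.subgroupOf H).relIndex (Subgroup.normalizer ((T.subgroupOf H : Subgroup H) : Set H)) :=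
    (Nat.modEq_zero_iff_dvd.mp (hmod.trans (Nat.modEq_zero_iff_dvd.mpr hdvd)))
  have h5 := Subgroup.relIndex_mul_relIndex (T.subgroupOf H) _ (C.subgroupOf H) Subgroup.le_normalizer hN'
  rw [Subgroup.relIndex_subgroupOf hCH] at h5
  exact hSyl (h5 ▸ Dvd.dvd.mul_right h4 _)

end Cfsg.Agent.S3208
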