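import Cfsg.Statements.S1781
import Mathlib
import Cfsg.Agent.S1757
import Cfsg.Agent.S1780
import Cfsg.Agent.S3208

set_option autoImplicit false
open Cfsg

namespace Cfsg.Agent.S1781

/-- Let A be an abelian 2-subgroup of the finite group G such that every conjugate of A equals A or meets A trivially, and let g ∈ G with g A g⁻¹ ≠ A. Then either the subgroup of those elements of A that normalize g A g⁻¹ is an elementary abelian 2-group, or A and g A g⁻¹ commute elementwise. -/
theorem result {G : Type*} [Group G] [Finite G] (A : Subgroup G)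
    (hA2 : IsPGroup 2 ↥A) (hAa : IsMulCommutative ↥A)
    (hti : ∀ h : G, A.map (MulAut.conj h).toMonoidHom = A ∨ A.map (MulAut.conj h).toMonoidHom ⊓ A = ⊥)
    (g : G) (hg : A.map (MulAut.conj g).toMonoidHom ≠ A) :
    Cfsg.IsElementaryAbelian 2 (A ⊓ Subgroup.normalizer ((A.map (MulAut.conj g).toMonoidHom : Subgroup G) : Set G)) ∨
      ⁅A, A.map (MulAut.conj g).toMonoidHom⁆ = ⊥ := by
  haveI : Fact (Nat.Prime 2) := ⟨Nat.prime_two⟩
  set B := A.map (MulAut.conj g).toMonoidHom with hBdef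
  have hcommA : ∀ x ∈ A, ∀ y ∈ A, x * y = y * x := fun x hx y hy =>
    congrArg Subtype.val (mul_comm' (⟨x, hx⟩ : A) ⟨y, hy⟩)
  have hcommB : ∀ x ∈ B, ∀ y ∈ B, x * y = y * x := by
    rintro _ ⟨x, hx, rfl⟩ _ ⟨y, hy, rfl⟩
    rw [← map_mul, ← map_mul, hcommA x hx y hy]
  by_cases hel : ∀ d ∈ A ⊓ Subgroup.normalizer (B : Set G), d ^ 2 = 1
  · left
    exact ⟨⟨⟨fun x y => Subtype.ext (hcommA x x.2.1 y y.2.1)⟩⟩, hel⟩
  right
  push Not at hel
  obtain ⟨d, ⟨hdA, hdN⟩, hd2⟩ := hel
  have hAB : A ⊓ B = ⊥ := by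
    rcases hti g with h | h
    · exact absurd h hg
    · rw [inf_comm]; exact h
  have F1 : ∀ x ∈ A, x ≠ 1 → ∀ c : G, c * x = x * c → A.map (MulAut.conj c).toMonoidHom = A := by
    intro x hx hx1 c hc
    rcases hti c with h | h
    · exact h
    · exfalso
      have : x ∈ A.map (MulAut.conj c).toMonoidHom ⊓ A :=
        ⟨⟨x, hx, by simp [MulAut.conj_apply, hc]⟩, hx⟩
      rw [h, Subgroup.mem_bot] at this
      exact hx1 this
  have F2 : ∀ c ∈ B, A.map (MulAut.conj c).toMonoidHom = A → ∀ e ∈ A,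
      e ∈ Subgroup.normalizer (B : Set G) → c * e = e * c := by
    intro c hc hcA e he heN
    have h1 : e * c * e⁻¹ ∈ B := by
      have := Subgroup.mem_normalizer_iff_map_conj_eq.mp heN
      rw [← this]; exact ⟨c, hc, rfl⟩
    have h2 : c * e⁻¹ * c⁻¹ ∈ A := by
      rw [← hcA]; exact ⟨e⁻¹, A.inv_mem he, rfl⟩
    have h3 : e * c * e⁻¹ * c⁻¹ ∈ A ⊓ B :=
      ⟨by have := A.mul_mem he h2; simpa [mul_assoc] using this, B.mul_mem h1 (B.inv_mem hc)⟩
    rw [hAB, Subgroup.mem_bot] at h3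
    have h4 : e * c = (e * c * e⁻¹ * c⁻¹) * (c * e) := by group
    rw [h4, h3, one_mul]
  have hB2 : IsPGroup 2 B := hA2.map _
  letI : CommGroup B := { (inferInstance : Group B) with
    mul_comm := fun a b => Subtype.ext (hcommB a a.2 b b.2) }
  let t : MulAut B := S3208.conjAut B d hdN
  have ht : ∀ b : B, ((t b : B) : G) = d * b * d⁻¹ := fun b => rfl
  have htpow : ∀ (m : ℕ) (b : B), (((t ^ m) b : B) : G) = d ^ m * b * (d ^ m)⁻¹ := by
    intro m
    induction m with
    | zero => intro b; simp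
    | succ m ih =>
      intro b
      rw [pow_succ', MulAut.mul_apply, ht, ih, pow_succ']; group
  have hord : ∃ k : ℕ, orderOf t = 2 ^ k := by
    obtain ⟨j, hj⟩ := hA2 ⟨d, hdA⟩
    have hj' : d ^ 2 ^ j = 1 := congrArg Subtype.val hj
    have h1 : t ^ 2 ^ j = 1 := by
      ext b
      rw [htpow, hj']; simp
    obtain ⟨k, _, hk⟩ := (Nat.dvd_prime_pow Nat.prime_two).mp (orderOf_dvd_of_pow_eq_one h1)
    exact ⟨k, hk⟩
  have hd1 : d ≠ 1 := by rintro rfl; simp at hd2
  have hC : ∀ b : B, t (t b) = b → t b = b := by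
    intro b hb
    have h1 : d * (d * b * d⁻¹) * d⁻¹ = b := by
      have := congrArg Subtype.val hb
      rwa [ht, ht] at this
    have h2 : (b : G) * d ^ 2 = d ^ 2 * b := by
      have h3 : d ^ 2 * (b : G) = (d * (d * b * d⁻¹) * d⁻¹) * d ^ 2 := by
        rw [sq]; group
      rw [h3, h1]
    have h4 := F1 (d ^ 2) (A.pow_mem hdA 2) hd2 b h2
    have h5 := F2 b b.2 h4 d hdA hdN
    apply Subtype.ext
    rw [ht, ← h5]; group
  have hall := S1780.result (A := B) hB2 t hord hC
  have hN : B ≤ Subgroup.normalizer (A : Set G) := by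
    intro b hb
    rw [Subgroup.mem_normalizer_iff_map_conj_eq]
    apply F1 d hdA hd1
    have h1 := congrArg Subtype.val (hall ⟨b, hb⟩)
    rw [ht] at h1
    have h2 : d * b = (d * b * d⁻¹) * d := by group
    rw [h2]
    exact congrArg (· * d) h1.symm
  have hcompose : ∀ x y : G, (MulAut.conj x).toMonoidHom.comp (MulAut.conj y).toMonoidHom =
      (MulAut.conj (x * y)).toMonoidHom := by
    intro x y; ext z; simp [mul_assoc]
  have hBti : ∀ h : G, B.map (MulAut.conj h).toMonoidHom = B ∨ B.map (MulAut.conj h).toMonoidHom ⊓ B = ⊥ := by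
    intro h
    have e1 : B.map (MulAut.conj h).toMonoidHom =
        (A.map (MulAut.conj (g⁻¹ * h * g)).toMonoidHom).map (MulAut.conj g).toMonoidHom := by
      rw [hBdef, Subgroup.map_map, Subgroup.map_map, hcompose, hcompose]
      congr 3; group
    rcases hti (g⁻¹ * h * g) with h1 | h1
    · left; rw [e1, h1]
    · right
      rw [e1, hBdef, ← Subgroup.map_inf _ _ _ (MulAut.conj g).injective, h1, Subgroup.map_bot]
  have hle : Nat.card A ≤ Nat.card B :=
    (Subgroup.card_map_of_injective (MulAut.conj g).injective).ge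
  exact S1757.result 2 A B hA2 hB2 hti hBti hle hAB hN

end Cfsg.Agent.S1781
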