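import Cfsg.Statements.S1894
import Cfsg.Agent.Lib_helper7_CycIdx2

set_option autoImplicit false
open Cfsg

namespace Cfsg.Agent.S1894

/-- Let P be a finite p-group, A a normal subgroup of P and B an abelian subgroup of A that is normal in P. Then some subgroup C of A containing B is normal in P and is self-centralizing and normal in A (C ∈ SCN(A)). -/
theorem result {P : Type*} [Group P] [Finite P] {p : ℕ} [Fact p.Prime] (hP : IsPGroup p P)
    (A : Subgroup P) [A.Normal] (B : Subgroup P) [B.Normal] (hBA : B ≤ A) (hB : IsMulCommutative B) :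
    ∃ C : Subgroup P, C.Normal ∧ B ≤ C ∧ Cfsg.IsSCN A C := by
  classical
  have hp : p.Prime := Fact.out
  obtain ⟨C, hBC, hCmax⟩ := exists_maximal_ge_of_wellFoundedGT
    (fun L : Subgroup P => L.Normal ∧ L ≤ A ∧ IsMulCommutative L) B ⟨inferInstance, hBA, hB⟩
  obtain ⟨hCn, hCA, hCc⟩ := hCmax.prop
  haveI := hCn
  have hCcent : C ≤ Subgroup.centralizer (C : Set P) := by
    intro x hx
    rw [Subgroup.mem_centralizer_iff]
    intro y hy
    exact congrArg Subtype.val (hCc.is_comm.comm ⟨y, hy⟩ ⟨x, hx⟩)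
  refine ⟨C, hCn, hBC, hCA, ?_, ?_⟩
  · rw [Subgroup.normalizer_eq_top]; exact le_top
  · refine le_antisymm ?_ (le_inf hCA hCcent)
    by_contra hnot
    set Z := A ⊓ Subgroup.centralizer (C : Set P) with hZ
    have hZn : Z.Normal := inferInstance
    have hlt : C < Z := lt_of_le_of_ne (le_inf hCA hCcent) (fun h => hnot h.ge)
    obtain ⟨D, hDn, hCD, hDZ, hDcard⟩ := Cfsg.Agent.H7.exists_normal_cover hP hCn hZn hlt
    obtain ⟨d, hdD, hdC⟩ := SetLike.exists_of_lt hCD
    have hE : D ≤ C ⊔ Subgroup.zpowers d := by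
      have hED : C ⊔ Subgroup.zpowers d ≤ D := sup_le hCD.le (by rwa [Subgroup.zpowers_le])
      obtain ⟨m, hm⟩ := Subgroup.card_dvd_of_le (le_sup_left : C ≤ C ⊔ Subgroup.zpowers d)
      have h1 : Nat.card (C ⊔ Subgroup.zpowers d : Subgroup P) ∣ Nat.card C * p :=
        hDcard ▸ Subgroup.card_dvd_of_le hED
      rw [hm] at h1
      have h2 : m ∣ p := Nat.dvd_of_mul_dvd_mul_left Nat.card_pos h1
      rcases (Nat.dvd_prime hp).mp h2 with rfl | rfl
      · exfalso
        have : C = C ⊔ Subgroup.zpowers d :=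
          Subgroup.eq_of_le_of_card_ge le_sup_left (by rw [hm, mul_one])
        apply hdC
        rw [this]
        exact Subgroup.mem_sup_right (Subgroup.mem_zpowers d)
      · exact (Subgroup.eq_of_le_of_card_ge hED (by rw [hm, hDcard])).ge
    have ha : ∀ c ∈ C, ∀ y ∈ D, c * y = y * c := fun c hc y hy =>
      Subgroup.mem_centralizer_iff.mp (hDZ hy).2 c hc
    have hb : ∀ y ∈ D, y * d = d * y := by
      intro y hy
      have : C ⊔ Subgroup.zpowers d ≤ Subgroup.centralizer ({d} : Set P) := by
        refine sup_le (fun c hc => Subgroup.mem_centralizer_singleton_iff.mpr (ha c hc d hdD)) ?_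
        rw [Subgroup.zpowers_le]
        exact Subgroup.mem_centralizer_singleton_iff.mpr rfl
      exact Subgroup.mem_centralizer_singleton_iff.mp (this (hE hy))
    have hc : ∀ x ∈ D, ∀ y ∈ D, y * x = x * y := by
      intro x hx y hy
      have : C ⊔ Subgroup.zpowers d ≤ Subgroup.centralizer ({x} : Set P) := by
        refine sup_le (fun c hc => Subgroup.mem_centralizer_singleton_iff.mpr (ha c hc x hx)) ?_
        rw [Subgroup.zpowers_le]
        exact Subgroup.mem_centralizer_singleton_iff.mpr (hb x hx).symm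
      exact Subgroup.mem_centralizer_singleton_iff.mp (this (hE hy))
    have hDc : IsMulCommutative D := ⟨⟨fun x y => Subtype.ext (hc y y.2 x x.2)⟩⟩
    have := hCmax.2 ⟨hDn, hDZ.trans inf_le_left, hDc⟩ hCD.le
    exact absurd hCD (not_lt_of_ge this)

end Cfsg.Agent.S1894
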