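import Cfsg.Statements.S1898
-- import your own Cfsg.Agent.* helpers here

set_option autoImplicit false
open Cfsg

namespace Cfsg.Agent.S1898

open scoped commutatorElement

/-- Let X be a finite 2-group whose derived subgroup is elementary abelian and central. Then the subgroup generated by the elements of order dividing 4 has exponent dividing 4, and every automorphism of X fixing each element of order dividing 4 has 2-power order. -/
theorem result {X : Type*} [Group X] [Finite X] (hX : IsPGroup 2 X)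
    (hel : Cfsg.IsElementaryAbelian 2 (commutator X)) (hcen : commutator X ≤ Subgroup.center X) :
    (∀ x ∈ Subgroup.closure {g : X | g ^ 4 = 1}, x ^ 4 = 1) ∧
      ∀ φ : MulAut X, (∀ g : X, g ^ 4 = 1 → φ g = g) → ∃ k : ℕ, φ ^ (2 ^ k) = 1 := by
  -- commutators are central of order dividing 2
  have hc : ∀ x y : X, ∃ c : X, y * x = x * y * c ∧ (∀ z, c * z = z * c) ∧ c ^ 2 = 1 := by
    intro x y
    have hmem : ⁅y⁻¹, x⁻¹⁆ ∈ commutator X :=
      Subgroup.commutator_mem_commutator (Subgroup.mem_top _) (Subgroup.mem_top _)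
    refine ⟨⁅y⁻¹, x⁻¹⁆, ?_, ?_, hel.2 _ hmem⟩
    · rw [commutatorElement_def]; group
    · intro z
      exact ((Subgroup.mem_center_iff.mp (hcen hmem)) z).symm
  have hsq : ∀ x y : X, y * x ^ 2 = x ^ 2 * y := by
    intro x y
    obtain ⟨c, h1, h2, h3⟩ := hc x y
    calc y * x ^ 2 = (y * x) * x := by rw [pow_two, mul_assoc]
      _ = x * y * c * x := by rw [h1]
      _ = x * (y * x) * c := by rw [mul_assoc (x * y), h2 x]; simp only [mul_assoc]
      _ = x * (x * y * c) * c := by rw [h1]
      _ = x ^ 2 * y * c ^ 2 := by simp only [pow_two, mul_assoc]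
      _ = x ^ 2 * y := by rw [h3, mul_one]
  have hmul2 : ∀ x y : X, ∃ c : X, (x * y) ^ 2 = x ^ 2 * y ^ 2 * c ∧ (∀ z, c * z = z * c) ∧
      c ^ 2 = 1 := by
    intro x y
    obtain ⟨c, h1, h2, h3⟩ := hc x y
    refine ⟨c, ?_, h2, h3⟩
    calc (x * y) ^ 2 = x * (y * x) * y := by simp only [pow_two, mul_assoc]
      _ = x * (x * y * c) * y := by rw [h1]
      _ = x * x * y * (c * y) := by simp only [mul_assoc]
      _ = x * x * y * (y * c) := by rw [h2 y]
      _ = _ := by simp only [pow_two, mul_assoc]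
  have hmul4 : ∀ x y : X, (x * y) ^ 4 = x ^ 4 * y ^ 4 := by
    intro x y
    obtain ⟨c, h1, h2, h3⟩ := hmul2 x y
    have e4 : ∀ z : X, z ^ 4 = z ^ 2 * z ^ 2 := fun z => by rw [← pow_add]
    rw [e4 (x * y), h1, e4 x, e4 y]
    calc x ^ 2 * y ^ 2 * c * (x ^ 2 * y ^ 2 * c)
        = x ^ 2 * (y ^ 2 * (c * x ^ 2)) * y ^ 2 * c := by simp only [mul_assoc]
      _ = x ^ 2 * (y ^ 2 * (x ^ 2 * c)) * y ^ 2 * c := by rw [h2]
      _ = x ^ 2 * ((y ^ 2 * x ^ 2) * c) * y ^ 2 * c := by simp only [mul_assoc]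
      _ = x ^ 2 * ((x ^ 2 * y ^ 2) * c) * y ^ 2 * c := by rw [hsq x (y ^ 2)]
      _ = x ^ 2 * x ^ 2 * y ^ 2 * (c * y ^ 2) * c := by simp only [mul_assoc]
      _ = x ^ 2 * x ^ 2 * y ^ 2 * (y ^ 2 * c) * c := by rw [h2]
      _ = x ^ 2 * x ^ 2 * (y ^ 2 * y ^ 2) * c ^ 2 := by simp only [pow_two, mul_assoc]
      _ = _ := by rw [h3, mul_one]
  let ψ : X →* X :=
    { toFun := fun x => x ^ 4
      map_one' := one_pow 4
      map_mul' := hmul4 }
  have hψ : ∀ x, ψ x = x ^ 4 := fun _ => rfl
  constructor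
  · have : Subgroup.closure {g : X | g ^ 4 = 1} ≤ ψ.ker := by
      rw [Subgroup.closure_le]
      intro g hg
      exact hg
    intro x hx
    exact this hx
  · intro φ hφ
    have claim : ∀ k : ℕ, ∀ x : X, x ^ (4 ^ (k + 1)) = 1 → (φ ^ (4 ^ k)) x = x := by
      intro k
      induction k with
      | zero =>
        intro x hx
        simpa using hφ x (by simpa using hx)
      | succ k ih =>
        intro x hx
        set β := φ ^ (4 ^ k) with hβ
        have hx4 : β (x ^ 4) = x ^ 4 := by
          apply ih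
          rw [← pow_mul, ← pow_succ']
          exact hx
        set z := x⁻¹ * β x with hz
        have hz4 : z ^ 4 = 1 := by
          rw [hz, hmul4, ← map_pow, hx4, inv_pow, inv_mul_cancel]
        have hφpow : ∀ j : ℕ, (φ ^ j) z = z := by
          intro j
          induction j with
          | zero => simp
          | succ j ihj => rw [pow_succ, MulAut.mul_apply, hφ z hz4, ihj]
        have hβz : β z = z := hφpow _
        have hβx : β x = x * z := by rw [hz]; group
        have hβj : ∀ j : ℕ, (β ^ j) x = x * z ^ j := by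
          intro j
          induction j with
          | zero => simp
          | succ j ihj =>
            rw [pow_succ', MulAut.mul_apply, ihj, map_mul, map_pow, hβz, hβx, mul_assoc, ← pow_succ']
        have : φ ^ (4 ^ (k + 1)) = β ^ 4 := by
          rw [hβ, ← pow_mul, pow_succ]
        rw [this, hβj, hz4, mul_one]
    obtain ⟨m, hm⟩ := IsPGroup.iff_card.mp hX
    refine ⟨2 * m, ?_⟩
    ext x
    have hx : x ^ (4 ^ (m + 1)) = 1 := by
      have h1 : x ^ (2 ^ m) = 1 := by rw [← hm]; exact pow_card_eq_one'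
      have h2 : (4 : ℕ) ^ (m + 1) = 2 ^ m * (2 ^ m * 4) := by
        have : (4 : ℕ) = 2 ^ 2 := by norm_num
        rw [pow_succ, this, ← pow_mul, two_mul, pow_add]; ring
      rw [h2, pow_mul, h1, one_pow]
    have h3 : (2 : ℕ) ^ (2 * m) = 4 ^ m := by rw [pow_mul]; norm_num
    rw [h3, claim m x hx]
    rfl

end Cfsg.Agent.S1898
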