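import Cfsg.Statements.S1899
-- import your own Cfsg.Agent.* helpers here

set_option autoImplicit false
open Cfsg

namespace Cfsg.Agent.S1899

/-- Let a dihedral group of order 2n, n odd and n > 1, act on a finite abelian 2-group A through automorphisms d and t with d^n = 1, t² = 1 and t d t⁻¹ = d⁻¹, and suppose that d fixes only the identity. Then A is the internal direct product of C_A(t) and its image under d. -/
theorem result {A : Type*} [CommGroup A] [Finite A] (hA : IsPGroup 2 A)
    {n : ℕ} (hn : Odd n) (hn1 : 1 < n) (d t : MulAut A) (hd : d ^ n = 1) (ht : t ^ 2 = 1) (hdt : t * d * t⁻¹ = d⁻¹)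
    (hfix : ∀ a : A, d a = a → a = 1) :
    (MulEquiv.toMonoidHom t).eqLocus (MonoidHom.id A) ⊓ ((MulEquiv.toMonoidHom t).eqLocus (MonoidHom.id A)).map d.toMonoidHom = ⊥ ∧
      (MulEquiv.toMonoidHom t).eqLocus (MonoidHom.id A) ⊔ ((MulEquiv.toMonoidHom t).eqLocus (MonoidHom.id A)).map d.toMonoidHom = ⊤ := by
  have h1 : ∀ x, t (d x) = d⁻¹ (t x) := by
    intro x
    have h : t * d = d⁻¹ * t := by
      rw [← hdt]; group
    exact DFunLike.congr_fun h x
  have h2 : ∀ x, t (d⁻¹ x) = d (t x) := by
    intro x
    have h : t * d⁻¹ = d * t := by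
      have : d = t * d⁻¹ * t⁻¹ := by
        have := congrArg (·⁻¹) hdt
        simp only [mul_inv_rev, inv_inv] at this
        rw [mul_assoc]; exact this.symm
      calc t * d⁻¹ = (t * d⁻¹ * t⁻¹) * t := by group
        _ = d * t := by rw [← this]
    exact DFunLike.congr_fun h x
  have ht' : ∀ x, t (t x) = x := by
    intro x
    have := DFunLike.congr_fun ht x
    simpa [pow_two] using this
  have hdd : ∀ x, d (d⁻¹ x) = x := fun x => by
    have : d * d⁻¹ = 1 := mul_inv_cancel d
    exact DFunLike.congr_fun this x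
  have hdd' : ∀ x, d⁻¹ (d x) = x := fun x => by
    have : d⁻¹ * d = 1 := inv_mul_cancel d
    exact DFunLike.congr_fun this x
  have hd2 : ∀ x, d (d x) = x → x = 1 := by
    intro x hx
    apply hfix
    obtain ⟨k, hk⟩ := hn
    have hpow : ∀ j : ℕ, ((d ^ 2) ^ j) x = x := by
      intro j
      induction j with
      | zero => simp
      | succ j ih =>
        rw [pow_succ, MulAut.mul_apply]
        have : (d ^ 2) x = x := by simpa [pow_two] using hx
        rw [this, ih]
    have h3 : (d ^ 2) ^ (k + 1) = d := by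
      rw [← pow_mul]
      have : 2 * (k + 1) = n + 1 := by omega
      rw [this, pow_succ, hd, one_mul]
    have := hpow (k + 1)
    rwa [h3] at this
  constructor
  · rw [eq_bot_iff]
    rintro a ⟨ha1, c, hc, rfl⟩
    have hc' : t c = c := hc
    have ha' : t (d c) = d c := ha1
    rw [h1, hc'] at ha'
    have : d (d c) = c := by
      rw [← ha', hdd]
    have hc1 := hd2 c this
    rw [Subgroup.mem_bot]
    show d c = 1
    rw [hc1, map_one]
  · rw [eq_top_iff]
    intro a _
    let φ : A →* A :=
      { toFun := fun x => d x * (d⁻¹ x)⁻¹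
        map_one' := by simp
        map_mul' := by
          intro x y
          simp only [map_mul, mul_inv_rev]
          rw [mul_comm ((d⁻¹ y)⁻¹), mul_mul_mul_comm] }
    have hφ : ∀ x, φ x = d x * (d⁻¹ x)⁻¹ := fun x => rfl
    have hinj : Function.Injective φ := by
      rw [injective_iff_map_eq_one]
      intro x hx
      rw [hφ, mul_inv_eq_one] at hx
      apply hd2
      rw [hx, hdd]
    have hsurj : Function.Surjective φ := Finite.surjective_of_injective hinj
    obtain ⟨r, hr⟩ := hsurj (a * (t a)⁻¹)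
    have hr' : d r * (d⁻¹ r)⁻¹ = a * (t a)⁻¹ := hr
    have htr : t r = r := by
      apply hinj
      rw [hr, hφ, ← h2, ← h1, ← map_inv, ← map_mul]
      have : d⁻¹ r * (d r)⁻¹ = (a * (t a)⁻¹)⁻¹ := by
        rw [← hr']; simp
      rw [this]
      simp [ht', mul_comm]
    have hr1 : t (a * (d r)⁻¹) = a * (d r)⁻¹ := by
      rw [map_mul, map_inv, h1, htr]
      have e1 : d r = a * (t a)⁻¹ * d⁻¹ r := by
        rw [← hr']; simp
      rw [e1]
      simp only [mul_inv_rev, inv_inv]
      rw [mul_comm (t a) a⁻¹, ← mul_assoc, ← mul_assoc]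
      rw [mul_comm a ((d⁻¹ r)⁻¹), mul_assoc, mul_assoc, mul_inv_cancel_left, mul_comm]
    have : a = (a * (d r)⁻¹) * d r := by simp
    rw [this]
    exact Subgroup.mul_mem _ (Subgroup.mem_sup_left hr1)
      (Subgroup.mem_sup_right ⟨r, htr, rfl⟩)

end Cfsg.Agent.S1899
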