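import Cfsg.Statements.S1901
import Cfsg.Agent.Lib_helper7_PSolv
import Cfsg.Agent.Lib_helper1_PQ
import Cfsg.Agent.Lib_helper1_Basic
import Cfsg.Agent.Lib_helper1_SZ

set_option autoImplicit false
open Cfsg

namespace Cfsg.Agent.S1901

open Subgroup Cfsg.Agent.H7
open scoped commutatorElement

universe u

theorem aux (n : ℕ) : ∀ (G : Type u) [Group G] [Finite G] (p : ℕ) [Fact p.Prime]
    (_ : Cfsg.IsPSolvable p G) (Q R : Subgroup G) (P : Sylow p G), Nat.card G = n →
    (Nat.card Q).Coprime p → Q ≤ normalizer ((P : Subgroup G) : Set G) → IsPGroup p R →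
    R ≤ normalizer (Q : Set G) → ⁅Q, R⁆ = ⊥ := by
  induction n using Nat.strong_induction_on with
  | _ n ih =>
  intro G _ _ p _ hsol Q R P hn hQ hQP hR hRQ
  have hp : p.Prime := Fact.out
  rcases subsingleton_or_nontrivial G with hs | hnt
  · exact Subsingleton.elim _ _
  obtain ⟨K, hKn, hKlt, -, hPP⟩ := isPSolvable_exists_step hp hsol
    (inferInstance : (⊥ : Subgroup G).Normal) (inferInstance : (⊤ : Subgroup G).Normal) bot_lt_top
  rw [relIndex_bot_left] at hPP
  have hlt : Nat.card (G ⧸ K) < n := hn ▸ Cfsg.Agent.H1.card_quotient_lt hKlt.ne'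
  have hq := ih _ hlt (G ⧸ K) p (isPSolvable_quotient hp hsol K) (Q.map (QuotientGroup.mk' K))
    (R.map (QuotientGroup.mk' K)) (P.mapSurjective (QuotientGroup.mk'_surjective K)) rfl
    (Nat.Coprime.coprime_dvd_left (card_map_dvd _ _) hQ)
    (by
      rw [Sylow.coe_mapSurjective]
      exact (map_mono hQP).trans (le_normalizer_map _))
    (hR.map _)
    ((map_mono hRQ).trans (le_normalizer_map _))
  rw [← map_commutator, Subgroup.map_eq_bot_iff, QuotientGroup.ker_mk'] at hq
  have hXQ : ⁅Q, R⁆ ≤ Q := Cfsg.Agent.H1.commutator_le_of_le_normalizer hRQ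
  rcases hPP with ⟨k, hk⟩ | hKcop
  · have hdis : Disjoint Q K := disjoint_of_coprime_natCard (by rw [hk]; exact Nat.Coprime.pow_right k hQ)
    rw [eq_bot_iff, ← hdis.eq_bot]
    exact le_inf hXQ hq
  · obtain ⟨a, ha⟩ := P.2.exists_card_eq
    have hdis : Disjoint (P : Subgroup G) K :=
      disjoint_of_coprime_natCard (by rw [ha]; exact Nat.Coprime.pow_left a hKcop.symm)
    have hPC : (P : Subgroup G) ≤ centralizer ((⁅Q, R⁆ : Subgroup G) : Set G) := by
      rw [← commutator_eq_bot_iff_le_centralizer, eq_bot_iff, ← hdis.eq_bot, commutator_le]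
      intro y hy x hx
      refine mem_inf.mpr ⟨?_, ?_⟩
      · rw [commutatorElement_def, mul_assoc, mul_assoc, ← mul_assoc x]
        exact mul_mem hy (Cfsg.Agent.H1.conj_mem_of_le_normalizer hQP (hXQ hx) (inv_mem hy))
      · rw [commutatorElement_def]
        exact mul_mem (hKn.conj_mem x (hq hx) y) (inv_mem (hq hx))
    have hRX : R ≤ normalizer ((⁅Q, R⁆ : Subgroup G) : Set G) :=
      Cfsg.Agent.H1.le_normalizer_commutator hRQ
    have hSyl : IsSylowIn p (P : Subgroup G) (normalizer ((⁅Q, R⁆ : Subgroup G) : Set G)) :=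
      (Sylow_isSylowIn_top P).of_le (hPC.trans (centralizer_le_normalizer _)) le_top
    obtain ⟨g, hg, hle⟩ := hSyl.exists_conj_le hR hRX
    have hRC : R ≤ centralizer ((⁅Q, R⁆ : Subgroup G) : Set G) := by
      intro r hr
      have h1 : g * r * g⁻¹ ∈ centralizer ((⁅Q, R⁆ : Subgroup G) : Set G) := hPC (hle ⟨r, hr, rfl⟩)
      rw [mem_centralizer_iff] at h1 ⊢
      intro x hx
      have h2 := h1 (g * x * g⁻¹) ((mem_normalizer_iff.mp hg x).mp hx)
      have h3 : g * (x * r) * g⁻¹ = g * (r * x) * g⁻¹ := by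
        calc g * (x * r) * g⁻¹ = (g * x * g⁻¹) * (g * r * g⁻¹) := by group
          _ = (g * r * g⁻¹) * (g * x * g⁻¹) := h2
          _ = g * (r * x) * g⁻¹ := by group
      exact mul_left_cancel (mul_right_cancel h3)
    obtain ⟨b, hb⟩ := hR.exists_card_eq
    have h4 := Cfsg.Agent.H1.coprime_comm_comm R Q hRQ (by rw [hb]; exact Nat.Coprime.pow_left b hQ.symm)
      (Or.inl (Cfsg.Agent.H1.isSolvable_of_isPGroup hR))
    rw [← h4, commutator_comm]
    exact commutator_eq_bot_iff_le_centralizer.mpr hRC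

/-- Let G be a finite p-solvable group and Q a subgroup of order prime to p such that p divides the index of C_G(Q) in N_G(Q). Then Q normalizes no Sylow p-subgroup of G. -/
theorem result {G : Type*} [Group G] [Finite G] {p : ℕ} [Fact p.Prime]
    (hG : Cfsg.IsPSolvable p G) (Q : Subgroup G) (hQ : ¬ p ∣ Nat.card Q)
    (hA : p ∣ (Subgroup.centralizer (Q : Set G)).relIndex (Subgroup.normalizer (Q : Set G)))
    (P : Sylow p G) : ¬ Q ≤ Subgroup.normalizer ((P : Subgroup G) : Set G) := by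
  intro hQP
  have hpp : p.Prime := Fact.out
  obtain ⟨R, -, hR⟩ := exists_isSylowIn_ge (p := p) (Q := (⊥ : Subgroup G))
    (H := normalizer (Q : Set G)) IsPGroup.of_bot bot_le
  have h1 := aux _ G p hG Q R P rfl ((Nat.Prime.coprime_iff_not_dvd hpp).mpr hQ).symm hQP hR.2.1 hR.1
  rw [commutator_comm] at h1
  have h2 : R ≤ centralizer (Q : Set G) := commutator_eq_bot_iff_le_centralizer.mp h1
  exact hR.2.2 (hA.trans (relIndex_dvd_of_le_left _ h2))

end Cfsg.Agent.S1901
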