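import Cfsg.Statements.S3969
import Cfsg.Agent.Lib_helper7_Cores
import Cfsg.Agent.Lib_helper7_Sylow
import Cfsg.Agent.Lib_helper1_AbDecomp
import Cfsg.Agent.Lib_helper1_Cores

set_option autoImplicit false
open Cfsg

namespace Cfsg.Agent.S3969

open Subgroup
open scoped commutatorElement IsMulCommutative

theorem card_ker_pow_dvd {A : Type*} [CommGroup A] [Finite A] (p : ℕ) :
    Nat.card (powMonoidHom p : A →* A).ker ∣ p ^ Group.rank A := by
  set f : A →* A := powMonoidHom p with hf
  have h1 := f.range.card_mul_index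
  have h2 := f.ker.card_mul_index
  rw [index_ker] at h2
  have h3 : Nat.card f.ker = f.range.index := by
    apply Nat.eq_of_mul_eq_mul_left (Nat.card_pos (α := f.range))
    rw [h1, mul_comm, h2]
  rw [h3, index_eq_card]
  have h4 : ∀ g : A ⧸ f.range, g ^ p = 1 := by
    intro g
    obtain ⟨a, rfl⟩ := QuotientGroup.mk'_surjective f.range g
    rw [← map_pow]
    exact (QuotientGroup.eq_one_iff _).mpr ⟨a, rfl⟩
  exact (card_dvd_exponent_pow_rank' (A ⧸ f.range) h4).trans
    (pow_dvd_pow p (Group.rank_le_of_surjective (QuotientGroup.mk' f.range)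
      (QuotientGroup.mk'_surjective _)))

theorem relIndex_sup_dvd {G : Type*} [Group G] [Finite G] (V R : Subgroup G)
    (h : R ≤ normalizer (V : Set G)) :
    V.relIndex (V ⊔ R) ∣ Nat.card R ∧ R.relIndex (V ⊔ R) ∣ Nat.card V := by
  have hVL : V ≤ V ⊔ R := le_sup_left
  have hRL : R ≤ V ⊔ R := le_sup_right
  have hn : (V.subgroupOf (V ⊔ R)).Normal :=
    (normal_subgroupOf_iff_le_normalizer hVL).mpr (sup_le le_normalizer h)
  have h1 := Cfsg.Agent.H7.card_sup_dvd_of_normal (R.subgroupOf (V ⊔ R)) (V.subgroupOf (V ⊔ R))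
  rw [← subgroupOf_sup hRL hVL, sup_comm R V, subgroupOf_self, card_top, Cfsg.Agent.H1.card_subgroupOf_of_le hRL,
    Cfsg.Agent.H1.card_subgroupOf_of_le hVL] at h1
  constructor
  · rw [← Cfsg.Agent.H1.relIndex_mul_card' hVL] at h1
    exact Nat.dvd_of_mul_dvd_mul_right Nat.card_pos h1
  · rw [← Cfsg.Agent.H1.relIndex_mul_card' hRL, mul_comm (Nat.card R)] at h1
    exact Nat.dvd_of_mul_dvd_mul_right Nat.card_pos h1

theorem normal_of_count {H : Type*} [Group H] [Finite H] {p r e : ℕ} (hp : p.Prime) [Fact r.Prime]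
    (hrp : r ≠ p) (R : Subgroup H) (hR : IsPGroup r R) (hidx : R.index ∣ p ^ e)
    (hr : ∀ j, 1 ≤ j → j ≤ e → ¬ r ∣ p ^ j - 1) : R.Normal := by
  have hrr : r.Prime := Fact.out
  have h1 : ¬ r ∣ R.index := by
    intro h
    exact hrp ((Nat.prime_dvd_prime_iff_eq hrr hp).mp (hrr.dvd_of_dvd_pow (h.trans hidx)))
  set S : Sylow r H := hR.toSylow h1 with hS
  have h2 : Nat.card (Sylow r H) ∣ p ^ e := (S.card_dvd_index).trans hidx
  obtain ⟨j, hj, hjc⟩ := (Nat.dvd_prime_pow hp).mp h2
  have h3 := card_sylow_modEq_one r H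
  rw [hjc] at h3
  have h4 : r ∣ p ^ j - 1 := (Nat.modEq_iff_dvd' (Nat.one_le_pow _ _ hp.pos)).mp h3.symm
  have hj0 : j = 0 := by
    by_contra hne
    exact hr j (Nat.one_le_iff_ne_zero.mpr hne) hj h4
  rw [hj0, pow_zero, S.card_eq_index_normalizer, index_eq_one] at hjc
  exact normalizer_eq_top_iff.mp hjc

theorem centralizes_of_count {G : Type*} [Group G] [Finite G] {p r e : ℕ} (hp : p.Prime)
    [Fact r.Prime] (hrp : r ≠ p) (V R : Subgroup G) (hV : Nat.card V = p ^ e) (hR : IsPGroup r R)
    (hRV : R ≤ normalizer (V : Set G))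
    (hr : ∀ j, 1 ≤ j → j ≤ e → ¬ r ∣ p ^ j - 1) : R ≤ centralizer (V : Set G) := by
  have hrr : r.Prime := Fact.out
  have hRL : R ≤ V ⊔ R := le_sup_right
  have h1 : (R.subgroupOf (V ⊔ R)).Normal := by
    apply normal_of_count hp hrp (e := e) _ (Cfsg.Agent.H7.isPGroup_subgroupOf hR _) _ hr
    rw [← hV]
    exact (relIndex_sup_dvd V R hRV).2
  have h2 : V ≤ normalizer (R : Set G) :=
    le_sup_left.trans ((normal_subgroupOf_iff_le_normalizer hRL).mp h1)
  obtain ⟨b, hb⟩ := hR.exists_card_eq
  have hdis : Disjoint V R := disjoint_of_coprime_natCard (by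
    rw [hV, hb]; exact Nat.Coprime.pow e b ((Nat.coprime_primes hp hrr).mpr (Ne.symm hrp)))
  rw [← commutator_eq_bot_iff_le_centralizer, eq_bot_iff, ← hdis.eq_bot]
  refine le_inf ?_ (Cfsg.Agent.H1.commutator_le_of_le_normalizer h2)
  rw [commutator_comm]
  exact Cfsg.Agent.H1.commutator_le_of_le_normalizer hRV

/-- Let `P` be an abelian Sylow `p`-subgroup of the finite group `G`, generated by `d` elements (`d` its minimal number of generators). If the order of `G` is coprime to `(p - 1)(p ^ 2 - 1) ⋯ (p ^ d - 1)`, then `G` has a normal `p`-complement. (The classical statement needs only the largest number of cyclic factors of `P` of equal order in place of `d`; the form here follows from it.) -/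
theorem result {G : Type*} [Group G] [Finite G] (p : ℕ) [Fact p.Prime] (P : Sylow p G) (hab : IsMulCommutative (P : Subgroup G)) (hcop : Nat.Coprime (Nat.card G) (∏ i ∈ Finset.Icc 1 (Group.rank (P : Subgroup G)), (p ^ i - 1))) : Cfsg.HasNormalPComplement p G := by
  have hpp : p.Prime := Fact.out
  have hab' : IsMulCommutative ↥(P : Subgroup G) := hab
  set d := Group.rank (P : Subgroup G) with hd
  set W : Subgroup G := ((powMonoidHom p : ↥(P : Subgroup G) →* ↥(P : Subgroup G)).ker).map
    (P : Subgroup G).subtype with hW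
  have hWcard : Nat.card W ∣ p ^ d := by
    rw [hW, card_map_of_injective (P : Subgroup G).subtype_injective]
    exact card_ker_pow_dvd p
  obtain ⟨e, he, hWe⟩ := (Nat.dvd_prime_pow hpp).mp hWcard
  have hWmem : ∀ z : G, z ∈ W ↔ z ∈ (P : Subgroup G) ∧ z ^ p = 1 := by
    intro z
    constructor
    · rintro ⟨y, hy, rfl⟩
      refine ⟨y.2, ?_⟩
      have : y ^ p = 1 := hy
      exact congrArg Subtype.val this
    · rintro ⟨h1, h2⟩
      exact ⟨⟨z, h1⟩, Subtype.ext h2, rfl⟩
  have hPC : (P : Subgroup G) ≤ centralizer ((P : Subgroup G) : Set G) :=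
    Cfsg.Agent.H1.abelian_le_centralizer _
  have hN : normalizer ((P : Subgroup G) : Set G) ≤ centralizer ((P : Subgroup G) : Set G) := by
    set N := normalizer ((P : Subgroup G) : Set G) with hNdef
    let S : ∀ r : Nat.Primes, Sylow (r : ℕ) N := fun _ => default
    have h7 : N = (⨆ r, (S r : Subgroup N)).map N.subtype := by
      rw [Cfsg.Agent.H1.iSup_sylow_eq_top S, ← MonoidHom.range_eq_map, range_subtype]
    rw [h7, Subgroup.map_iSup]
    apply iSup_le
    intro r
    have hrf : Fact (r : ℕ).Prime := ⟨r.2⟩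
    set R := (S r : Subgroup N).map N.subtype with hRdef
    have hR : IsPGroup r R := (S r).2.map _
    have hRN : R ≤ N := map_subtype_le _
    by_cases hrp : (r : ℕ) = p
    · have hR' : IsPGroup p R := hrp ▸ hR
      have h1 := hR'.inf_normalizer_sylow P
      have h2 : R ≤ (P : Subgroup G) := by
        have : R ⊓ N = R := inf_eq_left.mpr hRN
        rw [← this]
        exact (le_of_eq h1).trans inf_le_right
      exact h2.trans hPC
    · obtain ⟨b, hb⟩ := hR.exists_card_eq
      rcases Nat.eq_zero_or_pos b with rfl | hbpos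
      · rw [pow_zero, card_eq_one] at hb
        rw [hb]; exact bot_le
      have hrG : (r : ℕ) ∣ Nat.card G :=
        ((dvd_pow_self (r : ℕ) hbpos.ne').trans (hb ▸ dvd_rfl)).trans (card_subgroup_dvd_card R)
      have hr : ∀ j, 1 ≤ j → j ≤ e → ¬ (r : ℕ) ∣ p ^ j - 1 := by
        intro j h1 h2 hdvd
        have h3 : (r : ℕ) ∣ ∏ i ∈ Finset.Icc 1 d, (p ^ i - 1) :=
          hdvd.trans (Finset.dvd_prod_of_mem (fun i => p ^ i - 1) (Finset.mem_Icc.mpr ⟨h1, h2.trans he⟩))
        exact r.2.one_lt.ne' (Nat.eq_one_of_dvd_coprimes hcop hrG h3)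
      have hRW : R ≤ normalizer (W : Set G) := by
        apply Cfsg.Agent.H1.le_normalizer_of_forall
        intro g hg z hz
        rw [hWmem] at hz ⊢
        refine ⟨(mem_normalizer_iff.mp (hRN hg) z).mp hz.1, ?_⟩
        rw [conj_pow, hz.2]; group
      have hc := centralizes_of_count hpp hrp W R hWe hR hRW hr
      obtain ⟨a, ha⟩ := P.2.exists_card_eq
      have hcop' : Nat.Coprime (Nat.card (P : Subgroup G)) ((P : Subgroup G).relIndex ((P : Subgroup G) ⊔ R)) := by
        apply Nat.Coprime.coprime_dvd_right (relIndex_sup_dvd (P : Subgroup G) R hRN).1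
        rw [ha, hb]
        exact Nat.Coprime.pow a b ((Nat.coprime_primes hpp r.2).mpr (Ne.symm hrp))
      have hdec := Cfsg.Agent.H1.abelian_decomp_inf (P : Subgroup G) ((P : Subgroup G) ⊔ R) le_sup_left hcop'
      have hXP : ⁅(P : Subgroup G), R⁆ ≤ (P : Subgroup G) := Cfsg.Agent.H1.commutator_le_of_le_normalizer hRN
      by_cases hX : ⁅(P : Subgroup G), R⁆ = ⊥
      · rw [commutator_comm] at hX
        exact commutator_eq_bot_iff_le_centralizer.mp hX
      · exfalso
        have hXp : IsPGroup p (⁅(P : Subgroup G), R⁆ : Subgroup G) := P.2.to_le hXP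
        obtain ⟨k, hk⟩ := hXp.exists_card_eq
        have hk0 : k ≠ 0 := by
          rintro rfl
          rw [pow_zero, card_eq_one] at hk
          exact hX hk
        obtain ⟨z, hz⟩ := exists_prime_orderOf_dvd_card' (G := ↥(⁅(P : Subgroup G), R⁆ : Subgroup G)) p
          (by rw [hk]; exact dvd_pow_self p hk0)
        have hzp : (z : G) ^ p = 1 := by
          have := pow_orderOf_eq_one z
          rw [hz] at this
          exact congrArg Subtype.val this
        have hzW : (z : G) ∈ W := (hWmem _).mpr ⟨hXP z.2, hzp⟩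
        have hzL : (P : Subgroup G) ⊔ R ≤ centralizer {(z : G)} := by
          apply sup_le
          · intro y hy
            rw [mem_centralizer_singleton_iff]
            exact (mem_centralizer_iff.mp (hPC hy) z (hXP z.2)).symm
          · intro y hy
            rw [mem_centralizer_singleton_iff]
            exact (mem_centralizer_iff.mp (hc hy) z hzW).symm
        have hzmem : (z : G) ∈ ((P : Subgroup G) ⊓ centralizer (((P : Subgroup G) ⊔ R : Subgroup G) : Set G)) ⊓
            ⁅(P : Subgroup G), (P : Subgroup G) ⊔ R⁆ := by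
          refine mem_inf.mpr ⟨mem_inf.mpr ⟨hXP z.2, ?_⟩, commutator_mono le_rfl le_sup_right z.2⟩
          rw [mem_centralizer_iff]
          intro y hy
          exact mem_centralizer_singleton_iff.mp (hzL hy)
        rw [hdec, mem_bot] at hzmem
        have : z = 1 := Subtype.ext hzmem
        rw [this, orderOf_one] at hz
        exact hpp.one_lt.ne hz
  exact ⟨P, _, inferInstance, MonoidHom.ker_transferSylow_isComplement' P hN⟩

end Cfsg.Agent.S3969
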