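import Cfsg.Statements.S1907
import Cfsg.Agent.Lib_helper7_PSolv3
import Cfsg.Agent.S3969

set_option autoImplicit false
open Cfsg

namespace Cfsg.Agent.S1907

open Subgroup Cfsg.Agent.H7

theorem isSylowIn_inf_normal {G : Type*} [Group G] [Finite G] {p : ℕ} [Fact p.Prime] (P : Sylow p G)
    (L : Subgroup G) [L.Normal] : IsSylowIn p ((P : Subgroup G) ⊓ L) L := by
  refine ⟨inf_le_right, P.2.to_le inf_le_left, ?_⟩
  rw [inf_relIndex_right]
  have h1 := Cfsg.Agent.H1.relIndex_mul_card_inf (P : Subgroup G) L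
  have h2 := Cfsg.Agent.H1.card_sup_mul_card_inf (P : Subgroup G) L
  have h3 := Cfsg.Agent.H1.relIndex_mul_card' (le_sup_left : (P : Subgroup G) ≤ (P : Subgroup G) ⊔ L)
  have h4 : (P : Subgroup G).relIndex L = (P : Subgroup G).relIndex ((P : Subgroup G) ⊔ L) := by
    apply Nat.eq_of_mul_eq_mul_right (Nat.card_pos (α := (P : Subgroup G)))
    apply Nat.eq_of_mul_eq_mul_right (Nat.card_pos (α := ((P : Subgroup G) ⊓ L : Subgroup G)))
    rw [h3, h2, ← h1]
    ring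
  rw [h4]
  exact fun h => P.not_dvd_index (h.trans (relIndex_dvd_index_of_le le_sup_left))

/-- Let P be a Sylow p-subgroup of a finite group G, H = P ∩ O_{p',p}(G), N = N_G(H) and D = O_{p'}(G). (a) If y is an element of p-power order of N and d ∈ D with d⁻¹ y d ∈ N, then d = d₁ d₂ with d₁ ∈ C_D(y) and d₂ ∈ C_D(H). (b) Two elements of P that are conjugate in G are conjugate in N. -/
theorem result {G : Type*} [Group G] [Finite G] {p : ℕ} [Fact p.Prime] (P : Sylow p G) :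
    (∀ y ∈ Subgroup.normalizer (((P : Subgroup G) ⊓ Cfsg.pPrimePCore p G : Subgroup G) : Set G), (∃ k : ℕ, orderOf y = p ^ k) →
      ∀ d ∈ Cfsg.pPrimeCore p G, d⁻¹ * y * d ∈ Subgroup.normalizer (((P : Subgroup G) ⊓ Cfsg.pPrimePCore p G : Subgroup G) : Set G) →
        ∃ d₁ ∈ Cfsg.pPrimeCore p G ⊓ Subgroup.centralizer ({y} : Set G),
          ∃ d₂ ∈ Cfsg.pPrimeCore p G ⊓ Subgroup.centralizer (((P : Subgroup G) ⊓ Cfsg.pPrimePCore p G : Subgroup G) : Set G), d = d₁ * d₂) ∧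
    ∀ x y : G, x ∈ (P : Subgroup G) → y ∈ (P : Subgroup G) → IsConj x y →
      ∃ n ∈ Subgroup.normalizer (((P : Subgroup G) ⊓ Cfsg.pPrimePCore p G : Subgroup G) : Set G), n * x * n⁻¹ = y := by
  have hpp : p.Prime := Fact.out
  have hNn : (Cfsg.pPrimeCore p G).Normal := Cfsg.Agent.H7.pPrimeCore_normal p
  have hLn : (Cfsg.pPrimePCore p G).Normal := by
    have : (Cfsg.pCore p (G ⧸ Cfsg.pPrimeCore p G)).Normal := Cfsg.Agent.H7.pCore_normal p
    exact this.comap _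
  have hNcop : (Nat.card (Cfsg.pPrimeCore p G)).Coprime p := pPrimeCore_coprime p
  have hHsyl : IsSylowIn p ((P : Subgroup G) ⊓ Cfsg.pPrimePCore p G) (Cfsg.pPrimePCore p G) :=
    isSylowIn_inf_normal P _
  have hsupL := pPrimeCore_sup_sylow hHsyl
  set N := Cfsg.pPrimeCore p G with hN
  set L := Cfsg.pPrimePCore p G with hL
  set H := (P : Subgroup G) ⊓ L with hH
  have hHp : IsPGroup p H := hHsyl.2.1
  have hdisj : ∀ A : Subgroup G, IsPGroup p A → ∀ z, z ∈ A → z ∈ N → z = 1 := by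
    intro A hA z hzA hzN
    obtain ⟨a, ha⟩ := hA.exists_card_eq
    have hd : Disjoint A N := disjoint_of_coprime_natCard (by
      rw [ha]; exact Nat.Coprime.pow_left a hNcop.symm)
    have : z ∈ A ⊓ N := mem_inf.mpr ⟨hzA, hzN⟩
    rw [hd.eq_bot, mem_bot] at this
    exact this
  have hNC : ∀ c ∈ N, c ∈ normalizer (H : Set G) → c ∈ centralizer (H : Set G) := by
    intro c hc hcn
    rw [mem_centralizer_iff]
    intro h hh
    have h1 : c * h * c⁻¹ * h⁻¹ = 1 := by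
      apply hdisj H hHp
      · exact mul_mem ((mem_normalizer_iff.mp hcn h).mp hh) (inv_mem hh)
      · have : c * h * c⁻¹ * h⁻¹ = c * (h * c⁻¹ * h⁻¹) := by group
        rw [this]
        exact mul_mem hc (hNn.conj_mem _ (inv_mem hc) h)
    calc h * c = (c * h * c⁻¹ * h⁻¹)⁻¹ * (c * h) := by group
      _ = c * h := by rw [h1]; group
  have part1 : ∀ y ∈ normalizer (H : Set G), (∃ k : ℕ, orderOf y = p ^ k) →
      ∀ d ∈ N, d⁻¹ * y * d ∈ normalizer (H : Set G) →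
        ∃ d₁ ∈ N ⊓ centralizer ({y} : Set G), ∃ d₂ ∈ N ⊓ centralizer (H : Set G), d = d₁ * d₂ := by
    rintro y hy ⟨k, hk⟩ d hd hyd
    have hzp : ∀ w : G, orderOf w = p ^ k → IsPGroup p (zpowers w) := by
      intro w hw
      apply IsPGroup.of_card (n := k)
      rw [Nat.card_zpowers, hw]
    have hyd_ord : orderOf (d⁻¹ * y * d) = p ^ k := by
      have h1 : d⁻¹ * y * d = MulAut.conj d⁻¹ y := by simp
      rw [h1, MulEquiv.orderOf_eq, hk]
    set A := H ⊔ zpowers y with hA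
    set B := H ⊔ zpowers (d⁻¹ * y * d) with hB
    have hAp : IsPGroup p A := IsPGroup.to_sup_of_normal_left' hHp (hzp y hk) (zpowers_le.mpr hy)
    have hBp : IsPGroup p B := IsPGroup.to_sup_of_normal_left' hHp (hzp _ hyd_ord) (zpowers_le.mpr hyd)
    have hyA : y ∈ A := mem_sup_right (mem_zpowers y)
    have hBle : B ≤ N ⊔ A := by
      apply sup_le (le_sup_left.trans le_sup_right)
      rw [zpowers_le]
      exact mul_mem (mul_mem (mem_sup_left (inv_mem hd)) (mem_sup_right hyA)) (mem_sup_left hd)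
    have hAsyl : IsSylowIn p A (N ⊔ A) := by
      refine ⟨le_sup_right, hAp, ?_⟩
      intro hdvd
      have h1 := (Cfsg.Agent.S3969.relIndex_sup_dvd N A (by rw [normalizer_eq_top]; exact le_top)).2
      have h2 : p ∣ Nat.card N := hdvd.trans h1
      exact (Nat.Prime.coprime_iff_not_dvd hpp).mp hNcop.symm h2
    obtain ⟨x, hx, hxB⟩ := hAsyl.exists_conj_le hBp hBle
    rw [sup_comm] at hx
    obtain ⟨a, ha, c, hc, rfl⟩ := mem_sup_of_normal_right.mp hx
    have hcB : ∀ b ∈ B, c * b * c⁻¹ ∈ A := by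
      intro b hb
      have h1 : a * c * b * (a * c)⁻¹ ∈ A := map_conj_le_iff.mp hxB b hb
      have h2 : c * b * c⁻¹ = a⁻¹ * (a * c * b * (a * c)⁻¹) * a := by group
      rw [h2]
      exact mul_mem (mul_mem (inv_mem ha) h1) ha
    have hAL : H = A ⊓ L := hHsyl.eq_of_le (hAp.to_le inf_le_left) inf_le_right
      (le_inf le_sup_left hHsyl.1)
    have hcH : c ∈ normalizer (H : Set G) := by
      rw [← map_conj_eq_self_iff]
      apply eq_of_le_of_card_ge
      · rw [map_conj_le_iff]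
        intro h hh
        rw [hAL]
        exact mem_inf.mpr ⟨hcB h (mem_sup_left hh), hLn.conj_mem h (hHsyl.1 hh) c⟩
      · rw [card_map_conj]
    have h5 : c * (d⁻¹ * y * d) * c⁻¹ * y⁻¹ = 1 := by
      apply hdisj A hAp
      · exact mul_mem (hcB _ (mem_sup_right (mem_zpowers _))) (inv_mem hyA)
      · have : c * (d⁻¹ * y * d) * c⁻¹ * y⁻¹ = (c * d⁻¹) * (y * (c * d⁻¹)⁻¹ * y⁻¹) := by group
        rw [this]
        exact mul_mem (mul_mem hc (inv_mem hd)) (hNn.conj_mem _ (inv_mem (mul_mem hc (inv_mem hd))) y)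
    refine ⟨d * c⁻¹, mem_inf.mpr ⟨mul_mem hd (inv_mem hc), ?_⟩, c, mem_inf.mpr ⟨hc, hNC c hc hcH⟩, by group⟩
    rw [mem_centralizer_singleton_iff]
    calc d * c⁻¹ * y = d * c⁻¹ * (c * (d⁻¹ * y * d) * c⁻¹ * y⁻¹) * y := by rw [h5]; group
      _ = y * (d * c⁻¹) := by group
  refine ⟨part1, ?_⟩
  intro x y hx hy hxy
  obtain ⟨g, hg⟩ := isConj_iff.mp hxy
  have hPH : (P : Subgroup G) ≤ normalizer (H : Set G) := Cfsg.Agent.H1.le_normalizer_inf_normal _ _
  have hfr : normalizer (H : Set G) ⊔ N = ⊤ := by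
    have h1 := Sylow.normalizer_sup_eq_top hHsyl.toSylow
    rw [IsSylowIn.coe_toSylow, map_subgroupOf_eq_of_le hHsyl.1] at h1
    rw [eq_top_iff, ← h1, ← hsupL]
    exact sup_le le_sup_left (sup_le le_sup_right (le_normalizer.trans le_sup_left))
  have hgm : g ∈ normalizer (H : Set G) ⊔ N := by rw [hfr]; trivial
  obtain ⟨m, hm, d, hd, rfl⟩ := mem_sup_of_normal_right.mp hgm
  obtain ⟨k, hk⟩ := (IsPGroup.iff_orderOf.mp P.2) ⟨x, hx⟩
  rw [Subgroup.orderOf_mk] at hk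
  have h1 : (d⁻¹)⁻¹ * x * d⁻¹ ∈ normalizer (H : Set G) := by
    have : (d⁻¹)⁻¹ * x * d⁻¹ = m⁻¹ * y * m := by rw [← hg]; group
    rw [this]
    exact mul_mem (mul_mem (inv_mem hm) (hPH hy)) hm
  obtain ⟨d₁, hd₁, d₂, hd₂, hdd⟩ := part1 x (hPH hx) ⟨k, hk⟩ d⁻¹ (inv_mem hd) h1
  have hd₁c : d₁ * x = x * d₁ := mem_centralizer_singleton_iff.mp hd₁.2
  have hd₂n : d₂ ∈ normalizer (H : Set G) := centralizer_le_normalizer _ hd₂.2
  refine ⟨m * d₂⁻¹, mul_mem hm (inv_mem hd₂n), ?_⟩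
  have hd' : d = d₂⁻¹ * d₁⁻¹ := by
    have := congrArg (·⁻¹) hdd
    simpa using this
  rw [← hg, hd']
  have h6 : d₁⁻¹ * x * d₁ = x := by rw [mul_assoc, ← hd₁c]; group
  calc m * d₂⁻¹ * x * (m * d₂⁻¹)⁻¹ = m * d₂⁻¹ * (d₁⁻¹ * x * d₁) * (m * d₂⁻¹)⁻¹ := by rw [h6]
    _ = m * (d₂⁻¹ * d₁⁻¹) * x * (m * (d₂⁻¹ * d₁⁻¹))⁻¹ := by group

end Cfsg.Agent.S1907
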