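import Cfsg.Statements.S1939
import Cfsg.Agent.Lib_helper7_Sylow

set_option autoImplicit false
open Cfsg

namespace Cfsg.Agent.S1939

/-- Let S be a Sylow p-subgroup of the finite group G and a an element of S that is the only G-conjugate of a lying in S. Then every power of a has the same property: for every n, the only G-conjugate of a^n lying in S is a^n. -/
theorem result {G : Type*} [Group G] [Finite G] {p : ℕ} [Fact p.Prime] (S : Sylow p G) (a : G)
    (haS : a ∈ (S : Subgroup G)) (hwc : ∀ g : G, g * a * g⁻¹ ∈ (S : Subgroup G) → g * a * g⁻¹ = a) (n : ℕ) :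
    ∀ g : G, g * a ^ n * g⁻¹ ∈ (S : Subgroup G) → g * a ^ n * g⁻¹ = a ^ n := by
  intro g hg
  set b := g * a * g⁻¹ with hb
  have hbn : g * a ^ n * g⁻¹ = b ^ n := by rw [hb, conj_pow]
  rw [hbn] at hg ⊢
  -- a is central in S
  have hacen : ∀ s ∈ (S : Subgroup G), s * a = a * s := by
    intro s hs
    have h1 : s * a * s⁻¹ ∈ (S : Subgroup G) := (S : Subgroup G).mul_mem ((S : Subgroup G).mul_mem hs haS) ((S : Subgroup G).inv_mem hs)
    have h2 := hwc s h1
    calc s * a = s * a * s⁻¹ * s := by group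
      _ = a * s := by rw [h2]
  set C := Subgroup.centralizer ({b ^ n} : Set G) with hC
  have haC : a ∈ C := by
    rw [hC, Subgroup.mem_centralizer_singleton_iff]
    exact (hacen _ hg).symm
  have hbC : b ∈ C := by
    rw [hC, Subgroup.mem_centralizer_singleton_iff]
    rw [← pow_succ', ← pow_succ]
  have hpa : IsPGroup p (Subgroup.zpowers a) :=
    S.2.to_le (by simpa using haS : Subgroup.zpowers a ≤ (S : Subgroup G))
  have hpb : IsPGroup p (Subgroup.zpowers b) := by
    have := H7.isPGroup_map_conj hpa g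
    have he : (Subgroup.zpowers a).map (MulAut.conj g).toMonoidHom = Subgroup.zpowers b := by
      rw [MonoidHom.map_zpowers]; simp [hb, MulAut.conj_apply]
    rwa [he] at this
  obtain ⟨R, haR, hR⟩ := H7.exists_isSylowIn_ge hpa (by simpa using haC : Subgroup.zpowers a ≤ C)
  obtain ⟨c, hcC, hc⟩ := hR.exists_conj_le hpb (by simpa using hbC : Subgroup.zpowers b ≤ C)
  obtain ⟨h, -, hh⟩ := (H7.Sylow_isSylowIn_top S).exists_conj_le hR.2.1 le_top
  rw [H7.map_conj_le_iff] at hc hh
  have h1 : h * a * h⁻¹ = a := hwc h (hh a (haR (Subgroup.mem_zpowers a)))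
  have h2 : h * (c * b * c⁻¹) * h⁻¹ ∈ (S : Subgroup G) := hh _ (hc b (Subgroup.mem_zpowers b))
  have h3 : (h * c * g) * a * (h * c * g)⁻¹ = a := by
    apply hwc
    have : (h * c * g) * a * (h * c * g)⁻¹ = h * (c * b * c⁻¹) * h⁻¹ := by rw [hb]; group
    rw [this]; exact h2
  have h4 : c * b * c⁻¹ = a := by
    have e1 : h * (c * b * c⁻¹) * h⁻¹ = h * a * h⁻¹ := by
      rw [h1, ← h3, hb]; group
    have := mul_left_cancel (mul_right_cancel e1)
    exact this
  have h5 : c * b ^ n * c⁻¹ = a ^ n := by rw [← h4]; exact (conj_pow).symm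
  have h6 : c * b ^ n = b ^ n * c := by
    have := Subgroup.mem_centralizer_singleton_iff.1 hcC
    exact this
  rw [← h5, h6]; group

end Cfsg.Agent.S1939
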