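import Mathlib
import Cfsg.Statements.S1940
import Mathlib
import Cfsg.Agent.Lib_helper1_Trace

set_option autoImplicit false
open Cfsg

namespace Cfsg.Agent.S1940

open Cfsg.Agent.H1

/-- Let the finite group L act by automorphisms on the finite abelian group M, and let N be an L-invariant subgroup of M such that M/N is a p-group on which L acts trivially (every l • m lies in the coset mN). If every element of M is a product of an element of N and an element fixed by a Sylow p-subgroup T of L, then every element of M is a product of an element of N and an element fixed by all of L. -/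
theorem result {L : Type*} [Group L] [Finite L] {M : Type*} [CommGroup M] [Finite M] [MulDistribMulAction L M]
    {p : ℕ} [Fact p.Prime] (N : Subgroup M) (hN : ∀ (l : L) (m : M), m ∈ N → l • m ∈ N)
    (hquot : IsPGroup p (M ⧸ N)) (htriv : ∀ (l : L) (m : M), (l • m) * m⁻¹ ∈ N) (T : Sylow p L)
    (hT : ∀ m : M, ∃ n ∈ N, ∃ c : M, (∀ t ∈ (T : Subgroup L), t • c = c) ∧ m = n * c) :
    ∀ m : M, ∃ n ∈ N, ∃ c : M, (∀ l : L, l • c = c) ∧ m = n * c := by
  intro m
  have hp : p.Prime := Fact.out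
  set k := (T : Subgroup L).index with hk
  have hkp : k.Coprime p := ((Nat.Prime.coprime_iff_not_dvd hp).mpr T.not_dvd_index).symm
  obtain ⟨a, ha⟩ := hquot (QuotientGroup.mk m)
  have hcop : k.Coprime (orderOf (QuotientGroup.mk m : M ⧸ N)) :=
    Nat.Coprime.coprime_dvd_right (orderOf_dvd_of_pow_eq_one ha) (Nat.Coprime.pow_right a hkp)
  obtain ⟨j, hj⟩ := exists_pow_eq_self_of_coprime hcop
  have h1 : ((m ^ j) ^ k)⁻¹ * m ∈ N := by
    rw [← QuotientGroup.eq]
    rw [← hj]
    simp only [QuotientGroup.mk_pow]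
    rw [← pow_mul, ← pow_mul, mul_comm]
  obtain ⟨n', hn', c', hc', hm'⟩ := hT (m ^ j)
  obtain ⟨τ, hτ, hτN⟩ := exists_trace (T : Subgroup L) c' hc' N (by
    intro g
    rw [div_eq_mul_inv]
    exact htriv g c')
  refine ⟨m / τ, ?_, τ, hτ, by simp⟩
  have e : m / τ = (((m ^ j) ^ k)⁻¹ * m) * n' ^ k * (τ / c' ^ k)⁻¹ := by
    rw [hm', mul_pow]
    simp only [div_eq_mul_inv, mul_inv_rev, inv_inv]
    have : (c' ^ k)⁻¹ * (n' ^ k)⁻¹ * m * n' ^ k * (c' ^ k * τ⁻¹) =
        m * τ⁻¹ * ((c' ^ k)⁻¹ * c' ^ k) * ((n' ^ k)⁻¹ * n' ^ k) := by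
      ac_rfl
    rw [this]; simp
  rw [e]
  exact mul_mem (mul_mem h1 (pow_mem hn' k)) (inv_mem hτN)

end Cfsg.Agent.S1940
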