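import Cfsg.Statements.S1941
import Cfsg.Agent.Lib_helper5_Cocycle
import Cfsg.Agent.Lib_helper5_Comp4
import Cfsg.Agent.Lib_helper7_Sylow

set_option autoImplicit false
open Cfsg

namespace Cfsg.Agent.S1941

open Cfsg.Agent.H5

/-- Let G be a finite group with no nontrivial normal subgroup of order prime to p, T a Sylow p-subgroup of G and E(G) the layer of G (the subgroup generated by its components). An automorphism of G of p-power order that fixes T and E(G) elementwise is inner. -/
theorem result {G : Type*} [Group G] [Finite G] {p : ℕ} [Fact p.Prime] (hcore : Cfsg.pPrimeCore p G = ⊥)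
    (T : Sylow p G) (α : MulAut G) (hα : ∃ j : ℕ, orderOf α = p ^ j) (hfixT : ∀ x ∈ (T : Subgroup G), α x = x)
    (hfixE : ∀ x ∈ Cfsg.layer G, α x = x) : ∃ g : G, ∀ x : G, α x = g * x * g⁻¹ := by
  have hFit : Cfsg.fittingSubgroup G = Cfsg.pCore p G :=
    H1.fitting_eq_pCore_of_pPrimeCore_eq_bot p hcore
  haveI := H1.pCore_normal (G := G) p
  have hOpT : Cfsg.pCore p G ≤ (T : Subgroup G) :=
    (H7.Sylow_isSylowIn_top T).le_of_normal (H1.pCore_isPGroup p) le_top
      (by rw [Subgroup.normalizer_eq_top_iff.2 inferInstance])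
  have hfixF : ∀ x ∈ Cfsg.generalizedFittingSubgroup G, α x = x := by
    have h1 : Cfsg.generalizedFittingSubgroup G ≤
        (α.toMonoidHom.eqLocus (MonoidHom.id G)) := by
      unfold Cfsg.generalizedFittingSubgroup
      apply sup_le
      · intro x hx
        exact hfixE x hx
      · rw [hFit]
        intro x hx
        exact hfixT x (hOpT hx)
    intro x hx
    exact h1 hx
  haveI hFn : (Cfsg.generalizedFittingSubgroup G).Normal := genFitting_normal
  have hAF : Subgroup.centralizer (Cfsg.generalizedFittingSubgroup G : Set G) ≤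
      Cfsg.generalizedFittingSubgroup G := centralizer_genFitting_le
  have hAc : ∀ a ∈ Subgroup.centralizer (Cfsg.generalizedFittingSubgroup G : Set G),
      ∀ b ∈ Subgroup.centralizer (Cfsg.generalizedFittingSubgroup G : Set G), a * b = b * a := by
    intro a ha b hb
    exact ((Subgroup.mem_centralizer_iff.1 ha) b (hAF hb)).symm
  have hAp : IsPGroup p ↥(Subgroup.centralizer (Cfsg.generalizedFittingSubgroup G : Set G)) := by
    apply (H1.pCore_isPGroup (G := G) p).to_le
    rw [← hFit]
    apply H1.le_fitting inferInstance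
    exact @CommGroup.isNilpotent _
      { (inferInstance : Group ↥(Subgroup.centralizer
          (Cfsg.generalizedFittingSubgroup G : Set G))) with
        mul_comm := fun a b => Subtype.ext (hAc a a.2 b b.2) }
  have hcop : (Nat.card ↥(Subgroup.centralizer
      (Cfsg.generalizedFittingSubgroup G : Set G))).Coprime (T : Subgroup G).index := by
    obtain ⟨k, hk⟩ := hAp.exists_card_eq
    rw [hk]
    apply Nat.Coprime.pow_left
    exact (Nat.Prime.coprime_iff_not_dvd Fact.out).2 T.not_dvd_index
  have hA : ∀ g, α g * g⁻¹ ∈ Subgroup.centralizer (Cfsg.generalizedFittingSubgroup G : Set G) := by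
    intro g
    rw [Subgroup.mem_centralizer_iff]
    intro x hx
    have h1 : g⁻¹ * x * g ∈ Cfsg.generalizedFittingSubgroup G := by
      have := hFn.conj_mem x hx g⁻¹
      rwa [inv_inv] at this
    have h2 := hfixF x hx
    have h3 := hfixF _ h1
    have h4 : α g * (g⁻¹ * x * g) * (α g)⁻¹ = x := by
      calc α g * (g⁻¹ * x * g) * (α g)⁻¹ = α g * α (g⁻¹ * x * g) * (α g)⁻¹ := by rw [h3]
        _ = α (g * (g⁻¹ * x * g) * g⁻¹) := by simp only [map_mul, map_inv]
        _ = α x := by congr 1; group
        _ = x := h2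
    calc x * (α g * g⁻¹) = (α g * (g⁻¹ * x * g) * (α g)⁻¹) * (α g * g⁻¹) := by rw [h4]
      _ = α g * g⁻¹ * x := by group
  obtain ⟨u, -, hu⟩ := inner_of_cocycle _ hAc (T : Subgroup G) hcop α hA hfixT
  exact ⟨u, hu⟩

end Cfsg.Agent.S1941
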