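import Mathlib
import Cfsg.Statements.S1947
import Cfsg.Agent.Lib_helper1_MinAct

set_option autoImplicit false
open Cfsg

namespace Cfsg.Agent.S1947

open Cfsg.Agent.H1
open scoped commutatorElement

/-- Let G be a finite group and p a prime. If every element of G of order dividing p (dividing 4 when p = 2) lies in some fixed term Z_n(G) of the upper central series, then G has a normal p-complement. -/
theorem result {G : Type*} [Group G] [Finite G] {p : ℕ} [Fact p.Prime] (n : ℕ)
    (h : ∀ a : G, (a ^ p = 1 ∨ (p = 2 ∧ a ^ 4 = 1)) → a ∈ Subgroup.upperCentralSeries G n) : Cfsg.HasNormalPComplement p G := by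
  by_contra hn
  obtain ⟨U, y, hm⟩ := exists_minAct hn
  have hp : p.Prime := Fact.out
  -- every generator has small order
  have hgen : ∀ x ∈ U, ∀ a ∈ Subgroup.zpowers y, ⁅x, a⁆ ^ p = 1 ∨ (p = 2 ∧ ⁅x, a⁆ ^ 4 = 1) := by
    intro x hx a ha
    have hx' : a * x⁻¹ * a⁻¹ ∈ U :=
      conj_mem_of_le_normalizer hm.le_normalizer ha (inv_mem hx)
    set b := a * x⁻¹ * a⁻¹ with hb
    have hw : ⁅x, a⁆ = x * b := by rw [commutatorElement_def, hb]; group
    set c := ⁅b, x⁆ with hc
    have hcF := hm.comm_mem hx' hx
    have hca : Commute c x := hm.frat_commute_U hcF hx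
    have hcb : Commute c b := hm.frat_commute_U hcF hx'
    have hba : b * x = c * (x * b) := by rw [hc, commutatorElement_def]; group
    have hbp : ∀ m : ℕ, b ^ (p * m) = (x ^ (p * m))⁻¹ := by
      intro m
      have h1 : Commute (x ^ p) a := hm.frat_commute_A (hm.pow_mem hx) ha
      have h2 : b ^ (p * m) = a * (x ^ (p * m))⁻¹ * a⁻¹ := by
        rw [hb, conj_pow, inv_pow]
      have h3 : Commute (x ^ (p * m)) a := by rw [pow_mul]; exact h1.pow_left m
      rw [h2, ← h3.inv_left.eq]; group
    have hcp : c ^ p = 1 := by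
      have h1 := (mul_pow_of_central_comm hca hcb hba p).1
      have h2 : Commute (b ^ p) x := hm.frat_commute_U (hm.pow_mem hx') hx
      rw [h2.eq] at h1
      have h3 : c ^ p * (x * b ^ p) = 1 * (x * b ^ p) := by rw [← h1, one_mul]
      exact mul_right_cancel h3
    rcases hp.eq_two_or_odd' with h2 | hodd
    · right
      refine ⟨h2, ?_⟩
      have h1 := (mul_pow_of_central_comm hca hcb hba 4).2
      have h3 : b ^ 4 = (x ^ 4)⁻¹ := by
        have := hbp 2
        rw [h2] at this
        exact this
      have h4 : c ^ (Nat.choose 4 2) = 1 := by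
        have : Nat.choose 4 2 = 2 * 3 := by decide
        rw [this, pow_mul, ← h2, hcp, one_pow]
      rw [hw, h1, h3, h4]; simp
    · left
      have h1 := (mul_pow_of_central_comm hca hcb hba p).2
      have h3 : b ^ p = (x ^ p)⁻¹ := by
        have := hbp 1
        rwa [mul_one] at this
      have h4 : c ^ (Nat.choose p 2) = 1 := by
        obtain ⟨k, hk⟩ := hodd
        have : Nat.choose p 2 = p * k := by
          rw [Nat.choose_two_right, hk]
          have : (2 * k + 1) * (2 * k + 1 - 1) = 2 * ((2 * k + 1) * k) := by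
            rw [Nat.add_sub_cancel]; ring
          rw [this, Nat.mul_div_cancel_left _ (by norm_num)]
        rw [this, pow_mul, hcp, one_pow]
      rw [hw, h1, h3, h4]; simp
  have hle : ∀ k : ℕ, U ≤ Subgroup.upperCentralSeries G k → U ≤ ⊥ := by
    intro k
    induction k with
    | zero => intro h0; simpa using h0
    | succ k ih =>
      intro hk
      apply ih
      apply hm.le_of_comm_mem
      intro x hx a _
      have := (Subgroup.mem_upperCentralSeries_succ_iff.mp (hk hx)) a
      rwa [commutatorElement_def]
  have hU : U ≤ Subgroup.upperCentralSeries G n := by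
    apply hm.le_of_comm_mem
    intro x hx a ha
    exact h _ (hgen x hx a ha)
  exact hm.ne_bot (eq_bot_iff.mpr (hle n hU))

end Cfsg.Agent.S1947
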