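import Cfsg.Statements.S2162
import Cfsg.Agent.Lib_helper6_SqZero

set_option autoImplicit false
open Cfsg

namespace Cfsg.Agent.S2162

/-- Conjugacy of involutions in the special linear group over a finite field of characteristic two, in dimension at least 3: two elements of order 2 of SL_n(F) are conjugate in SL_n(F) exactly when the matrices a − 1 and b − 1 have the same rank (the rank of a − 1 is the dimension of the commutator space [V, a]). -/
theorem result {F : Type*} [Field F] [Fintype F] [CharP F 2] {n : ℕ} (hn : 3 ≤ n) (a b : Matrix.SpecialLinearGroup (Fin n) F) (ha : orderOf a = 2) (hb : orderOf b = 2) :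
    IsConj a b ↔ ((a : Matrix (Fin n) (Fin n) F) - 1).rank = ((b : Matrix (Fin n) (Fin n) F) - 1).rank := by
  have hsq : ∀ c : Matrix.SpecialLinearGroup (Fin n) F, orderOf c = 2 →
      ((c : Matrix (Fin n) (Fin n) F) - 1) * ((c : Matrix (Fin n) (Fin n) F) - 1) = 0 := by
    intro c hc
    have h1 : c ^ 2 = 1 := by rw [← hc]; exact pow_orderOf_eq_one c
    have h2 : (c : Matrix (Fin n) (Fin n) F) * (c : Matrix (Fin n) (Fin n) F) = 1 := by
      have := congrArg (fun x : Matrix.SpecialLinearGroup (Fin n) F =>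
        (x : Matrix (Fin n) (Fin n) F)) h1
      simpa [pow_two] using this
    have h3 : (2 : F) = 0 := CharP.cast_eq_zero F 2
    rw [mul_sub, sub_mul, sub_mul, h2, mul_one, one_mul, one_mul]
    have : (1 : Matrix (Fin n) (Fin n) F) - (c : Matrix (Fin n) (Fin n) F) -
        ((c : Matrix (Fin n) (Fin n) F) - 1) =
        (2 : F) • ((1 : Matrix (Fin n) (Fin n) F) - (c : Matrix (Fin n) (Fin n) F)) := by
      rw [two_smul]; abel
    rw [this, h3, zero_smul]
  constructor
  · intro h
    rw [isConj_iff] at h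
    obtain ⟨g, rfl⟩ := h
    have h1 : ((g * a * g⁻¹ : Matrix.SpecialLinearGroup (Fin n) F) : Matrix (Fin n) (Fin n) F) - 1 =
        (g : Matrix (Fin n) (Fin n) F) * ((a : Matrix (Fin n) (Fin n) F) - 1) *
          ((g⁻¹ : Matrix.SpecialLinearGroup (Fin n) F) : Matrix (Fin n) (Fin n) F) := by
      have h2 : (g : Matrix (Fin n) (Fin n) F) *
          ((g⁻¹ : Matrix.SpecialLinearGroup (Fin n) F) : Matrix (Fin n) (Fin n) F) = 1 := by
        rw [← Matrix.SpecialLinearGroup.coe_mul, mul_inv_cancel, Matrix.SpecialLinearGroup.coe_one]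
      rw [mul_sub, sub_mul, mul_one, h2, Matrix.SpecialLinearGroup.coe_mul,
        Matrix.SpecialLinearGroup.coe_mul]
    rw [h1, Matrix.rank_mul_eq_left_of_isUnit_det _ _ (by rw [(g⁻¹).2]; exact isUnit_one),
      Matrix.rank_mul_eq_right_of_isUnit_det _ _ (by rw [g.2]; exact isUnit_one)]
  · intro h
    apply H6.SL_isConj_of_sqzero a b (hsq a ha) (hsq b hb) h
    right
    refine ⟨?_, fun d => FiniteField.isSquare_of_char_two (CharP.ringChar_of_prime_eq_zero Nat.prime_two (CharP.cast_eq_zero F 2)) d⟩
    rw [Nat.one_le_iff_ne_zero]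
    intro h0
    replace h0 := H6.eq_zero_of_rank_eq_zero _ h0
    have : a = 1 := by
      apply Subtype.ext
      rw [Matrix.SpecialLinearGroup.coe_one]
      exact sub_eq_zero.mp h0
    rw [this, orderOf_one] at ha
    omega

end Cfsg.Agent.S2162
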