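import Cfsg.Statements.S2163
import Mathlib

set_option autoImplicit false
open Cfsg

namespace Cfsg.Agent.S2163

/-- Over a finite field of characteristic two and for n ≥ 3: for every ℓ with 1 ≤ ℓ and 2ℓ ≤ n, the matrix j_ℓ that is the identity plus the entries 1 in positions (n − ℓ + i, i) for i < ℓ (an identity block of size ℓ in the lower left corner) lies in SL_n(F), has order 2, and j_ℓ − 1 has rank ℓ. Together with the conjugacy criterion by rank, these matrices represent the conjugacy classes of involutions of SL_n(F). -/
theorem result {F : Type*} [Field F] [Fintype F] [CharP F 2] {n : ℕ} (hn : 3 ≤ n) (ℓ : ℕ) (h1 : 1 ≤ ℓ) (h2 : 2 * ℓ ≤ n) :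
    ∃ a : Matrix.SpecialLinearGroup (Fin n) F, (a : Matrix (Fin n) (Fin n) F) = 1 + Matrix.of (fun i j : Fin n => if j.val < ℓ ∧ i.val = j.val + (n - ℓ) then (1 : F) else 0) ∧ orderOf a = 2 ∧ ((a : Matrix (Fin n) (Fin n) F) - 1).rank = ℓ := by
  classical
  set E : Matrix (Fin n) (Fin n) F :=
    Matrix.of (fun i j : Fin n => if j.val < ℓ ∧ i.val = j.val + (n - ℓ) then (1 : F) else 0) with hE
  have hEa : ∀ i j : Fin n, E i j = if j.val < ℓ ∧ i.val = j.val + (n - ℓ) then (1 : F) else 0 :=
    fun i j => rfl
  -- E * E = 0
  have hEE : E * E = 0 := by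
    ext i k
    rw [Matrix.mul_apply, Matrix.zero_apply]
    apply Finset.sum_eq_zero
    intro j _
    rw [hEa, hEa]
    by_cases hj : j.val < ℓ
    · rw [if_neg (c := k.val < ℓ ∧ j.val = k.val + (n - ℓ)) (by omega), mul_zero]
    · rw [if_neg (c := j.val < ℓ ∧ i.val = j.val + (n - ℓ)) (by omega), zero_mul]
  have hE2 : E + E = 0 := by
    ext i j
    simp [CharTwo.add_self_eq_zero]
  have hsq : (1 + E) * (1 + E) = 1 := by
    rw [mul_add, add_mul, add_mul, hEE, one_mul, mul_one, one_mul, add_zero, add_assoc, hE2, add_zero]
  have hdet : (1 + E).det = 1 := by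
    have h := congrArg Matrix.det hsq
    rw [Matrix.det_mul, Matrix.det_one] at h
    set x := (1 + E).det
    have h3 : (x + 1) * (x + 1) = 0 := by
      have : (x + 1) * (x + 1) = x * x + 1 + (x + x) := by ring
      rw [this, h, CharTwo.add_self_eq_zero, CharTwo.add_self_eq_zero, add_zero]
    have h4 : x + 1 = 0 := mul_self_eq_zero.1 h3
    have h5 : x = -1 := eq_neg_of_add_eq_zero_left h4
    rw [h5, CharTwo.neg_eq]
  have hEne : E ≠ 0 := by
    intro h
    have := congrFun (congrFun h ⟨n - ℓ, by omega⟩) ⟨0, by omega⟩
    rw [hEa, if_pos (by constructor <;> simp <;> omega)] at this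
    simp at this
  let a : Matrix.SpecialLinearGroup (Fin n) F := ⟨1 + E, hdet⟩
  have ha : (a : Matrix (Fin n) (Fin n) F) = 1 + E := rfl
  refine ⟨a, ha, ?_, ?_⟩
  · have : Fact (Nat.Prime 2) := ⟨Nat.prime_two⟩
    apply orderOf_eq_prime
    · ext i j
      rw [pow_two, Matrix.SpecialLinearGroup.coe_mul, Matrix.SpecialLinearGroup.coe_one, ha, hsq]
    · intro h
      apply hEne
      have h' := congrArg (fun a : Matrix.SpecialLinearGroup (Fin n) F => (a : Matrix (Fin n) (Fin n) F)) h
      simp only [Matrix.SpecialLinearGroup.coe_one] at h'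
      rw [ha] at h'
      exact add_eq_left.1 h'
  · rw [ha, add_sub_cancel_left]
    let f : Fin ℓ → Fin n := fun k => ⟨k.val + (n - ℓ), by have := k.2; omega⟩
    let g : Fin ℓ → Fin n := fun k => ⟨k.val, by have := k.2; omega⟩
    have hf : Function.Injective f := by
      intro a b hab
      have := congrArg Fin.val hab
      simp only [f] at this
      ext; omega
    have hg : Function.Injective g := by
      intro a b hab
      have := congrArg Fin.val hab
      simp only [g] at this
      ext; omega
    let C : Matrix (Fin n) (Fin ℓ) F := Matrix.of (fun i k => if i = f k then 1 else 0)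
    let D : Matrix (Fin ℓ) (Fin n) F := Matrix.of (fun k j => if j = g k then 1 else 0)
    have hCD : E = C * D := by
      ext i j
      rw [Matrix.mul_apply, hEa]
      by_cases hj : j.val < ℓ
      · rw [Finset.sum_eq_single (⟨j.val, hj⟩ : Fin ℓ)]
        · have hgj : j = g ⟨j.val, hj⟩ := rfl
          simp only [C, D, Matrix.of_apply]
          rw [if_pos hgj, mul_one]
          by_cases hi : i.val = j.val + (n - ℓ)
          · rw [if_pos ⟨hj, hi⟩, if_pos (Fin.ext hi)]
          · rw [if_neg (fun h => hi h.2), if_neg (fun h => hi (congrArg Fin.val h))]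
        · intro k _ hk
          simp only [C, D, Matrix.of_apply]
          rw [if_neg (c := j = g k), mul_zero]
          intro h
          apply hk
          ext
          exact (congrArg Fin.val h).symm
        · intro h; exact absurd (Finset.mem_univ _) h
      · rw [if_neg (fun h => hj h.1)]
        symm
        apply Finset.sum_eq_zero
        intro k _
        simp only [C, D, Matrix.of_apply]
        rw [if_neg (c := j = g k), mul_zero]
        intro h
        apply hj
        have := congrArg Fin.val h
        simp only [g] at this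
        have := k.2
        omega
    have hCC : C.transpose * C = 1 := by
      ext k k'
      rw [Matrix.mul_apply, Matrix.one_apply]
      simp only [C, Matrix.transpose_apply, Matrix.of_apply, ite_mul, one_mul, zero_mul,
        Finset.sum_ite_eq', Finset.mem_univ, if_true]
      by_cases hk : k = k'
      · subst hk; simp
      · rw [if_neg hk, if_neg (fun h => hk (hf h))]
    have hDD : D * D.transpose = 1 := by
      ext k k'
      rw [Matrix.mul_apply, Matrix.one_apply]
      simp only [D, Matrix.transpose_apply, Matrix.of_apply, ite_mul, one_mul, zero_mul,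
        Finset.sum_ite_eq', Finset.mem_univ, if_true]
      by_cases hk : k = k'
      · subst hk; simp
      · rw [if_neg hk, if_neg (fun h => hk (hg h))]
    apply le_antisymm
    · rw [hCD]
      exact (Matrix.rank_mul_le_left C D).trans (Matrix.rank_le_width C)
    · have h1' : C.transpose * E * D.transpose = 1 := by
        rw [hCD, ← Matrix.mul_assoc, hCC, Matrix.one_mul, hDD]
      have h2' : (C.transpose * E * D.transpose).rank ≤ E.rank :=
        (Matrix.rank_mul_le_left _ _).trans (Matrix.rank_mul_le_right _ _)
      rw [h1', Matrix.rank_one, Fintype.card_fin] at h2'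
      exact h2'

end Cfsg.Agent.S2163
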