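import Cfsg.Statements.S2165
import Mathlib

set_option autoImplicit false
open Cfsg

namespace Cfsg.Agent.S2165

/-- In SU_n(q), q even, n ≥ 3 (matrices of determinant 1 over the field with q² elements preserving Σ u_i v_i^q): for every ℓ with 1 ≤ ℓ and 2ℓ ≤ n, the permutation matrix of the involution of {0, …, n−1} exchanging i and n − ℓ + i for each i < ℓ lies in SU_n(q), has order 2, and differs from the identity by a matrix of rank ℓ. So every rank between 1 and n/2 occurs for involutions of SU_n(q). -/
theorem result {F : Type*} [Field F] [Fintype F] [CharP F 2] {n q : ℕ} (hF : Fintype.card F = q ^ 2) (hn : 3 ≤ n) (ℓ : ℕ) (h1 : 1 ≤ ℓ) (h2 : 2 * ℓ ≤ n) :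
    ∃ a : ↥(Cfsg.SU n F q), (((a : Matrix.SpecialLinearGroup (Fin n) F) : Matrix (Fin n) (Fin n) F) = Matrix.of (fun i j : Fin n => if (j.val < ℓ ∧ i.val = j.val + (n - ℓ)) ∨ (i.val < ℓ ∧ j.val = i.val + (n - ℓ)) ∨ (i = j ∧ ℓ ≤ i.val ∧ i.val < n - ℓ) then (1 : F) else 0)) ∧ orderOf a = 2 ∧ ((((a : Matrix.SpecialLinearGroup (Fin n) F) : Matrix (Fin n) (Fin n) F)) - 1).rank = ℓ := by
  classical
  set A : Matrix (Fin n) (Fin n) F :=
    Matrix.of (fun i j : Fin n => if (j.val < ℓ ∧ i.val = j.val + (n - ℓ)) ∨ (i.val < ℓ ∧ j.val = i.val + (n - ℓ)) ∨ (i = j ∧ ℓ ≤ i.val ∧ i.val < n - ℓ) then (1 : F) else 0) with hAdef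
  let s : Fin n → Fin n := fun i =>
    if h : i.val < ℓ then ⟨i.val + (n - ℓ), by omega⟩
    else if h' : n - ℓ ≤ i.val then ⟨i.val - (n - ℓ), by have := i.2; omega⟩ else i
  have hs_val : ∀ i : Fin n, (s i).val = if i.val < ℓ then i.val + (n - ℓ)
      else if n - ℓ ≤ i.val then i.val - (n - ℓ) else i.val := by
    intro i
    simp only [s]
    split_ifs <;> rfl
  have hss : ∀ i, s (s i) = i := by
    intro i
    apply Fin.ext
    have := i.2
    rw [hs_val, hs_val]
    split_ifs <;> omega
  have hA : ∀ i j : Fin n, A i j = if j = s i then (1 : F) else 0 := by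
    intro i j
    have hiff : ((j.val < ℓ ∧ i.val = j.val + (n - ℓ)) ∨ (i.val < ℓ ∧ j.val = i.val + (n - ℓ)) ∨ (i = j ∧ ℓ ≤ i.val ∧ i.val < n - ℓ)) ↔ j = s i := by
      have := i.2
      have := j.2
      simp only [Fin.ext_iff, hs_val]
      split_ifs <;> omega
    show (if _ then (1 : F) else 0) = _
    exact if_congr hiff rfl rfl
  have hAv : ∀ (u : Fin n → F) (i : Fin n), (A.mulVec u) i = u (s i) := by
    intro u i
    simp only [Matrix.mulVec, dotProduct, hA, ite_mul, one_mul, zero_mul, Finset.sum_ite_eq',
      Finset.mem_univ, if_true]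
  have hsq : A * A = 1 := by
    ext i k
    rw [Matrix.mul_apply, Matrix.one_apply]
    simp only [hA, ite_mul, one_mul, zero_mul, Finset.sum_ite_eq', Finset.mem_univ, if_true, hss]
    by_cases hik : i = k
    · subst hik; simp
    · rw [if_neg hik, if_neg (fun h => hik h.symm)]
  have hdet : A.det = 1 := by
    have h := congrArg Matrix.det hsq
    rw [Matrix.det_mul, Matrix.det_one] at h
    set x := A.det
    have h3 : (x + 1) * (x + 1) = 0 := by
      have : (x + 1) * (x + 1) = x * x + 1 + (x + x) := by ring
      rw [this, h, CharTwo.add_self_eq_zero, CharTwo.add_self_eq_zero, add_zero]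
    have h4 : x + 1 = 0 := mul_self_eq_zero.1 h3
    have h5 : x = -1 := eq_neg_of_add_eq_zero_left h4
    rw [h5, CharTwo.neg_eq]
  have hAne : A ≠ 1 := by
    intro h
    have := congrFun (congrFun h ⟨0, by omega⟩) ⟨0, by omega⟩
    rw [hA, Matrix.one_apply_eq, if_neg] at this
    · exact zero_ne_one this
    · intro h0
      have := congrArg Fin.val h0
      rw [hs_val] at this
      simp only at this
      rw [if_pos (by omega)] at this
      omega
  let a0 : Matrix.SpecialLinearGroup (Fin n) F := ⟨A, hdet⟩
  have ha0 : (a0 : Matrix (Fin n) (Fin n) F) = A := rfl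
  have hmem : a0 ∈ Cfsg.SU n F q := by
    intro u v
    have hm : (Cfsg.slToMat n F) a0 = A := rfl
    rw [hm]
    simp only [Cfsg.hermForm, hAv]
    exact Equiv.sum_comp (Function.Involutive.toPerm s hss) (fun i => u i * (v i) ^ q)
  let a : ↥(Cfsg.SU n F q) := ⟨a0, hmem⟩
  have ha : ((a : Matrix.SpecialLinearGroup (Fin n) F) : Matrix (Fin n) (Fin n) F) = A := rfl
  refine ⟨a, ha, ?_, ?_⟩
  · have : Fact (Nat.Prime 2) := ⟨Nat.prime_two⟩
    apply orderOf_eq_prime
    · apply Subtype.ext
      ext i j
      rw [pow_two, Subgroup.coe_mul, Subgroup.coe_one, Matrix.SpecialLinearGroup.coe_mul,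
        Matrix.SpecialLinearGroup.coe_one, ha, hsq]
    · intro h
      apply hAne
      have h' := congrArg (fun a : ↥(Cfsg.SU n F q) => ((a : Matrix.SpecialLinearGroup (Fin n) F) : Matrix (Fin n) (Fin n) F)) h
      simp only [Subgroup.coe_one, Matrix.SpecialLinearGroup.coe_one] at h'
      rw [ha] at h'
      exact h'
  · rw [ha]
    set M : Matrix (Fin n) (Fin n) F := A - 1 with hMdef
    have hM : ∀ i j, M i j = (if j = s i then (1 : F) else 0) - (if j = i then 1 else 0) := by
      intro i j
      rw [hMdef, Matrix.sub_apply, hA, Matrix.one_apply]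
      congr 1
      exact if_congr eq_comm rfl rfl
    let f : Fin ℓ → Fin n := fun k => ⟨k.val + (n - ℓ), by have := k.2; omega⟩
    let g : Fin ℓ → Fin n := fun k => ⟨k.val, by have := k.2; omega⟩
    have hfv : ∀ k, (f k).val = k.val + (n - ℓ) := fun k => rfl
    have hgv : ∀ k, (g k).val = k.val := fun k => rfl
    have hf : Function.Injective f := by
      intro a b hab
      have := congrArg Fin.val hab
      rw [hfv, hfv] at this
      ext; omega
    have hsg : ∀ k, s (g k) = f k := by
      intro k
      apply Fin.ext
      have := k.2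
      rw [hs_val, hgv, hfv, if_pos this]
    have hsf : ∀ k, s (f k) = g k := by
      intro k
      rw [← hsg, hss]
    have hfg : ∀ k k', f k ≠ g k' := by
      intro k k' h
      have e1 : (f k).val = (g k').val := congrArg Fin.val h
      rw [hfv k, hgv k'] at e1
      have e2 := k'.2
      omega
    let Cf : Matrix (Fin n) (Fin ℓ) F := Matrix.of (fun i k => if i = f k then 1 else 0)
    let Dg : Matrix (Fin ℓ) (Fin n) F := Matrix.of (fun k j => if j = g k then 1 else 0)
    let C' : Matrix (Fin n) (Fin ℓ) F :=
      Matrix.of (fun i k => (if i = g k then (1 : F) else 0) - (if i = f k then 1 else 0))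
    let R : Matrix (Fin ℓ) (Fin n) F := Matrix.of (fun k j => M (g k) j)
    have hCR : M = C' * R := by
      ext i j
      rw [Matrix.mul_apply]
      simp only [C', R, Matrix.of_apply]
      by_cases hi : i.val < ℓ
      · rw [Finset.sum_eq_single (⟨i.val, hi⟩ : Fin ℓ)]
        · have hgi : i = g ⟨i.val, hi⟩ := rfl
          rw [if_pos hgi, if_neg (fun h => hfg _ _ (h.symm.trans hgi)), sub_zero, one_mul, ← hgi]
        · intro k _ hk
          rw [if_neg, if_neg, sub_zero, zero_mul]
          · intro h
            have := congrArg Fin.val h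
            rw [hfv] at this
            omega
          · intro h
            apply hk
            ext
            exact (congrArg Fin.val h).symm
        · intro h; exact absurd (Finset.mem_univ _) h
      · by_cases hi' : n - ℓ ≤ i.val
        · have hlt : i.val - (n - ℓ) < ℓ := by have := i.2; omega
          rw [Finset.sum_eq_single (⟨i.val - (n - ℓ), hlt⟩ : Fin ℓ)]
          · have hfi : i = f ⟨i.val - (n - ℓ), hlt⟩ := by
              apply Fin.ext
              rw [hfv]
              simp only
              omega
            rw [if_pos hfi, if_neg (fun h => hfg _ _ (hfi.symm.trans h)), zero_sub, neg_one_mul]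
            rw [hM, hM, hsg]
            conv_lhs => rw [hfi, hsf]
            ring
          · intro k _ hk
            rw [if_neg, if_neg, sub_zero, zero_mul]
            · intro h
              apply hk
              ext
              have := congrArg Fin.val h
              rw [hfv] at this
              simp only
              omega
            · intro h
              have := congrArg Fin.val h
              rw [hgv] at this
              have := k.2
              omega
          · intro h; exact absurd (Finset.mem_univ _) h
        · have hsi : s i = i := by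
            apply Fin.ext
            rw [hs_val, if_neg hi, if_neg hi']
          rw [hM, hsi, sub_self]
          symm
          apply Finset.sum_eq_zero
          intro k _
          rw [if_neg, if_neg, sub_zero, zero_mul]
          · intro h
            have := congrArg Fin.val h
            rw [hfv] at this
            omega
          · intro h
            have := congrArg Fin.val h
            rw [hgv] at this
            have := k.2
            omega
    have hone : Dg * M * Cf = 1 := by
      ext k k'
      rw [Matrix.mul_apply, Matrix.one_apply]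
      simp only [Cf, Matrix.of_apply, mul_ite, mul_one, mul_zero, Finset.sum_ite_eq',
        Finset.mem_univ, if_true]
      rw [Matrix.mul_apply]
      simp only [Dg, Matrix.of_apply, ite_mul, one_mul, zero_mul, Finset.sum_ite_eq',
        Finset.mem_univ, if_true]
      rw [hM, hsg, if_neg (hfg k' k), sub_zero]
      by_cases hk : k = k'
      · subst hk; simp
      · rw [if_neg hk, if_neg (fun h => hk (hf h).symm)]
    apply le_antisymm
    · rw [hCR]
      exact (Matrix.rank_mul_le_left C' R).trans (Matrix.rank_le_width C')
    · have h2' : (Dg * M * Cf).rank ≤ M.rank :=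
        (Matrix.rank_mul_le_left _ _).trans (Matrix.rank_mul_le_right _ _)
      rw [hone, Matrix.rank_one, Fintype.card_fin] at h2'
      exact h2'

end Cfsg.Agent.S2165
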