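import Cfsg.Statements.S2172
import Cfsg.Agent.Lib_helper6_InvOmega

set_option autoImplicit false
open Cfsg

namespace Cfsg.Agent.S2172

/-- Splitting of involution classes from O to Ω for the hyperbolic quadratic form Q = Σ x_i y_i in dimension 2m over a finite field F of characteristic two, m ≥ 4. Let t, s be involutions of the commutator subgroup Ω that are conjugate in the full isometry group O. If it is not the case that t − 1 has rank m and Q(v + t v) = 0 for every vector v, then t and s are conjugate by an element of Ω. If t − 1 has rank m and Q(v + t v) = 0 for all v, then t and s are conjugate by an element of Ω exactly when the intersection of the images of t − 1 and s − 1 has even dimension (so the class of t in O meets at most two classes of Ω). -/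
theorem result {F : Type*} [Field F] [Fintype F] [CharP F 2] {m : ℕ} (hm : 4 ≤ m) (t s : ↥(Cfsg.isometryGroup F (Cfsg.quadFormPlus m F))) (ht : orderOf t = 2) (hs : orderOf s = 2) (htO : t ∈ Cfsg.Omega F (Cfsg.quadFormPlus m F)) (hsO : s ∈ Cfsg.Omega F (Cfsg.quadFormPlus m F)) (hconj : IsConj t s) :
    (¬ (((((t : ↥(Cfsg.isometryGroup F (Cfsg.quadFormPlus m F))) : GL (Fin m ⊕ Fin m) F) : Matrix (Fin m ⊕ Fin m) (Fin m ⊕ Fin m) F) - 1).rank = m ∧ ∀ v : Fin m ⊕ Fin m → F, Cfsg.quadFormPlus m F (v + Matrix.mulVec (((t : ↥(Cfsg.isometryGroup F (Cfsg.quadFormPlus m F))) : GL (Fin m ⊕ Fin m) F) : Matrix (Fin m ⊕ Fin m) (Fin m ⊕ Fin m) F) v) = 0) →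
      ∃ g ∈ Cfsg.Omega F (Cfsg.quadFormPlus m F), g * t * g⁻¹ = s) ∧
    ((((((t : ↥(Cfsg.isometryGroup F (Cfsg.quadFormPlus m F))) : GL (Fin m ⊕ Fin m) F) : Matrix (Fin m ⊕ Fin m) (Fin m ⊕ Fin m) F) - 1).rank = m ∧ ∀ v : Fin m ⊕ Fin m → F, Cfsg.quadFormPlus m F (v + Matrix.mulVec (((t : ↥(Cfsg.isometryGroup F (Cfsg.quadFormPlus m F))) : GL (Fin m ⊕ Fin m) F) : Matrix (Fin m ⊕ Fin m) (Fin m ⊕ Fin m) F) v) = 0) →
      ((∃ g ∈ Cfsg.Omega F (Cfsg.quadFormPlus m F), g * t * g⁻¹ = s) ↔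
        Even (Module.finrank F ↥(LinearMap.range (Matrix.toLin' ((((t : ↥(Cfsg.isometryGroup F (Cfsg.quadFormPlus m F))) : GL (Fin m ⊕ Fin m) F) : Matrix (Fin m ⊕ Fin m) (Fin m ⊕ Fin m) F) - 1)) ⊓ LinearMap.range (Matrix.toLin' ((((s : ↥(Cfsg.isometryGroup F (Cfsg.quadFormPlus m F))) : GL (Fin m ⊕ Fin m) F) : Matrix (Fin m ⊕ Fin m) (Fin m ⊕ Fin m) F) - 1)))))) := by
  classical
  have h2 : (2 : F) = 0 := CharTwo.two_eq_zero
  have hQ := H6.Quad.nondeg_qPlus (F := F) m
  have hcard : Fintype.card (Fin m ⊕ Fin m) = 2 * m := by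
    simp; omega
  have hex : Nat.card F ≠ 2 ∨ Fintype.card (Fin m ⊕ Fin m) ≠ 4 := Or.inr (by rw [hcard]; omega)
  obtain ⟨g, hg⟩ := isConj_iff.mp hconj
  have htt : t * t = 1 := by
    have := pow_orderOf_eq_one t
    rwa [ht, sq] at this
  have hM : (t.1.1 : Matrix _ _ F) * (t.1.1 : Matrix _ _ F) = 1 := by
    have := congrArg (fun x : ↥(Cfsg.isometryGroup F (Cfsg.quadFormPlus m F)) =>
      (x.1.1 : Matrix _ _ F)) htt
    exact this
  constructor
  · intro hnot
    obtain ⟨a, hta, ha⟩ : ∃ a, (t.1.1 : Matrix _ _ F).mulVec a = a ∧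
        H6.Quad.qPlus m F a ≠ 0 := by
      by_contra hcon
      push Not at hcon
      obtain ⟨h3, h4, -, -⟩ := H6.Quad.involution_no_fixed h2 _ hQ _ hM hcon
      apply hnot
      refine ⟨by omega, fun v => ?_⟩
      rw [← H6.Quad.qPlus_apply]
      exact h4 v
    obtain ⟨g', hg', hgg⟩ := H6.Quad.conj_Omega_of_fixed h2 _ hQ hex _
      (H6.Quad.qPlus_apply m) t g a (by rw [← H6.Quad.qPlus_apply]; exact ha) hta
    exact ⟨g', hg', by rw [hgg, hg]⟩
  · rintro ⟨hrank, hsing⟩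
    set U := LinearMap.range (Matrix.toLin' ((t.1.1 : Matrix (Fin m ⊕ Fin m) (Fin m ⊕ Fin m) F) - 1))
      with hU
    have hUm : Module.finrank F U = m := by
      rw [hU, Matrix.toLin'_apply', ← Matrix.rank]; exact hrank
    have hUs : ∀ u ∈ U, Cfsg.quadFormPlus m F u = 0 := by
      rintro _ ⟨v, rfl⟩
      rw [Matrix.toLin'_apply, Matrix.sub_mulVec, Matrix.one_mulVec]
      have : (t.1.1 : Matrix _ _ F).mulVec v - v = v + (t.1.1 : Matrix _ _ F).mulVec v - (2 : F) • v := by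
        rw [two_smul]; abel
      rw [this, h2, zero_smul, sub_zero]
      exact hsing v
    have hmeven : Even m := by
      have := (H6.Quad.mem_Omega_iff_even_rank h2 _ hQ hex _ (H6.Quad.qPlus_apply m) t).mp htO
      rwa [hrank] at this
    have hmap : ∀ k : ↥(Cfsg.isometryGroup F (Cfsg.quadFormPlus m F)), k * t * k⁻¹ = s →
        LinearMap.range (Matrix.toLin' ((s.1.1 : Matrix (Fin m ⊕ Fin m) (Fin m ⊕ Fin m) F) - 1)) =
          U.map (Matrix.mulVecLin (k.1.1 : Matrix (Fin m ⊕ Fin m) (Fin m ⊕ Fin m) F)) := by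
      intro k hk
      have e1 : (s.1.1 : Matrix (Fin m ⊕ Fin m) (Fin m ⊕ Fin m) F) - 1 =
          (k.1.1 : Matrix _ _ F) * ((t.1.1 : Matrix _ _ F) - 1) * ((k⁻¹).1.1 : Matrix _ _ F) := by
        have h5 : (k.1.1 : Matrix _ _ F) * ((k⁻¹).1.1 : Matrix _ _ F) = 1 := by
          have := congrArg (fun x : ↥(Cfsg.isometryGroup F (Cfsg.quadFormPlus m F)) =>
            (x.1.1 : Matrix _ _ F)) (mul_inv_cancel k)
          exact this
        have h6 : (s.1.1 : Matrix _ _ F) =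
            (k.1.1 : Matrix _ _ F) * (t.1.1 : Matrix _ _ F) * ((k⁻¹).1.1 : Matrix _ _ F) := by
          rw [← hk]; rfl
        rw [h6, mul_sub, sub_mul, mul_one, h5]
      have h7 : ((k⁻¹).1.1 : Matrix _ _ F) * (k.1.1 : Matrix _ _ F) = 1 := by
        have := congrArg (fun x : ↥(Cfsg.isometryGroup F (Cfsg.quadFormPlus m F)) =>
          (x.1.1 : Matrix _ _ F)) (inv_mul_cancel k)
        exact this
      apply le_antisymm
      · rintro _ ⟨v, rfl⟩
        refine ⟨Matrix.toLin' ((t.1.1 : Matrix _ _ F) - 1) (((k⁻¹).1.1 : Matrix _ _ F).mulVec v),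
          ⟨_, rfl⟩, ?_⟩
        rw [Matrix.toLin'_apply, Matrix.toLin'_apply, e1, Matrix.mulVecLin_apply,
          Matrix.mulVec_mulVec, Matrix.mulVec_mulVec, mul_assoc]
      · rintro _ ⟨_, ⟨v, rfl⟩, rfl⟩
        refine ⟨(k.1.1 : Matrix _ _ F).mulVec v, ?_⟩
        rw [Matrix.toLin'_apply, Matrix.toLin'_apply, e1, Matrix.mulVecLin_apply,
          Matrix.mulVec_mulVec, Matrix.mulVec_mulVec, mul_assoc, mul_assoc, h7, mul_one]
    have hle : ∀ W : Submodule F (Fin m ⊕ Fin m → F), Module.finrank F ↥(U ⊓ W) ≤ m := by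
      intro W
      exact le_of_le_of_eq (Submodule.finrank_mono inf_le_left) hUm
    constructor
    · rintro ⟨k, hk, hkt⟩
      rw [hmap k hkt]
      have h8 := H6.Quad.even_lag_of_mem_Omega _ hQ _ (H6.Quad.qPlus_apply m) hcard U hUm hUs hk
      have h9 := hle (U.map (Matrix.mulVecLin (k.1.1 : Matrix (Fin m ⊕ Fin m) (Fin m ⊕ Fin m) F)))
      rw [Nat.even_sub h9] at h8
      exact h8.mp hmeven
    · intro hev
      rw [hmap g hg] at hev
      refine ⟨g, ?_, hg⟩
      rw [H6.Quad.mem_Omega_iff_dickM h2 _ hQ hex _ (H6.Quad.qPlus_apply m),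
        ← H6.Quad.even_lag_iff_dickM _ hQ hex _ (H6.Quad.qPlus_apply m) hcard U hUm hUs,
        Nat.even_sub (hle _)]
      exact ⟨fun _ => hev, fun _ => hmeven⟩

end Cfsg.Agent.S2172
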