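import Cfsg.Statements.S2173
import Cfsg.Agent.Lib_helper6_InvOmega

set_option autoImplicit false
open Cfsg

namespace Cfsg.Agent.S2173

/-- For the quadratic form Σ x_i y_i + (z₁² + c z₁ z₂ + d z₂²) in dimension 2m with anisotropic binary part over a finite field F of characteristic two, m ≥ 4 (minus type): two involutions of the commutator subgroup Ω that are conjugate in the full isometry group O are conjugate by an element of Ω (no class of involutions of O inside Ω splits). -/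
theorem result {F : Type*} [Field F] [Fintype F] [CharP F 2] {m : ℕ} (hm : 4 ≤ m) (c d : F) (hcd : ∀ z₁ z₂ : F, z₁ ^ 2 + c * z₁ * z₂ + d * z₂ ^ 2 = 0 → z₁ = 0 ∧ z₂ = 0) (t s : ↥(Cfsg.isometryGroup F (Cfsg.quadFormMinus (m - 1) F c d))) (ht : orderOf t = 2) (hs : orderOf s = 2) (htO : t ∈ Cfsg.Omega F (Cfsg.quadFormMinus (m - 1) F c d)) (hsO : s ∈ Cfsg.Omega F (Cfsg.quadFormMinus (m - 1) F c d)) (hconj : IsConj t s) :
    ∃ g ∈ Cfsg.Omega F (Cfsg.quadFormMinus (m - 1) F c d), g * t * g⁻¹ = s := by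
  classical
  have h2 : (2 : F) = 0 := CharTwo.two_eq_zero
  have hQ := H6.Quad.nondeg_qMinus (m - 1) c d hcd
  have hcard : Fintype.card ((Fin (m - 1) ⊕ Fin (m - 1)) ⊕ Fin 2) = 2 * m := by
    simp; omega
  obtain ⟨g, hg⟩ := isConj_iff.mp hconj
  have htt : t * t = 1 := by
    have := pow_orderOf_eq_one t
    rwa [ht, sq] at this
  have hM : (t.1.1 : Matrix _ _ F) * (t.1.1 : Matrix _ _ F) = 1 := by
    have := congrArg (fun x : ↥(Cfsg.isometryGroup F (Cfsg.quadFormMinus (m - 1) F c d)) =>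
      (x.1.1 : Matrix _ _ F)) htt
    exact this
  obtain ⟨a, hta, ha⟩ : ∃ a, (t.1.1 : Matrix _ _ F).mulVec a = a ∧
      H6.Quad.qMinus (m - 1) F c d a ≠ 0 := by
    by_contra hcon
    push Not at hcon
    obtain ⟨-, -, h3, h4⟩ := H6.Quad.involution_no_fixed h2 _ hQ _ hM hcon
    have h5 := H6.Quad.finrank_lt_of_singular_qMinus (m - 1) c d hcd _ h4
    omega
  obtain ⟨g', hg', hgg⟩ := H6.Quad.conj_Omega_of_fixed h2 _ hQ (Or.inr (by rw [hcard]; omega)) _
    (H6.Quad.qMinus_apply (m - 1) c d) t g a (by rw [← H6.Quad.qMinus_apply]; exact ha) hta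
  exact ⟨g', hg', by rw [hgg, hg]⟩

end Cfsg.Agent.S2173
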