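import Cfsg.Statements.S2231
import Cfsg.Agent.Lib_helper6_SL2Classes

set_option autoImplicit false
open Cfsg

namespace Cfsg.Agent.S2231

open H6.GL2C

/-- every `p`-subgroup is commutative -/
def AbP (p : ℕ) (G : Type*) [Group G] : Prop :=
  ∀ P : Subgroup G, IsPGroup p P → ∀ x ∈ P, ∀ y ∈ P, x * y = y * x

theorem AbP.subgroup {p : ℕ} {G : Type*} [Group G] (h : AbP p G) (K : Subgroup G) : AbP p K := by
  intro P hP x hx y hy
  apply Subtype.ext
  exact h (P.map K.subtype) (hP.map _) x ⟨x, hx, rfl⟩ y ⟨y, hy, rfl⟩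

theorem AbP.of_surjective {p : ℕ} [Fact p.Prime] {G H : Type*} [Group G] [Finite G] [Group H]
    (h : AbP p G) (f : G →* H) (hf : Function.Surjective f) : AbP p H := by
  intro R hR x hx y hy
  obtain ⟨Q, hQ⟩ := hR.exists_le_sylow
  obtain ⟨P, rfl⟩ := Sylow.mapSurjective_surjective hf p Q
  obtain ⟨s, hs, rfl⟩ := hQ hx
  obtain ⟨t, ht, rfl⟩ := hQ hy
  rw [← map_mul, ← map_mul, h P P.2 s hs t ht]

theorem abP_SL2 {p : ℕ} [Fact p.Prime] {K : Type*} [Field K] [Fintype K] [CharP K p] :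
    AbP p (Matrix.SpecialLinearGroup (Fin 2) K) := by
  intro P hP x hx y hy
  by_cases hnt : Nontrivial P
  · have hcn := hP.center_nontrivial
    obtain ⟨z, hz⟩ := exists_ne (1 : Subgroup.center P)
    obtain ⟨k, hk⟩ := hP (z : P)
    have hk' : ((z : P) : Matrix.SpecialLinearGroup (Fin 2) K) ^ (p ^ k) = 1 :=
      congrArg Subtype.val hk
    have hk2 : (((z : P) : Matrix.SpecialLinearGroup (Fin 2) K) : Matrix (Fin 2) (Fin 2) K) ^
        (p ^ k) = 1 := by
      rw [← Matrix.SpecialLinearGroup.coe_pow, hk']; rfl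
    obtain ⟨ht, hd⟩ := trace_det_of_pow_char_pow p _ k hk2
    have hns := nonScalar_of_unipotent ht hd (fun h => hz (by
      apply Subtype.ext
      apply Subtype.ext
      apply Subtype.ext
      exact h))
    have hxz : x * ((z : P) : Matrix.SpecialLinearGroup (Fin 2) K) =
        ((z : P) : Matrix.SpecialLinearGroup (Fin 2) K) * x :=
      congrArg Subtype.val (Subgroup.mem_center_iff.mp z.2 ⟨x, hx⟩)
    have hyz : y * ((z : P) : Matrix.SpecialLinearGroup (Fin 2) K) =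
        ((z : P) : Matrix.SpecialLinearGroup (Fin 2) K) * y :=
      congrArg Subtype.val (Subgroup.mem_center_iff.mp z.2 ⟨y, hy⟩)
    apply Subtype.ext
    exact commute_of_commute_nonScalar hns (congrArg Subtype.val hxz) (congrArg Subtype.val hyz)
  · rw [not_nontrivial_iff_subsingleton] at hnt
    have h1 : (⟨x, hx⟩ : P) = ⟨y, hy⟩ := Subsingleton.elim _ _
    have h2 : x = y := congrArg Subtype.val h1
    rw [h2]

/-- upper unitriangular `3 × 3` matrices -/
def Uni {R : Type*} [CommRing R] (M : Matrix (Fin 3) (Fin 3) R) : Prop :=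
  M 1 0 = 0 ∧ M 2 0 = 0 ∧ M 2 1 = 0 ∧ M 0 0 = 1 ∧ M 1 1 = 1 ∧ M 2 2 = 1

theorem Uni.mul {R : Type*} [CommRing R] {M N : Matrix (Fin 3) (Fin 3) R} (hM : Uni M)
    (hN : Uni N) : Uni (M * N) := by
  obtain ⟨a1, a2, a3, a4, a5, a6⟩ := hM
  obtain ⟨b1, b2, b3, b4, b5, b6⟩ := hN
  refine ⟨?_, ?_, ?_, ?_, ?_, ?_⟩ <;>
    simp [Matrix.mul_apply, Fin.sum_univ_three, a1, a2, a3, a4, a5, a6, b1, b2, b3, b4, b5, b6]

theorem Uni.adjugate {R : Type*} [CommRing R] {M : Matrix (Fin 3) (Fin 3) R} (hM : Uni M) :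
    Uni M.adjugate := by
  obtain ⟨a1, a2, a3, a4, a5, a6⟩ := hM
  rw [Matrix.adjugate_fin_three]
  refine ⟨?_, ?_, ?_, ?_, ?_, ?_⟩ <;> simp [a1, a2, a3, a4, a5, a6]

theorem Uni.cube {R : Type*} [CommRing R] {M : Matrix (Fin 3) (Fin 3) R} (hM : Uni M) :
    (M - 1) ^ 3 = 0 := by
  obtain ⟨a1, a2, a3, a4, a5, a6⟩ := hM
  rw [pow_succ, pow_two]
  ext i j
  fin_cases i <;> fin_cases j <;>
    simp [Matrix.mul_apply, Fin.sum_univ_three, a1, a2, a3, a4, a5, a6]

theorem Uni.pow_char {p : ℕ} [Fact p.Prime] (hp : p ≠ 2) {M : Matrix (Fin 3) (Fin 3) (ZMod p)}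
    (hM : Uni M) : M ^ p = 1 := by
  have hpp : p.Prime := Fact.out
  have h3 : 3 ≤ p := by
    have := hpp.two_le
    omega
  have h1 : (M - 1) ^ p = 0 := by
    exact pow_eq_zero_of_le h3 hM.cube
  rw [sub_pow_char_of_commute _ (Commute.one_right M), one_pow] at h1
  exact sub_eq_zero.mp h1

theorem not_abP_qd {p : ℕ} [Fact p.Prime] (hp : p ≠ 2) : ¬ AbP p ↥(Cfsg.qd p) := by
  intro h
  obtain ⟨a, ha⟩ : ∃ a : Matrix.SpecialLinearGroup (Fin 3) (ZMod p),
      (a : Matrix (Fin 3) (Fin 3) (ZMod p)) = !![1, 1, 0; 0, 1, 0; 0, 0, 1] :=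
    ⟨⟨_, by simp [Matrix.det_fin_three]⟩, rfl⟩
  obtain ⟨b, hb⟩ : ∃ b : Matrix.SpecialLinearGroup (Fin 3) (ZMod p),
      (b : Matrix (Fin 3) (Fin 3) (ZMod p)) = !![1, 0, 0; 0, 1, 1; 0, 0, 1] :=
    ⟨⟨_, by simp [Matrix.det_fin_three]⟩, rfl⟩
  have haq : a ∈ Cfsg.qd p := Subgroup.subset_closure (by
    rw [Set.mem_ofPred_eq, ha]; simp)
  have hbq : b ∈ Cfsg.qd p := Subgroup.subset_closure (by
    rw [Set.mem_ofPred_eq, hb]; simp)
  have haU : Uni (a : Matrix (Fin 3) (Fin 3) (ZMod p)) := by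
    rw [ha]; refine ⟨?_, ?_, ?_, ?_, ?_, ?_⟩ <;> simp
  have hbU : Uni (b : Matrix (Fin 3) (Fin 3) (ZMod p)) := by
    rw [hb]; refine ⟨?_, ?_, ?_, ?_, ?_, ?_⟩ <;> simp
  set C : Subgroup (Matrix.SpecialLinearGroup (Fin 3) (ZMod p)) := Subgroup.closure {a, b} with hC
  have hCU : ∀ g ∈ C, Uni (g : Matrix (Fin 3) (Fin 3) (ZMod p)) := by
    intro g hg
    induction hg using Subgroup.closure_induction with
    | mem x hx =>
      rcases hx with rfl | rfl
      · exact haU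
      · exact hbU
    | one => refine ⟨?_, ?_, ?_, ?_, ?_, ?_⟩ <;> simp
    | mul x y _ _ hx hy =>
      rw [Matrix.SpecialLinearGroup.coe_mul]; exact hx.mul hy
    | inv x _ hx =>
      rw [Matrix.SpecialLinearGroup.coe_inv]; exact hx.adjugate
  have hP : IsPGroup p (C.subgroupOf (Cfsg.qd p)) := by
    intro g
    refine ⟨1, ?_⟩
    apply Subtype.ext
    apply Subtype.ext
    apply Subtype.ext
    have hg : ((g : ↥(Cfsg.qd p)) : Matrix.SpecialLinearGroup (Fin 3) (ZMod p)) ∈ C :=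
      Subgroup.mem_subgroupOf.mp g.2
    have := (hCU _ hg).pow_char hp
    rw [pow_one]
    simpa using this
  have hcomm := h _ hP ⟨a, haq⟩ (Subgroup.mem_subgroupOf.mpr (Subgroup.subset_closure (by simp)))
    ⟨b, hbq⟩ (Subgroup.mem_subgroupOf.mpr (Subgroup.subset_closure (by simp)))
  have h1 : a * b = b * a := congrArg Subtype.val hcomm
  have h2 := congrFun (congrFun (congrArg Subtype.val h1) 0) 2
  rw [Matrix.SpecialLinearGroup.coe_mul, Matrix.SpecialLinearGroup.coe_mul, ha, hb] at h2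
  simp [Matrix.mul_apply, Fin.sum_univ_three] at h2

/-- Let p be an odd prime and K a finite field of characteristic p. Then Qd(p) (the natural semidirect product of an elementary abelian group of order p² by SL₂(p)) is not involved in the projective special linear group PSL₂(K). -/
theorem result {p : ℕ} [Fact p.Prime] (hp : p ≠ 2) {K : Type*} [Field K] [Fintype K] [CharP K p] : ¬ Cfsg.Involves ↥(Cfsg.qd p) (Matrix.ProjectiveSpecialLinearGroup (Fin 2) K) := by
  rintro ⟨H, R, hn, ⟨e⟩⟩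
  have h1 : AbP p (Matrix.ProjectiveSpecialLinearGroup (Fin 2) K) :=
    abP_SL2.of_surjective (proj K) proj_surjective
  have h2 := h1.subgroup H
  have h3 : AbP p (H ⧸ R.subgroupOf H) :=
    h2.of_surjective (QuotientGroup.mk' _) (QuotientGroup.mk'_surjective _)
  have h4 : AbP p ↥(Cfsg.qd p) := h3.of_surjective e.toMonoidHom e.surjective
  exact not_abP_qd hp h4

end Cfsg.Agent.S2231
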