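import Cfsg.Statements.S2270
import Mathlib

set_option autoImplicit false
open Cfsg

namespace Cfsg.Agent.S2270

/-- Let n ≥ 3, p an odd prime, and P an abelian Sylow p-subgroup of the symmetric group S_n (with p dividing n!, so that P ≠ 1). Then N(P)/C(P) has even order. -/
theorem result (n : ℕ) (hn : 3 ≤ n) {p : ℕ} [Fact p.Prime] (hp : p ≠ 2) (hpn : p ≤ n)
    (P : Sylow p (Equiv.Perm (Fin n))) (hP : IsMulCommutative (P : Subgroup (Equiv.Perm (Fin n)))) :
    2 ∣ ((Subgroup.centralizer ((P : Subgroup (Equiv.Perm (Fin n))) : Set (Equiv.Perm (Fin n)))).subgroupOf (Subgroup.normalizer ((P : Subgroup (Equiv.Perm (Fin n))) : Set (Equiv.Perm (Fin n))))).index := by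
  classical
  have := hP
  have hpp : p.Prime := Fact.out
  -- P nontrivial
  have hdvd : p ∣ Nat.card (Equiv.Perm (Fin n)) := by
    rw [Nat.card_eq_fintype_card, Fintype.card_perm, Fintype.card_fin]
    exact (Nat.Prime.dvd_factorial hpp).2 hpn
  have hPne : (P : Subgroup (Equiv.Perm (Fin n))) ≠ ⊥ := P.ne_bot_of_dvd_card hdvd
  obtain ⟨x, hxP, hx1⟩ := (Subgroup.ne_bot_iff_exists_ne_one (H := (P : Subgroup (Equiv.Perm (Fin n))))).1 hPne |>.imp
    (fun a h => h) |> fun ⟨a, h⟩ => (⟨(a : (Equiv.Perm (Fin n))), a.2, fun h' => h (Subtype.ext h')⟩ : ∃ x : (Equiv.Perm (Fin n)), x ∈ (P : Subgroup (Equiv.Perm (Fin n))) ∧ x ≠ 1)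
  -- x ≠ x⁻¹
  have hxinv : x⁻¹ ≠ x := by
    intro h
    have hx2 : x ^ 2 = 1 := by
      rw [pow_two]
      nth_rewrite 1 [← h]
      exact inv_mul_cancel x
    obtain ⟨k, hk⟩ := (P.2 ⟨x, hxP⟩)
    have hk' : x ^ (p ^ k) = 1 := by
      have := congrArg Subtype.val hk
      simpa using this
    have hcop : Nat.Coprime 2 (p ^ k) := by
      apply Nat.Coprime.pow_right
      exact (Nat.coprime_primes Nat.prime_two hpp).2 (Ne.symm hp)
    have h1 : orderOf x ∣ 2 := orderOf_dvd_of_pow_eq_one hx2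
    have h2 : orderOf x ∣ p ^ k := orderOf_dvd_of_pow_eq_one hk'
    have h3 : orderOf x ∣ 1 := by
      have := Nat.dvd_gcd h1 h2
      rwa [hcop.gcd_eq_one] at this
    exact hx1 (orderOf_eq_one_iff.1 (Nat.dvd_one.1 h3))
  -- conjugate
  have hconj : IsConj x x⁻¹ := by
    rw [Equiv.Perm.isConj_iff_cycleType_eq, Equiv.Perm.cycleType_inv]
  obtain ⟨c, hc⟩ := isConj_iff.1 hconj
  have hy : (c⁻¹)⁻¹ * x * c⁻¹ ∈ (P : Subgroup (Equiv.Perm (Fin n))) := by
    rw [inv_inv, hc]; exact inv_mem hxP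
  obtain ⟨m, hmN, hm⟩ := P.conj_eq_normalizer_conj_of_mem x c⁻¹ hxP hy
  rw [inv_inv, hc] at hm
  -- normality
  have hnorm : ((Subgroup.centralizer ((P : Subgroup (Equiv.Perm (Fin n))) : Set (Equiv.Perm (Fin n)))).subgroupOf
      (Subgroup.normalizer ((P : Subgroup (Equiv.Perm (Fin n))) : Set (Equiv.Perm (Fin n))))).Normal := by
    rw [← Subgroup.normalizerMonoidHom_ker]
    infer_instance
  by_contra hodd
  set r := ((Subgroup.centralizer ((P : Subgroup (Equiv.Perm (Fin n))) : Set (Equiv.Perm (Fin n)))).subgroupOf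
      (Subgroup.normalizer ((P : Subgroup (Equiv.Perm (Fin n))) : Set (Equiv.Perm (Fin n))))).index with hr
  have hrodd : Odd r := by
    rcases Nat.even_or_odd r with h | h
    · exact absurd h.two_dvd hodd
    · exact h
  obtain ⟨t, ht⟩ := hrodd
  have hmem := Subgroup.pow_index_mem ((Subgroup.centralizer ((P : Subgroup (Equiv.Perm (Fin n))) : Set (Equiv.Perm (Fin n)))).subgroupOf
      (Subgroup.normalizer ((P : Subgroup (Equiv.Perm (Fin n))) : Set (Equiv.Perm (Fin n))))) (⟨m, hmN⟩ : Subgroup.normalizer ((P : Subgroup (Equiv.Perm (Fin n))) : Set (Equiv.Perm (Fin n))))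
  rw [← hr, Subgroup.mem_subgroupOf] at hmem
  have hmr : Commute (m ^ r) x := by
    have := (Subgroup.mem_centralizer_iff.1 hmem) x hxP
    have h2 : m ^ r * x = x * m ^ r := by simpa using this.symm
    exact h2
  -- m inverts x
  have hmx : x * m = m * x⁻¹ := by
    rw [hm]; group
  have hmx' : x⁻¹ * m = m * x := by
    calc x⁻¹ * m = x⁻¹ * (m * x⁻¹) * x := by group
      _ = x⁻¹ * (x * m) * x := by rw [hmx]
      _ = m * x := by group
  have hm2 : Commute (m ^ 2) x := by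
    show m ^ 2 * x = x * m ^ 2
    rw [pow_two, mul_assoc, ← hmx', ← mul_assoc, ← hmx, mul_assoc]
  have hm2t : Commute (m ^ (2 * t)) x := by
    rw [pow_mul]; exact hm2.pow_left t
  have hmc : Commute m x := by
    have h1 : m ^ r = m ^ (2 * t) * m := by rw [ht, pow_succ]
    have h2 : m = (m ^ (2 * t))⁻¹ * m ^ r := by rw [h1]; group
    rw [h2]
    exact (hm2t.inv_left).mul_left hmr
  apply hxinv
  have : m * x⁻¹ = m * x := by rw [← hmx]; exact hmc.eq.symm
  exact mul_left_cancel this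

end Cfsg.Agent.S2270
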