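import Cfsg.Statements.S2450
import Cfsg.Agent.Lib_helper6_SL2Norm

set_option autoImplicit false
open Cfsg

namespace Cfsg.Agent.S2450

open H6.GL2C

theorem trace_sq_of_isConj {F : Type*} [Field F] (C G : Matrix.SpecialLinearGroup (Fin 2) F)
    (h : IsConj (proj F C) (proj F G)) :
    (G : Matrix (Fin 2) (Fin 2) F).trace ^ 2 = (C : Matrix (Fin 2) (Fin 2) F).trace ^ 2 := by
  obtain ⟨x, hx⟩ := isConj_iff.mp h
  obtain ⟨X, rfl⟩ := proj_surjective x
  rw [← map_inv, ← map_mul, ← map_mul] at hx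
  have h1 : (X * C * X⁻¹)⁻¹ * G ∈ Subgroup.center (Matrix.SpecialLinearGroup (Fin 2) F) :=
    QuotientGroup.eq.mp hx
  rw [Matrix.SpecialLinearGroup.mem_center_iff] at h1
  obtain ⟨r, hr, h1⟩ := h1
  rw [Fintype.card_fin] at hr
  have h3 : G = (X * C * X⁻¹) * ((X * C * X⁻¹)⁻¹ * G) := by group
  have h4 := congrArg Subtype.val h3
  rw [Matrix.SpecialLinearGroup.coe_mul (X * C * X⁻¹), ← h1, Matrix.scalar_apply,
    ← Matrix.smul_one_eq_diagonal, Matrix.mul_smul, mul_one] at h4
  have h5 : (G : Matrix (Fin 2) (Fin 2) F).trace = r * (C : Matrix (Fin 2) (Fin 2) F).trace := by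
    have := congrArg Matrix.trace h4
    rw [Matrix.trace_smul, trace_conj, smul_eq_mul] at this
    exact this
  rw [h5, mul_pow, hr, one_mul]

theorem exists_conj_entry {F : Type*} [Field F] (A : Matrix.SpecialLinearGroup (Fin 2) F)
    (hA : NonScalar (A : Matrix (Fin 2) (Fin 2) F)) :
    ∃ P : Matrix.SpecialLinearGroup (Fin 2) F,
      ((P * A * P⁻¹ : Matrix.SpecialLinearGroup (Fin 2) F) : Matrix (Fin 2) (Fin 2) F) 1 0 ≠ 0 := by
  by_cases h10 : (A : Matrix (Fin 2) (Fin 2) F) 1 0 = 0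
  · by_cases h01 : (A : Matrix (Fin 2) (Fin 2) F) 0 1 = 0
    · have hne : (A : Matrix (Fin 2) (Fin 2) F) 0 0 ≠ (A : Matrix (Fin 2) (Fin 2) F) 1 1 := by
        rcases hA with h | h | h
        · exact absurd h01 h
        · exact absurd h10 h
        · exact h
      obtain ⟨P, hP⟩ : ∃ P : Matrix.SpecialLinearGroup (Fin 2) F,
          (P : Matrix (Fin 2) (Fin 2) F) = !![1, 0; 1, 1] :=
        ⟨⟨_, by simp [Matrix.det_fin_two_of]⟩, rfl⟩
      refine ⟨P, ?_⟩
      rw [Matrix.SpecialLinearGroup.coe_mul, Matrix.SpecialLinearGroup.coe_mul,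
        Matrix.SpecialLinearGroup.coe_inv, hP, Matrix.adjugate_fin_two,
        Matrix.eta_fin_two (A : Matrix (Fin 2) (Fin 2) F), h10, h01]
      simp only [Matrix.mul_fin_two, Matrix.of_apply, Matrix.cons_val_zero, Matrix.cons_val_one,
        Matrix.cons_val', Matrix.cons_val_fin_one]
      intro h
      apply hne
      linear_combination h
    · obtain ⟨P, hP⟩ : ∃ P : Matrix.SpecialLinearGroup (Fin 2) F,
          (P : Matrix (Fin 2) (Fin 2) F) = !![0, 1; -1, 0] :=
        ⟨⟨_, by simp [Matrix.det_fin_two_of]⟩, rfl⟩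
      refine ⟨P, ?_⟩
      rw [Matrix.SpecialLinearGroup.coe_mul, Matrix.SpecialLinearGroup.coe_mul,
        Matrix.SpecialLinearGroup.coe_inv, hP, Matrix.adjugate_fin_two,
        Matrix.eta_fin_two (A : Matrix (Fin 2) (Fin 2) F)]
      simp only [Matrix.mul_fin_two, Matrix.of_apply, Matrix.cons_val_zero, Matrix.cons_val_one,
        Matrix.cons_val', Matrix.cons_val_fin_one]
      intro h
      apply h01
      linear_combination -h
  · exact ⟨1, by simpa using h10⟩

theorem trace_formula {F : Type*} [Field F] (A B : Matrix.SpecialLinearGroup (Fin 2) F) (u : F)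
    (U : Matrix.SpecialLinearGroup (Fin 2) F)
    (hU : (U : Matrix (Fin 2) (Fin 2) F) = !![1, u; 0, 1]) :
    ((U * A * U⁻¹ * B : Matrix.SpecialLinearGroup (Fin 2) F) : Matrix (Fin 2) (Fin 2) F).trace =
      ((A : Matrix (Fin 2) (Fin 2) F) * (B : Matrix (Fin 2) (Fin 2) F)).trace +
      ((A : Matrix (Fin 2) (Fin 2) F) 1 0 * (B : Matrix (Fin 2) (Fin 2) F) 0 0 +
        ((A : Matrix (Fin 2) (Fin 2) F) 1 1 - (A : Matrix (Fin 2) (Fin 2) F) 0 0) *
          (B : Matrix (Fin 2) (Fin 2) F) 1 0 -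
        (A : Matrix (Fin 2) (Fin 2) F) 1 0 * (B : Matrix (Fin 2) (Fin 2) F) 1 1) * u -
      ((A : Matrix (Fin 2) (Fin 2) F) 1 0 * (B : Matrix (Fin 2) (Fin 2) F) 1 0) * u ^ 2 := by
  rw [Matrix.SpecialLinearGroup.coe_mul, Matrix.SpecialLinearGroup.coe_mul,
    Matrix.SpecialLinearGroup.coe_mul, Matrix.SpecialLinearGroup.coe_inv, hU,
    Matrix.adjugate_fin_two]
  obtain ⟨a, b, c, d, hA⟩ : ∃ a b c d, (A : Matrix (Fin 2) (Fin 2) F) = !![a, b; c, d] :=
    ⟨_, _, _, _, Matrix.eta_fin_two _⟩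
  obtain ⟨e, f, g, h, hB⟩ : ∃ a b c d, (B : Matrix (Fin 2) (Fin 2) F) = !![a, b; c, d] :=
    ⟨_, _, _, _, Matrix.eta_fin_two _⟩
  rw [hA, hB]
  simp only [Matrix.mul_fin_two, Matrix.of_apply, Matrix.cons_val_zero, Matrix.cons_val_one,
    Matrix.cons_val', Matrix.cons_val_fin_one, Matrix.trace_fin_two]
  ring

open Polynomial in
theorem no_const_sq {F : Type*} [Field F] [Fintype F] (h4 : 4 ≤ Fintype.card F)
    (α β γ κ : F) (hα : α ≠ 0) (h : ∀ u : F, (γ + β * u - α * u ^ 2) ^ 2 = κ) : False := by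
  classical
  by_cases h2 : (2 : F) = 0
  · -- characteristic two
    have h1 : ∀ u : F, β * u - α * u ^ 2 = 0 := by
      intro u
      have e1 := h u
      have e0 := h 0
      have : (β * u - α * u ^ 2) ^ 2 = 0 := by
        linear_combination e1 - e0 - γ * (β * u - α * u ^ 2) * h2
      exact pow_eq_zero_iff (by norm_num) |>.mp this
    set p : F[X] := C (-α) * X ^ 2 + C β * X with hp
    have hdeg : p.natDegree = 2 := by
      rw [hp]
      have : -α ≠ 0 := neg_ne_zero.mpr hα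
      compute_degree!
    have hz : p = 0 := by
      apply eq_zero_of_natDegree_lt_card_of_eval_eq_zero' p Finset.univ
      · intro u _
        rw [hp]
        simp only [eval_add, eval_mul, eval_C, eval_pow, eval_X]
        linear_combination h1 u
      · rw [hdeg, Finset.card_univ]; omega
    rw [hz] at hdeg
    simp at hdeg
  · have h5 : 5 ≤ Fintype.card F := by
      by_contra hlt
      have hq4 : Fintype.card F = 4 := by omega
      have hchar : ringChar F = 2 := FiniteField.even_card_iff_char_two.mpr (by omega)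
      apply h2
      have := ringChar.Nat.cast_ringChar (R := F)
      rw [hchar] at this
      exact_mod_cast this
    set p : F[X] := C (α ^ 2) * X ^ 4 + C (-2 * α * β) * X ^ 3 + C (β ^ 2 - 2 * α * γ) * X ^ 2 +
      C (2 * β * γ) * X + C (γ ^ 2 - κ) with hp
    have hdeg : p.natDegree = 4 := by
      rw [hp]
      have : α ^ 2 ≠ 0 := pow_ne_zero 2 hα
      compute_degree!
    have hz : p = 0 := by
      apply eq_zero_of_natDegree_lt_card_of_eval_eq_zero' p Finset.univ
      · intro u _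
        rw [hp]
        simp only [eval_add, eval_mul, eval_C, eval_pow, eval_X]
        linear_combination h u
      · rw [hdeg, Finset.card_univ]; omega
    rw [hz] at hdeg
    simp at hdeg

/-- The Arad–Herzog conjecture for PSL(2,q): let F be a finite field with q ≥ 4 elements. For any two non-identity elements a, b of PSL(2,F), the set of products of a conjugate of a with a conjugate of b is not a single conjugacy class. -/
theorem result {F : Type*} [Field F] [Fintype F] (h4 : 4 ≤ Fintype.card F)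
    (a b : Matrix.ProjectiveSpecialLinearGroup (Fin 2) F) (ha : a ≠ 1) (hb : b ≠ 1) (c : Matrix.ProjectiveSpecialLinearGroup (Fin 2) F) :
    {g : Matrix.ProjectiveSpecialLinearGroup (Fin 2) F | ∃ u v : Matrix.ProjectiveSpecialLinearGroup (Fin 2) F, g = (u * a * u⁻¹) * (v * b * v⁻¹)} ≠ {g | IsConj c g} := by
  intro hset
  obtain ⟨A, rfl⟩ := proj_surjective a
  obtain ⟨B, rfl⟩ := proj_surjective b
  obtain ⟨C, rfl⟩ := proj_surjective c
  have hnsA : NonScalar (A : Matrix (Fin 2) (Fin 2) F) := by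
    by_contra h
    exact ha ((QuotientGroup.eq_one_iff _).mpr ((mem_center_iff_not_nonScalar A).mpr h))
  have hnsB : NonScalar (B : Matrix (Fin 2) (Fin 2) F) := by
    by_contra h
    exact hb ((QuotientGroup.eq_one_iff _).mpr ((mem_center_iff_not_nonScalar B).mpr h))
  obtain ⟨P, hP⟩ := exists_conj_entry A hnsA
  obtain ⟨Q, hQ⟩ := exists_conj_entry B hnsB
  have key : ∀ u : F, ∀ U : Matrix.SpecialLinearGroup (Fin 2) F,
      (U : Matrix (Fin 2) (Fin 2) F) = !![1, u; 0, 1] →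
      ((U * (P * A * P⁻¹) * U⁻¹ * (Q * B * Q⁻¹) : Matrix.SpecialLinearGroup (Fin 2) F) :
        Matrix (Fin 2) (Fin 2) F).trace ^ 2 = (C : Matrix (Fin 2) (Fin 2) F).trace ^ 2 := by
    intro u U _
    apply trace_sq_of_isConj
    have hmem : proj F (U * (P * A * P⁻¹) * U⁻¹ * (Q * B * Q⁻¹)) ∈
        {g : Matrix.ProjectiveSpecialLinearGroup (Fin 2) F | ∃ u v : Matrix.ProjectiveSpecialLinearGroup (Fin 2) F, g = (u * proj F A * u⁻¹) * (v * proj F B * v⁻¹)} := by
      refine ⟨proj F (U * P), proj F Q, ?_⟩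
      simp only [map_mul, map_inv, mul_inv_rev, mul_assoc]
    rw [hset] at hmem
    exact hmem
  set A' := P * A * P⁻¹ with hA'
  set B' := Q * B * Q⁻¹ with hB'
  refine no_const_sq h4 ((A' : Matrix (Fin 2) (Fin 2) F) 1 0 * (B' : Matrix (Fin 2) (Fin 2) F) 1 0)
    ((A' : Matrix (Fin 2) (Fin 2) F) 1 0 * (B' : Matrix (Fin 2) (Fin 2) F) 0 0 +
        ((A' : Matrix (Fin 2) (Fin 2) F) 1 1 - (A' : Matrix (Fin 2) (Fin 2) F) 0 0) *
          (B' : Matrix (Fin 2) (Fin 2) F) 1 0 -
        (A' : Matrix (Fin 2) (Fin 2) F) 1 0 * (B' : Matrix (Fin 2) (Fin 2) F) 1 1)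
    ((A' : Matrix (Fin 2) (Fin 2) F) * (B' : Matrix (Fin 2) (Fin 2) F)).trace
    ((C : Matrix (Fin 2) (Fin 2) F).trace ^ 2) (mul_ne_zero hP hQ) (fun u => ?_)
  obtain ⟨U, hU⟩ : ∃ U : Matrix.SpecialLinearGroup (Fin 2) F,
      (U : Matrix (Fin 2) (Fin 2) F) = !![1, u; 0, 1] :=
    ⟨⟨_, by simp [Matrix.det_fin_two_of]⟩, rfl⟩
  have := key u U hU
  rw [trace_formula _ _ u U hU] at this
  exact this

end Cfsg.Agent.S2450
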