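import Cfsg.Statements.S2455
import Cfsg.Agent.Lib_helper6_SL2Cover

set_option autoImplicit false
open Cfsg

namespace Cfsg.Agent.S2455

/-- A strong covering result in the direction of Thompson's conjecture (non-identity elements) for PSL(2,q), q odd: let F be a finite field of odd characteristic p with at least 5 elements and let x ∈ PSL(2,F) have order greater than 2 and not divisible by p (so x is not unipotent). Then every non-identity element of PSL(2,F) is a product of two conjugates of x. -/
theorem result {F : Type*} [Field F] [Fintype F] (p : ℕ) [Fact p.Prime] [CharP F p] (hp : p ≠ 2) (h5 : 5 ≤ Fintype.card F)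
    (x : Matrix.ProjectiveSpecialLinearGroup (Fin 2) F) (hx2 : 2 < orderOf x) (hxp : ¬ p ∣ orderOf x) : ∀ g : Matrix.ProjectiveSpecialLinearGroup (Fin 2) F, g ≠ 1 → ∃ u v : Matrix.ProjectiveSpecialLinearGroup (Fin 2) F, g = (u * x * u⁻¹) * (v * x * v⁻¹) := by
  open H6.GL2C in
  intro g hg
  have hpp : p.Prime := Fact.out
  have h20 : (2 : F) ≠ 0 := by
    intro h
    have h' : ((2 : ℕ) : F) = 0 := by exact_mod_cast h
    rw [CharP.cast_eq_zero_iff F p] at h'
    exact hp ((Nat.prime_dvd_prime_iff_eq hpp Nat.prime_two).mp h')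
  obtain ⟨X, rfl⟩ := proj_surjective x
  obtain ⟨G, rfl⟩ := proj_surjective g
  have hnsG : NonScalar (G : Matrix (Fin 2) (Fin 2) F) := by
    by_contra h
    exact hg ((QuotientGroup.eq_one_iff _).mpr ((mem_center_iff_not_nonScalar G).mpr h))
  have hnsX : NonScalar (X : Matrix (Fin 2) (Fin 2) F) := by
    by_contra h
    have : proj F X = 1 := (QuotientGroup.eq_one_iff _).mpr ((mem_center_iff_not_nonScalar X).mpr h)
    rw [this, orderOf_one] at hx2
    omega
  rcases split_or_aniso (X : Matrix (Fin 2) (Fin 2) F).trace 1 with ⟨l, m, ht, hd⟩ | h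
  · by_cases hlm : l = m
    · exfalso
      subst hlm
      have h1 := pow_char_mem_center p X ht hd.symm
      have h2 : proj F X ^ p = 1 := by
        rw [← map_pow]
        exact (QuotientGroup.eq_one_iff _).mpr h1
      have h3 := orderOf_dvd_of_pow_eq_one h2
      rcases (Nat.dvd_prime hpp).mp h3 with h4 | h4
      · omega
      · exact hxp (by rw [h4])
    · obtain ⟨U, V, hUV⟩ := cover_split X G hnsX hnsG ht hd.symm hlm
      refine ⟨proj F U, proj F V, ?_⟩
      rw [hUV]
      simp only [map_mul, map_inv]
  · have ht0 : (X : Matrix (Fin 2) (Fin 2) F).trace ≠ 0 := by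
      intro h0
      have h1 := (sq_eq_neg_one_iff X).mpr h0
      have h2 : proj F X ^ 2 = 1 := by
        rw [← map_pow]
        apply (QuotientGroup.eq_one_iff _).mpr
        rw [mem_center_iff_not_nonScalar, sq, Matrix.SpecialLinearGroup.coe_mul, h1]
        rintro (h | h | h) <;> simp at h
      have := orderOf_le_of_pow_eq_one (by norm_num) h2
      omega
    by_cases hτ : (G : Matrix (Fin 2) (Fin 2) F).trace = 2
    · obtain ⟨G₁, hG₁⟩ : ∃ G₁ : Matrix.SpecialLinearGroup (Fin 2) F,
          (G₁ : Matrix (Fin 2) (Fin 2) F) = -(G : Matrix (Fin 2) (Fin 2) F) :=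
        ⟨⟨_, by rw [Matrix.det_neg, G.2]; simp⟩, rfl⟩
      have hproj : proj F G = proj F G₁ := by
        apply QuotientGroup.eq.mpr
        rw [mem_center_iff_not_nonScalar, Matrix.SpecialLinearGroup.coe_mul, hG₁, mul_neg,
          ← Matrix.SpecialLinearGroup.coe_mul, inv_mul_cancel]
        rintro (h | h | h) <;> simp at h
      have hnsG₁ : NonScalar (G₁ : Matrix (Fin 2) (Fin 2) F) := by
        rw [hG₁]
        rcases hnsG with h | h | h
        · left; simpa using h
        · right; left; simpa using h
        · right; right; simpa using h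
      obtain ⟨U, V, hUV⟩ := cover_aniso h20 X G₁ h ht0 hnsG₁ (by
        rw [hG₁, Matrix.trace_neg, hτ]
        intro h4
        have : (2 : F) * 2 = 0 := by linear_combination -h4
        exact (mul_ne_zero h20 h20) this)
      refine ⟨proj F U, proj F V, ?_⟩
      rw [hproj, hUV]
      simp only [map_mul, map_inv]
    · obtain ⟨U, V, hUV⟩ := cover_aniso h20 X G h ht0 hnsG hτ
      refine ⟨proj F U, proj F V, ?_⟩
      rw [hUV]
      simp only [map_mul, map_inv]

end Cfsg.Agent.S2455
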