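import Cfsg.Statements.S2456
import Cfsg.Agent.Lib_helper6_SL2Cover

set_option autoImplicit false
open Cfsg

namespace Cfsg.Agent.S2456

/-- A strong covering result in the direction of Thompson's conjecture (non-identity elements) for PSL(2,q), q even: let F be a finite field of characteristic 2 with q ≥ 4 elements and let x ∈ PSL(2,F) have order greater than 2 and not dividing q + 1. Then every non-identity element of PSL(2,F) is a product of two conjugates of x. -/
theorem result {F : Type*} [Field F] [Fintype F] [CharP F 2] (h4 : 4 ≤ Fintype.card F)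
    (x : Matrix.ProjectiveSpecialLinearGroup (Fin 2) F) (hx2 : 2 < orderOf x) (hxq : ¬ orderOf x ∣ Fintype.card F + 1) : ∀ g : Matrix.ProjectiveSpecialLinearGroup (Fin 2) F, g ≠ 1 → ∃ u v : Matrix.ProjectiveSpecialLinearGroup (Fin 2) F, g = (u * x * u⁻¹) * (v * x * v⁻¹) := by
  open H6.GL2C in
  intro g hg
  have : Fact (Nat.Prime 2) := ⟨Nat.prime_two⟩
  obtain ⟨X, rfl⟩ := proj_surjective x
  obtain ⟨G, rfl⟩ := proj_surjective g
  have hnsG : NonScalar (G : Matrix (Fin 2) (Fin 2) F) := by
    by_contra h
    exact hg ((QuotientGroup.eq_one_iff _).mpr ((mem_center_iff_not_nonScalar G).mpr h))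
  have hnsX : NonScalar (X : Matrix (Fin 2) (Fin 2) F) := by
    by_contra h
    have : proj F X = 1 := (QuotientGroup.eq_one_iff _).mpr ((mem_center_iff_not_nonScalar X).mpr h)
    rw [this, orderOf_one] at hx2
    omega
  rcases split_or_aniso (X : Matrix (Fin 2) (Fin 2) F).trace 1 with ⟨l, m, ht, hd⟩ | h
  · by_cases hlm : l = m
    · exfalso
      subst hlm
      have h1 := pow_char_mem_center 2 X ht hd.symm
      have h2 : proj F X ^ 2 = 1 := by
        rw [← map_pow]
        exact (QuotientGroup.eq_one_iff _).mpr h1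
      have := orderOf_le_of_pow_eq_one (by norm_num) h2
      omega
    · obtain ⟨U, V, hUV⟩ := cover_split X G hnsX hnsG ht hd.symm hlm
      refine ⟨proj F U, proj F V, ?_⟩
      rw [hUV]
      simp only [map_mul, map_inv]
  · exfalso
    apply hxq
    have hmem : X ∈ Subgroup.centralizer ({X} : Set (Matrix.SpecialLinearGroup (Fin 2) F)) :=
      Subgroup.mem_centralizer_singleton_iff.mpr rfl
    have h1 := orderOf_dvd_natCard (⟨X, hmem⟩ : Subgroup.centralizer
      ({X} : Set (Matrix.SpecialLinearGroup (Fin 2) F)))
    rw [Subgroup.orderOf_mk, card_centralizer_SL X hnsX, card_nrm_eq_one_aniso h] at h1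
    exact (orderOf_map_dvd (proj F) X).trans h1

end Cfsg.Agent.S2456
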