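import Cfsg.Statements.S2466
import Mathlib
import Cfsg.Agent.Lib_lead_CycT

set_option autoImplicit false
open Cfsg

namespace Cfsg.Agent.S2466

/-- Adjacency of odd primes in the prime graph of the alternating groups: let r ≠ s be odd primes at most n. The alternating group of degree n has an element of order r·s if and only if r + s ≤ n. -/
theorem result (n r s : ℕ) (hr : r.Prime) (hs : s.Prime) (hr2 : r ≠ 2) (hs2 : s ≠ 2) (hrs : r ≠ s) (hrn : r ≤ n) (hsn : s ≤ n) :
    (r * s ∈ Set.range (orderOf : alternatingGroup (Fin n) → ℕ)) ↔ r + s ≤ n := by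
  have hr3 : 3 ≤ r := by
    have := hr.two_le
    omega
  have hs3 : 3 ≤ s := by
    have := hs.two_le
    omega
  constructor
  · rintro ⟨g, hg⟩
    have ho : orderOf (g : Equiv.Perm (Fin n)) = r * s := by
      rw [Subgroup.orderOf_coe]; exact hg
    have hl := Equiv.Perm.lcm_cycleType (g : Equiv.Perm (Fin n))
    rw [ho] at hl
    have hsum := Equiv.Perm.sum_cycleType_le (g : Equiv.Perm (Fin n))
    rw [Fintype.card_fin] at hsum
    obtain ⟨a, ha, hra⟩ := Cfsg.Agent.LeadCyc.prime_dvd_multiset_lcm hr _ (hl ▸ Dvd.intro _ rfl)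
    obtain ⟨b, hb, hsb⟩ := Cfsg.Agent.LeadCyc.prime_dvd_multiset_lcm hs _ (hl ▸ Dvd.intro_left _ rfl)
    have ha2 := Equiv.Perm.two_le_of_mem_cycleType ha
    have hb2 := Equiv.Perm.two_le_of_mem_cycleType hb
    by_cases hab : a = b
    · subst hab
      have hcop : Nat.Coprime r s := (Nat.coprime_primes hr hs).mpr hrs
      have h1 : r * s ∣ a := hcop.mul_dvd_of_dvd_of_dvd hra hsb
      have h2 : r * s ≤ a := Nat.le_of_dvd (by omega) h1
      have h3 : a ≤ (g : Equiv.Perm (Fin n)).cycleType.sum := Multiset.le_sum_of_mem ha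
      nlinarith
    · have h1 := Cfsg.Agent.LeadCyc.add_le_sum_of_mem_of_ne ha hb hab
      have h2 : r ≤ a := Nat.le_of_dvd (by omega) hra
      have h3 : s ≤ b := Nat.le_of_dvd (by omega) hsb
      omega
  · intro h
    obtain ⟨σ, hσ⟩ := (Equiv.Perm.exists_with_cycleType_iff (Fin n) (m := {r, s})).mpr (by
      constructor
      · simpa using h
      · intro a ha
        simp only [Multiset.insert_eq_cons, Multiset.mem_cons, Multiset.mem_singleton] at ha
        rcases ha with rfl | rfl <;> omega)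
    have hsign : σ ∈ alternatingGroup (Fin n) := by
      rw [Equiv.Perm.mem_alternatingGroup, Equiv.Perm.sign_of_cycleType', hσ]
      have h1 : Odd r := hr.odd_of_ne_two hr2
      have h2 : Odd s := hs.odd_of_ne_two hs2
      simp [h1.neg_one_pow, h2.neg_one_pow]
    refine ⟨⟨σ, hsign⟩, ?_⟩
    rw [← Subgroup.orderOf_coe]
    show orderOf σ = r * s
    rw [← Equiv.Perm.lcm_cycleType, hσ]
    have hcop : Nat.Coprime r s := (Nat.coprime_primes hr hs).mpr hrs
    simp [hcop.lcm_eq_mul, lcm_eq_nat_lcm]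

end Cfsg.Agent.S2466
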