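import Cfsg.Statements.S2467
import Mathlib
import Cfsg.Agent.Lib_lead_CycT

set_option autoImplicit false
open Cfsg

namespace Cfsg.Agent.S2467

/-- Adjacency of 2 and an odd prime in the prime graph of the alternating groups: let r be an odd prime at most n, with n ≥ 4. The alternating group of degree n has an element of order 2r if and only if r + 4 ≤ n. -/
theorem result (n r : ℕ) (hn : 4 ≤ n) (hr : r.Prime) (hr2 : r ≠ 2) (hrn : r ≤ n) :
    (2 * r ∈ Set.range (orderOf : alternatingGroup (Fin n) → ℕ)) ↔ r + 4 ≤ n := by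
  have hr3 : 3 ≤ r := by
    have := hr.two_le
    omega
  have hodd : Odd r := hr.odd_of_ne_two hr2
  constructor
  · rintro ⟨g, hg⟩
    have ho : orderOf (g : Equiv.Perm (Fin n)) = 2 * r := by
      rw [Subgroup.orderOf_coe]; exact hg
    have hl := Equiv.Perm.lcm_cycleType (g : Equiv.Perm (Fin n))
    rw [ho] at hl
    have hsum := Equiv.Perm.sum_cycleType_le (g : Equiv.Perm (Fin n))
    rw [Fintype.card_fin] at hsum
    have hsign : Equiv.Perm.sign (g : Equiv.Perm (Fin n)) = 1 := Equiv.Perm.mem_alternatingGroup.mp g.2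
    rw [Equiv.Perm.sign_of_cycleType', Cfsg.Agent.LeadCyc.sign_prod_eq] at hsign
    set m := (g : Equiv.Perm (Fin n)).cycleType with hm
    have hge2 : ∀ a ∈ m, 2 ≤ a := fun a ha => Equiv.Perm.two_le_of_mem_cycleType ha
    have heven : Even (Multiset.card (m.filter Even)) := by
      by_contra hcon
      rw [(Nat.not_even_iff_odd.mp hcon).neg_one_pow] at hsign
      exact absurd hsign (by decide)
    obtain ⟨a, ha, hra⟩ := Cfsg.Agent.LeadCyc.prime_dvd_multiset_lcm hr _ (hl ▸ Dvd.intro_left _ rfl)
    obtain ⟨b, hb, h2b⟩ := Cfsg.Agent.LeadCyc.prime_dvd_multiset_lcm Nat.prime_two _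
      (hl ▸ Dvd.intro _ rfl)
    have hbE : b ∈ m.filter Even := Multiset.mem_filter.mpr ⟨hb, even_iff_two_dvd.mpr h2b⟩
    have hsplit : (m.filter Even).sum + (m.filter (fun x => ¬ Even x)).sum = m.sum := by
      rw [← Multiset.sum_add, Multiset.filter_add_not]
    have hra' : r ≤ a := Nat.le_of_dvd (by have := hge2 a ha; omega) hra
    by_cases hae : Even a
    · -- a is even, so 2r ∣ a
      have haE : a ∈ m.filter Even := Multiset.mem_filter.mpr ⟨ha, hae⟩
      obtain ⟨E', hE'⟩ := Multiset.exists_cons_of_mem haE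
      have hcard : Multiset.card E' ≠ 0 := by
        intro h0
        rw [hE', Multiset.card_cons, h0] at heven
        exact absurd heven (by decide)
      obtain ⟨c, hc⟩ := Multiset.card_pos_iff_exists_mem.mp (Nat.pos_of_ne_zero hcard)
      have hcm : c ∈ m := by
        have : c ∈ m.filter Even := by rw [hE']; exact Multiset.mem_cons_of_mem hc
        exact (Multiset.mem_filter.mp this).1
      have h1 : c ≤ E'.sum := Multiset.le_sum_of_mem hc
      have h2 : (m.filter Even).sum = a + E'.sum := by rw [hE', Multiset.sum_cons]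
      have h3 : 2 * r ∣ a :=
        (Nat.Coprime.mul_dvd_of_dvd_of_dvd ((Nat.coprime_primes Nat.prime_two hr).mpr (Ne.symm hr2))
          (even_iff_two_dvd.mp hae) hra)
      have h4 : 2 * r ≤ a := Nat.le_of_dvd (by have := hge2 a ha; omega) h3
      have := hge2 c hcm
      omega
    · have haO : a ∈ m.filter (fun x => ¬ Even x) := Multiset.mem_filter.mpr ⟨ha, hae⟩
      have h0 : a ≤ (m.filter (fun x => ¬ Even x)).sum := Multiset.le_sum_of_mem haO
      obtain ⟨E', hE'⟩ := Multiset.exists_cons_of_mem hbE
      have hcard : Multiset.card E' ≠ 0 := by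
        intro h0
        rw [hE', Multiset.card_cons, h0] at heven
        exact absurd heven (by decide)
      obtain ⟨c, hc⟩ := Multiset.card_pos_iff_exists_mem.mp (Nat.pos_of_ne_zero hcard)
      have hcm : c ∈ m := by
        have : c ∈ m.filter Even := by rw [hE']; exact Multiset.mem_cons_of_mem hc
        exact (Multiset.mem_filter.mp this).1
      have h1 : c ≤ E'.sum := Multiset.le_sum_of_mem hc
      have h2 : (m.filter Even).sum = b + E'.sum := by rw [hE', Multiset.sum_cons]
      have := hge2 c hcm
      have := hge2 b hb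
      omega
  · intro h
    obtain ⟨σ, hσ⟩ := (Equiv.Perm.exists_with_cycleType_iff (Fin n) (m := {r, 2, 2})).mpr (by
      constructor
      · simp only [Multiset.insert_eq_cons, Multiset.sum_cons, Multiset.sum_singleton,
          Fintype.card_fin]
        omega
      · intro a ha
        simp only [Multiset.insert_eq_cons, Multiset.mem_cons, Multiset.mem_singleton] at ha
        rcases ha with rfl | rfl | rfl <;> omega)
    have hsign : σ ∈ alternatingGroup (Fin n) := by
      rw [Equiv.Perm.mem_alternatingGroup, Equiv.Perm.sign_of_cycleType', hσ]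
      simp [hodd.neg_one_pow]
    refine ⟨⟨σ, hsign⟩, ?_⟩
    rw [← Subgroup.orderOf_coe]
    show orderOf σ = 2 * r
    rw [← Equiv.Perm.lcm_cycleType, hσ]
    have hcop : Nat.Coprime r 2 := (Nat.coprime_primes hr Nat.prime_two).mpr hr2
    simp [hcop.lcm_eq_mul, lcm_eq_nat_lcm, mul_comm]

end Cfsg.Agent.S2467
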