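import Cfsg.Statements.S2485
import Cfsg.Agent.Lib_helper6_SL2Norm
import Cfsg.Agent.Lib_helper6_SLCard

set_option autoImplicit false
open scoped Pointwise
open Cfsg

namespace Cfsg.Agent.S2485

open H6.GL2C

section
variable {F : Type*} [Field F]

theorem eq_zero_of_anticomm (hns : ¬ IsSquare (-1 : F)) {x g : Matrix (Fin 2) (Fin 2) F}
    (hx : x * x = -1) (hg : g * x = -(x * g)) (hdet : g.det = 0) : g = 0 := by
  obtain ⟨v, hv0, hv⟩ := Matrix.exists_mulVec_eq_zero_iff.mpr hdet
  set w := x.mulVec v with hw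
  have hgw : g.mulVec w = 0 := by
    rw [hw, Matrix.mulVec_mulVec, hg, Matrix.neg_mulVec, ← Matrix.mulVec_mulVec, hv,
      Matrix.mulVec_zero, neg_zero]
  have hxw : x.mulVec w = -v := by
    rw [hw, Matrix.mulVec_mulVec, hx, Matrix.neg_mulVec, Matrix.one_mulVec]
  have hD : v 0 * w 1 - v 1 * w 0 ≠ 0 := by
    intro hD
    obtain ⟨l, hl⟩ : ∃ l : F, w = l • v := by
      by_cases h0 : v 0 = 0
      · have h1 : v 1 ≠ 0 := by
          intro h1
          apply hv0
          ext i
          fin_cases i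
          · exact h0
          · exact h1
        refine ⟨w 1 / v 1, ?_⟩
        rw [h0] at hD
        have hw0 : w 0 = 0 := by
          have : v 1 * w 0 = 0 := by linear_combination -hD
          exact (mul_eq_zero.mp this).resolve_left h1
        ext i
        fin_cases i
        · simp [h0, hw0]
        · simp only [Fin.mk_one, Pi.smul_apply, smul_eq_mul]
          field_simp
      · refine ⟨w 0 / v 0, ?_⟩
        ext i
        fin_cases i
        · simp only [Fin.zero_eta, Pi.smul_apply, smul_eq_mul]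
          field_simp
        · simp only [Fin.mk_one, Pi.smul_apply, smul_eq_mul]
          field_simp
          linear_combination hD
    have h3 : (l * l) • v = -v := by
      rw [← hxw, hl, Matrix.mulVec_smul, ← hw, hl, smul_smul]
    apply hns
    refine ⟨l, ?_⟩
    have h4 : (l * l + 1) • v = 0 := by rw [add_smul, h3, one_smul, neg_add_cancel]
    rcases smul_eq_zero.mp h4 with h | h
    · linear_combination -h
    · exact absurd h hv0
  have e0 := congrFun hv 0
  have e1 := congrFun hv 1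
  have f0 := congrFun hgw 0
  have f1 := congrFun hgw 1
  simp only [Matrix.mulVec, dotProduct, Fin.sum_univ_two, Pi.zero_apply] at e0 e1 f0 f1
  ext i j
  fin_cases i <;> fin_cases j
  · have : g 0 0 * (v 0 * w 1 - v 1 * w 0) = 0 := by linear_combination w 1 * e0 - v 1 * f0
    exact (mul_eq_zero.mp this).resolve_right hD
  · have : g 0 1 * (v 0 * w 1 - v 1 * w 0) = 0 := by linear_combination -w 0 * e0 + v 0 * f0
    exact (mul_eq_zero.mp this).resolve_right hD
  · have : g 1 0 * (v 0 * w 1 - v 1 * w 0) = 0 := by linear_combination w 1 * e1 - v 1 * f1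
    exact (mul_eq_zero.mp this).resolve_right hD
  · have : g 1 1 * (v 0 * w 1 - v 1 * w 0) = 0 := by linear_combination -w 0 * e1 + v 0 * f1
    exact (mul_eq_zero.mp this).resolve_right hD

theorem comm_anticomm {x x' : Matrix (Fin 2) (Fin 2) F} (hx : x * x = -1) :
    (x * x' - x' * x) * x = -(x * (x * x' - x' * x)) := by
  have h1 : x' * x * x = -x' := by rw [mul_assoc, hx]; simp
  have h2 : x * x * x' = -x' := by rw [hx]; simp
  rw [sub_mul, h1, mul_sub, ← mul_assoc, ← mul_assoc, h2]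
  abel

theorem ne_scalar_of_sq (hns : ¬ IsSquare (-1 : F)) {x : Matrix (Fin 2) (Fin 2) F}
    (hx : x * x = -1) (c : F) : x ≠ Matrix.scalar (Fin 2) c := by
  rintro rfl
  apply hns
  refine ⟨c, ?_⟩
  have := congrFun (congrFun hx 0) 0
  simpa [Matrix.mul_apply, Fin.sum_univ_two] using this.symm

theorem exists_common (h2 : (2 : F) ≠ 0) (hns : ¬ IsSquare (-1 : F))
    {x x' : Matrix (Fin 2) (Fin 2) F} (hx : x * x = -1) (hx' : x' * x' = -1) :
    ∃ g : Matrix (Fin 2) (Fin 2) F, g.det ≠ 0 ∧ (∀ c : F, g ≠ Matrix.scalar (Fin 2) c) ∧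
      (g * x = x * g ∨ g * x = -(x * g)) ∧ (g * x' = x' * g ∨ g * x' = -(x' * g)) := by
  by_cases h0 : x * x' - x' * x = 0
  · refine ⟨x, ?_, ne_scalar_of_sq hns hx, Or.inl rfl, Or.inl (sub_eq_zero.mp h0)⟩
    intro hd
    have := congrArg Matrix.det hx
    rw [Matrix.det_mul, hd, Matrix.det_neg, Matrix.det_one] at this
    simp at this
  · have hA := comm_anticomm (x := x) (x' := x') hx
    have hB : (x * x' - x' * x) * x' = -(x' * (x * x' - x' * x)) := by
      have := comm_anticomm (x := x') (x' := x) hx'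
      have e : x * x' - x' * x = -(x' * x - x * x') := by abel
      rw [e, neg_mul, this, mul_neg]
    refine ⟨x * x' - x' * x, ?_, ?_, Or.inr hA, Or.inr hB⟩
    · intro hd
      exact h0 (eq_zero_of_anticomm hns hx hA hd)
    · intro c hc
      apply h0
      rw [hc] at hA ⊢
      have hcx : (2 * c) • x = 0 := by
        have e0 : Matrix.scalar (Fin 2) c = c • (1 : Matrix (Fin 2) (Fin 2) F) :=
          (Matrix.smul_one_eq_diagonal c).symm
        have e1 : Matrix.scalar (Fin 2) c * x = c • x := by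
          rw [e0, Matrix.smul_mul, Matrix.one_mul]
        have e2 : x * Matrix.scalar (Fin 2) c = c • x := by
          rw [e0, Matrix.mul_smul, Matrix.mul_one]
        rw [e1, e2] at hA
        rw [mul_smul, two_smul]
        nth_rewrite 1 [hA]
        exact neg_add_cancel _
      have hx0 : x ≠ 0 := by
        rintro rfl
        rw [mul_zero] at hx
        have := congrFun (congrFun hx 0) 0
        simp at this
      rcases smul_eq_zero.mp hcx with h | h
      · have hc0 : c = 0 := (mul_eq_zero.mp h).resolve_left h2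
        rw [hc0]; simp
      · exact absurd h hx0

end

/-- the elements fixing or inverting `x` under conjugation -/
def NI {G : Type*} [Group G] (x : G) : Subgroup G where
  carrier := {g | g * x * g⁻¹ = x ∨ g * x * g⁻¹ = x⁻¹}
  one_mem' := Or.inl (by simp)
  mul_mem' := by
    rintro g h hg hh
    have e : g * h * x * (g * h)⁻¹ = g * (h * x * h⁻¹) * g⁻¹ := by group
    have e' : g * x⁻¹ * g⁻¹ = (g * x * g⁻¹)⁻¹ := by group
    show _ ∨ _
    rw [e]
    rcases hh with hh | hh <;> rcases hg with hg | hg <;> rw [hh]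
    · left; exact hg
    · right; exact hg
    · right; rw [e', hg]
    · left; rw [e', hg, inv_inv]
  inv_mem' := by
    rintro g hg
    show _ ∨ _
    rcases hg with hg | hg
    · left
      rw [inv_inv]
      nth_rewrite 1 [← hg]
      group
    · right
      rw [inv_inv]
      have : x = (g * x * g⁻¹)⁻¹ := by rw [hg, inv_inv]
      nth_rewrite 1 [this]
      group

theorem mem_NI {G : Type*} [Group G] (x g : G) :
    g ∈ NI x ↔ g * x * g⁻¹ = x ∨ g * x * g⁻¹ = x⁻¹ := Iff.rfl

theorem conj_mem_NI {G : Type*} [Group G] (x c y : G) (h : y ∈ NI (c * x * c⁻¹)) :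
    c⁻¹ * y * c ∈ NI x := by
  rw [mem_NI] at h ⊢
  have e : c⁻¹ * y * c * x * (c⁻¹ * y * c)⁻¹ = c⁻¹ * (y * (c * x * c⁻¹) * y⁻¹) * c := by group
  rw [e]
  rcases h with h | h
  · left; rw [h]; group
  · right; rw [h]; group

/-- Let q = 2^k − 1 ≥ 7 be a prime and let G = PGL(2,q), the general linear group of degree 2 over the field with q elements modulo its centre. Then any two Sylow 2-subgroups of G have a non-trivial intersection: for a Sylow 2-subgroup H and every x ∈ G, H ∩ H^x ≠ 1. -/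
theorem result {q k : ℕ} [Fact q.Prime] (hk : q + 1 = 2 ^ k) (hq : 7 ≤ q)
    (H : Sylow 2 (GL (Fin 2) (ZMod q) ⧸ Subgroup.center (GL (Fin 2) (ZMod q))))
    (x : GL (Fin 2) (ZMod q) ⧸ Subgroup.center (GL (Fin 2) (ZMod q))) :
    (H : Subgroup (GL (Fin 2) (ZMod q) ⧸ Subgroup.center (GL (Fin 2) (ZMod q)))) ⊓ MulAut.conj x • (H : Subgroup _) ≠ ⊥ := by
  classical
  obtain ⟨d, rfl⟩ := QuotientGroup.mk_surjective x
  have hqp : q.Prime := Fact.out
  haveI : Fact (Nat.Prime 2) := ⟨Nat.prime_two⟩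
  obtain ⟨j, rfl⟩ : ∃ j, k = j + 3 := by
    refine ⟨k - 3, ?_⟩
    by_contra hlt
    have hk2 : k ≤ 2 := by omega
    have : 2 ^ k ≤ 2 ^ 2 := Nat.pow_le_pow_right (by norm_num) hk2
    omega
  set t := 2 ^ j with ht
  have htpos : 0 < t := by positivity
  have hq8 : q + 1 = 8 * t := by rw [hk, pow_add]; ring
  have hns : ¬ IsSquare (-1 : ZMod q) := by
    rw [ZMod.exists_sq_eq_neg_one_iff]
    omega
  have h20 : (2 : ZMod q) ≠ 0 := by
    intro h
    have h' : ((2 : ℕ) : ZMod q) = 0 := by exact_mod_cast h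
    rw [ZMod.natCast_eq_zero_iff] at h'
    have := Nat.le_of_dvd (by norm_num) h'
    omega
  have hcardF : Fintype.card (ZMod q) = q := ZMod.card q
  -- the base element
  obtain ⟨A, hA⟩ : ∃ A : GL (Fin 2) (ZMod q), (A : Matrix (Fin 2) (Fin 2) (ZMod q)) = !![0, -1; 1, 0] :=
    ⟨Matrix.GeneralLinearGroup.mkOfDetNeZero !![0, -1; 1, 0] (by simp [Matrix.det_fin_two]), rfl⟩
  have hAA : A * A = -1 := by
    apply Units.ext
    rw [Units.val_mul, hA, Matrix.mul_fin_two]
    ext a b
    fin_cases a <;> fin_cases b <;> simp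
  have hconj : ∀ c : GL (Fin 2) (ZMod q), (c * A * c⁻¹) * (c * A * c⁻¹) = -1 := by
    intro c
    have e : (c * A * c⁻¹) * (c * A * c⁻¹) = c * (A * A) * c⁻¹ := by group
    rw [e, hAA]
    simp
  have hinv : ∀ X : GL (Fin 2) (ZMod q), X * X = -1 → X⁻¹ = -X := by
    intro X hX
    apply inv_eq_of_mul_eq_one_right
    rw [mul_neg, hX, neg_neg]
  have hmemNI : ∀ (X : GL (Fin 2) (ZMod q)) (g : GL (Fin 2) (ZMod q)), X * X = -1 →
      ((g : Matrix (Fin 2) (Fin 2) (ZMod q)) * (X : Matrix (Fin 2) (Fin 2) (ZMod q)) =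
        (X : Matrix (Fin 2) (Fin 2) (ZMod q)) * (g : Matrix (Fin 2) (Fin 2) (ZMod q)) ∨
       (g : Matrix (Fin 2) (Fin 2) (ZMod q)) * (X : Matrix (Fin 2) (Fin 2) (ZMod q)) =
        -((X : Matrix (Fin 2) (Fin 2) (ZMod q)) * (g : Matrix (Fin 2) (Fin 2) (ZMod q)))) →
      g ∈ NI X := by
    intro X g hX h
    rw [mem_NI, mul_inv_eq_iff_eq_mul, mul_inv_eq_iff_eq_mul, hinv X hX]
    rcases h with h | h
    · left
      exact Units.ext h
    · right
      apply Units.ext
      rw [Units.val_mul, Units.val_mul, Units.val_neg, neg_mul]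
      exact h
  have hcommon : ∀ c c' : GL (Fin 2) (ZMod q), ∃ y : GL (Fin 2) (ZMod q),
      y ∈ NI (c * A * c⁻¹) ∧ y ∈ NI (c' * A * c'⁻¹) ∧ y ∉ Subgroup.center (GL (Fin 2) (ZMod q)) := by
    intro c c'
    have h1 : ((c * A * c⁻¹ : GL (Fin 2) (ZMod q)) : Matrix (Fin 2) (Fin 2) (ZMod q)) *
        ((c * A * c⁻¹ : GL (Fin 2) (ZMod q)) : Matrix (Fin 2) (Fin 2) (ZMod q)) = -1 := by
      have := congrArg Units.val (hconj c)
      rwa [Units.val_mul, Units.val_neg, Units.val_one] at this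
    have h1' : ((c' * A * c'⁻¹ : GL (Fin 2) (ZMod q)) : Matrix (Fin 2) (Fin 2) (ZMod q)) *
        ((c' * A * c'⁻¹ : GL (Fin 2) (ZMod q)) : Matrix (Fin 2) (Fin 2) (ZMod q)) = -1 := by
      have := congrArg Units.val (hconj c')
      rwa [Units.val_mul, Units.val_neg, Units.val_one] at this
    obtain ⟨g, hgdet, hgns, hg1, hg2⟩ := exists_common h20 hns h1 h1'
    refine ⟨Matrix.GeneralLinearGroup.mkOfDetNeZero g hgdet, hmemNI _ _ (hconj c) hg1,
      hmemNI _ _ (hconj c') hg2, ?_⟩
    rw [Matrix.GeneralLinearGroup.mem_center_iff_val_mem_range_scalar]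
    rintro ⟨a, ha⟩
    exact hgns a ha.symm
  -- cardinalities
  have hnsA : NonScalar (A : Matrix (Fin 2) (Fin 2) (ZMod q)) := Or.inr (Or.inl (by rw [hA]; simp))
  have htrA : (A : Matrix (Fin 2) (Fin 2) (ZMod q)).trace = 0 := by
    rw [hA]; simp [Matrix.trace_fin_two]
  have hdetA : (A : Matrix (Fin 2) (Fin 2) (ZMod q)).det = 1 := by
    rw [hA]; simp [Matrix.det_fin_two]
  have haniso : ∀ a b : ZMod q, nrm 0 1 a b = 0 → a = 0 ∧ b = 0 := by
    intro a b hab
    unfold nrm at hab
    by_cases hb : b = 0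
    · subst hb
      simp at hab
      exact ⟨hab, rfl⟩
    · exfalso
      apply hns
      refine ⟨a / b, ?_⟩
      field_simp
      linear_combination -hab
  have hcardC : Nat.card (Subgroup.centralizer ({A} : Set (GL (Fin 2) (ZMod q)))) = q ^ 2 - 1 := by
    rw [card_centralizer_GL A hnsA, htrA, hdetA, card_nrm_ne_zero_aniso haniso, hcardF]
  obtain ⟨D, hD⟩ : ∃ D : GL (Fin 2) (ZMod q), (D : Matrix (Fin 2) (Fin 2) (ZMod q)) = !![1, 0; 0, -1] :=
    ⟨Matrix.GeneralLinearGroup.mkOfDetNeZero !![1, 0; 0, -1] (by simp [Matrix.det_fin_two]), rfl⟩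
  have hDA : D * A * D⁻¹ = A⁻¹ := by
    rw [mul_inv_eq_iff_eq_mul, hinv A hAA]
    apply Units.ext
    rw [Units.val_mul, Units.val_mul, Units.val_neg, hA, hD]
    ext a b
    fin_cases a <;> fin_cases b <;> simp [Matrix.mul_apply, Fin.sum_univ_two]
  have hAne : A ≠ A⁻¹ := by
    rw [hinv A hAA]
    intro h
    have h0 : (A : Matrix (Fin 2) (Fin 2) (ZMod q)) = -(A : Matrix (Fin 2) (Fin 2) (ZMod q)) := by
      have := congrArg Units.val h
      rwa [Units.val_neg] at this
    have h1 := congrFun (congrFun h0 1) 0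
    rw [hA] at h1
    simp at h1
    apply h20
    linear_combination h1
  have hcardN : Nat.card (NI A) = 2 * (q ^ 2 - 1) := by
    rw [card_eq_two_mul_of_invert (NI A) A D hAne ?_ (fun g hg => hg) (Or.inr hDA) hDA, hcardC]
    intro g hg
    left
    rw [mul_inv_eq_iff_eq_mul]
    exact Subgroup.mem_centralizer_singleton_iff.mp hg
  have hcardG : Nat.card (GL (Fin 2) (ZMod q)) = (q ^ 2 - 1) * (q ^ 2 - q) := by
    rw [Matrix.card_GL_field, Fin.prod_univ_two, hcardF]
    simp
  have hcardZ : Nat.card (Subgroup.center (GL (Fin 2) (ZMod q))) = q - 1 := by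
    rw [H6.card_center_GL, Nat.card_units, Nat.card_eq_fintype_card, hcardF]
  set Z := Subgroup.center (GL (Fin 2) (ZMod q)) with hZ
  set π := QuotientGroup.mk' Z with hπ
  have hπs : Function.Surjective π := QuotientGroup.mk'_surjective Z
  have hker : π.ker ≤ NI A := by
    rw [QuotientGroup.ker_mk']
    intro z hz
    left
    rw [mul_inv_eq_iff_eq_mul]
    exact (Subgroup.mem_center_iff.mp hz A).symm
  have hidx : ((NI A).map π).index = (NI A).index := Subgroup.index_map_eq _ hπs hker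
  have hq2 : q ^ 2 - 1 = (q + 1) * (q - 1) := sq_sub_one_eq q (by omega)
  have hq3 : q ^ 2 - q = q * (q - 1) := by rw [Nat.mul_sub, mul_one, sq]
  have hpos : 0 < q ^ 2 - 1 := by
    rw [hq2]
    apply Nat.mul_pos <;> omega
  have hidx2 : (NI A).index * 2 = q * (q - 1) := by
    have h1 := (NI A).index_mul_card
    rw [hcardN, hcardG, hq3] at h1
    have : (q ^ 2 - 1) * ((NI A).index * 2) = (q ^ 2 - 1) * (q * (q - 1)) := by rw [← h1]; ring
    exact Nat.eq_of_mul_eq_mul_left hpos this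
  have hidx3 : (NI A).index = q * (4 * t - 1) := by
    have h1 : q - 1 = 2 * (4 * t - 1) := by omega
    have : (NI A).index * 2 = (q * (4 * t - 1)) * 2 := by rw [hidx2, h1]; ring
    exact Nat.eq_of_mul_eq_mul_right (by norm_num) this
  have hodd : ¬ 2 ∣ ((NI A).map π).index := by
    rw [hidx, hidx3, Nat.Prime.dvd_mul Nat.prime_two]
    omega
  have hcardM : Nat.card ((NI A).map π) = 2 ^ (j + 3 + 1) := by
    have h1 := ((NI A).map π).card_mul_index
    have h2 := Subgroup.card_eq_card_quotient_mul_card_subgroup Z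
    rw [hcardG, hcardZ, hq2, hq3, ← hidx2] at h2
    rw [hidx] at h1
    have hpos2 : 0 < (NI A).index * (q - 1) := by
      apply Nat.mul_pos
      · rw [hidx3]
        apply Nat.mul_pos <;> omega
      · omega
    have : Nat.card ((NI A).map π) * ((NI A).index * (q - 1)) =
        2 ^ (j + 3 + 1) * ((NI A).index * (q - 1)) := by
      rw [← mul_assoc, h1, ← h2, pow_succ, ← hk]
      ring
    exact Nat.eq_of_mul_eq_mul_right hpos2 this
  have hpg : IsPGroup 2 ((NI A).map π) := IsPGroup.of_card hcardM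
  set S₀ : Sylow 2 (GL (Fin 2) (ZMod q) ⧸ Z) := hpg.toSylow hodd with hS₀
  obtain ⟨gbar, hgbar⟩ := MulAction.exists_smul_eq (GL (Fin 2) (ZMod q) ⧸ Z) S₀ H
  obtain ⟨c, rfl⟩ := hπs gbar
  obtain ⟨y, hy1, hy2, hyZ⟩ := hcommon c (d * c)
  have hmem : ∀ (e y : GL (Fin 2) (ZMod q)), y ∈ NI (e * A * e⁻¹) →
      π y ∈ MulAut.conj (π e) • ((NI A).map π) := by
    intro e y hy
    rw [Subgroup.mem_smul_pointwise_iff_exists]
    refine ⟨π (e⁻¹ * y * e), ⟨_, conj_mem_NI A e y hy, rfl⟩, ?_⟩
    rw [MulAut.smul_def, MulAut.conj_apply, ← map_inv, ← map_mul, ← map_mul]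
    congr 1
    group
  have hH : (H : Subgroup (GL (Fin 2) (ZMod q) ⧸ Z)) = MulAut.conj (π c) • ((NI A).map π) := by
    rw [← hgbar, Sylow.coe_subgroup_smul, hS₀, IsPGroup.toSylow_coe]
  intro hbot
  have hin : π y ∈ (H : Subgroup (GL (Fin 2) (ZMod q) ⧸ Z)) ⊓
      MulAut.conj (π d) • (H : Subgroup (GL (Fin 2) (ZMod q) ⧸ Z)) := by
    refine ⟨?_, ?_⟩
    · rw [hH]; exact hmem c y hy1
    · rw [hH, smul_smul, ← map_mul, ← map_mul]
      exact hmem (d * c) y hy2
  have hbot' : (H : Subgroup (GL (Fin 2) (ZMod q) ⧸ Z)) ⊓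
      MulAut.conj (π d) • (H : Subgroup (GL (Fin 2) (ZMod q) ⧸ Z)) = ⊥ := hbot
  rw [hbot', Subgroup.mem_bot] at hin
  apply hyZ
  exact (QuotientGroup.eq_one_iff y).mp hin

end Cfsg.Agent.S2485
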