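import Cfsg.Statements.S2503
import Cfsg.Agent.Lib_helper6_SL2Tori
import Cfsg.Agent.Lib_helper6_GL2Norm

set_option autoImplicit false
open Cfsg

namespace Cfsg.Agent.S2503

open H6.GL2C

section
variable {F : Type*} [Field F]

theorem exists_normalized (hsq : ∀ a : F, IsSquare a) (x : Matrix.SpecialLinearGroup (Fin 2) F)
    (hx : ∀ a b, nrm (x : Matrix (Fin 2) (Fin 2) F).trace 1 a b = 0 → a = 0 ∧ b = 0)
    (α β : F) (h : ¬ (α = 0 ∧ β = 0)) :
    ∃ (s : F) (c : Matrix.SpecialLinearGroup (Fin 2) F), s ≠ 0 ∧ c * x = x * c ∧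
      (c : Matrix (Fin 2) (Fin 2) F) = lin (x : Matrix (Fin 2) (Fin 2) F) (α / s) (β / s) := by
  obtain ⟨s, hs⟩ := hsq (nrm (x : Matrix (Fin 2) (Fin 2) F).trace 1 α β)
  have hs0 : s ≠ 0 := by
    rintro rfl
    rw [mul_zero] at hs
    exact h (hx α β hs)
  have hn : nrm (x : Matrix (Fin 2) (Fin 2) F).trace 1 (α / s) (β / s) = 1 := by
    unfold nrm at hs ⊢
    field_simp
    linear_combination hs
  refine ⟨s, linSL x _ _ hn, hs0, ?_, rfl⟩
  apply Subtype.ext
  exact lin_commute _ _ _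

theorem aba (h2 : (2 : F) = 0) (hsq : ∀ a : F, IsSquare a) (t : F)
    (ht : ∀ a b, nrm t 1 a b = 0 → a = 0 ∧ b = 0) (g : Matrix.SpecialLinearGroup (Fin 2) F) :
    ∃ a b c : Matrix.SpecialLinearGroup (Fin 2) F,
      a * H6.GL2.compSL t = H6.GL2.compSL t * a ∧ c * H6.GL2.compSL t = H6.GL2.compSL t * c ∧
      (∃ β : F, (b : Matrix (Fin 2) (Fin 2) F) = !![1, β; 0, 1]) ∧ g = a * b * c := by
  set x := H6.GL2.compSL t with hxdef
  have hxa : ∀ a b, nrm (x : Matrix (Fin 2) (Fin 2) F).trace 1 a b = 0 → a = 0 ∧ b = 0 := by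
    rw [hxdef, trace_compSL]; exact ht
  set τ₀ := (g : Matrix (Fin 2) (Fin 2) F).trace with hτ₀
  set τ₁ := ((g : Matrix (Fin 2) (Fin 2) F) * (x : Matrix (Fin 2) (Fin 2) F)).trace with hτ₁
  obtain ⟨α, β, hne, hlin⟩ : ∃ α β : F, ¬ (α = 0 ∧ β = 0) ∧ α * τ₀ + β * τ₁ = 0 := by
    by_cases h : τ₀ = 0 ∧ τ₁ = 0
    · exact ⟨1, 0, fun h' => one_ne_zero h'.1, by rw [h.1, h.2]; ring⟩
    · refine ⟨τ₁, -τ₀, fun h' => h ⟨neg_eq_zero.mp h'.2, h'.1⟩, by ring⟩
  obtain ⟨s, c₀, hs0, hc₀x, hc₀⟩ := exists_normalized hsq x hxa α β hne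
  set i := g * c₀ with hi
  have htri : (i : Matrix (Fin 2) (Fin 2) F).trace = 0 := by
    rw [hi, Matrix.SpecialLinearGroup.coe_mul, hc₀, lin_eq, Matrix.mul_add, Matrix.mul_smul,
      Matrix.mul_smul, Matrix.mul_one, Matrix.trace_add, Matrix.trace_smul, Matrix.trace_smul,
      ← hτ₀, ← hτ₁, smul_eq_mul, smul_eq_mul]
    field_simp
    rw [hlin, mul_zero]
  have hdet : ((i : Matrix (Fin 2) (Fin 2) F) - 1).det = 0 := by
    have hs := i.2
    rw [Matrix.det_fin_two] at hs ⊢
    rw [Matrix.trace_fin_two] at htri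
    simp only [Matrix.sub_apply, Matrix.one_apply_eq,
      Matrix.one_apply_ne (show (0 : Fin 2) ≠ 1 by decide),
      Matrix.one_apply_ne (show (1 : Fin 2) ≠ 0 by decide)]
    linear_combination hs - htri + h2
  obtain ⟨v, hv0, hv⟩ := Matrix.exists_mulVec_eq_zero_iff.mpr hdet
  rw [Matrix.sub_mulVec, Matrix.one_mulVec, sub_eq_zero] at hv
  have hvne : ¬ (v 0 = 0 ∧ v 1 = 0) := by
    rintro ⟨h0, h1⟩
    apply hv0
    ext j
    fin_cases j
    · exact h0
    · exact h1
  obtain ⟨s', a, hs'0, hax, ha⟩ := exists_normalized hsq x hxa (v 0) (v 1) hvne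
  have hae : (a : Matrix (Fin 2) (Fin 2) F).mulVec ![1, 0] = (1 / s') • v := by
    rw [ha, hxdef, H6.GL2.compSL_val]
    ext j
    fin_cases j
    · simp [lin, H6.GL2.comp, Matrix.mulVec, dotProduct, Fin.sum_univ_two]
      field_simp
    · simp [lin, H6.GL2.comp, Matrix.mulVec, dotProduct, Fin.sum_univ_two]
      field_simp
  set b := a⁻¹ * i * a with hb
  have hbe : (b : Matrix (Fin 2) (Fin 2) F).mulVec ![1, 0] = ![1, 0] := by
    rw [hb, Matrix.SpecialLinearGroup.coe_mul, Matrix.SpecialLinearGroup.coe_mul,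
      ← Matrix.mulVec_mulVec, ← Matrix.mulVec_mulVec, hae, Matrix.mulVec_smul, hv, ← hae,
      Matrix.mulVec_mulVec, ← Matrix.SpecialLinearGroup.coe_mul, inv_mul_cancel]
    simp
  have hb00 : (b : Matrix (Fin 2) (Fin 2) F) 0 0 = 1 := by
    have := congrFun hbe 0
    simpa [Matrix.mulVec, dotProduct, Fin.sum_univ_two] using this
  have hb10 : (b : Matrix (Fin 2) (Fin 2) F) 1 0 = 0 := by
    have := congrFun hbe 1
    simpa [Matrix.mulVec, dotProduct, Fin.sum_univ_two] using this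
  have hb11 : (b : Matrix (Fin 2) (Fin 2) F) 1 1 = 1 := by
    have := b.2
    rw [Matrix.det_fin_two, hb00, hb10] at this
    linear_combination this
  refine ⟨a, b, a⁻¹ * c₀⁻¹, hax, ?_, ⟨(b : Matrix (Fin 2) (Fin 2) F) 0 1, ?_⟩, ?_⟩
  · have h1 : Commute a x := hax
    have h3 : Commute c₀ x := hc₀x
    exact (h1.inv_left.mul_left h3.inv_left)
  · rw [Matrix.eta_fin_two (b : Matrix (Fin 2) (Fin 2) F), hb00, hb10, hb11]
    simp
  · rw [hb, hi]; group

/-- upper unitriangular matrices -/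
def uHom : Multiplicative F →* Matrix.SpecialLinearGroup (Fin 2) F where
  toFun b := ⟨!![1, Multiplicative.toAdd b; 0, 1], by simp [Matrix.det_fin_two]⟩
  map_one' := by
    apply Subtype.ext
    ext i j
    fin_cases i <;> fin_cases j <;> simp
  map_mul' := by
    intro b c
    apply Subtype.ext
    show !![1, Multiplicative.toAdd (b * c); 0, 1] =
      !![1, Multiplicative.toAdd b; 0, 1] * !![1, Multiplicative.toAdd c; 0, 1]
    rw [Matrix.mul_fin_two]
    simp [add_comm]

theorem uHom_val (b : Multiplicative F) : ((uHom b : Matrix.SpecialLinearGroup (Fin 2) F) :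
    Matrix (Fin 2) (Fin 2) F) = !![1, Multiplicative.toAdd b; 0, 1] := rfl

theorem uHom_injective : Function.Injective (uHom (F := F)) := by
  intro b c h
  have := congrFun (congrFun (congrArg Subtype.val h) 0) 1
  rw [uHom_val, uHom_val] at this
  exact Multiplicative.toAdd.injective (by simpa using this)

end

/-- Let F be a finite field with q = 2^t ≥ 4 elements and L = PSL(2,F). Then L has a cyclic subgroup A of order q + 1 and an elementary abelian 2-subgroup B of order q such that L = ABA: every element of L is a product a·b·a' with a, a' ∈ A and b ∈ B. -/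
theorem result {F : Type*} [Field F] [Fintype F]
    (h2 : 2 ∣ Fintype.card F) (h4 : 4 ≤ Fintype.card F) :
    ∃ A B : Subgroup (Matrix.ProjectiveSpecialLinearGroup (Fin 2) F),
      IsCyclic A ∧ Nat.card A = Fintype.card F + 1 ∧ IsMulCommutative B ∧ (∀ b ∈ B, b * b = 1) ∧
        Nat.card B = Fintype.card F ∧
        ∀ g : Matrix.ProjectiveSpecialLinearGroup (Fin 2) F, ∃ a ∈ A, ∃ b ∈ B, ∃ c ∈ A, g = a * b * c := by
  have hchar : ringChar F = 2 := by
    apply FiniteField.even_card_iff_char_two.mpr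
    omega
  have h20 : (2 : F) = 0 := by
    have : ((ringChar F : ℕ) : F) = 0 := ringChar.Nat.cast_ringChar
    rw [hchar] at this
    exact_mod_cast this
  have hsq : ∀ a : F, IsSquare a := FiniteField.isSquare_of_char_two hchar
  obtain ⟨t, ht⟩ := exists_aniso (F := F)
  set x := H6.GL2.compSL t with hxdef
  have hxa : ∀ a b, nrm (x : Matrix (Fin 2) (Fin 2) F).trace 1 a b = 0 → a = 0 ∧ b = 0 := by
    rw [hxdef, trace_compSL]; exact ht
  have hns : NonScalar (x : Matrix (Fin 2) (Fin 2) F) := nonScalar_compSL t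
  have hcardT : Nat.card (Subgroup.centralizer ({x} : Set (Matrix.SpecialLinearGroup (Fin 2) F))) =
      Fintype.card F + 1 := by
    rw [card_centralizer_SL x hns]
    exact card_nrm_eq_one_aniso hxa
  have hcyc := isCyclic_centralizer_aniso x hxa
  set e := projEquiv h20 with he
  set φ : Multiplicative F →* Matrix.ProjectiveSpecialLinearGroup (Fin 2) F :=
    e.toMonoidHom.comp uHom with hφ
  have hφinj : Function.Injective φ := e.injective.comp uHom_injective
  refine ⟨(Subgroup.centralizer ({x} : Set (Matrix.SpecialLinearGroup (Fin 2) F))).map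
    e.toMonoidHom, φ.range, ?_, ?_, ?_, ?_, ?_, ?_⟩
  · exact isCyclic_of_surjective
      ((Subgroup.centralizer ({x} : Set (Matrix.SpecialLinearGroup (Fin 2) F))).equivMapOfInjective
        e.toMonoidHom e.injective) (MulEquiv.surjective _)
  · rw [Subgroup.card_map_of_injective (f := e.toMonoidHom) e.injective, hcardT]
  · refine ⟨⟨?_⟩⟩
    rintro ⟨_, ⟨b, rfl⟩⟩ ⟨_, ⟨c, rfl⟩⟩
    apply Subtype.ext
    show φ b * φ c = φ c * φ b
    rw [← map_mul, ← map_mul, mul_comm]
  · rintro _ ⟨b, rfl⟩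
    rw [← map_mul]
    have : b * b = 1 := by
      apply Multiplicative.toAdd.injective
      rw [toAdd_mul, toAdd_one, ← two_mul, h20, zero_mul]
    rw [this, map_one]
  · rw [← Nat.card_congr (MonoidHom.ofInjective hφinj).toEquiv,
      Nat.card_congr (Multiplicative.toAdd (α := F)), Nat.card_eq_fintype_card]
  · intro g
    obtain ⟨a, b, c, ha, hc, ⟨β, hβ⟩, hg⟩ := aba h20 hsq t ht (e.symm g)
    refine ⟨e a, ⟨a, Subgroup.mem_centralizer_singleton_iff.mpr ha, rfl⟩, e b,
      ⟨Multiplicative.ofAdd β, ?_⟩, e c, ⟨c, Subgroup.mem_centralizer_singleton_iff.mpr hc, rfl⟩, ?_⟩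
    · show e (uHom (Multiplicative.ofAdd β)) = e b
      congr 1
      apply Subtype.ext
      rw [hβ, uHom_val]; rfl
    · rw [← map_mul, ← map_mul, ← hg, MulEquiv.apply_symm_apply]

end Cfsg.Agent.S2503
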