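import Cfsg.Statements.S2507
import Cfsg.Agent.Lib_helper6_SL2Classes

set_option autoImplicit false
open Cfsg

namespace Cfsg.Agent.S2507

/-- Let F be a finite field with q = 2^f ≥ 4 elements. The conjugacy class sizes of PSL(2,F) are exactly 1, q(q − 1), q² − 1 and q(q + 1). -/
theorem result {F : Type*} [Field F] [Fintype F]
    (h2 : 2 ∣ Fintype.card F) (h4 : 4 ≤ Fintype.card F) :
    Set.range (fun g : (Matrix.ProjectiveSpecialLinearGroup (Fin 2) F) => (Subgroup.centralizer ({g} : Set (Matrix.ProjectiveSpecialLinearGroup (Fin 2) F))).index) =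
      {1, Fintype.card F * (Fintype.card F - 1), Fintype.card F ^ 2 - 1, Fintype.card F * (Fintype.card F + 1)} := by
  have hchar : ringChar F = 2 := FiniteField.even_card_iff_char_two.mpr (Nat.mod_eq_zero_of_dvd h2)
  have h20 : (2 : F) = 0 := by
    have := ringChar.Nat.cast_ringChar (R := F)
    rw [hchar] at this
    exact_mod_cast this
  set e := H6.GL2C.projEquiv h20 with he
  have hone : Nat.card {c : F // c * c = 1} = 1 := H6.GL2C.card_sq_eq_one_even h20
  ext k
  simp only [Set.mem_range, Set.mem_insert_iff, Set.mem_singleton_iff]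
  constructor
  · rintro ⟨g, rfl⟩
    obtain ⟨s, rfl⟩ := e.surjective g
    rw [H6.GL2C.index_centralizer_mulEquiv]
    by_cases hs : s = 1
    · left
      subst hs
      rw [Subgroup.index_eq_one, eq_top_iff]
      intro x _
      rw [Subgroup.mem_centralizer_singleton_iff]
      simp
    · have hns := H6.GL2C.nonScalar_of_ne_one_of_two_eq_zero h20 hs
      rcases H6.GL2C.split_or_aniso (s : Matrix (Fin 2) (Fin 2) F).trace 1 with ⟨l, m, ht, hd⟩ | h
      · by_cases hlm : l = m
        · subst hlm
          have := H6.GL2C.index_centralizer_double s hns ht hd.symm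
          rw [hone, mul_one] at this
          right; right; left; exact this
        · right; right; right
          exact H6.GL2C.index_centralizer_split s hns ht hd.symm hlm
      · right; left
        exact H6.GL2C.index_centralizer_aniso s hns h
  · rintro (rfl | rfl | rfl | rfl)
    · refine ⟨1, ?_⟩
      rw [Subgroup.index_eq_one, eq_top_iff]
      intro x _
      rw [Subgroup.mem_centralizer_singleton_iff]
      simp
    · obtain ⟨t, ht⟩ := H6.GL2C.exists_aniso (F := F)
      refine ⟨e (H6.GL2.compSL t), ?_⟩
      rw [H6.GL2C.index_centralizer_mulEquiv]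
      exact H6.GL2C.index_centralizer_aniso _ (H6.GL2C.nonScalar_compSL t)
        (by rw [H6.GL2C.trace_compSL]; exact ht)
    · refine ⟨e (H6.GL2.compSL (1 + 1)), ?_⟩
      rw [H6.GL2C.index_centralizer_mulEquiv]
      have := H6.GL2C.index_centralizer_double _ (H6.GL2C.nonScalar_compSL (1 + 1 : F))
        (H6.GL2C.trace_compSL _) (mul_one 1)
      rw [hone, mul_one] at this
      exact this
    · obtain ⟨a, ha0, ha1⟩ : ∃ a : F, a ≠ 0 ∧ a ≠ 1 := by
        by_contra hcon
        push Not at hcon
        have : Fintype.card F ≤ 2 := by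
          classical
          have hsub : (Finset.univ : Finset F) ⊆ {0, 1} := by
            intro x _
            by_cases hx : x = 0
            · simp [hx]
            · simp [hcon x hx]
          exact (Finset.card_le_card hsub).trans Finset.card_le_two
        omega
      refine ⟨e (H6.GL2.compSL (a + a⁻¹)), ?_⟩
      rw [H6.GL2C.index_centralizer_mulEquiv]
      refine H6.GL2C.index_centralizer_split _ (H6.GL2C.nonScalar_compSL _)
        (H6.GL2C.trace_compSL _) (mul_inv_cancel₀ ha0) ?_
      intro h
      apply ha1
      have h3 : a * a = 1 := by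
        nth_rewrite 2 [h]
        exact mul_inv_cancel₀ ha0
      have : (a - 1) ^ 2 = 0 := by linear_combination h3 - a * h20 + h20
      exact sub_eq_zero.mp (pow_eq_zero_iff (by norm_num) |>.mp this)

end Cfsg.Agent.S2507
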