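import Cfsg.Statements.S2508
import Cfsg.Agent.Lib_helper6_PSL2Cent

set_option autoImplicit false
open Cfsg

namespace Cfsg.Agent.S2508

open H6.GL2C in
theorem cls {F : Type*} [Field F] [Fintype F] (h2 : (2 : F) ≠ 0)
    (g : Matrix.ProjectiveSpecialLinearGroup (Fin 2) F) :
    (Subgroup.centralizer ({g} : Set (Matrix.ProjectiveSpecialLinearGroup (Fin 2) F))).index = 1 ∨
    (Subgroup.centralizer ({g} : Set (Matrix.ProjectiveSpecialLinearGroup (Fin 2) F))).index =
      (Fintype.card F ^ 2 - 1) / 2 ∨
    (Subgroup.centralizer ({g} : Set (Matrix.ProjectiveSpecialLinearGroup (Fin 2) F))).index =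
      Fintype.card F * (Fintype.card F + 1) ∨
    (Subgroup.centralizer ({g} : Set (Matrix.ProjectiveSpecialLinearGroup (Fin 2) F))).index =
      Fintype.card F * (Fintype.card F - 1) ∨
    (IsSquare (-1 : F) ∧
      (Subgroup.centralizer ({g} : Set (Matrix.ProjectiveSpecialLinearGroup (Fin 2) F))).index =
      Fintype.card F * (Fintype.card F + 1) / 2) ∨
    (¬ IsSquare (-1 : F) ∧
      (Subgroup.centralizer ({g} : Set (Matrix.ProjectiveSpecialLinearGroup (Fin 2) F))).index =
      Fintype.card F * (Fintype.card F - 1) / 2) := by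
  obtain ⟨s, rfl⟩ := proj_surjective g
  by_cases hns : NonScalar (s : Matrix (Fin 2) (Fin 2) F)
  · rcases split_or_aniso (s : Matrix (Fin 2) (Fin 2) F).trace 1 with ⟨l, m, ht, hd⟩ | h
    · by_cases hlm : l = m
      · subst hlm
        right; left
        have hl0 : l ≠ 0 := by rintro rfl; simp at hd
        have ht0 : (s : Matrix (Fin 2) (Fin 2) F).trace ≠ 0 := by
          rw [ht, ← two_mul]; exact mul_ne_zero h2 hl0
        rw [index_centralizer_proj_of_trace_ne_zero h2 s ht0]
        have := index_centralizer_double s hns ht hd.symm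
        rw [card_sq_eq_one_odd h2] at this
        omega
      · by_cases ht0 : (s : Matrix (Fin 2) (Fin 2) F).trace = 0
        · right; right; right; right; left
          constructor
          · refine ⟨l, ?_⟩
            have hm : m = -l := by rw [ht0] at ht; linear_combination -ht
            rw [hm] at hd
            linear_combination -hd
          · have h1 := index_centralizer_proj_of_trace_eq_zero h2 s ht0
            rw [index_centralizer_split s hns ht hd.symm hlm] at h1
            omega
        · right; right; left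
          rw [index_centralizer_proj_of_trace_ne_zero h2 s ht0]
          exact index_centralizer_split s hns ht hd.symm hlm
    · by_cases ht0 : (s : Matrix (Fin 2) (Fin 2) F).trace = 0
      · right; right; right; right; right
        constructor
        · rintro ⟨i, hi⟩
          have := (h i 1 (by rw [ht0]; unfold nrm; linear_combination -hi)).2
          exact one_ne_zero this
        · have h1 := index_centralizer_proj_of_trace_eq_zero h2 s ht0
          rw [index_centralizer_aniso s hns h] at h1
          omega
      · right; right; right; left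
        rw [index_centralizer_proj_of_trace_ne_zero h2 s ht0]
        exact index_centralizer_aniso s hns h
  · left
    have : proj F s = 1 := by
      change ((s : Matrix.SpecialLinearGroup (Fin 2) F) :
          Matrix.SpecialLinearGroup (Fin 2) F ⧸ Subgroup.center _) = 1
      rw [QuotientGroup.eq_one_iff]
      exact (mem_center_iff_not_nonScalar s).mpr hns
    rw [this, Subgroup.index_eq_one, eq_top_iff]
    intro x _
    rw [Subgroup.mem_centralizer_singleton_iff]
    simp

open H6.GL2C in
theorem ex {F : Type*} [Field F] [Fintype F] (h2 : (2 : F) ≠ 0) (h7 : 7 ≤ Fintype.card F) :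
    (∃ g : Matrix.ProjectiveSpecialLinearGroup (Fin 2) F,
      (Subgroup.centralizer ({g} : Set (Matrix.ProjectiveSpecialLinearGroup (Fin 2) F))).index = 1) ∧
    (∃ g : Matrix.ProjectiveSpecialLinearGroup (Fin 2) F,
    (Subgroup.centralizer ({g} : Set (Matrix.ProjectiveSpecialLinearGroup (Fin 2) F))).index =
      (Fintype.card F ^ 2 - 1) / 2) ∧
    (∃ g : Matrix.ProjectiveSpecialLinearGroup (Fin 2) F,
    (Subgroup.centralizer ({g} : Set (Matrix.ProjectiveSpecialLinearGroup (Fin 2) F))).index =
      Fintype.card F * (Fintype.card F + 1)) ∧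
    (∃ g : Matrix.ProjectiveSpecialLinearGroup (Fin 2) F,
    (Subgroup.centralizer ({g} : Set (Matrix.ProjectiveSpecialLinearGroup (Fin 2) F))).index =
      Fintype.card F * (Fintype.card F - 1)) ∧
    (IsSquare (-1 : F) → ∃ g : Matrix.ProjectiveSpecialLinearGroup (Fin 2) F,
      (Subgroup.centralizer ({g} : Set (Matrix.ProjectiveSpecialLinearGroup (Fin 2) F))).index =
      Fintype.card F * (Fintype.card F + 1) / 2) ∧
    (¬ IsSquare (-1 : F) → ∃ g : Matrix.ProjectiveSpecialLinearGroup (Fin 2) F,
      (Subgroup.centralizer ({g} : Set (Matrix.ProjectiveSpecialLinearGroup (Fin 2) F))).index =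
      Fintype.card F * (Fintype.card F - 1) / 2) := by
  refine ⟨⟨1, ?_⟩, ⟨proj F (H6.GL2.compSL (1 + 1)), ?_⟩, ?_, ?_, ?_, ?_⟩
  · rw [Subgroup.index_eq_one, eq_top_iff]
    intro x _
    rw [Subgroup.mem_centralizer_singleton_iff]
    simp
  · have ht0 : ((H6.GL2.compSL (1 + 1) : Matrix.SpecialLinearGroup (Fin 2) F) :
        Matrix (Fin 2) (Fin 2) F).trace ≠ 0 := by
      rw [trace_compSL, one_add_one_eq_two]; exact h2
    rw [index_centralizer_proj_of_trace_ne_zero h2 _ ht0]
    have := index_centralizer_double _ (nonScalar_compSL (1 + 1 : F)) (trace_compSL _) (mul_one 1)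
    rw [card_sq_eq_one_odd h2] at this
    omega
  · obtain ⟨l, m, hlm, hne, h0⟩ := exists_split_ne_zero (F := F) (by omega)
    refine ⟨proj F (H6.GL2.compSL (l + m)), ?_⟩
    rw [index_centralizer_proj_of_trace_ne_zero h2 _ (by rw [trace_compSL]; exact h0)]
    exact index_centralizer_split _ (nonScalar_compSL _) (trace_compSL _) hlm hne
  · obtain ⟨t, ht0, ht⟩ := exists_aniso_ne_zero (F := F) (by omega)
    refine ⟨proj F (H6.GL2.compSL t), ?_⟩
    rw [index_centralizer_proj_of_trace_ne_zero h2 _ (by rw [trace_compSL]; exact ht0)]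
    exact index_centralizer_aniso _ (nonScalar_compSL _) (by rw [trace_compSL]; exact ht)
  · rintro ⟨i, hi⟩
    refine ⟨proj F (H6.GL2.compSL 0), ?_⟩
    have h1 := index_centralizer_proj_of_trace_eq_zero h2 (H6.GL2.compSL (0 : F)) (trace_compSL _)
    have hi0 : i ≠ 0 := by rintro rfl; simp at hi
    rw [index_centralizer_split (l := i) (m := -i) _ (nonScalar_compSL _)
      (by rw [trace_compSL]; ring) (by linear_combination hi) (by
        intro h
        have : (2 : F) * i = 0 := by linear_combination h
        exact (mul_ne_zero h2 hi0) this)] at h1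
    omega
  · intro hns
    refine ⟨proj F (H6.GL2.compSL 0), ?_⟩
    have h1 := index_centralizer_proj_of_trace_eq_zero h2 (H6.GL2.compSL (0 : F)) (trace_compSL _)
    rw [index_centralizer_aniso _ (nonScalar_compSL _) (by
      rw [trace_compSL]
      rcases split_or_aniso (0 : F) 1 with ⟨l, m, ht, hd⟩ | h
      · exfalso
        apply hns
        refine ⟨l, ?_⟩
        have hm : m = -l := by linear_combination -ht
        rw [hm] at hd
        linear_combination -hd
      · exact h)] at h1
    omega

/-- Let F be a finite field with q elements, q odd and q ≥ 7. If q ≡ 1 (mod 4) the conjugacy class sizes of PSL(2,F) are exactly 1, (q² − 1)/2, q(q + 1)/2, q(q − 1) and q(q + 1); if q ≡ 3 (mod 4) they are exactly 1, (q² − 1)/2, q(q − 1)/2, q(q + 1) and q(q − 1). -/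
theorem result {F : Type*} [Field F] [Fintype F]
    (hodd : ¬ 2 ∣ Fintype.card F) (h7 : 7 ≤ Fintype.card F) :
    (Fintype.card F % 4 = 1 →
      Set.range (fun g : (Matrix.ProjectiveSpecialLinearGroup (Fin 2) F) => (Subgroup.centralizer ({g} : Set (Matrix.ProjectiveSpecialLinearGroup (Fin 2) F))).index) =
        {1, (Fintype.card F ^ 2 - 1) / 2, Fintype.card F * (Fintype.card F + 1) / 2,
          Fintype.card F * (Fintype.card F - 1), Fintype.card F * (Fintype.card F + 1)}) ∧
    (Fintype.card F % 4 = 3 →
      Set.range (fun g : (Matrix.ProjectiveSpecialLinearGroup (Fin 2) F) => (Subgroup.centralizer ({g} : Set (Matrix.ProjectiveSpecialLinearGroup (Fin 2) F))).index) =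
        {1, (Fintype.card F ^ 2 - 1) / 2, Fintype.card F * (Fintype.card F - 1) / 2,
          Fintype.card F * (Fintype.card F + 1), Fintype.card F * (Fintype.card F - 1)}) := by
  have h20 : (2 : F) ≠ 0 := by
    intro h
    apply hodd
    have hchar : ringChar F = 2 := by
      have h' : ((2 : ℕ) : F) = 0 := by exact_mod_cast h
      have := ringChar.dvd h'
      rcases (Nat.dvd_prime Nat.prime_two).mp this with h1 | h1
      · exact absurd h1 (CharP.ringChar_ne_one)
      · exact h1
    exact Nat.dvd_of_mod_eq_zero (FiniteField.even_card_iff_char_two.mp hchar)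
  obtain ⟨e1, e2, e3, e4, e5, e6⟩ := ex h20 h7
  constructor
  · intro h4
    have hsq : IsSquare (-1 : F) := FiniteField.isSquare_neg_one_iff.mpr (by omega)
    ext k
    simp only [Set.mem_range, Set.mem_insert_iff, Set.mem_singleton_iff]
    constructor
    · rintro ⟨g, rfl⟩
      rcases cls h20 g with h | h | h | h | ⟨-, h⟩ | ⟨h, -⟩
      · exact Or.inl h
      · exact Or.inr (Or.inl h)
      · exact Or.inr (Or.inr (Or.inr (Or.inr h)))
      · exact Or.inr (Or.inr (Or.inr (Or.inl h)))
      · exact Or.inr (Or.inr (Or.inl h))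
      · exact absurd hsq h
    · rintro (rfl | rfl | rfl | rfl | rfl)
      · exact e1
      · exact e2
      · exact e5 hsq
      · exact e4
      · exact e3
  · intro h4
    have hsq : ¬ IsSquare (-1 : F) := fun h => FiniteField.isSquare_neg_one_iff.mp h h4
    ext k
    simp only [Set.mem_range, Set.mem_insert_iff, Set.mem_singleton_iff]
    constructor
    · rintro ⟨g, rfl⟩
      rcases cls h20 g with h | h | h | h | ⟨h, -⟩ | ⟨-, h⟩
      · exact Or.inl h
      · exact Or.inr (Or.inl h)
      · exact Or.inr (Or.inr (Or.inr (Or.inl h)))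
      · exact Or.inr (Or.inr (Or.inr (Or.inr h)))
      · exact absurd h hsq
      · exact Or.inr (Or.inr (Or.inl h))
    · rintro (rfl | rfl | rfl | rfl | rfl)
      · exact e1
      · exact e2
      · exact e6 hsq
      · exact e3
      · exact e4

end Cfsg.Agent.S2508
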