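import Cfsg.Statements.S2514
import Mathlib

set_option autoImplicit false
open Cfsg

namespace Cfsg.Agent.S2514

/-- every element order divides a maximal one -/
theorem exists_max_order {G : Type*} [Group G] [Finite G] (g : G) :
    ∃ g' : G, orderOf g ∣ orderOf g' ∧
      ∀ m ∈ Set.range (orderOf : G → ℕ), orderOf g' ∣ m → m = orderOf g' := by
  haveI : Nonempty {g' : G // orderOf g ∣ orderOf g'} := ⟨⟨g, dvd_rfl⟩⟩
  obtain ⟨x₀, hx₀⟩ := Finite.exists_max (fun x : {g' : G // orderOf g ∣ orderOf g'} => orderOf x.1)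
  refine ⟨x₀.1, x₀.2, ?_⟩
  rintro _ ⟨y, rfl⟩ hy
  have h1 := hx₀ ⟨y, x₀.2.trans hy⟩
  exact le_antisymm h1 (Nat.le_of_dvd (orderOf_pos y) hy)

theorem exists_orderOf_eq_of_dvd {G : Type*} [Group G] [Finite G] (g : G) {d : ℕ}
    (hd : d ∣ orderOf g) : ∃ g' : G, orderOf g' = d := by
  obtain ⟨e, he⟩ := hd
  have hpos := orderOf_pos g
  have he0 : e ≠ 0 := by rintro rfl; rw [mul_zero] at he; omega
  have hd0 : d ≠ 0 := by rintro rfl; rw [zero_mul] at he; omega
  refine ⟨g ^ e, ?_⟩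
  rw [orderOf_pow_of_dvd he0 ⟨d, by rw [he, mul_comm]⟩, he]
  exact Nat.mul_div_cancel _ (Nat.pos_of_ne_zero he0)

theorem pi_pow_eq_one_iff {ι G : Type*} [Group G] (x : ι → G) (n : ℕ) :
    x ^ n = 1 ↔ ∀ i, orderOf (x i) ∣ n := by
  constructor
  · intro h i
    exact orderOf_dvd_of_pow_eq_one (by simpa using congrFun h i)
  · intro h
    funext i
    simpa using orderOf_dvd_iff_pow_eq_one.mp (h i)

theorem lemA {G H : Type*} [Group G] [Group H] (k : ℕ) (x : Fin (k + 1) → G) (i₀ : Fin (k + 1))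
    (h : H) (hh : orderOf h = orderOf (x i₀)) :
    ∃ y : (Fin k → G) × H, orderOf y = orderOf x := by
  refine ⟨(fun j => x (i₀.succAbove j), h), ?_⟩
  rw [orderOf_eq_orderOf_iff]
  intro n
  rw [pi_pow_eq_one_iff, Prod.ext_iff]
  simp only [Prod.pow_fst, Prod.pow_snd, Prod.fst_one, Prod.snd_one]
  rw [pi_pow_eq_one_iff, ← orderOf_dvd_iff_pow_eq_one, hh, Fin.forall_iff_succAbove i₀]
  tauto

theorem lemB {G H : Type*} [Group G] [Group H] (k : ℕ) (y : (Fin k → G) × H)
    (g : G) (hg : orderOf g = orderOf y.2) :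
    ∃ x : Fin (k + 1) → G, orderOf x = orderOf y := by
  refine ⟨Fin.cons g y.1, ?_⟩
  rw [orderOf_eq_orderOf_iff]
  intro n
  rw [pi_pow_eq_one_iff, Prod.ext_iff]
  simp only [Prod.pow_fst, Prod.pow_snd, Prod.fst_one, Prod.snd_one]
  rw [pi_pow_eq_one_iff, ← orderOf_dvd_iff_pow_eq_one, ← hg, Fin.forall_fin_succ]
  simp only [Fin.cons_zero, Fin.cons_succ]
  tauto

theorem lemC {G : Type*} [Group G] [Finite G] (k : ℕ) (x : Fin k → G) (i j : Fin k) (hij : i ≠ j)
    (g' : G) (hi : orderOf (x i) ∣ orderOf g') (hj : orderOf (x j) ∣ orderOf g') :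
    ∃ x' : Fin k → G, orderOf x' = orderOf x ∧ x' j = 1 := by
  obtain ⟨g'', hg''⟩ := exists_orderOf_eq_of_dvd g' (Nat.lcm_dvd hi hj)
  refine ⟨Function.update (Function.update x i g'') j 1, ?_, by simp⟩
  rw [orderOf_eq_orderOf_iff]
  intro n
  rw [pi_pow_eq_one_iff, pi_pow_eq_one_iff]
  constructor
  · intro h l
    have h1 : (orderOf (x i)).lcm (orderOf (x j)) ∣ n := by
      have := h i
      rw [Function.update_of_ne hij, Function.update_self, hg''] at this
      exact this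
    by_cases hl : l = j
    · rw [hl]; exact (Nat.dvd_lcm_right _ _).trans h1
    · by_cases hl' : l = i
      · rw [hl']; exact (Nat.dvd_lcm_left _ _).trans h1
      · have := h l
        rwa [Function.update_of_ne hl, Function.update_of_ne hl'] at this
  · intro h l
    by_cases hl : l = j
    · rw [hl, Function.update_self, orderOf_one]; exact one_dvd _
    · by_cases hl' : l = i
      · rw [hl', Function.update_of_ne hij, Function.update_self, hg'']
        exact Nat.lcm_dvd (h i) (h j)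
      · rw [Function.update_of_ne hl, Function.update_of_ne hl']
        exact h l

/-- For a finite group X write μ(X) for the set of element orders of X that are maximal under divisibility. Let G and H be finite groups and k ≥ 1 such that μ(H) ⊆ μ(G) and μ(G) has fewer than k elements outside μ(H). Then the direct product of k copies of G has the same set of element orders as the direct product of k − 1 copies of G with H. -/
theorem result {G H : Type*} [Group G] [Finite G] [Group H] [Finite H] (k : ℕ) (hk : 1 ≤ k)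
    (hsub : {n : ℕ | n ∈ Set.range (orderOf : H → ℕ) ∧ ∀ m ∈ Set.range (orderOf : H → ℕ), n ∣ m → m = n} ⊆ {n : ℕ | n ∈ Set.range (orderOf : G → ℕ) ∧ ∀ m ∈ Set.range (orderOf : G → ℕ), n ∣ m → m = n})
    (hfew : ({n : ℕ | n ∈ Set.range (orderOf : G → ℕ) ∧ ∀ m ∈ Set.range (orderOf : G → ℕ), n ∣ m → m = n} \ {n : ℕ | n ∈ Set.range (orderOf : H → ℕ) ∧ ∀ m ∈ Set.range (orderOf : H → ℕ), n ∣ m → m = n}).ncard < k) :
    Set.range (orderOf : (Fin k → G) → ℕ) = Set.range (orderOf : (Fin (k - 1) → G) × H → ℕ) := by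
  classical
  obtain ⟨k, rfl⟩ : ∃ k', k = k' + 1 := ⟨k - 1, by omega⟩
  change Set.range (orderOf : (Fin (k + 1) → G) → ℕ) = Set.range (orderOf : (Fin k → G) × H → ℕ)
  apply Set.Subset.antisymm
  · rintro _ ⟨x, rfl⟩
    -- choose maximal orders
    choose m hm1 hm2 using fun i : Fin (k + 1) => exists_max_order (x i)
    by_cases hex : ∃ i, orderOf (m i) ∈ {n : ℕ | n ∈ Set.range (orderOf : H → ℕ) ∧
        ∀ m ∈ Set.range (orderOf : H → ℕ), n ∣ m → m = n}
    · obtain ⟨i, ⟨h', hh'⟩, -⟩ := hex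
      obtain ⟨h, hh⟩ := exists_orderOf_eq_of_dvd h' (hh' ▸ hm1 i)
      obtain ⟨y, hy⟩ := lemA k x i h hh
      exact ⟨y, hy⟩
    · push Not at hex
      set D := ({n : ℕ | n ∈ Set.range (orderOf : G → ℕ) ∧ ∀ m ∈ Set.range (orderOf : G → ℕ), n ∣ m → m = n} \ {n : ℕ | n ∈ Set.range (orderOf : H → ℕ) ∧ ∀ m ∈ Set.range (orderOf : H → ℕ), n ∣ m → m = n}) with hD
      have hfin : D.Finite := (Set.finite_range (orderOf : G → ℕ)).subset (fun n hn => hn.1.1)
      rw [Set.ncard_eq_toFinset_card D hfin] at hfew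
      obtain ⟨i, -, j, -, hij, hmij⟩ := Finset.exists_ne_map_eq_of_card_lt_of_maps_to
        (s := (Finset.univ : Finset (Fin (k + 1)))) (t := hfin.toFinset)
        (by simpa using hfew) (f := fun i => orderOf (m i)) (by
          intro i _
          simp only [Set.Finite.coe_toFinset]
          exact ⟨⟨⟨m i, rfl⟩, hm2 i⟩, hex i⟩)
      obtain ⟨x', hx', hx'j⟩ := lemC (k + 1) x i j hij (m i) (hm1 i) (hmij ▸ hm1 j)
      obtain ⟨y, hy⟩ := lemA k x' j (1 : H) (by rw [hx'j, orderOf_one, orderOf_one])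
      exact ⟨y, hy.trans hx'⟩
  · rintro _ ⟨y, rfl⟩
    obtain ⟨h', hh'1, hh'2⟩ := exists_max_order y.2
    obtain ⟨⟨g', hg'⟩, -⟩ := hsub ⟨⟨h', rfl⟩, hh'2⟩
    obtain ⟨g, hg⟩ := exists_orderOf_eq_of_dvd g' (hg' ▸ hh'1)
    obtain ⟨x, hx⟩ := lemB k y g hg
    exact ⟨x, hx⟩

end Cfsg.Agent.S2514
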