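import Cfsg.Statements.S2516
import Mathlib

set_option autoImplicit false
open Cfsg

namespace Cfsg.Agent.S2516

/-- Let F be a field of characteristic p > 0, V a non-zero finite-dimensional F-vector space, G a finite group and ρ a representation of G on V; form the semidirect product V ⋊ G. For g ∈ G of order k, the coset Vg contains an element of order pk if and only if the minimal polynomial of ρ(g) does not divide 1 + X + ⋯ + X^(k−1). -/
theorem result {F : Type*} [Field F] (p : ℕ) [Fact p.Prime] [CharP F p] {V : Type*} [AddCommGroup V] [Module F V] [FiniteDimensional F V] [Nontrivial V]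
    {G : Type*} [Group G] [Finite G] (ρ : Representation F G V) (g : G) :
    (∃ x : Multiplicative V ⋊[(MulAutMultiplicative V).symm.toMonoidHom.comp
        ((DistribMulAction.toAddAut ((V →ₗ[F] V)ˣ) V).comp ρ.asGroupHom)] G,
        x.right = g ∧ orderOf x = p * orderOf g) ↔
      ¬ (minpoly F (ρ g) ∣ ∑ i ∈ Finset.range (orderOf g), (Polynomial.X : Polynomial F) ^ i) := by
  classical
  have hp : p.Prime := Fact.out
  set φ : G →* MulAut (Multiplicative V) := (MulAutMultiplicative V).symm.toMonoidHom.comp
        ((DistribMulAction.toAddAut ((V →ₗ[F] V)ˣ) V).comp ρ.asGroupHom) with hφ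
  have hφa : ∀ (h : G) (v : V), φ h (Multiplicative.ofAdd v) = Multiplicative.ofAdd (ρ h v) :=
    fun _ _ => rfl
  have hk : 0 < orderOf g := orderOf_pos g
  have hpow : ∀ (v : V) (n : ℕ), (⟨Multiplicative.ofAdd v, g⟩ : Multiplicative V ⋊[φ] G) ^ n =
      ⟨Multiplicative.ofAdd ((∑ i ∈ Finset.range n, (ρ g) ^ i) v), g ^ n⟩ := by
    intro v n
    induction n with
    | zero => simp
    | succ n ih =>
      rw [pow_succ, ih]
      apply SemidirectProduct.ext
      · rw [SemidirectProduct.mul_left]
        show Multiplicative.ofAdd _ * φ (g ^ n) (Multiplicative.ofAdd v) = _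
        rw [hφa, ← ofAdd_add, Finset.sum_range_succ, LinearMap.add_apply, map_pow]
      · rw [SemidirectProduct.mul_right, pow_succ]
  set N : V →ₗ[F] V := ∑ i ∈ Finset.range (orderOf g), (ρ g) ^ i with hN
  have haeval : Polynomial.aeval (ρ g)
      (∑ i ∈ Finset.range (orderOf g), (Polynomial.X : Polynomial F) ^ i) = N := by
    simp [hN, map_sum]
  rw [minpoly.dvd_iff, haeval]
  constructor
  · rintro ⟨x, hxr, hxo⟩ hN0
    have hx : x = ⟨Multiplicative.ofAdd (Multiplicative.toAdd x.left), g⟩ := by
      apply SemidirectProduct.ext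
      · rfl
      · exact hxr
    have h1 : x ^ orderOf g = 1 := by
      rw [hx, hpow, ← hN, hN0, pow_orderOf_eq_one]
      rfl
    have h2 := orderOf_dvd_of_pow_eq_one h1
    rw [hxo] at h2
    have h3 := Nat.le_of_dvd hk h2
    have := hp.two_le
    nlinarith
  · intro hN0
    obtain ⟨v, hv⟩ : ∃ v, N v ≠ 0 := by
      by_contra hcon
      push Not at hcon
      exact hN0 (LinearMap.ext hcon)
    refine ⟨⟨Multiplicative.ofAdd v, g⟩, rfl, ?_⟩
    set x : Multiplicative V ⋊[φ] G := ⟨Multiplicative.ofAdd v, g⟩ with hx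
    have h1 : x ^ orderOf g = SemidirectProduct.inl (Multiplicative.ofAdd (N v)) := by
      rw [hx, hpow, pow_orderOf_eq_one]; rfl
    have h2 : x ^ orderOf g ≠ 1 := by
      rw [h1]
      intro h
      have := SemidirectProduct.inl_injective (h.trans (map_one _).symm)
      exact hv this
    have h3 : x ^ (orderOf g * p) = 1 := by
      rw [pow_mul, h1, ← map_pow, ← ofAdd_nsmul]
      have : p • N v = 0 := by
        rw [← Nat.cast_smul_eq_nsmul F, CharP.cast_eq_zero, zero_smul]
      rw [this]; simp
    have h4 : orderOf g ∣ orderOf x :=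
      orderOf_map_dvd (SemidirectProduct.rightHom : Multiplicative V ⋊[φ] G →* G) x
    obtain ⟨d, hd⟩ := h4
    have h5 : orderOf x ∣ orderOf g * p := orderOf_dvd_of_pow_eq_one h3
    rw [hd] at h5
    have h6 : d ∣ p := Nat.dvd_of_mul_dvd_mul_left hk h5
    rcases (Nat.dvd_prime hp).mp h6 with rfl | rfl
    · exfalso
      apply h2
      rw [mul_one] at hd
      rw [← hd]
      exact pow_orderOf_eq_one x
    · rw [hd, mul_comm]

end Cfsg.Agent.S2516
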