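import Cfsg.Statements.S2521
import Mathlib

set_option autoImplicit false
open Cfsg

namespace Cfsg.Agent.S2521

/-- Let B be a finite group that is the semidirect product of a nilpotent normal subgroup U by an abelian subgroup T (U ∩ T = 1, UT = B), and let t ∈ T have centralizer exactly T. Then every element of the coset tU is conjugate to t in B: for each u ∈ U there is b ∈ B with b t b⁻¹ = t u. -/
theorem result {B : Type*} [Group B] [Finite B] (U T : Subgroup B) [U.Normal] (hU : Group.IsNilpotent ↥U) (hT : IsMulCommutative ↥T)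
    (hcompl : Subgroup.IsComplement' U T) (t : B) (ht : t ∈ T) (hreg : Subgroup.centralizer ({t} : Set B) = T) (u : B) (hu : u ∈ U) :
    ∃ b : B, b * t * b⁻¹ = t * u := by
  have hmem : ∀ x : U, t⁻¹ * (x : B) * t * (x : B)⁻¹ ∈ U := by
    intro x
    have h1 : t⁻¹ * (x : B) * t ∈ U := by
      have := ‹U.Normal›.conj_mem x x.2 t⁻¹
      simpa using this
    exact U.mul_mem h1 (U.inv_mem x.2)
  let f : U → U := fun x => ⟨t⁻¹ * (x : B) * t * (x : B)⁻¹, hmem x⟩
  have hf : Function.Injective f := by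
    intro x y hxy
    have h1 : t⁻¹ * (x : B) * t * (x : B)⁻¹ = t⁻¹ * (y : B) * t * (y : B)⁻¹ := congrArg Subtype.val hxy
    have h2 : (y : B)⁻¹ * x ∈ Subgroup.centralizer ({t} : Set B) := by
      rw [Subgroup.mem_centralizer_singleton_iff]
      have h3 : (x : B) * t * (x : B)⁻¹ = (y : B) * t * (y : B)⁻¹ := by
        have : (x : B) * t * (x : B)⁻¹ = t * (t⁻¹ * (x : B) * t * (x : B)⁻¹) := by group
        rw [this, h1]; group
      calc (y : B)⁻¹ * x * t = (y : B)⁻¹ * ((x : B) * t * (x : B)⁻¹) * x := by group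
        _ = (y : B)⁻¹ * ((y : B) * t * (y : B)⁻¹) * x := by rw [h3]
        _ = t * ((y : B)⁻¹ * x) := by group
    rw [hreg] at h2
    have h4 : (y : B)⁻¹ * x ∈ U ⊓ T := ⟨U.mul_mem (U.inv_mem y.2) x.2, h2⟩
    rw [hcompl.disjoint.eq_bot, Subgroup.mem_bot, inv_mul_eq_one] at h4
    exact (Subtype.ext h4).symm
  obtain ⟨x, hx⟩ := Finite.surjective_of_injective hf ⟨u, hu⟩
  refine ⟨x, ?_⟩
  have h1 : t⁻¹ * (x : B) * t * (x : B)⁻¹ = u := congrArg Subtype.val hx
  rw [← h1]; group

end Cfsg.Agent.S2521
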