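import Cfsg.Statements.S2897
import Cfsg.Agent.Lib_helper5_Parab

set_option autoImplicit false
open Cfsg

namespace Cfsg.Agent.S2897

open Cfsg.Agent.H5

/-- Let p be a prime dividing the order of the finite group G, suppose G has parabolic characteristic p, let S be a Sylow p-subgroup of G and G₁ a normal subgroup of G. If Ω₁(Z(S ∩ G₁)) is nontrivial and contained in Ω₁(Z(S)), then G₁ has parabolic characteristic p. -/
theorem result {G : Type*} [Group G] [Finite G] {p : ℕ} [Fact p.Prime] (hdiv : p ∣ Nat.card G) (hG : Cfsg.IsOfParabolicCharacteristic p G) (S : Sylow p G) (G₁ : Subgroup G) [G₁.Normal] (hne : Cfsg.omegaOne p (((S : Subgroup G) ⊓ G₁) ⊓ Subgroup.centralizer (((S : Subgroup G) ⊓ G₁ : Subgroup G) : Set G)) ≠ ⊥) (hle : Cfsg.omegaOne p (((S : Subgroup G) ⊓ G₁) ⊓ Subgroup.centralizer (((S : Subgroup G) ⊓ G₁ : Subgroup G) : Set G)) ≤ Cfsg.omegaOne p ((S : Subgroup G) ⊓ Subgroup.centralizer ((S : Subgroup G) : Set G))) : Cfsg.IsOfParabolicCharacteristic p ↥G₁ := by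
  apply parabolic_of_subnormal hG S G₁ (Subgroup.Normal.isSubnormal inferInstance)
  · intro h
    apply hne
    rw [eq_bot_iff]
    unfold Cfsg.omegaOne
    rw [Subgroup.closure_le]
    intro x hx
    have : x ∈ (S : Subgroup G) ⊓ G₁ := hx.1.1
    rw [h] at this
    exact this
  · intro z hz hzo hzc s hs
    have h1 : z ∈ Cfsg.omegaOne p (((S : Subgroup G) ⊓ G₁) ⊓
        Subgroup.centralizer (((S : Subgroup G) ⊓ G₁ : Subgroup G) : Set G)) := by
      apply Subgroup.subset_closure
      refine ⟨⟨hz, ?_⟩, by rw [← hzo, pow_orderOf_eq_one]⟩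
      change z ∈ Subgroup.centralizer (((S : Subgroup G) ⊓ G₁ : Subgroup G) : Set G)
      rw [Subgroup.mem_centralizer_iff]
      exact hzc
    have h2 := (pow_eq_one_of_mem_omegaOne (by
      intro a ha b hb
      exact ((Subgroup.mem_centralizer_iff.1 ha.2) b hb.1).symm) (hle h1)).1
    exact (Subgroup.mem_centralizer_iff.1 h2.2) s hs

end Cfsg.Agent.S2897
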