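import Cfsg.Statements.S2898
import Cfsg.Agent.Lib_helper5_CharP6
import Cfsg.Agent.Lib_helper5_PGrp
import Cfsg.Agent.Lib_helper5_PComp4
import Cfsg.Agent.S2896

set_option autoImplicit false
open Cfsg

namespace Cfsg.Agent.S2898

open Cfsg.Agent.H5

/-- Let G be a finite group of even order with parabolic characteristic 2. If the centre of G ⧸ O(G) is trivial, then O(G) = 1. -/
theorem result {G : Type*} [Group G] [Finite G] (h2 : 2 ∣ Nat.card G) (hG : Cfsg.IsOfParabolicCharacteristic 2 G) [hN : (Cfsg.oddCore G).Normal] (hZ : Subgroup.center (G ⧸ Cfsg.oddCore G) = ⊥) : Cfsg.oddCore G = ⊥ := by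
  haveI : Fact (Nat.Prime 2) := ⟨Nat.prime_two⟩
  by_contra hO
  have hOc : (Nat.card (Cfsg.oddCore G)).Coprime 2 := H1.card_pPrimeCore_coprime 2
  have hOn : ∀ H : Subgroup G, H ≤ Subgroup.normalizer (Cfsg.oddCore G : Set G) := by
    intro H
    rw [Subgroup.normalizer_eq_top_iff.2 hN]
    exact le_top
  obtain ⟨S⟩ : Nonempty (Sylow 2 G) := inferInstance
  have hS1 : (S : Subgroup G) ≠ ⊥ := by
    intro h
    have h3 := S.not_dvd_index
    rw [h, Subgroup.index_bot] at h3
    exact h3 h2
  -- parabolic 2-locals have characteristic 2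
  have hpar : ∀ R : Subgroup G, IsPGroup 2 R → R ≠ ⊥ →
      (S : Subgroup G) ≤ Subgroup.normalizer (R : Set G) →
      CharPIn 2 (Subgroup.normalizer (R : Set G)) := by
    intro R hR hR1 hSR
    rw [charPIn_iff_centralizer_le]
    exact hG R hR hR1 ⟨S, hSR⟩
  have hKn : (Subgroup.centralizer (Cfsg.oddCore G : Set G)).Normal := inferInstance
  by_cases hT : (S : Subgroup G) ⊓ Subgroup.centralizer (Cfsg.oddCore G : Set G) = ⊥
  · -- `C_G(O)` has odd order
    have hKodd : (Nat.card ↥(Subgroup.centralizer (Cfsg.oddCore G : Set G))).Coprime 2 := by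
      rw [Nat.coprime_comm, Nat.Prime.coprime_iff_not_dvd Nat.prime_two]
      intro hd
      obtain ⟨k, hk⟩ := exists_prime_orderOf_dvd_card'
        (G := ↥(Subgroup.centralizer (Cfsg.oddCore G : Set G))) 2 hd
      have hk' : orderOf (k : G) = 2 := by rw [Subgroup.orderOf_coe, hk]
      have hkp : IsPGroup 2 (Subgroup.zpowers (k : G)) := by
        apply IsPGroup.of_card (n := 1)
        rw [Nat.card_zpowers, hk', pow_one]
      obtain ⟨Q, hQ⟩ := hkp.exists_le_sylow
      obtain ⟨g, hg⟩ := Cfsg.Agent.S2896.exists_conj_mem S Q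
      have h3 : g⁻¹ * (k : G) * g ∈ S := (hg _).1 (hQ (Subgroup.mem_zpowers _))
      have h4 : g⁻¹ * (k : G) * g ∈ Subgroup.centralizer (Cfsg.oddCore G : Set G) := by
        have := hKn.conj_mem _ k.2 g⁻¹
        rwa [inv_inv] at this
      have h5 : g⁻¹ * (k : G) * g ∈
          (S : Subgroup G) ⊓ Subgroup.centralizer (Cfsg.oddCore G : Set G) := ⟨h3, h4⟩
      rw [hT, Subgroup.mem_bot] at h5
      have h6 : (k : G) = 1 := by
        calc (k : G) = g * (g⁻¹ * (k : G) * g) * g⁻¹ := by group
          _ = 1 := by rw [h5]; group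
      rw [h6, orderOf_one] at hk'
      omega
    have hKO : Subgroup.centralizer (Cfsg.oddCore G : Set G) ≤ Cfsg.oddCore G :=
      H1.le_pPrimeCore 2 hKn hKodd
    obtain ⟨z, hzS, hzo, hzc⟩ := exists_central_orderOf_eq S.2 le_rfl Subgroup.le_normalizer hS1
    have hz1 : z ≠ 1 := by
      rintro rfl
      rw [orderOf_one] at hzo
      omega
    have hzz : z * z = 1 := by
      rw [← sq, ← hzo, pow_orderOf_eq_one]
    have hzinv : z⁻¹ = z := inv_eq_of_mul_eq_one_left hzz
    have hSC : (S : Subgroup G) ≤ Subgroup.centralizer ({z} : Set G) := by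
      intro s hs
      rw [Subgroup.mem_centralizer_singleton_iff]
      exact hzc s hs
    have hCN : Subgroup.centralizer ({z} : Set G) ≤
        Subgroup.normalizer (Subgroup.zpowers z : Set G) := by
      rw [Cfsg.Agent.S2896.centralizer_singleton_eq_zpowers]
      exact Subgroup.centralizer_le_normalizer _
    have hCchar : CharPIn 2 (Subgroup.centralizer ({z} : Set G)) := by
      refine (hpar (Subgroup.zpowers z) (S.2.to_le (by rw [Subgroup.zpowers_le]; exact hzS))
        (by rw [Ne, Subgroup.zpowers_eq_bot]; exact hz1) (hSC.trans hCN)).of_normal hCN ?_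
      rw [Cfsg.Agent.S2896.centralizer_singleton_eq_zpowers]
      exact normalizer_le_normalizer_centralizer _
    have hfix : Cfsg.oddCore G ⊓ Subgroup.centralizer ({z} : Set G) = ⊥ := by
      apply hCchar.coprime_normal_eq_bot inf_le_right (inf_le_normalizer_of_le (hOn _))
      exact hOc.coprime_dvd_left (Subgroup.card_dvd_of_le inf_le_left)
    -- `z` inverts `O`
    have hinv : ∀ x ∈ Cfsg.oddCore G, z * x * z⁻¹ = x⁻¹ := by
      have hfpf : MonoidHom.FixedPointFree
          ((MulAut.conjNormal z : MulAut ↥(Cfsg.oddCore G)) : ↥(Cfsg.oddCore G) → _) := by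
        intro x hx
        have h3 : z * (x : G) * z⁻¹ = x := by
          rw [← MulAut.conjNormal_apply, hx]
        have h4 : (x : G) ∈ Cfsg.oddCore G ⊓ Subgroup.centralizer ({z} : Set G) := by
          refine ⟨x.2, ?_⟩
          change (x : G) ∈ Subgroup.centralizer ({z} : Set G)
          rw [Subgroup.mem_centralizer_singleton_iff]
          calc (x : G) * z = (z * (x : G) * z⁻¹) * z := by rw [h3]
            _ = z * x := by group
        rw [hfix, Subgroup.mem_bot] at h4
        exact Subtype.ext h4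
      have hinvol : Function.Involutive
          ((MulAut.conjNormal z : MulAut ↥(Cfsg.oddCore G)) : ↥(Cfsg.oddCore G) → _) := by
        intro x
        apply Subtype.ext
        rw [MulAut.conjNormal_apply, MulAut.conjNormal_apply, hzinv]
        calc z * (z * (x : G) * z) * z = (z * z) * x * (z * z) := by group
          _ = x := by rw [hzz, one_mul, mul_one]
      intro x hx
      have h3 := congrFun (hfpf.coe_eq_inv_of_involutive hinvol) ⟨x, hx⟩
      have h4 := congrArg Subtype.val h3
      rw [MulAut.conjNormal_apply] at h4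
      exact h4
    -- `z` is central modulo `O`
    have hcen : (QuotientGroup.mk' (Cfsg.oddCore G) z) ∈
        Subgroup.center (G ⧸ Cfsg.oddCore G) := by
      rw [Subgroup.mem_center_iff]
      intro gb
      obtain ⟨g, rfl⟩ := QuotientGroup.mk'_surjective _ gb
      rw [← map_mul, ← map_mul, QuotientGroup.mk'_apply, QuotientGroup.mk'_apply,
        QuotientGroup.eq]
      apply hKO
      rw [Subgroup.mem_centralizer_iff]
      intro x hx
      have h3 : g * x * g⁻¹ ∈ Cfsg.oddCore G := hN.conj_mem x hx g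
      have hI : ∀ x ∈ Cfsg.oddCore G, z * x = x⁻¹ * z := fun x hx => by
        have := hinv x hx
        calc z * x = (z * x * z⁻¹) * z := by group
          _ = x⁻¹ * z := by rw [this]
      have hI' : ∀ x ∈ Cfsg.oddCore G, z⁻¹ * x = x⁻¹ * z⁻¹ := by rw [hzinv]; exact hI
      symm
      calc (g * z)⁻¹ * (z * g) * x = z⁻¹ * g⁻¹ * (z * (g * x * g⁻¹)) * g := by group
        _ = z⁻¹ * g⁻¹ * ((g * x * g⁻¹)⁻¹ * z) * g := by rw [hI _ h3]
        _ = (z⁻¹ * x⁻¹) * g⁻¹ * z * g := by group
        _ = (x⁻¹⁻¹ * z⁻¹) * g⁻¹ * z * g := by rw [hI' _ (Subgroup.inv_mem _ hx)]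
        _ = x * ((g * z)⁻¹ * (z * g)) := by group
    rw [hZ, Subgroup.mem_bot, QuotientGroup.mk'_apply, QuotientGroup.eq_one_iff] at hcen
    have h3 : orderOf z ∣ Nat.card (Cfsg.oddCore G) := by
      have := orderOf_dvd_natCard (⟨z, hcen⟩ : ↥(Cfsg.oddCore G))
      rwa [← Subgroup.orderOf_coe] at this
    rw [hzo] at h3
    exact absurd (Nat.eq_one_of_dvd_coprimes hOc.symm (dvd_refl 2) h3) (by norm_num)
  · apply hO
    have hSN : (S : Subgroup G) ≤ Subgroup.normalizer
        (((S : Subgroup G) ⊓ Subgroup.centralizer (Cfsg.oddCore G : Set G) : Subgroup G) : Set G) := by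
      rw [inf_comm]
      apply inf_le_normalizer_of_le
      rw [Subgroup.normalizer_eq_top_iff.2 hKn]
      exact le_top
    have hchar := hpar _ (S.2.to_le inf_le_left) hT hSN
    apply hchar.coprime_normal_eq_bot _ (hOn _) hOc
    calc Cfsg.oddCore G ≤ Subgroup.centralizer
          ((Subgroup.centralizer (Cfsg.oddCore G : Set G) : Subgroup G) : Set G) :=
          Subgroup.le_centralizer_iff.1 le_rfl
      _ ≤ Subgroup.centralizer
          (((S : Subgroup G) ⊓ Subgroup.centralizer (Cfsg.oddCore G : Set G) : Subgroup G) : Set G) :=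
          Subgroup.centralizer_le inf_le_right
      _ ≤ _ := Subgroup.centralizer_le_normalizer _

end Cfsg.Agent.S2898
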