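import Cfsg.Statements.S2907
import Mathlib

set_option autoImplicit false
open Cfsg

namespace Cfsg.Agent.S2907

/-- Let X be a finite semi-extraspecial p-group and x an element of X outside the centre. Then the index of C_X(x) in X equals the order of Z(X), and the commutators [x, y], y ∈ X, form exactly the centre Z(X). -/
theorem result {X : Type*} [Group X] [Finite X] {p : ℕ} [Fact p.Prime] (hX : Cfsg.IsSemiExtraspecial p X) (x : X) (hx : x ∉ Subgroup.center X) : (Subgroup.centralizer ({x} : Set X)).index = Nat.card ↥(Subgroup.center X) ∧ {z : X | ∃ y : X, z = x * y * x⁻¹ * y⁻¹} = (Subgroup.center X : Set X) := by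
  obtain ⟨⟨hp, hfr, hcomm⟩, hY⟩ := hX
  have hcz : ∀ a b : X, a * b * a⁻¹ * b⁻¹ ∈ Subgroup.center X := by
    intro a b
    rw [← hcomm]
    exact Subgroup.commutator_mem_commutator (Subgroup.mem_top a) (Subgroup.mem_top b)
  let φ : X →* X := MonoidHom.mk' (fun y => x * y * x⁻¹ * y⁻¹) (by
    intro y y'
    have hc := Subgroup.mem_center_iff.1 (hcz x y') y⁻¹
    calc x * (y * y') * x⁻¹ * (y * y')⁻¹ = x * y * x⁻¹ * ((x * y' * x⁻¹ * y'⁻¹) * y⁻¹) := by group
      _ = x * y * x⁻¹ * (y⁻¹ * (x * y' * x⁻¹ * y'⁻¹)) := by rw [hc]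
      _ = x * y * x⁻¹ * y⁻¹ * (x * y' * x⁻¹ * y'⁻¹) := by group)
  have hφ : ∀ y, φ y = x * y * x⁻¹ * y⁻¹ := fun y => rfl
  have hker : φ.ker = Subgroup.centralizer ({x} : Set X) := by
    ext y
    rw [MonoidHom.mem_ker, hφ, Subgroup.mem_centralizer_singleton_iff]
    constructor
    · intro h
      have h1 : x * y * x⁻¹ * y⁻¹ * (y * x) = 1 * (y * x) := by rw [h]
      have e : x * y * x⁻¹ * y⁻¹ * (y * x) = x * y := by group
      rw [e, one_mul] at h1
      exact h1.symm
    · intro h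
      calc x * y * x⁻¹ * y⁻¹ = (x * y) * x⁻¹ * y⁻¹ := by group
        _ = (y * x) * x⁻¹ * y⁻¹ := by rw [h]
        _ = 1 := by group
  have hIZ : φ.range ≤ Subgroup.center X := by
    rintro _ ⟨y, rfl⟩
    exact hcz x y
  have hI : φ.range = Subgroup.center X := by
    by_contra hne
    have hI' : (φ.range).subgroupOf (Subgroup.center X) ≠ ⊤ := by
      intro h
      rw [Subgroup.subgroupOf_eq_top] at h
      exact hne (le_antisymm hIZ h)
    obtain ⟨Y', hY'co, hIY'⟩ := (eq_top_or_exists_le_coatom _).resolve_left hI'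
    have hYZ : Y'.map (Subgroup.center X).subtype ≤ Subgroup.center X := Subgroup.map_subtype_le Y'
    have hYsub : (Y'.map (Subgroup.center X).subtype).subgroupOf (Subgroup.center X) = Y' :=
      Subgroup.comap_map_eq_self_of_injective (Subgroup.subtype_injective _) Y'
    obtain ⟨hYn, ⟨-, hcardc⟩⟩ := hY (Y'.map (Subgroup.center X).subtype) hYZ (by rw [hYsub]; exact hY'co)
    set Y := Y'.map (Subgroup.center X).subtype with hYdef
    have hIY : φ.range ≤ Y := by
      intro i hi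
      exact ⟨⟨i, hIZ hi⟩, hIY' (Subgroup.mem_subgroupOf.2 hi), rfl⟩
    have hZbar : (Subgroup.center X).map (QuotientGroup.mk' Y) ≤ Subgroup.center (X ⧸ Y) := by
      rintro _ ⟨z, hz, rfl⟩
      rw [Subgroup.mem_center_iff]
      intro q
      obtain ⟨y, rfl⟩ := QuotientGroup.mk_surjective q
      show (QuotientGroup.mk y : X ⧸ Y) * QuotientGroup.mk z = QuotientGroup.mk z * QuotientGroup.mk y
      rw [← QuotientGroup.mk_mul, ← QuotientGroup.mk_mul, Subgroup.mem_center_iff.1 hz y]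
    have hZne : (Subgroup.center X).map (QuotientGroup.mk' Y) ≠ ⊥ := by
      intro h
      apply hY'co.1
      rw [eq_top_iff]
      intro z _
      have h1 : QuotientGroup.mk' Y (z : X) ∈ (Subgroup.center X).map (QuotientGroup.mk' Y) :=
        ⟨z, z.2, rfl⟩
      rw [h, Subgroup.mem_bot] at h1
      have h2 : (z : X) ∈ Y := (QuotientGroup.eq_one_iff _).1 h1
      rw [← hYsub]
      exact Subgroup.mem_subgroupOf.2 h2
    have hZeq : (Subgroup.center X).map (QuotientGroup.mk' Y) = Subgroup.center (X ⧸ Y) := by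
      apply Subgroup.eq_of_le_of_card_ge hZbar
      have h1 := Subgroup.card_dvd_of_le hZbar
      rw [hcardc] at h1 ⊢
      rcases (Nat.dvd_prime (Fact.out : p.Prime)).1 h1 with h2 | h2
      · exact absurd (Subgroup.card_eq_one.1 h2) hZne
      · exact h2.ge
    have hxc : (QuotientGroup.mk x : X ⧸ Y) ∈ Subgroup.center (X ⧸ Y) := by
      rw [Subgroup.mem_center_iff]
      intro q
      obtain ⟨y, rfl⟩ := QuotientGroup.mk_surjective q
      rw [← QuotientGroup.mk_mul, ← QuotientGroup.mk_mul, QuotientGroup.eq]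
      have h1 : φ y⁻¹ ∈ Y := hIY ⟨y⁻¹, rfl⟩
      rw [hφ] at h1
      have h2 := hYn.conj_mem _ (Y.inv_mem h1) x⁻¹
      have e : x⁻¹ * (x * y⁻¹ * x⁻¹ * y⁻¹⁻¹)⁻¹ * x⁻¹⁻¹ = (y * x)⁻¹ * (x * y) := by group
      rw [e] at h2
      exact h2
    rw [← hZeq] at hxc
    obtain ⟨z, hz, hzx⟩ := hxc
    have h3 : z⁻¹ * x ∈ Y := QuotientGroup.eq.1 hzx
    apply hx
    have h4 := Subgroup.mul_mem _ hz (hYZ h3)
    simpa using h4
  refine ⟨?_, ?_⟩
  · rw [← hker, Subgroup.index_ker, hI]
  · ext z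
    rw [← hI]
    constructor
    · rintro ⟨y, rfl⟩; exact ⟨y, rfl⟩
    · rintro ⟨y, rfl⟩; exact ⟨y, rfl⟩

end Cfsg.Agent.S2907
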