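import Cfsg.Statements.S2910
import Cfsg.Agent.Lib_helper7_Omega2
import Cfsg.Agent.S0071

set_option autoImplicit false
open Cfsg

namespace Cfsg.Agent.S2910

/-- Let p be an odd prime dividing the order of the finite group G and P a Sylow p-subgroup of G. If Ω₁(P) (generated by the elements of order dividing p) is contained in the centre of G, then G has a normal p-complement. In particular, if G is quasisimple then Ω₁(P) is not central in G. -/
theorem result {G : Type*} [Group G] [Finite G] {p : ℕ} [Fact p.Prime] (hp : p ≠ 2) (hdiv : p ∣ Nat.card G) (P : Sylow p G) (hZ : Cfsg.omegaOne p (P : Subgroup G) ≤ Subgroup.center G) : Cfsg.HasNormalPComplement p G ∧ ¬ Cfsg.IsQuasisimple G := by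
  have hpp : p.Prime := Fact.out
  have hN : ∃ N : Subgroup G, N.Normal ∧ N.IsComplement' (P : Subgroup G) := by
    rw [Cfsg.Agent.S0071.result P]
    intro Q hQ g hg hgp
    have h1 : Subgroup.zpowers g ≤ Subgroup.centralizer (Q : Set G) := by
      apply Cfsg.Agent.H7.le_centralizer_of_fix_omega hp Q (Subgroup.zpowers g) (P.2.to_le hQ)
        (by rw [Subgroup.zpowers_le]; exact hg) (by rw [Nat.card_zpowers]; exact hgp)
      intro x hx hxp a _
      have hx2 : x ∈ Subgroup.center G := hZ (Subgroup.subset_closure ⟨hQ hx, hxp⟩)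
      exact (Subgroup.mem_center_iff.mp hx2 a)
    exact h1 (Subgroup.mem_zpowers g)
  obtain ⟨N, hNn, hNc⟩ := hN
  refine ⟨⟨P, N, hNn, hNc⟩, ?_⟩
  rintro ⟨hperf, -⟩
  have hcard : Nat.card (G ⧸ N) = Nat.card (P : Subgroup G) := hNc.symm.index_eq_card
  obtain ⟨k, hk⟩ := P.2.exists_card_eq
  have hpg : IsPGroup p (G ⧸ N) := IsPGroup.of_card (n := k) (by rw [hcard, hk])
  have hnil : Group.IsNilpotent (G ⧸ N) := hpg.isNilpotent
  have hnt : Nontrivial (G ⧸ N) := by
    rw [← Finite.one_lt_card_iff_nontrivial, hcard]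
    have hne : (P : Subgroup G) ≠ ⊥ := P.ne_bot_of_dvd_card hdiv
    by_contra hcon
    have h1 : Nat.card (P : Subgroup G) = 1 := by
      have := Nat.card_pos (α := (P : Subgroup G))
      omega
    exact hne (Subgroup.card_eq_one.mp h1)
  have hlt := Group.IsSolvable.commutator_lt_top_of_nontrivial (G ⧸ N)
  apply hlt.ne
  have h2 : (commutator G).map (QuotientGroup.mk' N) = commutator (G ⧸ N) := by
    rw [commutator_def, Subgroup.map_commutator,
      Subgroup.map_top_of_surjective _ (QuotientGroup.mk'_surjective N), commutator_def]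
  rw [← h2, hperf.commutator_eq_top, Subgroup.map_top_of_surjective _ (QuotientGroup.mk'_surjective N)]

end Cfsg.Agent.S2910
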