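import Cfsg.Statements.S2922
import Cfsg.Agent.Lib_helper5_CharP6

set_option autoImplicit false
open Cfsg

namespace Cfsg.Agent.S2922

open Cfsg.Agent.H5

/-- Let p be a prime, X a finite group, B a p-subgroup of X and C a normal subgroup of B. If N_X(C) has characteristic p (its generalized Fitting subgroup is O_p(N_X(C))), then N_X(B) and C_X(B) have characteristic p. -/
theorem result {X : Type*} [Group X] [Finite X] {p : ℕ} [Fact p.Prime] (B C : Subgroup X) (hB : IsPGroup p ↥B) (hCB : C ≤ B) (hCn : (C.subgroupOf B).Normal) (hC : Cfsg.generalizedFittingSubgroup ↥(Subgroup.normalizer (C : Set X)) = Cfsg.pCore p ↥(Subgroup.normalizer (C : Set X))) : Cfsg.generalizedFittingSubgroup ↥(Subgroup.normalizer (B : Set X)) = Cfsg.pCore p ↥(Subgroup.normalizer (B : Set X)) ∧ Cfsg.generalizedFittingSubgroup ↥(Subgroup.centralizer (B : Set X)) = Cfsg.pCore p ↥(Subgroup.centralizer (B : Set X)) := by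
  rw [← charPIn_iff_genFitting] at hC
  rw [← charPIn_iff_genFitting, ← charPIn_iff_genFitting]
  have hBN : B ≤ Subgroup.normalizer (C : Set X) := by
    intro b hb
    have h1 := hCn.conj_mem
    rw [Subgroup.mem_normalizer_iff]
    intro c
    constructor
    · intro hc
      have := h1 ⟨c, hCB hc⟩ (by rw [Subgroup.mem_subgroupOf]; exact hc) ⟨b, hb⟩
      rw [Subgroup.mem_subgroupOf] at this
      exact this
    · intro hc
      have := h1 ⟨b * c * b⁻¹, hCB hc⟩ (by rw [Subgroup.mem_subgroupOf]; exact hc) ⟨b, hb⟩⁻¹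
      rw [Subgroup.mem_subgroupOf] at this
      have e : b⁻¹ * (b * c * b⁻¹) * b = c := by group
      simp only [Subgroup.coe_mul, Subgroup.coe_inv, inv_inv] at this
      rwa [e] at this
  have hCC : Subgroup.centralizer (B : Set X) ≤ Subgroup.normalizer (C : Set X) :=
    (Subgroup.centralizer_le hCB).trans (Subgroup.centralizer_le_normalizer _)
  exact ⟨hC.normalizer_of_centralizer_le hBN hB hCC, hC.centralizer_of_centralizer_le hBN hB hCC⟩

end Cfsg.Agent.S2922
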