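import Cfsg.Statements.S2940
-- import your own Cfsg.Agent.* helpers here

set_option autoImplicit false
open Cfsg

namespace Cfsg.Agent.S2940

/-- Let S be a Sylow p-subgroup of the finite group G and G₁, G₂ subgroups containing S with G = G₁G₂. Then for every g ∈ G there is a Sylow p-subgroup U of G with S ∩ S^g ≤ U ≤ G₁ ∩ G₂^g (conjugates taken as X^g = g⁻¹Xg). -/
theorem result {G : Type*} [Group G] [Finite G] {p : ℕ} [Fact p.Prime] (S : Sylow p G) (G₁ G₂ : Subgroup G) (h1 : (S : Subgroup G) ≤ G₁) (h2 : (S : Subgroup G) ≤ G₂) (hfact : ∀ g : G, ∃ g₁ ∈ G₁, ∃ g₂ ∈ G₂, g = g₁ * g₂) (g : G) : ∃ U : Sylow p G, (S : Subgroup G) ⊓ Cfsg.subgroupConjRight g (S : Subgroup G) ≤ (U : Subgroup G) ∧ (U : Subgroup G) ≤ G₁ ⊓ Cfsg.subgroupConjRight g G₂ := by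
  obtain ⟨g₁, hg₁, g₂, hg₂, hg⟩ := hfact g⁻¹
  have hgg : g = g₂⁻¹ * g₁⁻¹ := by
    have := congrArg (·⁻¹) hg
    simpa using this
  set K := G₁ ⊓ Cfsg.subgroupConjRight g G₂ with hK
  have hS' : ((g₁ • S : Sylow p G) : Subgroup G) ≤ K := by
    intro y hy
    rw [Sylow.coe_subgroup_smul, Subgroup.mem_pointwise_smul_iff_inv_smul_mem] at hy
    have hy' : g₁⁻¹ * y * g₁ ∈ (S : Subgroup G) := by simpa [MulAut.smul_def] using hy
    refine ⟨?_, ?_⟩
    · have := G₁.mul_mem (G₁.mul_mem hg₁ (h1 hy')) (G₁.inv_mem hg₁)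
      simpa [mul_assoc] using this
    · refine ⟨g₂⁻¹ * (g₁⁻¹ * y * g₁) * g₂, G₂.mul_mem (G₂.mul_mem (G₂.inv_mem hg₂) (h2 hy')) hg₂, ?_⟩
      simp only [MulEquiv.coe_toMonoidHom, MulAut.conj_apply, hg]
      group
  have hD : (S : Subgroup G) ⊓ Cfsg.subgroupConjRight g (S : Subgroup G) ≤ K := by
    intro y hy
    refine ⟨h1 hy.1, ?_⟩
    obtain ⟨z, hz, rfl⟩ := hy.2
    exact ⟨z, h2 hz, rfl⟩
  have hDp : IsPGroup p (((S : Subgroup G) ⊓ Cfsg.subgroupConjRight g (S : Subgroup G)).subgroupOf K) := by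
    have h0 : IsPGroup p ((S : Subgroup G) ⊓ Cfsg.subgroupConjRight g (S : Subgroup G) : Subgroup G) :=
      S.isPGroup'.to_le inf_le_left
    exact h0.comap_of_injective K.subtype K.subtype_injective
  obtain ⟨Q, hQ⟩ := hDp.exists_le_sylow
  obtain ⟨k, hk⟩ := MulAction.exists_smul_eq K ((g₁ • S : Sylow p G).subtype hS') Q
  refine ⟨(k : G) • (g₁ • S : Sylow p G), ?_, ?_⟩
  · intro y hy
    have h1' : (⟨y, hD hy⟩ : K) ∈ (Q : Subgroup K) := hQ (by simpa [Subgroup.mem_subgroupOf] using hy)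
    rw [← hk, Sylow.coe_subgroup_smul, Subgroup.mem_pointwise_smul_iff_inv_smul_mem] at h1'
    rw [Sylow.coe_subgroup_smul, Subgroup.mem_pointwise_smul_iff_inv_smul_mem]
    have h2' := h1'
    rw [Sylow.coe_subtype, Subgroup.mem_subgroupOf] at h2'
    simpa [MulAut.smul_def] using h2'
  · intro y hy
    rw [Sylow.coe_subgroup_smul, Subgroup.mem_pointwise_smul_iff_inv_smul_mem] at hy
    have h3 := hS' hy
    have h4 := K.mul_mem (K.mul_mem k.2 h3) (K.inv_mem k.2)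
    simpa [MulAut.smul_def, mul_assoc] using h4

end Cfsg.Agent.S2940
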