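import Cfsg.Statements.S2955


set_option autoImplicit false
open Cfsg

namespace Cfsg.Agent.S2955

/-- Let p be a prime dividing the order of the finite group G and 𝓕 a conjugation-closed family of subgroups that controls Sylow p-intersections in G. Suppose the Sylow p-subgroups of G are chain-connected: any two of them are joined by a chain of Sylow p-subgroups, consecutive ones distinct with nontrivial intersection, all containing the intersection of the two ends (equivalently, the graph on the Sylow p-subgroups whose edges are the distinct pairs meeting nontrivially is connected). Then for every Sylow p-subgroup S, G is generated by N_G(S) together with the members of 𝓕 that meet S in a Sylow p-subgroup of themselves. -/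
theorem result {G : Type*} [Group G] [Finite G] (p : ℕ) [Fact p.Prime] (hdiv : p ∣ Nat.card G)
    (𝓕 : Set (Subgroup G)) (h𝓕 : Cfsg.IsNormalSet 𝓕) (hc : Cfsg.ControlsSylowIntersections p 𝓕)
    (hconn : Cfsg.IsSylowChainConnected p G) (S : Sylow p G) :
    (⨆ X ∈ Cfsg.sylowMembers p 𝓕 (S : Subgroup G), X) ⊔ Subgroup.normalizer ((S : Subgroup G) : Set G) = ⊤ := by
  classical
  set H : Subgroup G := (⨆ X ∈ Cfsg.sylowMembers p 𝓕 (S : Subgroup G), X) ⊔
    Subgroup.normalizer ((S : Subgroup G) : Set G) with hH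
  -- generic chain induction
  have chain : ∀ (Good : Sylow p G → Prop) (n : ℕ) (c : Fin (n + 1) → Sylow p G), Good (c 0) →
      (∀ i : Fin n, Good (c i.castSucc) → Good (c i.succ)) → Good (c (Fin.last n)) := by
    intro Good n c h0 hs
    have : ∀ i : Fin (n + 1), Good (c i) := by
      intro i
      induction i using Fin.induction with
      | zero => exact h0
      | succ i ih => exact hs i ih
    exact this _
  -- transport of Sylow members
  have transport : ∀ (g : G) (X R : Subgroup G),
      (∃ P : Sylow p ↥X, (P : Subgroup ↥X).map X.subtype = R ⊓ X) →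
      ∃ P' : Sylow p ↥(Cfsg.subgroupConjRight g X),
        (P' : Subgroup ↥(Cfsg.subgroupConjRight g X)).map (Cfsg.subgroupConjRight g X).subtype =
          Cfsg.subgroupConjRight g R ⊓ Cfsg.subgroupConjRight g X := by
    rintro g X R ⟨P, hP⟩
    unfold Cfsg.subgroupConjRight
    have hf : Function.Injective (MulAut.conj g⁻¹).toMonoidHom := (MulAut.conj g⁻¹).injective
    have hs : Function.Surjective (X.equivMapOfInjective _ hf).toMonoidHom :=
      (X.equivMapOfInjective _ hf).surjective
    refine ⟨P.mapSurjective hs, ?_⟩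
    rw [Sylow.coe_mapSurjective, Subgroup.map_map, ← Subgroup.map_inf _ _ _ hf, ← hP,
      Subgroup.map_map]
    rfl
  set Good : Sylow p G → Prop := fun T => ∃ h ∈ H, (T : Subgroup G) = Cfsg.subgroupConjRight h S
    with hGood
  have step : ∀ (T T' : Sylow p G) (X : Subgroup G) (x : G), Good T →
      X ∈ Cfsg.sylowMembers p 𝓕 (T : Subgroup G) → x ∈ X →
      Cfsg.subgroupConjRight x (T' : Subgroup G) = (T : Subgroup G) → Good T' := by
    rintro T T' X x ⟨h, hh, hT⟩ ⟨hX𝓕, hXP⟩ hx hTT'
    have hmem : Cfsg.subgroupConjRight h⁻¹ X ∈ Cfsg.sylowMembers p 𝓕 (S : Subgroup G) := by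
      refine ⟨h𝓕 X hX𝓕 h⁻¹, ?_⟩
      obtain ⟨P', hP'⟩ := transport h⁻¹ X (T : Subgroup G) hXP
      refine ⟨P', ?_⟩
      rw [hP', hT]
      congr 1
      unfold Cfsg.subgroupConjRight
      rw [Subgroup.map_map]
      ext y
      simp [Subgroup.mem_map, MulAut.conj_apply, mul_assoc]
    have hle : Cfsg.subgroupConjRight h⁻¹ X ≤ H :=
      le_trans (le_iSup₂ (f := fun (X : Subgroup G) (_ : X ∈ Cfsg.sylowMembers p 𝓕 (S : Subgroup G)) => X)
        _ hmem) le_sup_left
    have hx' : h * x⁻¹ * h⁻¹ ∈ H := by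
      apply hle
      exact ⟨x⁻¹, inv_mem hx, by simp [MulAut.conj_apply]⟩
    refine ⟨h * x⁻¹, ?_, ?_⟩
    · have : h * x⁻¹ = (h * x⁻¹ * h⁻¹) * h := by group
      rw [this]; exact mul_mem hx' hh
    · have h1 : (T' : Subgroup G) = Cfsg.subgroupConjRight x⁻¹ (T : Subgroup G) := by
        rw [← hTT']
        unfold Cfsg.subgroupConjRight
        rw [Subgroup.map_map]
        ext y
        simp [Subgroup.mem_map, MulAut.conj_apply, mul_assoc]
      rw [h1, hT]
      unfold Cfsg.subgroupConjRight
      rw [Subgroup.map_map]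
      ext y
      simp [Subgroup.mem_map, MulAut.conj_apply, mul_assoc]
  have adj : ∀ S₁ S₂ : Sylow p G, S₁ ≠ S₂ → (S₁ : Subgroup G) ⊓ (S₂ : Subgroup G) ≠ ⊥ →
      Good S₁ → Good S₂ := by
    intro S₁ S₂ hne hint hg
    obtain ⟨n, c, X, x, h0, hl, hstep⟩ := hc S₁ S₂ hne hint
    rw [← hl]
    apply chain Good n c (by rw [h0]; exact hg)
    intro i hi
    obtain ⟨h1, -, h3, h4, -⟩ := hstep i
    exact step _ _ (X i) (x i) hi h1 h3 h4
  have hS : Good S := ⟨1, one_mem _, by
    unfold Cfsg.subgroupConjRight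
    ext y
    simp [Subgroup.mem_map, MulAut.conj_apply]⟩
  have all : ∀ T : Sylow p G, Good T := by
    intro T
    obtain ⟨n, c, h0, hl, -, hstep⟩ := hconn S T
    rw [← hl]
    apply chain Good n c (by rw [h0]; exact hS)
    intro i hi
    exact adj _ _ (hstep i).1 (hstep i).2 hi
  rw [eq_top_iff]
  intro g _
  obtain ⟨h, hh, hT⟩ := all (g⁻¹ • S)
  have hgh : g * h⁻¹ ∈ Subgroup.normalizer ((S : Subgroup G) : Set G) := by
    have key : ∀ s : G, s ∈ (S : Subgroup G) → (g * h⁻¹) * s * (g * h⁻¹)⁻¹ ∈ (S : Subgroup G) := by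
      intro s hs
      have h1 : h⁻¹ * s * h ∈ Cfsg.subgroupConjRight h (S : Subgroup G) :=
        ⟨s, hs, by simp [MulAut.conj_apply]⟩
      rw [← hT, Sylow.coe_subgroup_smul, Subgroup.mem_pointwise_smul_iff_inv_smul_mem] at h1
      have e : (MulAut.conj g⁻¹)⁻¹ • (h⁻¹ * s * h) = (g * h⁻¹) * s * (g * h⁻¹)⁻¹ := by
        simp [MulAut.smul_def, mul_assoc]
      rwa [e] at h1
    have hle : (S : Subgroup G).map (MulAut.conj (g * h⁻¹)).toMonoidHom ≤ (S : Subgroup G) := by
      rintro _ ⟨s, hs, rfl⟩
      exact key s hs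
    have heq : (S : Subgroup G).map (MulAut.conj (g * h⁻¹)).toMonoidHom = (S : Subgroup G) := by
      apply Subgroup.eq_of_le_of_card_ge hle
      rw [Subgroup.card_map_of_injective (MulAut.conj (g * h⁻¹)).injective]
    rw [Subgroup.mem_normalizer_iff]
    intro s
    constructor
    · exact key s
    · intro hs
      rw [← heq] at hs
      obtain ⟨s', hs', he⟩ := hs
      have : s' = s := by
        have he' : (g * h⁻¹) * s' * (g * h⁻¹)⁻¹ = (g * h⁻¹) * s * (g * h⁻¹)⁻¹ := he
        exact mul_left_cancel (mul_right_cancel he')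
      rwa [← this]
  have : g = (g * h⁻¹) * h := by group
  rw [this]
  exact mul_mem (Subgroup.mem_sup_right hgh) hh

end Cfsg.Agent.S2955
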