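import Cfsg.Statements.S2958
import Cfsg.Agent.Lib_helper7_Sylow

set_option autoImplicit false
open Cfsg

namespace Cfsg.Agent.S2958

/-- Let X, A, B be subgroups of a group G such that G is generated by the conjugates of X and every conjugate of X is contained in A or in B. Then A = G or B = G. -/
theorem result {G : Type*} [Group G] (X A B : Subgroup G) (hgen : (⨆ g : G, X.map (MulAut.conj g).toMonoidHom) = ⊤) (hcover : ∀ g : G, X.map (MulAut.conj g).toMonoidHom ≤ A ∨ X.map (MulAut.conj g).toMonoidHom ≤ B) : A = ⊤ ∨ B = ⊤ := by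
  by_cases hall : ∀ g : G, X.map (MulAut.conj g).toMonoidHom ≤ A
  · left
    rw [eq_top_iff, ← hgen]
    exact iSup_le hall
  · right
    push_neg at hall
    obtain ⟨g0, hg0⟩ := hall
    set V : Subgroup G := ⨆ g : {g : G // ¬ X.map (MulAut.conj g).toMonoidHom ≤ A},
      X.map (MulAut.conj (g : G)).toMonoidHom with hV
    have hVB : V ≤ B := by
      refine iSup_le ?_
      rintro ⟨g, hg⟩
      exact (hcover g).resolve_left hg
    have hAV : A ≤ Subgroup.normalizer (V : Set G) := by
      apply H7.le_normalizer_of_forall_map_conj_le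
      intro a ha
      rw [hV, Subgroup.map_iSup]
      refine iSup_le ?_
      rintro ⟨g, hg⟩
      rw [H7.map_conj_map_conj]
      have : ¬ X.map (MulAut.conj (a * g)).toMonoidHom ≤ A := by
        intro hcon
        apply hg
        rw [H7.map_conj_le_iff] at hcon ⊢
        intro x hx
        have := A.mul_mem (A.mul_mem (A.inv_mem ha) (hcon x hx)) ha
        simpa [mul_assoc] using this
      exact le_iSup (fun g : {g : G // ¬ X.map (MulAut.conj g).toMonoidHom ≤ A} =>
        X.map (MulAut.conj (g : G)).toMonoidHom) ⟨a * g, this⟩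
    have hN : Subgroup.normalizer (V : Set G) = ⊤ := by
      rw [eq_top_iff, ← hgen]
      refine iSup_le ?_
      intro g
      by_cases hg : X.map (MulAut.conj g).toMonoidHom ≤ A
      · exact hg.trans hAV
      · exact (le_iSup (fun g : {g : G // ¬ X.map (MulAut.conj g).toMonoidHom ≤ A} =>
          X.map (MulAut.conj (g : G)).toMonoidHom) ⟨g, hg⟩).trans Subgroup.le_normalizer
    have hg0V : X.map (MulAut.conj g0).toMonoidHom ≤ V :=
      le_iSup (fun g : {g : G // ¬ X.map (MulAut.conj g).toMonoidHom ≤ A} =>
          X.map (MulAut.conj (g : G)).toMonoidHom) ⟨g0, hg0⟩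
    rw [eq_top_iff]
    refine le_trans ?_ hVB
    rw [← hgen]
    refine iSup_le ?_
    intro g
    have hmem : g * g0⁻¹ ∈ Subgroup.normalizer (V : Set G) := by rw [hN]; trivial
    rw [← H7.map_conj_eq_self_iff] at hmem
    rw [← hmem]
    have := Subgroup.map_mono (f := (MulAut.conj (g * g0⁻¹)).toMonoidHom) hg0V
    rw [H7.map_conj_map_conj] at this
    simpa using this

end Cfsg.Agent.S2958
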