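import Cfsg.Statements.S2960
import Cfsg.Agent.S0028
import Cfsg.Agent.Lib_helper1_Cores
import Cfsg.Agent.Lib_helper1_SZ

set_option autoImplicit false
open Cfsg

namespace Cfsg.Agent.S2960

/-- Let G be a finite group of characteristic p (C_G(O_p(G)) ≤ O_p(G)), p prime, T a Sylow p-subgroup of G and Q a normal subgroup of T with C_T(Q) ≤ Q. Then C_G(Q) ≤ Q. -/
theorem result {G : Type*} [Group G] [Finite G] {p : ℕ} [Fact p.Prime] (hG : Subgroup.centralizer (Cfsg.pCore p G : Set G) ≤ Cfsg.pCore p G) (T : Sylow p G) (Q : Subgroup G) (hQT : Q ≤ (T : Subgroup G)) (hQn : (T : Subgroup G) ≤ Subgroup.normalizer (Q : Set G)) (hC : (T : Subgroup G) ⊓ Subgroup.centralizer (Q : Set G) ≤ Q) : Subgroup.centralizer (Q : Set G) ≤ Q := by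
  classical
  have hp : p.Prime := Fact.out
  set R := Cfsg.pCore p G with hR
  haveI hRn : R.Normal := Cfsg.Agent.H1.pCore_normal p
  have hRp : IsPGroup p R := Cfsg.Agent.H1.pCore_isPGroup p
  have hRT : R ≤ (T : Subgroup G) := hRp.le_sylow_of_normal T
  have hQp : IsPGroup p Q := T.isPGroup'.to_le hQT
  set C := Subgroup.centralizer (Q : Set G) with hCdef
  have hno : ∀ y ∈ C, (orderOf y).Coprime p → y = 1 := by
    intro y hy hyp
    have h1 := Cfsg.Agent.S0028.result p Q (Subgroup.zpowers y) R hQp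
      (by rw [Nat.card_zpowers]; exact hyp) hRp
      (by
        intro q hq
        rw [Subgroup.mem_centralizer_iff]
        rintro _ ⟨i, rfl⟩
        have : Commute q y := (Subgroup.mem_centralizer_iff.mp hy q hq)
        exact ((this.zpow_right i).eq).symm)
      (by rw [Subgroup.normalizer_eq_top]; exact le_top)
      (by rw [Subgroup.normalizer_eq_top]; exact le_top)
      (by
        intro u hu
        have huQ : u ∈ Q := hC ⟨hRT hu.1, hu.2⟩
        rw [Subgroup.mem_centralizer_iff]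
        rintro _ ⟨i, rfl⟩
        have : Commute u y := (Subgroup.mem_centralizer_iff.mp hy u huQ)
        exact ((this.zpow_right i).eq).symm)
    have hyR : y ∈ R := hG (h1 (Subgroup.mem_zpowers y))
    obtain ⟨k, hk⟩ := hRp ⟨y, hyR⟩
    have hk' : y ^ p ^ k = 1 := congrArg Subtype.val hk
    have h2 : orderOf y ∣ p ^ k := orderOf_dvd_of_pow_eq_one hk'
    have h3 : orderOf y = 1 := Nat.eq_one_of_dvd_coprimes (Nat.Coprime.pow_right k hyp) dvd_rfl h2
    exact orderOf_eq_one_iff.mp h3
  have hCp : IsPGroup p C := by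
    rw [IsPGroup.iff_card]
    refine ⟨_, Nat.eq_prime_pow_of_unique_prime_dvd Nat.card_pos.ne' ?_⟩
    intro q hq hqd
    by_contra hqp
    haveI : Fact q.Prime := ⟨hq⟩
    obtain ⟨y, hy⟩ := exists_prime_orderOf_dvd_card' q hqd
    have hy' : orderOf (y : G) = q := by rw [Subgroup.orderOf_coe]; exact hy
    have := hno y y.2 (by rw [hy']; exact (Nat.coprime_primes hq hp).mpr hqp)
    rw [this, orderOf_one] at hy'
    exact hq.one_lt.ne hy'
  have hTC : (T : Subgroup G) ≤ Subgroup.normalizer (C : Set G) := by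
    apply Cfsg.Agent.H1.le_normalizer_of_forall
    intro t ht c hc
    rw [Subgroup.mem_centralizer_iff]
    intro a ha
    have ha' : t⁻¹ * a * t⁻¹⁻¹ ∈ Q :=
      (Subgroup.mem_normalizer_iff.mp (hQn ((T : Subgroup G).inv_mem ht)) a).mp ha
    have h1 := Subgroup.mem_centralizer_iff.mp hc _ ha'
    calc a * (t * c * t⁻¹) = t * ((t⁻¹ * a * t⁻¹⁻¹) * c) * t⁻¹ := by group
      _ = t * (c * (t⁻¹ * a * t⁻¹⁻¹)) * t⁻¹ := by rw [h1]
      _ = t * c * t⁻¹ * a := by group
  have hsup : IsPGroup p ((T : Subgroup G) ⊔ C : Subgroup G) :=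
    IsPGroup.to_sup_of_normal_right' T.isPGroup' hCp hTC
  have heq : (T : Subgroup G) ⊔ C = T := T.is_maximal' hsup le_sup_left
  have hCT : C ≤ (T : Subgroup G) := by rw [← heq]; exact le_sup_right
  exact fun c hc => hC ⟨hCT hc, hc⟩

end Cfsg.Agent.S2960
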