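import Cfsg.Statements.S3003
import Cfsg.Agent.Lib_helper7_Gen6

set_option autoImplicit false
open Cfsg

namespace Cfsg.Agent.S3003

open Cfsg.Agent.H7

/-- Let G be a finite group, p a prime and Q a large p-subgroup of G: C_G(Q) ≤ Q and N_G(U) ≤ N_G(Q) for every nontrivial subgroup U of C_G(Q). Let Q ≤ G₁ ≤ G, let R be a subgroup of order prime to p normalized by G₁, and let U ≤ G₁ be a p-subgroup. If U contains a nontrivial element which is G₁-conjugate to an element of Z(Q), then C_R(U) = 1. In particular, if U is elementary abelian of order at least p² and every maximal subgroup of U contains a nontrivial element G₁-conjugate into Z(Q), then R = 1. -/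
theorem result {G : Type*} [Group G] [Finite G] {p : ℕ} [Fact p.Prime] (Q : Subgroup G) (hQp : IsPGroup p ↥Q) (hlarge : Cfsg.IsLarge Q) (G₁ : Subgroup G) (hQG : Q ≤ G₁) (R : Subgroup G) (hR : (Nat.card ↥R).Coprime p) (hGR : G₁ ≤ Subgroup.normalizer (R : Set G)) (U : Subgroup G) (hUG : U ≤ G₁) (hUp : IsPGroup p ↥U) : ((∃ x ∈ U, x ≠ 1 ∧ ∃ g ∈ G₁, g * x * g⁻¹ ∈ Q ⊓ Subgroup.centralizer (Q : Set G)) → R ⊓ Subgroup.centralizer (U : Set G) = ⊥) ∧ (Cfsg.IsElementaryAbelian p U → p ^ 2 ≤ Nat.card ↥U → (∀ U₀ : Subgroup G, U₀ ≤ U → IsCoatom (U₀.subgroupOf U) → ∃ x ∈ U₀, x ≠ 1 ∧ ∃ g ∈ G₁, g * x * g⁻¹ ∈ Q ⊓ Subgroup.centralizer (Q : Set G)) → R = ⊥) := by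
  have hpp : p.Prime := Fact.out
  obtain ⟨hCQ, hQbang⟩ := hlarge
  have hdisj : ∀ y : G, y ∈ R → y ∈ Q → y = 1 := by
    intro y hyR hyQ
    obtain ⟨n, hn⟩ := hQp.exists_card_eq
    have hcop : (Nat.card R).Coprime (Nat.card Q) := by rw [hn]; exact Nat.Coprime.pow_right n hR
    have h1 : y ∈ R ⊓ Q := ⟨hyR, hyQ⟩
    rwa [(Subgroup.disjoint_of_coprime_natCard hcop).eq_bot, Subgroup.mem_bot] at h1
  -- the key fact, for an arbitrary subgroup `V ≤ G₁`
  have key : ∀ V : Subgroup G, (∃ x ∈ V, x ≠ 1 ∧ ∃ g ∈ G₁, g * x * g⁻¹ ∈ Q ⊓ Subgroup.centralizer (Q : Set G)) →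
      R ⊓ Subgroup.centralizer (V : Set G) = ⊥ := by
    rintro V ⟨x, hxV, hx1, g, hg, hz⟩
    set z := g * x * g⁻¹ with hzdef
    have hz1 : z ≠ 1 := by
      intro h
      apply hx1
      have : x = g⁻¹ * z * g := by rw [hzdef]; group
      rw [this, h]; group
    have hzN : Subgroup.normalizer ((Subgroup.zpowers z : Subgroup G) : Set G) ≤
        Subgroup.normalizer (Q : Set G) := by
      apply hQbang
      · rw [Subgroup.zpowers_le]; exact hz.2
      · intro h
        apply hz1
        have := Subgroup.mem_zpowers z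
        rwa [h, Subgroup.mem_bot] at this
    -- `C_R(z) = 1`
    have hCz : ∀ r ∈ R, z * r = r * z → r = 1 := by
      intro r hr hzr
      have hrN : r ∈ Subgroup.normalizer (Q : Set G) := by
        apply hzN
        apply Subgroup.centralizer_le_normalizer
        rw [centralizer_zpowers_eq, Subgroup.mem_centralizer_iff]
        intro y hy
        rw [Set.mem_singleton_iff] at hy
        rw [hy]; exact hzr
      have hrC : r ∈ Subgroup.centralizer (Q : Set G) := by
        rw [Subgroup.mem_centralizer_iff]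
        intro q hq
        have h1 : r * q * r⁻¹ * q⁻¹ = 1 := by
          apply hdisj
          · have h2 : r * q * r⁻¹ * q⁻¹ = r * (q * r⁻¹ * q⁻¹) := by group
            rw [h2]
            exact R.mul_mem hr ((Subgroup.mem_normalizer_iff.mp (hGR (hQG hq)) _).mp (R.inv_mem hr))
          · exact Q.mul_mem ((Subgroup.mem_normalizer_iff.mp hrN q).mp hq) (Q.inv_mem hq)
        have := congrArg (fun t => t * q * r) h1
        simp only [mul_assoc, inv_mul_cancel, mul_one, inv_mul_cancel_left, one_mul] at this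
        exact this.symm
      exact hdisj r hr (hCQ hrC)
    rw [eq_bot_iff]
    intro r hr
    rw [Subgroup.mem_bot]
    have hxr : x * r = r * x := (Subgroup.mem_centralizer_iff.mp hr.2) x hxV
    have h1 : g * r * g⁻¹ = 1 := by
      apply hCz _ ((Subgroup.mem_normalizer_iff.mp (hGR hg) r).mp hr.1)
      rw [hzdef]
      calc g * x * g⁻¹ * (g * r * g⁻¹) = g * (x * r) * g⁻¹ := by group
        _ = g * (r * x) * g⁻¹ := by rw [hxr]
        _ = g * r * g⁻¹ * (g * x * g⁻¹) := by group
    have : r = g⁻¹ * (g * r * g⁻¹) * g := by group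
    rw [this, h1]; group
  refine ⟨key U, ?_⟩
  rintro ⟨hUm, hUe⟩ hU2 hmax
  have hUc : ∀ x ∈ U, ∀ y ∈ U, x * y = y * x := by
    intro x hx y hy
    exact congrArg Subtype.val (mul_comm' (⟨x, hx⟩ : U) ⟨y, hy⟩)
  have hne : U ≠ ⊥ := by
    rintro rfl
    rw [Subgroup.card_bot] at hU2
    have := hpp.one_lt
    nlinarith
  rw [eq_bot_iff]
  apply hyperplane_generation U R ⊥ hUc hUe hne
    (fun hd => (Nat.Prime.coprime_iff_not_dvd hpp).mp hR.symm hd) (hUG.trans hGR)
  intro B hBU hBp
  rw [key B (hmax B hBU (isCoatom_subgroupOf_of_relIndex_prime (by rw [hBp]; exact hpp)))]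

end Cfsg.Agent.S3003
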