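import Cfsg.Statements.S3012
import Cfsg.Agent.Lib_helper5_OddInv

set_option autoImplicit false
open Cfsg

namespace Cfsg.Agent.S3012


/-- Let G be a finite group, V a nontrivial elementary abelian 2-subgroup of G satisfying the Sidki pair condition (every odd-order element inverted by an element of V commutes with a nontrivial element of V), and K a normal subgroup of G with V ∩ K = 1. Then the image of V in G/K satisfies the Sidki pair condition in G/K. -/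
theorem result {G : Type*} [Group G] [Finite G] (V K : Subgroup G) [K.Normal] (hV : Cfsg.IsElementaryAbelian 2 V) (hV1 : V ≠ ⊥) (hS : Cfsg.IsSidkiPair V) (hVK : V ⊓ K = ⊥) : Cfsg.IsSidkiPair (V.map (QuotientGroup.mk' K)) := by
  rintro hbar _ ⟨v, hv, rfl⟩ hodd hinv
  obtain ⟨h₀, rfl⟩ := QuotientGroup.mk'_surjective K hbar
  set π := QuotientGroup.mk' K with hπ
  have hvv : v * v = 1 := by rw [← pow_two]; exact hV.2 v hv
  obtain ⟨j, hj⟩ := Cfsg.Agent.H5.exists_pow_sqrt_of_odd hodd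
  set k := h₀ ^ j with hk
  have hπk : π k = π h₀ ^ j := by rw [hk, map_pow]
  set h₁ := k * (v * k⁻¹ * v⁻¹) with hh₁
  have hπh₁ : π h₁ = π h₀ := by
    have e1 : π v * (π h₀ ^ j)⁻¹ * (π v)⁻¹ = π h₀ ^ j := by
      have : π v * (π h₀ ^ j) * (π v)⁻¹ = (π h₀ ^ j)⁻¹ := by
        rw [← conj_pow, hinv, inv_pow]
      calc π v * (π h₀ ^ j)⁻¹ * (π v)⁻¹ = (π v * (π h₀ ^ j) * (π v)⁻¹)⁻¹ := by group
        _ = π h₀ ^ j := by rw [this, inv_inv]
    rw [hh₁, map_mul, map_mul, map_mul, map_inv, map_inv, hπk, e1, hj]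
  have hinv₁ : v * h₁ * v⁻¹ = h₁⁻¹ := by
    have e : v * h₁ * v⁻¹ = (v * k * v⁻¹) * ((v * v) * k⁻¹ * (v * v)⁻¹) := by rw [hh₁]; group
    rw [e, hvv, hh₁]; group
  obtain ⟨a, m, hm, ham⟩ := Nat.exists_eq_two_pow_mul_odd (orderOf_pos h₁).ne'
  have hcop : Nat.Coprime (2 ^ a) (orderOf (π h₀)) :=
    Nat.Coprime.pow_left _ (Nat.coprime_two_left.2 hodd)
  obtain ⟨e, he0, he1⟩ := Nat.chineseRemainder hcop 0 1
  have hdvd : 2 ^ a ∣ e := (Nat.modEq_zero_iff_dvd).1 he0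
  obtain ⟨t, ht⟩ := hdvd
  have hπh₂ : π (h₁ ^ e) = π h₀ := by
    rw [map_pow, hπh₁]
    have := pow_eq_pow_iff_modEq.2 he1
    rw [this, pow_one]
  have hodd₂ : Odd (orderOf (h₁ ^ e)) := by
    apply Odd.of_dvd_nat hm
    apply orderOf_dvd_of_pow_eq_one
    rw [← pow_mul, ht]
    have : 2 ^ a * t * m = (2 ^ a * m) * t := by ring
    rw [this, ← ham, pow_mul, pow_orderOf_eq_one, one_pow]
  have hinv₂ : v * (h₁ ^ e) * v⁻¹ = (h₁ ^ e)⁻¹ := by
    rw [← conj_pow, hinv₁, inv_pow]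
  obtain ⟨w, hw, hw1, hwh⟩ := hS _ _ hv hodd₂ hinv₂
  refine ⟨π w, ⟨w, hw, rfl⟩, ?_, ?_⟩
  · intro h1
    apply hw1
    have h2 : w ∈ V ⊓ K := Subgroup.mem_inf.2 ⟨hw, (QuotientGroup.eq_one_iff w).1 h1⟩
    rw [hVK, Subgroup.mem_bot] at h2
    exact h2
  · rw [← hπh₂, ← map_mul, ← map_mul, hwh]

end Cfsg.Agent.S3012
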