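import Cfsg.Statements.S3015
import Cfsg.Agent.Lib_helper7_Flavell
import Mathlib.GroupTheory.IndexNormal

set_option autoImplicit false
open Cfsg

namespace Cfsg.Agent.S3015

/-- The subgroup generated by the elements of `A` of order prime to `p`. -/
def pRes {G : Type*} [Group G] (p : ℕ) (A : Subgroup G) : Subgroup G :=
  Subgroup.closure {x | x ∈ A ∧ ¬ p ∣ orderOf x}

theorem pRes_le {G : Type*} [Group G] (p : ℕ) (A : Subgroup G) : pRes p A ≤ A := by
  unfold pRes
  rw [Subgroup.closure_le]
  intro x hx
  exact hx.1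

theorem pRes_map_conj {G : Type*} [Group G] (p : ℕ) (A : Subgroup G) (g : G) :
    pRes p (A.map (MulAut.conj g).toMonoidHom) = (pRes p A).map (MulAut.conj g).toMonoidHom := by
  unfold pRes
  rw [MonoidHom.map_closure]
  congr 1
  ext y
  constructor
  · rintro ⟨⟨x, hx, rfl⟩, hy⟩
    refine ⟨x, ⟨hx, ?_⟩, rfl⟩
    intro hd
    apply hy
    have : orderOf ((MulAut.conj g).toMonoidHom x) = orderOf x := (MulAut.conj g).orderOf_eq x
    rw [this]
    exact hd
  · rintro ⟨x, ⟨hx, hx'⟩, rfl⟩
    refine ⟨⟨x, hx, rfl⟩, ?_⟩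
    have : orderOf ((MulAut.conj g).toMonoidHom x) = orderOf x := (MulAut.conj g).orderOf_eq x
    rw [this]
    exact hx'

theorem pRes_le_pRes {G : Type*} [Group G] [Finite G] {p : ℕ} (hp : p.Prime) {H M : Subgroup G}
    (hn : (H.subgroupOf M).Normal) (hidx : H.relIndex M = p) :
    pRes p M ≤ pRes p H := by
  unfold pRes
  apply Subgroup.closure_mono
  rintro x ⟨hxM, hx⟩
  refine ⟨?_, hx⟩
  have h1 : (⟨x, hxM⟩ : M) ^ (H.subgroupOf M).index ∈ H.subgroupOf M :=
    Subgroup.pow_index_mem _ _
  have h2 : x ^ p ∈ H := by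
    have : (H.subgroupOf M).index = p := hidx
    rw [this] at h1
    simpa [Subgroup.mem_subgroupOf] using h1
  obtain ⟨m, hm⟩ := exists_pow_eq_self_of_coprime ((Nat.Prime.coprime_iff_not_dvd hp).mpr hx)
  rw [← hm]
  exact H.pow_mem h2 m

theorem isPGroup_of_pRes_eq_bot {G : Type*} [Group G] [Finite G] {p : ℕ} (hp : p.Prime)
    {M : Subgroup G} (h : pRes p M = ⊥) : IsPGroup p M := by
  intro x
  have ho : orderOf (x : G) ≠ 0 := (orderOf_pos _).ne'
  obtain ⟨a, m, hm, hom⟩ := Nat.exists_eq_pow_mul_and_not_dvd ho p hp.ne_one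
  refine ⟨a, ?_⟩
  have h1 : orderOf ((x : G) ^ (p ^ a)) = m := by
    rw [orderOf_pow_of_dvd (pow_ne_zero _ hp.ne_zero) ⟨m, hom⟩, hom,
      Nat.mul_div_cancel_left _ (pow_pos hp.pos _)]
  have h2 : (x : G) ^ (p ^ a) ∈ pRes p M :=
    Subgroup.subset_closure ⟨M.pow_mem x.2 _, by rw [h1]; exact hm⟩
  rw [h, Subgroup.mem_bot] at h2
  exact Subtype.ext (by simpa using h2)

theorem isCoatom_of_relIndex_prime {G : Type*} [Group G] {H M : Subgroup G}
    (hidx : (H.relIndex M).Prime) : IsCoatom (H.subgroupOf M) := by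
  constructor
  · intro h
    have : (H.subgroupOf M).index = 1 := by rw [h]; exact Subgroup.index_top
    have h2 : H.relIndex M = 1 := this
    rw [h2] at hidx
    exact Nat.not_prime_one hidx
  · intro L hL
    have h1 := Subgroup.relIndex_mul_index hL.le
    have h2 : (H.subgroupOf M).index = H.relIndex M := rfl
    rw [h2] at h1
    have h3 : L.index ∣ H.relIndex M := ⟨_, (mul_comm _ _).trans h1 |>.symm⟩
    rcases (Nat.dvd_prime hidx).mp h3 with h | h
    · exact Subgroup.index_eq_one.mp h
    · exfalso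
      rw [h] at h1
      have h4 : (H.subgroupOf M).relIndex L = 1 := by
        have := hidx.pos
        nlinarith [Nat.eq_of_mul_eq_mul_right this (by rw [one_mul]; exact h1 :
          (H.subgroupOf M).relIndex L * H.relIndex M = 1 * H.relIndex M)]
      exact absurd (Subgroup.relIndex_eq_one.mp h4) (not_le_of_gt hL)

/-- Let G be a finite non-abelian simple group, M a maximal subgroup of G and H a normal subgroup of M of prime index in M. Then G is generated by H together with one of its conjugates. -/
theorem result {G : Type*} [Group G] [Finite G] [IsSimpleGroup G] (hG : ¬ IsMulCommutative G) (M H : Subgroup G) (hmaxM : IsCoatom M) (hHM : H ≤ M) (hHn : (H.subgroupOf M).Normal) (hidx : (H.relIndex M).Prime) : ∃ g : G, H ⊔ H.map (MulAut.conj g).toMonoidHom = ⊤ := by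
  by_contra hcon
  push Not at hcon
  set p := H.relIndex M with hp
  have hmaxH : IsCoatom (H.subgroupOf M) := isCoatom_of_relIndex_prime hidx
  have hHneM : H ≠ M := by
    intro h
    apply hmaxH.1
    rw [h]; exact Subgroup.subgroupOf_self M
  have hn : M ≤ Subgroup.normalizer (H : Set G) := by
    intro m hm
    rw [Subgroup.mem_normalizer_iff]
    intro h
    constructor
    · intro hh
      have := hHn.conj_mem ⟨h, hHM hh⟩ hh ⟨m, hm⟩
      simpa [Subgroup.mem_subgroupOf] using this
    · intro hh
      have hhM : h ∈ M := by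
        have := M.mul_mem (M.mul_mem (M.inv_mem hm) (hHM hh)) hm
        simpa [mul_assoc] using this
      have := hHn.conj_mem ⟨m * h * m⁻¹, hHM hh⟩ hh ⟨m⁻¹, M.inv_mem hm⟩
      simpa [Subgroup.mem_subgroupOf, mul_assoc] using this
  have hMbot : M ≠ ⊥ := by
    intro h
    apply hHneM
    rw [h] at hHM ⊢
    exact le_bot_iff.mp hHM
  have hNM : Subgroup.normalizer (M : Set G) = M := by
    by_contra hne
    have htop := hmaxM.2 _ (lt_of_le_of_ne Subgroup.le_normalizer (Ne.symm hne))
    rcases IsSimpleGroup.eq_bot_or_eq_top_of_normal M (Subgroup.normalizer_eq_top_iff.mp htop)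
      with h | h
    · exact hMbot h
    · exact hmaxM.1 h
  have hMconj : ∀ g : G, M ≤ M.map (MulAut.conj g).toMonoidHom → g ∈ M := by
    intro g hg
    have h1 : M = M.map (MulAut.conj g).toMonoidHom :=
      Subgroup.eq_of_le_of_card_ge hg (H7.card_map_conj M g).le
    rw [← hNM]
    exact H7.map_conj_eq_self_iff.mp h1.symm
  -- the pair condition
  have hcl : ∀ g : G, (H ⊔ H.map (MulAut.conj g).toMonoidHom) ⊓ M = H := by
    intro g
    by_contra hne
    set K := H ⊔ H.map (MulAut.conj g).toMonoidHom with hK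
    have hle : H ≤ K ⊓ M := le_inf le_sup_left hHM
    obtain ⟨x, hx, hxH⟩ : ∃ x ∈ K ⊓ M, x ∉ H := by
      by_contra hc
      push Not at hc
      exact hne (le_antisymm hc hle)
    have hMK : M ≤ K := H7.le_of_isCoatom_subgroupOf hmaxH le_sup_left hx.2 hx.1 hxH
    have hKM : K = M := by
      by_contra hne'
      exact hcon g (hmaxM.2 _ (lt_of_le_of_ne hMK (Ne.symm hne')))
    have hHg : H.map (MulAut.conj g).toMonoidHom ≤ M := hKM ▸ le_sup_right
    have hgM : g ∉ M := by
      intro hg
      apply hHneM
      rw [← hKM, hK, H7.map_conj_eq_self_iff.mpr (hn hg), sup_idem]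
    -- the residual
    have hR1 : (pRes p H).map (MulAut.conj g).toMonoidHom ≤ pRes p H := by
      rw [← pRes_map_conj]
      refine le_trans ?_ (pRes_le_pRes hidx hHn rfl)
      apply Subgroup.closure_mono
      rintro y ⟨hy1, hy2⟩
      exact ⟨hHg hy1, hy2⟩
    have hR2 : g ∈ Subgroup.normalizer (pRes p H : Set G) := by
      rw [← H7.map_conj_eq_self_iff]
      exact Subgroup.eq_of_le_of_card_ge hR1 (H7.card_map_conj _ g).ge
    have hR3 : M ≤ Subgroup.normalizer (pRes p H : Set G) := by
      intro m hm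
      rw [← H7.map_conj_eq_self_iff, ← pRes_map_conj, H7.map_conj_eq_self_iff.mpr (hn hm)]
    have hR4 : Subgroup.normalizer (pRes p H : Set G) = ⊤ := by
      apply hmaxM.2
      refine lt_of_le_of_ne hR3 ?_
      intro he
      apply hgM
      rw [he]; exact hR2
    have hR5 : pRes p H = ⊥ := by
      rcases IsSimpleGroup.eq_bot_or_eq_top_of_normal _ (Subgroup.normalizer_eq_top_iff.mp hR4)
        with h | h
      · exact h
      · exfalso
        apply hmaxM.1
        rw [eq_top_iff, ← h]
        exact (pRes_le p H).trans hHM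
    have hR6 : pRes p M = ⊥ := le_bot_iff.mp (hR5 ▸ pRes_le_pRes hidx hHn rfl)
    have hMp : IsPGroup p M := isPGroup_of_pRes_eq_bot hidx hR6
    -- `H^g` is normal in `M`
    set B := H.map (MulAut.conj g).toMonoidHom with hB
    have hBidx : (B.subgroupOf M).index = p := by
      have h1 : Nat.card B * B.relIndex M = Nat.card M := by
        have := Subgroup.relIndex_mul_relIndex ⊥ B M bot_le hHg
        simpa [Subgroup.relIndex_bot_left] using this
      have h2 : Nat.card H * H.relIndex M = Nat.card M := by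
        have := Subgroup.relIndex_mul_relIndex ⊥ H M bot_le hHM
        simpa [Subgroup.relIndex_bot_left] using this
      rw [hB, H7.card_map_conj, ← h2] at h1
      exact Nat.eq_of_mul_eq_mul_left Nat.card_pos h1
    have hBn : (B.subgroupOf M).Normal := by
      apply Subgroup.normal_of_index_eq_minFac_card
      rw [hBidx]
      haveI : Fact p.Prime := ⟨hidx⟩
      obtain ⟨k, hk⟩ := IsPGroup.iff_card.mp hMp
      rw [hk]
      have hk0 : k ≠ 0 := by
        rintro rfl
        apply hMbot
        rw [pow_zero] at hk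
        exact Subgroup.card_eq_one.mp hk
      exact (hidx.pow_minFac hk0).symm
    have hMB : M ≤ Subgroup.normalizer (B : Set G) := by
      intro m hm
      rw [← H7.map_conj_eq_self_iff]
      apply Subgroup.eq_of_le_of_card_ge _ (H7.card_map_conj _ m).ge
      rw [H7.map_conj_le_iff]
      intro y hy
      have := hBn.conj_mem ⟨y, hHg hy⟩ hy ⟨m, hm⟩
      simpa [Subgroup.mem_subgroupOf] using this
    have hMgB : M.map (MulAut.conj g).toMonoidHom ≤ Subgroup.normalizer (B : Set G) := by
      rw [hB, H7.normalizer_map_conj]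
      exact Subgroup.map_mono hn
    by_cases hBtop : Subgroup.normalizer (B : Set G) = ⊤
    · rcases IsSimpleGroup.eq_bot_or_eq_top_of_normal _ (Subgroup.normalizer_eq_top_iff.mp hBtop)
        with h | h
      · have hHbot : H = ⊥ := by
          rw [← Subgroup.card_eq_one, ← H7.card_map_conj H g, ← hB, h]
          simp
        apply hMbot
        rw [← hKM, hK, h, hHbot, sup_idem]
      · apply hmaxM.1
        rw [eq_top_iff, ← h]; exact hHg
    · have hNB : Subgroup.normalizer (B : Set G) = M := by
        by_contra hne'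
        exact hBtop (hmaxM.2 _ (lt_of_le_of_ne hMB (Ne.symm hne')))
      rw [hNB] at hMgB
      have h1 : M.map (MulAut.conj g).toMonoidHom = M :=
        Subgroup.eq_of_le_of_card_ge hMgB (H7.card_map_conj M g).ge
      exact hgM (hMconj g h1.ge)
  have hfl := H7.flavell_closure H M hHM hcl hmaxH hmaxM
  rcases IsSimpleGroup.eq_bot_or_eq_top_of_normal (Subgroup.normalClosure (H : Set G))
    inferInstance with h | h
  · have hHbot : H = ⊥ := by
      rw [h, bot_inf_eq] at hfl
      exact hfl.symm
    have hTI : ∀ g : G, g ∉ M → M ⊓ M.map (MulAut.conj g).toMonoidHom ≤ H := by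
      intro g hg x hx
      by_contra hxH
      have := H7.le_of_isCoatom_subgroupOf (L := M ⊓ M.map (MulAut.conj g).toMonoidHom) hmaxH
        (by rw [hHbot]; exact bot_le) hx.1 hx hxH
      exact hg (hMconj g (this.trans inf_le_right))
    obtain ⟨K, hKn, hKM, hKab⟩ := H7.exists_normal_inf_eq_of_TI H M hHM hn
      (H7.commutator_mem_of_isCoatom_of_normal hmaxH hn) hTI
    rcases IsSimpleGroup.eq_bot_or_eq_top_of_normal K hKn with hK | hK
    · apply hG
      refine ⟨⟨fun a b => ?_⟩⟩
      have := hKab a b
      rw [hK, Subgroup.mem_bot] at this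
      calc a * b = (a * b * a⁻¹ * b⁻¹) * (b * a) := by group
        _ = b * a := by rw [this, one_mul]
    · rw [hK, top_inf_eq] at hKM
      exact hHneM hKM.symm
  · rw [h, top_inf_eq] at hfl
    exact hHneM hfl.symm

end Cfsg.Agent.S3015
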