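import Mathlib
import Cfsg.Statements.S3020
import Cfsg.Agent.Lib_helper1_Cores
import Cfsg.Agent.Lib_helper1_FrobNPC

set_option autoImplicit false
open Cfsg

namespace Cfsg.Agent.S3020


/-- Let G be a finite group, p a prime and H an abelian p-subgroup of G that is extremely closed (for every g, the subgroup generated by H and g H g⁻¹ meets N_G(H) exactly in H). Then for every g ∈ G, the subgroup T generated by H and g H g⁻¹ is the product of H with O_{p'}(T), and H meets O_{p'}(T) trivially; that is, O_{p'}(T) is a normal p-complement of H in T. -/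
theorem result {G : Type*} [Group G] [Finite G] {p : ℕ} [Fact p.Prime] (H : Subgroup G) (hHp : IsPGroup p H) (hHab : IsMulCommutative H) (hcl : Cfsg.IsExtremelyClosed H) (g : G) (T : Subgroup G) (hT : T = H ⊔ H.map (MulAut.conj g).toMonoidHom) : H ⊔ (Cfsg.pPrimeCore p ↥T).map T.subtype = T ∧ H ⊓ (Cfsg.pPrimeCore p ↥T).map T.subtype = ⊥ := by
  have hp : p.Prime := Fact.out
  have hHT : H ≤ T := hT ▸ le_sup_left
  have hN : T ⊓ Subgroup.normalizer (H : Set G) = H := hT ▸ hcl g
  set H' := H.subgroupOf T with hH'
  have hH'p : IsPGroup p H' := H1.isPGroup_subgroupOf hHp T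
  have hnorm : Subgroup.normalizer (H' : Set T) = H' := by
    rw [hH', ← Subgroup.subgroupOf_normalizer_eq hHT]
    ext x
    rw [Subgroup.mem_subgroupOf, Subgroup.mem_subgroupOf]
    constructor
    · intro hx
      have : (x : G) ∈ T ⊓ Subgroup.normalizer (H : Set G) := ⟨x.2, hx⟩
      rwa [hN] at this
    · intro hx
      exact Subgroup.le_normalizer hx
  obtain ⟨S, hS⟩ := hH'p.exists_le_sylow
  have hSeq : (S : Subgroup T) = H' := by
    by_contra hne
    have hlt : H' < S := lt_of_le_of_ne hS (Ne.symm hne)
    have h1 := H1.lt_inf_normalizer_of_nilpotent (S.2.isNilpotent) hlt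
    rw [hnorm, inf_eq_right.2 hS] at h1
    exact lt_irrefl _ h1
  have hcent : Subgroup.normalizer ((S : Subgroup T) : Set T) ≤
      Subgroup.centralizer ((S : Subgroup T) : Set T) := by
    rw [hSeq, hnorm]
    intro x hx
    rw [Subgroup.mem_centralizer_iff]
    intro y hy
    apply Subtype.ext
    have := mul_comm' (⟨y, hy⟩ : H) ⟨x, hx⟩
    exact congrArg (fun z : H => (z : G)) this
  have hcompl := MonoidHom.ker_transferSylow_isComplement' S hcent
  set K := (MonoidHom.transferSylow S hcent).ker with hK
  have hKcard : (Nat.card K).Coprime p := by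
    have h1 : Nat.card K = (S : Subgroup T).index := hcompl.index_eq_card.symm
    rw [h1]
    exact ((Nat.Prime.coprime_iff_not_dvd hp).2 S.not_dvd_index).symm
  have hKO : K ≤ Cfsg.pPrimeCore p ↥T := H1.le_pPrimeCore p inferInstance hKcard
  constructor
  · have h1 : (S : Subgroup T) ⊔ Cfsg.pPrimeCore p ↥T = ⊤ := by
      rw [eq_top_iff, ← hcompl.sup_eq_top, sup_comm]
      exact sup_le_sup le_rfl hKO
    have h2 := congrArg (Subgroup.map T.subtype) h1
    rw [Subgroup.map_sup, hSeq, hH', Subgroup.subgroupOf_map_subtype, inf_eq_left.2 hHT,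
      ← MonoidHom.range_eq_map, Subgroup.range_subtype] at h2
    exact h2
  · apply Subgroup.inf_eq_bot_of_coprime
    obtain ⟨k, hk⟩ := IsPGroup.iff_card.1 hHp
    rw [hk, Subgroup.card_map_of_injective T.subtype_injective]
    exact (Nat.Coprime.pow_right k (H1.card_pPrimeCore_coprime (G := ↥T) (p := p))).symm

end Cfsg.Agent.S3020
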