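import Cfsg.Statements.S3021
import Cfsg.Agent.Lib_helper2_BaerSuzuki
import Cfsg.Agent.Lib_helper1_SZ

set_option autoImplicit false
open Cfsg

namespace Cfsg.Agent.S3021

/-- Let G be a finite group, p a prime and H a p-subgroup of G that is extremely closed (for every g, the subgroup generated by H and g H g⁻¹ meets N_G(H) exactly in H). Then every p-subgroup Q of G containing H has N_G(Q) ≤ N_G(H); in particular every Sylow p-subgroup P of G containing H normalizes H, and H is strongly closed in P with respect to G. -/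
theorem result {G : Type*} [Group G] [Finite G] {p : ℕ} [Fact p.Prime] (H : Subgroup G) (hHp : IsPGroup p H) (hcl : Cfsg.IsExtremelyClosed H) : (∀ Q : Subgroup G, IsPGroup p Q → H ≤ Q → Subgroup.normalizer (Q : Set G) ≤ Subgroup.normalizer (H : Set G)) ∧ ∀ P : Sylow p G, H ≤ (P : Subgroup G) → (P : Subgroup G) ≤ Subgroup.normalizer (H : Set G) ∧ Cfsg.IsStronglyClosed H (P : Subgroup G) := by
  classical
  have h1 : ∀ Q : Subgroup G, IsPGroup p Q → H ≤ Q →
      Subgroup.normalizer (Q : Set G) ≤ Subgroup.normalizer (H : Set G) := by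
    intro Q hQ hHQ
    have key : ∀ n ∈ Subgroup.normalizer (Q : Set G), ∀ x ∈ H, n * x * n⁻¹ ∈ H := by
      intro n hn x hx
      set T := H ⊔ H.map (MulAut.conj n).toMonoidHom with hT
      have hmapQ : H.map (MulAut.conj n).toMonoidHom ≤ Q := by
        rintro _ ⟨w, hw, rfl⟩
        exact (Subgroup.mem_normalizer_iff.mp hn w).mp (hHQ hw)
      have hTQ : T ≤ Q := sup_le hHQ hmapQ
      have hTp : IsPGroup p T := hQ.to_le hTQ
      have hHT : H ≤ T := le_sup_left
      have hEq : H = T := by
        by_contra hne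
        obtain ⟨y, hyT, hyH, hyN⟩ := Cfsg.Agent.H2.exists_normalizer_of_lt hTp
          (lt_of_le_of_ne hHT hne)
        have : y ∈ T ⊓ Subgroup.normalizer (H : Set G) := ⟨hyT, hyN⟩
        rw [hT, hcl n] at this
        exact hyH this
      rw [hEq]
      exact Subgroup.mem_sup_right ⟨x, hx, rfl⟩
    exact Cfsg.Agent.H1.le_normalizer_of_forall key
  refine ⟨h1, fun P hHP => ?_⟩
  have hPN : (P : Subgroup G) ≤ Subgroup.normalizer (H : Set G) :=
    Subgroup.le_normalizer.trans (h1 P P.isPGroup' hHP)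
  refine ⟨hPN, hHP, ?_⟩
  intro x hx g hg
  have : g * x * g⁻¹ ∈ (H ⊔ H.map (MulAut.conj g).toMonoidHom) ⊓ Subgroup.normalizer (H : Set G) :=
    ⟨Subgroup.mem_sup_right ⟨x, hx, rfl⟩, hPN hg⟩
  rwa [hcl g] at this

end Cfsg.Agent.S3021
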