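import Cfsg.Statements.S3025
import Mathlib
import Cfsg.Agent.S0016

set_option autoImplicit false
open Cfsg

namespace Cfsg.Agent.S3025

/-- Let F be a finite group and H a nontrivial subgroup of F that is contained in every nontrivial subgroup of F which H normalizes. Then F has a nontrivial normal subgroup N contained in every nontrivial normal subgroup of F (a unique minimal normal subgroup), N is simple, and one of the following holds: C_F(N) = 1; or H = N has prime order p, C_F(N) is cyclic of order a power of p, and F/C_F(N) is cyclic of order dividing p − 1; or H = N has order 2, N is central in F, and F is a generalized quaternion group. -/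
theorem result {F : Type*} [Group F] [Finite F] (H : Subgroup F) (hH : H ≠ ⊥)
    (hmin : ∀ R : Subgroup F, R ≠ ⊥ → H ≤ Subgroup.normalizer (R : Set F) → H ≤ R) :
    ∃ N : Subgroup F, N.Normal ∧ N ≠ ⊥ ∧ (∀ M : Subgroup F, M.Normal → M ≠ ⊥ → N ≤ M) ∧ IsSimpleGroup ↥N ∧
      (Subgroup.centralizer (N : Set F) = ⊥ ∨
       (H = N ∧ (Nat.card N).Prime ∧ IsCyclic ↥(Subgroup.centralizer (N : Set F)) ∧
          (∃ k : ℕ, 1 ≤ k ∧ Nat.card ↥(Subgroup.centralizer (N : Set F)) = Nat.card N ^ k) ∧
          (∃ g : F, Subgroup.centralizer (N : Set F) ⊔ Subgroup.zpowers g = ⊤) ∧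
          (Subgroup.centralizer (N : Set F)).index ∣ Nat.card N - 1) ∨
       (H = N ∧ Nat.card N = 2 ∧ Subgroup.centralizer (N : Set F) = ⊤ ∧
          ∃ k : ℕ, 1 ≤ k ∧ Nonempty (F ≃* QuaternionGroup (2 ^ k)))) := by
  classical
  -- every nontrivial normal subgroup contains `H`
  have hHn : ∀ M : Subgroup F, M.Normal → M ≠ ⊥ → H ≤ M := by
    intro M hM hM1
    apply hmin M hM1
    rw [Subgroup.normalizer_eq_top_iff.mpr hM]
    exact le_top
  have hne_of_le : ∀ M : Subgroup F, H ≤ M → M ≠ ⊥ := by
    intro M hM h0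
    rw [h0] at hM
    exact hH (le_bot_iff.mp hM)
  obtain ⟨N, ⟨hNn, hN1⟩, hNmin'⟩ :=
    (measure (fun K : Subgroup F => Nat.card K)).wf.has_min {K | K.Normal ∧ K ≠ ⊥}
      ⟨⊤, inferInstance, hne_of_le ⊤ le_top⟩
  have hNmin : ∀ K : Subgroup F, K.Normal → K ≠ ⊥ → Nat.card N ≤ Nat.card K :=
    fun K hK hK1 => not_lt.mp (hNmin' K ⟨hK, hK1⟩)
  haveI := hNn
  have hHN : H ≤ N := hHn N hNn hN1
  have huniq : ∀ K : Subgroup F, K.Normal → K ≠ ⊥ → N ≤ K := by
    intro K hK hK1
    haveI := hK
    have hd : N ⊓ K ≠ ⊥ := hne_of_le _ (le_inf hHN (hHn K hK hK1))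
    have h1 := hNmin (N ⊓ K) inferInstance hd
    have h2 : N ⊓ K = N := Subgroup.eq_of_le_of_card_ge inf_le_left h1
    exact inf_eq_left.mp h2
  haveI hNnt : Nontrivial N := (Subgroup.nontrivial_iff_ne_bot N).mpr hN1
  have hsimple : IsSimpleGroup N := by
    refine ⟨?_⟩
    intro K hK
    by_contra hcon
    push Not at hcon
    obtain ⟨M, ⟨hMn, hM1⟩, hMmin'⟩ :=
      (measure (fun K : Subgroup N => Nat.card K)).wf.has_min {K | K.Normal ∧ K ≠ ⊥}
        ⟨K, hK, hcon.1⟩
    have hMmin : ∀ K : Subgroup N, K.Normal → K ≠ ⊥ → Nat.card M ≤ Nat.card K :=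
      fun K hK hK1 => not_lt.mp (hMmin' K ⟨hK, hK1⟩)
    have hMtop : M ≠ ⊤ := by
      intro h
      have h1 := hMmin K hK hcon.1
      rw [h] at h1
      exact hcon.2 (Subgroup.eq_of_le_of_card_ge le_top h1)
    have hne : ∀ A : Subgroup N, A ≠ ⊥ → A.map N.subtype ≠ ⊥ := by
      intro A hA' h
      exact hA' ((Subgroup.map_eq_bot_iff_of_injective _ N.subtype_injective).mp h)
    -- nontrivial normal subgroups of `N` contain `H`
    have hHK : ∀ A : Subgroup N, A.Normal → A ≠ ⊥ → H ≤ A.map N.subtype := by
      intro A hA hA1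
      apply hmin _ (hne A hA1)
      intro h hh
      rw [Subgroup.mem_normalizer_iff]
      intro x
      constructor
      · rintro ⟨a, ha, rfl⟩
        exact ⟨⟨h, hHN hh⟩ * a * ⟨h, hHN hh⟩⁻¹, hA.conj_mem a ha _, rfl⟩
      · rintro ⟨a, ha, hax⟩
        refine ⟨⟨h, hHN hh⟩⁻¹ * a * ⟨h, hHN hh⟩, ?_, ?_⟩
        · have := hA.conj_mem a ha (⟨h, hHN hh⟩⁻¹)
          rwa [inv_inv] at this
        · change h⁻¹ * (a : F) * h = x
          have hax' : (a : F) = h * x * h⁻¹ := hax
          rw [hax']; group
    have key : ∀ h : F, M.map (MulAut.conjNormal h : N ≃* N).toMonoidHom = M := by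
      intro h
      set Mh := M.map (MulAut.conjNormal h : N ≃* N).toMonoidHom with hMh
      have hMhn : Mh.Normal := hMn.map _ (MulAut.conjNormal h : N ≃* N).surjective
      have hcard : Nat.card Mh = Nat.card M :=
        Subgroup.card_map_of_injective (MulAut.conjNormal h : N ≃* N).injective
      have hMh1 : Mh ≠ ⊥ := by
        intro h0
        rw [h0, Subgroup.card_bot] at hcard
        exact hM1 (Subgroup.card_eq_one.mp hcard.symm)
      have hd : M ⊓ Mh ≠ ⊥ := by
        intro h0
        obtain ⟨x, hx, hx1⟩ : ∃ x ∈ H, x ≠ 1 := by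
          by_contra hno
          push Not at hno
          exact hH ((Subgroup.eq_bot_iff_forall _).mpr hno)
        obtain ⟨a, ha, hax⟩ := hHK M hMn hM1 hx
        obtain ⟨b, hb, hbx⟩ := hHK Mh hMhn hMh1 hx
        have hab : a = b := Subtype.ext (hax.trans hbx.symm)
        have : a ∈ M ⊓ Mh := ⟨ha, hab ▸ hb⟩
        rw [h0, Subgroup.mem_bot] at this
        apply hx1
        rw [← hax, this]
        rfl
      haveI := hMn
      haveI := hMhn
      have h1 := hMmin (M ⊓ Mh) inferInstance hd
      have h2 : M ⊓ Mh = M := Subgroup.eq_of_le_of_card_ge inf_le_left h1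
      have h3 : M ≤ Mh := inf_eq_left.mp h2
      exact (Subgroup.eq_of_le_of_card_ge h3 hcard.le).symm
    have hMH : (M.map N.subtype).Normal := by
      refine ⟨?_⟩
      rintro _ ⟨x, hx, rfl⟩ g
      have : (MulAut.conjNormal g : N ≃* N) x ∈ M := by
        rw [← key g]
        exact ⟨x, hx, rfl⟩
      exact ⟨_, this, rfl⟩
    have h1 := huniq _ hMH (hne M hM1)
    apply hMtop
    rw [eq_top_iff]
    intro x _
    obtain ⟨y, hy, hyx⟩ := h1 x.2
    have : y = x := Subtype.ext hyx
    rw [← this]
    exact hy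
  refine ⟨N, hNn, hN1, huniq, hsimple, ?_⟩
  by_cases hC : Subgroup.centralizer (N : Set F) = ⊥
  · left; exact hC
  right
  have hCn : (Subgroup.centralizer (N : Set F)).Normal := inferInstance
  have hNC : N ≤ Subgroup.centralizer (N : Set F) := huniq _ hCn hC
  have hNcomm : ∀ a b : N, a * b = b * a := by
    intro a b
    apply Subtype.ext
    exact (Subgroup.mem_centralizer_iff.mp (hNC a.2) b b.2).symm
  have hprime : (Nat.card N).Prime := by
    letI : CommGroup N := { (inferInstance : Group N) with mul_comm := hNcomm }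
    exact IsSimpleGroup.prime_card (α := N)
  haveI : Fact (Nat.card N).Prime := ⟨hprime⟩
  have hHeq : H = N := by
    apply Subgroup.eq_of_le_of_card_ge hHN
    rcases (Nat.dvd_prime hprime).mp (Subgroup.card_dvd_of_le hHN) with h1 | h1
    · exact absurd (Subgroup.card_eq_one.mp h1) hH
    · exact h1.ge
  have hR : ∀ R : Subgroup F, R ≠ ⊥ → R ≤ Subgroup.centralizer (N : Set F) → N ≤ R := by
    intro R hR1 hRC
    rw [← hHeq]
    apply hmin R hR1
    intro h hh
    rw [hHeq] at hh
    rw [Subgroup.mem_normalizer_iff]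
    intro x
    constructor
    · intro hx
      have := Subgroup.mem_centralizer_iff.mp (hRC hx) h hh
      rw [this, mul_inv_cancel_right]
      exact hx
    · intro hx
      have := Subgroup.mem_centralizer_iff.mp (hRC hx) h hh
      have e : x = h * x * h⁻¹ := by
        calc x = h⁻¹ * ((h * x * h⁻¹) * h) := by group
          _ = h⁻¹ * (h * (h * x * h⁻¹)) := by rw [this]
          _ = h * x * h⁻¹ := by group
      rw [e]; exact hx
  -- the automorphisms induced on `N`
  haveI : IsCyclic N := isCyclic_of_prime_card rfl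
  have hker : (MulAut.conjNormal (H := N)).ker = Subgroup.centralizer (N : Set F) := by
    ext g
    rw [MonoidHom.mem_ker, Subgroup.mem_centralizer_iff]
    constructor
    · intro hg n hn
      have := congrArg (fun α : MulAut N => ((α ⟨n, hn⟩ : N) : F)) hg
      simp only [MulAut.conjNormal_apply, MulAut.one_apply] at this
      calc n * g = (g * n * g⁻¹) * g := by rw [this]
        _ = g * n := by group
    · intro hg
      ext n
      simp only [MulAut.conjNormal_apply, MulAut.one_apply]
      rw [← hg n n.2]; group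
  have hcycA : IsCyclic (MulAut N) :=
    (IsCyclic.mulAutMulEquiv N).isCyclic.mpr inferInstance
  have hcardA : Nat.card (MulAut N) = Nat.card N - 1 := by
    rw [IsCyclic.card_mulAut, Nat.totient_prime hprime]
  have hidx : (Subgroup.centralizer (N : Set F)).index ∣ Nat.card N - 1 := by
    rw [← hker, Subgroup.index_ker, ← hcardA]
    exact Subgroup.card_subgroup_dvd_card _
  have hgen : ∃ g : F, Subgroup.centralizer (N : Set F) ⊔ Subgroup.zpowers g = ⊤ := by
    obtain ⟨⟨γ, g₀, rfl⟩, hγ⟩ := IsCyclic.exists_generator (α := (MulAut.conjNormal (H := N)).range)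
    refine ⟨g₀, ?_⟩
    rw [eq_top_iff]
    intro f _
    obtain ⟨i, hi⟩ := hγ ⟨MulAut.conjNormal f, f, rfl⟩
    have hi' : (MulAut.conjNormal g₀ : MulAut N) ^ i = MulAut.conjNormal f :=
      congrArg Subtype.val hi
    have hmem : f * (g₀ ^ i)⁻¹ ∈ Subgroup.centralizer (N : Set F) := by
      rw [← hker, MonoidHom.mem_ker, map_mul, map_inv, map_zpow, hi', mul_inv_cancel]
    have : f = (f * (g₀ ^ i)⁻¹) * g₀ ^ i := by group
    rw [this]
    exact Subgroup.mul_mem_sup hmem (Subgroup.zpow_mem _ (Subgroup.mem_zpowers g₀) i)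
  -- `C` is a `p`-group
  have hcardC : ∃ k : ℕ, 1 ≤ k ∧ Nat.card ↥(Subgroup.centralizer (N : Set F)) = Nat.card N ^ k := by
    have h1 : Nat.card ↥(Subgroup.centralizer (N : Set F)) = Nat.card N ^
        (Nat.card ↥(Subgroup.centralizer (N : Set F))).primeFactorsList.length := by
      apply Nat.eq_prime_pow_of_unique_prime_dvd Nat.card_pos.ne'
      intro q hq hqd
      haveI := Fact.mk hq
      obtain ⟨x, hx⟩ := exists_prime_orderOf_dvd_card' (G := ↥(Subgroup.centralizer (N : Set F))) q hqd
      have hx' : orderOf (x : F) = q := by rw [Subgroup.orderOf_coe]; exact hx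
      have hle := hR (Subgroup.zpowers (x : F)) (by
        rw [Subgroup.zpowers_ne_bot]
        intro h0
        rw [h0, orderOf_one] at hx'
        exact hq.one_lt.ne hx') (by rw [Subgroup.zpowers_le]; exact x.2)
      have hd := Subgroup.card_dvd_of_le hle
      rw [Nat.card_zpowers, hx'] at hd
      exact ((Nat.prime_dvd_prime_iff_eq hprime hq).mp hd).symm
    refine ⟨_, ?_, h1⟩
    by_contra hk
    have hk0 : (Nat.card ↥(Subgroup.centralizer (N : Set F))).primeFactorsList.length = 0 := by omega
    rw [hk0, pow_zero] at h1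
    exact hC (Subgroup.card_eq_one.mp h1)
  obtain ⟨k, hk1, hk⟩ := hcardC
  by_cases hcyc : IsCyclic ↥(Subgroup.centralizer (N : Set F))
  · left
    exact ⟨hHeq, hprime, hcyc, ⟨k, hk1, hk⟩, hgen, hidx⟩
  · right
    have hpC : IsPGroup (Nat.card N) ↥(Subgroup.centralizer (N : Set F)) := IsPGroup.of_card hk
    have hu : ∀ A B : Subgroup ↥(Subgroup.centralizer (N : Set F)), Nat.card A = Nat.card N →
        Nat.card B = Nat.card N → A = B := by
      have haux : ∀ A : Subgroup ↥(Subgroup.centralizer (N : Set F)), Nat.card A = Nat.card N →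
          A.map (Subgroup.centralizer (N : Set F)).subtype = N := by
        intro A hA
        have hcard : Nat.card (A.map (Subgroup.centralizer (N : Set F)).subtype) = Nat.card N := by
          rw [Subgroup.card_map_of_injective (Subgroup.subtype_injective _), hA]
        symm
        apply Subgroup.eq_of_le_of_card_ge _ hcard.le
        apply hR _ _ (Subgroup.map_subtype_le A)
        intro h0
        rw [h0, Subgroup.card_bot] at hcard
        exact hprime.one_lt.ne hcard
      intro A B hA hB
      apply Subgroup.map_injective (Subgroup.subtype_injective (Subgroup.centralizer (N : Set F)))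
      rw [haux A hA, haux B hB]
    rcases Cfsg.Agent.S0016.result (Nat.card N) hpC hu with h1 | ⟨h2, n, ⟨f⟩⟩
    · exact absurd h1 hcyc
    · have htop : Subgroup.centralizer (N : Set F) = ⊤ := by
        rw [h2] at hidx
        exact Subgroup.index_eq_one.mp (Nat.dvd_one.mp hidx)
      refine ⟨hHeq, h2, htop, n, ?_, ⟨?_⟩⟩
      · by_contra hn
        have hn0 : n = 0 := by omega
        subst hn0
        apply hcyc
        rw [pow_zero] at f
        exact f.isCyclic.mpr QuaternionGroup.quaternionGroup_one_isCyclic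
      · exact (Subgroup.topEquiv.symm.trans (MulEquiv.subgroupCongr htop.symm)).trans f

end Cfsg.Agent.S3025
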