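import Cfsg.Statements.S3027
import Cfsg.Agent.Lib_helper7_Sylow
import Mathlib.Order.SupClosed
import Mathlib.GroupTheory.Commutator.Basic

set_option autoImplicit false
open Cfsg

namespace Cfsg.Agent.S3027
open scoped commutatorElement

theorem sInf_mem_of_infClosed {G : Type*} [Group G] [Finite G] {Pr : Subgroup G → Prop}
    (hinf : ∀ H K, Pr H → Pr K → Pr (H ⊓ K)) (S : Set (Subgroup G)) (hne : S.Nonempty)
    (hS : ∀ H ∈ S, Pr H) : Pr (sInf S) := by
  classical
  have hfin : S.Finite := Set.toFinite S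
  have h1 : sInf S = hfin.toFinset.inf id := by
    rw [Finset.inf_id_eq_sInf]; simp
  rw [h1]
  exact InfClosed.finsetInf_mem (s := {H | Pr H}) (fun a ha b hb => hinf a b ha hb)
    (by simpa using hne) (by intro i hi; exact hS i (by simpa using hi))

theorem sup_eq_top_iff_map {G : Type*} [Group G] (D : Subgroup G) [D.Normal] (U : Subgroup G) :
    U ⊔ D = ⊤ ↔ U.map (QuotientGroup.mk' D) = ⊤ := by
  constructor
  · intro h
    have h1 : (U ⊔ D).map (QuotientGroup.mk' D) = U.map (QuotientGroup.mk' D) := by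
      rw [Subgroup.map_sup]
      have : D.map (QuotientGroup.mk' D) = ⊥ := by
        rw [← le_bot_iff, Subgroup.map_le_iff_le_comap]
        intro x hx
        simpa using hx
      rw [this, sup_bot_eq]
    rw [← h1, h]
    exact Subgroup.map_top_of_surjective _ (QuotientGroup.mk'_surjective D)
  · intro h
    have := Subgroup.comap_map_eq (QuotientGroup.mk' D) U
    rw [h, QuotientGroup.ker_mk', Subgroup.comap_top] at this
    exact this.symm

theorem commutator_sup_eq_top {G : Type*} [Group G] (D : Subgroup G) [D.Normal]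
    (hperf : ⁅(⊤ : Subgroup G), (⊤ : Subgroup G)⁆ ⊔ D = ⊤) {U V : Subgroup G}
    (hU : U ⊔ D = ⊤) (hV : V ⊔ D = ⊤) : ⁅U, V⁆ ⊔ D = ⊤ := by
  rw [sup_eq_top_iff_map] at hperf hU hV ⊢
  rw [Subgroup.map_commutator] at hperf ⊢
  rw [hU, hV]
  rwa [Subgroup.map_top_of_surjective _ (QuotientGroup.mk'_surjective D)] at hperf

/-- Let G be a finite group and D a normal subgroup of G such that G/D is perfect (that is, G = G′D). Then among the subnormal subgroups B of G with BD = G there is a least one, and it is normal in G. -/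
theorem result {G : Type*} [Group G] [Finite G] (D : Subgroup G) [D.Normal] (hperf : ⁅(⊤ : Subgroup G), (⊤ : Subgroup G)⁆ ⊔ D = ⊤) :
    ∃ B : Subgroup G, B.Normal ∧ B ⊔ D = ⊤ ∧ ∀ B' : Subgroup G, B'.IsSubnormal → B' ⊔ D = ⊤ → B ≤ B' := by
  -- the least normal supplement
  let Pr : Subgroup G → Prop := fun C => C.Normal ∧ C ⊔ D = ⊤
  have hPr : ∀ H K, Pr H → Pr K → Pr (H ⊓ K) := by
    intro H K hH hK
    haveI := hH.1
    haveI := hK.1
    refine ⟨inferInstance, ?_⟩
    rw [eq_top_iff, ← commutator_sup_eq_top D hperf hH.2 hK.2]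
    exact sup_le_sup_right (Subgroup.commutator_le_inf H K) D
  have hB₀ : Pr (sInf {C | Pr C}) :=
    sInf_mem_of_infClosed hPr _ ⟨⊤, inferInstance, top_sup_eq D⟩ (fun _ h => h)
  set B₀ := sInf {C | Pr C} with hB₀def
  have hmin : ∀ C, Pr C → B₀ ≤ C := fun C hC => sInf_le hC
  haveI hB₀n : B₀.Normal := hB₀.1
  refine ⟨B₀, hB₀.1, hB₀.2, ?_⟩
  intro B' hB'
  induction hB' with
  | top => intro _; exact le_top
  | step B K hBK hK hBn ih =>
    intro hBD
    have hKD : K ⊔ D = ⊤ := eq_top_iff.mpr (hBD ▸ sup_le_sup_right hBK D)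
    have hB₀K : B₀ ≤ K := ih hKD
    have hKN : K ≤ Subgroup.normalizer (B : Set G) :=
      (Subgroup.normal_subgroupOf_iff_le_normalizer hBK).mp hBn
    -- the family of normal supplements inside `B₀`
    let Pr' : Subgroup G → Prop := fun E => E ≤ B₀ ∧ B₀ ≤ Subgroup.normalizer (E : Set G) ∧ E ⊔ D = ⊤
    have hcomm : ∀ E F : Subgroup G, F ≤ Subgroup.normalizer (E : Set G) → ⁅E, F⁆ ≤ E := by
      intro E F hF
      rw [Subgroup.commutator_le]
      intro e he f hf
      have h1 : f * e⁻¹ * f⁻¹ ∈ E :=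
        (Subgroup.mem_normalizer_iff.mp (hF hf) e⁻¹).mp (E.inv_mem he)
      have : ⁅e, f⁆ = e * (f * e⁻¹ * f⁻¹) := by rw [commutatorElement_def]; group
      rw [this]
      exact E.mul_mem he h1
    have hPr' : ∀ E F, Pr' E → Pr' F → Pr' (E ⊓ F) := by
      intro E F hE hF
      refine ⟨inf_le_left.trans hE.1, ?_, ?_⟩
      · intro b hb
        rw [← H7.map_conj_eq_self_iff, Subgroup.map_inf _ _ _ (MulAut.conj b).injective,
          H7.map_conj_eq_self_iff.mpr (hE.2.1 hb), H7.map_conj_eq_self_iff.mpr (hF.2.1 hb)]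
      · rw [eq_top_iff, ← commutator_sup_eq_top D hperf hE.2.2 hF.2.2]
        apply sup_le_sup_right
        apply le_inf
        · exact hcomm E F (hF.1.trans hE.2.1)
        · rw [Subgroup.commutator_comm]
          exact hcomm F E (hE.1.trans hF.2.1)
    have hC : Pr' (B₀ ⊓ B) := by
      refine ⟨inf_le_left, ?_, ?_⟩
      · intro b hb
        rw [← H7.map_conj_eq_self_iff, Subgroup.map_inf _ _ _ (MulAut.conj b).injective,
          H7.map_conj_eq_self_iff.mpr (Subgroup.le_normalizer hb),
          H7.map_conj_eq_self_iff.mpr (hKN (hB₀K hb))]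
      · rw [eq_top_iff, ← commutator_sup_eq_top D hperf hB₀.2 hBD]
        apply sup_le_sup_right
        apply le_inf
        · exact hcomm B₀ B (by rw [Subgroup.normalizer_eq_top_iff.mpr hB₀n]; exact le_top)
        · rw [Subgroup.commutator_comm]
          exact hcomm B B₀ (hB₀K.trans hKN)
    have hconj : ∀ (E : Subgroup G) (g : G), Pr' E → Pr' (E.map (MulAut.conj g).toMonoidHom) := by
      intro E g hE
      have hB₀g : B₀.map (MulAut.conj g).toMonoidHom = B₀ :=
        H7.map_conj_eq_self_iff.mpr (by rw [Subgroup.normalizer_eq_top_iff.mpr hB₀n]; trivial)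
      have hDg : D.map (MulAut.conj g).toMonoidHom = D :=
        H7.map_conj_eq_self_iff.mpr
          (by rw [Subgroup.normalizer_eq_top_iff.mpr inferInstance]; trivial)
      refine ⟨?_, ?_, ?_⟩
      · rw [← hB₀g]; exact Subgroup.map_mono hE.1
      · rw [H7.normalizer_map_conj, ← hB₀g]; exact Subgroup.map_mono hE.2.1
      · rw [← hDg, ← Subgroup.map_sup, hE.2.2]
        exact Subgroup.map_top_of_surjective _ (MulAut.conj g).surjective
    set S : Set (Subgroup G) := Set.range (fun g : G => (B₀ ⊓ B).map (MulAut.conj g).toMonoidHom)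
      with hS
    have hI : Pr' (sInf S) := by
      apply sInf_mem_of_infClosed hPr' S ⟨_, 1, rfl⟩
      rintro _ ⟨g, rfl⟩
      exact hconj _ g hC
    have hIn : (sInf S).Normal := by
      constructor
      intro x hx g
      rw [Subgroup.mem_sInf] at hx ⊢
      rintro _ ⟨h, rfl⟩
      have := hx _ ⟨g⁻¹ * h, rfl⟩
      simp only [H7.mem_map_conj] at this ⊢
      convert this using 1
      group
    have h1 : B₀ ≤ sInf S := hmin _ ⟨hIn, hI.2.2⟩
    have h2 : sInf S ≤ B₀ ⊓ B := by
      apply sInf_le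
      exact ⟨1, H7.map_conj_one _⟩
    exact h1.trans (h2.trans inf_le_right)

end Cfsg.Agent.S3027
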