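import Cfsg.Statements.S3057
import Mathlib
import Cfsg.Agent.Lib_helper3_Chain
import Cfsg.Agent.Lib_helper3_Rank1
import Cfsg.Agent.S0058
import Cfsg.Agent.S0016
import Cfsg.Agent.Lib_helper1_Coprime

set_option autoImplicit false
open Cfsg

namespace Cfsg.Agent.S3057

theorem normal_p'_le {G : Type*} [Group G] [Finite G] {p : ℕ} [Fact p.Prime] {M : Subgroup G}
    (hM : H7.SE p M) (E : Subgroup G) (hEM : E ≤ M) (hEp : IsPGroup p E) [IsMulCommutative E]
    (hEnc : ¬ IsCyclic E) (K₀ : Subgroup G) (hK : K₀.Normal) (hKp : ¬ p ∣ Nat.card K₀) :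
    K₀ ≤ M := by
  have hp : p.Prime := Fact.out
  have hcop : (Nat.card E).Coprime (Nat.card K₀) := by
    obtain ⟨k, hk⟩ := IsPGroup.iff_card.1 hEp
    rw [hk]
    exact Nat.Coprime.pow_left k ((Nat.Prime.coprime_iff_not_dvd hp).2 hKp)
  have hgen := S0058.result E K₀ hEnc (by rw [Subgroup.normalizer_eq_top]; exact le_top) hcop
  rw [← hgen]
  apply iSup₂_le
  rintro e ⟨heE, he1⟩ c hc
  have hc2 : c ∈ Subgroup.centralizer ({e} : Set G) := hc.2
  rw [Subgroup.mem_centralizer_singleton_iff] at hc2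
  exact hM.centIn e (hEM heE) he1 (hEp.to_le (Subgroup.zpowers_le.2 heE)) c hc2

theorem le_of_relIndex {G : Type*} [Group G] [Finite G] {p : ℕ} [Fact p.Prime] {M : Subgroup G}
    (hM : H7.SE p M) (S₀ : Subgroup G) (hS₀ : H7.IsSylowIn p S₀ M) (K₀ L : Subgroup G)
    (hKM : K₀ ≤ M) (hK : K₀.Normal) (hKp : ¬ p ∣ Nat.card K₀) (hL : L.Normal) (hKL : K₀ ≤ L)
    (m : ℕ) (hrel : K₀.relIndex L = p ^ m) : L ≤ M := by
  have hp : p.Prime := Fact.out
  have hS₀top := hM.isSylowIn_top hS₀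
  obtain ⟨R₀, -, hR₀⟩ := H7.exists_isSylowIn_ge (p := p) (Q := ⊥) (H := L) IsPGroup.of_bot bot_le
  obtain ⟨x, -, hx⟩ := hS₀top.exists_conj_le hR₀.2.1 le_top
  obtain ⟨R₁, hR₁⟩ : ∃ R₁ : Subgroup G, R₁ = R₀.map (MulAut.conj x).toMonoidHom := ⟨_, rfl⟩
  rw [← hR₁] at hx
  have hR₁L : R₁ ≤ L := by
    rw [hR₁]
    rintro _ ⟨y, hy, rfl⟩
    exact hL.conj_mem y (hR₀.1 hy) x
  have hR₁c : Nat.card R₁ = Nat.card R₀ := by
    rw [hR₁, Subgroup.card_map_of_injective (MulAut.conj x).injective]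
  have hR₁p : IsPGroup p R₁ := hS₀.2.1.to_le hx
  obtain ⟨j, hj⟩ := IsPGroup.iff_card.1 hR₀.2.1
  have c1 : K₀.relIndex L * Nat.card K₀ = Nat.card L := H1.relIndex_mul_card' hKL
  have c2 : R₀.relIndex L * Nat.card R₀ = Nat.card L := H1.relIndex_mul_card' hR₀.1
  have hmj : p ^ m ∣ p ^ j := by
    have h1 : p ^ m ∣ R₀.relIndex L * p ^ j := by
      rw [← hj, c2, ← c1, hrel]
      exact dvd_mul_right _ _
    exact Nat.Coprime.dvd_of_dvd_mul_left
      (Nat.Coprime.pow_left m ((Nat.Prime.coprime_iff_not_dvd hp).2 hR₀.2.2)) h1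
  have c3 := H1.card_sup_mul_card_inf' K₀ R₁ (by rw [Subgroup.normalizer_eq_top]; exact le_top)
  have hdis : K₀ ⊓ R₁ = ⊥ := by
    apply (Subgroup.disjoint_of_coprime_natCard _).eq_bot
    rw [hR₁c, hj, Nat.coprime_comm]
    exact Nat.Coprime.pow_left j ((Nat.Prime.coprime_iff_not_dvd hp).2 hKp)
  rw [hdis, Subgroup.card_bot, mul_one, hR₁c, hj] at c3
  have heq : K₀ ⊔ R₁ = L := by
    apply Subgroup.eq_of_le_of_card_ge (sup_le hKL hR₁L)
    rw [c3, ← c1, hrel, mul_comm]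
    exact Nat.mul_le_mul_left _ (Nat.le_of_dvd (pow_pos hp.pos j) hmj)
  rw [← heq]
  exact sup_le hKM (hx.trans hS₀.1)

theorem false_of_normal_le {G : Type*} [Group G] [Finite G] {p : ℕ} [Fact p.Prime]
    {M : Subgroup G} (hM : H7.SE p M) (L : Subgroup G) (hL : L.Normal) (hLM : L ≤ M)
    (hLp : p ∣ Nat.card L) : False := by
  obtain ⟨b, hbL, hb⟩ := H7.exists_zpowers_of_dvd_card hLp
  apply hM.1
  rw [eq_top_iff]
  intro g _
  exact hM.mem_of_conj (hLM hbL) (H7.ne_one_of_orderOf_eq_prime hb)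
    (H7.isPGroup_zpowers_of_orderOf hb) (hLM (hL.conj_mem b hbL g))

theorem uniqP_of_SE {G : Type*} [Group G] [Finite G] {p : ℕ} [Fact p.Prime]
    (hdiv : p ∣ Nat.card G) (hsol : Cfsg.IsPSolvable p G) {M : Subgroup G} (hM : H7.SE p M)
    (S₀ : Subgroup G) (hS₀ : H7.IsSylowIn p S₀ M) : H3.UniqP p S₀ := by
  have hp : p.Prime := Fact.out
  by_contra hnU
  unfold H3.UniqP at hnU
  push Not at hnU
  obtain ⟨H₁, H₂, h1, h2, c1, c2, hne⟩ := hnU
  have hS₀ne : S₀ ≠ ⊥ := hS₀.ne_bot hM.2.1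
  obtain ⟨z₀, hz₀S, hz₀1, hz₀c⟩ := H7.exists_center_ne_one hS₀.2.1 hS₀ne
  -- a central element of order `p`
  obtain ⟨z, hzS, hz, hzc⟩ : ∃ z ∈ S₀, orderOf z = p ∧ ∀ r ∈ S₀, r * z = z * r := by
    obtain ⟨k, hk⟩ := IsPGroup.iff_orderOf.1 hS₀.2.1 ⟨z₀, hz₀S⟩
    rw [Subgroup.orderOf_mk] at hk
    have hpd : p ∣ orderOf z₀ := by
      rw [hk]
      apply dvd_pow_self
      rintro rfl
      rw [pow_zero, orderOf_eq_one_iff] at hk
      exact hz₀1 hk
    refine ⟨z₀ ^ (orderOf z₀ / p), S₀.pow_mem hz₀S _, ?_, ?_⟩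
    · exact orderOf_pow_orderOf_div (orderOf_pos z₀).ne' hpd
    · intro r hr
      exact (Commute.pow_right (hz₀c r hr) _)
  -- a subgroup of order `p` different from `⟨z⟩`
  obtain ⟨H, hHS, hHc, hHne⟩ : ∃ H : Subgroup G, H ≤ S₀ ∧ Nat.card H = p ∧
      H ≠ Subgroup.zpowers z := by
    by_cases h : H₁ = Subgroup.zpowers z
    · exact ⟨H₂, h2, c2, fun h' => hne (h.trans h'.symm)⟩
    · exact ⟨H₁, h1, c1, h⟩
  obtain ⟨x, hx⟩ := exists_prime_orderOf_dvd_card' (G := H) p (by rw [hHc])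
  have hHx : Subgroup.zpowers (x : G) = H := by
    apply Subgroup.eq_of_le_of_card_ge (Subgroup.zpowers_le.2 x.2)
    rw [hHc, Nat.card_zpowers, Subgroup.orderOf_coe, hx]
  obtain ⟨E, hE⟩ : ∃ E : Subgroup G, E = Subgroup.closure ({z, (x : G)} : Set G) := ⟨_, rfl⟩
  have hzE : z ∈ E := by rw [hE]; exact Subgroup.subset_closure (by simp)
  have hxE : (x : G) ∈ E := by rw [hE]; exact Subgroup.subset_closure (by simp)
  have hES : E ≤ S₀ := by
    rw [hE, Subgroup.closure_le]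
    rintro y (rfl | hy)
    · exact hzS
    · rw [Set.mem_singleton_iff] at hy; rw [hy]; exact hHS x.2
  have hxz : (x : G) * z = z * x := hzc x (hHS x.2)
  haveI hEc : IsMulCommutative E := by
    rw [hE]
    apply Subgroup.isMulCommutative_closure
    rintro a (rfl | ha) b (rfl | hb)
    · rfl
    · rw [Set.mem_singleton_iff] at hb; rw [hb]; exact hxz.symm
    · rw [Set.mem_singleton_iff] at ha; rw [ha]; exact hxz
    · rw [Set.mem_singleton_iff] at ha hb; rw [ha, hb]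
  have hEp : IsPGroup p E := hS₀.2.1.to_le hES
  have hEnc : ¬ IsCyclic E := by
    intro hc
    apply hHne
    rw [← hHx]
    exact H3.uniqP_of_cyclic (p := p) hc _ _ (Subgroup.zpowers_le.2 hxE) (Subgroup.zpowers_le.2 hzE)
      (by rw [Nat.card_zpowers, Subgroup.orderOf_coe, hx]) (by rw [Nat.card_zpowers, hz])
  obtain ⟨n, Hs, hH0, hHn, hmono, hnorm, hstep⟩ := hsol
  have key : ∀ i : ℕ, ∀ hi : i < n + 1, ¬ p ∣ Nat.card (Hs ⟨i, hi⟩) := by
    intro i
    induction i with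
    | zero =>
      intro hi
      have : Hs ⟨0, hi⟩ = ⊥ := hH0
      rw [this, Subgroup.card_bot]
      exact hp.one_lt.ne' ∘ Nat.dvd_one.1
    | succ i ih =>
      intro hi hd
      have h0 := ih (by omega)
      have hle : Hs ⟨i, by omega⟩ ≤ Hs ⟨i + 1, hi⟩ := hmono (by
        rw [Fin.le_def]; simp)
      have c1 : (Hs ⟨i, by omega⟩).relIndex (Hs ⟨i + 1, hi⟩) * Nat.card (Hs ⟨i, by omega⟩) =
          Nat.card (Hs ⟨i + 1, hi⟩) := H1.relIndex_mul_card' hle
      have hKM := normal_p'_le hM E (hES.trans hS₀.1) hEp hEnc _ (hnorm ⟨i, by omega⟩) h0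
      rcases hstep ⟨i, by omega⟩ with ⟨m, hm⟩ | hc
      · have hLM := le_of_relIndex hM S₀ hS₀ _ _ hKM (hnorm ⟨i, by omega⟩) h0
          (hnorm ⟨i + 1, hi⟩) hle m hm
        exact false_of_normal_le hM _ (hnorm ⟨i + 1, hi⟩) hLM hd
      · have hc' : ((Hs ⟨i, by omega⟩).relIndex (Hs ⟨i + 1, hi⟩)).Coprime p := hc
        rw [← c1] at hd
        rcases (Nat.Prime.dvd_mul hp).1 hd with h | h
        · exact (Nat.Prime.coprime_iff_not_dvd hp).1 hc'.symm h
        · exact h0 h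
  have hlast := key n (by omega)
  have : Hs ⟨n, by omega⟩ = ⊤ := hHn
  rw [this, Subgroup.card_top] at hlast
  exact hlast hdiv

/-- Let p be a prime and G a finite p-solvable group of order divisible by p, with Sylow p-subgroup P. Then the Sylow p-subgroups of G fail to be chain-connected through nontrivial intersections (equivalently, G has a strongly p-embedded subgroup) if and only if O_p(G) = 1 and P is cyclic or, for p = 2, generalized quaternion. -/
theorem result {G : Type*} [Group G] [Finite G]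
    (p : ℕ) [Fact p.Prime] (hdiv : p ∣ Nat.card G) (hsol : Cfsg.IsPSolvable p G) (P : Sylow p G) :
    ¬ Cfsg.IsSylowChainConnected p G ↔
      Cfsg.pCore p G = ⊥ ∧ (IsCyclic ↥P ∨ (p = 2 ∧ ∃ n : ℕ, Nonempty (↥P ≃* QuaternionGroup (2 ^ n)))) := by
  have hp : p.Prime := Fact.out
  constructor
  · intro h
    obtain ⟨M, hM⟩ := H3.exists_SE_of_not_chainConnected h
    obtain ⟨S₀, -, hS₀⟩ := H7.exists_isSylowIn_ge (p := p) (Q := ⊥) (H := M) IsPGroup.of_bot bot_le
    have hS₀top := hM.isSylowIn_top hS₀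
    refine ⟨?_, ?_⟩
    · by_contra hne
      haveI := H1.pCore_normal (G := G) p
      have hn : Subgroup.normalizer (Cfsg.pCore p G : Set G) = ⊤ :=
        Subgroup.normalizer_eq_top_iff.2 inferInstance
      have h1 : Cfsg.pCore p G ≤ S₀ :=
        hS₀top.le_of_normal (H1.pCore_isPGroup p) le_top (by rw [hn])
      have h2 := hM.2.2 _ (h1.trans hS₀.1) (H1.pCore_isPGroup p) hne
      rw [hn, top_le_iff] at h2
      exact hM.1 h2
    · have hU₀ := uniqP_of_SE hdiv hsol hM S₀ hS₀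
      obtain ⟨P₀, hP₀⟩ := H7.exists_sylow_eq hS₀top
      rw [← hP₀] at hU₀
      have hU : H3.UniqP p (P : Subgroup G) := H3.uniqP_pgroup P₀ hU₀ P P.2
      apply S0016.result (G := (P : Subgroup G)) p P.2
      intro H K hH hK
      have h1 := hU (H.map (P : Subgroup G).subtype) (K.map (P : Subgroup G).subtype)
        (Subgroup.map_subtype_le _) (Subgroup.map_subtype_le _)
        (by rw [Subgroup.card_map_of_injective (Subgroup.subtype_injective _), hH])
        (by rw [Subgroup.card_map_of_injective (Subgroup.subtype_injective _), hK])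
      exact Subgroup.map_injective (Subgroup.subtype_injective _) h1
  · rintro ⟨hO, hT⟩
    have hU : H3.UniqP p (P : Subgroup G) := by
      rcases hT with hc | ⟨hp2, n, ⟨e⟩⟩
      · exact H3.uniqP_of_cyclic hc
      · subst hp2
        exact H3.uniqP_of_quaternion _ e
    have hPne : (P : Subgroup G) ≠ ⊥ := P.ne_bot_of_dvd_card hdiv
    have hpT : p ∣ Nat.card (P : Subgroup G) := H7.dvd_card_of_isPGroup_ne_bot P.2 hPne
    obtain ⟨z, hz⟩ := exists_prime_orderOf_dvd_card' (G := (P : Subgroup G)) p hpT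
    have hZT : Subgroup.zpowers (z : G) ≤ P := by rw [Subgroup.zpowers_le]; exact z.2
    have hZc : Nat.card (Subgroup.zpowers (z : G)) = p := by
      rw [Nat.card_zpowers, Subgroup.orderOf_coe, hz]
    exact H3.not_chainConnected_of_SE (H3.se_of_uniqP hO P hU _ hZT hZc)

end Cfsg.Agent.S3057
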