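import Cfsg.Statements.S3058
import Mathlib
import Cfsg.Agent.Lib_helper3_Chain
import Cfsg.Agent.S0058
import Cfsg.Agent.Lib_helper1_SZ
import Cfsg.Agent.Lib_helper1_AbSylow

set_option autoImplicit false
open Cfsg

namespace Cfsg.Agent.S3058

/-- Let p be a prime and G a finite group whose Sylow p-subgroups are not chain-connected through nontrivial intersections (so G has a strongly p-embedded subgroup). If N and M are normal subgroups of G whose orders are both divisible by p, then the order of N ∩ M is divisible by p. Consequently, among the normal subgroups of G whose order is divisible by p there is a smallest one (the intersection of all of them). -/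
theorem result {G : Type*} [Group G] [Finite G]
    (p : ℕ) [Fact p.Prime] (hG : ¬ Cfsg.IsSylowChainConnected p G)
    (N M : Subgroup G) [N.Normal] [M.Normal] (hN : p ∣ Nat.card N) (hM : p ∣ Nat.card M) :
    p ∣ Nat.card ↥(N ⊓ M) := by
  have hp : p.Prime := Fact.out
  obtain ⟨H, hH⟩ := H3.exists_SE_of_not_chainConnected hG
  by_contra hnd
  obtain ⟨S₀, -, hS₀⟩ := H7.exists_isSylowIn_ge (p := p) (Q := ⊥) (H := H) IsPGroup.of_bot bot_le
  have hS₀top := hH.isSylowIn_top hS₀
  have hex : ∀ (L : Subgroup G), L.Normal → p ∣ Nat.card L → ∃ a ∈ S₀, a ∈ L ∧ orderOf a = p := by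
    intro L hL hd
    obtain ⟨x, hxL, hx⟩ := H7.exists_zpowers_of_dvd_card hd
    obtain ⟨g, -, hg⟩ := hS₀top.exists_conj_le (H7.isPGroup_zpowers_of_orderOf hx) le_top
    refine ⟨g * x * g⁻¹, hg ⟨x, Subgroup.mem_zpowers x, rfl⟩, hL.conj_mem x hxL g, ?_⟩
    rw [← hx]
    exact orderOf_injective (MulAut.conj g).toMonoidHom (MulAut.conj g).injective x
  obtain ⟨a, haS, haN, ha⟩ := hex N inferInstance hN
  obtain ⟨b, hbS, hbM, hb⟩ := hex M inferInstance hM
  have hone : ∀ y ∈ S₀, y ∈ N → y ∈ M → y = 1 := by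
    intro y hyS hyN hyM
    obtain ⟨k, hk⟩ := IsPGroup.iff_orderOf.1 hS₀.2.1 ⟨y, hyS⟩
    rw [Subgroup.orderOf_mk] at hk
    have h1 : orderOf y ∣ Nat.card (N ⊓ M : Subgroup G) := by
      rw [← Subgroup.orderOf_mk y (show y ∈ N ⊓ M from ⟨hyN, hyM⟩)]
      exact orderOf_dvd_natCard _
    cases k with
    | zero => rw [pow_zero, orderOf_eq_one_iff] at hk; exact hk
    | succ k =>
      exfalso
      apply hnd
      rw [hk] at h1
      exact (dvd_pow_self p (Nat.succ_ne_zero k)).trans h1
  have hNn : N.Normal := inferInstance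
  have hMn : M.Normal := inferInstance
  have hab : a * b = b * a := by
    have h1 : a * b * a⁻¹ * b⁻¹ = 1 := by
      apply hone
      · exact S₀.mul_mem (S₀.mul_mem (S₀.mul_mem haS hbS) (S₀.inv_mem haS)) (S₀.inv_mem hbS)
      · have : a * b * a⁻¹ * b⁻¹ = a * (b * a⁻¹ * b⁻¹) := by group
        rw [this]
        exact N.mul_mem haN (hNn.conj_mem _ (N.inv_mem haN) b)
      · exact M.mul_mem (hMn.conj_mem _ hbM a) (M.inv_mem hbM)
    rw [mul_inv_eq_one, mul_inv_eq_iff_eq_mul] at h1
    exact h1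
  obtain ⟨E, hE⟩ : ∃ E : Subgroup G, E = Subgroup.closure ({a, b} : Set G) := ⟨_, rfl⟩
  have haE : a ∈ E := by rw [hE]; exact Subgroup.subset_closure (by simp)
  have hbE : b ∈ E := by rw [hE]; exact Subgroup.subset_closure (by simp)
  have hES : E ≤ S₀ := by
    rw [hE, Subgroup.closure_le]
    rintro y (rfl | hy)
    · exact haS
    · rw [Set.mem_singleton_iff] at hy; rw [hy]; exact hbS
  haveI hEc : IsMulCommutative E := by
    rw [hE]
    apply Subgroup.isMulCommutative_closure
    rintro x (rfl | hx) y (rfl | hy)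
    · rfl
    · rw [Set.mem_singleton_iff] at hy; rw [hy]; exact hab
    · rw [Set.mem_singleton_iff] at hx; rw [hx]; exact hab.symm
    · rw [Set.mem_singleton_iff] at hx hy; rw [hx, hy]
  have hEp : IsPGroup p E := hS₀.2.1.to_le hES
  have hEnc : ¬ IsCyclic E := by
    intro hc
    have h1 : Subgroup.zpowers a ≤ Subgroup.zpowers b :=
      H1.le_of_card_dvd_of_le_isCyclic hc (Subgroup.zpowers_le.2 haE) (Subgroup.zpowers_le.2 hbE)
        (by rw [Nat.card_zpowers, Nat.card_zpowers, ha, hb])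
    have h2 : a ∈ M := (Subgroup.zpowers_le.2 hbM) (h1 (Subgroup.mem_zpowers a))
    have h3 := hone a haS haN h2
    rw [h3, orderOf_one] at ha
    exact hp.one_lt.ne ha
  have hcopOf : ∀ R : Subgroup G, IsPGroup p R →
      (Nat.card R).Coprime (Nat.card (N ⊓ M : Subgroup G)) := by
    intro R hR
    obtain ⟨k, hk⟩ := IsPGroup.iff_card.1 hR
    rw [hk]
    exact Nat.Coprime.pow_left k ((Nat.Prime.coprime_iff_not_dvd hp).2 hnd)
  have hDn : ∀ R : Subgroup G, R ≤ Subgroup.normalizer ((N ⊓ M : Subgroup G) : Set G) := by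
    intro R
    rw [Subgroup.normalizer_eq_top]
    exact le_top
  have hgen := S0058.result E (N ⊓ M) hEnc (hDn E) (hcopOf E hEp)
  have hcent := hH.centIn
  have hDH : N ⊓ M ≤ H := by
    rw [← hgen]
    apply iSup₂_le
    rintro e ⟨heE, he1⟩ c hc
    have hc2 : c ∈ Subgroup.centralizer ({e} : Set G) := hc.2
    rw [Subgroup.mem_centralizer_singleton_iff] at hc2
    exact hcent e (hS₀.1 (hES heE)) he1 (hEp.to_le (Subgroup.zpowers_le.2 heE)) c hc2
  have ha1 : a ≠ 1 := H7.ne_one_of_orderOf_eq_prime ha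
  have hzp : IsPGroup p (Subgroup.zpowers a) := H7.isPGroup_zpowers_of_orderOf ha
  have hMH : M ≤ H := by
    intro m hm
    have hsolv : Group.IsSolvable (Subgroup.zpowers a) := by
      haveI := hzp.isNilpotent
      infer_instance
    obtain ⟨d, hd, hmd⟩ := H1.coprime_key (Subgroup.zpowers a) (N ⊓ M) (hDn _) (hcopOf _ hzp)
      (Or.inl hsolv) m (by
        intro a' ha'
        have ha'N : a' ∈ N := (Subgroup.zpowers_le.2 haN) ha'
        refine ⟨?_, ?_⟩
        · have : a'⁻¹ * m⁻¹ * a' * m = a'⁻¹ * (m⁻¹ * a' * m⁻¹⁻¹) := by group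
          rw [this]
          exact N.mul_mem (N.inv_mem ha'N) (hNn.conj_mem _ ha'N _)
        · have : a'⁻¹ * m⁻¹ * a' * m = (a'⁻¹ * m⁻¹ * a'⁻¹⁻¹) * m := by group
          rw [this]
          exact M.mul_mem (hMn.conj_mem _ (M.inv_mem hm) _) hm)
    rw [Subgroup.mem_centralizer_iff] at hmd
    have h1 : m * d ∈ H := hcent a (hS₀.1 haS) ha1 hzp (m * d) (hmd a (Subgroup.mem_zpowers a)).symm
    have h2 := H.mul_mem h1 (H.inv_mem (hDH hd))
    simpa using h2
  apply hH.1
  rw [eq_top_iff]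
  intro g _
  exact hH.mem_of_conj (hS₀.1 hbS) (H7.ne_one_of_orderOf_eq_prime hb)
    (H7.isPGroup_zpowers_of_orderOf hb) (hMH (hMn.conj_mem b hbM g))

end Cfsg.Agent.S3058
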