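import Cfsg.Statements.S3064
import Cfsg.Agent.Lib_helper3_FrobB
import Cfsg.Agent.Lib_helper5_SEF
import Cfsg.Agent.Lib_helper5_Sylow
import Cfsg.Agent.Lib_helper1_Basic

set_option autoImplicit false
open Cfsg

namespace Cfsg.Agent.S3064

open scoped Pointwise

universe u

theorem key (p : ℕ) [Fact p.Prime] : ∀ (n : ℕ) (G : Type u) [Group G] [Finite G], Nat.card G = n →
    ∀ x : G, (∃ k : ℕ, x ^ p ^ k = 1) →
    (∀ (Q : Subgroup G) (g : G), IsPGroup p Q → x ∈ Q → g⁻¹ * x * g ∈ Q → g⁻¹ * x * g = x) →
    (∀ H : Subgroup G, (Nat.card H).Coprime p → (∀ h ∈ H, x * h * x⁻¹ ∈ H) →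
      ∀ h ∈ H, x * h = h * x) →
    x ∈ Subgroup.center G := by
  intro n
  induction n using Nat.strong_induction_on with
  | _ n ih =>
  intro G _ _ hn x hxp hU hb
  by_contra hxc
  set M := Subgroup.centralizer ({x} : Set G) with hM
  have hxM : x ∈ M := Subgroup.mem_centralizer_singleton_iff.2 rfl
  have hcen : (∀ g : G, g⁻¹ * x * g = x) → False := by
    intro h
    apply hxc
    rw [Subgroup.mem_center_iff]
    intro g
    have := h g
    calc g * x = g * (g⁻¹ * x * g) := by rw [this]
      _ = x * g := by group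
  have hMtop : M ≠ ⊤ := by
    intro h
    apply hxc
    rw [Subgroup.mem_center_iff]
    intro g
    have : g ∈ M := h ▸ Subgroup.mem_top g
    exact Subgroup.mem_centralizer_singleton_iff.1 this
  -- induction for subgroups
  have ihS : ∀ H : Subgroup G, H ≠ ⊤ → x ∈ H → H ≤ M := by
    intro H hH hxH
    have hcard : Nat.card H < n := by
      rw [← hn]
      exact H1.card_lt_of_ne_top hH
    have h1 := ih _ hcard ↥H rfl ⟨x, hxH⟩ ?_ ?_ ?_
    · intro h hh
      rw [Subgroup.mem_center_iff] at h1
      have := h1 ⟨h, hh⟩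
      exact Subgroup.mem_centralizer_singleton_iff.2 (congrArg Subtype.val this)
    · obtain ⟨k, hk⟩ := hxp
      exact ⟨k, Subtype.ext (by simpa using hk)⟩
    · intro Q g hQ hx hg
      apply Subtype.ext
      exact hU (Q.map H.subtype) g (hQ.map _) ⟨_, hx, rfl⟩ ⟨_, hg, by simp⟩
    · intro K hK hinv h hh
      apply Subtype.ext
      refine hb (K.map H.subtype) ?_ ?_ h ⟨_, hh, rfl⟩
      · rwa [Nat.card_congr (K.equivMapOfInjective H.subtype H.subtype_injective).symm.toEquiv]
      · rintro _ ⟨k, hk, rfl⟩
        exact ⟨_, hinv k hk, by simp⟩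
  have hxP : IsPGroup p (Subgroup.zpowers x) := H5.isPGroup_zpowers_of_pow hxp
  -- Step 1
  have h1 : ∀ g : G, g⁻¹ * x * g ∈ M → g⁻¹ * x * g = x := by
    intro g hg
    have hy : IsPGroup p (Subgroup.zpowers (g⁻¹ * x * g)) := by
      apply H5.isPGroup_zpowers_of_pow
      obtain ⟨k, hk⟩ := hxp
      refine ⟨k, ?_⟩
      have : (g⁻¹ * x * g) ^ p ^ k = g⁻¹ * x ^ p ^ k * g := by
        have := conj_pow (a := g⁻¹) (b := x) (i := p ^ k)
        simpa using this
      rw [this, hk]; group
    have hQ : IsPGroup p (Subgroup.zpowers x ⊔ Subgroup.zpowers (g⁻¹ * x * g) : Subgroup G) := by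
      apply IsPGroup.to_sup_of_normal_right' hxP hy
      refine le_trans ?_ (Subgroup.centralizer_le_normalizer _)
      rw [Subgroup.zpowers_le, Subgroup.mem_centralizer_iff]
      rintro _ ⟨k, rfl⟩
      have hc : Commute (g⁻¹ * x * g) x := Subgroup.mem_centralizer_singleton_iff.1 hg
      exact (hc.zpow_left k)
    exact hU _ g hQ (Subgroup.mem_sup_left (Subgroup.mem_zpowers x))
      (Subgroup.mem_sup_right (Subgroup.mem_zpowers _))
  -- Step 2
  have h2 : Subgroup.normalClosure ({x} : Set G) = ⊤ := by
    by_contra hX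
    have hle := ihS _ hX (Subgroup.subset_normalClosure rfl)
    apply hcen
    intro g
    apply h1
    apply hle
    have := (Subgroup.normalClosure_normal (s := ({x} : Set G))).conj_mem x
      (Subgroup.subset_normalClosure rfl) g⁻¹
    simpa using this
  -- Sylow subgroup in M
  obtain ⟨P, hP⟩ := hxP.exists_le_sylow
  have hxPm : x ∈ P := hP (Subgroup.mem_zpowers x)
  have hPM : (P : Subgroup G) ≤ M := by
    intro s hs
    have := hU P s P.2 hxPm (P.mul_mem (P.mul_mem (P.inv_mem hs) hxPm) hs)
    rw [hM, Subgroup.mem_centralizer_singleton_iff]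
    calc s * x = s * (s⁻¹ * x * s) := by rw [this]
      _ = x * s := by group
  have hZM : Subgroup.center G ≤ M := by
    intro z hz
    exact Subgroup.mem_centralizer_singleton_iff.2 ((Subgroup.mem_center_iff.1 hz x).symm)
  -- a normal p'-subgroup complementing something inside M is impossible
  have hcompl : ∀ (N K : Subgroup G), N.Normal → Subgroup.IsComplement' N K → (P : Subgroup G) ≤ K →
      K ≤ M → False := by
    intro N K hN hc hPK hKM
    have hcop : (Nat.card N).Coprime p := by
      rw [← hc.index_eq_card, Nat.coprime_comm, (Fact.out : p.Prime).coprime_iff_not_dvd]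
      intro hd
      exact P.not_dvd_index (hd.trans (Subgroup.index_dvd_of_le hPK))
    have hNM : N ≤ M := by
      intro h hh
      exact Subgroup.mem_centralizer_singleton_iff.2 (hb N hcop (fun h hh => hN.conj_mem h hh x) h hh).symm
    apply hMtop
    rw [eq_top_iff, ← hc.sup_eq_top]
    exact sup_le hNM hKM
  -- Step 4
  have h4 : ∀ g : G, g ∉ M → M ⊓ (MulAut.conj g • M) ≤ Subgroup.center G := by
    intro g hg
    set D := M ⊓ (MulAut.conj g • M) with hD
    have hxD : x ∈ Subgroup.centralizer (D : Set G) := by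
      rw [Subgroup.mem_centralizer_iff]
      intro d hd
      exact Subgroup.mem_centralizer_singleton_iff.1 hd.1
    have hgD : g * x * g⁻¹ ∈ Subgroup.centralizer (D : Set G) := by
      rw [Subgroup.mem_centralizer_iff]
      intro d hd
      obtain ⟨m, hm, rfl⟩ := hd.2
      have hm' : m * x = x * m := Subgroup.mem_centralizer_singleton_iff.1 hm
      change g * m * g⁻¹ * (g * x * g⁻¹) = g * x * g⁻¹ * (g * m * g⁻¹)
      calc g * m * g⁻¹ * (g * x * g⁻¹) = g * (m * x) * g⁻¹ := by group
        _ = g * (x * m) * g⁻¹ := by rw [hm']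
        _ = g * x * g⁻¹ * (g * m * g⁻¹) := by group
    by_cases hN : Subgroup.normalizer (D : Set G) = ⊤
    · intro d hd
      have hle : Subgroup.normalClosure ({x} : Set G) ≤ Subgroup.centralizer ({d} : Set G) := by
        rw [Subgroup.normalClosure, Subgroup.closure_le]
        intro y hy
        rw [Group.mem_conjugatesOfSet_iff] at hy
        obtain ⟨a, ha, hc⟩ := hy
        rw [Set.mem_singleton_iff] at ha
        subst ha
        obtain ⟨k, rfl⟩ := isConj_iff.1 hc
        have hk : k⁻¹ ∈ Subgroup.normalizer (D : Set G) := hN ▸ Subgroup.mem_top _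
        have h5 : k⁻¹ * d * k⁻¹⁻¹ ∈ D := (Subgroup.mem_normalizer_iff.1 hk d).1 hd
        have h6 : k⁻¹ * d * k⁻¹⁻¹ * a = a * (k⁻¹ * d * k⁻¹⁻¹) :=
          Subgroup.mem_centralizer_singleton_iff.1 h5.1
        change k * a * k⁻¹ ∈ Subgroup.centralizer ({d} : Set G)
        rw [Subgroup.mem_centralizer_singleton_iff]
        calc k * a * k⁻¹ * d = k * (a * (k⁻¹ * d * k⁻¹⁻¹)) * k⁻¹ := by group
          _ = k * (k⁻¹ * d * k⁻¹⁻¹ * a) * k⁻¹ := by rw [h6]
          _ = d * (k * a * k⁻¹) := by group
      rw [h2] at hle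
      rw [Subgroup.mem_center_iff]
      intro y
      exact Subgroup.mem_centralizer_singleton_iff.1 (hle (Subgroup.mem_top y))
    · exfalso
      have hle := ihS _ hN (Subgroup.centralizer_le_normalizer _ hxD)
      have h5 := hle (Subgroup.centralizer_le_normalizer _ hgD)
      have h6 := h1 g⁻¹ (by simpa using h5)
      apply hg
      rw [hM, Subgroup.mem_centralizer_singleton_iff]
      rw [inv_inv] at h6
      calc g * x = g * x * g⁻¹ * g := by group
        _ = x * g := by rw [h6]
  by_cases hZ : Subgroup.center G = ⊥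
  · have hF : Cfsg.IsFrobeniusComplement M := by
      refine ⟨?_, hMtop, fun g hg => ?_⟩
      · intro hb'
        rw [hb', Subgroup.mem_bot] at hxM
        apply hxc
        rw [hxM]
        exact Subgroup.one_mem _
      · rw [eq_bot_iff, ← hZ]
        exact h4 g hg
    obtain ⟨N, -, hNn, hNc⟩ := H3.frobenius_theorem M hF
    exact hcompl N M hNn hNc hPM le_rfl
  · set Z := Subgroup.center G with hZdef
    have hcard : Nat.card (G ⧸ Z) < n := hn ▸ H1.card_quotient_lt hZ
    have h7 := ih _ hcard (G ⧸ Z) rfl (x : G ⧸ Z) ?_ ?_ ?_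
    · apply hcen
      intro g
      apply h1
      rw [Subgroup.mem_center_iff] at h7
      have h8 := h7 (g : G ⧸ Z)
      have h9 : x⁻¹ * (g⁻¹ * x * g) ∈ Z := by
        rw [← QuotientGroup.eq, QuotientGroup.mk_mul, QuotientGroup.mk_mul, QuotientGroup.mk_inv,
          mul_assoc, ← h8]
        group
      rw [hM, Subgroup.mem_centralizer_singleton_iff]
      have h10 := Subgroup.mem_center_iff.1 h9 x
      calc g⁻¹ * x * g * x = x * ((x⁻¹ * (g⁻¹ * x * g)) * x) := by group
        _ = x * (x * (x⁻¹ * (g⁻¹ * x * g))) := by rw [h10]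
        _ = x * (g⁻¹ * x * g) := by group
    · obtain ⟨k, hk⟩ := hxp
      exact ⟨k, by rw [← QuotientGroup.mk_pow, hk]; rfl⟩
    · intro Q g hQ hx hg
      obtain ⟨g, rfl⟩ := QuotientGroup.mk_surjective g
      by_cases hQt : Q.comap (QuotientGroup.mk' Z) = ⊤
      · exfalso
        have hQ' : Q = ⊤ := by
          rw [eq_top_iff]; intro y _
          obtain ⟨y, rfl⟩ := QuotientGroup.mk_surjective y
          have : y ∈ Q.comap (QuotientGroup.mk' Z) := hQt ▸ Subgroup.mem_top y
          exact this
        have hpG : IsPGroup p (G ⧸ Z) := by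
          subst hQ'; exact hQ.of_equiv Subgroup.topEquiv
        obtain ⟨k, hk⟩ := IsPGroup.iff_card.1 hpG
        have hidx : Z.index = p ^ k := by rw [Subgroup.index_eq_card]; exact hk
        have h8 : ((P : Subgroup G) ⊔ Z).index = 1 := by
          have d1 : ((P : Subgroup G) ⊔ Z).index ∣ (P : Subgroup G).index :=
            Subgroup.index_dvd_of_le le_sup_left
          have d2 : ((P : Subgroup G) ⊔ Z).index ∣ p ^ k :=
            hidx ▸ Subgroup.index_dvd_of_le le_sup_right
          have hc : Nat.Coprime (P : Subgroup G).index (p ^ k) :=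
            Nat.Coprime.pow_right _
              (Nat.coprime_comm.1 ((Fact.out : p.Prime).coprime_iff_not_dvd.2 P.not_dvd_index))
          exact Nat.eq_one_of_dvd_coprimes hc d1 d2
        apply hMtop
        rw [eq_top_iff, ← Subgroup.index_eq_one.1 h8]
        exact sup_le hPM hZM
      · have hle := ihS _ hQt hx
        have := h1 g (hle (by simpa using hg))
        rw [← QuotientGroup.mk_inv, ← QuotientGroup.mk_mul, ← QuotientGroup.mk_mul, this]
    · intro H hH hinv h hh
      obtain ⟨h, rfl⟩ := QuotientGroup.mk_surjective h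
      set H' := H.comap (QuotientGroup.mk' Z) with hH'
      have hxN : x ∈ Subgroup.normalizer (H' : Set G) := by
        rw [Subgroup.mem_normalizer_iff_map_conj_eq]
        apply Subgroup.eq_of_le_of_card_ge
        · rintro _ ⟨y, hy, rfl⟩
          have := hinv (y : G ⧸ Z) hy
          exact this
        · exact (Subgroup.card_map_of_injective (MulAut.conj x).injective).ge
      by_cases hK : H' ⊔ Subgroup.zpowers x = ⊤
      · exfalso
        have hHn : H'.Normal := by
          rw [← Subgroup.normalizer_eq_top_iff, eq_top_iff, ← hK]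
          exact sup_le Subgroup.le_normalizer (by rw [Subgroup.zpowers_le]; exact hxN)
        have hdec : ∀ s ∈ P, ∃ z ∈ Z, ∃ c ∈ Subgroup.zpowers x, z * c = s := by
          intro s hs
          have hs' : s ∈ H' ⊔ Subgroup.zpowers x := hK ▸ Subgroup.mem_top s
          obtain ⟨y, hy, c, hc, rfl⟩ := Subgroup.mem_sup_of_normal_left.1 hs'
          refine ⟨y, ?_, c, hc, rfl⟩
          have hyP : y ∈ P := by
            have := P.mul_mem hs (P.inv_mem (hP hc))
            rwa [mul_inv_cancel_right] at this
          obtain ⟨k, hk⟩ := P.2 ⟨y, hyP⟩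
          have hk' : y ^ p ^ k = 1 := by simpa using congrArg Subtype.val hk
          have ho1 : orderOf (⟨(y : G ⧸ Z), hy⟩ : ↥H) ∣ p ^ k := by
            apply orderOf_dvd_of_pow_eq_one
            apply Subtype.ext
            change (y : G ⧸ Z) ^ p ^ k = 1
            rw [← QuotientGroup.mk_pow, hk']; rfl
          have ho2 : orderOf (⟨(y : G ⧸ Z), hy⟩ : ↥H) ∣ Nat.card H := orderOf_dvd_natCard _
          have ho3 := Nat.eq_one_of_dvd_coprimes (Nat.Coprime.pow_right k hH) ho2 ho1
          rw [orderOf_eq_one_iff] at ho3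
          have : (y : G ⧸ Z) = 1 := congrArg Subtype.val ho3
          exact (QuotientGroup.eq_one_iff y).1 this
        have hNC : Subgroup.normalizer ((P : Subgroup G) : Set G) ≤
            Subgroup.centralizer ((P : Subgroup G) : Set G) := by
          intro m hm
          have hm1 : m⁻¹ * x * m ∈ P := by
            have := (Subgroup.mem_normalizer_iff.1 (Subgroup.inv_mem _ hm) x).1 hxPm
            rwa [inv_inv] at this
          have hm2 := hU P m P.2 hxPm hm1
          have hm3 : Commute x m := by
            change x * m = m * x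
            calc x * m = m * (m⁻¹ * x * m) := by group
              _ = m * x := by rw [hm2]
          rw [Subgroup.mem_centralizer_iff]
          intro s hs
          obtain ⟨z, hz, c, ⟨j, rfl⟩, rfl⟩ := hdec s hs
          have hz' := Subgroup.mem_center_iff.1 hz m
          have hc' : Commute (x ^ j) m := hm3.zpow_left j
          calc z * x ^ j * m = z * (x ^ j * m) := by group
            _ = z * (m * x ^ j) := by rw [hc'.eq]
            _ = (z * m) * x ^ j := by group
            _ = (m * z) * x ^ j := by rw [hz']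
            _ = m * (z * x ^ j) := by group
        exact hcompl _ P (MonoidHom.normal_ker _) (MonoidHom.ker_transferSylow_isComplement' P hNC)
          le_rfl hPM
      · have hle := ihS _ hK (Subgroup.mem_sup_right (Subgroup.mem_zpowers x))
        have h8 : h ∈ M := hle (Subgroup.mem_sup_left hh)
        have h9 : h * x = x * h := Subgroup.mem_centralizer_singleton_iff.1 h8
        rw [← QuotientGroup.mk_mul, ← QuotientGroup.mk_mul, h9]

/-- Let S be a Sylow p-subgroup of the finite group G and x an element of S such that (i) x is the only G-conjugate of x lying in S, and (ii) x centralizes every subgroup of order prime to p that it normalizes. Then x lies in the centre of G. -/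
theorem result {G : Type*} [Group G] [Finite G] {p : ℕ} [Fact p.Prime]
    (S : Sylow p G) (x : G) (hx : x ∈ S)
    (hU : ∀ g : G, g⁻¹ * x * g ∈ S → g⁻¹ * x * g = x)
    (hb : ∀ H : Subgroup G, (Nat.card H).Coprime p → (∀ h ∈ H, x * h * x⁻¹ ∈ H) → ∀ h ∈ H, x * h = h * x) :
    x ∈ Subgroup.center G := by
  refine key p _ G rfl x ?_ ?_ hb
  · obtain ⟨k, hk⟩ := S.2 ⟨x, hx⟩
    exact ⟨k, by simpa using congrArg Subtype.val hk⟩
  · intro Q g hQ hxQ hgQ
    obtain ⟨a, ha⟩ := H5.exists_conj_mem_sylow S Q hQ
    set c := a⁻¹ with hc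
    have e1 : c⁻¹ * x * c ∈ S := by
      have := ha x hxQ
      simpa [hc] using this
    have e2 : (g * c)⁻¹ * x * (g * c) ∈ S := by
      have := ha _ hgQ
      simpa [hc, mul_assoc] using this
    have e3 := hU c e1
    have e4 := hU (g * c) e2
    calc g⁻¹ * x * g = c * ((g * c)⁻¹ * x * (g * c)) * c⁻¹ := by group
      _ = c * (c⁻¹ * x * c) * c⁻¹ := by rw [e4, e3]
      _ = x := by group

end Cfsg.Agent.S3064
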