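import Cfsg.Statements.S3078
import Cfsg.Agent.Lib_helper8_FusCT

set_option autoImplicit false
open Cfsg

namespace Cfsg.Agent.S3078

/-- A replacement Theorem for abelian subgroups of p-groups, p odd. Let G be a finite p-group with p odd, A an abelian subgroup of G, and B a subgroup of nilpotency class at most 2 with [B, B] ≤ A, such that A normalizes B but B does not normalize A. Then there is an abelian subgroup A* of G of the same order as A with A ∩ B strictly contained in A* ∩ B, A* contained in N_G(A) and in the normal closure of A, the exponent of A* dividing the exponent of A, and with the subgroup generated by the elements of order dividing p in A of order at most that of the corresponding subgroup of A* (the rank of A is at most the rank of A*). -/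
theorem result {G : Type*} [Group G] [Finite G] {p : ℕ} [Fact p.Prime] (hp : p ≠ 2) (hG : IsPGroup p G) (A B : Subgroup G) (hA : IsMulCommutative A) (hB2 : ⁅⁅B, B⁆, B⁆ = ⊥) (hBA : ⁅B, B⁆ ≤ A) (hAB : A ≤ Subgroup.normalizer (B : Set G)) (hBnA : ¬ B ≤ Subgroup.normalizer (A : Set G)) : ∃ Astar : Subgroup G, IsMulCommutative Astar ∧ Nat.card Astar = Nat.card A ∧ A ⊓ B < Astar ⊓ B ∧ Astar ≤ Subgroup.normalizer (A : Set G) ∧ Astar ≤ Subgroup.normalClosure (A : Set G) ∧ Monoid.exponent Astar ∣ Monoid.exponent A ∧ Nat.card (Cfsg.omegaOne p A) ≤ Nat.card (Cfsg.omegaOne p Astar) := by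
  have hpr : p.Prime := Fact.out
  obtain ⟨A', h1, h2, h3, h4, -, h6, h7, h8⟩ := Cfsg.Agent.H8.exists_replacement' hp
    (A := A) (B := B) (hG.to_subgroup _) (Cfsg.Agent.H8.ab_of_isMulCommutative hA) hAB
    (Cfsg.Agent.H8.cl2_of_commutator hB2) (Cfsg.Agent.H8.commutator_le_iff_cm.1 hBA) hBnA
  refine ⟨A', Cfsg.Agent.H8.isMulCommutative_of_ab h1, h2, h3, h4, ?_, ?_, h8⟩
  · exact h6 _ Subgroup.le_normalClosure
      (fun y _ d hd => Subgroup.normalClosure_normal.conj_mem d hd y)
  · have hodd : Odd (Monoid.exponent A) := by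
      obtain ⟨k, hk⟩ := (hG.to_subgroup A).exists_card_eq
      have hd : Monoid.exponent A ∣ p ^ k := hk ▸ Group.exponent_dvd_nat_card
      obtain ⟨j, -, hj⟩ := (Nat.dvd_prime_pow hpr).1 hd
      rw [hj]
      exact (hpr.odd_of_ne_two hp).pow
    apply Monoid.exponent_dvd_of_forall_pow_eq_one
    intro x
    apply Subtype.ext
    have := h7 _ hodd (fun a ha => by
      have := Monoid.pow_exponent_eq_one (⟨a, ha⟩ : A)
      simpa using congrArg Subtype.val this) x x.2
    simpa using this

end Cfsg.Agent.S3078
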