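import Mathlib
import Cfsg.Statements.S3087

set_option autoImplicit false
open Cfsg

namespace Cfsg.Agent.S3087


/-- Let p be a prime, G a finite group acting linearly on a finite vector space V over the field with p elements, W a G-invariant subspace, and A a subgroup of G with |A|·|C_V(A)| ≥ |B|·|C_V(B)| for every subgroup B of A. Then |A|·|C_W(A)| ≥ |B|·|C_W(B)| for every subgroup B of A that contains C_A(W); that is, the image of A in the group induced on W satisfies the same maximality condition. -/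
theorem result {G V : Type*} [Group G] [Finite G] [AddCommGroup V] [Finite V] (p : ℕ) [Fact p.Prime] [Module (ZMod p) V]
    (ρ : Representation (ZMod p) G V) (W : Submodule (ZMod p) V) (hW : ∀ g : G, ∀ w ∈ W, ρ g w ∈ W)
    (A : Subgroup G)
    (hP : ∀ B : Subgroup G, B ≤ A →
      Nat.card ↥B * Nat.card {v : V // ∀ b ∈ B, ρ b v = v} ≤ Nat.card ↥A * Nat.card {v : V // ∀ a ∈ A, ρ a v = v})
    (B : Subgroup G) (hBA : B ≤ A) (hCB : ∀ a ∈ A, (∀ w ∈ W, ρ a w = w) → a ∈ B) :
    Nat.card ↥B * Nat.card {w : W // ∀ b ∈ B, ρ b w = w} ≤ Nat.card ↥A * Nat.card {w : W // ∀ a ∈ A, ρ a w = w} := by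
  classical
  let CV : Subgroup G → Submodule (ZMod p) V := fun S =>
    { carrier := {v | ∀ s ∈ S, ρ s v = v}
      add_mem' := fun {a b} ha hb s hs => by rw [map_add, ha s hs, hb s hs]
      zero_mem' := fun s _ => map_zero _
      smul_mem' := fun c v hv s hs => by rw [map_smul, hv s hs] }
  have hmem : ∀ S v, v ∈ CV S ↔ ∀ s ∈ S, ρ s v = v := fun S v => Iff.rfl
  have hcV : ∀ S : Subgroup G, Nat.card {v : V // ∀ b ∈ S, ρ b v = v} = Nat.card (CV S) :=
    fun S => rfl
  have hcW : ∀ S : Subgroup G, Nat.card {w : W // ∀ b ∈ S, ρ b w = w} =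
      Nat.card (W ⊓ CV S : Submodule (ZMod p) V) := by
    intro S
    apply Nat.card_congr
    exact ⟨fun w => ⟨w.1.1, w.1.2, w.2⟩, fun v => ⟨⟨v.1, v.2.1⟩, v.2.2⟩, fun _ => rfl, fun _ => rfl⟩
  rw [hcW, hcW]
  have hP' := hP B hBA
  rw [hcV, hcV] at hP'
  have hcard : ∀ M : Submodule (ZMod p) V, Nat.card M = p ^ Module.finrank (ZMod p) M := by
    intro M
    rw [Module.natCard_eq_pow_finrank (K := ZMod p), Nat.card_zmod]
  have hmono : CV A ≤ CV B := fun v hv s hs => hv s (hBA hs)
  have h1 := Submodule.finrank_sup_add_finrank_inf_eq (W ⊓ CV B) (CV A)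
  have h2 : Module.finrank (ZMod p) ((W ⊓ CV B) ⊔ CV A : Submodule (ZMod p) V) ≤
      Module.finrank (ZMod p) (CV B) := Submodule.finrank_mono (sup_le inf_le_right hmono)
  have h3 : Module.finrank (ZMod p) ((W ⊓ CV B) ⊓ CV A : Submodule (ZMod p) V) ≤
      Module.finrank (ZMod p) (W ⊓ CV A : Submodule (ZMod p) V) :=
    Submodule.finrank_mono (le_inf (inf_le_left.trans inf_le_left) inf_le_right)
  have hp : 0 < p := (Fact.out : p.Prime).pos
  have h4 : Nat.card (W ⊓ CV B : Submodule (ZMod p) V) * Nat.card (CV A) ≤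
      Nat.card (CV B) * Nat.card (W ⊓ CV A : Submodule (ZMod p) V) := by
    rw [hcard, hcard, hcard, hcard, ← pow_add, ← pow_add]
    exact Nat.pow_le_pow_right hp (by omega)
  have hpos : 0 < Nat.card (CV A) := Nat.card_pos
  apply Nat.le_of_mul_le_mul_right _ hpos
  calc Nat.card B * Nat.card (W ⊓ CV B : Submodule (ZMod p) V) * Nat.card (CV A)
      = Nat.card B * (Nat.card (W ⊓ CV B : Submodule (ZMod p) V) * Nat.card (CV A)) := by ring
    _ ≤ Nat.card B * (Nat.card (CV B) * Nat.card (W ⊓ CV A : Submodule (ZMod p) V)) :=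
        Nat.mul_le_mul_left _ h4
    _ = (Nat.card B * Nat.card (CV B)) * Nat.card (W ⊓ CV A : Submodule (ZMod p) V) := by ring
    _ ≤ (Nat.card A * Nat.card (CV A)) * Nat.card (W ⊓ CV A : Submodule (ZMod p) V) :=
        Nat.mul_le_mul_right _ hP'
    _ = _ := by ring

end Cfsg.Agent.S3087
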