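import Cfsg.Statements.S3155
import Mathlib

set_option autoImplicit false
open Cfsg

namespace Cfsg.Agent.S3155

/-- Let B be the direct product of three cyclic groups of order 4. Then the automorphism of B inverting every element is not the square of any automorphism of B. -/
theorem result {B : Type*} [CommGroup B] [Finite B] (hB : Nonempty (B ≃* Multiplicative (ZMod 4 × ZMod 4 × ZMod 4)))
    (τ : B ≃* B) : τ.trans τ ≠ MulEquiv.inv B := by
  obtain ⟨e⟩ := hB
  intro h
  let M := ZMod 4 × ZMod 4 × ZMod 4
  let f₁ : M →+ M :=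
    { toFun := fun x => Multiplicative.toAdd (e (τ (e.symm (Multiplicative.ofAdd x))))
      map_zero' := by simp
      map_add' := fun x y => by simp [ofAdd_add] }
  let f : M →ₗ[ZMod 4] M := f₁.toZModLinearMap 4
  have hf : ∀ x : M, f x = Multiplicative.toAdd (e (τ (e.symm (Multiplicative.ofAdd x)))) := fun x => rfl
  have hff : f ∘ₗ f = (-1 : ZMod 4) • LinearMap.id := by
    apply LinearMap.ext
    intro x
    rw [LinearMap.comp_apply, hf, hf]
    simp only [ofAdd_toAdd, MulEquiv.symm_apply_apply]
    have h2 : τ (τ (e.symm (Multiplicative.ofAdd x))) = (e.symm (Multiplicative.ofAdd x))⁻¹ :=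
      DFunLike.congr_fun h _
    rw [h2, map_inv, MulEquiv.apply_symm_apply]
    simp
  have hdet := congrArg LinearMap.det hff
  rw [LinearMap.det_comp, LinearMap.det_smul, LinearMap.det_id] at hdet
  have hfr : Module.finrank (ZMod 4) M = 3 := by
    haveI : Fact (1 < 4) := ⟨by norm_num⟩
    show Module.finrank (ZMod 4) (ZMod 4 × ZMod 4 × ZMod 4) = 3
    rw [Module.finrank_prod, Module.finrank_prod, Module.finrank_self]
  rw [hfr] at hdet
  revert hdet
  generalize LinearMap.det f = d
  revert d
  decide

end Cfsg.Agent.S3155
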