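import Cfsg.Statements.S3178
import Cfsg.Agent.Lib_helper7_TT3
import Cfsg.Agent.S0086
import Cfsg.Agent.Lib_helper1_Hall

set_option autoImplicit false
open Cfsg

namespace Cfsg.Agent.S3178

/-- Groups with a modular Sylow 2-subgroup have a normal 2-complement. Let S, of order 2^(n+1) with n ≥ 3, be a Sylow 2-subgroup of a finite group G, and suppose S contains an element a of order 2^n and an involution b with b a b⁻¹ = a^(2^(n-1) + 1); so S is the non-abelian 2-group with a cyclic subgroup of index 2 that is neither dihedral, semidihedral nor generalized quaternion. Then G has a normal 2-complement. -/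
theorem result {G : Type*} [Group G] [Finite G]
    (S : Sylow 2 G) (n : ℕ) (hn : 3 ≤ n) (hS : Nat.card ↥(S : Subgroup G) = 2 ^ (n + 1))
    (a b : G) (ha : a ∈ (S : Subgroup G)) (hb : b ∈ (S : Subgroup G))
    (hao : orderOf a = 2 ^ n) (hbo : orderOf b = 2) (hrel : b * a * b⁻¹ = a ^ (2 ^ (n - 1) + 1)) :
    Cfsg.HasNormalPComplement 2 G := by
  haveI : Fact (Nat.Prime 2) := ⟨Nat.prime_two⟩
  obtain ⟨m, rfl⟩ : ∃ m, n = m + 3 := ⟨n - 3, by omega⟩
  have hrel' : b * a * b⁻¹ = a ^ (2 ^ (m + 2) + 1) := hrel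
  have hb2 : b ^ 2 = 1 := by rw [← hbo, pow_orderOf_eq_one]
  have hb1 : b ≠ 1 := by
    intro h
    rw [h, orderOf_one] at hbo
    norm_num at hbo
  have ha1 : a ^ (2 ^ (m + 3)) = 1 := by rw [← hao, pow_orderOf_eq_one]
  obtain ⟨z, hz⟩ : ∃ z, z = a ^ (2 ^ (m + 2)) := ⟨_, rfl⟩
  have hz2 : z ^ 2 = 1 := by rw [hz, ← pow_mul, ← pow_succ, ha1]
  have hz1 : z ≠ 1 := by
    rw [hz]
    apply pow_ne_one_of_lt_orderOf (by positivity)
    rw [hao]
    exact Nat.pow_lt_pow_right (by norm_num) (by omega)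
  have hzA : z ∈ Subgroup.zpowers a := hz ▸ pow_mem (Subgroup.mem_zpowers a) _
  have hAS : Subgroup.zpowers a ≤ (S : Subgroup G) := Subgroup.zpowers_le.2 ha
  have hbA : b ∉ Subgroup.zpowers a := by
    rintro ⟨i, hi⟩
    have hi' : a ^ i = b := hi
    have h1 : b * a * b⁻¹ = a := by rw [← hi']; group
    rw [hrel', pow_succ, ← hz] at h1
    exact hz1 (mul_eq_right.1 h1)
  have hrel2 : (Subgroup.zpowers a).relIndex (S : Subgroup G) = 2 := by
    have h1 := H1.relIndex_mul_card' hAS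
    rw [Nat.card_zpowers, hao, hS, pow_succ 2 (m + 3)] at h1
    exact Nat.eq_of_mul_eq_mul_right (by positivity) (h1.trans (mul_comm _ _))
  haveI hTn : ((Subgroup.zpowers a).subgroupOf (S : Subgroup G)).Normal :=
    Subgroup.normal_of_index_eq_two hrel2
  have hcardq : Nat.card (↥(S : Subgroup G) ⧸ (Subgroup.zpowers a).subgroupOf (S : Subgroup G)) = 2 := by
    rw [← Subgroup.index_eq_card]; exact hrel2
  have hcyc : IsCyclic (↥(S : Subgroup G) ⧸ (Subgroup.zpowers a).subgroupOf (S : Subgroup G)) :=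
    isCyclic_of_prime_card hcardq
  have huniq : ∀ x ∈ Subgroup.zpowers a, x ^ 2 = 1 → x ≠ 1 → x = z := by
    intro x hx hx2 hx1
    have := H7.cyclic_involution_unique (A := Subgroup.zpowers a) (a := ⟨x, hx⟩) (b := ⟨z, hzA⟩)
      (Subtype.ext (by simpa using hx2)) (Subtype.ext (by simpa using hz2))
      (fun h => hx1 (congrArg Subtype.val h)) (fun h => hz1 (congrArg Subtype.val h))
    exact congrArg Subtype.val this
  have hsqA : ∀ w ∈ (S : Subgroup G), w ^ 2 ∈ Subgroup.zpowers a := by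
    intro w hw
    have := Subgroup.sq_mem_of_index_two hrel2 (⟨w, hw⟩ : (S : Subgroup G))
    rw [Subgroup.mem_subgroupOf] at this
    simpa using this
  have ha2b : a ^ 2 * b = b * a ^ 2 := by
    have h1 : b * a ^ 2 * b⁻¹ = a ^ 2 := by
      rw [← conj_pow, hrel', ← pow_mul]
      have : (2 ^ (m + 2) + 1) * 2 = 2 ^ (m + 3) + 2 := by ring
      rw [this, pow_add, ha1, one_mul]
    exact (mul_inv_eq_iff_eq_mul.1 h1).symm
  have hexN : ∃ N : Subgroup G, N.Normal ∧ N.index = 2 ∧ b ∉ N := by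
    by_contra hcon
    push Not at hcon
    obtain ⟨g, hg1, -, hg3⟩ := H7.thompson_transfer_extremal_idx S (Subgroup.zpowers a) hAS hcyc b
      hbo hb hbA (by
        intro N hNn hNi
        rw [hcardq] at hNi
        rcases (Nat.dvd_prime Nat.prime_two).1 hNi with h | h
        · rw [Subgroup.index_eq_one] at h; exact h ▸ Subgroup.mem_top b
        · exact hcon N hNn h)
    have hne : ∀ x : G, x ≠ 1 → g * x * g⁻¹ ≠ 1 := by
      intro x hx h
      apply hx
      have : x = g⁻¹ * (g * x * g⁻¹) * g := by group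
      rw [this, h]; group
    have h1 : g * b * g⁻¹ = z := huniq _ hg1 (by rw [conj_pow, hb2]; group) (hne b hb1)
    have ha2 : a ^ 2 ∈ (S : Subgroup G) ⊓ Subgroup.centralizer {b} :=
      ⟨pow_mem ha 2, Subgroup.mem_centralizer_singleton_iff.2 ha2b⟩
    have h2 : g * a ^ 2 * g⁻¹ ∈ (S : Subgroup G) := (hg3 ⟨a ^ 2, ha2, rfl⟩).1
    have h3 := hsqA _ h2
    have h4 : ((g * a ^ 2 * g⁻¹) ^ 2) ^ (2 ^ m) = g * z * g⁻¹ := by
      rw [conj_pow, conj_pow, ← pow_mul, ← pow_mul, hz]
      congr 3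
      ring
    have h5 : g * z * g⁻¹ ∈ Subgroup.zpowers a := by rw [← h4]; exact pow_mem h3 _
    have h6 : g * z * g⁻¹ = z := huniq _ h5 (by rw [conj_pow, hz2]; group) (hne z hz1)
    have h7 : z = b := by
      have := h6.trans h1.symm
      simpa using this
    exact hbA (h7 ▸ hzA)
  obtain ⟨N, hNn, hNi, hbN⟩ := hexN
  have hcardPn : Nat.card ↥(N ⊓ (S : Subgroup G)) = 2 ^ (m + 3) := by
    have h2 : N.relIndex (S : Subgroup G) ∣ 2 := by
      have := Subgroup.relIndex_dvd_index_of_normal N (S : Subgroup G)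
      rwa [hNi] at this
    have h3 : N.relIndex (S : Subgroup G) = 2 := by
      rcases (Nat.dvd_prime Nat.prime_two).1 h2 with h | h
      · exact absurd (Subgroup.relIndex_eq_one.1 h hb) hbN
      · exact h
    have h4 := H1.relIndex_mul_card' (inf_le_right : N ⊓ (S : Subgroup G) ≤ S)
    rw [Subgroup.inf_relIndex_right, h3, hS, pow_succ 2 (m + 3), mul_comm] at h4
    exact Nat.eq_of_mul_eq_mul_right (by norm_num) h4
  have hPn : IsCyclic ↥(N ⊓ (S : Subgroup G)) := by
    obtain ⟨x, hxN, hxS, hxo⟩ : ∃ x, x ∈ N ∧ x ∈ (S : Subgroup G) ∧ orderOf x = 2 ^ (m + 3) := by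
      by_cases haN : a ∈ N
      · exact ⟨a, haN, ha, hao⟩
      · refine ⟨a * b, (Subgroup.mul_mem_iff_of_index_two hNi).2 (iff_of_false haN hbN),
          mul_mem ha hb, ?_⟩
        have e1 : (a * b) ^ 2 = a ^ (2 ^ (m + 2) + 2) := by
          have : (a * b) ^ 2 = a * (b * a * b⁻¹) * b ^ 2 := by rw [pow_two, pow_two]; group
          rw [this, hrel', hb2, mul_one, ← pow_succ']
        have e2 : (a * b) ^ (2 ^ (m + 2)) = z := by
          have : 2 ^ (m + 2) = 2 * 2 ^ (m + 1) := by ring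
          rw [this, pow_mul, e1, ← pow_mul]
          have : (2 ^ (m + 2) + 2) * 2 ^ (m + 1) = 2 ^ (m + 3) * 2 ^ m + 2 ^ (m + 2) := by ring
          rw [this, pow_add, pow_mul, ha1, one_pow, one_mul, hz]
        apply orderOf_eq_prime_pow
        · rw [e2]; exact hz1
        · rw [pow_succ, pow_mul, e2, hz2]
    have h1 : Subgroup.zpowers x = N ⊓ (S : Subgroup G) :=
      Subgroup.eq_of_le_of_card_ge (Subgroup.zpowers_le.2 ⟨hxN, hxS⟩)
        (by rw [hcardPn, Nat.card_zpowers, hxo])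
    rw [← h1]
    infer_instance
  obtain ⟨R⟩ : Nonempty (Sylow 2 N) := inferInstance
  have hRc : IsCyclic (R : Subgroup N) := by
    have hR' : IsPGroup 2 ((R : Subgroup N).map N.subtype) := R.2.map _
    obtain ⟨S', hS'⟩ := hR'.exists_le_sylow
    obtain ⟨g, hg⟩ := MulAction.exists_smul_eq G S S'
    have hmem : ∀ x : (R : Subgroup N), g⁻¹ * ((x : N) : G) * g ∈ N ⊓ (S : Subgroup G) := by
      intro x
      constructor
      · have := hNn.conj_mem _ (x : N).2 g⁻¹
        rwa [inv_inv] at this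
      · have h1 : ((x : N) : G) ∈ (S' : Subgroup G) := hS' ⟨(x : N), x.2, rfl⟩
        rw [← hg, Sylow.coe_subgroup_smul, Subgroup.mem_pointwise_smul_iff_inv_smul_mem,
          ← map_inv, MulAut.smul_def, MulAut.conj_apply, inv_inv] at h1
        exact h1
    let f : (R : Subgroup N) →* ↥(N ⊓ (S : Subgroup G)) :=
      { toFun := fun x => ⟨g⁻¹ * ((x : N) : G) * g, hmem x⟩
        map_one' := Subtype.ext (by simp)
        map_mul' := fun x y => Subtype.ext (by simp [mul_assoc]) }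
    have hf : Function.Injective f := by
      intro x y hxy
      have h1 : g⁻¹ * ((x : N) : G) * g = g⁻¹ * ((y : N) : G) * g := congrArg Subtype.val hxy
      exact Subtype.ext (Subtype.ext (mul_left_cancel (mul_right_cancel h1)))
    exact isCyclic_of_injective f hf
  have hzN : z ∈ N := by
    have h1 : z = (a ^ 2) ^ (2 ^ (m + 1)) := by rw [hz, ← pow_mul]; congr 1; ring
    rw [h1]
    exact pow_mem (Subgroup.sq_mem_of_index_two hNi a) _
  have h2N : 2 ∣ Nat.card N := by
    have h1 : orderOf (⟨z, hzN⟩ : N) ∣ Nat.card N := orderOf_dvd_natCard _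
    rwa [Subgroup.orderOf_mk, orderOf_eq_prime hz2 hz1] at h1
  have hmin : (Nat.card N).minFac = 2 := (Nat.minFac_eq_two_iff _).2 h2N
  have hK0 := IsCyclic.isComplement' hmin hRc
  obtain ⟨K0, hK0n, hK0c⟩ : ∃ K0 : Subgroup N, K0.Normal ∧ K0.IsComplement' (R : Subgroup N) :=
    ⟨_, inferInstance, hK0⟩
  have hmemK0 : ∀ x : N, x ∈ K0 ↔ Nat.Coprime (orderOf x) 2 := fun x => S0086.result R K0 hK0c x
  have hKn : (K0.map N.subtype).Normal := by
    constructor
    rintro _ ⟨x, hx, rfl⟩ g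
    refine ⟨⟨g * x * g⁻¹, hNn.conj_mem x x.2 g⟩, ?_, rfl⟩
    rw [SetLike.mem_coe, hmemK0, Subgroup.orderOf_mk]
    have h1 : orderOf (g * (x : G) * g⁻¹) = orderOf (x : G) :=
      MulEquiv.orderOf_eq (MulAut.conj g) (x : G)
    rw [h1, Subgroup.orderOf_coe]
    exact (hmemK0 x).1 hx
  have hcK : Nat.card (K0.map N.subtype) = Nat.card K0 :=
    Subgroup.card_map_of_injective (Subgroup.subtype_injective _)
  have hodd : ¬ 2 ∣ Nat.card K0 := by
    rw [← hK0c.index_eq_card]; exact R.not_dvd_index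
  obtain ⟨j, hj⟩ := R.2.exists_card_eq
  have hG : Nat.card K0 * 2 ^ (j + 1) = Nat.card G := by
    rw [← N.card_mul_index, hNi, ← hK0c.card_mul_card, hj, pow_succ, mul_assoc]
  have hcop : Nat.Coprime (Nat.card K0) (Nat.card (S : Subgroup G)) := by
    rw [hS]
    apply Nat.Coprime.pow_right
    rw [Nat.coprime_comm, Nat.Prime.coprime_iff_not_dvd Nat.prime_two]
    exact hodd
  have hSj : Nat.card (S : Subgroup G) = 2 ^ (j + 1) := by
    apply Nat.dvd_antisymm
    · have h1 : Nat.card (S : Subgroup G) ∣ Nat.card K0 * 2 ^ (j + 1) := by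
        rw [hG]; exact Subgroup.card_subgroup_dvd_card _
      exact hcop.symm.dvd_of_dvd_mul_left h1
    · exact S.pow_dvd_card_of_pow_dvd_card (hG ▸ Dvd.intro_left _ rfl)
  exact ⟨S, K0.map N.subtype, hKn, Subgroup.isComplement'_of_coprime (by rw [hcK, hSj, hG])
    (by rw [hcK]; exact hcop)⟩

end Cfsg.Agent.S3178
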