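import Cfsg.Statements.S3183
-- import your own Cfsg.Agent.* helpers here

set_option autoImplicit false
open Cfsg

namespace Cfsg.Agent.S3183

open Subgroup in
theorem card_center_eq {G : Type*} [Group G] [Finite G] (S U : Sylow 2 G) :
    Nat.card ((Subgroup.center ↥(S : Subgroup G)).map (S : Subgroup G).subtype) =
      Nat.card ((Subgroup.center ↥(U : Subgroup G)).map (U : Subgroup G).subtype) := by
  rw [Subgroup.card_map_of_injective (Subgroup.subtype_injective _),
    Subgroup.card_map_of_injective (Subgroup.subtype_injective _)]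
  exact Nat.card_congr (Subgroup.centerCongr (Sylow.equiv S U)).toEquiv

theorem card_le_sylow {X : Type*} [Group X] [Finite X] (R : Sylow 2 X) (P : Subgroup X)
    (hP : IsPGroup 2 P) : Nat.card P ≤ Nat.card (R : Subgroup X) := by
  obtain ⟨Q, hQ⟩ := hP.exists_le_sylow
  calc Nat.card P ≤ Nat.card (Q : Subgroup X) := Subgroup.card_le_of_le hQ
    _ = Nat.card (R : Subgroup X) := Nat.card_congr (Sylow.equiv Q R).toEquiv

theorem mem_center_map {G : Type*} [Group G] (S : Subgroup G) (y : G) :
    y ∈ (Subgroup.center ↥S).map S.subtype ↔ y ∈ S ∧ ∀ s ∈ S, s * y = y * s := by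
  constructor
  · rintro ⟨z, hz, rfl⟩
    refine ⟨z.2, fun s hs => ?_⟩
    have := (Subgroup.mem_center_iff.1 hz) ⟨s, hs⟩
    exact congrArg Subtype.val this
  · rintro ⟨hy, h⟩
    refine ⟨⟨y, hy⟩, Subgroup.mem_center_iff.2 fun s => Subtype.ext (h s s.2), rfl⟩

theorem partA {G : Type*} [Group G] [Finite G]
    (hCI : ∀ S T : Sylow 2 G, S ≠ T → ∃ U : Sylow 2 G,
      (S : Subgroup G) ⊓ (T : Subgroup G) ≤ (Subgroup.center ↥(U : Subgroup G)).map (U : Subgroup G).subtype)
    (S : Sylow 2 G) (x : G) (hx : x ∈ (S : Subgroup G)) (P : Subgroup G) (hP : IsPGroup 2 ↥P)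
    (hPC : P ≤ Subgroup.centralizer ({x} : Set G)) :
    Nat.card ↥P ≤ Nat.card ↥((S : Subgroup G) ⊓ Subgroup.centralizer ({x} : Set G)) := by
  set C := Subgroup.centralizer ({x} : Set G) with hC
  have hDp : IsPGroup 2 (((S : Subgroup G) ⊓ C).subgroupOf C) :=
    (S.isPGroup'.to_le inf_le_left).comap_of_injective C.subtype C.subtype_injective
  obtain ⟨R, hR⟩ := hDp.exists_le_sylow
  have hPR : Nat.card P ≤ Nat.card ((R : Subgroup C).map C.subtype) := by
    rw [Subgroup.card_map_of_injective C.subtype_injective]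
    have h1 := card_le_sylow R (P.subgroupOf C) (hP.comap_of_injective C.subtype C.subtype_injective)
    rwa [Nat.card_congr (Subgroup.subgroupOfEquivOfLe hPC).toEquiv] at h1
  obtain ⟨T, hT⟩ := (R.isPGroup'.map C.subtype).exists_le_sylow
  have hRC : (R : Subgroup C).map C.subtype ≤ C := by
    rintro _ ⟨z, -, rfl⟩
    exact z.2
  have hDR : (S : Subgroup G) ⊓ C ≤ (R : Subgroup C).map C.subtype := by
    intro y hy
    exact ⟨⟨y, hy.2⟩, hR (Subgroup.mem_subgroupOf.2 hy), rfl⟩
  by_cases hTS : S = T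
  · refine hPR.trans (Subgroup.card_le_of_le (le_inf ?_ hRC))
    rw [hTS]; exact hT
  · obtain ⟨U, hU⟩ := hCI S T hTS
    have hDU : (S : Subgroup G) ⊓ C ≤ (Subgroup.center ↥(U : Subgroup G)).map (U : Subgroup G).subtype :=
      (le_inf inf_le_left (hDR.trans hT)).trans hU
    have hZD : (Subgroup.center ↥(S : Subgroup G)).map (S : Subgroup G).subtype ≤ (S : Subgroup G) ⊓ C := by
      intro y hy
      rw [mem_center_map] at hy
      refine ⟨hy.1, ?_⟩
      exact Subgroup.mem_centralizer_singleton_iff.2 (hy.2 x hx).symm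
    have hZeq : (Subgroup.center ↥(S : Subgroup G)).map (S : Subgroup G).subtype =
        (Subgroup.center ↥(U : Subgroup G)).map (U : Subgroup G).subtype :=
      Subgroup.eq_of_le_of_card_ge (hZD.trans hDU) (card_center_eq S U).ge
    have hxD : x ∈ (S : Subgroup G) ⊓ C := ⟨hx, Subgroup.mem_centralizer_singleton_iff.2 rfl⟩
    have hxZ : x ∈ (Subgroup.center ↥(S : Subgroup G)).map (S : Subgroup G).subtype := by
      rw [hZeq]; exact hDU hxD
    rw [mem_center_map] at hxZ
    have hSC : (S : Subgroup G) ≤ C := by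
      intro s hs
      rw [hC, Subgroup.mem_centralizer_singleton_iff]
      exact hxZ.2 s hs
    rw [inf_eq_left.2 hSC]
    exact card_le_sylow S P hP

theorem central_of {G : Type*} [Group G] [Finite G]
    (hCI : ∀ S T : Sylow 2 G, S ≠ T → ∃ U : Sylow 2 G,
      (S : Subgroup G) ⊓ (T : Subgroup G) ≤ (Subgroup.center ↥(U : Subgroup G)).map (U : Subgroup G).subtype)
    (S U : Sylow 2 G) (y : G) (hy : y ∈ (S : Subgroup G))
    (hyU : y ∈ (Subgroup.center ↥(U : Subgroup G)).map (U : Subgroup G).subtype) :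
    y ∈ (Subgroup.center ↥(S : Subgroup G)).map (S : Subgroup G).subtype := by
  rw [mem_center_map] at hyU ⊢
  have hUC : (U : Subgroup G) ≤ Subgroup.centralizer ({y} : Set G) := by
    intro s hs
    rw [Subgroup.mem_centralizer_singleton_iff]
    exact hyU.2 s hs
  have h1 := partA hCI S y hy U U.isPGroup' hUC
  have h2 : (S : Subgroup G) ⊓ Subgroup.centralizer ({y} : Set G) = S :=
    Subgroup.eq_of_le_of_card_ge inf_le_left
      ((Nat.card_congr (Sylow.equiv S U).toEquiv).le.trans h1)
  refine ⟨hy, fun s hs => ?_⟩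
  have h3 : s ∈ (S : Subgroup G) ⊓ Subgroup.centralizer ({y} : Set G) := by rw [h2]; exact hs
  exact Subgroup.mem_centralizer_singleton_iff.1 h3.2

/-- Let G be a finite group in which the intersection of any two distinct Sylow 2-subgroups is contained in the centre of some Sylow 2-subgroup, and let S be a Sylow 2-subgroup. Then for every x in S the centralizer of x in S is a Sylow 2-subgroup of the centralizer of x in G (no 2-subgroup centralizing x is larger), and for every other Sylow 2-subgroup T the intersection S ∩ T lies in both the centre of S and the centre of T. -/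
theorem result {G : Type*} [Group G] [Finite G]
    (hCI : ∀ S T : Sylow 2 G, S ≠ T → ∃ U : Sylow 2 G,
      (S : Subgroup G) ⊓ (T : Subgroup G) ≤ (Subgroup.center ↥(U : Subgroup G)).map (U : Subgroup G).subtype)
    (S : Sylow 2 G) :
    (∀ x ∈ (S : Subgroup G), ∀ P : Subgroup G, IsPGroup 2 ↥P → P ≤ Subgroup.centralizer ({x} : Set G) →
        Nat.card ↥P ≤ Nat.card ↥((S : Subgroup G) ⊓ Subgroup.centralizer ({x} : Set G))) ∧
    (∀ T : Sylow 2 G, T ≠ S →
        (S : Subgroup G) ⊓ (T : Subgroup G) ≤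
          (Subgroup.center ↥(S : Subgroup G)).map (S : Subgroup G).subtype ⊓
            (Subgroup.center ↥(T : Subgroup G)).map (T : Subgroup G).subtype) := by
  refine ⟨fun x hx P hP hPC => partA hCI S x hx P hP hPC, fun T hT y hy => ?_⟩
  obtain ⟨U, hU⟩ := hCI S T (Ne.symm hT)
  exact ⟨central_of hCI S U y hy.1 (hU hy), central_of hCI T U y hy.2 (hU hy)⟩

end Cfsg.Agent.S3183
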