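import Cfsg.Statements.S3190
import Mathlib
import Cfsg.Agent.Lib_helper5_PGrp
import Cfsg.Agent.Lib_helper1_SZ

set_option autoImplicit false
open Cfsg

namespace Cfsg.Agent.S3190

/-- Let p be an odd prime and, inside a finite group, let P be a p-subgroup normalized by a Klein four-group T. Let R be a subgroup of P, normal in P and normalized by T, such that P is the product of R with the centralizer of T in P. If T centralizes the centre of P, then T centralizes the centre of R. -/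
theorem result {X : Type*} [Group X] [Finite X]
    {p : ℕ} (hp : p.Prime) (hodd : Odd p) (P T R : Subgroup X) (hP : IsPGroup p ↥P) (hT : IsKleinFour ↥T)
    (hTP : T ≤ Subgroup.normalizer (P : Set X)) (hRP : R ≤ P) (hRn : (R.subgroupOf P).Normal)
    (hTR : T ≤ Subgroup.normalizer (R : Set X)) (hfac : R ⊔ (P ⊓ Subgroup.centralizer (T : Set X)) = P)
    (hZ : T ≤ Subgroup.centralizer (((Subgroup.center ↥P).map P.subtype : Subgroup X) : Set X)) :
    T ≤ Subgroup.centralizer (((Subgroup.center ↥R).map R.subtype : Subgroup X) : Set X) := by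
  classical
  haveI : Fact p.Prime := ⟨hp⟩
  obtain ⟨A, hA⟩ : ∃ A : Subgroup X, A = (Subgroup.center ↥R).map R.subtype := ⟨_, rfl⟩
  have hAmem : ∀ a, a ∈ A ↔ a ∈ R ∧ ∀ r ∈ R, r * a = a * r := by
    intro a
    rw [hA, Subgroup.mem_map]
    constructor
    · rintro ⟨⟨a', ha'⟩, hc, rfl⟩
      refine ⟨ha', fun r hr => ?_⟩
      have := Subgroup.mem_center_iff.mp hc ⟨r, hr⟩
      exact congrArg Subtype.val this
    · rintro ⟨haR, hc⟩
      refine ⟨⟨a, haR⟩, ?_, rfl⟩
      rw [Subgroup.mem_center_iff]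
      intro ⟨r, hr⟩
      exact Subtype.ext (hc r hr)
  rw [← hA]
  have hconj : ∀ g, g ∈ Subgroup.normalizer (R : Set X) → ∀ a ∈ A, g * a * g⁻¹ ∈ A := by
    intro g hg a ha
    obtain ⟨haR, hc⟩ := (hAmem a).mp ha
    rw [hAmem]
    refine ⟨(Subgroup.mem_normalizer_iff.mp hg a).mp haR, fun r hr => ?_⟩
    have hr' : g⁻¹ * r * g ∈ R := by
      have := (Subgroup.mem_normalizer_iff.mp (inv_mem hg) r).mp hr
      simpa using this
    have h1 := hc _ hr'
    calc r * (g * a * g⁻¹) = g * ((g⁻¹ * r * g) * a) * g⁻¹ := by group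
      _ = g * (a * (g⁻¹ * r * g)) * g⁻¹ := by rw [h1]
      _ = g * a * g⁻¹ * r := by group
  have hPR : P ≤ Subgroup.normalizer (R : Set X) :=
    (Subgroup.normal_subgroupOf_iff_le_normalizer hRP).mp hRn
  intro t ht
  rw [Subgroup.mem_centralizer_iff]
  intro a ha
  have ha' : a ∈ A := ha
  have ht2 : t * t = 1 := by
    have h1 := Monoid.pow_exponent_eq_one (⟨t, ht⟩ : T)
    rw [hT.exponent_two] at h1
    have h2 := congrArg Subtype.val h1
    simpa [pow_two] using h2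
  obtain ⟨I, hI⟩ : ∃ I : Subgroup X, ∀ x, x ∈ I ↔ x ∈ A ∧ t * x * t⁻¹ = x⁻¹ :=
    ⟨{ carrier := {a | a ∈ A ∧ t * a * t⁻¹ = a⁻¹}
       one_mem' := ⟨one_mem _, by simp⟩
       mul_mem' := by
        rintro a b ⟨ha, hat⟩ ⟨hb, hbt⟩
        refine ⟨mul_mem ha hb, ?_⟩
        have hab : a * b = b * a := (((hAmem b).mp hb).2 a ((hAmem a).mp ha).1)
        calc t * (a * b) * t⁻¹ = (t * a * t⁻¹) * (t * b * t⁻¹) := by group
          _ = a⁻¹ * b⁻¹ := by rw [hat, hbt]
          _ = (b * a)⁻¹ := by rw [mul_inv_rev]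
          _ = (a * b)⁻¹ := by rw [hab]
       inv_mem' := by
        rintro a ⟨ha, hat⟩
        refine ⟨inv_mem ha, ?_⟩
        calc t * a⁻¹ * t⁻¹ = (t * a * t⁻¹)⁻¹ := by group
          _ = (a⁻¹)⁻¹ := by rw [hat] }, fun x => Iff.rfl⟩
  have hIP : I ≤ P := fun x hx => hRP ((hAmem x).mp ((hI x).mp hx).1).1
  have h1 : R ≤ Subgroup.normalizer (I : Set X) := by
    apply Cfsg.Agent.H1.le_normalizer_of_forall
    intro r hr x hx
    have h := ((hAmem x).mp ((hI x).mp hx).1).2 r hr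
    rw [h, mul_assoc, mul_inv_cancel, mul_one]
    exact hx
  have h2 : P ⊓ Subgroup.centralizer (T : Set X) ≤ Subgroup.normalizer (I : Set X) := by
    apply Cfsg.Agent.H1.le_normalizer_of_forall
    intro c hc x hx
    have hcP : c ∈ P := (Subgroup.mem_inf.mp hc).1
    have hcT : c ∈ Subgroup.centralizer (T : Set X) := (Subgroup.mem_inf.mp hc).2
    have htc : t * c = c * t := Subgroup.mem_centralizer_iff.mp hcT t ht
    obtain ⟨hxA, hxt⟩ := (hI x).mp hx
    rw [hI]
    refine ⟨hconj c (hPR hcP) x hxA, ?_⟩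
    calc t * (c * x * c⁻¹) * t⁻¹ = (t * c) * x * (t * c)⁻¹ := by group
      _ = (c * t) * x * (c * t)⁻¹ := by rw [htc]
      _ = c * (t * x * t⁻¹) * c⁻¹ := by group
      _ = c * x⁻¹ * c⁻¹ := by rw [hxt]
      _ = (c * x * c⁻¹)⁻¹ := by group
  have hnorm : P ≤ Subgroup.normalizer (I : Set X) :=
    calc P = R ⊔ (P ⊓ Subgroup.centralizer (T : Set X)) := hfac.symm
      _ ≤ Subgroup.normalizer (I : Set X) := sup_le h1 h2
  have hIbot : I = ⊥ := by
    by_contra hne
    have h3 := Cfsg.Agent.H5.inf_centralizer_ne_bot_of_pgroup hP hIP hnorm hne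
    obtain ⟨⟨w, hw⟩, hw1⟩ := (Subgroup.ne_bot_iff_exists_ne_one).mp h3
    have hwI : w ∈ I := (Subgroup.mem_inf.mp hw).1
    have hwC : w ∈ Subgroup.centralizer (P : Set X) := (Subgroup.mem_inf.mp hw).2
    have hwZ : w ∈ (Subgroup.center ↥P).map P.subtype := by
      refine ⟨⟨w, hIP hwI⟩, ?_, rfl⟩
      show (⟨w, hIP hwI⟩ : P) ∈ Subgroup.center ↥P
      rw [Subgroup.mem_center_iff]
      intro ⟨g, hg⟩
      exact Subtype.ext (Subgroup.mem_centralizer_iff.mp hwC g hg)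
    have hwt : w * t = t * w := Subgroup.mem_centralizer_iff.mp (hZ ht) w hwZ
    have hinv := ((hI w).mp hwI).2
    rw [← hwt, mul_assoc, mul_inv_cancel, mul_one] at hinv
    have hw2 : w ^ 2 = 1 := by
      rw [pow_two]
      nth_rewrite 1 [hinv]
      exact inv_mul_cancel w
    obtain ⟨k, hk⟩ := hP ⟨w, hIP hwI⟩
    have hk' : w ^ (p ^ k) = 1 := by
      have := congrArg Subtype.val hk
      simpa using this
    have hg := pow_gcd_eq_one.mpr ⟨hw2, hk'⟩
    have hcop : Nat.gcd 2 (p ^ k) = 1 := Nat.Coprime.pow_right k (Nat.coprime_two_left.mpr hodd)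
    rw [hcop, pow_one] at hg
    exact hw1 (Subtype.ext hg)
  have hx : a⁻¹ * (t * a * t⁻¹) ∈ I := by
    rw [hI]
    refine ⟨mul_mem (inv_mem ha') (hconj t (hTR ht) a ha'), ?_⟩
    calc t * (a⁻¹ * (t * a * t⁻¹)) * t⁻¹ = (t * a * t⁻¹)⁻¹ * ((t * t) * a * (t * t)⁻¹) := by group
      _ = (t * a * t⁻¹)⁻¹ * a := by rw [ht2]; simp
      _ = (a⁻¹ * (t * a * t⁻¹))⁻¹ := by group
  rw [hIbot, Subgroup.mem_bot, inv_mul_eq_one] at hx
  calc a * t = (t * a * t⁻¹) * t := by rw [← hx]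
    _ = t * a := by group

end Cfsg.Agent.S3190
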