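import Cfsg.Statements.S3209
import Cfsg.Agent.Lib_helper6_SL2Conj

set_option autoImplicit false
open Cfsg

namespace Cfsg.Agent.S3209

open H6.GL2C

theorem two_ne_zero_of_odd {F : Type*} [Field F] [Fintype F] (hodd : Odd (Fintype.card F)) :
    (2 : F) ≠ 0 := by
  intro h
  have hchar : ringChar F = 2 := by
    have h' : ((2 : ℕ) : F) = 0 := by exact_mod_cast h
    have := ringChar.dvd h'
    rcases (Nat.dvd_prime Nat.prime_two).mp this with h1 | h1
    · exact absurd h1 (CharP.ringChar_ne_one)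
    · exact h1
  have := FiniteField.even_card_iff_char_two.mp hchar
  rw [Nat.odd_iff] at hodd
  omega

theorem facts {G : Type*} [Group G] {F : Type*} [Field F] [Fintype F]
    (hodd : Odd (Fintype.card F)) (L : Subgroup G)
    (e : ↥L ≃* Matrix.SpecialLinearGroup (Fin 2) F) (j : G) (hjL : j ∈ L) (hj : orderOf j = 2) :
    (∀ a ∈ L, a * a = 1 → a = 1 ∨ a = j) ∧ (∃ a ∈ L, a * a = j) ∧
    (∀ a ∈ L, ∀ a' ∈ L, a * a = j → a' * a' = j → ∃ g ∈ L, g * a * g⁻¹ = a') := by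
  have h2 := two_ne_zero_of_odd hodd
  have hj1 : j ≠ 1 := by
    rintro rfl
    rw [orderOf_one] at hj
    omega
  have hjj : j * j = 1 := by
    have := pow_orderOf_eq_one j
    rwa [hj, sq] at this
  -- the image of j is -1
  have hinv : ∀ a : L, a * a = 1 → a ≠ 1 →
      ((e a : Matrix.SpecialLinearGroup (Fin 2) F) : Matrix (Fin 2) (Fin 2) F) = -1 := by
    intro a ha ha1
    have h3 : ((e a : Matrix.SpecialLinearGroup (Fin 2) F) : Matrix (Fin 2) (Fin 2) F) *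
        ((e a : Matrix.SpecialLinearGroup (Fin 2) F) : Matrix (Fin 2) (Fin 2) F) = 1 := by
      rw [← Matrix.SpecialLinearGroup.coe_mul, ← map_mul, ha, map_one]; rfl
    rcases eq_one_or_neg_one_of_sq_eq_one h2 _ h3 with h | h
    · exfalso
      apply ha1
      apply e.injective
      rw [map_one]
      exact Subtype.ext h
    · exact h
  have hej : ((e ⟨j, hjL⟩ : Matrix.SpecialLinearGroup (Fin 2) F) :
      Matrix (Fin 2) (Fin 2) F) = -1 :=
    hinv ⟨j, hjL⟩ (Subtype.ext hjj) (fun h => hj1 (congrArg Subtype.val h))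
  refine ⟨?_, ?_, ?_⟩
  · intro a ha haa
    by_cases ha1 : a = 1
    · exact Or.inl ha1
    · right
      have h3 := hinv ⟨a, ha⟩ (Subtype.ext haa) (fun h => ha1 (congrArg Subtype.val h))
      have h4 : e ⟨a, ha⟩ = e ⟨j, hjL⟩ := Subtype.ext (by rw [h3, hej])
      exact congrArg Subtype.val (e.injective h4)
  · refine ⟨(e.symm (H6.GL2.compSL 0) : L), (e.symm (H6.GL2.compSL 0) : L).2, ?_⟩
    have h3 : e.symm (H6.GL2.compSL 0) * e.symm (H6.GL2.compSL 0) = (⟨j, hjL⟩ : L) := by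
      apply e.injective
      rw [map_mul, MulEquiv.apply_symm_apply]
      apply Subtype.ext
      rw [Matrix.SpecialLinearGroup.coe_mul, hej]
      exact (sq_eq_neg_one_iff _).mpr (trace_compSL 0)
    exact congrArg Subtype.val h3
  · intro a ha a' ha' haa haa'
    have key : ∀ b : L, (b : G) * b = j →
        ((e b : Matrix.SpecialLinearGroup (Fin 2) F) : Matrix (Fin 2) (Fin 2) F).trace = 0 := by
      intro b hb
      rw [← sq_eq_neg_one_iff, ← Matrix.SpecialLinearGroup.coe_mul, ← map_mul, ← hej]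
      congr 2
      exact Subtype.ext hb
    obtain ⟨g, hg⟩ := isConj_iff.mp (isConj_SL_of_trace_zero h2 _ _ (key ⟨a, ha⟩ haa)
      (key ⟨a', ha'⟩ haa'))
    refine ⟨(e.symm g : L), (e.symm g : L).2, ?_⟩
    have h3 : e.symm g * ⟨a, ha⟩ * (e.symm g)⁻¹ = (⟨a', ha'⟩ : L) := by
      apply e.injective
      rw [map_mul, map_mul, map_inv, MulEquiv.apply_symm_apply, hg]
    exact congrArg Subtype.val h3

theorem mem_sup_of_commute {G : Type*} [Group G] (L₁ L₂ : Subgroup G)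
    (hc : ∀ x ∈ L₁, ∀ y ∈ L₂, x * y = y * x) {y : G} (hy : y ∈ L₁ ⊔ L₂) :
    ∃ a ∈ L₁, ∃ b ∈ L₂, y = a * b := by
  let M : Subgroup G :=
    { carrier := {y | ∃ a ∈ L₁, ∃ b ∈ L₂, y = a * b}
      one_mem' := ⟨1, one_mem _, 1, one_mem _, by simp⟩
      mul_mem' := by
        rintro _ _ ⟨a, ha, b, hb, rfl⟩ ⟨a', ha', b', hb', rfl⟩
        refine ⟨a * a', mul_mem ha ha', b * b', mul_mem hb hb', ?_⟩
        rw [mul_assoc, ← mul_assoc b, ← hc a' ha' b hb]
        simp only [mul_assoc]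
      inv_mem' := by
        rintro _ ⟨a, ha, b, hb, rfl⟩
        refine ⟨a⁻¹, inv_mem ha, b⁻¹, inv_mem hb, ?_⟩
        rw [mul_inv_rev, hc a⁻¹ (inv_mem ha) b⁻¹ (inv_mem hb)] }
  have h1 : L₁ ≤ M := fun a ha => ⟨a, ha, 1, one_mem _, by simp⟩
  have h2 : L₂ ≤ M := fun b hb => ⟨1, one_mem _, b, hb, by simp⟩
  exact (sup_le h1 h2) hy

/-- Let L₁ ≅ SL₂(q₁) and L₂ ≅ SL₂(q₂), q₁ and q₂ odd, be elementwise-commuting subgroups of a finite group meeting in ⟨j⟩ for an involution j. Then L₁L₂ has exactly two conjugacy classes of involutions: the central involution j, and one further class (there is an involution x ≠ j in L₁L₂, and every involution of L₁L₂ other than j is conjugate to x by an element of L₁L₂). -/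
theorem result {G : Type*} [Group G] [Finite G]
    {F₁ : Type*} [Field F₁] [Fintype F₁] {F₂ : Type*} [Field F₂] [Fintype F₂]
    (hF₁ : Odd (Fintype.card F₁)) (hF₂ : Odd (Fintype.card F₂)) (L₁ L₂ : Subgroup G)
    (e₁ : ↥L₁ ≃* Matrix.SpecialLinearGroup (Fin 2) F₁) (e₂ : ↥L₂ ≃* Matrix.SpecialLinearGroup (Fin 2) F₂)
    (hc : ∀ x ∈ L₁, ∀ y ∈ L₂, x * y = y * x) (j : G) (hj : orderOf j = 2) (hm : L₁ ⊓ L₂ = Subgroup.zpowers j) :
    ∃ x ∈ L₁ ⊔ L₂, orderOf x = 2 ∧ x ≠ j ∧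
      ∀ y ∈ L₁ ⊔ L₂, orderOf y = 2 → y = j ∨ ∃ g ∈ L₁ ⊔ L₂, g * x * g⁻¹ = y := by
  have hjm : j ∈ L₁ ⊓ L₂ := by rw [hm]; exact Subgroup.mem_zpowers j
  have hjj : j * j = 1 := by
    have := pow_orderOf_eq_one j
    rwa [hj, sq] at this
  have hj1 : j ≠ 1 := by
    rintro rfl
    rw [orderOf_one] at hj
    omega
  obtain ⟨i₁, ⟨a₀, ha₀, ha₀j⟩, c₁⟩ := facts hF₁ L₁ e₁ j hjm.1 hj
  obtain ⟨i₂, ⟨b₀, hb₀, hb₀j⟩, c₂⟩ := facts hF₂ L₂ e₂ j hjm.2 hj
  -- elements of the intersection square to one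
  have hint : ∀ a, a ∈ L₁ → a ∈ L₂ → a * a = 1 := by
    intro a h1 h2
    have : a ∈ Subgroup.zpowers j := by rw [← hm]; exact ⟨h1, h2⟩
    obtain ⟨k, rfl⟩ := Subgroup.mem_zpowers_iff.mp this
    rw [← zpow_add, ← two_mul, zpow_mul, zpow_two, hjj, one_zpow]
  have hint' : ∀ a, a ∈ L₁ → a ∈ L₂ → a = 1 ∨ a = j := fun a h1 h2 => i₁ a h1 (hint a h1 h2)
  have hxx : (a₀ * b₀) * (a₀ * b₀) = 1 := by
    rw [mul_assoc, ← mul_assoc b₀, ← hc a₀ ha₀ b₀ hb₀, mul_assoc, hb₀j, ← mul_assoc, ha₀j, hjj]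
  refine ⟨a₀ * b₀, mul_mem (Subgroup.mem_sup_left ha₀) (Subgroup.mem_sup_right hb₀), ?_, ?_, ?_⟩
  · apply orderOf_eq_prime
    · rw [sq]; exact hxx
    · intro h
      have h1 : a₀ = b₀⁻¹ := eq_inv_of_mul_eq_one_left h
      have h2 := hint a₀ ha₀ (by rw [h1]; exact inv_mem hb₀)
      rw [ha₀j] at h2
      exact hj1 h2
  · intro h
    have h1 : a₀ = j * b₀⁻¹ := by rw [← h]; group
    have h2 := hint a₀ ha₀ (by rw [h1]; exact mul_mem hjm.2 (inv_mem hb₀))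
    rw [ha₀j] at h2
    exact hj1 h2
  · intro y hy hy2
    obtain ⟨a, ha, b, hb, rfl⟩ := mem_sup_of_commute L₁ L₂ hc hy
    have hyy : (a * b) * (a * b) = 1 := by
      have := pow_orderOf_eq_one (a * b)
      rwa [hy2, sq] at this
    have h1 : (a * a) * (b * b) = 1 := by
      rw [← hyy, mul_assoc a b, ← mul_assoc b a, ← hc a ha b hb]
      simp only [mul_assoc]
    have h2 : a * a = (b * b)⁻¹ := eq_inv_of_mul_eq_one_left h1
    rcases hint' (a * a) (mul_mem ha ha) (by rw [h2]; exact inv_mem (mul_mem hb hb)) with h3 | h3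
    · left
      have h4 : b * b = 1 := by rw [h3, one_mul] at h1; exact h1
      have hy1 : a * b ≠ 1 := by
        intro h
        rw [h, orderOf_one] at hy2
        omega
      rcases i₁ a ha h3 with rfl | rfl <;> rcases i₂ b hb h4 with rfl | rfl
      · simp at hy1
      · simp
      · simp
      · exact absurd hjj hy1
    · right
      have h4 : b * b = j := by
        rw [h3] at h1
        have : b * b = j⁻¹ := eq_inv_of_mul_eq_one_right h1
        rw [this]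
        exact inv_eq_of_mul_eq_one_left hjj
      obtain ⟨g₁, hg₁, hg₁a⟩ := c₁ a₀ ha₀ a ha ha₀j h3
      obtain ⟨g₂, hg₂, hg₂b⟩ := c₂ b₀ hb₀ b hb hb₀j h4
      refine ⟨g₁ * g₂, mul_mem (Subgroup.mem_sup_left hg₁) (Subgroup.mem_sup_right hg₂), ?_⟩
      rw [← hg₁a, ← hg₂b]
      have e1 : g₂ * a₀ = a₀ * g₂ := (hc a₀ ha₀ g₂ hg₂).symm
      have e2 : g₁⁻¹ * (g₂ * b₀ * g₂⁻¹) = (g₂ * b₀ * g₂⁻¹) * g₁⁻¹ :=
        hc g₁⁻¹ (inv_mem hg₁) _ (mul_mem (mul_mem hg₂ hb₀) (inv_mem hg₂))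
      calc g₁ * g₂ * (a₀ * b₀) * (g₁ * g₂)⁻¹ = g₁ * (g₂ * a₀) * b₀ * g₂⁻¹ * g₁⁻¹ := by group
        _ = g₁ * a₀ * ((g₂ * b₀ * g₂⁻¹) * g₁⁻¹) := by rw [e1]; group
        _ = g₁ * a₀ * g₁⁻¹ * (g₂ * b₀ * g₂⁻¹) := by rw [← e2]; group

end Cfsg.Agent.S3209
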