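import Cfsg.Statements.S3224
import Cfsg.Agent.Lib_helper7_MaxClass4

set_option autoImplicit false
open Cfsg

namespace Cfsg.Agent.S3224

/-- A finite 2-group containing an involution whose centralizer has order 4 is dihedral, quasi-dihedral (semidihedral), or of order 4. -/
theorem result {S : Type*} [Group S] [Finite S] (hS : IsPGroup 2 S)
    (x : S) (hx : orderOf x = 2) (hC : Nat.card ↥(Subgroup.centralizer ({x} : Set S)) = 4) :
    (∃ n : ℕ, Nonempty (S ≃* DihedralGroup n)) ∨ Cfsg.IsQuasiDihedral S ∨ Nat.card S = 4 := by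
  obtain ⟨n, hn⟩ := hS.exists_card_eq
  have hle : 4 ≤ Nat.card S := by
    rw [← hC]; exact Subgroup.card_le_card_group _
  rcases H7.suzuki_maxclass n S hn x hx hC.le with h | hidx
  · right; right; omega
  by_cases hn3 : n ≤ 2
  · right; right
    have : 2 ^ n ≤ 2 ^ 2 := Nat.pow_le_pow_right (by norm_num) hn3
    omega
  obtain ⟨m, rfl⟩ : ∃ m, n = m + 1 := ⟨n - 1, by omega⟩
  obtain ⟨a, y, hord, hy, h⟩ := H7.maxclass_structure (m := m) (by omega) hn hidx
  rcases h with ⟨h1, h3⟩ | ⟨h1, h3⟩ | ⟨hm, h1, h3⟩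
  · left
    exact ⟨_, H7.dihedral_iso _ a y hord h1 h3 (by rw [hn]; ring) hy⟩
  · right; right
    have hidx2 : (Subgroup.zpowers a).index = 2 :=
      H7.index_zpowers_eq_two hn a (by rw [hord]; ring)
    have hw1 : a ^ (2 ^ (m - 1)) ≠ 1 := by
      apply pow_ne_one_of_lt_orderOf (by positivity)
      rw [hord]
      exact Nat.pow_lt_pow_right (by norm_num) (by omega)
    have hx2 : x ^ 2 = 1 := by rw [← hx, pow_orderOf_eq_one]
    have hconj : ∀ u ∈ Subgroup.zpowers a, y * u * y⁻¹ = u⁻¹ := by
      rintro _ ⟨i, rfl⟩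
      show y * a ^ i * y⁻¹ = (a ^ i)⁻¹
      rw [← conj_zpow, h1, inv_zpow]
    have hxa : x ∈ Subgroup.zpowers a := by
      rcases H7.exists_mul_of_index_two hidx2 hy x with hg | ⟨u, hu, rfl⟩
      · exact hg
      · exfalso
        apply hw1
        rw [← h3, ← hx2]
        have e : (u * y) ^ 2 = u * (y * u * y⁻¹) * y ^ 2 := by
          rw [pow_two, pow_two]; group
        rw [e, hconj u hu]
        group
    have hyx : y * x = x * y := by
      have e := hconj x hxa
      have hxi : x⁻¹ = x := by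
        rw [pow_two] at hx2
        exact inv_eq_of_mul_eq_one_left hx2
      rw [hxi] at e
      exact mul_inv_eq_iff_eq_mul.1 e
    have htop : Subgroup.centralizer ({x} : Set S) = ⊤ := by
      rw [eq_top_iff]
      intro g _
      rw [Subgroup.mem_centralizer_singleton_iff]
      rcases H7.exists_mul_of_index_two hidx2 hy g with hg | ⟨u, hu, rfl⟩
      · exact H7.zpowers_comm a g hg x hxa
      · rw [mul_assoc, hyx, ← mul_assoc, ← mul_assoc, H7.zpowers_comm a u hu x hxa]
    rw [htop, Subgroup.card_top] at hC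
    exact hC
  · right; left
    refine ⟨m, hm, hn, a, y, hord, ?_, h1⟩
    apply orderOf_eq_prime h3
    rintro rfl
    exact hy (one_mem _)

end Cfsg.Agent.S3224
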