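import Cfsg.Statements.S3225
import Mathlib

set_option autoImplicit false
open Cfsg

namespace Cfsg.Agent.S3225

/-- Let G be a finite group of even order with no subgroup of index 2, S a Sylow 2-subgroup of G and M a subgroup of index 2 in S such that, for some n ≥ 1, every element of S outside M has order greater than 2^(n−1). Then every element of S of order 2ⁿ is conjugate in G to an element of M. -/
theorem result {G : Type*} [Group G] [Finite G] (hev : Even (Nat.card G))
    (hG : ∀ H : Subgroup G, H.index ≠ 2) (S : Sylow 2 G) (M : Subgroup G) (hMS : M ≤ (S : Subgroup G)) (hM : M.relIndex (S : Subgroup G) = 2)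
    (n : ℕ) (hn : 1 ≤ n) (hord : ∀ y ∈ (S : Subgroup G), y ∉ M → 2 ^ (n - 1) < orderOf y)
    (x : G) (hx : x ∈ (S : Subgroup G)) (hxn : orderOf x = 2 ^ n) :
    ∃ g : G, g * x * g⁻¹ ∈ M := by
  classical
  by_contra hcon
  push Not at hcon
  have hidx : (M.subgroupOf (S : Subgroup G)).index = 2 := hM
  let ϕ : ↥(S : Subgroup G) →* ℤˣ :=
    { toFun := fun s => if s ∈ M.subgroupOf (S : Subgroup G) then 1 else -1
      map_one' := by simp
      map_mul' := by
        intro a b
        have h := Subgroup.mul_mem_iff_of_index_two hidx (a := a) (b := b)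
        by_cases ha : a ∈ M.subgroupOf (S : Subgroup G) <;> by_cases hb : b ∈ M.subgroupOf (S : Subgroup G) <;>
          simp [ha, hb, h] }
  have hϕ1 : ∀ s : ↥(S : Subgroup G), (s : G) ∈ M → ϕ s = 1 := by
    intro s hs
    show (if s ∈ M.subgroupOf (S : Subgroup G) then (1 : ℤˣ) else -1) = 1
    rw [if_pos (Subgroup.mem_subgroupOf.mpr hs)]
  have hϕ2 : ∀ s : ↥(S : Subgroup G), (s : G) ∉ M → ϕ s = -1 := by
    intro s hs
    show (if s ∈ M.subgroupOf (S : Subgroup G) then (1 : ℤˣ) else -1) = -1
    rw [if_neg (fun h => hs (Subgroup.mem_subgroupOf.mp h))]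
  have aux : ∀ (k : ℕ) (g : G) (hmem : g⁻¹ * x ^ k * g ∈ (S : Subgroup G)), k ∣ 2 ^ n →
      ϕ ⟨g⁻¹ * x ^ k * g, hmem⟩ = (-1) ^ k := by
    intro k g hmem hkd
    obtain ⟨j, hj, rfl⟩ := (Nat.dvd_prime_pow Nat.prime_two).mp hkd
    rcases Nat.eq_zero_or_pos j with rfl | hjpos
    · simp only [pow_zero, pow_one]
      apply hϕ2
      have := hcon (g⁻¹)
      simpa using this
    · have heven : Even (2 ^ j) := (Nat.even_pow.mpr ⟨even_two, hjpos.ne'⟩)
      rw [heven.neg_one_pow]
      apply hϕ1
      by_contra hnm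
      have h2 := hord _ hmem hnm
      have h3 : orderOf (g⁻¹ * x ^ (2 ^ j) * g) = 2 ^ (n - j) := by
        have h4 : orderOf (g⁻¹ * x ^ (2 ^ j) * g) = orderOf (x ^ (2 ^ j)) := by
          have := (SemiconjBy.conj_mk (g⁻¹) (x ^ (2 ^ j))).orderOf_eq
          rw [inv_inv] at this
          exact this.symm
        rw [h4, orderOf_pow_of_dvd (by positivity) (by rw [hxn]; exact hkd), hxn,
          Nat.pow_div hj (by norm_num)]
      rw [h3] at h2
      have h5 : n - j ≤ n - 1 := by omega
      exact absurd (Nat.pow_le_pow_right (by norm_num : 0 < 2) h5) (not_le.mpr h2)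
  let τ : G →* ℤˣ := MonoidHom.transfer ϕ
  have : Fintype (Quotient (MulAction.orbitRel (Subgroup.zpowers x) (G ⧸ (S : Subgroup G)))) :=
    Fintype.ofFinite _
  have hτ : τ x = -1 := by
    have hodd : Odd (S : Subgroup G).index := by
      rw [← Nat.not_even_iff_odd, even_iff_two_dvd]
      exact S.not_dvd_index
    have h1 : τ x = (-1) ^ (S : Subgroup G).index := by
      show MonoidHom.transfer ϕ x = _
      rw [Subgroup.index_eq_sum_minimalPeriod (S : Subgroup G) x, ← Finset.prod_pow_eq_pow_sum,
        MonoidHom.transfer_eq_prod_quotient_orbitRel_zpowers_quot]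
      apply Finset.prod_congr rfl
      intro q _
      apply aux
      apply Function.IsPeriodicPt.minimalPeriod_dvd
      show (x • ·)^[2 ^ n] q.out = q.out
      rw [smul_iterate, ← hxn, pow_orderOf_eq_one]
      exact one_smul _ _
    rw [h1, hodd.neg_one_pow]
  apply hG τ.ker
  rw [Subgroup.index_ker]
  have hrange : τ.range = ⊤ := by
    rw [eq_top_iff]
    intro u _
    rcases Int.units_eq_one_or u with rfl | rfl
    · exact Subgroup.one_mem _
    · exact ⟨x, hτ⟩
  rw [hrange, Subgroup.card_top]
  simp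

end Cfsg.Agent.S3225
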