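import Cfsg.Statements.S3247
import Cfsg.Agent.S0631
import Cfsg.Agent.Lib_helper5_PComp5
import Cfsg.Agent.Lib_helper5_PGrp

set_option autoImplicit false
open Cfsg

namespace Cfsg.Agent.S3247

open Subgroup Cfsg.Agent.H5

universe u

theorem no_pcomp_local {G : Type u} [Group G] [Finite G] {p : ℕ} [Fact p.Prime] {M T : Subgroup G}
    (hM : IsPConstrained p ↥M) (hTM : T ≤ M) (hT : IsPGroup p T) :
    pLayer p ↥(M ⊓ normalizer (T : Set G)) = ⊥ := by
  have hT' : IsPGroup p ↥(T.subgroupOf M) := hT.of_equiv (subgroupOfEquivOfLe hTM).symm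
  have h := (Cfsg.Agent.S0631.result hM (T.subgroupOf M) hT').1
  rw [Cfsg.Agent.S1327.result] at h
  have he : normalizer ((T.subgroupOf M : Subgroup ↥M) : Set ↥M) =
      (M ⊓ normalizer (T : Set G)).subgroupOf M := by
    rw [← subgroupOf_normalizer_eq hTM, inf_comm, inf_subgroupOf_right]
  exact pLayer_eq_bot_of_mulEquiv
    ((MulEquiv.subgroupCongr he).trans (subgroupOfEquivOfLe inf_le_left)) h

/-- Let G be a finite group and p a prime; here a p-local subgroup means the normalizer of a nontrivial p-subgroup, other than G itself. If every p-local subgroup of G that is maximal among p-local subgroups is p-constrained, or if the centralizer of every element of order p of G is p-constrained, then every p-local subgroup of G is p-constrained. -/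
theorem result {G : Type*} [Group G] [Finite G] (p : ℕ) [hp : Fact p.Prime]
    (h : (∀ M : Subgroup G, (∃ T : Subgroup G, IsPGroup p ↥T ∧ T ≠ ⊥ ∧ M = Subgroup.normalizer (T : Set G)) → M ≠ ⊤ →
        (∀ M' : Subgroup G, (∃ T' : Subgroup G, IsPGroup p ↥T' ∧ T' ≠ ⊥ ∧ M' = Subgroup.normalizer (T' : Set G)) → M' ≠ ⊤ → M ≤ M' → M = M') →
        Cfsg.IsPConstrained p ↥M) ∨
      (∀ x : G, orderOf x = p → Cfsg.IsPConstrained p ↥(Subgroup.centralizer ({x} : Set G))))
    (T : Subgroup G) (hT : IsPGroup p ↥T) (hT1 : T ≠ ⊥) (hTG : Subgroup.normalizer (T : Set G) ≠ ⊤) :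
    Cfsg.IsPConstrained p ↥(Subgroup.normalizer (T : Set G)) := by
  rw [Cfsg.Agent.S1327.result]
  rcases h with h | h
  · let 𝒮 : Set (Subgroup G) := {M | (∃ T' : Subgroup G, IsPGroup p ↥T' ∧ T' ≠ ⊥ ∧
      M = Subgroup.normalizer (T' : Set G)) ∧ M ≠ ⊤}
    obtain ⟨M, hNM, hMmax⟩ := (Set.toFinite 𝒮).exists_le_maximal
      (a := normalizer (T : Set G)) ⟨⟨T, hT, hT1, rfl⟩, hTG⟩
    have hMc := h M hMmax.prop.1 hMmax.prop.2
      (fun M' h1 h2 hle => le_antisymm hle (hMmax.le_of_ge ⟨h1, h2⟩ hle))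
    have h1 := no_pcomp_local hMc (le_normalizer.trans hNM) hT
    have e : M ⊓ normalizer (T : Set G) = normalizer (T : Set G) := inf_eq_right.2 hNM
    rw [e] at h1
    exact h1
  · obtain ⟨x, hxT, hxo, hxc⟩ := exists_central_orderOf_eq hT le_rfl le_normalizer hT1
    have hC := h x hxo
    have hTC : T ≤ centralizer ({x} : Set G) :=
      fun t ht => mem_centralizer_singleton_iff.2 (hxc t ht)
    have h1 := no_pcomp_local hC hTC hT
    rw [eq_bot_iff]
    apply sSup_le
    intro K₀ hK₀
    exfalso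
    have hK : IsPComponentOf p (K₀.map (normalizer (T : Set G)).subtype) (normalizer (T : Set G)) :=
      isPComponentOf_map_subtype hK₀
    set K := K₀.map (normalizer (T : Set G)).subtype with hKdef
    have h2 : ⁅K, T⁆ = ⊥ := H5.IsPComponentOf.commutator_pgroup hK le_normalizer le_rfl hT
    have hKC : K ≤ centralizer ({x} : Set G) := by
      rw [commutator_eq_bot_iff_le_centralizer] at h2
      exact h2.trans (centralizer_le (Set.singleton_subset_iff.2 hxT))
    have hK' : IsPComponentOf p K (centralizer ({x} : Set G) ⊓ normalizer (T : Set G)) :=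
      H5.IsPComponentOf.of_le hK (le_inf hKC hK.1) inf_le_right
    have h3 := pcomp_le_pLayer hK'.2
    rw [h1] at h3
    apply H5.IsPComponentOf.ne_bot hK'
    rw [eq_bot_iff]
    intro k hk
    have h4 := h3 (show (⟨k, hK'.1 hk⟩ :
      ↥(centralizer ({x} : Set G) ⊓ normalizer (T : Set G))) ∈ K.subgroupOf _ from hk)
    exact mem_bot.2 (congrArg Subtype.val (mem_bot.1 h4))

end Cfsg.Agent.S3247
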