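import Cfsg.Statements.S3276
import Cfsg.Agent.Lib_helper5_SE3
import Cfsg.Agent.Lib_helper5_Isolated
import Cfsg.Agent.S1300

set_option autoImplicit false
open Cfsg

namespace Cfsg.Agent.S3276

/-- an involution acting on an elementary abelian 2-group with at most two fixed points:
the group has order at most four. -/
theorem card_le_four_of_fix {H : Type*} [Group H] [Finite H] (V : Subgroup H) (w y : H)
    (hww : w * w = 1) (hcomm : ∀ a ∈ V, ∀ b ∈ V, a * b = b * a) (hsq : ∀ a ∈ V, a * a = 1)
    (hVw : ∀ v ∈ V, w * v * w⁻¹ ∈ V) (hyV : y ∈ V)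
    (c1 : ∀ v ∈ V, w * v * w⁻¹ = v → v = 1 ∨ v = y) : Nat.card V ≤ 4 := by
  classical
  have hinvV : ∀ a ∈ V, a⁻¹ = a := fun a ha => inv_eq_of_mul_eq_one_left (hsq a ha)
  have c2 : ∀ v ∈ V, v * (w * v * w⁻¹) = 1 ∨ v * (w * v * w⁻¹) = y := by
    intro v hv
    apply c1 _ (mul_mem hv (hVw v hv))
    have e : w * (v * (w * v * w⁻¹)) * w⁻¹ = (w * v * w⁻¹) * ((w * w) * v * (w * w)⁻¹) := by group
    rw [e, hww]
    simp only [one_mul, inv_one, mul_one]
    exact hcomm _ (hVw v hv) _ hv
  have c3 : ∀ v ∈ V, v ≠ 1 → v ≠ y → w * v * w⁻¹ = v * y := by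
    intro v hv hv1 hvy
    rcases c2 v hv with h | h
    · exfalso
      have : w * v * w⁻¹ = v := by
        have h9 := eq_inv_of_mul_eq_one_right h
        rw [hinvV v hv] at h9
        exact h9
      rcases c1 v hv this with h' | h'
      · exact hv1 h'
      · exact hvy h'
    · calc w * v * w⁻¹ = (v * v) * (w * v * w⁻¹) := by rw [hsq v hv, one_mul]
        _ = v * (v * (w * v * w⁻¹)) := by group
        _ = v * y := by rw [h]
  have main : ∀ a : H, (a ∈ V → a ≠ 1 → a ≠ y → w * a * w⁻¹ = a * y) → (a ∈ V) →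
      (∀ v ∈ V, v ≠ 1 → v ≠ y → a ≠ 1 ∧ a ≠ y) →
      (V : Set H) ⊆ (({1, y, a, a * y} : Finset H) : Set H) := by
    intro a haw haV hne v hv
    have hv' : v ∈ V := hv
    simp only [Finset.coe_insert, Finset.coe_singleton, Set.mem_insert_iff,
      Set.mem_singleton_iff]
    by_cases hv1 : v = 1
    · exact Or.inl hv1
    by_cases hvy : v = y
    · exact Or.inr (Or.inl hvy)
    have hvw := c3 v hv' hv1 hvy
    obtain ⟨ha1, hay⟩ := hne v hv' hv1 hvy
    have haw' := haw haV ha1 hay
    have h2 : w * (v * a) * w⁻¹ = v * a := by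
      calc w * (v * a) * w⁻¹ = (w * v * w⁻¹) * (w * a * w⁻¹) := by group
        _ = (v * y) * (a * y) := by rw [hvw, haw']
        _ = v * (y * a) * y := by group
        _ = v * (a * y) * y := by rw [hcomm y hyV a haV]
        _ = v * a * (y * y) := by group
        _ = v * a := by rw [hsq y hyV, mul_one]
    rcases c1 _ (mul_mem hv' haV) h2 with h' | h'
    · right; right; left
      rw [← hinvV a haV]
      exact eq_inv_of_mul_eq_one_left h'
    · right; right; right
      calc v = (v * a) * a⁻¹ := by group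
        _ = y * a := by rw [h', hinvV a haV]
        _ = a * y := hcomm y hyV a haV
  have fin : ∀ a : H, (V : Set H) ⊆ (({1, y, a, a * y} : Finset H) : Set H) → Nat.card V ≤ 4 := by
    intro a hsub
    calc Nat.card V = (V : Set H).ncard := Nat.card_coe_set_eq _
      _ ≤ (({1, y, a, a * y} : Finset H) : Set H).ncard :=
          Set.ncard_le_ncard hsub (Finset.finite_toSet _)
      _ = ({1, y, a, a * y} : Finset H).card := Set.ncard_coe_finset _
      _ ≤ 4 := Finset.card_le_four
  by_cases hex : ∃ a ∈ V, a ≠ 1 ∧ a ≠ y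
  · obtain ⟨a, haV, ha1, hay⟩ := hex
    exact fin a (main a (fun _ _ _ => c3 a haV ha1 hay) haV (fun _ _ _ _ => ⟨ha1, hay⟩))
  · apply fin 1
    apply main 1 (fun _ h _ => absurd rfl h) (one_mem V)
    intro v hv hv1 hvy
    exact absurd ⟨v, hv, hv1, hvy⟩ hex

/-- Let x and y be commuting, non-conjugate involutions of a finite group G, and suppose that for every involution u commuting with x, each conjugate of y that commutes with u also commutes with y. Then the normal closure of y is a proper, normal, elementary abelian 2-subgroup of G; and if y is the only involution of that normal closure commuting with x, it has order at most 4. -/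
theorem result {G : Type*} [Group G] [Finite G] (x y : G) (hx : orderOf x = 2) (hy : orderOf y = 2)
    (hxy : Commute x y) (hnc : ¬ IsConj x y)
    (hstar : ∀ u : G, orderOf u = 2 → Commute u x → ∀ g : G, Commute (g * y * g⁻¹) u → Commute (g * y * g⁻¹) y) :
    Subgroup.normalClosure ({y} : Set G) ≠ ⊤ ∧ Cfsg.IsElementaryAbelian 2 (Subgroup.normalClosure ({y} : Set G)) ∧
      ((∀ u ∈ Subgroup.normalClosure ({y} : Set G), orderOf u = 2 → Commute u x → u = y) →
        Nat.card ↥(Subgroup.normalClosure ({y} : Set G)) ≤ 4) := by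
  have hxx := Cfsg.Agent.H5.mul_self_of_order_two hx
  have hyy := Cfsg.Agent.H5.mul_self_of_order_two hy
  -- step 1
  have s1 : ∀ g : G, Commute (g * y * g⁻¹) y := by
    intro g
    set y' := g * y * g⁻¹ with hy'
    have hy'2 : orderOf y' = 2 := Cfsg.Agent.H5.order_two_conj hy g
    have hy'y' := Cfsg.Agent.H5.mul_self_of_order_two hy'2
    have heven : Even (orderOf (x * y')) := by
      rw [← Nat.not_odd_iff_even]
      intro hodd
      obtain ⟨k, -, hk⟩ := Cfsg.Agent.H5.conj_of_odd hxx hy'y' hodd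
      apply hnc
      exact (isConj_iff.2 ⟨_, hk⟩ : IsConj x y').trans (isConj_iff.2 ⟨g, rfl⟩ : IsConj y y').symm
    obtain ⟨m, hm⟩ := heven
    have hpos : 0 < orderOf (x * y') := orderOf_pos _
    set z := (x * y') ^ (m : ℤ) with hz
    have hzz : z * z = 1 := by
      rw [hz, ← zpow_add]
      have : ((m : ℤ) + m) = ((orderOf (x * y') : ℕ) : ℤ) := by rw [hm]; push_cast; ring
      rw [this, zpow_natCast, pow_orderOf_eq_one]
    have hz1 : z ≠ 1 := by
      rw [hz, zpow_natCast]
      intro h
      have := orderOf_le_of_pow_eq_one (by omega : 0 < m) h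
      omega
    have hzi : (x * y') ^ (-(m : ℤ)) = z := by
      rw [zpow_neg, ← hz]
      exact inv_eq_of_mul_eq_one_left hzz
    have hzx : x * z = z * x := by
      rw [hz, Cfsg.Agent.H5.invol_mul_zpow hxx hy'y', hzi]
    have hzy : y' * z = z * y' := by
      rw [hz, Cfsg.Agent.H5.right_invol_mul_zpow hxx hy'y', hzi]
    exact hstar z (Cfsg.Agent.H5.order_two_of hz1 hzz) hzx.symm g hzy
  -- step 2
  have s2 : ∀ a ∈ Group.conjugatesOfSet ({y} : Set G), ∀ b ∈ Group.conjugatesOfSet ({y} : Set G),
      a * b = b * a := by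
    intro a ha b hb
    rw [Group.mem_conjugatesOfSet_iff] at ha hb
    obtain ⟨y1, hy1, ha⟩ := ha
    obtain ⟨y2, hy2, hb⟩ := hb
    rw [Set.mem_singleton_iff] at hy1 hy2
    rw [hy1] at ha
    rw [hy2] at hb
    obtain ⟨g, rfl⟩ := isConj_iff.1 ha
    obtain ⟨h, rfl⟩ := isConj_iff.1 hb
    have h1 := (s1 (h⁻¹ * g)).eq
    calc g * y * g⁻¹ * (h * y * h⁻¹) = h * (((h⁻¹ * g) * y * (h⁻¹ * g)⁻¹) * y) * h⁻¹ := by group
      _ = h * (y * ((h⁻¹ * g) * y * (h⁻¹ * g)⁻¹)) * h⁻¹ := by rw [h1]
      _ = _ := by group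
  set N := Subgroup.normalClosure ({y} : Set G) with hN
  have hNcl : N = Subgroup.closure (Group.conjugatesOfSet ({y} : Set G)) := rfl
  have hcomm : ∀ a ∈ N, ∀ b ∈ N, a * b = b * a := by
    have h1 : N ≤ Subgroup.centralizer (Group.conjugatesOfSet ({y} : Set G)) := by
      rw [hNcl, Subgroup.closure_le]
      intro s hs
      rw [SetLike.mem_coe, Subgroup.mem_centralizer_iff]
      intro t ht
      exact s2 t ht s hs
    have h3 : N ≤ Subgroup.centralizer (N : Set G) := by
      conv_lhs => rw [hNcl]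
      rw [Subgroup.closure_le]
      intro s hs
      rw [SetLike.mem_coe, Subgroup.mem_centralizer_iff]
      intro n hn
      exact (Subgroup.mem_centralizer_iff.1 (h1 hn) s hs).symm
    intro a ha b hb
    exact Subgroup.mem_centralizer_iff.1 (h3 hb) a ha
  have hsq : ∀ a ∈ N, a * a = 1 := by
    intro a ha
    rw [hNcl] at ha
    induction ha using Subgroup.closure_induction with
    | mem s hs =>
      rw [Group.mem_conjugatesOfSet_iff] at hs
      obtain ⟨y1, hy1, hs⟩ := hs
      rw [Set.mem_singleton_iff] at hy1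
      rw [hy1] at hs
      obtain ⟨g, rfl⟩ := isConj_iff.1 hs
      exact Cfsg.Agent.H5.mul_self_of_order_two (Cfsg.Agent.H5.order_two_conj hy g)
    | one => simp
    | mul a b ha hb iha ihb =>
      have := hcomm a ha b hb
      calc a * b * (a * b) = a * (b * a) * b := by group
        _ = a * (a * b) * b := by rw [this]
        _ = (a * a) * (b * b) := by group
        _ = 1 := by rw [iha, ihb, one_mul]
    | inv a ha iha =>
      calc a⁻¹ * a⁻¹ = (a * a)⁻¹ := by group
        _ = 1 := by rw [iha, inv_one]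
  have hyN : y ∈ N := Subgroup.subset_normalClosure rfl
  refine ⟨?_, ⟨⟨⟨fun a b => Subtype.ext (hcomm a a.2 b b.2)⟩⟩, fun a ha => by
    rw [pow_two]; exact hsq a ha⟩, ?_⟩
  · intro htop
    have hall : ∀ a b : G, a * b = b * a := fun a b =>
      hcomm a (htop ▸ Subgroup.mem_top a) b (htop ▸ Subgroup.mem_top b)
    haveI : (Subgroup.zpowers y).Normal := ⟨fun n hn g => by
      rw [hall g n, mul_assoc, mul_inv_cancel, mul_one]; exact hn⟩
    have hle : N ≤ Subgroup.zpowers y :=
      Subgroup.normalClosure_le_normal (by simpa using Subgroup.mem_zpowers y)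
    have hxz : x ∈ Subgroup.zpowers y := hle (htop ▸ Subgroup.mem_top x)
    rcases Cfsg.Agent.S1300.mem_zpowers_invol hy hxz with h | h
    · exact Cfsg.Agent.H5.ne_one_of_order_two hx h
    · exact hnc (h ▸ IsConj.refl x)
  · intro honly
    apply card_le_four_of_fix N x y hxx hcomm hsq
      (fun v hv => (Subgroup.normalClosure_normal).conj_mem v hv x) hyN
    intro v hv hfix
    by_cases hv1 : v = 1
    · exact Or.inl hv1
    · right
      apply honly v hv (Cfsg.Agent.H5.order_two_of hv1 (hsq v hv))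
      change v * x = x * v
      calc v * x = (x * v * x⁻¹) * x := by rw [hfix]
        _ = x * v := by group

end Cfsg.Agent.S3276
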