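import Cfsg.Statements.S3349
import Mathlib
import Cfsg.Agent.Lib_lead_XS1

set_option autoImplicit false
open Cfsg

namespace Cfsg.Agent.S3349

open scoped commutatorElement


/-- Let Q be a finite extraspecial p-group and α an automorphism of Q fixing every element of some maximal abelian subgroup of Q. Then the order of α is a power of p. -/
theorem result {Q : Type*} [Group Q] [Finite Q]
    (p : ℕ) [Fact p.Prime] (hQ : Cfsg.IsExtraspecial p Q) (α : MulAut Q)
    (A : Subgroup Q) (hA : IsMulCommutative A) (hmax : ∀ B : Subgroup Q, A ≤ B → IsMulCommutative B → B = A)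
    (hfix : ∀ a ∈ A, α a = a) :
    ∃ k : ℕ, orderOf α = p ^ k := by
  have hX := Cfsg.Agent.LeadXS.XS.of_extraspecial hQ
  have hpr : p.Prime := Fact.out
  have hAc : ∀ a ∈ A, ∀ b ∈ A, a * b = b * a := by
    intro a ha b hb
    exact congrArg Subtype.val (mul_comm' (⟨a, ha⟩ : A) ⟨b, hb⟩)
  have hCA : ∀ g : Q, (∀ a ∈ A, g * a = a * g) → g ∈ A := by
    intro g hg
    have hB : IsMulCommutative (Subgroup.closure ((A : Set Q) ∪ {g})) := by
      apply Subgroup.isMulCommutative_closure
      rintro x (hx | hx) y (hy | hy)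
      · exact hAc x hx y hy
      · rw [Set.mem_singleton_iff.1 hy]; exact (hg x hx).symm
      · rw [Set.mem_singleton_iff.1 hx]; exact hg y hy
      · rw [Set.mem_singleton_iff.1 hx, Set.mem_singleton_iff.1 hy]
    have := hmax _ (by intro a ha; exact Subgroup.subset_closure (Or.inl ha)) hB
    rw [← this]; exact Subgroup.subset_closure (Or.inr rfl)
  have hZA : Subgroup.center Q ≤ A :=
    fun z hz => hCA z (fun a _ => (Subgroup.mem_center_iff.1 hz a).symm)
  have hc : ∀ q : Q, α q * q⁻¹ ∈ A := by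
    intro q
    apply hCA
    intro a ha
    have h1 : α ⁅q, a⁆ = ⁅q, a⁆ := hfix _ (hZA (hX.comm_mem q a))
    rw [map_commutatorElement, hfix a ha] at h1
    have h2 := Cfsg.Agent.LeadXS.comm_mul_left hX.comm_mem (α q) q⁻¹ a
    have h3 := Cfsg.Agent.LeadXS.comm_mul_left hX.comm_mem q q⁻¹ a
    rw [h1, ← h3] at h2
    simp only [mul_inv_cancel, commutatorElement_one_left] at h2
    exact commutatorElement_eq_one_iff_mul_comm.1 h2
  have hpow : ∀ (k : ℕ) (q : Q), (α ^ k) q = (α q * q⁻¹) ^ k * q := by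
    intro k q
    induction k with
    | zero => simp
    | succ k ih =>
      rw [pow_succ', MulAut.mul_apply, ih, map_mul, map_pow, hfix _ (hc q), pow_succ]
      group
  have hone : α ^ Nat.card A = 1 := by
    ext q
    rw [hpow]
    have := pow_card_eq_one' (G := A) (x := ⟨_, hc q⟩)
    have h2 : (α q * q⁻¹) ^ Nat.card A = 1 := congrArg Subtype.val this
    rw [h2]; simp
  obtain ⟨m, hm⟩ := (hX.pgroup.to_subgroup A).exists_card_eq
  rw [hm] at hone
  obtain ⟨k, _, hk⟩ := (Nat.dvd_prime_pow hpr).1 (orderOf_dvd_of_pow_eq_one hone)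
  exact ⟨k, hk⟩

end Cfsg.Agent.S3349
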