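import Cfsg.Statements.S3375

set_option autoImplicit false
open Cfsg

namespace Cfsg.Agent.S3375

/-- the fixed point subgroup. -/
def fixSub {H : Type*} [Group H] (γ : MulAut H) : Subgroup H where
  carrier := {h | γ h = h}
  one_mem' := map_one γ
  mul_mem' := by
    intro a b ha hb
    change γ (a * b) = a * b
    rw [map_mul, ha, hb]
  inv_mem' := by
    intro a ha
    change γ a⁻¹ = a⁻¹
    rw [map_inv, ha]

/-- the key counting lemma: if `M` is a subgroup containing all `h γ(h)⁻¹` with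
`|M| |Fix γ| = |H|`, then `γ` inverts `M`. -/
theorem inverts_of_card {H : Type*} [Group H] [Finite H] (γ : MulAut H)
    (hγγ : ∀ h, γ (γ h) = h) (M : Subgroup H) (hM : ∀ h : H, h * (γ h)⁻¹ ∈ M)
    (hcard : Nat.card M = (fixSub γ).index) : ∀ a ∈ M, γ a = a⁻¹ := by
  let g : H ⧸ fixSub γ → M := Quotient.lift (fun h : H => (⟨h * (γ h)⁻¹, hM h⟩ : M)) (by
    intro a b hab
    have h1 : a⁻¹ * b ∈ fixSub γ := QuotientGroup.leftRel_apply.1 hab
    have h2 : γ (a⁻¹ * b) = a⁻¹ * b := h1
    apply Subtype.ext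
    change a * (γ a)⁻¹ = b * (γ b)⁻¹
    rw [map_mul, map_inv] at h2
    have h3 : γ b = γ a * (a⁻¹ * b) := by rw [← h2]; group
    rw [h3]; group)
  have hinj : Function.Injective g := by
    intro x y
    induction x using QuotientGroup.induction_on with
    | H a =>
      induction y using QuotientGroup.induction_on with
      | H b =>
        intro hab
        have h1 : a * (γ a)⁻¹ = b * (γ b)⁻¹ := congrArg Subtype.val hab
        rw [QuotientGroup.eq]
        change γ (a⁻¹ * b) = a⁻¹ * b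
        rw [map_mul, map_inv]
        have h2 : (γ a)⁻¹ = a⁻¹ * (b * (γ b)⁻¹) := by rw [← h1]; group
        rw [h2]; group
  have hbij := (Nat.bijective_iff_injective_and_card g).2 ⟨hinj, hcard.symm⟩
  intro a ha
  obtain ⟨x, hx⟩ := hbij.2 ⟨a, ha⟩
  induction x using QuotientGroup.induction_on with
  | H h =>
    have h1 : h * (γ h)⁻¹ = a := congrArg Subtype.val hx
    rw [← h1, map_mul, map_inv, hγγ]; group

theorem comm_of_inverts {H : Type*} [Group H] (γ : MulAut H) (M : Subgroup H)
    (h : ∀ a ∈ M, γ a = a⁻¹) : ∀ a ∈ M, ∀ b ∈ M, a * b = b * a := by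
  intro a ha b hb
  have h1 := h (a * b) (mul_mem ha hb)
  rw [map_mul, h a ha, h b hb, mul_inv_rev] at h1
  have h3 := congrArg (·⁻¹) h1
  simpa using h3.symm

theorem main {H : Type*} [Group H] [Finite H] (γ : MulAut H) (hγγ : ∀ h, γ (γ h) = h)
    (hfix : Nat.card (fixSub γ) = 2) (M : Subgroup H) (hM2 : M.index = 2)
    (hinv : ∀ h, h ∈ M ↔ γ h ∈ M) :
    ∃ A : Subgroup H, A.index = 2 ∧ IsMulCommutative A ∧ (∀ a ∈ A, γ a ∈ A) ∧
      ∀ a ∈ A, γ a = a⁻¹ := by
  have h1 : ∀ a ∈ M, γ a = a⁻¹ := by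
    apply inverts_of_card γ hγγ M
    · intro h
      rw [Subgroup.mul_mem_iff_of_index_two hM2, inv_mem_iff]
      exact hinv h
    · have e1 := (fixSub γ).index_mul_card
      have e2 := M.index_mul_card
      rw [hfix] at e1
      rw [hM2] at e2
      omega
  refine ⟨M, hM2, ⟨⟨fun a b => Subtype.ext (comm_of_inverts γ M h1 a a.2 b b.2)⟩⟩,
    fun a ha => (hinv a).1 ha, h1⟩

/-- Let γ be an automorphism of order 2 of a finite group H. (i) If γ fixes only the identity, then H is abelian and γ inverts every element. (ii) If γ has exactly two fixed points and H has a subgroup of index 2, then H has a γ-invariant abelian subgroup of index 2 on which γ acts by inversion. -/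
theorem result {H : Type*} [Group H] [Finite H] (γ : MulAut H) (hγ : orderOf γ = 2) :
    ((∀ h : H, γ h = h → h = 1) → (∀ a b : H, a * b = b * a) ∧ ∀ h : H, γ h = h⁻¹) ∧
    ((Nat.card {h : H // γ h = h} = 2 ∧ ∃ M : Subgroup H, M.index = 2) →
      ∃ A : Subgroup H, A.index = 2 ∧ IsMulCommutative A ∧ (∀ a ∈ A, γ a ∈ A) ∧ ∀ a ∈ A, γ a = a⁻¹) := by
  have hγγ : ∀ h, γ (γ h) = h := by
    intro h
    have h1 : γ ^ 2 = 1 := by rw [← hγ, pow_orderOf_eq_one]
    have h2 := congrArg (fun f : MulAut H => f h) h1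
    simpa [pow_two] using h2
  refine ⟨?_, ?_⟩
  · intro hfpf
    have hbot : fixSub γ = ⊥ := by
      rw [eq_bot_iff]
      intro h hh
      exact hfpf h hh
    have h1 : ∀ a ∈ (⊤ : Subgroup H), γ a = a⁻¹ := by
      apply inverts_of_card γ hγγ ⊤ (fun _ => Subgroup.mem_top _)
      rw [hbot, Subgroup.index_bot, Subgroup.card_top]
    exact ⟨fun a b => comm_of_inverts γ ⊤ h1 a (Subgroup.mem_top _) b (Subgroup.mem_top _),
      fun h => h1 h (Subgroup.mem_top _)⟩
  · rintro ⟨hfix, M, hM2⟩
    have hfix' : Nat.card (fixSub γ) = 2 := hfix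
    by_cases hinv : ∀ h, h ∈ M ↔ γ h ∈ M
    · exact main γ hγγ hfix' M hM2 hinv
    · rw [not_forall] at hinv
      obtain ⟨a, ha⟩ := hinv
      let M₃ : Subgroup H :=
        { carrier := {h | h ∈ M ↔ γ h ∈ M}
          one_mem' := by
            change (1 : H) ∈ M ↔ γ 1 ∈ M
            rw [map_one]
          mul_mem' := by
            intro x y hx hy
            change x * y ∈ M ↔ γ (x * y) ∈ M
            have hx' : x ∈ M ↔ γ x ∈ M := hx
            have hy' : y ∈ M ↔ γ y ∈ M := hy
            rw [map_mul, Subgroup.mul_mem_iff_of_index_two hM2,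
              Subgroup.mul_mem_iff_of_index_two hM2, hx', hy']
          inv_mem' := by
            intro x hx
            change x⁻¹ ∈ M ↔ γ x⁻¹ ∈ M
            have hx' : x ∈ M ↔ γ x ∈ M := hx
            rw [map_inv, inv_mem_iff, inv_mem_iff, hx'] }
      have hmem : ∀ h, h ∈ M₃ ↔ (h ∈ M ↔ γ h ∈ M) := fun _ => Iff.rfl
      apply main γ hγγ hfix' M₃
      · rw [Subgroup.index_eq_two_iff]
        refine ⟨a, fun b => ?_⟩
        rw [hmem, hmem, map_mul, Subgroup.mul_mem_iff_of_index_two hM2,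
          Subgroup.mul_mem_iff_of_index_two hM2]
        by_cases h1 : a ∈ M <;> by_cases h2 : γ a ∈ M <;> by_cases h3 : b ∈ M <;>
          by_cases h4 : γ b ∈ M <;> simp [h1, h2, h3, h4] at ha ⊢
      · intro h
        rw [hmem, hmem, hγγ]
        tauto

end Cfsg.Agent.S3375
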