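import Cfsg.Statements.S3488
import Mathlib
import Cfsg.Agent.Lib_lead_F4

set_option autoImplicit false
open Cfsg

namespace Cfsg.Agent.S3488

open Matrix Cfsg.Agent.LeadF4

theorem three_identity {F : Type*} [Field F] (h2 : (2 : F) = 0) (M : Matrix (Fin 3) (Fin 3) F)
    (h20 : M 2 0 = 0) (h21 : M 2 1 = 0) (h22 : M 2 2 = 1) (hdet : M.det = 1) :
    (M + 1) * (M * M + (M 0 0 + M 1 1) • M + 1) = 0 := by
  let e : Fin 2 ⊕ Fin 1 ≃ Fin 3 := finSumFinEquiv
  let φ := Matrix.reindexAlgEquiv F F e.symm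
  have hφ : ∀ N : Matrix (Fin 3) (Fin 3) F, φ N = N.submatrix e e := fun N => rfl
  set M' := φ M with hM'
  have hblocks : M' = fromBlocks M'.toBlocks₁₁ M'.toBlocks₁₂ 0 1 := by
    conv_lhs => rw [← Matrix.fromBlocks_toBlocks M']
    congr 1
    · ext i j
      fin_cases i
      fin_cases j
      · exact h20
      · exact h21
    · ext i j
      fin_cases i
      fin_cases j
      exact h22
  have hdet' : M'.toBlocks₁₁.det = 1 := by
    have h1 : M'.det = 1 := by
      rw [hM', hφ, Matrix.det_submatrix_equiv_self, hdet]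
    rw [hblocks, Matrix.det_fromBlocks_zero₂₁, Matrix.det_one, mul_one] at h1
    exact h1
  have htr : M'.toBlocks₁₁.trace = M 0 0 + M 1 1 := by
    rw [Matrix.trace_fin_two]
    rfl
  have hid := block_identity h2 M'.toBlocks₁₁ M'.toBlocks₁₂ hdet'
  rw [← hblocks, htr] at hid
  apply φ.injective
  rw [map_zero, map_mul, map_add, map_add, map_add, map_mul, map_smul, map_one]
  exact hid

def Row {F : Type*} [Field F] (g : Matrix.SpecialLinearGroup (Fin 3) F) : Prop :=
  (g : Matrix (Fin 3) (Fin 3) F) 2 0 = 0 ∧ (g : Matrix (Fin 3) (Fin 3) F) 2 1 = 0 ∧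
    (g : Matrix (Fin 3) (Fin 3) F) 2 2 = 1

theorem row_mul {F : Type*} [Field F] {g : Matrix.SpecialLinearGroup (Fin 3) F} (hg : Row g)
    (N : Matrix (Fin 3) (Fin 3) F) (j : Fin 3) : ((g : Matrix (Fin 3) (Fin 3) F) * N) 2 j = N 2 j := by
  obtain ⟨h0, h1, h2⟩ := hg
  rw [Matrix.mul_apply, Fin.sum_univ_three, h0, h1, h2]
  simp

theorem row_of_mem {F : Type*} [Field F] (g : Matrix.SpecialLinearGroup (Fin 3) F)
    (hg : g ∈ Subgroup.closure {M : Matrix.SpecialLinearGroup (Fin 3) F |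
        (M : Matrix (Fin 3) (Fin 3) F) 2 0 = 0 ∧ (M : Matrix (Fin 3) (Fin 3) F) 2 1 = 0 ∧ (M : Matrix (Fin 3) (Fin 3) F) 2 2 = 1}) :
    Row g := by
  induction hg using Subgroup.closure_induction with
  | mem x hx => exact hx
  | one => exact ⟨by simp, by simp, by simp⟩
  | mul x y _ _ hx hy =>
    refine ⟨?_, ?_, ?_⟩
    · rw [Matrix.SpecialLinearGroup.coe_mul, row_mul hx]; exact hy.1
    · rw [Matrix.SpecialLinearGroup.coe_mul, row_mul hx]; exact hy.2.1
    · rw [Matrix.SpecialLinearGroup.coe_mul, row_mul hx]; exact hy.2.2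
  | inv x _ hx =>
    have h1 : (x : Matrix (Fin 3) (Fin 3) F) * ((x⁻¹ : Matrix.SpecialLinearGroup (Fin 3) F) : Matrix (Fin 3) (Fin 3) F) = 1 := by
      rw [← Matrix.SpecialLinearGroup.coe_mul, mul_inv_cancel, Matrix.SpecialLinearGroup.coe_one]
    have h3 := fun j => row_mul hx ((x⁻¹ : Matrix.SpecialLinearGroup (Fin 3) F) : Matrix (Fin 3) (Fin 3) F) j
    rw [h1] at h3
    refine ⟨?_, ?_, ?_⟩
    · rw [← h3]; simp
    · rw [← h3]; simp
    · rw [← h3]; simp


/-- Let F be the field with four elements. The affine group F² ⋊ SL(2,F), realised as the subgroup of SL(3,F) of matrices with last row (0, 0, 1), has exactly the same set of element orders as the alternating group of degree 6 (namely {1, 2, 3, 4, 5}); so the alternating group of degree 6 is not determined by its element orders. -/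
theorem result {F : Type*} [Field F] [Fintype F] (hF : Fintype.card F = 4) :
    Set.range (orderOf : Subgroup.closure {M : Matrix.SpecialLinearGroup (Fin 3) F |
        (M : Matrix (Fin 3) (Fin 3) F) 2 0 = 0 ∧ (M : Matrix (Fin 3) (Fin 3) F) 2 1 = 0 ∧ (M : Matrix (Fin 3) (Fin 3) F) 2 2 = 1} → ℕ) =
      Set.range (orderOf : alternatingGroup (Fin 6) → ℕ) := by
  have h2 := two_eq_zero hF
  obtain ⟨w, hw⟩ := exists_omega hF
  rw [spec_A6]
  set S : Set (Matrix.SpecialLinearGroup (Fin 3) F) := {M : Matrix.SpecialLinearGroup (Fin 3) F |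
        (M : Matrix (Fin 3) (Fin 3) F) 2 0 = 0 ∧ (M : Matrix (Fin 3) (Fin 3) F) 2 1 = 0 ∧ (M : Matrix (Fin 3) (Fin 3) F) 2 2 = 1} with hS
  have hpow : ∀ (n : ℕ) (g : Subgroup.closure S),
      ((g : Matrix.SpecialLinearGroup (Fin 3) F) : Matrix (Fin 3) (Fin 3) F) ^ n = 1 → g ^ n = 1 := by
    intro n g h
    apply Subtype.ext
    apply Subtype.ext
    simpa using h
  have hid : ∀ g : Subgroup.closure S, _ := fun g =>
    three_identity h2 ((g : Matrix.SpecialLinearGroup (Fin 3) F) : Matrix (Fin 3) (Fin 3) F)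
      (row_of_mem g.1 g.2).1 (row_of_mem g.1 g.2).2.1 (row_of_mem g.1 g.2).2.2 g.1.2
  have hd1 : (!![1, 1, 0; 0, 1, 1; 0, 0, 1] : Matrix (Fin 3) (Fin 3) F).det = 1 := by
    simp [Matrix.det_fin_three]
  have hd2 : (!![0, 1, 0; 1, 1, 0; 0, 0, 1] : Matrix (Fin 3) (Fin 3) F).det = 1 := by
    simp [Matrix.det_fin_three]; linear_combination (-1 : F) * h2
  have hd3 : (!![0, 1, 0; 1, w, 0; 0, 0, 1] : Matrix (Fin 3) (Fin 3) F).det = 1 := by
    simp [Matrix.det_fin_three]; linear_combination (-1 : F) * h2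
  let a : Subgroup.closure S := ⟨⟨_, hd1⟩, Subgroup.subset_closure ⟨by simp, by simp, by simp⟩⟩
  let b : Subgroup.closure S := ⟨⟨_, hd2⟩, Subgroup.subset_closure ⟨by simp, by simp, by simp⟩⟩
  let c : Subgroup.closure S := ⟨⟨_, hd3⟩, Subgroup.subset_closure ⟨by simp, by simp, by simp⟩⟩
  refine spec_of ?_ a b c ?_ ?_ ?_ ?_ ?_ ?_
  · intro g
    have := hid g
    rcases trichotomy hF (((g : Matrix.SpecialLinearGroup (Fin 3) F) : Matrix (Fin 3) (Fin 3) F) 0 0 +
        ((g : Matrix.SpecialLinearGroup (Fin 3) F) : Matrix (Fin 3) (Fin 3) F) 1 1) with ht | ht | ht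
    · left
      apply hpow
      rw [ht] at this
      exact pow_four h2 _ this
    · right; left
      apply hpow
      rw [ht] at this
      exact Cfsg.Agent.LeadF4.pow_three h2 _ this
    · right; right
      apply hpow
      exact pow_five h2 _ ht _ this
  · intro h
    have h1 := congrArg (fun g : Subgroup.closure S =>
      ((g : Matrix.SpecialLinearGroup (Fin 3) F) : Matrix (Fin 3) (Fin 3) F) 0 2) h
    simp only [a, pow_two] at h1
    rw [Subgroup.coe_mul, Matrix.SpecialLinearGroup.coe_mul] at h1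
    simp [Matrix.mul_apply, Fin.sum_univ_three] at h1
  · apply hpow
    apply pow_four h2
    have := hid a
    have ht : ((a : Matrix.SpecialLinearGroup (Fin 3) F) : Matrix (Fin 3) (Fin 3) F) 0 0 +
        ((a : Matrix.SpecialLinearGroup (Fin 3) F) : Matrix (Fin 3) (Fin 3) F) 1 1 = 0 := by
      simp [a]; linear_combination h2
    rw [ht] at this
    exact this
  · intro h
    have h1 := congrArg (fun g : Subgroup.closure S =>
      ((g : Matrix.SpecialLinearGroup (Fin 3) F) : Matrix (Fin 3) (Fin 3) F) 0 0) h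
    simp [b] at h1
  · apply hpow
    apply Cfsg.Agent.LeadF4.pow_three h2
    have := hid b
    have ht : ((b : Matrix.SpecialLinearGroup (Fin 3) F) : Matrix (Fin 3) (Fin 3) F) 0 0 +
        ((b : Matrix.SpecialLinearGroup (Fin 3) F) : Matrix (Fin 3) (Fin 3) F) 1 1 = 1 := by
      simp [b]
    rw [ht] at this
    exact this
  · intro h
    have h1 := congrArg (fun g : Subgroup.closure S =>
      ((g : Matrix.SpecialLinearGroup (Fin 3) F) : Matrix (Fin 3) (Fin 3) F) 0 0) h
    simp [c] at h1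
  · apply hpow
    apply pow_five h2 w hw
    have := hid c
    have ht : ((c : Matrix.SpecialLinearGroup (Fin 3) F) : Matrix (Fin 3) (Fin 3) F) 0 0 +
        ((c : Matrix.SpecialLinearGroup (Fin 3) F) : Matrix (Fin 3) (Fin 3) F) 1 1 = w := by
      simp [c]
    rw [ht] at this
    exact this

end Cfsg.Agent.S3488
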