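import Cfsg.Statements.S3498
import Mathlib
import Cfsg.Agent.Lib_helper7_SE
import Cfsg.Agent.Lib_helper2_BaerSuzuki
import Cfsg.Agent.Lib_helper1_PQ
import Cfsg.Agent.Lib_helper1_Coprime

set_option autoImplicit false
open Cfsg

namespace Cfsg.Agent.S3498

/-- A maximal subgroup of a finite almost simple group does not have prime order. Here G is almost simple in the sense that it has a non-abelian simple normal subgroup T with trivial centralizer. -/
theorem result {G : Type*} [Group G] [Finite G] (T : Subgroup G) [T.Normal] (hT : IsSimpleGroup T) (hTc : ¬ IsMulCommutative T)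
    (hC : Subgroup.centralizer (T : Set G) = ⊥) (H : Subgroup G) (hmax : IsCoatom H) : ¬ (Nat.card H).Prime := by
  intro hprime
  obtain ⟨p, hp⟩ : ∃ p, Nat.card H = p := ⟨_, rfl⟩
  rw [hp] at hprime
  haveI : Fact p.Prime := ⟨hprime⟩
  have hHcyc : IsCyclic H := isCyclic_of_prime_card hp
  have hHcomm : ∀ a ∈ H, ∀ b ∈ H, a * b = b * a := by
    intro a ha b hb
    have := (IsCyclic.isMulCommutative (α := H)).is_comm.comm ⟨a, ha⟩ ⟨b, hb⟩
    exact congrArg Subtype.val this
  have hHp : IsPGroup p H := IsPGroup.of_card (n := 1) (by rw [pow_one, hp])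
  have hHne : H ≠ ⊥ := by
    rintro rfl
    rw [Subgroup.card_bot] at hp
    exact hprime.one_lt.ne hp
  have hnn : ¬ H.Normal := by
    intro hn
    by_cases hd : Disjoint H T
    · have : H ≤ Subgroup.centralizer (T : Set G) := by
        intro x hx
        rw [Subgroup.mem_centralizer_iff]
        intro y hy
        exact (Subgroup.commute_of_normal_of_disjoint H T hn inferInstance hd x y hx hy).symm.eq
      rw [hC] at this
      exact hHne (le_bot_iff.1 this)
    · have h1 : H ⊓ T ≠ ⊥ := fun h => hd (disjoint_iff.2 h)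
      have h2 : H ⊓ T = H := by
        have hdvd : Nat.card (H ⊓ T : Subgroup G) ∣ p := hp ▸ Subgroup.card_dvd_of_le inf_le_left
        rcases (Nat.dvd_prime hprime).1 hdvd with h | h
        · exact absurd (Subgroup.card_eq_one.1 h) h1
        · exact Subgroup.eq_of_le_of_card_ge inf_le_left (by rw [h, hp])
      have hHT : H ≤ T := h2 ▸ inf_le_right
      have hn' : (H.subgroupOf T).Normal := hn.subgroupOf T
      rcases hn'.eq_bot_or_eq_top with h | h
      · rw [Subgroup.subgroupOf_eq_bot] at h
        exact hd h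
      · rw [Subgroup.subgroupOf_eq_top] at h
        apply hTc
        exact ⟨⟨fun a b => Subtype.ext (hHcomm a (h a.2) b (h b.2))⟩⟩
  have hN : Subgroup.normalizer (H : Set G) = H := by
    by_contra hne
    have hlt : H < Subgroup.normalizer (H : Set G) :=
      lt_of_le_of_ne Subgroup.le_normalizer (Ne.symm hne)
    exact hnn (Subgroup.normalizer_eq_top_iff.1 (hmax.2 _ hlt))
  obtain ⟨P, hHP⟩ := hHp.exists_le_sylow
  have hPH : (P : Subgroup G) = H := by
    by_contra hne
    have hlt : H < (P : Subgroup G) := lt_of_le_of_ne hHP (Ne.symm hne)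
    obtain ⟨y, hyP, hyH, hyN⟩ := H2.exists_normalizer_of_lt P.2 hlt
    rw [hN] at hyN
    exact hyH hyN
  have hNC : Subgroup.normalizer ((P : Subgroup G) : Set G)
      ≤ Subgroup.centralizer ((P : Subgroup G) : Set G) := by
    rw [hPH, hN]
    intro x hx
    rw [Subgroup.mem_centralizer_iff]
    intro y hy
    exact hHcomm y hy x hx
  have hcompl := MonoidHom.ker_transferSylow_isComplement' P hNC
  obtain ⟨K, hK⟩ : ∃ K, K = (MonoidHom.transferSylow P hNC).ker := ⟨_, rfl⟩
  rw [← hK] at hcompl
  haveI hKn : K.Normal := hK ▸ MonoidHom.normal_ker _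
  have hcard : Nat.card K * p = Nat.card G := by rw [← hcompl.card_mul_card, hPH, hp]
  have hKH : K ⊓ H = ⊥ := by rw [← hPH]; exact hcompl.disjoint.eq_bot
  have hpK : ¬ p ∣ Nat.card K := by
    have h1 := P.not_dvd_index
    have h2 : (P : Subgroup G).index * p = Nat.card G := by
      have h5 := Subgroup.index_mul_card (P : Subgroup G)
      have h6 : Nat.card (P : Subgroup G) = p := by rw [hPH, hp]
      rwa [h6] at h5
    have h3 : (P : Subgroup G).index = Nat.card K :=
      Nat.eq_of_mul_eq_mul_right hprime.pos (h2.trans hcard.symm)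
    rwa [h3] at h1
  have hKsolv : Group.IsSolvable K := by
    by_cases hK1 : Nat.card K = 1
    · haveI : Subsingleton K := (Nat.card_eq_one_iff_unique.1 hK1).1
      exact Group.isSolvable_of_comm (fun a b => Subsingleton.elim _ _)
    · obtain ⟨r, hr, hrK⟩ := Nat.exists_prime_and_dvd hK1
      haveI : Fact r.Prime := ⟨hr⟩
      obtain ⟨R⟩ : Nonempty (Sylow r K) := inferInstance
      have hfr := Sylow.normalizer_sup_eq_top R
      have hpN : p ∣ Nat.card (Subgroup.normalizer
          (((R : Subgroup K).map K.subtype : Subgroup G) : Set G)) := by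
        have c := H1.card_sup_mul_card_inf' K (Subgroup.normalizer
          (((R : Subgroup K).map K.subtype : Subgroup G) : Set G))
          (by rw [Subgroup.normalizer_eq_top_iff.2 hKn]; exact le_top)
        rw [sup_comm, hfr, Subgroup.card_top, ← hcard] at c
        have : p ∣ Nat.card K * Nat.card (Subgroup.normalizer
            (((R : Subgroup K).map K.subtype : Subgroup G) : Set G)) := by
          rw [← c]
          exact Dvd.dvd.mul_right (Dvd.intro_left _ rfl) _
        exact (hprime.dvd_mul.1 this).resolve_left hpK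
      obtain ⟨Y, -, hY⟩ := H7.exists_isSylowIn_ge (IsPGroup.of_bot : IsPGroup p (⊥ : Subgroup G))
        (bot_le : ⊥ ≤ Subgroup.normalizer (((R : Subgroup K).map K.subtype : Subgroup G) : Set G))
      have hYne : Y ≠ ⊥ := hY.ne_bot hpN
      have hHtop : H7.IsSylowIn p H ⊤ := hPH ▸ H7.Sylow_isSylowIn_top P
      have hYtop : H7.IsSylowIn p Y ⊤ := hHtop.of_card_eq hY.2.1 le_top (by
        rw [hp]
        exact Nat.le_of_dvd Nat.card_pos (H7.dvd_card_of_isPGroup_ne_bot hY.2.1 hYne))
      obtain ⟨x, -, hx⟩ := hHtop.conj_eq hYtop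
      obtain ⟨R2, hR2⟩ : ∃ R2, R2 = ((R : Subgroup K).map K.subtype).map
        (MulAut.conj x).toMonoidHom := ⟨_, rfl⟩
      have hHN : H ≤ Subgroup.normalizer (R2 : Set G) := by
        rw [← hx, hR2, H7.normalizer_map_conj]
        exact Subgroup.map_mono hY.1
      have hR2K : R2 ≤ K := by
        rw [hR2, H7.map_conj_le_iff]
        rintro _ ⟨y, -, rfl⟩
        exact hKn.conj_mem _ y.2 x
      have hR2p : IsPGroup r R2 := hR2 ▸ (R.2.map K.subtype).map _
      have hR2card : Nat.card R2 = Nat.card R := by
        rw [hR2, H7.card_map_conj, Subgroup.card_map_of_injective K.subtype_injective]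
      have hR2ne : R2 ≠ ⊥ := by
        rintro h
        rw [h, Subgroup.card_bot] at hR2card
        have := R.dvd_card_of_dvd_card hrK
        rw [← hR2card] at this
        exact hr.one_lt.ne' (Nat.dvd_one.1 this)
      have hR2H : R2 ⊓ H = ⊥ := le_bot_iff.1 ((inf_le_inf_right H hR2K).trans hKH.le)
      have hlt : H < R2 ⊔ H := by
        refine lt_of_le_of_ne le_sup_right ?_
        intro h
        have h1 : R2 ≤ H := h ▸ le_sup_left
        exact hR2ne (le_bot_iff.1 (hR2H ▸ le_inf le_rfl h1))
      have htop := hmax.2 _ hlt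
      have c2 := H1.card_sup_mul_card_inf' R2 H hHN
      rw [htop, hR2H, Subgroup.card_bot, mul_one, Subgroup.card_top, hp, ← hcard] at c2
      have h4 : Nat.card K = Nat.card R2 := Nat.eq_of_mul_eq_mul_right hprime.pos c2
      have hKR : R2 = K := Subgroup.eq_of_le_of_card_ge hR2K h4.le
      have hKr : IsPGroup r K := hKR ▸ hR2p
      exact H1.isSolvable_of_isPGroup hKr
  haveI : Group.IsSolvable (P : Subgroup G) := Group.isSolvable_of_comm (fun a b =>
    Subtype.ext (hHcomm a (hPH ▸ a.2) b (hPH ▸ b.2)))
  haveI hGs : Group.IsSolvable G :=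
    Group.isSolvable_of_ker_le_range K.subtype (MonoidHom.transferSylow P hNC)
      (by rw [Subgroup.range_subtype, hK])
  have hTs : Group.IsSolvable T := inferInstance
  apply hTc
  exact ⟨⟨IsSimpleGroup.comm_iff_isSolvable.2 hTs⟩⟩

end Cfsg.Agent.S3498
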