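import Cfsg.Statements.S3504
import Mathlib

set_option autoImplicit false
open Cfsg

namespace Cfsg.Agent.S3504

/-- For n ≥ 5, the fixed-point-free permutations of prime order in the symmetric group of degree n form a single conjugacy class if and only if n is a prime power. -/
theorem result (n : ℕ) (hn : 5 ≤ n) :
    Nat.card {c : ConjClasses (Equiv.Perm (Fin n)) // ∃ g : Equiv.Perm (Fin n), ConjClasses.mk g = c ∧ (orderOf g).Prime ∧ ∀ i : Fin n, g i ≠ i} = 1 ↔ IsPrimePow n := by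
  classical
  have hlcm : ∀ (p j : ℕ), (Multiset.replicate (j + 1) p).lcm = p := by
    intro p j
    induction j with
    | zero => simp
    | succ j ih =>
      rw [Multiset.replicate_succ, Multiset.lcm_cons, ih]
      simp
  -- A: existence
  have hA : ∀ p : ℕ, p.Prime → p ∣ n → ∃ g : Equiv.Perm (Fin n), orderOf g = p ∧ ∀ i, g i ≠ i := by
    intro p hp hpn
    obtain ⟨k, rfl⟩ := hpn
    have hk : 0 < k := by
      rcases Nat.eq_zero_or_pos k with h | h
      · subst h; omega
      · exact h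
    obtain ⟨σ, hσ⟩ := (Equiv.Perm.exists_with_cycleType_iff (Fin (p * k))
      (m := Multiset.replicate k p)).mpr (by
      constructor
      · simp [mul_comm]
      · intro a ha
        rw [Multiset.eq_of_mem_replicate ha]
        exact hp.two_le)
    refine ⟨σ, ?_, ?_⟩
    · rw [← Equiv.Perm.lcm_cycleType, hσ]
      obtain ⟨j, hj⟩ : ∃ j, k = j + 1 := ⟨k - 1, by omega⟩
      rw [hj, hlcm]
    · have h1 := Equiv.Perm.sum_cycleType σ
      rw [hσ, Multiset.sum_replicate, smul_eq_mul] at h1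
      have h2 : σ.support = Finset.univ := by
        apply Finset.eq_univ_of_card
        rw [← h1, Fintype.card_fin, mul_comm]
      intro i
      have : i ∈ σ.support := by rw [h2]; exact Finset.mem_univ i
      exact Equiv.Perm.mem_support.mp this
  -- B: shape
  have hB : ∀ g : Equiv.Perm (Fin n), (orderOf g).Prime → (∀ i, g i ≠ i) →
      orderOf g ∣ n ∧ g.cycleType = Multiset.replicate (n / orderOf g) (orderOf g) := by
    intro g hg hfix
    obtain ⟨k, hk⟩ := Equiv.Perm.cycleType_prime_order hg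
    have h1 := Equiv.Perm.sum_cycleType g
    have h2 : g.support = Finset.univ := by
      ext i
      simp [Equiv.Perm.mem_support, hfix i]
    rw [hk, Multiset.sum_replicate, smul_eq_mul, h2, Finset.card_univ, Fintype.card_fin] at h1
    refine ⟨⟨k + 1, by rw [mul_comm]; exact h1.symm⟩, ?_⟩
    have h3 : n / orderOf g = k + 1 := by
      apply Nat.div_eq_of_eq_mul_left hg.pos
      exact h1.symm
    rw [hk, h3]
  rw [Nat.card_eq_one_iff_unique, isPrimePow_iff_unique_prime_dvd]
  constructor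
  · rintro ⟨hsub, _⟩
    obtain ⟨p, hp, hpn⟩ := Nat.exists_prime_and_dvd (show n ≠ 1 by omega)
    refine ⟨p, ⟨hp, hpn⟩, ?_⟩
    rintro q ⟨hq, hqn⟩
    obtain ⟨g, hg1, hg2⟩ := hA p hp hpn
    obtain ⟨g', hg1', hg2'⟩ := hA q hq hqn
    have := hsub.elim ⟨ConjClasses.mk g, g, rfl, hg1 ▸ hp, hg2⟩ ⟨ConjClasses.mk g', g', rfl, hg1' ▸ hq, hg2'⟩
    have h2 : IsConj g g' := ConjClasses.mk_eq_mk_iff_isConj.mp (congrArg Subtype.val this)
    have h3 := Equiv.Perm.isConj_iff_cycleType_eq.mp h2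
    rw [← hg1', ← hg1, ← Equiv.Perm.lcm_cycleType, ← Equiv.Perm.lcm_cycleType, h3]
  · rintro ⟨p, ⟨hp, hpn⟩, huniq⟩
    constructor
    · constructor
      rintro ⟨_, g, rfl, hg1, hg2⟩ ⟨_, g', rfl, hg1', hg2'⟩
      apply Subtype.ext
      show ConjClasses.mk g = ConjClasses.mk g'
      rw [ConjClasses.mk_eq_mk_iff_isConj, Equiv.Perm.isConj_iff_cycleType_eq]
      obtain ⟨h1, h2⟩ := hB g hg1 hg2
      obtain ⟨h1', h2'⟩ := hB g' hg1' hg2'
      rw [h2, h2', huniq _ ⟨hg1, h1⟩, huniq _ ⟨hg1', h1'⟩]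
    · obtain ⟨g, hg1, hg2⟩ := hA p hp hpn
      exact ⟨⟨ConjClasses.mk g, g, rfl, hg1 ▸ hp, hg2⟩⟩

end Cfsg.Agent.S3504
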