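import Cfsg.Statements.S3511
import Mathlib

set_option autoImplicit false
open Cfsg

namespace Cfsg.Agent.S3511

theorem stab_iff {G Ω : Type*} [Group G] [MulAction G Ω] (H : Subgroup G) (ω : Ω) :
    MulAction.stabilizer H ω = ⊥ ↔ ∀ x ∈ H, x • ω = ω → x = 1 := by
  rw [Subgroup.eq_bot_iff_forall]
  constructor
  · intro h x hx hxω
    have := h ⟨x, hx⟩ hxω
    exact congrArg Subtype.val this
  · intro h x hx
    exact Subtype.ext (h x x.2 hx)


/-- Let a finite group G act faithfully on a set Ω. If every element of G of square-free order has a regular cycle (an orbit of the cyclic group it generates with trivial stabilizer), then every element of G has a regular cycle. -/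
theorem result {G : Type*} [Group G] [Finite G] {Ω : Type*} [MulAction G Ω] [FaithfulSMul G Ω]
    (h : ∀ g : G, Squarefree (orderOf g) → ∃ ω : Ω, MulAction.stabilizer (Subgroup.zpowers g) ω = ⊥) (g : G) :
    ∃ ω : Ω, MulAction.stabilizer (Subgroup.zpowers g) ω = ⊥ := by
  have key : ∀ n : ℕ, ∀ g : G, orderOf g = n →
      ∃ ω : Ω, ∀ x ∈ Subgroup.zpowers g, x • ω = ω → x = 1 := by
    intro n
    induction n using Nat.strong_induction_on with
    | _ n ih =>
      intro g hg
      by_cases hsq : Squarefree n
      · obtain ⟨ω, hω⟩ := h g (hg ▸ hsq)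
        exact ⟨ω, (stab_iff _ _).mp hω⟩
      · rw [Nat.squarefree_iff_prime_squarefree] at hsq
        push Not at hsq
        obtain ⟨p, hp, hpp⟩ := hsq
        have hn0 : 0 < n := hg ▸ orderOf_pos g
        have hord : orderOf (g ^ p) = n / p := by
          rw [orderOf_pow_of_dvd hp.ne_zero (hg ▸ (dvd_of_mul_left_dvd hpp)), hg]
        obtain ⟨ω, hω⟩ := ih (n / p) (Nat.div_lt_self hn0 hp.one_lt) (g ^ p) hord
        refine ⟨ω, ?_⟩
        intro x hx hxω
        by_contra hx1
        have hox : orderOf x ≠ 1 := by rwa [Ne, orderOf_eq_one_iff]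
        obtain ⟨q, hq, hqd⟩ := Nat.exists_prime_and_dvd hox
        have hyo : orderOf (x ^ (orderOf x / q)) = q :=
          orderOf_pow_orderOf_div (orderOf_pos x).ne' hqd
        have hyω : (x ^ (orderOf x / q)) • ω = ω := by
          have : x ∈ MulAction.stabilizer G ω := hxω
          exact (MulAction.stabilizer G ω).pow_mem this _
        have hyg : x ^ (orderOf x / q) ∈ Subgroup.zpowers g := Subgroup.pow_mem _ hx _
        rw [← mem_powers_iff_mem_zpowers] at hyg
        obtain ⟨k, hk⟩ := hyg
        have hk' : g ^ k = x ^ (orderOf x / q) := hk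
        have h1 : g ^ (k * q) = 1 := by
          rw [pow_mul, hk']
          have := pow_orderOf_eq_one (x ^ (orderOf x / q))
          rwa [hyo] at this
        have h2 : n ∣ k * q := hg ▸ orderOf_dvd_of_pow_eq_one h1
        have h3 : p * p ∣ k * q := hpp.trans h2
        have hpk : p ∣ k := by
          by_contra hnk
          have hc : Nat.Coprime p k := (Nat.Prime.coprime_iff_not_dvd hp).mpr hnk
          have hc2 : Nat.Coprime (p * p) k := Nat.Coprime.mul_left hc hc
          have h4 : p * p ∣ q := hc2.dvd_of_dvd_mul_left h3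
          have h5 : p ∣ q := dvd_of_mul_left_dvd h4
          have h6 : p = q := (Nat.prime_dvd_prime_iff_eq hp hq).mp h5
          rw [← h6] at h4
          have h7 : p * p ≤ p := Nat.le_of_dvd hp.pos h4
          have := hp.one_lt
          nlinarith
        obtain ⟨j, rfl⟩ := hpk
        have hmem : x ^ (orderOf x / q) ∈ Subgroup.zpowers (g ^ p) := by
          rw [← hk', pow_mul]
          exact Subgroup.pow_mem _ (Subgroup.mem_zpowers _) _
        have h8 := hω _ hmem hyω
        rw [h8, orderOf_one] at hyo
        exact hq.one_lt.ne hyo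
  obtain ⟨ω, hω⟩ := key _ g rfl
  exact ⟨ω, (stab_iff _ _).mpr hω⟩

end Cfsg.Agent.S3511
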