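import Cfsg.Statements.S3514
import Mathlib
import Cfsg.Agent.Lib_helper1_Hall
import Cfsg.Agent.Lib_helper1_Coprime

set_option autoImplicit false
open Cfsg

namespace Cfsg.Agent.S3514

theorem card_orb {L V : Type*} [Group L] [MulAction L V] (H : Subgroup L) (v : V) :
    Nat.card {u : V | ∃ h ∈ H, h • v = u} = (MulAction.stabilizer L v).relIndex H := by
  have h1 : {u : V | ∃ h ∈ H, h • v = u} = MulAction.orbit H v := by
    ext u; constructor
    · rintro ⟨h, hh, rfl⟩; exact ⟨⟨h, hh⟩, rfl⟩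
    · rintro ⟨h, rfl⟩; exact ⟨h.1, h.2, rfl⟩
  have h2 : MulAction.stabilizer H v = (MulAction.stabilizer L v).subgroupOf H := by
    ext h; rfl
  rw [h1, Nat.card_coe_set_eq, ← MulAction.index_stabilizer, h2]; rfl

theorem part1 {L : Type*} [Group L] [Finite L] (S H K : Subgroup L) (hKH : K ≤ H)
    (hn : H ≤ Subgroup.normalizer (K : Set L)) : S.relIndex K ∣ S.relIndex H := by
  have c1 := H1.card_sup_mul_card_inf' K (S ⊓ H) (inf_le_right.trans hn)
  have e1 : K ⊓ (S ⊓ H) = S ⊓ K := by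
    rw [inf_comm K, inf_assoc, inf_eq_right.2 hKH]
  rw [e1] at c1
  have hx := H1.relIndex_mul_card_inf S K
  have hy := H1.relIndex_mul_card_inf S H
  obtain ⟨e, he⟩ := Subgroup.card_dvd_of_le (sup_le hKH (inf_le_right : S ⊓ H ≤ H))
  refine ⟨e, ?_⟩
  have hb : 0 < Nat.card (S ⊓ H : Subgroup L) := Nat.card_pos
  have hc : 0 < Nat.card (S ⊓ K : Subgroup L) := Nat.card_pos
  apply Nat.eq_of_mul_eq_mul_right (Nat.mul_pos hb hc)
  calc S.relIndex H * (Nat.card (S ⊓ H : Subgroup L) * Nat.card (S ⊓ K : Subgroup L))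
      = (S.relIndex H * Nat.card (S ⊓ H : Subgroup L)) * Nat.card (S ⊓ K : Subgroup L) := by ring
    _ = Nat.card (K ⊔ (S ⊓ H) : Subgroup L) * e * Nat.card (S ⊓ K : Subgroup L) := by rw [hy, he]
    _ = (Nat.card (K ⊔ (S ⊓ H) : Subgroup L) * Nat.card (S ⊓ K : Subgroup L)) * e := by ring
    _ = Nat.card K * Nat.card (S ⊓ H : Subgroup L) * e := by rw [c1]
    _ = S.relIndex K * Nat.card (S ⊓ K : Subgroup L) * Nat.card (S ⊓ H : Subgroup L) * e := by rw [hx]
    _ = S.relIndex K * e * (Nat.card (S ⊓ H : Subgroup L) * Nat.card (S ⊓ K : Subgroup L)) := by ring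

theorem part2 {L : Type*} [Group L] [Finite L] (p : ℕ) (hp : p.Prime) (S H N : Subgroup L)
    (hN : ¬ p ∣ Nat.card N) (hn : H ≤ Subgroup.normalizer (N : Set L)) (hH : ¬ p ∣ S.relIndex H) :
    ¬ p ∣ S.relIndex (N ⊔ H) := by
  intro hd
  have h1 : S.relIndex (N ⊔ H) ∣ (S ⊓ H).relIndex (N ⊔ H) :=
    Subgroup.relIndex_dvd_of_le_left _ inf_le_left
  have h2 : (S ⊓ H).relIndex H * H.relIndex (N ⊔ H) = (S ⊓ H).relIndex (N ⊔ H) :=
    Subgroup.relIndex_mul_relIndex _ _ _ inf_le_right le_sup_right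
  rw [Subgroup.inf_relIndex_right] at h2
  have h3 : H.relIndex (N ⊔ H) ∣ Nat.card N := by
    have c := H1.card_sup_mul_card_inf' N H hn
    have c2 := H1.relIndex_mul_card' (le_sup_right : H ≤ N ⊔ H)
    refine ⟨Nat.card (N ⊓ H : Subgroup L), ?_⟩
    have hpos : 0 < Nat.card H := Nat.card_pos
    apply Nat.eq_of_mul_eq_mul_right hpos
    rw [← c, ← c2]; ring
  rw [← h2] at h1
  rcases (Nat.Prime.dvd_mul hp).1 (hd.trans h1) with h | h
  · exact hH h
  · exact hN (h.trans h3)

/-- Let p be a prime, V a finite vector space over the field with p elements, and H a group of linear transformations of V all of whose orbits on V have size coprime to p. (i) Every normal subgroup K of H has all its orbits on V of size coprime to p. (ii) If N is a group of linear transformations of V of order coprime to p that is normalized by H, then the group generated by N and H has all its orbits on V of size coprime to p. -/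
theorem result (p : ℕ) [Fact p.Prime] {V : Type*} [AddCommGroup V] [Module (ZMod p) V] [Finite V]
    (H : Subgroup (V ≃ₗ[ZMod p] V)) (hH : ∀ v : V, ¬ p ∣ Nat.card {u : V | ∃ h ∈ H, h v = u}) :
    (∀ K : Subgroup (V ≃ₗ[ZMod p] V), K ≤ H → H ≤ Subgroup.normalizer (K : Set (V ≃ₗ[ZMod p] V)) →
        ∀ v : V, ¬ p ∣ Nat.card {u : V | ∃ k ∈ K, k v = u}) ∧
    (∀ N : Subgroup (V ≃ₗ[ZMod p] V), ¬ p ∣ Nat.card N → H ≤ Subgroup.normalizer (N : Set (V ≃ₗ[ZMod p] V)) →
        ∀ v : V, ¬ p ∣ Nat.card {u : V | ∃ x ∈ N ⊔ H, x v = u}) := by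
  haveI : Finite (V ≃ₗ[ZMod p] V) :=
    Finite.of_injective (fun f : V ≃ₗ[ZMod p] V => (f : V → V)) DFunLike.coe_injective
  have e : ∀ (A : Subgroup (V ≃ₗ[ZMod p] V)) (v : V), Nat.card {u : V | ∃ h ∈ A, h v = u}
      = (MulAction.stabilizer (V ≃ₗ[ZMod p] V) v).relIndex A := fun A v => card_orb A v
  constructor
  · intro K hKH hn v hd
    rw [e] at hd
    apply hH v
    rw [e]
    exact hd.trans (part1 _ H K hKH hn)
  · intro N hN hn v
    rw [e]
    apply part2 p (Fact.out) _ H N hN hn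
    rw [← e]
    exact hH v

end Cfsg.Agent.S3514
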