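import Cfsg.Statements.S3517
import Mathlib

set_option autoImplicit false
open Cfsg

namespace Cfsg.Agent.S3517

/-- For d ≥ 3, the 3-closure of the affine group AGL_d(2) acting on F_2^d is the full symmetric group: every permutation of F_2^d agrees on every ordered triple of points with some affine map (AGL_d(2) is 3-transitive). -/
theorem result (d : ℕ) (hd : 3 ≤ d) (σ : Equiv.Perm (Fin d → ZMod 2)) (t : Fin 3 → (Fin d → ZMod 2)) :
    ∃ (A : (Fin d → ZMod 2) ≃ₗ[ZMod 2] (Fin d → ZMod 2)) (b : Fin d → ZMod 2), ∀ i, σ (t i) = A (t i) + b := by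
  classical
  have hself : ∀ x : Fin d → ZMod 2, x + x = 0 := by
    intro x; funext i; exact CharTwo.add_self_eq_zero (x i)
  have hiff : ∀ x y : Fin d → ZMod 2, x + y = 0 ↔ x = y := by
    intro x y
    constructor
    · intro h
      calc x = x + (y + y) := by rw [hself, add_zero]
        _ = (x + y) + y := by rw [add_assoc]
        _ = y := by rw [h, zero_add]
    · rintro rfl; exact hself x
  set u₁ := t 1 + t 0
  set u₂ := t 2 + t 0
  set w₁ := σ (t 1) + σ (t 0)
  set w₂ := σ (t 2) + σ (t 0)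
  have h1 : u₁ = 0 ↔ w₁ = 0 := by
    rw [hiff, hiff]; exact σ.injective.eq_iff.symm
  have h2 : u₂ = 0 ↔ w₂ = 0 := by
    rw [hiff, hiff]; exact σ.injective.eq_iff.symm
  have h3 : u₁ + u₂ = 0 ↔ w₁ + w₂ = 0 := by
    have e1 : u₁ + u₂ = t 1 + t 2 := by
      calc u₁ + u₂ = t 1 + t 2 + (t 0 + t 0) := by simp only [u₁, u₂]; abel
        _ = t 1 + t 2 := by rw [hself, add_zero]
    have e2 : w₁ + w₂ = σ (t 1) + σ (t 2) := by
      calc w₁ + w₂ = σ (t 1) + σ (t 2) + (σ (t 0) + σ (t 0)) := by simp only [w₁, w₂]; abel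
        _ = σ (t 1) + σ (t 2) := by rw [hself, add_zero]
    rw [e1, e2, hiff, hiff]; exact σ.injective.eq_iff.symm
  let Fm : ZMod 2 × ZMod 2 →ₗ[ZMod 2] (Fin d → ZMod 2) :=
    (LinearMap.toSpanSingleton (ZMod 2) _ u₁).coprod (LinearMap.toSpanSingleton (ZMod 2) _ u₂)
  let Gm : ZMod 2 × ZMod 2 →ₗ[ZMod 2] (Fin d → ZMod 2) :=
    (LinearMap.toSpanSingleton (ZMod 2) _ w₁).coprod (LinearMap.toSpanSingleton (ZMod 2) _ w₂)
  have hF : ∀ a b : ZMod 2, Fm (a, b) = a • u₁ + b • u₂ := fun a b => by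
    simp [Fm, LinearMap.coprod_apply, LinearMap.toSpanSingleton_apply]
  have hGm : ∀ a b : ZMod 2, Gm (a, b) = a • w₁ + b • w₂ := fun a b => by
    simp [Gm, LinearMap.coprod_apply, LinearMap.toSpanSingleton_apply]
  have h01 : ∀ a : ZMod 2, a = 0 ∨ a = 1 := by decide
  have hker : LinearMap.ker Fm = LinearMap.ker Gm := by
    ext ⟨a, b⟩
    rw [LinearMap.mem_ker, LinearMap.mem_ker, hF, hGm]
    rcases h01 a with rfl | rfl <;> rcases h01 b with rfl | rfl
    · simp
    · simpa using h2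
    · simpa using h1
    · simpa using h3
  let f : LinearMap.range Fm ≃ₗ[ZMod 2] LinearMap.range Gm :=
    (Fm.quotKerEquivRange).symm ≪≫ₗ (Submodule.quotEquivOfEq _ _ hker) ≪≫ₗ Gm.quotKerEquivRange
  obtain ⟨A, hA⟩ := Submodule.exists_linearEquiv_restrict_eq f
  have hAF : ∀ x, A (Fm x) = Gm x := by
    intro x
    have := hA ⟨Fm x, LinearMap.mem_range_self Fm x⟩
    rw [← this]
    simp only [f, LinearEquiv.trans_apply]
    rw [LinearMap.quotKerEquivRange_symm_apply_image]
    erw [Submodule.quotEquivOfEq_mk, LinearMap.quotKerEquivRange_apply_mk]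
  have hA1 : A u₁ = w₁ := by
    have := hAF (1, 0)
    rw [hF, hGm] at this
    simpa using this
  have hA2 : A u₂ = w₂ := by
    have := hAF (0, 1)
    rw [hF, hGm] at this
    simpa using this
  refine ⟨A, σ (t 0) + A (t 0), ?_⟩
  intro i
  have hgen : ∀ x : Fin d → ZMod 2, A (x + t 0) = σ x + σ (t 0) → σ x = A x + (σ (t 0) + A (t 0)) := by
    intro x hx
    rw [map_add] at hx
    calc σ x = (σ x + σ (t 0)) + σ (t 0) := by rw [add_assoc, hself, add_zero]
      _ = (A x + A (t 0)) + σ (t 0) := by rw [hx]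
      _ = A x + (σ (t 0) + A (t 0)) := by abel
  apply hgen
  fin_cases i
  · show A (t 0 + t 0) = σ (t 0) + σ (t 0)
    rw [hself, hself, map_zero]
  · exact hA1
  · exact hA2

end Cfsg.Agent.S3517
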