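import Cfsg.Statements.S3546
import Mathlib

set_option autoImplicit false
open Cfsg

namespace Cfsg.Agent.S3546

theorem burnside (G X : Type*) [Group G] [Fintype G] [MulAction G X] [Finite X] :
    ∑ g : G, Nat.card (MulAction.fixedBy X g) =
      Nat.card (MulAction.orbitRel.Quotient G X) * Nat.card G := by
  classical
  haveI := Fintype.ofFinite X
  haveI : ∀ g : G, Fintype (MulAction.fixedBy X g) := fun g => Fintype.ofFinite _
  haveI : Fintype (MulAction.orbitRel.Quotient G X) := Fintype.ofFinite _
  simp only [Nat.card_eq_fintype_card]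
  exact MulAction.sum_card_fixedBy_eq_card_orbits_mul_card_group G X

/-- Burnside's lemma for the group and a subgroup, split. -/
theorem burnside_split (G X : Type*) [Group G] [Fintype G] [MulAction G X] [Finite X] (D : Subgroup G)
    [DecidablePred (· ∈ D)] :
    Nat.card (MulAction.orbitRel.Quotient G X) * Nat.card G =
      Nat.card (MulAction.orbitRel.Quotient D X) * Nat.card D +
        ∑ g ∈ Finset.univ.filter (fun g : G => g ∉ D), Nat.card (MulAction.fixedBy X g) := by
  rw [← burnside G X, ← burnside D X,
    ← Finset.sum_filter_add_sum_filter_not Finset.univ (fun g : G => g ∈ D)]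
  congr 1
  rw [Finset.sum_subtype (p := fun g : G => g ∈ D) _ (by simp)]
  rfl

theorem card_filter_not (G : Type*) [Group G] [Fintype G] (D : Subgroup G) [DecidablePred (· ∈ D)] :
    (Finset.univ.filter (fun g : G => g ∉ D)).card + Nat.card D = Nat.card G := by
  have h := Finset.card_filter_add_card_filter_not (s := (Finset.univ : Finset G)) (fun g : G => g ∈ D)
  rw [Finset.card_univ, ← Nat.card_eq_fintype_card] at h
  have h2 : (Finset.univ.filter (fun g : G => g ∈ D)).card = Nat.card D := by
    rw [Nat.card_eq_fintype_card, Fintype.card_subtype]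
  omega

/-- the subgroup generated by the derangements -/
def der (G Ω : Type*) [Group G] [MulAction G Ω] : Subgroup G :=
  Subgroup.closure {g : G | ∀ ω : Ω, g • ω ≠ ω}

theorem one_le_fix {G Ω : Type*} [Group G] [MulAction G Ω] [Finite Ω] (g : G) (hg : g ∉ der G Ω) :
    1 ≤ Nat.card (MulAction.fixedBy Ω g) := by
  have h1 : ¬ ∀ ω : Ω, g • ω ≠ ω := fun h => hg (Subgroup.subset_closure h)
  push Not at h1
  obtain ⟨ω, hω⟩ := h1
  haveI : Nonempty (MulAction.fixedBy Ω g) := ⟨⟨ω, hω⟩⟩
  exact Nat.card_pos

theorem main {G Ω : Type*} [Group G] [Finite G] [MulAction G Ω] [Finite Ω]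
    (htrans : MulAction.IsPretransitive G Ω) :
    MulAction.IsPretransitive (der G Ω) Ω ∧
    ∀ g : G, Nat.card (MulAction.fixedBy Ω g) ≠ 1 → g ∈ der G Ω := by
  classical
  haveI := Fintype.ofFinite G
  have hsplit := burnside_split G Ω (der G Ω)
  have hcf := card_filter_not G (der G Ω)
  have hoG : Nat.card (MulAction.orbitRel.Quotient G Ω) ≤ 1 := by
    haveI := (MulAction.pretransitive_iff_subsingleton_quotient G Ω).mp htrans
    exact Finite.card_le_one_iff_subsingleton.mpr inferInstance
  have hsum : (Finset.univ.filter (fun g : G => g ∉ der G Ω)).card ≤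
      ∑ g ∈ Finset.univ.filter (fun g : G => g ∉ der G Ω), Nat.card (MulAction.fixedBy Ω g) := by
    rw [Finset.card_eq_sum_ones]
    apply Finset.sum_le_sum
    intro g hg
    exact one_le_fix g (Finset.mem_filter.mp hg).2
  have hDpos : 0 < Nat.card (der G Ω) := Nat.card_pos
  have hGpos : 0 < Nat.card G := Nat.card_pos
  have hle : Nat.card (MulAction.orbitRel.Quotient G Ω) * Nat.card G ≤ Nat.card G := by
    calc _ ≤ 1 * Nat.card G := Nat.mul_le_mul_right _ hoG
      _ = Nat.card G := one_mul _
  constructor
  · rw [MulAction.pretransitive_iff_subsingleton_quotient, ← Finite.card_le_one_iff_subsingleton]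
    by_contra hcon
    push Not at hcon
    have : 2 * Nat.card (der G Ω) ≤ Nat.card (MulAction.orbitRel.Quotient (der G Ω) Ω) * Nat.card (der G Ω) :=
      Nat.mul_le_mul_right _ hcon
    omega
  · intro g hg
    by_contra hgD
    have h1 := one_le_fix g hgD
    have h2 : 2 ≤ Nat.card (MulAction.fixedBy Ω g) := by omega
    have hmem : g ∈ Finset.univ.filter (fun g : G => g ∉ der G Ω) := by simp [hgD]
    have hsum2 : (Finset.univ.filter (fun g : G => g ∉ der G Ω)).card + 1 ≤
        ∑ g ∈ Finset.univ.filter (fun g : G => g ∉ der G Ω), Nat.card (MulAction.fixedBy Ω g) := by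
      rw [← Finset.add_sum_erase _ _ hmem, ← Finset.card_erase_add_one hmem, Finset.card_eq_sum_ones]
      have : ∑ x ∈ (Finset.univ.filter (fun g : G => g ∉ der G Ω)).erase g, 1 ≤
          ∑ x ∈ (Finset.univ.filter (fun g : G => g ∉ der G Ω)).erase g, Nat.card (MulAction.fixedBy Ω x) := by
        apply Finset.sum_le_sum
        intro x hx
        exact one_le_fix x (Finset.mem_filter.mp (Finset.mem_of_mem_erase hx)).2
      omega
    have hne : Nonempty Ω := by
      by_contra hemp
      rw [not_nonempty_iff] at hemp
      have : Nat.card (MulAction.fixedBy Ω g) = 0 := by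
        haveI : IsEmpty (MulAction.fixedBy Ω g) := ⟨fun x => hemp.elim x.1⟩
        exact Nat.card_of_isEmpty
      omega
    have hoD : 1 ≤ Nat.card (MulAction.orbitRel.Quotient (der G Ω) Ω) := by
      haveI : Nonempty (MulAction.orbitRel.Quotient (der G Ω) Ω) := ⟨Quotient.mk'' hne.some⟩
      exact Nat.card_pos
    have : 1 * Nat.card (der G Ω) ≤ Nat.card (MulAction.orbitRel.Quotient (der G Ω) Ω) * Nat.card (der G Ω) :=
      Nat.mul_le_mul_right _ hoD
    omega


/-- Let G act faithfully and transitively on a finite set and let D be the subgroup of G generated by the derangements (the elements fixing no point). Then D is itself transitive, and D contains every element of G whose number of fixed points is different from 1. -/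
theorem result {G Ω : Type*} [Group G] [Finite G] [MulAction G Ω] [FaithfulSMul G Ω] [Finite Ω]
    (htrans : MulAction.IsPretransitive G Ω) :
    MulAction.IsPretransitive ↥(Subgroup.closure {g : G | ∀ ω : Ω, g • ω ≠ ω}) Ω ∧
    ∀ g : G, Nat.card (MulAction.fixedBy Ω g) ≠ 1 → g ∈ Subgroup.closure {g : G | ∀ ω : Ω, g • ω ≠ ω} := by
  exact main htrans

end Cfsg.Agent.S3546
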