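import Cfsg.Statements.S3547
import Mathlib
import Cfsg.Agent.S3546

set_option autoImplicit false
open Cfsg

namespace Cfsg.Agent.S3547

theorem card_fix_prod {G Ω : Type*} [Group G] [MulAction G Ω] (g : G) :
    Nat.card (MulAction.fixedBy (Ω × Ω) g) =
      Nat.card (MulAction.fixedBy Ω g) * Nat.card (MulAction.fixedBy Ω g) := by
  rw [← Nat.card_prod]
  apply Nat.card_congr
  exact { toFun := fun x => (⟨x.1.1, congrArg Prod.fst x.2⟩, ⟨x.1.2, congrArg Prod.snd x.2⟩)
          invFun := fun y => ⟨(y.1.1, y.2.1), Prod.ext y.1.2 y.2.2⟩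
          left_inv := fun x => rfl
          right_inv := fun y => rfl }

theorem main {G Ω : Type*} [Group G] [Finite G] [MulAction G Ω] [Finite Ω]
    (htrans : MulAction.IsPretransitive G Ω) :
    Nat.card (MulAction.orbitRel.Quotient (S3546.der G Ω) (Ω × Ω)) - 1 =
      (Nat.card (MulAction.orbitRel.Quotient G (Ω × Ω)) - 1) * (S3546.der G Ω).index := by
  classical
  haveI := Fintype.ofFinite G
  have hsplit := S3546.burnside_split G (Ω × Ω) (S3546.der G Ω)
  have hcf := S3546.card_filter_not G (S3546.der G Ω)
  have hsum : ∑ g ∈ Finset.univ.filter (fun g : G => g ∉ S3546.der G Ω),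
      Nat.card (MulAction.fixedBy (Ω × Ω) g) = (Finset.univ.filter (fun g : G => g ∉ S3546.der G Ω)).card := by
    rw [Finset.card_eq_sum_ones]
    apply Finset.sum_congr rfl
    intro g hg
    have h1 : Nat.card (MulAction.fixedBy Ω g) = 1 := by
      by_contra h
      exact (Finset.mem_filter.mp hg).2 ((S3546.main htrans).2 g h)
    rw [card_fix_prod, h1]
  rw [hsum] at hsplit
  have hidx := (S3546.der G Ω).card_mul_index
  have hDpos : 0 < Nat.card (S3546.der G Ω) := Nat.card_pos
  have hipos : 0 < (S3546.der G Ω).index := Nat.pos_of_ne_zero (Subgroup.index_ne_zero_of_finite)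
  generalize Nat.card (MulAction.orbitRel.Quotient (S3546.der G Ω) (Ω × Ω)) = rD at *
  generalize Nat.card (MulAction.orbitRel.Quotient G (Ω × Ω)) = rG at *
  generalize (S3546.der G Ω).index = i at *
  generalize Nat.card (S3546.der G Ω) = d at *
  generalize (Finset.univ.filter (fun g : G => g ∉ S3546.der G Ω)).card = c at *
  generalize Nat.card G = n at *
  subst hidx
  -- rG * (d*i) = rD * d + c, c + d = d * i
  have h1 : d * (rG * i + 1) = d * (rD + i) := by nlinarith
  have h2 : rG * i + 1 = rD + i := Nat.eq_of_mul_eq_mul_left hDpos h1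
  rcases Nat.eq_zero_or_pos rG with h0 | h0
  · subst h0
    have : rD = 0 := by omega
    subst this; simp
  · obtain ⟨r, rfl⟩ : ∃ r, rG = r + 1 := ⟨rG - 1, by omega⟩
    simp only [Nat.add_sub_cancel]
    have : rD = r * i + 1 := by nlinarith
    omega


/-- Let G act faithfully and transitively on a finite set Ω, let D be the subgroup generated by the derangements, and let r_G and r_D be the numbers of orbits of G and of D on ordered pairs of points (the permutation ranks). Then r_D − 1 = (r_G − 1)·[G : D]. -/
theorem result {G Ω : Type*} [Group G] [Finite G] [MulAction G Ω] [FaithfulSMul G Ω] [Finite Ω]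
    (htrans : MulAction.IsPretransitive G Ω) :
    Nat.card (MulAction.orbitRel.Quotient ↥(Subgroup.closure {g : G | ∀ ω : Ω, g • ω ≠ ω}) (Ω × Ω)) - 1 =
      (Nat.card (MulAction.orbitRel.Quotient G (Ω × Ω)) - 1) * (Subgroup.closure {g : G | ∀ ω : Ω, g • ω ≠ ω}).index := by
  exact main htrans

end Cfsg.Agent.S3547
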