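import Cfsg.Statements.S3548
import Mathlib
import Cfsg.Agent.S3546

set_option autoImplicit false
open Cfsg

namespace Cfsg.Agent.S3548

open S3546 in
theorem der_normal (G Ω : Type*) [Group G] [MulAction G Ω] : (der G Ω).Normal := by
  have h : der G Ω = Subgroup.normalClosure {g : G | ∀ ω : Ω, g • ω ≠ ω} := by
    apply le_antisymm
    · exact Subgroup.closure_le_normalClosure
    · unfold Subgroup.normalClosure der
      apply Subgroup.closure_mono
      intro x hx
      rw [Group.mem_conjugatesOfSet_iff] at hx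
      obtain ⟨a, ha, hax⟩ := hx
      obtain ⟨c, rfl⟩ := isConj_iff.mp hax
      intro ω hω
      apply ha (c⁻¹ • ω)
      calc a • c⁻¹ • ω = c⁻¹ • ((c * a * c⁻¹) • ω) := by simp [mul_smul]
        _ = c⁻¹ • ω := by rw [hω]
  rw [h]; infer_instance

open S3546 in
theorem sup_stab {G Ω : Type*} [Group G] [Finite G] [MulAction G Ω] [Finite Ω]
    (htrans : MulAction.IsPretransitive G Ω) (α : Ω) : MulAction.stabilizer G α ⊔ der G Ω = ⊤ := by
  rw [eq_top_iff]
  intro g _
  haveI := (main htrans).1
  obtain ⟨d, hd⟩ := MulAction.exists_smul_eq (der G Ω) α (g • α)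
  have h1 : (d : G)⁻¹ * g ∈ MulAction.stabilizer G α := by
    rw [MulAction.mem_stabilizer_iff, mul_smul, ← hd]
    exact inv_smul_smul (d : G) α
  have h2 : g = (d : G) * ((d : G)⁻¹ * g) := by group
  rw [h2, sup_comm]
  exact Subgroup.mul_mem_sup d.2 h1

open S3546 in
theorem relIndex_stab {G Ω : Type*} [Group G] [Finite G] [MulAction G Ω] [Finite Ω]
    (htrans : MulAction.IsPretransitive G Ω) (α : Ω) :
    (der G Ω).relIndex (MulAction.stabilizer G α) = (der G Ω).index := by
  haveI := der_normal G Ω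
  rw [← Subgroup.relIndex_sup_right, sup_stab htrans α, Subgroup.relIndex_top_right]

open S3546 in
theorem two_fix_mem {G Ω : Type*} [Group G] [Finite G] [MulAction G Ω] [Finite Ω]
    (htrans : MulAction.IsPretransitive G Ω) (g : G) (α β : Ω) (hαβ : β ≠ α) (h1 : g • α = α)
    (h2 : g • β = β) : g ∈ der G Ω := by
  apply (main htrans).2
  intro h
  rw [Nat.card_eq_one_iff_unique] at h
  have := h.1.elim (⟨α, h1⟩ : MulAction.fixedBy Ω g) ⟨β, h2⟩
  exact hαβ (congrArg Subtype.val this).symm

theorem dvd_card_of_dvd_orbits {H X : Type*} [Group H] [MulAction H X] [Finite X] (i : ℕ)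
    (h : ∀ x : X, i ∣ Nat.card (MulAction.orbit H x)) : i ∣ Nat.card X := by
  classical
  haveI := Fintype.ofFinite (MulAction.orbitRel.Quotient H X)
  rw [Nat.card_congr (MulAction.selfEquivSigmaOrbits H X), Nat.card_sigma]
  exact Finset.dvd_sum (fun ω _ => h _)

open S3546 in
theorem stab_le {G Ω : Type*} [Group G] [Finite G] [MulAction G Ω] [Finite Ω]
    (htrans : MulAction.IsPretransitive G Ω) (α : Ω) (x : SubMulAction.ofStabilizer G α) :
    MulAction.stabilizer (MulAction.stabilizer G α) x ≤ (der G Ω).subgroupOf (MulAction.stabilizer G α) := by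
  intro g hg
  rw [Subgroup.mem_subgroupOf]
  apply two_fix_mem htrans (g : G) α (x : Ω) (SubMulAction.neq_of_mem_ofStabilizer G α) g.2
  exact congrArg Subtype.val (MulAction.mem_stabilizer_iff.mp hg)

open S3546 in
theorem part1 {G Ω : Type*} [Group G] [Finite G] [MulAction G Ω] [Finite Ω]
    (htrans : MulAction.IsPretransitive G Ω) (α : Ω) : (der G Ω).index ∣ Nat.card Ω - 1 := by
  rw [← SubMulAction.nat_card_ofStabilizer_eq G α]
  apply dvd_card_of_dvd_orbits (H := MulAction.stabilizer G α)
  intro x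
  rw [Nat.card_coe_set_eq, ← MulAction.index_stabilizer, ← relIndex_stab htrans α]
  exact Subgroup.index_dvd_of_le (stab_le htrans α x)

open S3546 in
theorem part2 {G Ω : Type*} [Group G] [Finite G] [MulAction G Ω] [FaithfulSMul G Ω] [Finite Ω]
    (htrans : MulAction.IsPretransitive G Ω) (hΩ : 2 ≤ Nat.card Ω) (α : Ω)
    (hi : (der G Ω).index = Nat.card Ω - 1) : IsPrimePow (Nat.card Ω) := by
  haveI hDn := der_normal G Ω
  haveI hDt := (main htrans).1
  have hcardX := SubMulAction.nat_card_ofStabilizer_eq G α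
  have hipos : 0 < (der G Ω).index := by omega
  -- stabilizers of points of X in H
  have key : ∀ x : SubMulAction.ofStabilizer G α,
      (der G Ω).subgroupOf (MulAction.stabilizer G α) ≤ MulAction.stabilizer (MulAction.stabilizer G α) x ∧
      MulAction.orbit (MulAction.stabilizer G α) x = Set.univ := by
    intro x
    have h1 := Subgroup.relIndex_mul_index (stab_le htrans α x)
    have h2 : ((der G Ω).subgroupOf (MulAction.stabilizer G α)).index = (der G Ω).index :=
      relIndex_stab htrans α
    have h3 : (MulAction.stabilizer (MulAction.stabilizer G α) x).index ≤ (der G Ω).index := by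
      rw [MulAction.index_stabilizer, hi, ← hcardX, ← Set.ncard_univ]
      exact Set.ncard_le_ncard (Set.subset_univ _) Set.finite_univ
    rw [h2] at h1
    have h4 : (MulAction.stabilizer (MulAction.stabilizer G α) x).relIndex
        ((der G Ω).subgroupOf (MulAction.stabilizer G α)) ≠ 0 := Subgroup.index_ne_zero_of_finite
    have h5 : (MulAction.stabilizer (MulAction.stabilizer G α) x).relIndex
        ((der G Ω).subgroupOf (MulAction.stabilizer G α)) = 1 := by
      by_contra hne
      have : 2 ≤ (MulAction.stabilizer (MulAction.stabilizer G α) x).relIndex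
        ((der G Ω).subgroupOf (MulAction.stabilizer G α)) := by omega
      nlinarith
    refine ⟨Subgroup.relIndex_eq_one.mp h5, ?_⟩
    rw [h5, one_mul] at h1
    apply Set.eq_of_subset_of_ncard_le (Set.subset_univ _) _ Set.finite_univ
    rw [← MulAction.index_stabilizer, ← h1, hi, ← hcardX, Set.ncard_univ]
  -- (a) D acts semiregularly
  have ha : ∀ d ∈ der G Ω, d • α = α → d = 1 := by
    intro d hd hdα
    apply FaithfulSMul.eq_of_smul_eq_smul (α := Ω)
    intro β
    rw [one_smul]
    by_cases hβ : β = α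
    · rw [hβ, hdα]
    · have h1 := (key ⟨β, hβ⟩).1 (show (⟨d, hdα⟩ : MulAction.stabilizer G α) ∈ _ from
        Subgroup.mem_subgroupOf.mpr hd)
      exact congrArg Subtype.val (MulAction.mem_stabilizer_iff.mp h1)
  -- (b) transitivity of the stabilizer
  have hb : ∀ β γ : Ω, β ≠ α → γ ≠ α → ∃ g : G, g • α = α ∧ g • β = γ := by
    intro β γ hβ hγ
    have h1 : (⟨γ, hγ⟩ : SubMulAction.ofStabilizer G α) ∈
        MulAction.orbit (MulAction.stabilizer G α) (⟨β, hβ⟩ : SubMulAction.ofStabilizer G α) := by
      rw [(key ⟨β, hβ⟩).2]; trivial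
    obtain ⟨g, hg⟩ := h1
    exact ⟨g, g.2, congrArg Subtype.val hg⟩
  -- (c) all nonidentity elements of D have the same order
  have hc : ∀ d ∈ der G Ω, ∀ d' ∈ der G Ω, d ≠ 1 → d' ≠ 1 → orderOf d' = orderOf d := by
    intro d hd d' hd' h1 h1'
    obtain ⟨g, hgα, hg⟩ := hb (d • α) (d' • α) (fun h => h1 (ha d hd h)) (fun h => h1' (ha d' hd' h))
    have hgi : g⁻¹ • α = α := by rw [inv_smul_eq_iff, hgα]
    have he : d'⁻¹ * (g * d * g⁻¹) = 1 := by
      apply ha _ ((der G Ω).mul_mem ((der G Ω).inv_mem hd') (hDn.conj_mem d hd g))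
      rw [mul_smul, mul_smul, mul_smul, hgi, hg, inv_smul_smul]
    have he' : d' = g * d * g⁻¹ := by rw [inv_mul_eq_one] at he; exact he
    rw [he']
    exact ((SemiconjBy.orderOf_eq g (x := d) (y := g * d * g⁻¹) (by unfold SemiconjBy; group))).symm
  -- (d) |D| = n
  have hd : Nat.card (der G Ω) = Nat.card Ω := by
    have h1 := MulAction.index_stabilizer_of_transitive (der G Ω) α
    have h2 : MulAction.stabilizer (der G Ω) α = ⊥ := by
      rw [Subgroup.eq_bot_iff_forall]
      intro x hx
      exact Subtype.ext (ha x x.2 hx)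
    rw [h2, Subgroup.index_bot] at h1
    exact h1
  obtain ⟨p, hp, hpd⟩ := Nat.exists_prime_and_dvd (show Nat.card (der G Ω) ≠ 1 by omega)
  haveI := Fact.mk hp
  obtain ⟨c, hcc⟩ := exists_prime_orderOf_dvd_card' p hpd
  have hc1 : (c : G) ≠ 1 := by
    intro h
    have : orderOf (c : G) = p := by rw [Subgroup.orderOf_coe, hcc]
    rw [h, orderOf_one] at this
    exact hp.one_lt.ne this
  have hpg : IsPGroup p (der G Ω) := by
    intro x
    refine ⟨1, ?_⟩
    rw [pow_one]
    by_cases hx : (x : G) = 1
    · have : x = 1 := Subtype.ext hx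
      rw [this, one_pow]
    · have h1 := hc c c.2 x x.2 hc1 hx
      rw [Subgroup.orderOf_coe, Subgroup.orderOf_coe, hcc] at h1
      rw [← h1, pow_orderOf_eq_one]
  obtain ⟨k, hk⟩ := IsPGroup.iff_card.mp hpg
  rw [← hd, hk]
  have hk0 : k ≠ 0 := by
    rintro rfl
    rw [pow_zero] at hk
    omega
  exact hp.isPrimePow.pow hk0


/-- Let G act faithfully and transitively on a finite set with n ≥ 2 points and let D be the subgroup generated by the derangements. Then the index of D in G divides n − 1, and if it equals n − 1 then n is a prime power. -/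
theorem result {G Ω : Type*} [Group G] [Finite G] [MulAction G Ω] [FaithfulSMul G Ω] [Finite Ω]
    (htrans : MulAction.IsPretransitive G Ω) (hΩ : 2 ≤ Nat.card Ω) :
    (Subgroup.closure {g : G | ∀ ω : Ω, g • ω ≠ ω}).index ∣ Nat.card Ω - 1 ∧
    ((Subgroup.closure {g : G | ∀ ω : Ω, g • ω ≠ ω}).index = Nat.card Ω - 1 → IsPrimePow (Nat.card Ω)) := by
  have hne : Nonempty Ω := by
    by_contra h
    rw [not_nonempty_iff] at h
    rw [Nat.card_of_isEmpty] at hΩ
    omega
  obtain ⟨α⟩ := hne
  exact ⟨part1 htrans α, fun hi => part2 htrans hΩ α hi⟩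

end Cfsg.Agent.S3548
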