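import Cfsg.Statements.S3549
import Mathlib
import Cfsg.Agent.S3548

set_option autoImplicit false
open Cfsg

namespace Cfsg.Agent.S3549

open S3546 S3548 in
theorem main' {G Ω : Type*} [Group G] [Finite G] [MulAction G Ω] [Finite Ω]
    (htrans : MulAction.IsPretransitive G Ω) (himp : ¬ MulAction.IsPreprimitive G Ω) :
    ((der G Ω).index + 1) ^ 2 ≤ Nat.card Ω := by
  haveI := htrans
  have hnt : Nontrivial Ω := by
    by_contra h
    rw [not_nontrivial_iff_subsingleton] at h
    exact himp (MulAction.IsPreprimitive.of_subsingleton)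
  obtain ⟨α⟩ : Nonempty Ω := inferInstance
  have hnc : ¬ IsCoatom (MulAction.stabilizer G α) := fun h =>
    himp ((MulAction.isCoatom_stabilizer_iff_preprimitive G α).mp h)
  have hne_top : MulAction.stabilizer G α ≠ ⊤ := by
    intro h
    obtain ⟨β, hβ⟩ := exists_ne α
    obtain ⟨g, hg⟩ := MulAction.exists_smul_eq G α β
    have : g ∈ MulAction.stabilizer G α := h ▸ Subgroup.mem_top g
    exact hβ (hg.symm.trans this)
  have hex : ∃ H : Subgroup G, MulAction.stabilizer G α < H ∧ H ≠ ⊤ := by
    by_contra hcon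
    push Not at hcon
    exact hnc ⟨hne_top, fun b hb => hcon b hb⟩
  obtain ⟨H, hlt, hHtop⟩ := hex
  have hDn := der_normal G Ω
  -- fixed points on Ω give fixed points on G ⧸ H
  have hfix : ∀ (g x : G), g • (x • α) = x • α → g • (x : G ⧸ H) = (x : G ⧸ H) := by
    intro g x h
    have h1 : x⁻¹ * g * x ∈ MulAction.stabilizer G α := by
      rw [MulAction.mem_stabilizer_iff, mul_smul, mul_smul, h, inv_smul_smul]
    have h2 : x⁻¹ * g * x ∈ H := hlt.le h1
    show ((g * x : G) : G ⧸ H) = x
    rw [QuotientGroup.eq]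
    have : (g * x)⁻¹ * x = (x⁻¹ * g * x)⁻¹ := by group
    rw [this]; exact H.inv_mem h2
  have hle1 : der G (G ⧸ H) ≤ der G Ω := by
    apply Subgroup.closure_mono
    intro g hg ω hω
    obtain ⟨x, rfl⟩ := MulAction.exists_smul_eq G α ω
    exact hg _ (hfix g x hω)
  have hd1 : (der G Ω).index ∣ H.index - 1 :=
    (Subgroup.index_dvd_of_le hle1).trans (part1 (Ω := G ⧸ H) inferInstance ((1 : G) : G ⧸ H))
  have hle2 : der H (H ⧸ (MulAction.stabilizer G α).subgroupOf H) ≤ (der G Ω).subgroupOf H := by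
    unfold der
    rw [Subgroup.closure_le]
    intro h hh
    show (h : G) ∈ der G Ω
    by_contra hnD
    have h1 : Nat.card (MulAction.fixedBy Ω (h : G)) = 1 := by
      by_contra hne; exact hnD ((main htrans).2 _ hne)
    have h2 : Nat.card (MulAction.fixedBy (G ⧸ H) (h : G)) = 1 := by
      by_contra hne
      exact hnD (hle1 ((main (Ω := G ⧸ H) inferInstance).2 _ hne))
    obtain ⟨⟨ω, hω⟩⟩ := (Nat.card_eq_one_iff_unique.mp h1).2
    obtain ⟨x, rfl⟩ := MulAction.exists_smul_eq G α ω
    have h3 := hfix h x hω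
    have h4 : (h : G) • ((1 : G) : G ⧸ H) = ((1 : G) : G ⧸ H) := by
      show (((h : G) * 1 : G) : G ⧸ H) = ((1 : G) : G ⧸ H)
      rw [QuotientGroup.eq]; simp
    have h5 := (Nat.card_eq_one_iff_unique.mp h2).1.elim
      (⟨_, h3⟩ : MulAction.fixedBy (G ⧸ H) (h : G)) ⟨_, h4⟩
    have h6 : (x : G ⧸ H) = ((1 : G) : G ⧸ H) := congrArg Subtype.val h5
    have hxH : x ∈ H := by
      rw [QuotientGroup.eq] at h6
      have := H.inv_mem h6
      simpa using this
    apply hh ((⟨x, hxH⟩ : H) : H ⧸ (MulAction.stabilizer G α).subgroupOf H)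
    show ((h * ⟨x, hxH⟩ : H) : H ⧸ (MulAction.stabilizer G α).subgroupOf H) = _
    rw [QuotientGroup.eq, Subgroup.mem_subgroupOf, MulAction.mem_stabilizer_iff]
    show (((h : G) * x)⁻¹ * x) • α = α
    rw [mul_smul, inv_smul_eq_iff, mul_smul, hω]
  have hrel : (der G Ω).relIndex H = (der G Ω).index := by
    rw [← Subgroup.relIndex_sup_right]
    have : H ⊔ der G Ω = ⊤ := by
      rw [eq_top_iff, ← sup_stab htrans α]
      exact sup_le_sup_right hlt.le _
    rw [this, Subgroup.relIndex_top_right]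
  have hd2 : (der G Ω).index ∣ (MulAction.stabilizer G α).relIndex H - 1 := by
    rw [← hrel]
    exact (Subgroup.index_dvd_of_le hle2).trans
      (part1 (G := H) (Ω := H ⧸ (MulAction.stabilizer G α).subgroupOf H) inferInstance
        ((1 : H) : H ⧸ (MulAction.stabilizer G α).subgroupOf H))
  have hn : (MulAction.stabilizer G α).relIndex H * H.index = Nat.card Ω := by
    rw [Subgroup.relIndex_mul_index hlt.le, MulAction.index_stabilizer_of_transitive]
  have hm2 : 2 ≤ H.index := by
    have h0 : H.index ≠ 0 := Subgroup.index_ne_zero_of_finite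
    have h1 : H.index ≠ 1 := fun h => hHtop (Subgroup.index_eq_one.mp h)
    omega
  have hb2 : 2 ≤ (MulAction.stabilizer G α).relIndex H := by
    have h0 : (MulAction.stabilizer G α).relIndex H ≠ 0 := Subgroup.index_ne_zero_of_finite
    have h1 : (MulAction.stabilizer G α).relIndex H ≠ 1 := fun h =>
      absurd (Subgroup.relIndex_eq_one.mp h) (not_le_of_gt hlt)
    omega
  have hi1 : (der G Ω).index ≤ H.index - 1 := Nat.le_of_dvd (by omega) hd1
  have hi2 : (der G Ω).index ≤ (MulAction.stabilizer G α).relIndex H - 1 := Nat.le_of_dvd (by omega) hd2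
  rw [← hn, sq]
  exact Nat.mul_le_mul (by omega) (by omega)


/-- Let G act faithfully, transitively but imprimitively on a finite set with n points, and let D be the subgroup generated by the derangements. Then the index of D in G is at most √n − 1. -/
theorem result {G Ω : Type*} [Group G] [Finite G] [MulAction G Ω] [FaithfulSMul G Ω] [Finite Ω]
    (htrans : MulAction.IsPretransitive G Ω) (himp : ¬ MulAction.IsPreprimitive G Ω) :
    ((Subgroup.closure {g : G | ∀ ω : Ω, g • ω ≠ ω}).index : ℝ) ≤ Real.sqrt (Nat.card Ω) - 1 := by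
  have h := main' htrans himp
  have h2 : (((S3546.der G Ω).index : ℝ) + 1) ^ 2 ≤ (Nat.card Ω : ℝ) := by exact_mod_cast h
  have h3 : ((S3546.der G Ω).index : ℝ) + 1 ≤ Real.sqrt (Nat.card Ω) := Real.le_sqrt_of_sq_le h2
  show ((S3546.der G Ω).index : ℝ) ≤ _
  linarith

end Cfsg.Agent.S3549
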