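import Cfsg.Statements.S3683
import Mathlib

set_option autoImplicit false
open Cfsg

namespace Cfsg.Agent.S3683

/-- Let a finite group G act faithfully and primitively on a set Ω, and suppose the stabilizer of a point a fixes a second point b ≠ a (a suborbit of length 1 other than {a}). Then the stabilizer of a is trivial and G is cyclic of prime order. -/
theorem result {G Ω : Type*} [Group G] [Finite G] [MulAction G Ω] [FaithfulSMul G Ω] [Finite Ω]
    (hprim : MulAction.IsPreprimitive G Ω) (a b : Ω) (hab : a ≠ b) (hfix : ∀ g : G, g • a = a → g • b = b) :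
    MulAction.stabilizer G a = ⊥ ∧ IsCyclic G ∧ (Nat.card G).Prime := by
  haveI := hprim
  haveI : Nontrivial Ω := ⟨a, b, hab⟩
  have hco : IsCoatom (MulAction.stabilizer G a) :=
    (MulAction.isCoatom_stabilizer_iff_preprimitive G a).mpr hprim
  have hle : MulAction.stabilizer G a ≤ MulAction.stabilizer G b := fun g hg => hfix g hg
  obtain ⟨g, hg⟩ := MulAction.exists_smul_eq G a b
  have hconj : MulAction.stabilizer G b = (MulAction.stabilizer G a).map (MulAut.conj g).toMonoidHom := by
    rw [← hg, MulAction.stabilizer_smul_eq_stabilizer_map_conj]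
  have hcard : Nat.card (MulAction.stabilizer G b) = Nat.card (MulAction.stabilizer G a) := by
    rw [hconj]; exact Subgroup.card_map_of_injective (MulAut.conj g).injective
  have heq : MulAction.stabilizer G a = MulAction.stabilizer G b :=
    Subgroup.eq_of_le_of_card_ge hle hcard.le
  have hgN : g ∈ Subgroup.normalizer (MulAction.stabilizer G a : Set G) := by
    rw [Subgroup.mem_normalizer_iff_map_conj_eq]
    exact hconj.symm.trans heq.symm
  have hgn : g ∉ MulAction.stabilizer G a := by
    intro h
    exact hab (by rw [← hg]; exact h.symm)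
  have hN : Subgroup.normalizer (MulAction.stabilizer G a : Set G) = ⊤ := by
    apply hco.2
    exact lt_of_le_of_ne Subgroup.le_normalizer (fun h => hgn (h ▸ hgN))
  have hnormal : (MulAction.stabilizer G a).Normal := Subgroup.normalizer_eq_top_iff.mp hN
  have hbot : MulAction.stabilizer G a = ⊥ := by
    rw [Subgroup.eq_bot_iff_forall]
    intro x hx
    apply FaithfulSMul.eq_of_smul_eq_smul (α := Ω)
    intro c
    obtain ⟨k, rfl⟩ := MulAction.exists_smul_eq G a c
    have h1 : k⁻¹ * x * k ∈ MulAction.stabilizer G a := by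
      have := hnormal.conj_mem x hx k⁻¹
      simpa using this
    have h2 : (k⁻¹ * x * k) • a = a := h1
    rw [one_smul]
    calc x • k • a = k • ((k⁻¹ * x * k) • a) := by simp [mul_smul]
      _ = k • a := by rw [h2]
  refine ⟨hbot, ?_⟩
  rw [hbot] at hco
  have hne : Nat.card G ≠ 1 := by
    intro h
    have : Subsingleton G := (Nat.card_eq_one_iff_unique.mp h).1
    exact hgn (by rw [Subsingleton.elim g 1]; exact Subgroup.one_mem _)
  obtain ⟨p, hp, hpd⟩ := Nat.exists_prime_and_dvd hne
  haveI := Fact.mk hp
  obtain ⟨c, hc⟩ := exists_prime_orderOf_dvd_card' p hpd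
  have htop : Subgroup.zpowers c = ⊤ := by
    apply hco.2
    rw [bot_lt_iff_ne_bot]
    intro h
    rw [Subgroup.zpowers_eq_bot] at h
    rw [h, orderOf_one] at hc
    exact hp.one_lt.ne hc
  have hcard2 : Nat.card G = p := by
    rw [← hc, ← Nat.card_zpowers, htop, Subgroup.card_top]
  exact ⟨isCyclic_iff_exists_zpowers_eq_top.mpr ⟨c, htop⟩, hcard2 ▸ hp⟩

end Cfsg.Agent.S3683
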