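import Cfsg.Statements.S3802
import Cfsg.Agent.Lib_helper2_Subnormal

set_option autoImplicit false
open Pointwise
open Cfsg

namespace Cfsg.Agent.S3802

universe u

open Cfsg.Agent.H2

theorem aux (n : ℕ) : ∀ (G : Type u) [Group G] [Finite G], Nat.card G = n →
    ∀ (M N : Subgroup G), IsCoatom M → N.IsSubnormal → N ≤ M → N ≤ Subgroup.normalCore M := by
  induction n using Nat.strong_induction_on with
  | _ n ih =>
  intro G _ _ hn M N hM hN hNM
  have htop : (⊤ : Subgroup G) ≠ ⊥ := by
    intro h
    apply hM.1
    rw [eq_top_iff, h]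
    exact bot_le
  obtain ⟨K, -, hK⟩ := exists_minNormal_le (⊤ : Subgroup G) inferInstance htop
  have hKN := minNormal_le_normalizer hN hK
  haveI hKn : K.Normal := hK.1
  by_cases hKM : K ≤ M
  · -- quotient
    have hcard : Nat.card (G ⧸ K) < n := by
      rw [← hn, Subgroup.card_eq_card_quotient_mul_card_subgroup K]
      have h1 : 1 < Nat.card K := by
        rw [Finite.one_lt_card_iff_nontrivial]
        exact (Subgroup.nontrivial_iff_ne_bot K).mpr hK.2.1
      have h2 : 0 < Nat.card (G ⧸ K) := Nat.card_pos
      nlinarith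
    have hcm : (M.map (QuotientGroup.mk' K)).comap (QuotientGroup.mk' K) = M := by
      rw [Subgroup.comap_map_eq, QuotientGroup.ker_mk', sup_eq_left.mpr hKM]
    have hco : IsCoatom (M.map (QuotientGroup.mk' K)) := by
      constructor
      · intro h
        apply hM.1
        rw [← hcm, h, Subgroup.comap_top]
      · intro L hL
        have h1 : M < L.comap (QuotientGroup.mk' K) := by
          rw [← hcm]
          refine lt_of_le_of_ne (Subgroup.comap_mono hL.le) ?_
          intro h
          have := congrArg (Subgroup.map (QuotientGroup.mk' K)) h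
          rw [Subgroup.map_comap_eq_self_of_surjective (QuotientGroup.mk'_surjective K),
            Subgroup.map_comap_eq_self_of_surjective (QuotientGroup.mk'_surjective K)] at this
          exact hL.ne this
        have h2 := hM.2 _ h1
        rw [← Subgroup.map_comap_eq_self_of_surjective (QuotientGroup.mk'_surjective K) L, h2,
          Subgroup.map_top_of_surjective _ (QuotientGroup.mk'_surjective K)]
    have := ih _ hcard (G ⧸ K) rfl (M.map (QuotientGroup.mk' K)) (N.map (QuotientGroup.mk' K)) hco
      hN.quotient (Subgroup.map_mono hNM)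
    intro x hx g
    have h1 : QuotientGroup.mk' K x ∈ (M.map (QuotientGroup.mk' K)).normalCore :=
      this (Subgroup.mem_map_of_mem _ hx)
    have h2 := h1 (QuotientGroup.mk' K g)
    rw [← map_inv, ← map_mul, ← map_mul] at h2
    have h3 : g * x * g⁻¹ ∈ (M.map (QuotientGroup.mk' K)).comap (QuotientGroup.mk' K) := h2
    rwa [hcm] at h3
  · have hsup : M ⊔ K = ⊤ := by
      apply hM.2
      exact lt_of_le_of_ne le_sup_left (fun h => hKM (by rw [h]; exact le_sup_right))
    intro x hx g
    have hg : g ∈ M ⊔ K := by rw [hsup]; trivial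
    rw [← SetLike.mem_coe, Subgroup.mul_normal] at hg
    obtain ⟨m, hm, k, hk, rfl⟩ := hg
    have h1 : k * x * k⁻¹ ∈ N := ((Subgroup.mem_normalizer_iff.mp (hKN hk)) x).mp hx
    have h2 : m * (k * x * k⁻¹) * m⁻¹ ∈ M := M.mul_mem (M.mul_mem hm (hNM h1)) (M.inv_mem hm)
    have e : m * k * x * (m * k)⁻¹ = m * (k * x * k⁻¹) * m⁻¹ := by group
    rw [e]
    exact h2

/-- Let G be a finite group, M a maximal subgroup of G and N a subnormal subgroup of G contained in M. Then N is contained in every conjugate of M, that is, N lies in the core of M in G. -/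
theorem result {G : Type*} [Group G] [Finite G] (M N : Subgroup G) (hM : IsCoatom M) (hN : N.IsSubnormal) (hNM : N ≤ M) :
    N ≤ Subgroup.normalCore M := by
  exact aux _ G rfl M N hM hN hNM

end Cfsg.Agent.S3802
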