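import Cfsg.Statements.S4207
import Cfsg.Agent.Lib_helper3_Action

set_option autoImplicit false
open Cfsg

namespace Cfsg.Agent.S4207

/-- Let `P` be a group of order `p^n` whose Frattini subgroup has index `p^r`. Then any group of automorphisms of `P` each of which induces the identity on the Frattini quotient has order dividing `p^(r(n-r))`; in particular it is a `p`-group. -/
theorem result {P : Type*} [Group P] [Finite P] {p n r : ℕ} [Fact p.Prime] (hP : Nat.card P = p ^ n) (hr : (frattini P).index = p ^ r) (A : Subgroup (MulAut P)) (hA : ∀ α ∈ A, ∀ x : P, α x * x⁻¹ ∈ frattini P) : Nat.card A ∣ p ^ (r * (n - r)) := by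
  classical
  have hp := (Fact.out : p.Prime)
  have hΦn : (frattini P).Normal := inferInstance
  have hQ : Nat.card (P ⧸ frattini P) = p ^ r := by rw [← Subgroup.index_eq_card, hr]
  obtain ⟨f, hf⟩ := H3.exists_generators_of_card_eq_pow hQ
  let T := {t : Fin r → P // ∀ i, ((t i : P) : P ⧸ frattini P) = f i}
  have hgen : ∀ t : T, Subgroup.closure (Set.range t.1) = ⊤ := by
    intro t
    apply frattini_nongenerating
    have h1 : (Subgroup.closure (Set.range t.1)).map (QuotientGroup.mk' (frattini P)) = ⊤ := by
      rw [MonoidHom.map_closure, ← hf]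
      congr 1
      ext y
      constructor
      · rintro ⟨_, ⟨i, rfl⟩, rfl⟩
        exact ⟨i, (t.2 i).symm⟩
      · rintro ⟨i, rfl⟩
        exact ⟨t.1 i, ⟨i, rfl⟩, t.2 i⟩
    have h2 := Subgroup.comap_map_eq (QuotientGroup.mk' (frattini P)) (Subgroup.closure (Set.range t.1))
    rw [h1, Subgroup.comap_top, QuotientGroup.ker_mk'] at h2
    exact h2.symm
  have hcardΦ : Nat.card (frattini P) = p ^ (n - r) := by
    have h1 := Subgroup.card_mul_index (frattini P)
    rw [hr, hP] at h1
    have hrn : r ≤ n := by
      have : p ^ r ∣ p ^ n := Dvd.intro_left _ h1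
      exact (Nat.pow_dvd_pow_iff_le_right hp.one_lt).mp this
    have h2 : p ^ n = p ^ (n - r) * p ^ r := by rw [← pow_add, Nat.sub_add_cancel hrn]
    rw [h2] at h1
    exact Nat.eq_of_mul_eq_mul_right (pow_pos hp.pos r) h1
  have hcardT : Nat.card T = p ^ (r * (n - r)) := by
    have e : T ≃ (Fin r → frattini P) :=
      { toFun := fun t i => ⟨((f i).out)⁻¹ * t.1 i, by
          apply QuotientGroup.eq.mp
          rw [QuotientGroup.out_eq', t.2 i]⟩
        invFun := fun u => ⟨fun i => (f i).out * (u i : P), fun i => by
          have : (((f i).out * (u i : P) : P) : P ⧸ frattini P) = (((f i).out : P) : P ⧸ frattini P) := by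
            apply QuotientGroup.eq.mpr
            have h3 : ((f i).out * (u i : P))⁻¹ * (f i).out = ((u i : P))⁻¹ := by group
            rw [h3]; exact inv_mem (u i).2
          rw [this, QuotientGroup.out_eq']⟩
        left_inv := by
          intro t
          apply Subtype.ext
          funext i
          simp
        right_inv := by
          intro u
          funext i
          apply Subtype.ext
          simp }
    rw [Nat.card_congr e, Nat.card_fun, hcardΦ, Nat.card_eq_fintype_card, Fintype.card_fin, ← pow_mul, mul_comm]
  have hTfin : Finite T := Nat.finite_of_card_ne_zero (by rw [hcardT]; exact (pow_pos hp.pos _).ne')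
  let act : MulAction A T :=
    { smul := fun α t => ⟨fun i => (α : MulAut P) (t.1 i), fun i => by
        rw [← t.2 i]
        apply QuotientGroup.eq_iff_div_mem.mpr
        rw [div_eq_mul_inv]
        exact hA α α.2 (t.1 i)⟩
      one_smul := fun t => rfl
      mul_smul := fun α β t => rfl }
  rw [← hcardT]
  apply H3.card_dvd_of_free
  intro α t hαt
  have h1 : ∀ i, (α : MulAut P) (t.1 i) = t.1 i := fun i => congrFun (congrArg Subtype.val hαt) i
  have h2 : ((α : MulAut P) : P ≃* P).toMonoidHom = MonoidHom.id P := by
    apply MonoidHom.eq_of_eqOn_dense (hgen t)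
    rintro _ ⟨i, rfl⟩
    exact h1 i
  apply Subtype.ext
  ext y
  exact DFunLike.congr_fun h2 y

end Cfsg.Agent.S4207
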