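import Cfsg.Statements.S3803
import Cfsg.Agent.Lib_helper2_Omega4
import Cfsg.Agent.Lib_helper1_Frattini
import Cfsg.Agent.S4207

set_option autoImplicit false
open Cfsg

namespace Cfsg.Agent.S3803

theorem exists_between {X : Type*} [Group X] [Finite X] {p : ℕ} [Fact p.Prime] {P E : Subgroup X}
    (hEP : E ≤ P) {k m : ℕ} (hE : Nat.card E = p ^ k) (hm : p ^ m ∣ Nat.card P) (hkm : k ≤ m) :
    ∃ K : Subgroup X, E ≤ K ∧ K ≤ P ∧ Nat.card K = p ^ m := by
  have h1 : Nat.card (E.subgroupOf P) = p ^ k := by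
    rw [Nat.card_congr (Subgroup.subgroupOfEquivOfLe hEP).toEquiv, hE]
  obtain ⟨K, hK, hle⟩ := Sylow.exists_subgroup_card_pow_prime_le p hm (E.subgroupOf P) h1 hkm
  refine ⟨K.map P.subtype, ?_, Subgroup.map_subtype_le K, ?_⟩
  · intro x hx
    exact ⟨⟨x, hEP hx⟩, hle (Subgroup.mem_subgroupOf.mpr hx), rfl⟩
  · rw [Subgroup.card_map_of_injective P.subtype_injective, hK]

theorem commute_of_aut_one {X : Type*} [Group X] {C : Subgroup X} {a : X}
    (ha : a ∈ Subgroup.normalizer (C : Set X)) (h : C.normalizerMonoidHom ⟨a, ha⟩ = 1) :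
    ∀ x ∈ C, a * x = x * a := by
  intro x hx
  have h1 : (C.normalizerMonoidHom ⟨a, ha⟩) ⟨x, hx⟩ = ⟨x, hx⟩ := by rw [h]; rfl
  have h2 : a * x * a⁻¹ = x := congrArg Subtype.val h1
  calc a * x = (a * x * a⁻¹) * a := by group
    _ = x * a := by rw [h2]

theorem orderOf_aut_dvd {X : Type*} [Group X] {C : Subgroup X} {a : X}
    (ha : a ∈ Subgroup.normalizer (C : Set X)) :
    orderOf (C.normalizerMonoidHom ⟨a, ha⟩) ∣ orderOf a := by
  have h1 : orderOf (C.normalizerMonoidHom ⟨a, ha⟩) ∣
      orderOf (⟨a, ha⟩ : Subgroup.normalizer (C : Set X)) := orderOf_map_dvd _ _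
  rwa [Subgroup.orderOf_mk] at h1

theorem eq_one_of_dvd_two_pow_of_odd {n k : ℕ} (h : n ∣ 2 ^ k) (ho : Odd n) : n = 1 := by
  obtain ⟨j, _, rfl⟩ := (Nat.dvd_prime_pow Nat.prime_two).mp h
  rcases Nat.eq_zero_or_pos j with rfl | hj
  · simp
  · exfalso
    have : Even (2 ^ j) := (Nat.even_pow.mpr ⟨even_two, hj.ne'⟩)
    exact (Nat.not_even_iff_odd.mpr ho) this

theorem commute_of_cyclic {X : Type*} [Group X] [Finite X] {C : Subgroup X} (hC : IsPGroup 2 C)
    (hcyc : IsCyclic C) {a : X} (ha : a ∈ Subgroup.normalizer (C : Set X)) (hodd : Odd (orderOf a)) :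
    ∀ x ∈ C, a * x = x * a := by
  apply commute_of_aut_one ha
  rw [← orderOf_eq_one_iff]
  obtain ⟨k, hk⟩ := hC.exists_card_eq
  have h1 : orderOf (C.normalizerMonoidHom ⟨a, ha⟩) ∣ Nat.card (MulAut C) := orderOf_dvd_natCard _
  rw [IsCyclic.card_mulAut, hk] at h1
  have h2 : Nat.totient (2 ^ k) ∣ 2 ^ k := by
    rcases Nat.eq_zero_or_pos k with rfl | hk0
    · simp
    · rw [Nat.totient_prime_pow Nat.prime_two hk0]
      simpa using pow_dvd_pow 2 (Nat.sub_le k 1)
  exact eq_one_of_dvd_two_pow_of_odd (h1.trans h2) (hodd.of_dvd_nat (orderOf_aut_dvd ha))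

theorem commute_of_frattini {X : Type*} [Group X] [Finite X] {E : Subgroup X} (hE : IsPGroup 2 E)
    {a : X} (ha : a ∈ Subgroup.normalizer (E : Set X)) (hodd : Odd (orderOf a))
    (hF : ∀ F : Subgroup X, F ≤ E → Nat.card F * 2 = Nat.card E →
      a ∈ Subgroup.normalizer (F : Set X)) :
    ∀ x ∈ E, a * x = x * a := by
  haveI : Fact (2 : ℕ).Prime := ⟨Nat.prime_two⟩
  apply commute_of_aut_one ha
  rw [← orderOf_eq_one_iff]
  set φ := E.normalizerMonoidHom ⟨a, ha⟩ with hφ
  let B : Subgroup (MulAut E) :=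
    { carrier := {α | ∀ M : Subgroup E, IsCoatom M → ∀ x : E, α x ∈ M ↔ x ∈ M}
      one_mem' := fun M _ x => Iff.rfl
      mul_mem' := fun {α β} hα hβ M hM x => by
        rw [MulAut.mul_apply, hα M hM, hβ M hM]
      inv_mem' := fun {α} hα M hM x => by
        rw [← hα M hM (α⁻¹ x), MulAut.apply_inv_self] }
  have hφB : φ ∈ B := by
    intro M hM x
    obtain ⟨hMn, hMi⟩ := H1.coatom_of_pgroup hE hM
    have h1 : Nat.card (M.map E.subtype) * 2 = Nat.card E := by
      rw [Subgroup.card_map_of_injective E.subtype_injective, ← hMi, Subgroup.card_mul_index]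
    have h2 := hF _ (Subgroup.map_subtype_le M) h1
    rw [Subgroup.mem_normalizer_iff] at h2
    have h3 := h2 (x : X)
    constructor
    · intro hx
      obtain ⟨y, hy, hyx⟩ := h3.mpr ⟨_, hx, rfl⟩
      have : y = x := Subtype.ext hyx
      rwa [← this]
    · intro hx
      obtain ⟨y, hy, hyx⟩ := h3.mp ⟨x, hx, rfl⟩
      have : y = φ x := Subtype.ext hyx
      rwa [← this]
  have hB : ∀ α ∈ B, ∀ x : E, α x * x⁻¹ ∈ frattini E := by
    intro α hα x
    refine (H1.le_frattini_iff (X := Subgroup.zpowers (α x * x⁻¹))).mpr ?_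
      (Subgroup.mem_zpowers _)
    intro M hM
    rw [Subgroup.zpowers_le]
    obtain ⟨hMn, hMi⟩ := H1.coatom_of_pgroup hE hM
    have h1 := hα M hM x
    by_cases hx : x ∈ M
    · exact M.mul_mem (h1.mpr hx) (M.inv_mem hx)
    · have h2 : α x ∉ M := fun h => hx (h1.mp h)
      have h3 : x⁻¹ ∉ M := fun h => hx (by simpa using M.inv_mem h)
      by_contra hcon
      have := (Subgroup.mul_mem_iff_of_index_two hMi (a := α x) (b := x⁻¹))
      tauto
  obtain ⟨n, hn⟩ := hE.exists_card_eq
  obtain ⟨r, hr⟩ := (hE.to_quotient (frattini E)).exists_card_eq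
  rw [← Subgroup.index_eq_card] at hr
  have h4 := S4207.result hn hr B hB
  have h5 : orderOf φ ∣ Nat.card B := by
    have := orderOf_dvd_natCard (⟨φ, hφB⟩ : B)
    rwa [Subgroup.orderOf_mk] at this
  exact eq_one_of_dvd_two_pow_of_odd (h5.trans h4) (hodd.of_dvd_nat (orderOf_aut_dvd ha))

theorem mem_normalizer_sup {X : Type*} [Group X] {E F : Subgroup X} {a : X}
    (hE : a ∈ Subgroup.normalizer (E : Set X)) (hF : a ∈ Subgroup.normalizer (F : Set X)) :
    a ∈ Subgroup.normalizer ((E ⊔ F : Subgroup X) : Set X) := by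
  have key : ∀ H : Subgroup X, a ∈ Subgroup.normalizer (H : Set X) ↔
      H.map (MulAut.conj a).toMonoidHom = H := by
    intro H
    constructor
    · intro h
      rw [Subgroup.mem_normalizer_iff] at h
      ext y
      constructor
      · rintro ⟨x, hx, rfl⟩
        exact (h x).mp hx
      · intro hy
        refine ⟨a⁻¹ * y * a, ?_, ?_⟩
        · apply (h _).mpr
          have : a * (a⁻¹ * y * a) * a⁻¹ = y := by group
          rwa [this]
        · simp only [MulEquiv.coe_toMonoidHom, MulAut.conj_apply]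
          group
    · intro h
      rw [Subgroup.mem_normalizer_iff]
      intro x
      constructor
      · intro hx
        rw [← h]
        exact ⟨x, hx, rfl⟩
      · intro hx
        rw [← h] at hx
        obtain ⟨y, hy, hyx⟩ := hx
        have : y = x := by
          simp only [MulEquiv.coe_toMonoidHom, MulAut.conj_apply] at hyx
          simpa using hyx
        rwa [← this]
  rw [key, Subgroup.map_sup, (key E).mp hE, (key F).mp hF]

/-- if all subgroups of `P` of order `2 ^ k < |P|` are normalized by `a`, they are centralized. -/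
theorem commute_of_inv {X : Type*} [Group X] [Finite X] {P : Subgroup X} (hP : IsPGroup 2 P)
    {a : X} (hodd : Odd (orderOf a)) {k : ℕ} (hk : 2 ^ (k + 1) ∣ Nat.card P)
    (hinv : ∀ E : Subgroup X, E ≤ P → Nat.card E = 2 ^ k → a ∈ Subgroup.normalizer (E : Set X))
    (E : Subgroup X) (hEP : E ≤ P) (hE : Nat.card E = 2 ^ k) : ∀ x ∈ E, a * x = x * a := by
  haveI : Fact (2 : ℕ).Prime := ⟨Nat.prime_two⟩
  obtain ⟨E1, hEE1, hE1P, hE1⟩ := exists_between hEP hE hk (Nat.le_succ k)
  have hE1p : IsPGroup 2 E1 := hP.to_le hE1P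
  by_cases h : ∃ F : Subgroup X, F ≤ E1 ∧ F ≠ E ∧ Nat.card F = 2 ^ k
  · obtain ⟨F, hFE1, hFE, hF⟩ := h
    have hsup : E ⊔ F = E1 := by
      have hle : E ⊔ F ≤ E1 := sup_le hEE1 hFE1
      apply Subgroup.eq_of_le_of_card_ge hle
      obtain ⟨j, hj⟩ := (hE1p.to_le hle).exists_card_eq
      have hlt : E < E ⊔ F := by
        refine lt_of_le_of_ne le_sup_left ?_
        intro heq
        have hFE' : F ≤ E := by rw [heq]; exact le_sup_right
        exact hFE (Subgroup.eq_of_le_of_card_ge hFE' (by rw [hE, hF]))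
      have hc : Nat.card E < Nat.card (E ⊔ F : Subgroup X) := by
        by_contra hcon
        push Not at hcon
        exact hlt.ne (Subgroup.eq_of_le_of_card_ge hlt.le hcon)
      rw [hE, hj] at hc
      have hkj : k < j := (Nat.pow_lt_pow_iff_right (by norm_num)).mp hc
      rw [hE1, hj]
      exact Nat.pow_le_pow_right (by norm_num) hkj
    have haE1 : a ∈ Subgroup.normalizer (E1 : Set X) := by
      rw [← hsup]
      exact mem_normalizer_sup (hinv E hEP hE) (hinv F (hFE1.trans hE1P) hF)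
    intro x hx
    refine commute_of_frattini hE1p haE1 hodd ?_ x (hEE1 hx)
    intro F' hF' hc
    apply hinv F' (hF'.trans hE1P)
    rw [hE1, pow_succ] at hc
    exact Nat.eq_of_mul_eq_mul_right (by norm_num) hc
  · push Not at h
    have hex : ∃ t ∈ E1, t ∉ E := by
      by_contra hcon
      push Not at hcon
      have : E1 = E := le_antisymm hcon hEE1
      rw [this, hE] at hE1
      have := Nat.pow_right_injective (le_refl 2) hE1
      omega
    obtain ⟨t, htE1, htE⟩ := hex
    have hz : Subgroup.zpowers t = E1 := by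
      have hle : Subgroup.zpowers t ≤ E1 := by rwa [Subgroup.zpowers_le]
      by_contra hne
      obtain ⟨j, hj⟩ := (hE1p.to_le hle).exists_card_eq
      have hjk : j ≤ k := by
        by_contra hcon
        push Not at hcon
        apply hne
        apply Subgroup.eq_of_le_of_card_ge hle
        rw [hE1, hj]
        exact Nat.pow_le_pow_right (by norm_num) hcon
      obtain ⟨K, hzK, hKE1, hK⟩ := exists_between hle hj
        (by rw [hE1]; exact pow_dvd_pow 2 (Nat.le_succ k)) hjk
      by_cases hKE : K = E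
      · exact htE (hKE ▸ hzK (Subgroup.mem_zpowers t))
      · exact h K hKE1 hKE hK
    have hcyc : IsCyclic E := by
      have h1 : IsCyclic (Subgroup.zpowers t) := inferInstance
      exact isCyclic_of_injective (Subgroup.inclusion (hz ▸ hEE1))
        (Subgroup.inclusion_injective _)
    exact commute_of_cyclic (hP.to_le hEP) hcyc (hinv E hEP hE) hodd

/-- Let P be a 2-subgroup and A a subgroup of odd order of a finite group, with A normalizing P. Let D ≤ P with 1 < |D| < |P|. If every subgroup of P of order |D|, and also every subgroup of P of order 4 in case |D| = 2, is normalized by A, then A centralizes P. -/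
theorem result {X : Type*} [Group X] [Finite X] (P A D : Subgroup X) (hP : IsPGroup 2 P) (hA : Odd (Nat.card A))
    (hAP : A ≤ Subgroup.normalizer (P : Set X)) (hDP : D ≤ P) (hD1 : 1 < Nat.card D) (hD2 : Nat.card D < Nat.card P)
    (hinv : ∀ E : Subgroup X, E ≤ P → (Nat.card E = Nat.card D ∨ (Nat.card D = 2 ∧ Nat.card E = 4)) → A ≤ Subgroup.normalizer (E : Set X)) :
    A ≤ Subgroup.centralizer (P : Set X) := by
  haveI : Fact (2 : ℕ).Prime := ⟨Nat.prime_two⟩
  apply H2.le_centralizer_of_fix_omega4 P A hP hAP (Nat.coprime_two_right.mpr hA)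
  intro x hx hx4 a ha
  have hodd : Odd (orderOf a) := by
    apply hA.of_dvd_nat
    have := orderOf_dvd_natCard (⟨a, ha⟩ : A)
    rwa [Subgroup.orderOf_mk] at this
  obtain ⟨n, hn⟩ := hP.exists_card_eq
  obtain ⟨k, hk⟩ := (hP.to_le hDP).exists_card_eq
  have hkn : k < n := by
    rw [hk, hn] at hD2
    exact (Nat.pow_lt_pow_iff_right (by norm_num)).mp hD2
  have hk0 : 0 < k := by
    rcases Nat.eq_zero_or_pos k with rfl | h
    · rw [hk] at hD1; simp at hD1
    · exact h
  have hzP : Subgroup.zpowers x ≤ P := by rwa [Subgroup.zpowers_le]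
  obtain ⟨i, hi⟩ := (hP.to_le hzP).exists_card_eq
  have hi2 : i ≤ 2 := by
    have h1 : orderOf x ∣ 2 ^ 2 := orderOf_dvd_of_pow_eq_one (by norm_num; exact hx4)
    rw [Nat.card_zpowers] at hi
    rw [hi] at h1
    exact (Nat.pow_dvd_pow_iff_le_right (by norm_num)).mp h1
  by_cases hk2 : 2 ≤ k
  · obtain ⟨E, hzE, hEP, hE⟩ := exists_between hzP hi
      (by rw [hn]; exact pow_dvd_pow 2 hkn.le) (hi2.trans hk2)
    exact commute_of_inv hP hodd (k := k) (by rw [hn]; exact pow_dvd_pow 2 hkn)
      (fun E' hE'P hE' => hinv E' hE'P (Or.inl (by rw [hE', hk])) ha) E hEP hE x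
      (hzE (Subgroup.mem_zpowers x))
  · have hk1 : k = 1 := by omega
    subst hk1
    by_cases hn3 : 3 ≤ n
    · obtain ⟨E, hzE, hEP, hE⟩ := exists_between hzP hi
        (by rw [hn]; exact pow_dvd_pow 2 (by omega : 2 ≤ n)) hi2
      exact commute_of_inv hP hodd (k := 2) (by rw [hn]; exact pow_dvd_pow 2 hn3)
        (fun E' hE'P hE' => hinv E' hE'P (Or.inr ⟨by rw [hk]; norm_num, by rw [hE']; norm_num⟩) ha)
        E hEP hE x (hzE (Subgroup.mem_zpowers x))
    · have hn2 : n = 2 := by omega
      subst hn2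
      by_cases hi1 : i ≤ 1
      · obtain ⟨E, hzE, hEP, hE⟩ := exists_between hzP hi
          (by rw [hn]; exact pow_dvd_pow 2 (by omega : 1 ≤ 2)) hi1
        exact commute_of_inv hP hodd (k := 1) (by rw [hn])
          (fun E' hE'P hE' => hinv E' hE'P (Or.inl (by rw [hE', hk])) ha) E hEP hE x
          (hzE (Subgroup.mem_zpowers x))
      · have hi2' : i = 2 := by omega
        subst hi2'
        have hz : Subgroup.zpowers x = P :=
          Subgroup.eq_of_le_of_card_ge hzP (by rw [hn, hi])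
        have hcyc : IsCyclic P := by
          rw [← hz]; infer_instance
        exact commute_of_cyclic hP hcyc (hAP ha) hodd x hx

end Cfsg.Agent.S3803
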