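import Cfsg.Statements.S3815
import Mathlib
import Cfsg.Agent.Lib_helper1_Cores

set_option autoImplicit false
open Cfsg

namespace Cfsg.Agent.S3815

/-- Let G be a finite group, p a prime and d ∈ G an element of order prime to p. If dg has order prime to p for every element g ∈ G of order prime to p, then d ∈ O_{p'}(G). -/
theorem result {G : Type*} [Group G] [Finite G] {p : ℕ} [Fact p.Prime]
    (d : G) (hd : (orderOf d).Coprime p)
    (h : ∀ g : G, (orderOf g).Coprime p → (orderOf (d * g)).Coprime p) :
    d ∈ Cfsg.pPrimeCore p G := by
  classical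
  have hp : p.Prime := Fact.out
  let D : Subgroup G :=
    { carrier := {d | ∀ g : G, (orderOf g).Coprime p → (orderOf (d * g)).Coprime p}
      mul_mem' := by
        intro a b ha hb g hg
        rw [mul_assoc]; exact ha _ (hb g hg)
      one_mem' := by intro g hg; simpa using hg
      inv_mem' := by
        intro a ha
        have hpow : ∀ n : ℕ, ∀ g : G, (orderOf g).Coprime p → (orderOf (a ^ n * g)).Coprime p := by
          intro n
          induction n with
          | zero => intro g hg; simpa using hg
          | succ k ih => intro g hg; rw [pow_succ, mul_assoc]; exact ih _ (ha g hg)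
        have h2 : a⁻¹ = a ^ (orderOf a - 1) := by
          have h1 : a ^ (orderOf a - 1) * a = 1 := by
            rw [← pow_succ, Nat.sub_add_cancel (orderOf_pos a), pow_orderOf_eq_one]
          exact (eq_inv_of_mul_eq_one_left h1).symm
        intro g hg; rw [h2]; exact hpow _ g hg }
  have hDn : D.Normal := by
    constructor
    intro a ha x g hg
    have h1 : x * a * x⁻¹ * g = MulAut.conj x (a * (MulAut.conj x⁻¹ g)) := by
      simp only [MulAut.conj_apply]; group
    rw [h1, MulEquiv.orderOf_eq]
    apply ha
    rw [MulEquiv.orderOf_eq]; exact hg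
  have hDc : (Nat.card D).Coprime p := by
    apply Nat.Coprime.symm
    rw [Nat.Prime.coprime_iff_not_dvd hp]
    intro hdvd
    obtain ⟨a, ha⟩ := exists_prime_orderOf_dvd_card' p hdvd
    have h1 := a.2 1 (by simp)
    rw [mul_one, Subgroup.orderOf_coe, ha] at h1
    exact hp.one_lt.ne' ((Nat.coprime_self p).1 h1)
  exact Cfsg.Agent.H1.le_pPrimeCore p hDn hDc h

end Cfsg.Agent.S3815
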