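import Cfsg.Statements.S3820
import Mathlib
import Cfsg.Agent.Lib_helper1_Basic

set_option autoImplicit false
open Cfsg

namespace Cfsg.Agent.S3820

open scoped Pointwise


/-- Call a subgroup H of G pronormal if H and gHg⁻¹ are conjugate inside ⟨H, gHg⁻¹⟩ for every g ∈ G. Let S ≤ H ≤ G be subgroups of a finite group with S pronormal in G (for instance S a Sylow subgroup). Then H is pronormal in G if and only if H and gHg⁻¹ are conjugate inside ⟨H, gHg⁻¹⟩ for every g ∈ N_G(S). In particular H is pronormal whenever N_G(S) ≤ H. -/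
theorem result {G : Type*} [Group G] [Finite G] (S H : Subgroup G) (hSH : S ≤ H)
    (hS : Cfsg.IsPronormal S) :
    Cfsg.IsPronormal H ↔
      ∀ g ∈ Subgroup.normalizer (S : Set G), ∃ w ∈ H ⊔ H.map (MulAut.conj g).toMonoidHom,
        H.map (MulAut.conj g).toMonoidHom = H.map (MulAut.conj w).toMonoidHom := by
  constructor
  · intro h g _
    exact h g
  · intro h g
    obtain ⟨x, hx, hSx⟩ := hS g
    change x ∈ S ⊔ MulAut.conj g • S at hx
    change MulAut.conj g • S = MulAut.conj x • S at hSx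
    change ∃ y ∈ H ⊔ MulAut.conj g • H, MulAut.conj g • H = MulAut.conj y • H
    have hxJ : x ∈ H ⊔ MulAut.conj g • H :=
      (sup_le_sup hSH (Subgroup.pointwise_smul_le_pointwise_smul_iff.2 hSH)) hx
    have hn : x⁻¹ * g ∈ Subgroup.normalizer (S : Set G) := by
      rw [← Cfsg.Agent.H1.conj_smul_eq_iff_mem_normalizer, map_mul, mul_smul, hSx, ← mul_smul,
        ← map_mul]
      simp
    obtain ⟨w, hw, hHw⟩ := h _ hn
    change w ∈ H ⊔ MulAut.conj (x⁻¹ * g) • H at hw
    change MulAut.conj (x⁻¹ * g) • H = MulAut.conj w • H at hHw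
    have hle : MulAut.conj (x⁻¹ * g) • H ≤ H ⊔ MulAut.conj g • H := by
      rw [map_mul, mul_smul]
      calc MulAut.conj x⁻¹ • MulAut.conj g • H ≤ MulAut.conj x⁻¹ • (H ⊔ MulAut.conj g • H) :=
            Subgroup.pointwise_smul_le_pointwise_smul_iff.2 le_sup_right
        _ = H ⊔ MulAut.conj g • H := Subgroup.conj_smul_eq_self_of_mem (inv_mem hxJ)
    refine ⟨x * w, mul_mem hxJ ((sup_le le_sup_left hle) hw), ?_⟩
    rw [map_mul, mul_smul, ← hHw, ← mul_smul, ← map_mul]
    simp

end Cfsg.Agent.S3820
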