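import Cfsg.Statements.S3821
import Mathlib
import Cfsg.Agent.Lib_helper1_Basic

set_option autoImplicit false
open Cfsg

namespace Cfsg.Agent.S3821

open scoped Pointwise


/-- Let A be a normal subgroup of the finite group G and H a subgroup of A. Then H is pronormal in G (H and gHg⁻¹ conjugate inside ⟨H, gHg⁻¹⟩ for every g ∈ G) if and only if H is pronormal in A and G = A · N_G(H). -/
theorem result {G : Type*} [Group G] [Finite G] (A H : Subgroup G) [A.Normal] (hHA : H ≤ A) :
    Cfsg.IsPronormal H ↔ (Cfsg.IsPronormal (H.subgroupOf A) ∧ A ⊔ Subgroup.normalizer (H : Set G) = ⊤) := by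
  have hsub : (H.subgroupOf A).map A.subtype = H := Subgroup.map_subgroupOf_eq_of_le hHA
  have hconjA : ∀ g : G, MulAut.conj g • H ≤ A := by
    intro g x hx
    rw [Cfsg.Agent.H1.mem_conj_smul] at hx
    have h1 := hHA hx
    have h2 : g * (g⁻¹ * x * g) * g⁻¹ ∈ A := Subgroup.Normal.conj_mem inferInstance _ h1 g
    have h3 : g * (g⁻¹ * x * g) * g⁻¹ = x := by group
    rwa [h3] at h2
  constructor
  · intro h
    refine ⟨?_, ?_⟩
    · intro a
      obtain ⟨x, hx, hxe⟩ := h (a : G)
      change x ∈ H ⊔ MulAut.conj (a : G) • H at hx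
      change MulAut.conj (a : G) • H = MulAut.conj x • H at hxe
      have hxA : x ∈ A := (sup_le hHA (hconjA _)) hx
      change ∃ y ∈ H.subgroupOf A ⊔ MulAut.conj a • H.subgroupOf A,
        MulAut.conj a • H.subgroupOf A = MulAut.conj y • H.subgroupOf A
      refine ⟨⟨x, hxA⟩, ?_, ?_⟩
      · rw [← Subgroup.mem_map_iff_mem A.subtype_injective, Subgroup.map_sup,
          Cfsg.Agent.H1.map_conj_smul, hsub]
        exact hx
      · apply Subgroup.map_injective A.subtype_injective
        rw [Cfsg.Agent.H1.map_conj_smul, Cfsg.Agent.H1.map_conj_smul, hsub]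
        exact hxe
    · rw [eq_top_iff]
      intro g _
      obtain ⟨x, hx, hxe⟩ := h g
      change x ∈ H ⊔ MulAut.conj g • H at hx
      change MulAut.conj g • H = MulAut.conj x • H at hxe
      have hxA : x ∈ A := (sup_le hHA (hconjA _)) hx
      have hn : x⁻¹ * g ∈ Subgroup.normalizer (H : Set G) := by
        rw [← Cfsg.Agent.H1.conj_smul_eq_iff_mem_normalizer, map_mul, mul_smul, hxe, ← mul_smul,
          ← map_mul]
        simp
      have : g = x * (x⁻¹ * g) := by group
      rw [this]
      exact Subgroup.mul_mem_sup hxA hn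
  · rintro ⟨h1, h2⟩ g
    have hg : g ∈ A ⊔ Subgroup.normalizer (H : Set G) := by rw [h2]; trivial
    rw [Subgroup.mem_sup_of_normal_left] at hg
    obtain ⟨a, ha, n, hn, rfl⟩ := hg
    obtain ⟨x, hx, hxe⟩ := h1 ⟨a, ha⟩
    change x ∈ H.subgroupOf A ⊔ MulAut.conj (⟨a, ha⟩ : A) • H.subgroupOf A at hx
    change MulAut.conj (⟨a, ha⟩ : A) • H.subgroupOf A = MulAut.conj x • H.subgroupOf A at hxe
    change ∃ y ∈ H ⊔ MulAut.conj (a * n) • H, MulAut.conj (a * n) • H = MulAut.conj y • H
    have han : MulAut.conj (a * n) • H = MulAut.conj a • H := by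
      rw [map_mul, mul_smul, Cfsg.Agent.H1.conj_smul_eq_iff_mem_normalizer.2 hn]
    rw [han]
    refine ⟨(x : G), ?_, ?_⟩
    · have := Subgroup.mem_map_of_mem A.subtype hx
      rw [Subgroup.map_sup, Cfsg.Agent.H1.map_conj_smul, hsub] at this
      exact this
    · have := congrArg (Subgroup.map A.subtype) hxe
      rw [Cfsg.Agent.H1.map_conj_smul, Cfsg.Agent.H1.map_conj_smul, hsub] at this
      exact this

end Cfsg.Agent.S3821
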