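import Cfsg.Statements.S3825
import Cfsg.Agent.S3375

set_option autoImplicit false
open Cfsg

namespace Cfsg.Agent.S3825

/-- conjugation by a normalizing element as an automorphism. -/
def conjAut {H : Type*} [Group H] (U : Subgroup H) (w : H)
    (hw : w ∈ Subgroup.normalizer (U : Set H)) : MulAut U where
  toFun u := ⟨w * u * w⁻¹, (Subgroup.mem_normalizer_iff.1 hw u).1 u.2⟩
  invFun u := ⟨w⁻¹ * u * w, by
    have := (Subgroup.mem_normalizer_iff.1 (inv_mem hw) u).1 u.2
    simpa using this⟩
  left_inv u := by apply Subtype.ext; simp [mul_assoc]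
  right_inv u := by apply Subtype.ext; simp [mul_assoc]
  map_mul' a b := by apply Subtype.ext; simp [mul_assoc]

/-- Let U be a subgroup of a finite group H and w an involution of H normalizing U and commuting with exactly two elements of U, the identity and y. If V is a non-cyclic elementary abelian 2-subgroup of U containing y which is normal in U and invariant under w, then V is a Sylow 2-subgroup of U, V has order 4, and U/V is abelian. -/
theorem result {H : Type*} [Group H] [Finite H] (U : Subgroup H) (w : H) (hw : orderOf w = 2)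
    (hwU : w ∈ Subgroup.normalizer (U : Set H)) (y : H) (hy : y ≠ 1) (hyU : y ∈ U)
    (hfix : ∀ u ∈ U, w * u * w⁻¹ = u ↔ (u = 1 ∨ u = y))
    (V : Subgroup H) (hVU : V ≤ U) (hVn : (V.subgroupOf U).Normal) (hVw : ∀ v ∈ V, w * v * w⁻¹ ∈ V)
    (hVe : Cfsg.IsElementaryAbelian 2 V) (hVc : ¬ IsCyclic ↥V) (hyV : y ∈ V) :
    ¬ 2 ∣ V.relIndex U ∧ Nat.card ↥V = 4 ∧ ⁅U, U⁆ ≤ V := by
  classical
  have hww : w * w = 1 := by rw [← pow_two, ← hw, pow_orderOf_eq_one]
  have hwi : w⁻¹ = w := inv_eq_of_mul_eq_one_left hww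
  obtain ⟨hVab, hV2⟩ := hVe
  have hcomm : ∀ a ∈ V, ∀ b ∈ V, a * b = b * a := fun a ha b hb => setLike_mul_comm ha hb
  have hsq : ∀ a ∈ V, a * a = 1 := fun a ha => by rw [← pow_two]; exact hV2 a ha
  have hinvV : ∀ a ∈ V, a⁻¹ = a := fun a ha => inv_eq_of_mul_eq_one_left (hsq a ha)
  have c1 : ∀ v ∈ V, w * v * w⁻¹ = v → v = 1 ∨ v = y := fun v hv h => (hfix v (hVU hv)).1 h
  have hyfix : w * y * w⁻¹ = y := (hfix y hyU).2 (Or.inr rfl)
  -- an element outside {1,y}
  obtain ⟨a, haV, ha1, hay⟩ : ∃ a ∈ V, a ≠ 1 ∧ a ≠ y := by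
    by_contra hcon
    apply hVc
    refine ⟨⟨⟨y, hyV⟩, fun v => ?_⟩⟩
    by_cases hv1 : (v : H) = 1
    · exact ⟨0, by apply Subtype.ext; simp [hv1]⟩
    · by_cases hvy : (v : H) = y
      · exact ⟨1, by apply Subtype.ext; simp [hvy]⟩
      · exact absurd ⟨v, v.2, hv1, hvy⟩ hcon
  -- v * v^w is 1 or y
  have c2 : ∀ v ∈ V, v * (w * v * w⁻¹) = 1 ∨ v * (w * v * w⁻¹) = y := by
    intro v hv
    apply c1 _ (mul_mem hv (hVw v hv))
    have e : w * (v * (w * v * w⁻¹)) * w⁻¹ = (w * v * w⁻¹) * ((w * w) * v * (w * w)⁻¹) := by group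
    rw [e, hww]
    simp only [one_mul, inv_one, mul_one]
    exact hcomm _ (hVw v hv) _ hv
  have c3 : ∀ v ∈ V, v ≠ 1 → v ≠ y → w * v * w⁻¹ = v * y := by
    intro v hv hv1 hvy
    rcases c2 v hv with h | h
    · exfalso
      have : w * v * w⁻¹ = v := by
        have h9 := eq_inv_of_mul_eq_one_right h
        rw [hinvV v hv] at h9
        exact h9
      rcases c1 v hv this with h' | h'
      · exact hv1 h'
      · exact hvy h'
    · calc w * v * w⁻¹ = (v * v) * (w * v * w⁻¹) := by rw [hsq v hv, one_mul]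
        _ = v * (v * (w * v * w⁻¹)) := by group
        _ = v * y := by rw [h]
  have haw := c3 a haV ha1 hay
  -- key claim
  have key : ∀ u ∈ U, u⁻¹ * (w * u * w⁻¹) ∈ V → u ∈ V := by
    intro u hu hv₀
    have hfix₀ : w * (u⁻¹ * (w * u * w⁻¹)) * w⁻¹ = u⁻¹ * (w * u * w⁻¹) := by
      have e : w * (u⁻¹ * (w * u * w⁻¹)) * w⁻¹ = (u⁻¹ * (w * u * w⁻¹))⁻¹ := by
        have e1 : w * (u⁻¹ * (w * u * w⁻¹)) * w⁻¹ = (w * u * w⁻¹)⁻¹ * ((w * w) * u * (w * w)⁻¹) := by
          group
        rw [e1, hww]; group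
      rw [e, hinvV _ hv₀]
    rcases c1 _ hv₀ hfix₀ with h | h
    · have : w * u * w⁻¹ = u := by
        have := congrArg (u * ·) h
        simpa using this
      rcases (hfix u hu).1 this with h' | h'
      · rw [h']; exact one_mem V
      · rw [h']; exact hyV
    · have h1 : w * u * w⁻¹ = u * y := by
        have := congrArg (u * ·) h
        simpa using this
      have h2 : w * (u * a) * w⁻¹ = u * a := by
        calc w * (u * a) * w⁻¹ = (w * u * w⁻¹) * (w * a * w⁻¹) := by group
          _ = (u * y) * (a * y) := by rw [h1, haw]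
          _ = u * (y * a) * y := by group
          _ = u * (a * y) * y := by rw [hcomm y hyV a haV]
          _ = u * a * (y * y) := by group
          _ = u * a := by rw [hsq y hyV, mul_one]
      have h3 : u * a ∈ V := by
        rcases (hfix _ (mul_mem hu (hVU haV))).1 h2 with h' | h'
        · rw [h']; exact one_mem V
        · rw [h']; exact hyV
      have : u = (u * a) * a⁻¹ := by group
      rw [this]
      exact mul_mem h3 (inv_mem haV)
  -- the quotient
  haveI := hVn
  set V' := V.subgroupOf U with hV'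
  let e := conjAut U w hwU
  have he_apply : ∀ u : U, ((e u : U) : H) = w * u * w⁻¹ := fun _ => rfl
  have he : V'.map (e : U →* U) = V' := by
    apply le_antisymm
    · rintro _ ⟨x, hx, rfl⟩
      exact hVw _ hx
    · intro x hx
      refine ⟨e x, hVw _ hx, ?_⟩
      apply Subtype.ext
      change w * (w * x * w⁻¹) * w⁻¹ = x
      have e1 : w * (w * (x : H) * w⁻¹) * w⁻¹ = (w * w) * x * (w * w)⁻¹ := by group
      rw [e1, hww]; simp
  let γ : MulAut (U ⧸ V') := QuotientGroup.congr V' V' e he
  have hγmk : ∀ u : U, γ (u : U ⧸ V') = ((e u : U) : U ⧸ V') := fun _ => rfl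
  have hγγ : ∀ q, γ (γ q) = q := by
    intro q
    induction q using QuotientGroup.induction_on with
    | H u =>
      rw [hγmk, hγmk]
      congr 1
      apply Subtype.ext
      change w * (w * u * w⁻¹) * w⁻¹ = u
      have e1 : w * (w * (u : H) * w⁻¹) * w⁻¹ = (w * w) * u * (w * w)⁻¹ := by group
      rw [e1, hww]; simp
  have hbot : Cfsg.Agent.S3375.fixSub γ = ⊥ := by
    rw [eq_bot_iff]
    intro q hq
    have hq' : γ q = q := hq
    induction q using QuotientGroup.induction_on with
    | H u =>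
      rw [hγmk] at hq'
      have h1 := QuotientGroup.eq.1 hq'.symm
      have h2 : (u : H)⁻¹ * (w * u * w⁻¹) ∈ V := h1
      rw [Subgroup.mem_bot]
      exact (QuotientGroup.eq_one_iff u).2 (key u u.2 h2)
  have hinv : ∀ q ∈ (⊤ : Subgroup (U ⧸ V')), γ q = q⁻¹ := by
    apply Cfsg.Agent.S3375.inverts_of_card γ hγγ ⊤ (fun _ => Subgroup.mem_top _)
    rw [hbot, Subgroup.index_bot, Subgroup.card_top]
  refine ⟨?_, ?_, ?_⟩
  · intro h2
    haveI : Fact (Nat.Prime 2) := ⟨Nat.prime_two⟩
    have h3 : 2 ∣ Nat.card (U ⧸ V') := h2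
    obtain ⟨q, hq⟩ := exists_prime_orderOf_dvd_card' (G := U ⧸ V') 2 h3
    have hqq : q * q = 1 := by rw [← pow_two, ← hq, pow_orderOf_eq_one]
    have h4 : γ q = q := by
      rw [hinv q (Subgroup.mem_top _)]
      exact inv_eq_of_mul_eq_one_left hqq
    have h5 : q ∈ Cfsg.Agent.S3375.fixSub γ := h4
    rw [hbot, Subgroup.mem_bot] at h5
    rw [h5, orderOf_one] at hq
    omega
  · have hle : Nat.card V ≤ 4 := by
      have hsub : (V : Set H) ⊆ (({1, y, a, a * y} : Finset H) : Set H) := by
        intro v hv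
        have hv' : v ∈ V := hv
        simp only [Finset.coe_insert, Finset.coe_singleton, Set.mem_insert_iff,
          Set.mem_singleton_iff]
        by_cases hv1 : v = 1
        · exact Or.inl hv1
        by_cases hvy : v = y
        · exact Or.inr (Or.inl hvy)
        have hvw := c3 v hv' hv1 hvy
        have h2 : w * (v * a) * w⁻¹ = v * a := by
          calc w * (v * a) * w⁻¹ = (w * v * w⁻¹) * (w * a * w⁻¹) := by group
            _ = (v * y) * (a * y) := by rw [hvw, haw]
            _ = v * (y * a) * y := by group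
            _ = v * (a * y) * y := by rw [hcomm y hyV a haV]
            _ = v * a * (y * y) := by group
            _ = v * a := by rw [hsq y hyV, mul_one]
        rcases c1 _ (mul_mem hv' haV) h2 with h' | h'
        · right; right; left
          rw [← hinvV a haV]
          exact eq_inv_of_mul_eq_one_left h'
        · right; right; right
          calc v = (v * a) * a⁻¹ := by group
            _ = y * a := by rw [h', hinvV a haV]
            _ = a * y := hcomm y hyV a haV
      calc Nat.card V = (V : Set H).ncard := Nat.card_coe_set_eq _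
        _ ≤ (({1, y, a, a * y} : Finset H) : Set H).ncard :=
            Set.ncard_le_ncard hsub (Finset.finite_toSet _)
        _ = ({1, y, a, a * y} : Finset H).card := Set.ncard_coe_finset _
        _ ≤ 4 := Finset.card_le_four
    have hpg : IsPGroup 2 V := by
      intro v
      refine ⟨1, ?_⟩
      apply Subtype.ext
      simpa using hV2 v v.2
    haveI : Fact (Nat.Prime 2) := ⟨Nat.prime_two⟩
    obtain ⟨n, hn⟩ := hpg.exists_card_eq
    rcases n with _ | _ | _ | n
    · exfalso
      apply hVc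
      rw [pow_zero] at hn
      haveI : Subsingleton V := (Nat.card_eq_one_iff_unique.1 hn).1
      exact isCyclic_of_subsingleton
    · exfalso
      apply hVc
      exact isCyclic_of_prime_card (p := 2) (by simpa using hn)
    · simpa using hn
    · exfalso
      rw [hn] at hle
      have : 2 ^ (n + 1 + 1 + 1) = 8 * 2 ^ n := by ring
      have h0 : 0 < 2 ^ n := by positivity
      omega
  · rw [Subgroup.commutator_le]
    intro b hb c hc
    have h1 := Cfsg.Agent.S3375.comm_of_inverts γ ⊤ hinv ((⟨b, hb⟩ : U) : U ⧸ V')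
      (Subgroup.mem_top _) ((⟨c, hc⟩ : U) : U ⧸ V') (Subgroup.mem_top _)
    have h2 : (((⟨b, hb⟩ : U) * ⟨c, hc⟩ * (⟨b, hb⟩ : U)⁻¹ * (⟨c, hc⟩ : U)⁻¹ : U) : U ⧸ V') = 1 := by
      rw [QuotientGroup.mk_mul, QuotientGroup.mk_mul, QuotientGroup.mk_mul, QuotientGroup.mk_inv,
        QuotientGroup.mk_inv, h1]
      group
    have h3 := (QuotientGroup.eq_one_iff
      ((⟨b, hb⟩ : U) * ⟨c, hc⟩ * (⟨b, hb⟩ : U)⁻¹ * (⟨c, hc⟩ : U)⁻¹)).1 h2
    exact h3

end Cfsg.Agent.S3825
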