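import Cfsg.Statements.S3836
import Cfsg.Agent.Lib_helper1_Cores

set_option autoImplicit false
open Cfsg

namespace Cfsg.Agent.S3836

/-- Let G be a finite group that is p-stable in the normalizer form: for every p-subgroup Q and every x ∈ N_G(Q) with [Q, x, x] = 1, the image of x in N_G(Q)/C_G(Q) lies in O_p(N_G(Q)/C_G(Q)). Then every subgroup of G is p-stable in the same sense. -/
theorem result {G : Type*} [Group G] [Finite G] {p : ℕ} [Fact p.Prime] (hst : Cfsg.IsNormalizerPStable p G) (H : Subgroup G) : Cfsg.IsNormalizerPStable p ↥H := by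
  intro P' hP' g hg hquad
  set P : Subgroup G := P'.map H.subtype with hP
  have hPp : IsPGroup p P := hP'.map _
  have hnorm : ∀ n : ↥H, n ∈ Subgroup.normalizer (P' : Set ↥H) →
      (n : G) ∈ Subgroup.normalizer (P : Set G) := by
    intro n hn
    rw [Subgroup.mem_normalizer_iff]
    intro x
    constructor
    · rintro ⟨y, hy, rfl⟩
      exact ⟨n * y * n⁻¹, (Subgroup.mem_normalizer_iff.1 hn y).1 hy, rfl⟩
    · rintro ⟨y, hy, hyx⟩
      have hxH : x ∈ H := by
        have h1 : x = (n : G)⁻¹ * (y : G) * n := by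
          have : (y : G) = n * x * (n : G)⁻¹ := hyx
          rw [this]; group
        rw [h1]; exact H.mul_mem (H.mul_mem (H.inv_mem n.2) y.2) n.2
      refine ⟨⟨x, hxH⟩, ?_, rfl⟩
      apply (Subgroup.mem_normalizer_iff.1 hn _).2
      have : n * ⟨x, hxH⟩ * n⁻¹ = y := Subtype.ext hyx.symm
      rw [this]; exact hy
  have hquad' : ⁅⁅P, Subgroup.zpowers (g : G)⁆, Subgroup.zpowers (g : G)⁆ = ⊥ := by
    have e : Subgroup.zpowers (g : G) = (Subgroup.zpowers g).map H.subtype :=
      (MonoidHom.map_zpowers H.subtype g).symm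
    rw [e, hP, ← Subgroup.map_commutator, ← Subgroup.map_commutator, hquad, Subgroup.map_bot]
  have h1 := hst P hPp (g : G) (hnorm g hg) hquad'
  set N := Subgroup.normalizer (P : Set G) with hN
  set C := Subgroup.centralizer (P : Set G) with hC
  set N' := Subgroup.normalizer (P' : Set ↥H) with hN'
  set C' := Subgroup.centralizer (P' : Set ↥H) with hC'
  let φ : ↥N' →* ↥N := (H.subtype.comp N'.subtype).codRestrict N (fun n => hnorm n n.2)
  let f : ↥N' ⧸ C'.subgroupOf N' →* ↥N ⧸ C.subgroupOf N :=
    QuotientGroup.map (C'.subgroupOf N') (C.subgroupOf N) φ (by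
      intro c hc
      show ((c : ↥H) : G) ∈ C
      rw [Subgroup.mem_centralizer_iff]
      rintro _ ⟨y, hy, rfl⟩
      have := Subgroup.mem_centralizer_iff.1 (Subgroup.mem_subgroupOf.1 hc) y hy
      exact congrArg Subtype.val this)
  have hf : Function.Injective f := by
    rw [injective_iff_map_eq_one]
    intro y
    induction y using QuotientGroup.induction_on with
    | H n =>
      intro hn
      have h2 : φ n ∈ C.subgroupOf N := (QuotientGroup.eq_one_iff _).1 hn
      have h3 : ((n : ↥H) : G) ∈ C := h2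
      apply (QuotientGroup.eq_one_iff _).2
      rw [Subgroup.mem_subgroupOf, Subgroup.mem_centralizer_iff]
      intro t ht
      exact Subtype.ext (Subgroup.mem_centralizer_iff.1 h3 (t : G) ⟨t, ht, rfl⟩)
  have h2 : (Cfsg.pCore p (↥N ⧸ C.subgroupOf N)).comap f ≤ Cfsg.pCore p (↥N' ⧸ C'.subgroupOf N') :=
    Cfsg.Agent.H1.le_pCore p ((Cfsg.Agent.H1.pCore_normal p).comap f)
      ((Cfsg.Agent.H1.pCore_isPGroup p).comap_of_injective f hf)
  apply h2
  exact h1

end Cfsg.Agent.S3836
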