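import Mathlib
import Cfsg.Statements.S3838
import Cfsg.Agent.Lib_helper1_AbDecomp
import Cfsg.Agent.Lib_helper1_PNilp3
import Cfsg.Agent.Lib_helper1_Frattini

set_option autoImplicit false
open Cfsg

namespace Cfsg.Agent.S3838

open Cfsg.Agent.H1
open scoped Pointwise commutatorElement

theorem normalizer_decomp {G : Type*} [Group G] [Finite G] {p : ℕ} [Fact p.Prime] (P : Sylow p G)
    (hN : Cfsg.HasNormalPComplement p ↥(Subgroup.normalizer ((P : Subgroup G) : Set G))) :
    ∀ n ∈ Subgroup.normalizer ((P : Subgroup G) : Set G),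
      ∃ k ∈ Subgroup.centralizer ((P : Subgroup G) : Set G), ∃ x ∈ (P : Subgroup G), n = k * x := by
  obtain ⟨P₀, K₀, hK₀, hc⟩ := hN
  intro n hn
  obtain ⟨⟨⟨k, hk⟩, ⟨x, hx⟩⟩, hkx⟩ := hc.2 ⟨n, hn⟩
  have hkx' : k * x = ⟨n, hn⟩ := hkx
  have hcop := coprime_card_of_complement P₀ K₀ hc
  refine ⟨k, ?_, x, ?_, ?_⟩
  · rw [Subgroup.mem_centralizer_iff]
    intro y hy
    have hyN : y ∈ Subgroup.normalizer ((P : Subgroup G) : Set G) := Subgroup.le_normalizer hy
    -- the commutator lies in K₀ and in P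
    have h1 : k * (⟨y, hyN⟩ * k⁻¹ * (⟨y, hyN⟩ : Subgroup.normalizer ((P : Subgroup G) : Set G))⁻¹)
        ∈ K₀ := mul_mem hk (hK₀.conj_mem _ (inv_mem hk) _)
    have h2 : (k : G) * y * (k : G)⁻¹ * y⁻¹ ∈ (P : Subgroup G) :=
      mul_mem (((Subgroup.mem_normalizer_iff.mp k.2) y).mp hy) (inv_mem hy)
    set c := k * (⟨y, hyN⟩ * k⁻¹ * (⟨y, hyN⟩ : Subgroup.normalizer ((P : Subgroup G) : Set G))⁻¹)
      with hcdef
    have hcv : (c : G) = (k : G) * y * (k : G)⁻¹ * y⁻¹ := by
      rw [hcdef]; simp [mul_assoc]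
    have h3 : orderOf c ∣ Nat.card K₀ := by
      have := orderOf_dvd_natCard (⟨c, h1⟩ : K₀)
      rwa [Subgroup.orderOf_mk] at this
    obtain ⟨j, hj⟩ := (P.isPGroup' ⟨_, h2⟩)
    have h4 : c ^ p ^ j = 1 := by
      apply Subtype.ext
      have := congrArg Subtype.val hj
      simpa [hcv] using this
    have h5 : orderOf c ∣ p ^ j := orderOf_dvd_of_pow_eq_one h4
    have h6 : orderOf c = 1 := Nat.eq_one_of_dvd_coprimes (hcop.pow_right j) h3 h5
    rw [orderOf_eq_one_iff] at h6
    have h7 : (k : G) * y * (k : G)⁻¹ * y⁻¹ = 1 := by rw [← hcv, h6]; rfl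
    have h8 : (k : G) * y = y * k := by
      have := mul_inv_eq_one.mp h7
      rw [mul_inv_eq_iff_eq_mul] at this
      exact this
    exact h8.symm
  · obtain ⟨j, hj⟩ := (P₀.isPGroup' ⟨x, hx⟩)
    apply mem_sylow_of_mem_normalizer P x.2 (k := j)
    have h1 := congrArg Subtype.val hj
    have h2 := congrArg Subtype.val h1
    simpa using h2
  · have := congrArg Subtype.val hkx'
    simpa using this.symm

theorem npc_of_frattini_like {H : Type*} [Group H] [Finite H] {p : ℕ} [Fact p.Prime]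
    (P : Sylow p H) (Q : Subgroup H) [Q.Normal] (hQP : Q ≤ P)
    (hcomm : ∀ x ∈ (P : Subgroup H), ∀ y ∈ (P : Subgroup H), x * y * x⁻¹ * y⁻¹ ∈ Q)
    (hng : ∀ R : Subgroup H, R ≤ P → (∀ x ∈ (P : Subgroup H), ∃ q ∈ Q, ∃ r ∈ R, x = q * r) →
      (P : Subgroup H) ≤ R)
    (hN : ∀ n ∈ Subgroup.normalizer ((P : Subgroup H) : Set H),
      ∃ k ∈ Subgroup.centralizer ((P : Subgroup H) : Set H), ∃ x ∈ (P : Subgroup H), n = k * x) :
    Cfsg.HasNormalPComplement p H := by
  have hp : p.Prime := Fact.out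
  let Pb : Sylow p (H ⧸ Q) := P.mapSurjective (QuotientGroup.mk'_surjective Q)
  have hPb : (Pb : Subgroup (H ⧸ Q)) = (P : Subgroup H).map (QuotientGroup.mk' Q) := rfl
  have hB : Subgroup.normalizer ((Pb : Subgroup (H ⧸ Q)) : Set (H ⧸ Q)) ≤
      Subgroup.centralizer ((Pb : Subgroup (H ⧸ Q)) : Set (H ⧸ Q)) := by
    intro nb hnb
    obtain ⟨n, rfl⟩ := QuotientGroup.mk'_surjective Q nb
    have hn : n ∈ Subgroup.normalizer ((P : Subgroup H) : Set H) := by
      have h1 : n ∈ (Subgroup.normalizer ((Pb : Subgroup (H ⧸ Q)) : Set (H ⧸ Q))).comap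
          (QuotientGroup.mk' Q) := hnb
      rw [Subgroup.comap_normalizer_eq_of_surjective _ (QuotientGroup.mk'_surjective Q), hPb,
        Subgroup.comap_map_eq, QuotientGroup.ker_mk', sup_eq_left.mpr hQP] at h1
      exact h1
    obtain ⟨k, hk, x, hx, rfl⟩ := hN n hn
    rw [Subgroup.mem_centralizer_iff]
    rintro _ ⟨y, hy, rfl⟩
    have hk' := Subgroup.mem_centralizer_iff.mp hk
    change ((y * (k * x) : H) : H ⧸ Q) = ((k * x * y : H) : H ⧸ Q)
    rw [QuotientGroup.eq]
    have e : (y * (k * x))⁻¹ * (k * x * y) = x⁻¹ * y⁻¹ * (x⁻¹)⁻¹ * (y⁻¹)⁻¹ := by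
      have h1 : y * k = k * y := hk' y hy
      calc (y * (k * x))⁻¹ * (k * x * y) = x⁻¹ * (y * k)⁻¹ * k * x * y := by group
        _ = x⁻¹ * (k * y)⁻¹ * k * x * y := by rw [h1]
        _ = x⁻¹ * y⁻¹ * (x⁻¹)⁻¹ * (y⁻¹)⁻¹ := by group
    rw [e]
    exact hcomm _ (inv_mem hx) _ (inv_mem hy)
  set Lb := (MonoidHom.transferSylow Pb hB).ker with hLb
  have hLbc : Lb.IsComplement' (Pb : Subgroup (H ⧸ Q)) :=
    MonoidHom.ker_transferSylow_isComplement' Pb hB
  have hLbcop : (Nat.card Lb).Coprime p := coprime_card_of_complement Pb Lb hLbc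
  set L := Lb.comap (QuotientGroup.mk' Q) with hL
  have hLn : L.Normal := inferInstance
  have hQL : Q ≤ L := by
    conv_lhs => rw [← QuotientGroup.ker_mk' Q]
    exact Subgroup.ker_le_comap _ _
  have hLcard : Nat.card L = Nat.card Lb * Nat.card Q := card_comap_mk Q Lb
  have hQp : IsPGroup p Q := P.isPGroup'.to_le hQP
  obtain ⟨a, ha⟩ := hQp.exists_card_eq
  have hrel : Q.relIndex L = Nat.card Lb := by
    have h1 := relIndex_mul_card' hQL
    rw [hLcard] at h1
    exact Nat.eq_of_mul_eq_mul_right Nat.card_pos h1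
  have hQnorm : ∀ X : Subgroup H, X ≤ Subgroup.normalizer (Q : Set H) := by
    intro X
    rw [Subgroup.normalizer_eq_top_iff.mpr inferInstance]
    exact le_top
  obtain ⟨K, hKL, hsup, hinf, hKcard⟩ := exists_complement_internal Q L hQL (hQnorm L) (by
    rw [hrel, ha]
    exact (hLbcop.pow_right a).symm)
  rw [hrel] at hKcard
  have hKcop : (Nat.card Q).Coprime (Nat.card K) := by
    rw [hKcard, ha]; exact (hLbcop.pow_right a).symm
  have hQsol : Group.IsSolvable Q := by
    have : Group.IsNilpotent Q := hQp.isNilpotent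
    infer_instance
  -- Frattini argument
  have hfr : ∀ h : H, ∃ d ∈ Q, d⁻¹ * h ∈ Subgroup.normalizer (K : Set H) := by
    intro h
    have h1 : MulAut.conj h • K ≤ Q ⊔ K := by
      rw [hsup]
      have : MulAut.conj h • K ≤ MulAut.conj h • L := Subgroup.pointwise_smul_le_pointwise_smul_iff.mpr hKL
      rwa [Subgroup.Normal.conj_smul_eq_self h L] at this
    obtain ⟨d, hd, hde⟩ := sz_conj_internal Q K (MulAut.conj h • K) (hQnorm K) h1
      (card_conj_smul h K) hKcop (Or.inl hQsol)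
    refine ⟨d, hd, ?_⟩
    rw [← conj_smul_eq_iff_mem_normalizer, map_mul, mul_smul, ← hde, ← mul_smul, ← map_mul]
    simp
  have hPK : (P : Subgroup H) ≤ (P : Subgroup H) ⊓ Subgroup.normalizer (K : Set H) := by
    apply hng _ inf_le_left
    intro x hx
    obtain ⟨d, hd, hdx⟩ := hfr x
    have hdP : d⁻¹ * x ∈ (P : Subgroup H) := mul_mem (inv_mem (hQP hd)) hx
    exact ⟨d, hd, d⁻¹ * x, Subgroup.mem_inf.mpr ⟨hdP, hdx⟩, by group⟩
  have hKn : K.Normal := by
    rw [← Subgroup.normalizer_eq_top_iff, eq_top_iff]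
    intro h _
    obtain ⟨d, hd, hdx⟩ := hfr h
    have : h = d * (d⁻¹ * h) := by group
    rw [this]
    exact mul_mem (hPK (hQP hd)).2 hdx
  refine ⟨P, K, hKn, ?_⟩
  have hPcard : Nat.card (Pb : Subgroup (H ⧸ Q)) * Nat.card Q = Nat.card (P : Subgroup H) := by
    rw [hPb]
    exact card_map_mk_of_le hQP
  apply Subgroup.isComplement'_of_coprime
  · rw [hKcard, ← hPcard, ← mul_assoc, hLbc.card_mul_card, card_quotient_mul_card]
  · obtain ⟨b, hb⟩ := P.isPGroup'.exists_card_eq
    rw [hKcard, hb]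
    exact hLbcop.pow_right b

/-- Let G be a finite group with Sylow p-subgroup P such that N_G(P) has a normal p-complement. Then N_G(Q) has a normal p-complement for every subgroup Q with [P, P] ≤ Q ≤ Φ(P). -/
theorem result {G : Type*} [Group G] [Finite G] {p : ℕ} [Fact p.Prime] (P : Sylow p G) (hN : Cfsg.HasNormalPComplement p ↥(Subgroup.normalizer ((P : Subgroup G) : Set G))) (Q : Subgroup G) (h1 : (commutator ↥(P : Subgroup G)).map (P : Subgroup G).subtype ≤ Q) (h2 : Q ≤ (frattini ↥(P : Subgroup G)).map (P : Subgroup G).subtype) : Cfsg.HasNormalPComplement p ↥(Subgroup.normalizer (Q : Set G)) := by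
  have hQP : Q ≤ (P : Subgroup G) := h2.trans (Subgroup.map_subtype_le _)
  have hcommG : ∀ x ∈ (P : Subgroup G), ∀ y ∈ (P : Subgroup G), x * y * x⁻¹ * y⁻¹ ∈ Q := by
    intro x hx y hy
    apply h1
    refine ⟨⁅(⟨x, hx⟩ : (P : Subgroup G)), ⟨y, hy⟩⁆,
      Subgroup.commutator_mem_commutator (Subgroup.mem_top _) (Subgroup.mem_top _), ?_⟩
    simp [commutatorElement_def]
  have hPH : (P : Subgroup G) ≤ Subgroup.normalizer (Q : Set G) := by
    apply le_normalizer_of_forall
    intro x hx q hq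
    have := hcommG x hx q (hQP hq)
    have e : x * q * x⁻¹ = (x * q * x⁻¹ * q⁻¹) * q := by group
    rw [e]; exact mul_mem this hq
  let PH : Sylow p (Subgroup.normalizer (Q : Set G)) := P.subtype hPH
  have hPHmem : ∀ x : Subgroup.normalizer (Q : Set G),
      x ∈ (PH : Subgroup (Subgroup.normalizer (Q : Set G))) ↔ (x : G) ∈ (P : Subgroup G) :=
    fun x => Iff.rfl
  have hQn : (Q.subgroupOf (Subgroup.normalizer (Q : Set G))).Normal := Subgroup.normal_in_normalizer
  apply npc_of_frattini_like PH (Q.subgroupOf (Subgroup.normalizer (Q : Set G)))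
  · intro x hx
    exact hQP hx
  · intro x hx y hy
    exact hcommG x hx y hy
  · intro R hR hx
    let ι : (P : Subgroup G) →* Subgroup.normalizer (Q : Set G) := Subgroup.inclusion hPH
    have hsup : R.comap ι ⊔ frattini (P : Subgroup G) = ⊤ := by
      rw [eq_top_iff]
      intro x _
      obtain ⟨q, hq, r, hr, he⟩ := hx (ι x) x.2
      obtain ⟨q', hq', hq'e⟩ := h2 hq
      have hrP : (r : G) ∈ (P : Subgroup G) := hR hr
      have hr' : (⟨(r : G), hrP⟩ : (P : Subgroup G)) ∈ R.comap ι := by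
        change ι ⟨(r : G), hrP⟩ ∈ R
        have : ι ⟨(r : G), hrP⟩ = r := Subtype.ext rfl
        rw [this]; exact hr
      have hxe : x = q' * ⟨(r : G), hrP⟩ := by
        apply Subtype.ext
        have h3 := congrArg Subtype.val he
        have h4 : (q' : G) = (q : G) := hq'e
        change (x : G) = (q' : G) * (r : G)
        rw [h4]
        exact h3
      rw [hxe]
      exact mul_mem (Subgroup.mem_sup_right hq') (Subgroup.mem_sup_left hr')
    have htop := frattini_nongenerating hsup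
    intro x hxP
    have h5 : (⟨(x : G), hxP⟩ : (P : Subgroup G)) ∈ R.comap ι := by rw [htop]; trivial
    exact h5
  · intro n hn
    have hn' : (n : G) ∈ Subgroup.normalizer ((P : Subgroup G) : Set G) := by
      rw [Subgroup.mem_normalizer_iff]
      intro y
      constructor
      · intro hy
        exact ((Subgroup.mem_normalizer_iff.mp hn) ⟨y, hPH hy⟩).mp hy
      · intro hy
        have hyH : y ∈ Subgroup.normalizer (Q : Set G) := by
          have h6 := mul_mem (mul_mem (inv_mem n.2) (hPH hy)) n.2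
          have e : (n : G)⁻¹ * ((n : G) * y * (n : G)⁻¹) * (n : G) = y := by group
          rwa [e] at h6
        exact ((Subgroup.mem_normalizer_iff.mp hn) ⟨y, hyH⟩).mpr hy
    obtain ⟨k, hk, x, hx, he⟩ := normalizer_decomp P hN n hn'
    have hkH : k ∈ Subgroup.normalizer (Q : Set G) := by
      have : k = (n : G) * x⁻¹ := by rw [he]; group
      rw [this]
      exact mul_mem n.2 (inv_mem (hPH hx))
    refine ⟨⟨k, hkH⟩, ?_, ⟨x, hPH hx⟩, hx, Subtype.ext he⟩
    rw [Subgroup.mem_centralizer_iff]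
    intro y hy
    apply Subtype.ext
    exact (Subgroup.mem_centralizer_iff.mp hk) y hy

end Cfsg.Agent.S3838
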