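import Cfsg.Statements.S3858
import Mathlib
import Cfsg.Agent.Lib_helper7_Sylow

set_option autoImplicit false
open Cfsg
open scoped Pointwise

namespace Cfsg.Agent.S3858

theorem coatom_conj {G : Type*} [Group G] {M : Subgroup G} (hM : IsCoatom M) (g : G) :
    IsCoatom (M.map (MulAut.conj g).toMonoidHom) :=
  ((MulAut.conj g).mapSubgroup.isCoatom_iff M).2 hM

theorem exists_conj_ge {G : Type*} [Group G] [Finite G] {r : ℕ} [Fact r.Prime] (R : Sylow r G)
    (M : Subgroup G) (h : ¬ r ∣ M.index) :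
    ∃ g : G, (R : Subgroup G) ≤ M.map (MulAut.conj g).toMonoidHom := by
  obtain ⟨q, hq⟩ := R.isPGroup'.nonempty_fixed_point_of_prime_not_dvd_card (G ⧸ M) h
  obtain ⟨g, rfl⟩ := QuotientGroup.mk_surjective q
  refine ⟨g, fun a ha => ?_⟩
  rw [H7.mem_map_conj]
  have h1 : (⟨a, ha⟩ : (R : Subgroup G)) • (QuotientGroup.mk g : G ⧸ M) = QuotientGroup.mk g :=
    hq ⟨a, ha⟩
  have h2 : (QuotientGroup.mk (a * g) : G ⧸ M) = QuotientGroup.mk g := h1
  rw [QuotientGroup.eq] at h2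
  have := M.inv_mem h2
  have e : ((a * g)⁻¹ * g)⁻¹ = g⁻¹ * a * g := by group
  rwa [e] at this

/-- Let G be a finite group with a normal non-abelian simple subgroup T whose centralizer is trivial (G almost simple with socle T), r a prime and R a Sylow r-subgroup of G meeting T nontrivially. Then R lies in exactly one maximal subgroup of G if and only if G has exactly one conjugacy class of maximal subgroups whose index is prime to r. -/
theorem result {G : Type*} [Group G] [Finite G] (T : Subgroup G) [T.Normal] (hT : IsSimpleGroup T) (hna : ¬ IsMulCommutative T)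
    (hC : Subgroup.centralizer (T : Set G) = ⊥) {r : ℕ} [Fact r.Prime] (R : Sylow r G) (hR0 : (R : Subgroup G) ⊓ T ≠ ⊥) :
    (∃! M : Subgroup G, IsCoatom M ∧ (R : Subgroup G) ≤ M) ↔
      ((∃ M : Subgroup G, IsCoatom M ∧ ¬ r ∣ M.index) ∧
        ∀ M₁ M₂ : Subgroup G, IsCoatom M₁ → ¬ r ∣ M₁.index → IsCoatom M₂ → ¬ r ∣ M₂.index → ∃ g : G, M₂ = M₁.map (MulAut.conj g).toMonoidHom) := by
  have hTn : T.Normal := inferInstance
  have hidx : ∀ X : Subgroup G, (R : Subgroup G) ≤ X → ¬ r ∣ X.index := fun X hX h =>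
    R.not_dvd_index (h.trans (Subgroup.index_dvd_of_le hX))
  have hRnn : Subgroup.normalizer ((R : Subgroup G) : Set G) ≠ ⊤ := by
    intro htop
    have hRn : (R : Subgroup G).Normal := Subgroup.normalizer_eq_top_iff.1 htop
    have hDn : ((R : Subgroup G) ⊓ T).Normal := Subgroup.normal_inf_normal _ _
    have hDp : IsPGroup r ((R : Subgroup G) ⊓ T : Subgroup G) := R.isPGroup'.to_le inf_le_left
    have hDTn : (((R : Subgroup G) ⊓ T).subgroupOf T).Normal := hDn.subgroupOf T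
    rcases hT.eq_bot_or_eq_top_of_normal _ hDTn with h | h
    · apply hR0
      rw [Subgroup.subgroupOf_eq_bot] at h
      have := h.eq_bot
      rwa [inf_eq_left.2 inf_le_right] at this
    · rw [Subgroup.subgroupOf_eq_top] at h
      have hTp : IsPGroup r T := hDp.to_le h
      have : Nontrivial T := hT.toNontrivial
      have hc : Subgroup.center T ≠ ⊥ := by
        have := hTp.center_nontrivial
        exact (Subgroup.nontrivial_iff_ne_bot _).1 this
      rcases hT.eq_bot_or_eq_top_of_normal (Subgroup.center T) inferInstance with h1 | h1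
      · exact hc h1
      · apply hna
        exact ⟨⟨fun a b => Subgroup.mem_center_iff.1 (h1 ▸ Subgroup.mem_top b) a⟩⟩
  constructor
  · rintro ⟨M, ⟨hM, hRM⟩, hMu⟩
    refine ⟨⟨M, hM, hidx M hRM⟩, ?_⟩
    intro M₁ M₂ h1 i1 h2 i2
    obtain ⟨g₁, hg₁⟩ := exists_conj_ge R M₁ i1
    obtain ⟨g₂, hg₂⟩ := exists_conj_ge R M₂ i2
    have e1 := hMu _ ⟨coatom_conj h1 g₁, hg₁⟩
    have e2 := hMu _ ⟨coatom_conj h2 g₂, hg₂⟩
    refine ⟨g₂⁻¹ * g₁, ?_⟩
    rw [← H7.map_conj_map_conj, e1, ← e2, H7.map_conj_map_conj, inv_mul_cancel, H7.map_conj_one]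
  · rintro ⟨-, hconj⟩
    obtain ⟨M₃, hM₃, hN3⟩ := (eq_top_or_exists_le_coatom _).resolve_left hRnn
    have hR3 : (R : Subgroup G) ≤ M₃ := Subgroup.le_normalizer.trans hN3
    refine ⟨M₃, ⟨hM₃, hR3⟩, ?_⟩
    rintro M₁ ⟨hM₁, hR1⟩
    obtain ⟨g, hg⟩ := hconj M₃ M₁ hM₃ (hidx _ hR3) hM₁ (hidx _ hR1)
    have hgR : ((g • R : Sylow r G) : Subgroup G) ≤ M₁ := by
      rw [Sylow.coe_subgroup_smul, hg, H7.map_conj_eq_smul]
      exact Subgroup.pointwise_smul_le_pointwise_smul_iff.2 hR3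
    obtain ⟨m, hm⟩ := MulAction.exists_smul_eq M₁ (R.subtype hR1) ((g • R).subtype hgR)
    rw [Sylow.smul_subtype] at hm
    have hm2 : m • R = g • R := Sylow.subtype_injective hm
    have hn : (m : G)⁻¹ * g ∈ Subgroup.normalizer ((R : Subgroup G) : Set G) := by
      have h0 : ((m : G)⁻¹ * g) • R = R := by
        rw [mul_smul, ← hm2]; exact inv_smul_smul (m : G) R
      exact Sylow.smul_eq_iff_mem_normalizer.1 h0
    have hn3 := hN3 hn
    have hle : M₃ ≤ M₁ := by
      intro y hy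
      have hz : ((m : G)⁻¹ * g)⁻¹ * y * ((m : G)⁻¹ * g) ∈ M₃ :=
        M₃.mul_mem (M₃.mul_mem (M₃.inv_mem hn3) hy) hn3
      have h4 : g * (((m : G)⁻¹ * g)⁻¹ * y * ((m : G)⁻¹ * g)) * g⁻¹ ∈ M₁ :=
        hg.ge (H7.conj_mem_map_conj g hz)
      have e : g * (((m : G)⁻¹ * g)⁻¹ * y * ((m : G)⁻¹ * g)) * g⁻¹ = (m : G) * y * (m : G)⁻¹ := by
        group
      rw [e] at h4
      have := M₁.mul_mem (M₁.mul_mem (M₁.inv_mem m.2) h4) m.2
      have e2 : (m : G)⁻¹ * ((m : G) * y * (m : G)⁻¹) * (m : G) = y := by group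
      rwa [e2] at this
    exact (hM₃.le_iff_eq hM₁.1).1 hle

end Cfsg.Agent.S3858
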