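import Cfsg.Statements.S3859
import Mathlib

set_option autoImplicit false
open Cfsg

namespace Cfsg.Agent.S3859

/-- Let G be a finite group with a normal non-abelian simple subgroup T whose centralizer is trivial (G almost simple with socle T), r a prime and R a Sylow r-subgroup of G meeting T nontrivially. If R lies in exactly one maximal subgroup of G, then G/T is an r-group. -/
theorem result {G : Type*} [Group G] [Finite G] (T : Subgroup G) [T.Normal] (hT : IsSimpleGroup T) (hna : ¬ IsMulCommutative T)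
    (hC : Subgroup.centralizer (T : Set G) = ⊥) {r : ℕ} [Fact r.Prime] (R : Sylow r G) (hR0 : (R : Subgroup G) ⊓ T ≠ ⊥)
    (huniq : ∃! M : Subgroup G, IsCoatom M ∧ (R : Subgroup G) ≤ M) : IsPGroup r (G ⧸ T) := by
  obtain ⟨M, ⟨hM, hRM⟩, hMu⟩ := huniq
  have hTn : T.Normal := inferInstance
  have huse : ∀ X : Subgroup G, (R : Subgroup G) ≤ X → X ≠ ⊤ → X ≤ M := by
    intro X hX hne
    rcases eq_top_or_exists_le_coatom X with h | ⟨M', hM', hXM'⟩
    · exact absurd h hne
    · have := hMu M' ⟨hM', hX.trans hXM'⟩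
      rw [← this]; exact hXM'
  set D := (R : Subgroup G) ⊓ T with hD
  have hDp : IsPGroup r D := R.isPGroup'.to_le inf_le_left
  have hidx : ¬ r ∣ (D.subgroupOf T).index := by
    have h1 : D.relIndex T * T.relIndex ((R : Subgroup G) ⊔ T) = D.relIndex ((R : Subgroup G) ⊔ T) :=
      Subgroup.relIndex_mul_relIndex _ _ _ inf_le_right le_sup_right
    have h2 : D.relIndex (R : Subgroup G) * (R : Subgroup G).relIndex ((R : Subgroup G) ⊔ T)
        = D.relIndex ((R : Subgroup G) ⊔ T) :=
      Subgroup.relIndex_mul_relIndex _ _ _ inf_le_left le_sup_left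
    have h3 : T.relIndex ((R : Subgroup G) ⊔ T) = T.relIndex (R : Subgroup G) :=
      Subgroup.relIndex_sup_right _ _
    have h4 : D.relIndex (R : Subgroup G) = T.relIndex (R : Subgroup G) :=
      Subgroup.inf_relIndex_left _ _
    have h5 : T.relIndex (R : Subgroup G) ≠ 0 := by
      unfold Subgroup.relIndex
      exact Subgroup.index_ne_zero_of_finite
    have h6 : D.relIndex T = (R : Subgroup G).relIndex ((R : Subgroup G) ⊔ T) := by
      rw [h3] at h1; rw [h4] at h2
      have h7 := h1.trans h2.symm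
      rw [mul_comm] at h7
      exact Nat.eq_of_mul_eq_mul_left (Nat.pos_of_ne_zero h5) h7
    intro h
    have h7 : r ∣ D.relIndex T := h
    rw [h6] at h7
    exact R.not_dvd_index (h7.trans (Subgroup.relIndex_dvd_index_of_le le_sup_left))
  have hDp' : IsPGroup r (D.subgroupOf T) := hDp.comap_subtype
  let P : Sylow r T := hDp'.toSylow hidx
  have hPmap : (P : Subgroup T).map T.subtype = D := by
    rw [IsPGroup.toSylow_coe, Subgroup.subgroupOf_map_subtype]
    exact inf_eq_left.2 inf_le_right
  have hfr := Sylow.normalizer_sup_eq_top P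
  rw [hPmap] at hfr
  have hRN : (R : Subgroup G) ≤ Subgroup.normalizer (D : Set G) := by
    intro g hg
    rw [Subgroup.mem_normalizer_iff]
    intro x
    constructor
    · rintro ⟨h1, h2⟩
      exact ⟨(R : Subgroup G).mul_mem ((R : Subgroup G).mul_mem hg h1) ((R : Subgroup G).inv_mem hg),
        hTn.conj_mem x h2 g⟩
    · rintro ⟨h1, h2⟩
      have e : g⁻¹ * (g * x * g⁻¹) * g = x := by group
      refine ⟨?_, ?_⟩
      · have := (R : Subgroup G).mul_mem ((R : Subgroup G).mul_mem ((R : Subgroup G).inv_mem hg) h1) hg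
        rwa [e] at this
      · have := hTn.conj_mem _ h2 g⁻¹
        rw [inv_inv, e] at this
        exact this
  have hNne : Subgroup.normalizer (D : Set G) ≠ ⊤ := by
    intro htop
    have hDn : D.Normal := Subgroup.normalizer_eq_top_iff.1 htop
    have hDTn : (D.subgroupOf T).Normal := hDn.subgroupOf T
    rcases hT.eq_bot_or_eq_top_of_normal _ hDTn with h | h
    · apply hR0
      rw [Subgroup.subgroupOf_eq_bot] at h
      have := h.eq_bot
      rwa [inf_eq_left.2 inf_le_right] at this
    · rw [Subgroup.subgroupOf_eq_top] at h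
      have hTp : IsPGroup r T := hDp.to_le h
      have : Nontrivial T := hT.toNontrivial
      have hc : Subgroup.center T ≠ ⊥ := by
        have := hTp.center_nontrivial
        exact (Subgroup.nontrivial_iff_ne_bot _).1 this
      rcases hT.eq_bot_or_eq_top_of_normal (Subgroup.center T) inferInstance with h1 | h1
      · exact hc h1
      · apply hna
        exact ⟨⟨fun a b => Subgroup.mem_center_iff.1 (h1 ▸ Subgroup.mem_top b) a⟩⟩
  have hsup : (R : Subgroup G) ⊔ T = ⊤ := by
    by_contra hne
    have h1 := huse _ le_sup_left hne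
    have h2 := huse _ hRN hNne
    have : (⊤ : Subgroup G) ≤ M := by rw [← hfr]; exact sup_le h2 (le_sup_right.trans h1)
    exact hM.1 (top_le_iff.1 this)
  intro x
  obtain ⟨g, rfl⟩ := QuotientGroup.mk_surjective x
  have hg : g ∈ (R : Subgroup G) ⊔ T := hsup ▸ Subgroup.mem_top g
  obtain ⟨a, ha, t, ht, rfl⟩ := Subgroup.mem_sup_of_normal_right.1 hg
  obtain ⟨k, hk⟩ := R.isPGroup' ⟨a, ha⟩
  refine ⟨k, ?_⟩
  have h1 : ((a * t : G) : G ⧸ T) = (a : G ⧸ T) := by
    rw [QuotientGroup.mk_mul, (QuotientGroup.eq_one_iff t).2 ht, mul_one]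
  rw [h1, ← QuotientGroup.mk_pow]
  have h2 : a ^ r ^ k = 1 := congrArg Subtype.val hk
  rw [h2]; rfl

end Cfsg.Agent.S3859
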