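import Mathlib
import Cfsg.Statements.S3862
import Cfsg.Agent.Lib_helper1_MinAct

set_option autoImplicit false
open Cfsg

namespace Cfsg.Agent.S3862

open Cfsg.Agent.H1
open scoped commutatorElement

/-- If every 2-element of the finite group G that is conjugate to its inverse lies in the centre of G, then G has a normal 2-complement. -/
theorem result {G : Type*} [Group G] [Finite G] (h : ∀ x : G, (∃ j : ℕ, orderOf x = 2 ^ j) → IsConj x x⁻¹ → x ∈ Subgroup.center G) : Cfsg.HasNormalPComplement 2 G := by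
  by_contra hn
  obtain ⟨U, y, hm⟩ := exists_minAct hn
  apply hm.false_of_le_centralizer
  intro x hx a ha
  have hw : ⁅x, a⁆ ∈ U := hm.comm_mem_U hx ha
  have hc : ⁅x, a⁆ ∈ Subgroup.center G := by
    apply h
    · obtain ⟨k, hk⟩ := hm.pgroup ⟨_, hw⟩
      have hk' : ⁅x, a⁆ ^ 2 ^ k = 1 := by simpa using congrArg Subtype.val hk
      obtain ⟨j, _, hj⟩ := (Nat.dvd_prime_pow Nat.prime_two).mp (orderOf_dvd_of_pow_eq_one hk')
      exact ⟨j, hj⟩
    · rw [isConj_iff]
      refine ⟨x⁻¹, ?_⟩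
      have h1 : Commute (x ^ 2) a := hm.frat_commute_A (hm.pow_mem hx) ha
      have h2 : x ^ 2 * a⁻¹ = a⁻¹ * x ^ 2 := h1.inv_right.eq
      rw [commutatorElement_def]
      have e1 : x⁻¹ * (x * a * x⁻¹ * a⁻¹) * x⁻¹⁻¹ = a * x⁻¹ * (a⁻¹ * x ^ 2) * x⁻¹ := by
        rw [pow_two]; group
      have e2 : (x * a * x⁻¹ * a⁻¹)⁻¹ = a * x⁻¹ * (x ^ 2 * a⁻¹) * x⁻¹ := by
        rw [pow_two]; group
      rw [e1, e2, h2]
  exact (Subgroup.mem_center_iff.mp hc y).symm

end Cfsg.Agent.S3862
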