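import Cfsg.Statements.S3897
import Cfsg.Agent.Lib_helper2_KP
import Cfsg.Agent.Lib_helper1_PNilp

set_option autoImplicit false
open Cfsg

namespace Cfsg.Agent.S3897

theorem orderOf_conj' {G : Type*} [Group G] (g x : G) : orderOf (g * x * g⁻¹) = orderOf x := by
  have := orderOf_injective (MulAut.conj g).toMonoidHom (MulAut.conj g).injective x
  simpa using this

/-- every element of `p`-power order is conjugate into `P` -/
theorem exists_conj_mem_sylow {G : Type*} [Group G] [Finite G] {p : ℕ} [Fact p.Prime] (P : Sylow p G)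
    (x : G) (hx : ∃ k : ℕ, orderOf x = p ^ k) : ∃ y ∈ (P : Subgroup G), ConjClasses.mk y = ConjClasses.mk x := by
  have hpg : IsPGroup p ↥(Subgroup.zpowers x) := by
    obtain ⟨k, hk⟩ := hx
    apply IsPGroup.of_card (n := k)
    rw [Nat.card_zpowers, hk]
  obtain ⟨Q, hQ⟩ := hpg.exists_le_sylow
  obtain ⟨g, hg⟩ := MulAction.exists_smul_eq G Q P
  refine ⟨g * x * g⁻¹, ?_, ?_⟩
  · rw [← hg, Sylow.coe_subgroup_smul]
    have : x ∈ (Q : Subgroup G) := hQ (Subgroup.mem_zpowers x)
    have h2 := Subgroup.smul_mem_pointwise_smul x (MulAut.conj g) (Q : Subgroup G) this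
    simpa using h2
  · exact (ConjClasses.mk_eq_mk_iff_isConj.mpr (isConj_iff.mpr ⟨g, rfl⟩)).symm

/-- Let p be an odd prime and G a finite group with Sylow p-subgroup P, and write k_p(G) for the number of conjugacy classes of G consisting of p-elements (elements of p-power order, the identity included). Then k_p(G) > (p + 1)|P|/(2p) if and only if G has a normal p-complement and P is abelian. -/
theorem result {G : Type*} [Group G] [Finite G] {p : ℕ} [Fact p.Prime] (hp : p ≠ 2) (P : Sylow p G) :
    (p + 1) * Nat.card ↥(P : Subgroup G) < 2 * p * Nat.card {c : ConjClasses G // ∀ x ∈ c.carrier, ∃ k : ℕ, orderOf x = p ^ k} ↔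
      Cfsg.HasNormalPComplement p G ∧ IsMulCommutative ↥(P : Subgroup G) := by
  have hpp : p.Prime := Fact.out
  constructor
  · intro h
    have hNC : Subgroup.normalizer ((P : Subgroup G) : Set G) ≤ Subgroup.centralizer ((P : Subgroup G) : Set G) := by
      by_contra hne
      have := H2.card_classes_le P (fun c => ∀ x ∈ c.carrier, ∃ k : ℕ, orderOf x = p ^ k) ?_ hne
      · omega
      · intro c hc
        obtain ⟨x, rfl⟩ := ConjClasses.exists_rep c
        exact exists_conj_mem_sylow P x (hc x ConjClasses.mem_carrier_mk)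
    refine ⟨⟨P, _, inferInstance, MonoidHom.ker_transferSylow_isComplement' P hNC⟩, ⟨⟨fun a b => ?_⟩⟩⟩
    apply Subtype.ext
    have h1 : (b : G) ∈ Subgroup.centralizer ((P : Subgroup G) : Set G) := hNC (Subgroup.le_normalizer b.2)
    exact (Subgroup.mem_centralizer_iff.mp h1 a a.2)
  · rintro ⟨hc, hab⟩
    obtain ⟨K, hKn, hK⟩ := (H1.hasNormalPComplement_iff_sylow P).mp hc
    have hle : Nat.card ↥(P : Subgroup G) ≤ Nat.card {c : ConjClasses G // ∀ x ∈ c.carrier, ∃ k : ℕ, orderOf x = p ^ k} := by
      apply Nat.card_le_card_of_injective (fun x : ↥(P : Subgroup G) =>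
        (⟨ConjClasses.mk (x : G), by
          intro z hz
          rw [ConjClasses.mem_carrier_iff_mk_eq, ConjClasses.mk_eq_mk_iff_isConj, isConj_iff] at hz
          obtain ⟨g, hg⟩ := hz
          obtain ⟨k, hk⟩ := (IsPGroup.iff_orderOf.mp P.2) x
          refine ⟨k, ?_⟩
          rw [← orderOf_conj' g z, hg, ← hk, Subgroup.orderOf_coe]⟩ :
          {c : ConjClasses G // ∀ x ∈ c.carrier, ∃ k : ℕ, orderOf x = p ^ k}))
      intro x y hxy
      have h1 : ConjClasses.mk (x : G) = ConjClasses.mk (y : G) := congrArg Subtype.val hxy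
      rw [ConjClasses.mk_eq_mk_iff_isConj, isConj_iff] at h1
      obtain ⟨g, hg⟩ := h1
      obtain ⟨⟨k, u⟩, hku, -⟩ := hK.existsUnique g
      simp only at hku
      have hux : (u : G) * x * (u : G)⁻¹ = x := by
        have := hab.is_comm.comm u x
        have h2 : (u : G) * x = x * u := congrArg Subtype.val this
        rw [h2]; group
      have hy : (y : G) = k * x * (k : G)⁻¹ := by
        rw [← hg, ← hku]
        calc (k : G) * u * x * ((k : G) * u)⁻¹ = k * (u * x * (u : G)⁻¹) * (k : G)⁻¹ := by group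
          _ = _ := by rw [hux]
      have h3 : (y : G) * (x : G)⁻¹ ∈ K := by
        rw [hy]
        have : (x : G) * (k : G)⁻¹ * (x : G)⁻¹ ∈ K := hKn.conj_mem _ (K.inv_mem k.2) _
        have h4 := K.mul_mem k.2 this
        convert h4 using 1
        group
      have h4 : (y : G) * (x : G)⁻¹ ∈ (P : Subgroup G) := (P : Subgroup G).mul_mem y.2 ((P : Subgroup G).inv_mem x.2)
      have h5 : (y : G) * (x : G)⁻¹ = 1 := by
        have := hK.disjoint.le_bot (Subgroup.mem_inf.mpr ⟨h3, h4⟩)
        simpa using this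
      apply Subtype.ext
      exact (mul_inv_eq_one.mp h5).symm
    have hpos : 0 < Nat.card ↥(P : Subgroup G) := Nat.card_pos
    have h2 : 2 ≤ p := hpp.two_le
    nlinarith

end Cfsg.Agent.S3897
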