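import Cfsg.Statements.S3899
import Cfsg.Agent.Lib_helper2_KP
import Cfsg.Agent.Lib_helper2_KP2
import Cfsg.Agent.Lib_helper1_PNilp

set_option autoImplicit false
open Cfsg

namespace Cfsg.Agent.S3899

theorem exists_complement {G : Type*} [Group G] [Finite G] (r : ℕ) [Fact r.Prime] (P : Sylow r G)
    (hP : Subgroup.normalizer ((P : Subgroup G) : Set G) ≤ Subgroup.centralizer ((P : Subgroup G) : Set G)) :
    ∃ K : Subgroup G, K.Normal ∧ ¬ r ∣ Nat.card ↥K ∧ (∃ k : ℕ, K.index = r ^ k) ∧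
      ∀ a b : G, a * b * a⁻¹ * b⁻¹ ∈ K := by
  refine ⟨(MonoidHom.transferSylow P hP).ker, inferInstance, MonoidHom.not_dvd_card_ker_transferSylow P hP,
    ?_, ?_⟩
  · have h1 := (MonoidHom.ker_transferSylow_isComplement' P hP).symm.index_eq_card
    rw [h1]
    exact ⟨_, Sylow.card_eq_multiplicity P⟩
  · intro a b
    rw [MonoidHom.mem_ker, map_mul, map_mul, map_mul, map_inv, map_inv]
    set u := MonoidHom.transferSylow P hP a
    set v := MonoidHom.transferSylow P hP b
    have huv : u * v = v * u := Subtype.ext (hP (Subgroup.le_normalizer v.2) u u.2)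
    rw [huv]
    group

/-- Let π be a finite non-empty set of odd primes with smallest member p and G a finite group. Write k_π(G) for the number of conjugacy classes of G consisting of π-elements (elements all of whose order's prime divisors lie in π) and |G|_π for the π-part of the order of G. If k_π(G) > (p + 1)|G|_π/(2p), then G has a normal π-complement (a normal subgroup of order prime to π whose index is a π-number) and an abelian Hall π-subgroup. -/
theorem result {G : Type*} [Group G] [Finite G] (π : Finset ℕ) (hπ : ∀ r ∈ π, r.Prime) (h2 : 2 ∉ π) (p : ℕ) (hp : p ∈ π)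
    (hmin : ∀ r ∈ π, p ≤ r) (hk : (p + 1) * π.prod (fun r => r ^ (Nat.card G).factorization r) < 2 * p * Nat.card {c : ConjClasses G // ∀ x ∈ c.carrier, ∀ r : ℕ, r.Prime → r ∣ orderOf x → r ∈ π}) :
    (∃ N : Subgroup G, N.Normal ∧ (∀ r : ℕ, r.Prime → r ∣ Nat.card ↥N → r ∉ π) ∧ ∀ r : ℕ, r.Prime → r ∣ N.index → r ∈ π) ∧ ∃ H : Subgroup G, Cfsg.IsPiHall (↑π : Set ℕ) H ∧ IsMulCommutative ↥H := by
  classical
  have hk' : (p + 1) * π.prod (fun r => r ^ (Nat.card G).factorization r) < 2 * p * H2.kPi (↑π : Set ℕ) G := hk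
  have key : ∀ r ∈ π, ∃ K : Subgroup G, K.Normal ∧ ¬ r ∣ Nat.card ↥K ∧ (∃ k : ℕ, K.index = r ^ k) ∧
      ∀ a b : G, a * b * a⁻¹ * b⁻¹ ∈ K := by
    intro r hr
    have : Fact r.Prime := ⟨hπ r hr⟩
    obtain ⟨P⟩ : Nonempty (Sylow r G) := inferInstance
    apply exists_complement r P
    by_contra hne
    have h1 : 2 * r * H2.kPi {r} G ≤ (r + 1) * Nat.card ↥(P : Subgroup G) :=
      H2.card_classes_le P (fun c => ∀ x ∈ c.carrier, H2.IsPiElt {r} x) (H2.class_meets_sylow r P) hne
    have h2 := H2.kPi_le_erase (G := G) π hπ r hr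
    have h3 : π.prod (fun r => r ^ (Nat.card G).factorization r)
        = r ^ (Nat.card G).factorization r * (π.erase r).prod (fun r => r ^ (Nat.card G).factorization r) :=
      (Finset.mul_prod_erase π (fun r => r ^ (Nat.card G).factorization r) hr).symm
    rw [Sylow.card_eq_multiplicity P] at h1
    rw [h3] at hk'
    set s := r ^ (Nat.card G).factorization r
    set E := (π.erase r).prod (fun r => r ^ (Nat.card G).factorization r)
    set k := H2.kPi {r} G
    set kk := H2.kPi (↑π : Set ℕ) G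
    have hpr : p ≤ r := hmin r hr
    have hrpos : 0 < r := (hπ r hr).pos
    have a1 : (p + 1) * (s * E) < 2 * p * (E * k) := lt_of_lt_of_le hk' (Nat.mul_le_mul_left _ h2)
    have a2 : r * ((p + 1) * (s * E)) < r * (2 * p * (E * k)) := Nat.mul_lt_mul_of_pos_left a1 hrpos
    have a3 : r * (2 * p * (E * k)) = p * E * (2 * r * k) := by ring
    have a4 : p * E * (2 * r * k) ≤ p * E * ((r + 1) * s) := Nat.mul_le_mul_left _ h1
    have a5 : p * E * ((r + 1) * s) = (p * (r + 1)) * (s * E) := by ring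
    have a6 : (p * (r + 1)) * (s * E) ≤ (r * (p + 1)) * (s * E) := Nat.mul_le_mul_right _ (by nlinarith)
    have a7 : (r * (p + 1)) * (s * E) = r * ((p + 1) * (s * E)) := by ring
    omega
  choose K hKn hKc hKi hKa using key
  set N : Subgroup G := ⨅ r : {r // r ∈ π}, K r.1 r.2 with hN
  have hNn : N.Normal := Subgroup.normal_iInf_normal (fun r => hKn r.1 r.2)
  have hNle : ∀ r (hr : r ∈ π), N ≤ K r hr := fun r hr => iInf_le (fun r : {r // r ∈ π} => K r.1 r.2) ⟨r, hr⟩
  have hA : ∀ r : ℕ, r.Prime → r ∣ Nat.card ↥N → r ∉ π := by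
    intro r _ hrd hr
    exact hKc r hr (hrd.trans (Subgroup.card_dvd_of_le (hNle r hr)))
  have hB : ∀ r : ℕ, r.Prime → r ∣ N.index → r ∈ π := by
    intro q hq hqd
    by_contra hqπ
    have : Fact q.Prime := ⟨hq⟩
    obtain ⟨Q⟩ : Nonempty (Sylow q G) := inferInstance
    have hQN : (Q : Subgroup G) ≤ N := by
      rw [hN]
      apply le_iInf
      rintro ⟨r, hr⟩
      have := hKn r hr
      apply H1.le_normal_of_coprime_index
      obtain ⟨k, hk⟩ := hKi r hr
      rw [hk, Sylow.card_eq_multiplicity Q]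
      apply Nat.Coprime.pow
      rw [Nat.coprime_primes hq (hπ r hr)]
      rintro rfl
      exact hqπ hr
    exact Q.not_dvd_index (hqd.trans (Subgroup.index_dvd_of_le hQN))
  refine ⟨⟨N, hNn, hA, hB⟩, ?_⟩
  have hcop : Nat.Coprime (Nat.card ↥N) N.index :=
    Nat.coprime_of_dvd (fun q hq h1 h2 => hA q hq h1 (hB q hq h2))
  obtain ⟨H, hH⟩ := Subgroup.exists_right_complement'_of_coprime hcop
  refine ⟨H, ⟨?_, ?_⟩, ⟨⟨fun a b => ?_⟩⟩⟩
  · intro q hq hqd
    rw [← hH.symm.index_eq_card] at hqd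
    exact hB q hq hqd
  · intro q hq hqπ hqd
    rw [hH.index_eq_card] at hqd
    exact hA q hq hqd hqπ
  · have h1 : (a : G) * b * (a : G)⁻¹ * (b : G)⁻¹ ∈ N := by
      rw [hN, Subgroup.mem_iInf]
      rintro ⟨r, hr⟩
      exact hKa r hr _ _
    have h2 : (a : G) * b * (a : G)⁻¹ * (b : G)⁻¹ ∈ H :=
      H.mul_mem (H.mul_mem (H.mul_mem a.2 b.2) (H.inv_mem a.2)) (H.inv_mem b.2)
    have h3 : (a : G) * b * (a : G)⁻¹ * (b : G)⁻¹ = 1 := by
      have := hH.disjoint.le_bot (Subgroup.mem_inf.mpr ⟨h1, h2⟩)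
      simpa using this
    apply Subtype.ext
    push_cast
    rw [mul_inv_eq_one, mul_inv_eq_iff_eq_mul] at h3
    exact h3

end Cfsg.Agent.S3899
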