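import Cfsg.Statements.S3903
import Cfsg.Agent.Lib_helper2_Solv
import Cfsg.Agent.Lib_helper2_Class
import Cfsg.Agent.Lib_helper2_Cores
import Cfsg.Agent.Lib_helper3_Fitting2
import Cfsg.Agent.Lib_helper5_CharP1
import Cfsg.Agent.Lib_helper1_PNilp

set_option autoImplicit false
open Cfsg

namespace Cfsg.Agent.S3903

open Cfsg.Agent.H2

theorem eq_of_dvd_isPrimePow {n p q : ℕ} (hn : IsPrimePow n) (hp : p.Prime) (hq : q.Prime)
    (hpn : p ∣ n) (hqn : q ∣ n) : p = q := by
  obtain ⟨r, k, hr, _, rfl⟩ := hn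
  have hr' : r.Prime := Nat.prime_iff.mpr hr
  rw [(Nat.prime_dvd_prime_iff_eq hp hr').mp (hp.dvd_of_dvd_pow hpn),
    (Nat.prime_dvd_prime_iff_eq hq hr').mp (hq.dvd_of_dvd_pow hqn)]

theorem cent_isPGroup {G : Type*} [Group G] [Finite G] (N : Subgroup G)
    (h : ∀ x : G, x ∉ N → IsPrimePow (orderOf x)) (p : ℕ) (hp : p.Prime) (x : G) (hx : x ∉ N)
    (hpx : p ∣ orderOf x) : IsPGroup p ↥(Subgroup.centralizer ({x} : Set G)) := by
  have key : ∀ y : G, y ∈ Subgroup.centralizer ({x} : Set G) → ∀ q : ℕ, q.Prime → q ∣ orderOf y → q = p := by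
    intro y hy q hq hqy
    by_contra hne
    set y' := y ^ (orderOf y / q) with hy'
    have ho : orderOf y' = q := orderOf_pow_orderOf_div (orderOf_pos y).ne' hqy
    have hc : Commute x y' := by
      have : Commute x y := (Subgroup.mem_centralizer_singleton_iff.mp hy).symm
      exact this.pow_right _
    have hcop : (orderOf x).Coprime q := by
      rw [Nat.coprime_comm, Nat.Prime.coprime_iff_not_dvd hq]
      intro hqx
      exact hne (eq_of_dvd_isPrimePow (h x hx) hq hp hqx hpx)
    have hoxy : orderOf (x * y') = orderOf x * q := by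
      rw [hc.orderOf_mul_eq_mul_orderOf_of_coprime (by rw [ho]; exact hcop), ho]
    by_cases hxy : x * y' ∈ N
    · have h1 : (x * y') ^ q ∈ N := N.pow_mem hxy q
      rw [hc.mul_pow, ← ho, pow_orderOf_eq_one, mul_one, ho] at h1
      exact hx (H5.mem_of_pow_mem_of_coprime h1 hcop)
    · have h1 := h _ hxy
      rw [hoxy] at h1
      exact hne (eq_of_dvd_isPrimePow h1 hq hp (Dvd.intro_left _ rfl) (Dvd.dvd.mul_right hpx q))
  rintro ⟨y, hy⟩
  refine ⟨(orderOf y).primeFactorsList.length, ?_⟩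
  apply Subtype.ext
  have h1 := Nat.eq_prime_pow_of_unique_prime_dvd (orderOf_pos y).ne' (fun {d} hd hdy => key y hy d hd hdy)
  push_cast
  rw [← h1, pow_orderOf_eq_one]

theorem solvable_of_sup_eq_top {G : Type*} [Group G] (N Q : Subgroup G) [N.Normal]
    (hN : Group.IsSolvable ↥N) (hQ : Group.IsSolvable ↥Q) (h : N ⊔ Q = ⊤) : Group.IsSolvable G := by
  have h1 := isSolvable_sup_of_normal N Q hN hQ
  rw [h] at h1
  exact Group.isSolvable_of_surjective (f := (⊤ : Subgroup G).subtype) (fun x => ⟨⟨x, trivial⟩, rfl⟩)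

/-- a nontrivial `q`-group is not contained in a `p`-group -/
theorem not_le_of_primes {G : Type*} [Group G] [Finite G] {p q : ℕ} (hp : p.Prime) (hq : q.Prime) (hpq : q ≠ p)
    (P Q : Subgroup G) (hP : IsPGroup p ↥P) (hQ : q ∣ Nat.card ↥Q) : ¬ Q ≤ P := by
  intro hle
  have : Fact p.Prime := ⟨hp⟩
  obtain ⟨n, hn⟩ := IsPGroup.iff_card.mp hP
  have h1 : q ∣ p ^ n := hn ▸ hQ.trans (Subgroup.card_dvd_of_le hle)
  exact hpq ((Nat.prime_dvd_prime_iff_eq hq hp).mp (hq.dvd_of_dvd_pow h1))

theorem card_filter_mem {G : Type*} [Group G] [Fintype G] [DecidableEq G] (H : Subgroup G)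
    [DecidablePred (fun s => s ∈ H)] :
    (Finset.univ.filter (fun s => s ∈ H)).card = Nat.card ↥H := by
  rw [Nat.card_eq_fintype_card, Fintype.card_subtype]

theorem central_of_count {G : Type*} [Group G] [Finite G] (P N : Subgroup G) [N.Normal]
    (hPN : P ⊔ N = ⊤)
    (hconj : ∀ t : G, t ∉ N → ∃ z ∈ P, z ∉ N ∧ (∀ u ∈ P, u * z = z * u) ∧ IsConj z t)
    (hcent : ∀ z ∈ P, z ∉ N → (∀ u ∈ P, u * z = z * u) →
      (Subgroup.centralizer ({z} : Set G)).index = P.index) :
    ∀ s ∈ P, s ∉ N → ∀ u ∈ P, u * s = s * u := by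
  classical
  let _ := Fintype.ofFinite G
  set m := P.index with hm
  have hmpos : 0 < m := Nat.pos_of_ne_zero Subgroup.index_ne_zero_of_finite
  set Sf : Finset G := Finset.univ.filter (fun s => s ∈ P ∧ s ∉ N) with hSf
  set Zf : Finset G := Finset.univ.filter (fun s => (s ∈ P ∧ s ∉ N) ∧ ∀ u ∈ P, u * s = s * u) with hZf
  set Tf : Finset G := Finset.univ.filter (fun s => s ∉ N) with hTf
  have hT : Tf.card + Nat.card ↥N = Nat.card G := by
    have h1 := Finset.card_filter_add_card_filter_not (s := (Finset.univ : Finset G))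
      (fun s => s ∉ N)
    simp only [not_not] at h1
    rw [card_filter_mem N, Finset.card_univ, ← Nat.card_eq_fintype_card] at h1
    exact h1
  have hS : Sf.card + Nat.card ↥(P ⊓ N) = Nat.card ↥P := by
    have h1 := Finset.card_filter_add_card_filter_not
      (s := (Finset.univ.filter (fun s => s ∈ P) : Finset G)) (fun s => s ∉ N)
    simp only [not_not, Finset.filter_filter] at h1
    rw [card_filter_mem P] at h1
    have h2 : (Finset.univ.filter (fun s => s ∈ P ∧ s ∈ N)).card = Nat.card ↥(P ⊓ N) := by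
      rw [← card_filter_mem (P ⊓ N)]
      congr 1
      ext s
      simp [Subgroup.mem_inf]
    rw [h2] at h1
    exact h1
  have hm1 : m * Nat.card ↥P = Nat.card G := P.index_mul_card
  have hm2 : m * Nat.card ↥(P ⊓ N) = Nat.card ↥N := by
    have h1 : m = P.relIndex N := by
      rw [hm, ← Subgroup.relIndex_top_right, ← hPN]
      exact H3.relIndex_sup_of_normal N P
    have h2 := card_mul_relIndex (inf_le_right : P ⊓ N ≤ N)
    rw [Subgroup.inf_relIndex_right] at h2
    rw [h1, mul_comm]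
    exact h2
  have hTS : Tf.card = m * Sf.card := by
    have : m * (Sf.card + Nat.card ↥(P ⊓ N)) = m * Nat.card ↥P := by rw [hS]
    rw [mul_add, hm2, hm1] at this
    omega
  have hTZ : Tf.card ≤ m * Zf.card := by
    have hsub : Tf ⊆ Zf.biUnion (fun z => Finset.univ.filter (fun y => IsConj z y)) := by
      intro t ht
      have htN : t ∉ N := (Finset.mem_filter.mp ht).2
      obtain ⟨z, hz1, hz2, hz3, hz4⟩ := hconj t htN
      rw [Finset.mem_biUnion]
      exact ⟨z, Finset.mem_filter.mpr ⟨Finset.mem_univ _, ⟨hz1, hz2⟩, hz3⟩,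
        Finset.mem_filter.mpr ⟨Finset.mem_univ _, hz4⟩⟩
    calc Tf.card ≤ (Zf.biUnion (fun z => Finset.univ.filter (fun y => IsConj z y))).card :=
          Finset.card_le_card hsub
      _ ≤ ∑ z ∈ Zf, (Finset.univ.filter (fun y => IsConj z y)).card := Finset.card_biUnion_le
      _ = ∑ z ∈ Zf, m := by
          apply Finset.sum_congr rfl
          intro z hz
          obtain ⟨-, ⟨hz1, hz2⟩, hz3⟩ := Finset.mem_filter.mp hz
          rw [← hcent z hz1 hz2 hz3, ← card_isConj_eq_index, Nat.card_eq_fintype_card,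
            Fintype.card_subtype]
      _ = m * Zf.card := by rw [Finset.sum_const, smul_eq_mul, mul_comm]
  have hle : Sf.card ≤ Zf.card := Nat.le_of_mul_le_mul_left (hTS ▸ hTZ) hmpos
  have hZS : Zf ⊆ Sf := by
    intro z hz
    exact Finset.mem_filter.mpr ⟨Finset.mem_univ _, (Finset.mem_filter.mp hz).2.1⟩
  have heq : Zf = Sf := Finset.eq_of_subset_of_card_le hZS hle
  intro s hs hsN
  have h1 : s ∈ Zf := heq ▸ Finset.mem_filter.mpr ⟨Finset.mem_univ _, hs, hsN⟩
  exact (Finset.mem_filter.mp h1).2.2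

theorem exists_other_prime {G : Type*} [Group G] [Finite G] {p : ℕ} (hGp : ¬ IsPGroup p G) :
    ∃ q : ℕ, q.Prime ∧ q ≠ p ∧ q ∣ Nat.card G := by
  by_contra hcon
  push Not at hcon
  apply hGp
  apply IsPGroup.of_card (n := (Nat.card G).primeFactorsList.length)
  apply Nat.eq_prime_pow_of_unique_prime_dvd Nat.card_pos.ne'
  intro d hd hdG
  by_contra hne
  exact hcon d hd hne hdG

theorem sylow_dvd_card {G : Type*} [Group G] [Finite G] {q : ℕ} [Fact q.Prime] (hq : q ∣ Nat.card G)
    (Q : Sylow q G) : q ∣ Nat.card ↥(Q : Subgroup G) := by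
  rw [Sylow.card_eq_multiplicity Q]
  apply dvd_pow_self
  have hq' : q.Prime := Fact.out
  exact (hq'.factorization_pos_of_dvd Nat.card_pos.ne' hq).ne'

theorem solvable_of_burnside {G : Type*} [Group G] [Finite G] {p : ℕ} [Fact p.Prime] (P : Sylow p G)
    (hP : Subgroup.normalizer ((P : Subgroup G) : Set G) ≤ Subgroup.centralizer ((P : Subgroup G) : Set G))
    (hco : IsCoatom (P : Subgroup G)) : Group.IsSolvable G := by
  have hp : p.Prime := Fact.out
  by_cases hGp : IsPGroup p G
  · exact isSolvable_of_isPGroup' hGp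
  obtain ⟨q, hq, hqp, hqd⟩ := exists_other_prime hGp
  have : Fact q.Prime := ⟨hq⟩
  set K := (MonoidHom.transferSylow P hP).ker with hKdef
  have hK : Subgroup.IsComplement' K P := MonoidHom.ker_transferSylow_isComplement' P hP
  have hKp : ¬ p ∣ Nat.card ↥K := MonoidHom.not_dvd_card_ker_transferSylow P hP
  obtain ⟨Q₀⟩ : Nonempty (Sylow q G) := inferInstance
  have hQK : (Q₀ : Subgroup G) ≤ K := by
    apply H1.le_normal_of_coprime_index
    rw [hK.symm.index_eq_card, Sylow.card_eq_multiplicity, Sylow.card_eq_multiplicity]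
    apply Nat.Coprime.pow
    exact (Nat.coprime_primes hq hp).mpr hqp
  have hfr : Subgroup.normalizer ((Q₀ : Subgroup G) : Set G) ⊔ K = ⊤ := Sylow.normalizer_sup_eq_top' Q₀ hQK
  have hcard : Nat.card (Sylow q G) ∣ Nat.card ↥K := by
    have e : Nat.card (Sylow q G) = (Subgroup.normalizer ((Q₀ : Subgroup G) : Set G)).index :=
      Sylow.card_eq_index_normalizer Q₀
    rw [e, ← Subgroup.relIndex_top_right, ← hfr, H3.relIndex_sup_of_normal K _]
    exact Subgroup.relIndex_dvd_card _ _
  have hnd : ¬ p ∣ Nat.card (Sylow q G) := fun h => hKp (h.trans hcard)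
  obtain ⟨Q', hQ'⟩ := P.2.nonempty_fixed_point_of_prime_not_dvd_card (Sylow q G) hnd
  have hPN : (P : Subgroup G) ≤ Subgroup.normalizer ((Q' : Subgroup G) : Set G) := by
    intro u hu
    have h1 : (⟨u, hu⟩ : ↥(P : Subgroup G)) • Q' = Q' := hQ' ⟨u, hu⟩
    exact Sylow.smul_eq_iff_mem_normalizer.mp h1
  have hnle : ¬ (Q' : Subgroup G) ≤ P := not_le_of_primes hp hq hqp _ _ P.2 (sylow_dvd_card hqd Q')
  have hnorm : Subgroup.normalizer ((Q' : Subgroup G) : Set G) = ⊤ :=
    hco.2 _ (lt_of_le_not_ge hPN (fun h => hnle (Subgroup.le_normalizer.trans h)))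
  have hQn : (Q' : Subgroup G).Normal := Subgroup.normalizer_eq_top_iff.mp hnorm
  apply solvable_of_sup_eq_top (Q' : Subgroup G) (P : Subgroup G) (isSolvable_of_isPGroup' Q'.2)
    (isSolvable_of_isPGroup' P.2)
  exact hco.2 _ (lt_of_le_not_ge le_sup_right (fun h => hnle (le_sup_left.trans h)))

/-- Let N be a proper normal subgroup of the finite group G such that every element x of G outside N has prime power order and has centralizer C_G(x) a maximal subgroup of G. Then N is solvable. -/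
theorem result {G : Type*} [Group G] [Finite G] (N : Subgroup G) [N.Normal] (hN : N ≠ ⊤)
    (h : ∀ x : G, x ∉ N → IsPrimePow (orderOf x) ∧ IsCoatom (Subgroup.centralizer ({x} : Set G))) : Group.IsSolvable ↥N := by
  classical
  obtain ⟨x₀, hx₀⟩ : ∃ x, x ∉ N := by
    by_contra hcon
    push Not at hcon
    exact hN (eq_top_iff.mpr fun x _ => hcon x)
  obtain ⟨p, hp, hpx⟩ : ∃ p, p.Prime ∧ p ∣ orderOf x₀ := Nat.exists_prime_and_dvd (h x₀ hx₀).1.ne_one
  have : Fact p.Prime := ⟨hp⟩
  have h1 : ∀ x : G, x ∉ N → IsPrimePow (orderOf x) := fun x hx => (h x hx).1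
  set P := Subgroup.centralizer ({x₀} : Set G) with hPdef
  have hPp : IsPGroup p ↥P := cent_isPGroup N h1 p hp x₀ hx₀ hpx
  have hPco : IsCoatom P := (h x₀ hx₀).2
  by_cases hNP : N ≤ P
  · exact isSolvable_of_isPGroup' (hPp.to_le hNP)
  have hPN : P ⊔ N = ⊤ := hPco.2 _ (lt_of_le_not_ge le_sup_left (fun h => hNP (le_sup_right.trans h)))
  suffices hG : Group.IsSolvable G from inferInstance
  by_cases hGp : IsPGroup p G
  · exact isSolvable_of_isPGroup' hGp
  -- a `p`-subgroup that is a coatom is a Sylow subgroup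
  have hsyl : ∀ C : Subgroup G, IsPGroup p ↥C → IsCoatom C → ∃ S : Sylow p G, (S : Subgroup G) = C := by
    intro C hC hCco
    obtain ⟨S, hS⟩ := hC.exists_le_sylow
    refine ⟨S, ?_⟩
    by_contra hne
    have htop : (S : Subgroup G) = ⊤ := hCco.2 _ (lt_of_le_of_ne hS (Ne.symm hne))
    apply hGp
    intro g
    obtain ⟨k, hk⟩ := S.2 ⟨g, htop ▸ Subgroup.mem_top g⟩
    exact ⟨k, congrArg Subtype.val hk⟩
  obtain ⟨S, hSP⟩ := hsyl P hPp hPco
  obtain ⟨q, hq, hqp, hqd⟩ := exists_other_prime hGp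
  by_cases hPn : P.Normal
  · have : Fact q.Prime := ⟨hq⟩
    obtain ⟨Q⟩ : Nonempty (Sylow q G) := inferInstance
    have hnle : ¬ (Q : Subgroup G) ≤ P := not_le_of_primes hp hq hqp _ _ hPp (sylow_dvd_card hqd Q)
    apply solvable_of_sup_eq_top P (Q : Subgroup G) (isSolvable_of_isPGroup' hPp)
      (isSolvable_of_isPGroup' Q.2)
    exact hPco.2 _ (lt_of_le_not_ge le_sup_left (fun h => hnle (le_sup_right.trans h)))
  have hnorm : Subgroup.normalizer (P : Set G) = P := by
    by_contra hne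
    have : Subgroup.normalizer (P : Set G) = ⊤ :=
      hPco.2 _ (lt_of_le_of_ne Subgroup.le_normalizer (Ne.symm hne))
    exact hPn (Subgroup.normalizer_eq_top_iff.mp this)
  have hx₀P : x₀ ∈ P := Subgroup.mem_centralizer_singleton_iff.mpr rfl
  have hpt : ∀ t : G, t ∉ N → p ∣ orderOf t := by
    intro t ht
    by_contra hnd
    apply ht
    obtain ⟨n, hn⟩ := IsPGroup.iff_card.mp hPp
    have hcop : (orderOf t).Coprime (Nat.card ↥P) := by
      rw [hn]
      apply Nat.Coprime.pow_right
      rw [Nat.coprime_comm, Nat.Prime.coprime_iff_not_dvd hp]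
      exact hnd
    apply H5.mem_of_pow_mem_of_coprime _ hcop
    have htop : t ∈ P ⊔ N := hPN ▸ Subgroup.mem_top t
    obtain ⟨u, hu, n', hn', rfl⟩ := Subgroup.mem_sup_of_normal_right.mp htop
    rw [← QuotientGroup.eq_one_iff]
    have e1 : ((u * n' : G) : G ⧸ N) = (u : G ⧸ N) := by
      rw [QuotientGroup.mk_mul, (QuotientGroup.eq_one_iff n').mpr hn', mul_one]
    have e2 : u ^ Nat.card ↥P = 1 := by
      have := pow_card_eq_one' (G := ↥P) (x := ⟨u, hu⟩)
      exact congrArg Subtype.val this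
    rw [QuotientGroup.mk_pow, e1, ← QuotientGroup.mk_pow, e2, QuotientGroup.mk_one]
  have hconj : ∀ t : G, t ∉ N → ∃ z ∈ P, z ∉ N ∧ (∀ u ∈ P, u * z = z * u) ∧ IsConj z t := by
    intro t ht
    obtain ⟨St, hSt⟩ := hsyl _ (cent_isPGroup N h1 p hp t ht (hpt t ht)) (h t ht).2
    obtain ⟨g, hg⟩ := MulAction.exists_smul_eq G St S
    have hmem : ∀ u : G, u ∈ P ↔ g⁻¹ * u * g ∈ Subgroup.centralizer ({t} : Set G) := by
      intro u
      rw [← hSP, ← hg, Sylow.coe_subgroup_smul, Subgroup.mem_pointwise_smul_iff_inv_smul_mem, hSt]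
      simp [MulAut.smul_def]
    refine ⟨g * t * g⁻¹, ?_, ?_, ?_, ?_⟩
    · rw [hmem]
      have : g⁻¹ * (g * t * g⁻¹) * g = t := by group
      rw [this]
      exact Subgroup.mem_centralizer_singleton_iff.mpr rfl
    · intro hz
      apply ht
      have h2 := (inferInstance : N.Normal).conj_mem _ hz g⁻¹
      have e : g⁻¹ * (g * t * g⁻¹) * g⁻¹⁻¹ = t := by group
      rwa [e] at h2
    · intro u hu
      have h2 := Subgroup.mem_centralizer_singleton_iff.mp ((hmem u).mp hu)
      calc u * (g * t * g⁻¹) = g * ((g⁻¹ * u * g) * t) * g⁻¹ := by group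
        _ = g * (t * (g⁻¹ * u * g)) * g⁻¹ := by rw [h2]
        _ = _ := by group
    · rw [isConj_iff]
      exact ⟨g⁻¹, by group⟩
  have hcent : ∀ z ∈ P, z ∉ N → (∀ u ∈ P, u * z = z * u) →
      (Subgroup.centralizer ({z} : Set G)).index = P.index := by
    intro z _ hzN hzc
    have hle : P ≤ Subgroup.centralizer ({z} : Set G) := by
      intro u hu
      exact Subgroup.mem_centralizer_singleton_iff.mpr (hzc u hu)
    have heq : P = Subgroup.centralizer ({z} : Set G) := by
      by_contra hne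
      exact (h z hzN).2.1 (hPco.2 _ (lt_of_le_of_ne hle hne))
    rw [← heq]
  have hcentral := central_of_count P N hPN hconj hcent
  have hab : ∀ a ∈ P, ∀ b ∈ P, a * b = b * a := by
    intro a ha b hb
    by_cases haN : a ∈ N
    · by_cases hbN : b ∈ N
      · have hxa : x₀ * a ∉ N := by
          intro hcon
          apply hx₀
          have := N.mul_mem hcon (N.inv_mem haN)
          simpa using this
        have e1 := hcentral (x₀ * a) (P.mul_mem hx₀P ha) hxa b hb
        have e2 := hcentral x₀ hx₀P hx₀ b hb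
        have e3 : x₀ * (b * a) = x₀ * (a * b) := by
          calc x₀ * (b * a) = (b * x₀) * a := by rw [e2, mul_assoc]
            _ = b * (x₀ * a) := by rw [mul_assoc]
            _ = x₀ * a * b := e1
            _ = _ := by rw [mul_assoc]
        exact (mul_left_cancel e3).symm
      · exact hcentral b hb hbN a ha
    · exact (hcentral a ha haN b hb).symm
  apply solvable_of_burnside S
  · rw [hSP, hnorm]
    intro a ha
    rw [Subgroup.mem_centralizer_iff]
    intro b hb
    exact hab b hb a ha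
  · rw [hSP]
    exact hPco

end Cfsg.Agent.S3903
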