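import Cfsg.Statements.S3908
import Cfsg.Agent.Lib_helper7_ConjAb
import Cfsg.Agent.S0016
import Cfsg.Agent.Lib_helper7_MaxClass

set_option autoImplicit false
open Cfsg

namespace Cfsg.Agent.S3908

/-- Let G be a finite group in which any two abelian subgroups of the same order are conjugate. Then a Sylow 2-subgroup of G is cyclic, elementary abelian or generalized quaternion, and for an odd prime p a Sylow p-subgroup of G is cyclic or has exponent dividing p. -/
theorem result {G : Type*} [Group G] [Finite G] (hB : ∀ A B : Subgroup G, IsMulCommutative ↥A → IsMulCommutative ↥B → Nat.card ↥A = Nat.card ↥B → ∃ g : G, B = A.map (MulAut.conj g).toMonoidHom) :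
    (∀ P : Sylow 2 G, IsCyclic ↥(P : Subgroup G) ∨ Cfsg.IsElementaryAbelian 2 (P : Subgroup G) ∨ ∃ k : ℕ, Nonempty (↥(P : Subgroup G) ≃* QuaternionGroup (2 ^ k))) ∧
    ∀ (p : ℕ) [Fact p.Prime], p ≠ 2 → ∀ P : Sylow p G, IsCyclic ↥(P : Subgroup G) ∨ ∀ x ∈ (P : Subgroup G), x ^ p = 1 := by
  have hB' : ∀ (p : ℕ), ∀ A B : Subgroup G, IsMulCommutative ↥A → IsMulCommutative ↥B →
      Nat.card ↥A = p ^ 2 → Nat.card ↥B = p ^ 2 → ∃ g : G, B = A.map (MulAut.conj g).toMonoidHom :=
    fun p A B hA hB1 h1 h2 => hB A B hA hB1 (h1.trans h2.symm)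
  constructor
  · intro P
    haveI : Fact (Nat.Prime 2) := ⟨Nat.prime_two⟩
    rcases H7.exp_or_unique_of_conj 2 (hB' 2) P with h | h
    · right; left
      refine ⟨⟨⟨?_⟩⟩, h⟩
      apply H7.comm_of_sq_eq_one
      intro x
      apply Subtype.ext
      exact h x x.2
    · rcases S0016.result 2 P.2 h with h1 | ⟨-, n, hn⟩
      · exact Or.inl h1
      · exact Or.inr (Or.inr ⟨n, hn⟩)
  · intro p _ hp2 P
    rcases H7.exp_or_unique_of_conj p (hB' p) P with h | h
    · exact Or.inr h
    · rcases S0016.result p P.2 h with h1 | ⟨h1, -⟩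
      · exact Or.inl h1
      · exact absurd h1 hp2

end Cfsg.Agent.S3908
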