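import Cfsg.Statements.S3910
import Cfsg.Agent.Lib_helper1_Cores

set_option autoImplicit false
open Cfsg

namespace Cfsg.Agent.S3910

/-- A finite nilpotent group in which any two abelian subgroups of the same order are conjugate is cyclic. -/
theorem result {G : Type*} [Group G] [Finite G] (hB : ∀ A B : Subgroup G, IsMulCommutative ↥A → IsMulCommutative ↥B → Nat.card ↥A = Nat.card ↥B → ∃ g : G, B = A.map (MulAut.conj g).toMonoidHom) (hnil : Group.IsNilpotent G) : IsCyclic G := by
  classical
  have hsyl : ∀ (p : ℕ) (_hp : Fact p.Prime) (P : Sylow p G), (↑P : Subgroup G).Normal :=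
    (Group.isNilpotent_of_finite_tfae.out 0 3 rfl rfl).mp hnil
  haveI : IsZGroup G := by
    refine ⟨fun p hp P => ?_⟩
    haveI : Fact p.Prime := ⟨hp⟩
    haveI hPn : (P : Subgroup G).Normal := hsyl p inferInstance P
    -- P ⊔ C(P) = ⊤
    have htop : (P : Subgroup G) ⊔ Subgroup.centralizer ((P : Subgroup G) : Set G) = ⊤ := by
      let Q : ∀ q : Nat.Primes, Sylow (q : ℕ) G := fun q =>
        haveI : Fact (q : ℕ).Prime := ⟨q.2⟩; default
      rw [eq_top_iff, ← Cfsg.Agent.H1.iSup_sylow_eq_top Q]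
      refine iSup_le fun q => ?_
      haveI : Fact (q : ℕ).Prime := ⟨q.2⟩
      by_cases hq : (q : ℕ) = p
      · have h1 : IsPGroup p (Q q : Subgroup G) := hq ▸ (Q q).isPGroup'
        obtain ⟨P', hP'⟩ := h1.exists_le_sylow
        have : P' = P := by
          obtain ⟨g, hg⟩ := MulAction.exists_smul_eq G P P'
          rw [← hg]
          exact Sylow.smul_eq_of_normal
        rw [this] at hP'
        exact hP'.trans le_sup_left
      · refine le_trans ?_ le_sup_right
        haveI hQn : (Q q : Subgroup G).Normal := hsyl q inferInstance (Q q)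
        have hdis : Disjoint (Q q : Subgroup G) (P : Subgroup G) :=
          IsPGroup.disjoint_of_ne q p hq _ _ (Q q).isPGroup' P.isPGroup'
        intro k hk
        rw [Subgroup.mem_centralizer_iff]
        intro u hu
        exact (Subgroup.commute_of_normal_of_disjoint _ _ hQn hPn hdis k u hk hu).symm
    -- element of maximal order
    obtain ⟨x, hx⟩ := Finite.exists_max (fun x : (P : Subgroup G) => orderOf x)
    by_contra hcyc
    have hne : Subgroup.zpowers x ≠ ⊤ := by
      intro h
      exact hcyc ⟨x, fun y => by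
        have : y ∈ (⊤ : Subgroup (P : Subgroup G)) := Subgroup.mem_top y
        rwa [← h] at this⟩
    obtain ⟨M, hM, hxM⟩ := (eq_top_or_exists_le_coatom (Subgroup.zpowers x)).resolve_left hne
    haveI : Group.IsNilpotent (P : Subgroup G) := P.isPGroup'.isNilpotent
    have hMn : M.Normal :=
      (Group.isNilpotent_of_finite_tfae.out 0 2 rfl rfl).mp inferInstance M hM
    obtain ⟨y, hy⟩ : ∃ y, y ∉ M := by
      by_contra h
      push Not at h
      exact hM.1 (eq_top_iff.mpr fun y _ => h y)
    obtain ⟨a, ha⟩ := (P.isPGroup' x)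
    obtain ⟨i, hi⟩ := (Nat.dvd_prime_pow hp).mp (orderOf_dvd_of_pow_eq_one ha)
    obtain ⟨b, hb⟩ := (P.isPGroup' y)
    obtain ⟨j, hj⟩ := (Nat.dvd_prime_pow hp).mp (orderOf_dvd_of_pow_eq_one hb)
    have hji : j ≤ i := by
      have := hx y
      rw [hi.2, hj.2] at this
      exact (Nat.pow_le_pow_iff_right hp.one_lt).mp this
    set x' := x ^ (p ^ (i - j)) with hx'
    have hox' : orderOf x' = p ^ j := by
      rw [hx', orderOf_pow_of_dvd (pow_ne_zero _ hp.ne_zero), hi.2]
      · exact Nat.pow_div (Nat.sub_le _ _) hp.pos |>.trans (by congr 1; omega)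
      · rw [hi.2]; exact pow_dvd_pow _ (Nat.sub_le _ _)
    have hx'M : x' ∈ M := M.pow_mem (hxM (Subgroup.mem_zpowers x)) _
    obtain ⟨g, hg⟩ := hB (Subgroup.zpowers (x' : G)) (Subgroup.zpowers (y : G))
      ⟨⟨fun u v => by
        obtain ⟨u, m, rfl⟩ := u
        obtain ⟨v, n, rfl⟩ := v
        ext
        simp only [Subgroup.coe_mul]
        exact ((Commute.refl (x' : G)).zpow_zpow m n)⟩⟩
      ⟨⟨fun u v => by
        obtain ⟨u, m, rfl⟩ := u
        obtain ⟨v, n, rfl⟩ := v
        ext
        simp only [Subgroup.coe_mul]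
        exact ((Commute.refl (y : G)).zpow_zpow m n)⟩⟩
      (by rw [Nat.card_zpowers, Nat.card_zpowers, Subgroup.orderOf_coe, Subgroup.orderOf_coe, hox', hj.2])
    have hyg : (y : G) ∈ (Subgroup.zpowers (x' : G)).map (MulAut.conj g).toMonoidHom := by
      rw [← hg]; exact Subgroup.mem_zpowers _
    obtain ⟨w, ⟨m, rfl⟩, hw⟩ := hyg
    have hgt : g ∈ (P : Subgroup G) ⊔ Subgroup.centralizer ((P : Subgroup G) : Set G) := by
      rw [htop]; exact Subgroup.mem_top g
    obtain ⟨u, hu, k, hk, rfl⟩ := Subgroup.mem_sup_of_normal_left.mp hgt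
    apply hy
    have hk' := (Subgroup.mem_centralizer_iff.mp hk) ((x' : G) ^ m) ((x' ^ m).2)
    have : y = (⟨u, hu⟩ : (P : Subgroup G)) * x' ^ m * (⟨u, hu⟩ : (P : Subgroup G))⁻¹ := by
      ext
      rw [← hw]
      simp only [MulEquiv.coe_toMonoidHom, MulAut.conj_apply, Subgroup.coe_mul, Subgroup.coe_zpow,
        Subgroup.coe_inv, mul_inv_rev]
      have : k * (x' : G) ^ m * k⁻¹ = (x' : G) ^ m := by
        rw [← hk', mul_assoc, mul_inv_cancel, mul_one]
      calc u * k * (x' : G) ^ m * (k⁻¹ * u⁻¹) = u * (k * (x' : G) ^ m * k⁻¹) * u⁻¹ := by group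
        _ = _ := by rw [this]
    rw [this]
    exact hMn.conj_mem _ (M.zpow_mem hx'M m) _
  infer_instance

end Cfsg.Agent.S3910
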