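import Cfsg.Statements.S3917
-- import your own Cfsg.Agent.* helpers here

set_option autoImplicit false
open Cfsg

namespace Cfsg.Agent.S3917

theorem card_ker_le {G : Type*} [CommGroup G] [Finite G]
    (h : ∀ p : ℕ, p.Prime → Nat.card (powMonoidHom p : G →* G).ker ≤ p) :
    ∀ n : ℕ, 0 < n → Nat.card (powMonoidHom n : G →* G).ker ≤ n := by
  intro n
  induction n using induction_on_primes with
  | zero => intro h; omega
  | one =>
    intro _
    have : (powMonoidHom 1 : G →* G).ker = ⊥ := by
      ext x; simp [MonoidHom.mem_ker]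
    rw [this]; simp
  | prime_mul p n hp ih =>
    intro hpn
    have hn : 0 < n := Nat.pos_of_ne_zero (by rintro rfl; simp at hpn)
    let K := (powMonoidHom (p * n) : G →* G).ker
    let f : K →* G := (powMonoidHom p).comp K.subtype
    have h1 : Nat.card K = Nat.card f.ker * Nat.card f.range := by
      rw [← Subgroup.index_ker, Subgroup.card_mul_index]
    have h2 : Nat.card f.ker ≤ p := by
      refine le_trans ?_ (h p hp)
      have : Nat.card f.ker = Nat.card (f.ker.map K.subtype) :=
        (Subgroup.card_map_of_injective K.subtype_injective).symm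
      rw [this]; apply Subgroup.card_le_of_le
      rintro _ ⟨x, hx, rfl⟩
      exact hx
    have h3 : Nat.card f.range ≤ n := by
      refine le_trans (Subgroup.card_le_of_le ?_) (ih hn)
      rintro _ ⟨x, rfl⟩
      show ((x : G) ^ p) ^ n = 1
      rw [← pow_mul]; exact x.2
    show Nat.card K ≤ p * n
    rw [h1]; exact Nat.mul_le_mul h2 h3

/-- Say that a group has self-centralizing non-cyclic subgroups when every non-cyclic subgroup H satisfies C_G(H) ≤ H. A finite abelian group with self-centralizing non-cyclic subgroups is cyclic or elementary abelian of order p² for a prime p. -/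
theorem result {G : Type*} [CommGroup G] [Finite G] (hX : (∀ H : Subgroup G, ¬ IsCyclic ↥H → Subgroup.centralizer (H : Set G) ≤ H)) :
    IsCyclic G ∨ ∃ p : ℕ, p.Prime ∧ Nat.card G = p ^ 2 ∧ Monoid.exponent G = p := by
  have hX' : ∀ H : Subgroup G, ¬ IsCyclic ↥H → H = ⊤ := by
    intro H hH
    rw [eq_top_iff]
    intro g _
    exact hX H hH (Subgroup.mem_centralizer_iff.2 fun h _ => mul_comm _ _)
  by_cases hcase : ∃ p : ℕ, p.Prime ∧ ¬ IsCyclic ↥(powMonoidHom p : G →* G).ker
  · right
    obtain ⟨p, hp, hnc⟩ := hcase
    haveI : Fact p.Prime := ⟨hp⟩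
    have htop := hX' _ hnc
    have hpow : ∀ g : G, g ^ p = 1 := by
      intro g
      have : g ∈ (powMonoidHom p : G →* G).ker := by rw [htop]; trivial
      exact this
    have hGnc : ¬ IsCyclic G := by
      intro hc
      apply hnc
      infer_instance
    have hPG : IsPGroup p G := fun g => ⟨1, by rw [pow_one]; exact hpow g⟩
    obtain ⟨n, hn⟩ := IsPGroup.iff_card.1 hPG
    have hn2 : 2 ≤ n := by
      by_contra hlt
      have : n = 0 ∨ n = 1 := by omega
      rcases this with rfl | rfl
      · apply hGnc
        haveI : Subsingleton G := (Nat.card_eq_one_iff_unique.1 (by simpa using hn)).1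
        infer_instance
      · exact hGnc (isCyclic_of_prime_card (p := p) (by simpa using hn))
    obtain ⟨K, hK⟩ := Sylow.exists_subgroup_card_pow_prime (G := G) p (n := 2)
      (by rw [hn]; exact pow_dvd_pow p hn2)
    have hKnc : ¬ IsCyclic ↥K := by
      intro hc
      have h1 := IsCyclic.exponent_eq_card (α := K)
      have h2 : Monoid.exponent K ∣ p :=
        Monoid.exponent_dvd_of_forall_pow_eq_one fun g => Subtype.ext (hpow g)
      rw [h1, hK] at h2
      have h3 := Nat.le_of_dvd hp.pos h2
      nlinarith [hp.two_le]
    have hKtop := hX' K hKnc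
    have hcard : Nat.card G = p ^ 2 := by
      rw [← hK, hKtop, Subgroup.card_top]
    refine ⟨p, hp, hcard, ?_⟩
    have h2 : Monoid.exponent G ∣ p := Monoid.exponent_dvd_of_forall_pow_eq_one hpow
    rcases (Nat.dvd_prime hp).1 h2 with h | h
    · exfalso
      apply hGnc
      haveI : Subsingleton G := Monoid.exp_eq_one_iff.1 h
      infer_instance
    · exact h
  · left
    push Not at hcase
    have hle : ∀ p : ℕ, p.Prime → Nat.card (powMonoidHom p : G →* G).ker ≤ p := by
      intro p hp
      haveI := hcase p hp
      have h1 := IsCyclic.exponent_eq_card (α := (powMonoidHom p : G →* G).ker)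
      have h2 : Monoid.exponent (powMonoidHom p : G →* G).ker ∣ p :=
        Monoid.exponent_dvd_of_forall_pow_eq_one fun g => Subtype.ext g.2
      rw [h1] at h2
      exact Nat.le_of_dvd hp.pos h2
    rw [IsCyclic.iff_exponent_eq_card]
    have hpos : 0 < Monoid.exponent G := Monoid.exponent_pos_of_exists (Nat.card G) Nat.card_pos
      fun g => pow_card_eq_one'
    have h3 := card_ker_le hle _ hpos
    have h4 : (powMonoidHom (Monoid.exponent G) : G →* G).ker = ⊤ := by
      rw [eq_top_iff]
      intro g _
      exact Monoid.pow_exponent_eq_one g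
    rw [h4, Subgroup.card_top] at h3
    exact le_antisymm (Nat.le_of_dvd Nat.card_pos Group.exponent_dvd_nat_card) h3

end Cfsg.Agent.S3917
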