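import Cfsg.Statements.S3919
import Cfsg.Agent.Lib_helper7_MaxClass6

set_option autoImplicit false
open Cfsg

namespace Cfsg.Agent.S3919

/-- Say that a group has self-centralizing non-cyclic subgroups when every non-cyclic subgroup H satisfies C_G(H) ≤ H. A finite non-abelian 2-group G of order 2^n has self-centralizing non-cyclic subgroups if and only if G has nilpotency class n − 1 (that is, G is dihedral, semidihedral or generalized quaternion). -/
theorem result {G : Type*} [Group G] [Finite G] (hna : ¬ IsMulCommutative G) (n : ℕ) (hG : Nat.card G = 2 ^ n) :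
    (∀ H : Subgroup G, ¬ IsCyclic ↥H → Subgroup.centralizer (H : Set G) ≤ H) ↔ (⊤ : Subgroup G).lowerCentralSeries (n - 2) ≠ ⊥ := by
  haveI : Fact (Nat.Prime 2) := ⟨Nat.prime_two⟩
  have hP : IsPGroup 2 G := IsPGroup.of_card hG
  haveI : Group.IsNilpotent G := hP.isNilpotent
  have hn3 : 3 ≤ n := by
    by_contra h
    have : n = 0 ∨ n = 1 ∨ n = 2 := by omega
    rcases this with rfl | rfl | rfl
    · rw [pow_zero] at hG
      haveI : Subsingleton G := (Nat.card_eq_one_iff_unique.1 hG).1
      exact hna ⟨⟨fun a b => Subsingleton.elim _ _⟩⟩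
    · rw [pow_one] at hG
      exact hna (isCyclic_of_prime_card hG).isMulCommutative
    · exact hna (IsPGroup.isMulCommutative_of_card_eq_prime_sq hG)
  obtain ⟨hle, hiff⟩ := H7.class_main n G (by omega) hG
  have hR : (⊤ : Subgroup G).lowerCentralSeries (n - 2) ≠ ⊥ ↔ (commutator G).index = 4 := by
    rw [Ne, Subgroup.lowerCentralSeries_eq_bot_iff_nilpotencyClass_le, ← hiff]
    omega
  rw [hR]
  constructor
  · intro hH
    haveI : Nontrivial G := by
      rw [← Finite.one_lt_card_iff_nontrivial, hG]
      exact Nat.one_lt_two_pow (by omega)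
    haveI := hP.center_nontrivial
    obtain ⟨z0, hz0⟩ : ∃ z : Subgroup.center G, orderOf z = 2 := by
      apply exists_prime_orderOf_dvd_card'
      obtain ⟨j, hj⟩ := (hP.to_subgroup (Subgroup.center G)).exists_card_eq
      have h1 := Finite.one_lt_card_iff_nontrivial.2
        (inferInstance : Nontrivial (Subgroup.center G))
      rw [hj] at h1 ⊢
      have : j ≠ 0 := by rintro rfl; simp at h1
      exact dvd_pow_self 2 this
    obtain ⟨z, hzc, hz⟩ : ∃ z : G, z ∈ Subgroup.center G ∧ orderOf z = 2 :=
      ⟨z0, z0.2, by rw [Subgroup.orderOf_coe, hz0]⟩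
    have hz2 : z ^ 2 = 1 := by rw [← hz, pow_orderOf_eq_one]
    by_cases huniq : ∀ t : G, t ^ 2 = 1 → t = 1 ∨ t = z
    · rcases H7.cyclic_or_quaternion_of_unique_involution hP z huniq with hc | ⟨k, ⟨e⟩⟩
      · exact absurd hc.isMulCommutative hna
      · haveI : NeZero (2 ^ k) := ⟨by positivity⟩
        apply H7.index_commutator_of_inverting (a := e.symm (QuaternionGroup.a 1))
          (y := e.symm (QuaternionGroup.xa 0)) (m := k + 1) (by omega)
        · rw [MulEquiv.orderOf_eq, QuaternionGroup.orderOf_a_one]; ring
        · rw [Nat.card_congr e.toEquiv, Nat.card_eq_fintype_card, QuaternionGroup.card]; ring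
        · intro hmem
          rw [← mem_powers_iff_mem_zpowers] at hmem
          obtain ⟨s, hs⟩ := hmem
          have h1 : e (e.symm (QuaternionGroup.a 1) ^ s) = e (e.symm (QuaternionGroup.xa 0)) :=
            congrArg e hs
          rw [map_pow, MulEquiv.apply_symm_apply, MulEquiv.apply_symm_apply,
            QuaternionGroup.a_one_pow] at h1
          exact absurd h1 (by simp)
        · apply e.injective
          rw [map_mul, map_mul, map_inv, map_inv, MulEquiv.apply_symm_apply,
            MulEquiv.apply_symm_apply]
          rw [mul_inv_eq_iff_eq_mul, eq_inv_mul_iff_mul_eq]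
          simp
    · push Not at huniq
      obtain ⟨t, ht2, ht1, htz⟩ := huniq
      have ht : orderOf t = 2 := orderOf_eq_prime ht2 ht1
      have hne : t ∉ Subgroup.zpowers z := by
        rintro ⟨i, hi⟩
        have hi' : z ^ i = t := hi
        rcases Int.even_or_odd' i with ⟨c, rfl | rfl⟩
        · apply ht1
          rw [← hi', zpow_mul, zpow_ofNat, hz2, one_zpow]
        · apply htz
          rw [← hi', zpow_add, zpow_mul, zpow_ofNat, hz2, one_zpow, one_mul, zpow_one]
      obtain ⟨hVcard, hVmem⟩ := H7.sup_zpowers_central ht hz hzc hne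
      have hzcomm : ∀ x : G, Commute z x := fun x => (Subgroup.mem_center_iff.1 hzc x).symm
      have hVn : ¬ IsCyclic ↥(Subgroup.zpowers t ⊔ Subgroup.zpowers z) := by
        intro hc
        obtain ⟨g, hg⟩ := hc.exists_ofOrder_eq_natCard
        obtain ⟨i, j, hij⟩ := hVmem g g.2
        have hg2 : (g : G) ^ 2 = 1 := by
          rw [hij, ((hzcomm _).zpow_left j).symm.mul_pow, ← zpow_natCast, ← zpow_mul, mul_comm,
            zpow_mul, zpow_natCast, ht2, one_zpow, one_mul, ← zpow_natCast, ← zpow_mul, mul_comm,
            zpow_mul, zpow_natCast, hz2, one_zpow]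
        rw [← Subgroup.orderOf_coe, hVcard] at hg
        rw [← orderOf_dvd_iff_pow_eq_one, hg] at hg2
        norm_num at hg2
      have hCV := hH _ hVn
      have hle4 : Nat.card (Subgroup.centralizer ({t} : Set G)) ≤ 4 := by
        have h1 : Subgroup.centralizer ({t} : Set G) ≤ Subgroup.zpowers t ⊔ Subgroup.zpowers z := by
          refine le_trans ?_ hCV
          intro c hc
          rw [Subgroup.mem_centralizer_singleton_iff] at hc
          rw [Subgroup.mem_centralizer_iff]
          intro v hv
          obtain ⟨i, j, rfl⟩ := hVmem v hv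
          have h2 : Commute c t := hc
          exact ((h2.zpow_right i).mul_right ((hzcomm c).symm.zpow_right j)).symm
        have := Subgroup.card_le_of_le h1
        rw [hVcard] at this
        omega
      rcases H7.suzuki_maxclass n G hG t ht hle4 with h | h
      · exfalso
        rw [hG] at h
        have : 2 ^ 3 ≤ 2 ^ n := Nat.pow_le_pow_right (by norm_num) hn3
        omega
      · exact h
  · intro hidx H hHn
    exact H7.centralizer_le_of_index_commutator hn3 hG hidx H hHn

end Cfsg.Agent.S3919
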