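import Cfsg.Statements.S3920

set_option autoImplicit false
open Cfsg

namespace Cfsg.Agent.S3920

open DihedralGroup

theorem r_nsmul_mem {n : ℕ} (H : Subgroup (DihedralGroup n)) (k : ZMod n) (hk : r k ∈ H) (m : ℕ) :
    r (m • k) ∈ H := by
  induction m with
  | zero =>
    rw [zero_nsmul]
    exact H.one_mem
  | succ m ih =>
    have := H.mul_mem ih hk
    rwa [r_mul_r, ← succ_nsmul] at this

theorem comm_of_cyclic {A : Type*} [Group A] [IsCyclic A] (a b : A) : a * b = b * a := by
  obtain ⟨g, hg⟩ := IsCyclic.exists_generator (α := A)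
  obtain ⟨i, rfl⟩ := Subgroup.mem_zpowers_iff.1 (hg a)
  obtain ⟨j, rfl⟩ := Subgroup.mem_zpowers_iff.1 (hg b)
  exact ((Commute.refl g).zpow_zpow i j).eq

theorem cyc_of_le {A : Type*} [Group A] {H : Subgroup A} {g : A} (h : H ≤ Subgroup.zpowers g) :
    IsCyclic ↥H :=
  isCyclic_of_injective (Subgroup.inclusion h) (Subgroup.inclusion_injective h)

theorem two_val {n : ℕ} [NeZero n] (j : ZMod n) (h : j + j = 0) (h0 : j ≠ 0) : 2 * j.val = n := by
  have h1 : ((j.val + j.val : ℕ) : ZMod n) = 0 := by
    push_cast; rw [ZMod.natCast_zmod_val]; exact h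
  have h2 := (ZMod.natCast_eq_zero_iff _ _).1 h1
  have h3 := ZMod.val_lt j
  have h4 : j.val ≠ 0 := fun h => h0 ((ZMod.val_eq_zero j).1 h)
  obtain ⟨c, hc⟩ := h2
  have : c = 1 := by
    rcases c with _ | _ | c
    · omega
    · rfl
    · exfalso
      have : n * (c + 1 + 1) = n * c + n + n := by ring
      omega
  subst this; omega

theorem exists_sub {n q : ℕ} (hq : q ∣ n) : ∃ H : Subgroup (DihedralGroup n),
    (∀ i, r i ∈ H ↔ ZMod.castHom hq (ZMod q) i = 0) ∧
    (∀ i, sr i ∈ H ↔ ZMod.castHom hq (ZMod q) i = 0) := by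
  refine ⟨{ carrier := {x | match x with
      | r i => ZMod.castHom hq (ZMod q) i = 0
      | sr i => ZMod.castHom hq (ZMod q) i = 0}
            mul_mem' := ?_, one_mem' := ?_, inv_mem' := ?_ }, fun i => Iff.rfl, fun i => Iff.rfl⟩
  · rintro (a | a) (b | b) ha hb
    · rw [r_mul_r]
      show ZMod.castHom hq (ZMod q) (a + b) = 0
      rw [map_add, show ZMod.castHom hq (ZMod q) a = 0 from ha,
        show ZMod.castHom hq (ZMod q) b = 0 from hb, add_zero]
    · rw [r_mul_sr]
      show ZMod.castHom hq (ZMod q) (b - a) = 0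
      rw [map_sub, show ZMod.castHom hq (ZMod q) a = 0 from ha,
        show ZMod.castHom hq (ZMod q) b = 0 from hb, sub_zero]
    · rw [sr_mul_r]
      show ZMod.castHom hq (ZMod q) (a + b) = 0
      rw [map_add, show ZMod.castHom hq (ZMod q) a = 0 from ha,
        show ZMod.castHom hq (ZMod q) b = 0 from hb, add_zero]
    · rw [sr_mul_sr]
      show ZMod.castHom hq (ZMod q) (b - a) = 0
      rw [map_sub, show ZMod.castHom hq (ZMod q) a = 0 from ha,
        show ZMod.castHom hq (ZMod q) b = 0 from hb, sub_zero]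
  · show ZMod.castHom hq (ZMod q) 0 = 0
    exact map_zero _
  · rintro (a | a) ha
    · show ZMod.castHom hq (ZMod q) (-a) = 0
      rw [map_neg, show ZMod.castHom hq (ZMod q) a = 0 from ha, neg_zero]
    · exact ha

/-- Say that a group has self-centralizing non-cyclic subgroups when every non-cyclic subgroup H satisfies C_G(H) ≤ H. For n ≥ 3, the dihedral group of order 2n has self-centralizing non-cyclic subgroups if and only if n is odd or a power of 2. -/
theorem result (n : ℕ) (hn : 3 ≤ n) : (∀ H : Subgroup (DihedralGroup n), ¬ IsCyclic ↥H → Subgroup.centralizer (H : Set (DihedralGroup n)) ≤ H) ↔ (Odd n ∨ ∃ k : ℕ, n = 2 ^ k) := by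
  constructor
  · intro h
    by_contra hcon
    push_neg at hcon
    obtain ⟨hodd, hpow⟩ := hcon
    obtain ⟨a, m, hm, hnm⟩ := Nat.exists_eq_two_pow_mul_odd (by omega : n ≠ 0)
    obtain ⟨b, rfl⟩ : ∃ b, a = b + 1 := by
      rcases a with _ | b
      · exfalso; apply hodd; rw [hnm]; simpa using hm
      · exact ⟨b, rfl⟩
    have hm1 : m ≠ 1 := by
      rintro rfl
      exact hpow (b + 1) (by rw [hnm, mul_one])
    have hq : 2 ^ (b + 1) ∣ n := ⟨m, hnm⟩
    obtain ⟨H, hHr, hHs⟩ := exists_sub hq
    have hs0 : sr (0 : ZMod n) ∈ H := (hHs 0).2 (map_zero _)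
    have hrq : r (((2 ^ (b + 1) : ℕ)) : ZMod n) ∈ H :=
      (hHr _).2 (by rw [map_natCast]; exact ZMod.natCast_self _)
    have hnc : ¬ IsCyclic ↥H := by
      intro hc
      have h3 := congrArg Subtype.val (comm_of_cyclic (⟨_, hrq⟩ : ↥H) ⟨_, hs0⟩)
      change r _ * sr 0 = sr 0 * r _ at h3
      rw [r_mul_sr, sr_mul_r] at h3
      have h4 : (0 : ZMod n) - ((2 ^ (b + 1) : ℕ) : ZMod n) = 0 + ((2 ^ (b + 1) : ℕ) : ZMod n) := by
        injection h3
      have h5 : ((2 ^ (b + 1) * 2 : ℕ) : ZMod n) = 0 := by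
        rw [Nat.cast_mul]
        push_cast at h4 ⊢
        linear_combination -h4
      have h6 := (ZMod.natCast_eq_zero_iff _ _).1 h5
      rw [hnm] at h6
      have h7 : m ∣ 2 := (Nat.mul_dvd_mul_iff_left (by positivity)).1 h6
      have := Nat.le_of_dvd (by norm_num) h7
      obtain ⟨c, hc'⟩ := hm
      omega
    have hz : r (((2 ^ b * m : ℕ)) : ZMod n) ∈ Subgroup.centralizer (H : Set (DihedralGroup n)) := by
      have hzz : (((2 ^ b * m : ℕ)) : ZMod n) + ((2 ^ b * m : ℕ) : ZMod n) = 0 := by
        rw [← Nat.cast_add, ZMod.natCast_eq_zero_iff]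
        exact dvd_of_eq (by rw [hnm]; ring)
      rw [Subgroup.mem_centralizer_iff]
      rintro (x | x) _
      · rw [r_mul_r, r_mul_r, add_comm]
      · rw [sr_mul_r, r_mul_sr]; congr 1; linear_combination hzz
    have h9 := (hHr _).1 (h H hnc hz)
    rw [map_natCast, ZMod.natCast_eq_zero_iff, pow_succ] at h9
    have h7 : 2 ∣ m := (Nat.mul_dvd_mul_iff_left (by positivity)).1 h9
    obtain ⟨c, hc'⟩ := hm
    omega
  · intro hn' H hH
    haveI : NeZero n := ⟨by omega⟩
    have hrefl : ∃ i, sr i ∈ H := by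
      by_contra hne
      push_neg at hne
      apply hH
      apply cyc_of_le (g := r 1)
      intro x hx
      cases x with
      | sr i => exact absurd hx (hne i)
      | r i =>
        rw [Subgroup.mem_zpowers_iff]
        exact ⟨(i.val : ℤ), by rw [zpow_natCast, r_one_pow, ZMod.natCast_zmod_val]⟩
    obtain ⟨i, hi⟩ := hrefl
    have hrot : ∃ k, k ≠ 0 ∧ r k ∈ H := by
      by_contra hne
      push_neg at hne
      apply hH
      apply cyc_of_le (g := sr i)
      intro x hx
      cases x with
      | r k =>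
        have : k = 0 := by_contra fun h => hne k h hx
        rw [this]; exact one_mem _
      | sr j =>
        have h1 := H.mul_mem hi hx
        rw [sr_mul_sr] at h1
        have : j - i = 0 := by_contra fun h => hne _ h h1
        rw [sub_eq_zero.1 this]; exact Subgroup.mem_zpowers _
    obtain ⟨k, hk0, hk⟩ := hrot
    have Z : ∀ d : ZMod n, d + d = 0 → r d ∈ H := by
      intro d hd
      by_cases hd0 : d = 0
      · rw [hd0]; exact H.one_mem
      have hdv := two_val d hd hd0
      rcases hn' with hodd | ⟨t, ht⟩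
      · exfalso; obtain ⟨c, hc⟩ := hodd; omega
      · have h1 : addOrderOf k ∣ 2 ^ t := by
          have := addOrderOf_dvd_natCard k
          rw [Nat.card_zmod] at this
          exact this.trans (dvd_of_eq ht)
        obtain ⟨s, -, hs⟩ := (Nat.dvd_prime_pow Nat.prime_two).1 h1
        have hs0 : s ≠ 0 := by
          rintro rfl
          rw [pow_zero, AddMonoid.addOrderOf_eq_one_iff] at hs
          exact hk0 hs
        obtain ⟨s', rfl⟩ := Nat.exists_eq_succ_of_ne_zero hs0
        have hpos : 0 < 2 ^ s' := by positivity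
        have hy0 : (2 ^ s') • k ≠ 0 := nsmul_ne_zero_of_lt_addOrderOf (by omega)
          (by rw [hs, Nat.succ_eq_add_one, pow_succ]; omega)
        have hyy : (2 ^ s') • k + (2 ^ s') • k = 0 := by
          rw [← add_nsmul, ← two_mul, mul_comm, ← pow_succ, ← Nat.succ_eq_add_one, ← hs]
          exact addOrderOf_nsmul_eq_zero k
        have hyv := two_val _ hyy hy0
        have : d = (2 ^ s') • k := ZMod.val_injective n (by omega)
        rw [this]; exact r_nsmul_mem H k hk _
    intro x hx
    rw [Subgroup.mem_centralizer_iff] at hx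
    have h1 := hx (sr i) hi
    cases x with
    | r j =>
      rw [sr_mul_r, r_mul_sr] at h1
      have h2 : i + j = i - j := by injection h1
      exact Z j (by linear_combination h2)
    | sr j =>
      rw [sr_mul_sr, sr_mul_sr] at h1
      have h2 : j - i = i - j := by injection h1
      have h3 := H.mul_mem hi (Z (j - i) (by linear_combination h2))
      rw [sr_mul_r, add_sub_cancel] at h3
      exact h3

end Cfsg.Agent.S3920
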