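import Cfsg.Statements.S3937
import Cfsg.Agent.Lib_helper7_Subn
import Cfsg.Agent.S3743
import Cfsg.Agent.Lib_helper1_Cores

set_option autoImplicit false
open Cfsg

universe u
namespace Cfsg.Agent.S3937

open Subgroup Cfsg.Agent.H7
open scoped Pointwise commutatorElement

/-- iterated commutator with `g` -/
def E {G : Type*} [Group G] (g : G) (n : ℕ) (x : G) : G :=
  (List.replicate n g).foldl (fun a b => a * b * a⁻¹ * b⁻¹) x

theorem E_zero {G : Type*} [Group G] (g x : G) : E g 0 x = x := rfl

theorem E_succ {G : Type*} [Group G] (g x : G) (n : ℕ) : E g (n + 1) x = E g n (x * g * x⁻¹ * g⁻¹) := by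
  rw [E, List.replicate_succ, List.foldl_cons]
  rfl

theorem E_conj {G : Type*} [Group G] (g c : G) (n : ℕ) : ∀ x : G,
    E (c * g * c⁻¹) n (c * x * c⁻¹) = c * E g n x * c⁻¹ := by
  induction n with
  | zero => intro x; rfl
  | succ n ih =>
    intro x
    rw [E_succ, E_succ, ← ih]
    congr 1
    group

theorem E_coe {G : Type*} [Group G] (U : Subgroup G) (g : U) (n : ℕ) : ∀ x : U,
    ((E g n x : U) : G) = E (g : G) n (x : G) := by
  induction n with
  | zero => intro x; rfl
  | succ n ih =>
    intro x
    rw [E_succ, E_succ, ih]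
    rfl

theorem aux (n : ℕ) : ∀ {G : Type u} [Group G] [Finite G], Nat.card G = n → ∀ (g : G),
    (∀ x : G, ∃ k : ℕ, E g k x = 1) → (zpowers g).IsSubnormal := by
  induction n using Nat.strong_induction_on with
  | _ n ih =>
  intro G _ _ hn g hyp
  by_contra hA
  have hconjz : ∀ x : G, MulAut.conj x • zpowers g = zpowers (x * g * x⁻¹) := by
    intro x
    exact MonoidHom.map_zpowers (MulAut.conj x).toMonoidHom g
  obtain ⟨M, hMtop, hAM, hMmax, hMu⟩ := exists_unique_max (zpowers g) hA (by
    intro U hU x hx
    have hlt : Nat.card U < n := by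
      rw [← hn, ← card_top (G := G)]
      exact card_lt_of_lt (lt_top_iff_ne_top.mpr hU)
    rw [hconjz] at hx ⊢
    have hgU : x * g * x⁻¹ ∈ U := hx (mem_zpowers _)
    have h1 := ih _ hlt rfl (⟨x * g * x⁻¹, hgU⟩ : ↥U) (by
      intro y
      obtain ⟨k, hk⟩ := hyp (x⁻¹ * y * x)
      refine ⟨k, Subtype.ext ?_⟩
      rw [E_coe]
      have h2 := E_conj g x k (x⁻¹ * y * x)
      rw [hk] at h2
      have h3 : x * (x⁻¹ * (y : G) * x) * x⁻¹ = y := by group
      rw [h3] at h2
      rw [h2]
      simp)
    have heq : (zpowers (x * g * x⁻¹)).subgroupOf U = zpowers (⟨x * g * x⁻¹, hgU⟩ : ↥U) := by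
      apply map_injective U.subtype_injective
      rw [map_subgroupOf_eq_of_le hx, MonoidHom.map_zpowers]
      rfl
    rw [heq]
    exact h1)
  have hgM : g ∈ M := hAM (mem_zpowers g)
  have key : ∀ k : ℕ, ∀ y : G, E g k y ∈ M → y ∈ M := by
    intro k
    induction k with
    | zero => intro y hy; exact hy
    | succ k ihk =>
      intro y hy
      rw [E_succ] at hy
      have h1 := ihk _ hy
      apply hMu
      rw [hconjz, zpowers_le]
      have := mul_mem h1 hgM
      rwa [inv_mul_cancel_right] at this
  apply hMtop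
  rw [eq_top_iff]
  intro y _
  obtain ⟨k, hk⟩ := hyp y
  exact key k y (hk ▸ one_mem M)

/-- Baer's characterization of the Fitting subgroup: in a finite group G, an element g lies in the Fitting subgroup if and only if g is a left Engel element, that is, for every x there is n with [x, g, g, …, g] = 1 (n entries g, [a, b] = aba⁻¹b⁻¹). -/
theorem result {G : Type*} [Group G] [Finite G] (g : G) :
    g ∈ Cfsg.fittingSubgroup G ↔ ∀ x : G, ∃ n : ℕ, (List.replicate n g).foldl (fun a b => a * b * a⁻¹ * b⁻¹) x = 1 := by
  constructor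
  · intro hg x
    have hFn : (Cfsg.fittingSubgroup G).Normal := Cfsg.Agent.H1.fitting_normal
    obtain ⟨c, hc⟩ := (isNilpotent_iff_lowerCentralSeries (Cfsg.fittingSubgroup G)).mp
      Cfsg.Agent.H1.fitting_nilpotent
    have key : ∀ k : ℕ, k ≤ c → ∀ y ∈ (Cfsg.fittingSubgroup G).lowerCentralSeries (c - k), E g k y = 1 := by
      intro k
      induction k with
      | zero =>
        intro _ y hy
        rw [Nat.sub_zero, hc, mem_bot] at hy
        exact hy
      | succ k ih =>
        intro hk y hy
        rw [E_succ]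
        apply ih (by omega)
        have : c - k = (c - (k + 1)) + 1 := by omega
        rw [this, Subgroup.lowerCentralSeries_succ]
        exact commutator_mem_commutator hy hg
    refine ⟨c + 1, ?_⟩
    change E g (c + 1) x = 1
    rw [E_succ]
    apply key c le_rfl
    rw [Nat.sub_self, Subgroup.lowerCentralSeries_zero]
    exact mul_mem (hFn.conj_mem g hg x) (inv_mem hg)
  · intro h
    have h1 := aux _ rfl g h
    have h2 : Group.IsNilpotent (zpowers g) := by
      letI : CommGroup (zpowers g) := IsCyclic.commGroup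
      exact CommGroup.isNilpotent
    exact (Cfsg.Agent.S3743.result _ h1).1 h2 (mem_zpowers g)

end Cfsg.Agent.S3937
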