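import Cfsg.Statements.S3949

set_option autoImplicit false
open Cfsg

namespace Cfsg.Agent.S3949


/-- Let G be a finite group and α an automorphism of G of order 2 such that the elements g·α(g)⁻¹ generate G. Let j be a positive integer such that 2^j divides the order of no element inverted by α. Then the set of values of the j-th iterate of the map c ↦ c·α(c)⁻¹ is exactly the set of elements of odd order inverted by α. -/
theorem result {G : Type*} [Group G] [Finite G] (α : MulAut G) (hα : orderOf α = 2) (hG : Subgroup.closure (Set.range (fun c : G => c * (α c)⁻¹)) = ⊤)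
    (j : ℕ) (hj : ∀ g : G, α g = g⁻¹ → ¬ 2 ^ j ∣ orderOf g) :
    Set.range ((fun c : G => c * (α c)⁻¹)^[j]) = {g : G | Odd (orderOf g) ∧ α g = g⁻¹} := by
  have hαα : ∀ h, α (α h) = h := by
    intro h
    have h1 : α ^ 2 = 1 := by rw [← hα, pow_orderOf_eq_one]
    have h2 := congrArg (fun f : MulAut G => f h) h1
    simpa [pow_two] using h2
  set f : G → G := fun c : G => c * (α c)⁻¹ with hf
  have hfinv : ∀ c, α (f c) = (f c)⁻¹ := by
    intro c
    simp only [hf, map_mul, map_inv, hαα, mul_inv_rev, inv_inv]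
  have hpowinv : ∀ (x : G) (n : ℕ), α x = x⁻¹ → α (x ^ n) = (x ^ n)⁻¹ := by
    intro x n hx
    rw [map_pow, hx, inv_pow]
  have hiter : ∀ (n : ℕ) (x : G), α x = x⁻¹ → f^[n] x = x ^ (2 ^ n) := by
    intro n
    induction n with
    | zero => intro x _; simp
    | succ n ih =>
      intro x hx
      rw [Function.iterate_succ_apply', ih x hx]
      simp only [hf]
      rw [hpowinv x _ hx, inv_inv, ← pow_add, pow_succ]
      congr 1
      ring
  have hj0 : j ≠ 0 := by
    rintro rfl
    exact hj 1 (by simp) (by simp)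
  obtain ⟨i, rfl⟩ := Nat.exists_eq_succ_of_ne_zero hj0
  ext g
  constructor
  · rintro ⟨c, rfl⟩
    rw [Function.iterate_succ_apply, hiter i _ (hfinv c)]
    refine ⟨?_, hpowinv _ _ (hfinv c)⟩
    have h1 := hj (f c) (hfinv c)
    rw [orderOf_pow]
    rw [← Nat.not_even_iff_odd, even_iff_two_dvd]
    intro h2
    apply h1
    have hpos : 0 < orderOf (f c) := orderOf_pos _
    obtain ⟨m, hm⟩ := h2
    have hg := Nat.gcd_dvd_left (orderOf (f c)) (2 ^ i)
    have hg2 := Nat.gcd_dvd_right (orderOf (f c)) (2 ^ i)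
    obtain ⟨l, hl, hgl⟩ := (Nat.dvd_prime_pow Nat.prime_two).1 hg2
    have e1 : orderOf (f c) = 2 ^ l * (2 * m) := by
      rw [← hm, ← hgl]
      exact (Nat.mul_div_cancel' hg).symm
    -- then 2^(l+1) divides the order; so gcd with 2^i being 2^l forces l = i
    have hli : l = i := by
      by_contra hne
      have hlt : l + 1 ≤ i := by omega
      have d1 : 2 ^ (l + 1) ∣ orderOf (f c) := ⟨m, by rw [e1]; ring⟩
      have d2 : 2 ^ (l + 1) ∣ 2 ^ i := pow_dvd_pow 2 hlt
      have d3 := Nat.dvd_gcd d1 d2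
      rw [hgl] at d3
      have := Nat.le_of_dvd (by positivity) d3
      have h4 : 2 ^ (l + 1) = 2 * 2 ^ l := by ring
      have h5 : 0 < 2 ^ l := by positivity
      omega
    exact ⟨m, by rw [e1, hli, Nat.succ_eq_add_one]; ring⟩
  · rintro ⟨hodd, hinv⟩
    have hcop : (2 ^ (i + 1)).Coprime (orderOf g) :=
      Nat.Coprime.pow_left _ (Nat.coprime_two_left.2 hodd)
    obtain ⟨m, hm⟩ := exists_pow_eq_self_of_coprime hcop
    refine ⟨g ^ m, ?_⟩
    rw [hiter _ _ (hpowinv g m hinv), ← pow_mul, mul_comm, pow_mul]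
    exact hm

end Cfsg.Agent.S3949
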