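import Cfsg.Statements.S3951
import Cfsg.Agent.Lib_helper2_SchurAbelian

set_option autoImplicit false
open Cfsg
open scoped commutatorElement

namespace Cfsg.Agent.S3951

open Cfsg.Agent.H2

/-- the bilinear form `(a,b),(a',b') ↦ a b'` -/
noncomputable def form (m n : ℕ) (hnm : n ∣ m) : (ZMod m × ZMod n) →+ (ZMod m × ZMod n) →+ ZMod n :=
  AddMonoidHom.mk' (fun x => AddMonoidHom.mk' (fun y => ZMod.castHom hnm (ZMod n) x.1 * y.2)
    (by intro a b; simp [mul_add]))
    (by
      intro a b
      apply AddMonoidHom.ext
      intro y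
      change ZMod.castHom hnm (ZMod n) (a + b).1 * y.2
        = ZMod.castHom hnm (ZMod n) a.1 * y.2 + ZMod.castHom hnm (ZMod n) b.1 * y.2
      rw [Prod.fst_add, map_add, add_mul])

/-- the cocycle -/
noncomputable def coc (m n : ℕ) (hnm : n ∣ m) :
    Multiplicative (ZMod m × ZMod n) →* Multiplicative (ZMod m × ZMod n) →* Multiplicative (ZMod n) where
  toFun g := AddMonoidHom.toMultiplicative (form m n hnm (Multiplicative.toAdd g))
  map_one' := by
    ext h
    change Multiplicative.ofAdd (form m n hnm 0 (Multiplicative.toAdd h)) = 1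
    simp
  map_mul' a b := by
    ext h
    change Multiplicative.ofAdd (form m n hnm (Multiplicative.toAdd a + Multiplicative.toAdd b) (Multiplicative.toAdd h)) = _
    rw [map_add]
    rfl

theorem coc_apply (m n : ℕ) (hnm : n ∣ m) (x y : ZMod m × ZMod n) :
    coc m n hnm (Multiplicative.ofAdd x) (Multiplicative.ofAdd y)
      = Multiplicative.ofAdd (ZMod.castHom hnm (ZMod n) x.1 * y.2) := rfl

/-- For positive integers `m` and `n` with `n` dividing `m`, the Schur multiplier of the abelian group `ZMod m × ZMod n` (written multiplicatively) is cyclic of order `n`. In particular the elementary abelian group of order `p ^ 2` has multiplier of order `p`. -/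
theorem result (m n : ℕ) [NeZero m] [NeZero n] (hnm : n ∣ m) : Cfsg.HasCyclicSchurMultiplier (Multiplicative (ZMod m × ZMod n)) n := by
  constructor
  · have hfin : Finite (Tw (coc m n hnm)) := Tw.finite_tw _
    have hker : ∀ a : Tw (coc m n hnm), a ∈ (Tw.proj (coc m n hnm)).ker ↔ a.fst = 1 := fun a => Iff.rfl
    refine ⟨Tw (coc m n hnm), inferInstance, hfin, Tw.proj _, ⟨Tw.proj_surjective _, ?_, ?_⟩, ?_⟩
    · intro a ha
      rw [hker] at ha
      apply Tw.mem_center_of
      · rw [ha]; exact one_mem _
      · intro g; rw [ha, map_one]; rfl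
      · intro g; rw [ha, map_one]
    · intro a ha
      rw [hker] at ha
      have : a = ⁅(⟨Multiplicative.ofAdd (1, 0), 1⟩ : Tw (coc m n hnm)),
          ⟨Multiplicative.ofAdd (0, Multiplicative.toAdd a.snd), 1⟩⁆ := by
        rw [Tw.commutator_formula]
        apply Tw.ext
        · rw [ha]
          symm
          change ⁅_, _⁆ = 1
          rw [commutatorElement_eq_one_iff_mul_comm, mul_comm]
        · change a.snd = coc m n hnm (Multiplicative.ofAdd (1, 0)) (Multiplicative.ofAdd (0, Multiplicative.toAdd a.snd))
            * (coc m n hnm (Multiplicative.ofAdd (0, Multiplicative.toAdd a.snd)) (Multiplicative.ofAdd (1, 0)))⁻¹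
          rw [coc_apply, coc_apply]
          simp only [map_one, one_mul, mul_zero, ofAdd_toAdd, ofAdd_zero, inv_one, mul_one]
      rw [this]
      exact Subgroup.commutator_mem_commutator (Subgroup.mem_top _) (Subgroup.mem_top _)
    · refine ⟨{ toFun := fun a => a.1.snd
                invFun := fun w => ⟨⟨1, w⟩, rfl⟩
                left_inv := ?_
                right_inv := fun w => rfl
                map_mul' := ?_ }⟩
      · rintro ⟨a, ha⟩
        rw [hker] at ha
        apply Subtype.ext
        apply Tw.ext
        · exact ha.symm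
        · rfl
      · rintro ⟨a, ha⟩ ⟨b, hb⟩
        rw [hker] at ha hb
        change (a * b).snd = a.snd * b.snd
        rw [Tw.mul_snd, ha, map_one]
        simp
  · intro Γ _ _ σ hσ
    apply stem_exists_surjective_zmod σ hσ (Multiplicative.ofAdd (1, 0)) (Multiplicative.ofAdd (0, 1))
    · rw [eq_top_iff]
      intro g _
      have hg : g = (Multiplicative.ofAdd ((0 : ZMod m), (1 : ZMod n))) ^ ((Multiplicative.toAdd g).2.val)
          * (Multiplicative.ofAdd ((1 : ZMod m), (0 : ZMod n))) ^ ((Multiplicative.toAdd g).1.val) := by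
        rw [← ofAdd_nsmul, ← ofAdd_nsmul, ← ofAdd_add]
        apply Multiplicative.toAdd.injective
        apply Prod.ext <;> simp
      rw [hg]
      exact Subgroup.mul_mem_sup (Subgroup.npow_mem_zpowers _ _) (Subgroup.npow_mem_zpowers _ _)
    · rw [← ofAdd_nsmul]
      apply Multiplicative.toAdd.injective
      apply Prod.ext <;> simp

end Cfsg.Agent.S3951
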