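import Cfsg.Statements.S3961
import Cfsg.Agent.Lib_helper2_SchurTheory2
import Cfsg.Agent.Lib_helper2_SchurDirect
import Cfsg.Agent.S3962

set_option autoImplicit false
universe u v
open Cfsg

namespace Cfsg.Agent.S3961

open Cfsg.Agent.H2

/-- Let `π : G →* Q` be a surjective homomorphism with central kernel from a finite perfect group `G` (a perfect cover of `Q`). Then `π` is universal, in the sense that every surjective homomorphism `ξ : X →* Q` with central kernel from a group `X` in the universe of `G` admits a homomorphism `η : G →* X` with `ξ ∘ η = π`, if and only if `G` has trivial Schur multiplier. -/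
theorem result {G : Type u} {Q : Type v} [Group G] [Group Q] [Finite G] (hG : Group.IsPerfect G) (π : G →* Q) (hπ : Function.Surjective π) (hker : π.ker ≤ Subgroup.center G) : (∀ (X : Type u) [Group X] (ξ : X →* Q), Function.Surjective ξ → ξ.ker ≤ Subgroup.center X → ∃ η : G →* X, ξ.comp η = π) ↔ Cfsg.HasCyclicSchurMultiplier G 1 := by
  constructor
  · intro huniv
    apply hasCyclicSchurMultiplier_one_of
    intro E _ _ τ hτ
    obtain ⟨hs, hc, hk⟩ := hτ
    have hE : Group.IsPerfect E := by
      constructor
      rw [eq_top_iff]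
      intro e _
      have h1 : τ e ∈ commutator G := by rw [hG.commutator_eq_top]; exact Subgroup.mem_top _
      rw [← map_commutator_eq_of_surjective τ hs] at h1
      obtain ⟨c, hc', hce⟩ := h1
      have h2 : c⁻¹ * e ∈ τ.ker := by
        rw [MonoidHom.mem_ker, map_mul, map_inv, hce]; simp
      have : e = c * (c⁻¹ * e) := by group
      rw [this]
      exact Subgroup.mul_mem _ hc' (hk h2)
    have hcen : (π.comp τ).ker ≤ Subgroup.center E := by
      intro y hy
      have h1 : τ y ∈ Subgroup.center G := hker hy
      rw [← Cfsg.Agent.S3962.result hE τ hs hc] at h1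
      obtain ⟨z, hz, hzy⟩ := h1
      have h2 : z⁻¹ * y ∈ τ.ker := by
        rw [MonoidHom.mem_ker, map_mul, map_inv, hzy]; simp
      have : y = z * (z⁻¹ * y) := by group
      rw [this]
      exact Subgroup.mul_mem _ hz (hc h2)
    obtain ⟨η, hη⟩ := huniv E (π.comp τ) (hπ.comp hs) hcen
    have h1 : τ.comp η = MonoidHom.id G := by
      apply hom_eq_of_perfect hG π hker
      rw [← MonoidHom.comp_assoc, hη, MonoidHom.comp_id]
    have h2 : η.comp τ = MonoidHom.id E := by
      apply hom_eq_of_perfect hE τ hc
      rw [← MonoidHom.comp_assoc, h1, MonoidHom.comp_id, MonoidHom.id_comp]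
    rw [Nat.card_eq_one_iff_unique]
    refine ⟨⟨?_⟩, ⟨1⟩⟩
    have hone : ∀ k : τ.ker, k = 1 := by
      intro k
      apply Subtype.ext
      have := congrArg (fun f : E →* E => f k.1) h2
      simp only [MonoidHom.comp_apply, MonoidHom.id_apply] at this
      rw [← this, MonoidHom.mem_ker.mp k.2, map_one]; rfl
    intro a b
    rw [hone a, hone b]
  · intro hM X _ ξ hξs hξc
    obtain ⟨θ, h1, _⟩ := exists_theta hM π ξ hξs hξc
    have hmem : ∀ g : G, g ∈ commutator G := fun g => by
      rw [hG.commutator_eq_top]; exact Subgroup.mem_top g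
    refine ⟨{ toFun := fun g => θ ⟨g, hmem g⟩
              map_one' := map_one θ
              map_mul' := fun a c => map_mul θ ⟨a, hmem a⟩ ⟨c, hmem c⟩ }, ?_⟩
    apply MonoidHom.ext
    intro g
    exact h1 ⟨g, hmem g⟩

end Cfsg.Agent.S3961
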