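import Cfsg.Statements.S3963
import Cfsg.Agent.Lib_helper2_SchurDihedral

set_option autoImplicit false
open Cfsg

namespace Cfsg.Agent.S3963

open Cfsg.Agent.H2

/-- the cyclic subgroup of index two as a homomorphism -/
def aHom (n : ℕ) : Multiplicative (ZMod (2 * n)) →* QuaternionGroup n where
  toFun i := QuaternionGroup.a (Multiplicative.toAdd i)
  map_one' := rfl
  map_mul' _ _ := rfl

theorem a_mem (n : ℕ) (i : ZMod (2 * n)) : QuaternionGroup.a i ∈ (aHom n).range := ⟨Multiplicative.ofAdd i, rfl⟩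

theorem two_n (n : ℕ) : (n : ZMod (2 * n)) + n = 0 := by
  have : ((2 * n : ℕ) : ZMod (2 * n)) = 0 := ZMod.natCast_self _
  push_cast at this
  rw [← this]; ring

theorem a_normal (n : ℕ) : (aHom n).range.Normal := by
  constructor
  rintro _ ⟨i, rfl⟩ (j | j)
  · refine ⟨i, ?_⟩
    change QuaternionGroup.a (Multiplicative.toAdd i) =
      QuaternionGroup.a j * QuaternionGroup.a (Multiplicative.toAdd i) * QuaternionGroup.a (-j)
    simp
  · refine ⟨i⁻¹, ?_⟩
    change QuaternionGroup.a (-Multiplicative.toAdd i) =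
      QuaternionGroup.xa j * QuaternionGroup.a (Multiplicative.toAdd i) * QuaternionGroup.xa ((n : ZMod (2 * n)) + j)
    simp only [QuaternionGroup.xa_mul_a, QuaternionGroup.xa_mul_xa]
    congr 1
    linear_combination (-1 : ZMod (2 * n)) * two_n n

theorem a_cyclic (n : ℕ) : IsCyclic (aHom n).range :=
  isCyclic_of_surjective (aHom n).rangeRestrict (aHom n).rangeRestrict_surjective

theorem a_gen (n : ℕ) : (aHom n).range ⊔ Subgroup.zpowers (QuaternionGroup.xa (0 : ZMod (2 * n))) = ⊤ := by
  rw [eq_top_iff]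
  rintro (i | i) _
  · exact Subgroup.mem_sup_left (a_mem n i)
  · have : QuaternionGroup.xa i = QuaternionGroup.xa 0 * QuaternionGroup.a i := by simp
    rw [this]
    exact Subgroup.mul_mem _ (Subgroup.mem_sup_right (Subgroup.mem_zpowers _)) (Subgroup.mem_sup_left (a_mem n i))

theorem a_cent (n : ℕ) (g : QuaternionGroup n)
    (hg : g ∈ (aHom n).range ⊓ Subgroup.centralizer {QuaternionGroup.xa (0 : ZMod (2 * n))}) :
    ∃ i : ZMod (2 * n), g = QuaternionGroup.a i ∧ i + i = 0 := by
  obtain ⟨⟨i, rfl⟩, h2⟩ := hg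
  refine ⟨Multiplicative.toAdd i, rfl, ?_⟩
  change _ ∈ Subgroup.centralizer _ at h2
  rw [Subgroup.mem_centralizer_iff] at h2
  have := h2 _ rfl
  change QuaternionGroup.xa 0 * QuaternionGroup.a (Multiplicative.toAdd i)
    = QuaternionGroup.a (Multiplicative.toAdd i) * QuaternionGroup.xa 0 at this
  simp only [QuaternionGroup.xa_mul_a, QuaternionGroup.a_mul_xa] at this
  have h3 := QuaternionGroup.xa.inj this
  linear_combination h3

theorem stem (n : ℕ) [NeZero n] (Γ : Type) [Group Γ] [Finite Γ] (σ : Γ →* QuaternionGroup n)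
    (hσ : Cfsg.IsStemExtension σ) : Nat.card σ.ker = 1 := by
  have hn0 : 0 < n := Nat.pos_of_ne_zero (NeZero.ne n)
  have : NeZero (2 * n) := ⟨by omega⟩
  obtain ⟨t, ht⟩ := hσ.1 (QuaternionGroup.xa 0)
  have := a_normal n
  have key := stem_card_key σ hσ (aHom n).range (a_cyclic n) t (by rw [ht]; exact a_gen n)
  rw [ht] at key
  have h1 : Nat.card ↥((aHom n).range ⊓ Subgroup.centralizer {QuaternionGroup.xa (0 : ZMod (2 * n))}) ≤ 2 := by
    by_cases hex : ∃ g : ↥((aHom n).range ⊓ Subgroup.centralizer {QuaternionGroup.xa (0 : ZMod (2 * n))}), g ≠ 1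
    · obtain ⟨g, hg⟩ := hex
      apply card_le_two_of 1 g
      rintro ⟨x, hx⟩
      obtain ⟨i, rfl, hi⟩ := a_cent n x hx
      rcases zmod_add_self_eq_zero (2 * n) i hi with h | ⟨_, h⟩
      · left; subst h; rfl
      · right
        obtain ⟨g, hg'⟩ := g
        obtain ⟨j, rfl, hj⟩ := a_cent n g hg'
        rcases zmod_add_self_eq_zero (2 * n) j hj with h' | ⟨_, h'⟩
        · exfalso; apply hg; subst h'; rfl
        · subst h; subst h'; rfl
    · push Not at hex
      apply card_le_two_of 1 1
      intro x; left; exact hex x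
  set M := ((aHom n).range.comap σ ⊓ Subgroup.centralizer {t}).map σ with hM
  have h2 : 2 ≤ Nat.card M := by
    have hmem : QuaternionGroup.a (n : ZMod (2 * n)) ∈ M := by
      refine ⟨t * t, ⟨?_, ?_⟩, ?_⟩
      · change σ (t * t) ∈ (aHom n).range
        rw [map_mul, ht]
        simp only [QuaternionGroup.xa_mul_xa]
        exact a_mem n _
      · change t * t ∈ Subgroup.centralizer {t}
        rw [Subgroup.mem_centralizer_iff]
        rintro _ rfl
        simp [mul_assoc]
      · rw [map_mul, ht]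
        simp
    have hne : QuaternionGroup.a (n : ZMod (2 * n)) ≠ 1 := by
      intro h
      rw [QuaternionGroup.one_def] at h
      have h3 : ((n : ℕ) : ZMod (2 * n)) = 0 := QuaternionGroup.a.inj h
      rw [ZMod.natCast_eq_zero_iff] at h3
      have := Nat.le_of_dvd hn0 h3
      omega
    have : Nontrivial M := ⟨⟨⟨_, hmem⟩, 1, fun h => hne (congrArg Subtype.val h)⟩⟩
    exact Finite.one_lt_card
  have h0 : 0 < Nat.card σ.ker := Nat.card_pos
  by_contra hcon
  have h3 : 2 ≤ Nat.card σ.ker := by omega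
  have : 4 ≤ Nat.card σ.ker * Nat.card M := by nlinarith
  omega

/-- For every `n ≥ 1` the dicyclic (generalized quaternion) group of order `4 n` has trivial Schur multiplier. -/
theorem result (n : ℕ) [NeZero n] : Cfsg.HasCyclicSchurMultiplier (QuaternionGroup n) 1 := by
  exact Cfsg.Agent.H2.hasCyclicSchurMultiplier_one_of (fun Γ _ _ σ hσ => stem n Γ σ hσ)

end Cfsg.Agent.S3963
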