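import Cfsg.Statements.S3965
import Cfsg.Agent.Lib_helper2_SchurDihedral
import Cfsg.Agent.S3966

set_option autoImplicit false
open Cfsg

namespace Cfsg.Agent.S3965

/-- For even `n ≥ 2` the dihedral group of order `2 n` has Schur multiplier cyclic of order `2`. -/
theorem result (n : ℕ) [NeZero n] (hn : Even n) : Cfsg.HasCyclicSchurMultiplier (DihedralGroup n) 2 := by
  have hp : Fact (Nat.Prime 2) := ⟨Nat.prime_two⟩
  constructor
  · obtain ⟨σ, hσ, hc⟩ := Cfsg.Agent.S3966.result n hn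
    have : IsCyclic σ.ker := isCyclic_of_prime_card hc
    exact ⟨QuaternionGroup n, inferInstance, inferInstance, σ, hσ,
      Cfsg.Agent.H2.nonempty_mulEquiv_zmod_of_card 2 hc⟩
  · intro Γ _ _ σ hσ
    have h2 := Cfsg.Agent.H2.dihedral_stem_even n Γ σ hσ
    have h1 : 0 < Nat.card σ.ker := Nat.card_pos
    have h3 : Nat.card σ.ker = 1 ∨ Nat.card σ.ker = 2 := by omega
    rcases h3 with h | h
    · have hs : Subsingleton σ.ker := (Nat.card_eq_one_iff_unique.mp h).1
      exact ⟨1, fun x => ⟨1, Subsingleton.elim _ _⟩⟩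
    · have : IsCyclic σ.ker := isCyclic_of_prime_card h
      obtain ⟨e⟩ := Cfsg.Agent.H2.nonempty_mulEquiv_zmod_of_card 2 h
      exact ⟨e.symm.toMonoidHom, e.symm.surjective⟩

end Cfsg.Agent.S3965
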