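import Cfsg.Statements.S3983
import Mathlib
import Cfsg.Agent.Lib_helper1_Basic

set_option autoImplicit false
open scoped Pointwise
open Cfsg

namespace Cfsg.Agent.S3983

open scoped Pointwise


/-- Let P be a Sylow p-subgroup of the finite group G that meets each conjugate g P g⁻¹ with g outside N_G(P) trivially, and let U be a subgroup of G of order divisible by p. Then a Sylow p-subgroup Q of U has the same property inside U: Q meets each conjugate u Q u⁻¹ with u ∈ U outside N_U(Q) trivially. -/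
theorem result {G : Type*} [Group G] [Finite G] (p : ℕ) [Fact p.Prime] (P : Sylow p G) (hTI : ∀ g : G, g ∉ Subgroup.normalizer ((P : Subgroup G) : Set G) → (P : Subgroup G) ⊓ (MulAut.conj g • (P : Subgroup G)) = ⊥) (U : Subgroup G) (hU : p ∣ Nat.card ↥U) (Q : Sylow p ↥U) : ∀ u : ↥U, u ∉ Subgroup.normalizer ((Q : Subgroup ↥U) : Set ↥U) → (Q : Subgroup ↥U) ⊓ (MulAut.conj u • (Q : Subgroup ↥U)) = ⊥ := by
  classical
  have hTI2 : ∀ P1 P2 : Sylow p G, P1 ≠ P2 → ∀ x : G, x ∈ (P1 : Subgroup G) → x ∈ (P2 : Subgroup G) → x = 1 := by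
    intro P1 P2 hne x hx1 hx2
    obtain ⟨a, rfl⟩ := MulAction.exists_smul_eq G P P1
    obtain ⟨b, rfl⟩ := MulAction.exists_smul_eq G P P2
    rw [Sylow.coe_subgroup_smul, Cfsg.Agent.H1.mem_conj_smul] at hx1 hx2
    by_cases hg : a⁻¹ * b ∈ Subgroup.normalizer ((P : Subgroup G) : Set G)
    · exfalso
      apply hne
      have h1 : (a⁻¹ * b) • P = P := Sylow.smul_eq_iff_mem_normalizer.2 hg
      calc a • P = a • ((a⁻¹ * b) • P) := by rw [h1]
        _ = b • P := by rw [← mul_smul, mul_inv_cancel_left]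
    · have h1 := hTI _ hg
      have h2 : a⁻¹ * x * a ∈ (P : Subgroup G) ⊓ (MulAut.conj (a⁻¹ * b) • (P : Subgroup G)) := by
        refine Subgroup.mem_inf.2 ⟨hx1, ?_⟩
        rw [Cfsg.Agent.H1.mem_conj_smul]
        have : (a⁻¹ * b)⁻¹ * (a⁻¹ * x * a) * (a⁻¹ * b) = b⁻¹ * x * b := by group
        rw [this]; exact hx2
      rw [h1, Subgroup.mem_bot] at h2
      have : x = a * (a⁻¹ * x * a) * a⁻¹ := by group
      rw [this, h2]; group
  intro u hu
  obtain ⟨P1, hP1⟩ := (Q.2.map U.subtype).exists_le_sylow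
  have hQeq : (P1 : Subgroup G).subgroupOf U = (Q : Subgroup U) := by
    apply Q.is_maximal'
    · exact P1.2.comap_of_injective U.subtype U.subtype_injective
    · intro y hy
      exact hP1 (Subgroup.mem_map_of_mem U.subtype hy)
  have hmem : ∀ y : U, y ∈ (Q : Subgroup U) ↔ (y : G) ∈ (P1 : Subgroup G) := by
    intro y; rw [← hQeq]; exact Subgroup.mem_subgroupOf
  rw [eq_bot_iff]
  rintro x ⟨hx1, hx2⟩
  rw [Subgroup.mem_bot]
  have hx1' : x ∈ (Q : Subgroup U) := hx1
  have hx2' : x ∈ MulAut.conj u • (Q : Subgroup U) := hx2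
  rw [Cfsg.Agent.H1.mem_conj_smul, hmem] at hx2'
  rw [hmem] at hx1'
  by_cases hPP : P1 = (u : G) • P1
  · exfalso
    apply hu
    have hn : (u : G) ∈ Subgroup.normalizer ((P1 : Subgroup G) : Set G) :=
      Sylow.smul_eq_iff_mem_normalizer.1 hPP.symm
    rw [Subgroup.mem_normalizer_iff]
    intro y
    rw [hmem, hmem]
    exact (Subgroup.mem_normalizer_iff.1 hn) y
  · apply Subtype.ext
    apply hTI2 P1 _ hPP (x : G) hx1'
    rw [Sylow.coe_subgroup_smul, Cfsg.Agent.H1.mem_conj_smul]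
    exact hx2'

end Cfsg.Agent.S3983
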