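import Cfsg.Statements.S3984
import Cfsg.Agent.Lib_helper1_SZ
import Cfsg.Agent.Lib_helper1_PQ

set_option autoImplicit false
open scoped Pointwise
open Cfsg

namespace Cfsg.Agent.S3984

open scoped Pointwise in
theorem ti_all {G : Type*} [Group G] [Finite G] (p : ℕ) [Fact p.Prime] (P : Sylow p G)
    (hTI : ∀ g : G, g ∉ Subgroup.normalizer ((P : Subgroup G) : Set G) →
      (P : Subgroup G) ⊓ (MulAut.conj g • (P : Subgroup G)) = ⊥)
    (P₁ P₂ : Sylow p G) (hne : P₁ ≠ P₂) : (P₁ : Subgroup G) ⊓ P₂ = ⊥ := by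
  obtain ⟨a, rfl⟩ := MulAction.exists_smul_eq G P P₁
  obtain ⟨b, rfl⟩ := MulAction.exists_smul_eq G P P₂
  have hg : a⁻¹ * b ∉ Subgroup.normalizer ((P : Subgroup G) : Set G) := by
    intro h
    apply hne
    have h1 := Sylow.smul_eq_iff_mem_normalizer.2 h
    rw [mul_smul] at h1
    have h2 := congrArg (a • ·) h1
    simp only [smul_inv_smul] at h2
    exact h2.symm
  have h1 := hTI _ hg
  rw [eq_bot_iff]
  rintro y ⟨hy1, hy2⟩
  have hy1 : y ∈ ((a • P : Sylow p G) : Subgroup G) := hy1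
  have hy2 : y ∈ ((b • P : Sylow p G) : Subgroup G) := hy2
  rw [Sylow.coe_subgroup_smul] at hy1 hy2
  obtain ⟨u, hu, hu'⟩ := hy1
  obtain ⟨v, hv, hv'⟩ := hy2
  have hu2 : a * u * a⁻¹ = y := hu'
  have hv2 : b * v * b⁻¹ = y := hv'
  have h2 : u ∈ (P : Subgroup G) ⊓ (MulAut.conj (a⁻¹ * b) • (P : Subgroup G)) := by
    refine Subgroup.mem_inf.2 ⟨hu, ⟨v, hv, ?_⟩⟩
    change (a⁻¹ * b) * v * (a⁻¹ * b)⁻¹ = u
    have : u = a⁻¹ * y * a := by rw [← hu2]; group
    rw [this, ← hv2]; group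
  rw [h1, Subgroup.mem_bot] at h2
  rw [Subgroup.mem_bot, ← hu2, h2]; group

theorem orderOf_mk_eq {G : Type*} [Group G] [Finite G] (p : ℕ) [Fact p.Prime]
    (N : Subgroup G) [N.Normal] (hN : (Nat.card ↥N).Coprime p) (P : Subgroup G)
    (hP : IsPGroup p P) (y : G) (hy : y ∈ P) : orderOf (QuotientGroup.mk' N y) = orderOf y := by
  apply Nat.dvd_antisymm (orderOf_map_dvd _ _)
  rw [orderOf_dvd_iff_pow_eq_one]
  set m := orderOf (QuotientGroup.mk' N y) with hm
  have h1 : y ^ m ∈ N := by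
    rw [← QuotientGroup.eq_one_iff]
    have : (QuotientGroup.mk' N y) ^ m = 1 := pow_orderOf_eq_one _
    rw [← map_pow] at this
    exact this
  have h2 : y ^ m ∈ N ⊓ P := Subgroup.mem_inf.2 ⟨h1, pow_mem hy m⟩
  have h3 : N ⊓ P = ⊥ := by
    apply Subgroup.inf_eq_bot_of_coprime
    obtain ⟨n, hn⟩ := hP.exists_card_eq
    rw [hn]
    exact hN.pow_right n
  rw [h3, Subgroup.mem_bot] at h2
  exact h2

/-- Let P be a Sylow p-subgroup of the finite group G that meets each conjugate g P g⁻¹ with g outside N_G(P) trivially, and let N be a normal subgroup of G of order prime to p. Then every Sylow p-subgroup Q of G ⧸ N meets each conjugate x Q x⁻¹ with x outside its normalizer trivially. -/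
theorem result {G : Type*} [Group G] [Finite G] (p : ℕ) [Fact p.Prime] (P : Sylow p G) (hTI : ∀ g : G, g ∉ Subgroup.normalizer ((P : Subgroup G) : Set G) → (P : Subgroup G) ⊓ (MulAut.conj g • (P : Subgroup G)) = ⊥) (N : Subgroup G) [N.Normal] (hN : (Nat.card ↥N).Coprime p) (Q : Sylow p (G ⧸ N)) : ∀ x : G ⧸ N, x ∉ Subgroup.normalizer ((Q : Subgroup (G ⧸ N)) : Set (G ⧸ N)) → (Q : Subgroup (G ⧸ N)) ⊓ (MulAut.conj x • (Q : Subgroup (G ⧸ N))) = ⊥ := by
  intro x hx
  obtain ⟨P₁, hP₁⟩ := Sylow.mapSurjective_surjective (QuotientGroup.mk'_surjective N) p Q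
  have hQ : (Q : Subgroup (G ⧸ N)) = (P₁ : Subgroup G).map (QuotientGroup.mk' N) := by
    rw [← hP₁]; rfl
  obtain ⟨b, rfl⟩ := QuotientGroup.mk'_surjective N x
  rw [eq_bot_iff]
  rintro y ⟨hy1, hy2⟩
  rw [Subgroup.mem_bot]
  by_contra hy
  apply hx
  rw [SetLike.mem_coe, hQ] at hy1
  obtain ⟨y₁, hy₁, rfl⟩ := hy1
  rw [SetLike.mem_coe, hQ, ← Cfsg.Agent.H1.map_conj_smul] at hy2
  obtain ⟨y₂, hy₂, hy12⟩ := hy2
  have hP₂ : IsPGroup p (MulAut.conj b • (P₁ : Subgroup G) : Subgroup G) :=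
    P₁.2.of_equiv (Subgroup.equivSMul (MulAut.conj b) (P₁ : Subgroup G))
  have ho : orderOf y₂ = orderOf y₁ := by
    rw [← orderOf_mk_eq p N hN _ hP₂ y₂ hy₂, ← orderOf_mk_eq p N hN _ P₁.2 y₁ hy₁, hy12]
  have hpA : IsPGroup p (Subgroup.zpowers y₁) :=
    P₁.2.to_le ((Subgroup.zpowers_le).2 hy₁)
  obtain ⟨n, hn⟩ := hpA.exists_card_eq
  obtain ⟨d, hd, hdA⟩ := Cfsg.Agent.H1.sz_conj_internal N (Subgroup.zpowers y₁)
    (Subgroup.zpowers y₂)
    (by rw [Subgroup.normalizer_eq_top_iff.2 inferInstance]; exact le_top)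
    (by
      rw [Subgroup.zpowers_le]
      have h1 : y₂ * y₁⁻¹ ∈ N := by
        rw [← QuotientGroup.eq_one_iff]
        have : QuotientGroup.mk' N (y₂ * y₁⁻¹) = 1 := by
          rw [map_mul, map_inv, hy12, mul_inv_cancel]
        exact this
      have h2 : y₂ = (y₂ * y₁⁻¹) * y₁ := by group
      rw [h2]
      exact mul_mem (Subgroup.mem_sup_left h1) (Subgroup.mem_sup_right (Subgroup.mem_zpowers y₁)))
    (by rw [Nat.card_zpowers, Nat.card_zpowers, ho])
    (by rw [hn]; exact hN.pow_right n)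
    (Or.inr (Cfsg.Agent.H1.isSolvable_of_isPGroup hpA))
  have hy1ne : y₁ ≠ 1 := by
    rintro rfl
    exact hy (map_one _)
  have heq : d • P₁ = b • P₁ := by
    by_contra hne
    have h1 := ti_all p P hTI _ _ hne
    have h2 : d * y₁ * d⁻¹ ∈ ((d • P₁ : Sylow p G) : Subgroup G) ⊓ ((b • P₁ : Sylow p G) : Subgroup G) := by
      refine Subgroup.mem_inf.2 ⟨?_, ?_⟩
      · rw [Sylow.coe_subgroup_smul]
        exact ⟨y₁, hy₁, rfl⟩
      · rw [Sylow.coe_subgroup_smul]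
        have h3 : d * y₁ * d⁻¹ ∈ Subgroup.zpowers y₂ := by
          rw [← hdA]
          exact ⟨y₁, Subgroup.mem_zpowers y₁, rfl⟩
        exact (Subgroup.zpowers_le.2 hy₂) h3
    rw [h1, Subgroup.mem_bot] at h2
    apply hy1ne
    have : d * y₁ = d := by
      have := congrArg (· * d) h2
      simpa using this
    simpa using this
  have h5 : (MulAut.conj d • (P₁ : Subgroup G) : Subgroup G) = MulAut.conj b • (P₁ : Subgroup G) := by
    have := congrArg (fun S : Sylow p G => (S : Subgroup G)) heq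
    simpa [Sylow.coe_subgroup_smul] using this
  have h6 := congrArg (Subgroup.map (QuotientGroup.mk' N)) h5
  rw [Cfsg.Agent.H1.map_conj_smul, Cfsg.Agent.H1.map_conj_smul, ← hQ] at h6
  have hd1 : QuotientGroup.mk' N d = 1 := (QuotientGroup.eq_one_iff d).2 hd
  rw [hd1, map_one, one_smul] at h6
  exact Cfsg.Agent.H1.conj_smul_eq_iff_mem_normalizer.1 h6.symm

end Cfsg.Agent.S3984
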