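import Mathlib
import Cfsg.Statements.S3985
import Cfsg.Agent.Lib_helper1_CycAct

set_option autoImplicit false
open scoped Pointwise
open Cfsg

namespace Cfsg.Agent.S3985

open Cfsg.Agent.H1
open scoped Pointwise

/-- Let P be a cyclic Sylow p-subgroup of the finite group G. Then P meets each conjugate g P g⁻¹ with g outside N_G(P) trivially if and only if P is weakly self-centralizing: C_G(x) = C_G(P) for every non-identity x ∈ P. -/
theorem result {G : Type*} [Group G] [Finite G] (p : ℕ) [Fact p.Prime] (P : Sylow p G) (hcyc : IsCyclic ↥(P : Subgroup G)) : (∀ g : G, g ∉ Subgroup.normalizer ((P : Subgroup G) : Set G) → (P : Subgroup G) ⊓ (MulAut.conj g • (P : Subgroup G)) = ⊥) ↔ ∀ x : G, x ∈ (P : Subgroup G) → x ≠ 1 → Subgroup.centralizer ({x} : Set G) = Subgroup.centralizer ((P : Subgroup G) : Set G) := by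
  obtain ⟨g₀, -, m₀, -, hPg⟩ := exists_generator_of_cyclic_sylow P hcyc P P.isPGroup'
  have hab : IsMulCommutative (P : Subgroup G) := by rw [hPg]; infer_instance
  constructor
  · intro hTI x hx hx1
    apply le_antisymm
    · intro c hc
      have hcx : c * x = x * c := Subgroup.mem_centralizer_singleton_iff.mp hc
      have hcN : c ∈ Subgroup.normalizer ((P : Subgroup G) : Set G) := by
        by_contra hcon
        have h1 := hTI c hcon
        have h2 : x ∈ (P : Subgroup G) ⊓ (MulAut.conj c • (P : Subgroup G)) := by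
          refine Subgroup.mem_inf.mpr ⟨hx, ?_⟩
          rw [mem_conj_smul]
          have : c⁻¹ * x * c = x := by rw [mul_assoc, ← hcx]; group
          rw [this]; exact hx
        rw [h1, Subgroup.mem_bot] at h2
        exact hx1 h2
      obtain ⟨a, ha, b, hb, hcab, ⟨k, hak⟩, hbo⟩ := exists_p_decomposition p c
      have hzN : Subgroup.zpowers c ≤ Subgroup.normalizer ((P : Subgroup G) : Set G) :=
        Subgroup.zpowers_le.mpr hcN
      have hzC : Subgroup.zpowers c ≤ Subgroup.centralizer ({x} : Set G) :=
        Subgroup.zpowers_le.mpr hc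
      have haP : a ∈ (P : Subgroup G) := mem_sylow_of_mem_normalizer P (hzN ha) hak
      have haC : a ∈ Subgroup.centralizer ((P : Subgroup G) : Set G) := by
        rw [Subgroup.mem_centralizer_iff]
        intro z hz
        exact setLike_mul_comm hz haP
      have hbx : Commute b x := Subgroup.mem_centralizer_singleton_iff.mp (hzC hb)
      have hbC := mem_centralizer_of_cyclic_of_fix P hcyc P P.isPGroup' (hzN hb) hbo hx hx1 hbx
      rw [hcab]
      exact mul_mem haC hbC
    · exact Subgroup.centralizer_le (Set.singleton_subset_iff.mpr hx)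
  · intro h g hg
    by_contra hcon
    obtain ⟨x, hx, hx1⟩ := (Subgroup.ne_bot_iff_exists_ne_one).mp hcon |> fun ⟨v, hv⟩ =>
      (⟨v.1, v.2, fun h => hv (Subtype.ext h)⟩ :
        ∃ v ∈ (P : Subgroup G) ⊓ (MulAut.conj g • (P : Subgroup G)), v ≠ 1)
    obtain ⟨hxP, hxg⟩ := Subgroup.mem_inf.mp hx
    have hle : MulAut.conj g • (P : Subgroup G) ≤ (P : Subgroup G) := by
      intro z hz
      have hzC : z ∈ Subgroup.centralizer ({x} : Set G) := by
        rw [Subgroup.mem_centralizer_singleton_iff]
        rw [mem_conj_smul] at hz hxg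
        have := setLike_mul_comm hz hxg
        calc z * x = g * ((g⁻¹ * z * g) * (g⁻¹ * x * g)) * g⁻¹ := by group
          _ = g * ((g⁻¹ * x * g) * (g⁻¹ * z * g)) * g⁻¹ := by rw [this]
          _ = x * z := by group
      rw [h x hxP hx1] at hzC
      have hzN : z ∈ Subgroup.normalizer ((P : Subgroup G) : Set G) :=
        Subgroup.centralizer_le_normalizer _ hzC
      rw [mem_conj_smul] at hz
      obtain ⟨k, hk⟩ := P.isPGroup' ⟨_, hz⟩
      apply mem_sylow_of_mem_normalizer P hzN (k := k)
      have h3 : (g⁻¹ * z * g) ^ p ^ k = 1 := by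
        have := congrArg Subtype.val hk
        simpa using this
      have h4 : z = g * (g⁻¹ * z * g) * g⁻¹ := by group
      rw [h4, conj_pow, h3]; group
    apply hg
    rw [← conj_smul_eq_iff_mem_normalizer]
    exact Subgroup.eq_of_le_of_card_ge hle (by rw [card_conj_smul])

end Cfsg.Agent.S3985
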