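import Cfsg.Statements.S4013
import Mathlib
import Cfsg.Agent.Lib_helper1_Basic

set_option autoImplicit false
open Cfsg

namespace Cfsg.Agent.S4013

/-- Let G be a finite p-group (p prime) and N < M normal subgroups of G such that for some g ∈ M ∖ N the conjugacy class of g is exactly M ∖ N. Then p = 2 and N has index 2 in M. -/
theorem result {G : Type*} [Group G] [Finite G] (p : ℕ) [Fact p.Prime] (hG : IsPGroup p G) (N M : Subgroup G) [N.Normal] [M.Normal] (hNM : N < M) (g : G) (hgM : g ∈ M) (hgN : g ∉ N) (hcl : {h : G | IsConj g h} = (M : Set G) \ (N : Set G)) : p = 2 ∧ N.relIndex M = 2 := by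
  classical
  have hp : p.Prime := Fact.out
  obtain ⟨n, hn⟩ := IsPGroup.iff_card.1 hG
  have h1 : {h : G | IsConj g h} = MulAction.orbit (ConjAct G) g := by
    ext h; rw [ConjAct.mem_orbit_conjAct]; exact isConj_comm
  have h2 : ({h : G | IsConj g h}).ncard ∣ p ^ n := by
    rw [h1, ← MulAction.index_stabilizer, ← hn]
    exact Subgroup.index_dvd_card _
  obtain ⟨b, _, hb⟩ := (Nat.dvd_prime_pow hp).1 h2
  have h3 : ((M : Set G) \ (N : Set G)).ncard = Nat.card M - Nat.card N := by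
    rw [Set.ncard_diff (SetLike.coe_subset_coe.2 hNM.le) (Set.toFinite _)]
    rfl
  have h4 : Nat.card N * N.relIndex M = Nat.card M := by
    have := (N.subgroupOf M).card_mul_index
    rwa [Cfsg.Agent.H1.card_subgroupOf_of_le hNM.le] at this
  obtain ⟨a, ha⟩ := IsPGroup.iff_card.1 (hG.to_subgroup N)
  have h5 : N.relIndex M ∣ p ^ n := by
    rw [← hn]
    exact (Dvd.intro_left _ h4).trans (Subgroup.card_subgroup_dvd_card M)
  obtain ⟨k, _, hk⟩ := (Nat.dvd_prime_pow hp).1 h5
  have hk0 : k ≠ 0 := by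
    rintro rfl
    rw [pow_zero, Subgroup.relIndex_eq_one] at hk
    exact absurd hk (not_le_of_gt hNM)
  rw [hcl, h3, ← h4, ha, hk] at hb
  have h6 : p ^ a * (p ^ k - 1) = p ^ b := by
    rw [Nat.mul_sub, mul_one]; exact hb
  have h7 : p ^ k - 1 ∣ p ^ b := Dvd.intro_left _ h6
  obtain ⟨c, _, hc⟩ := (Nat.dvd_prime_pow hp).1 h7
  have hpk : 1 ≤ p ^ k := Nat.one_le_pow _ _ hp.pos
  have hc0 : c = 0 := by
    by_contra hc0
    have d1 : p ∣ p ^ k - 1 := by rw [hc]; exact dvd_pow_self p hc0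
    have d2 : p ∣ p ^ k := dvd_pow_self p hk0
    have d3 : p ∣ 1 := by
      have := (Nat.dvd_sub d2 d1)
      rwa [Nat.sub_sub_self hpk] at this
    exact hp.one_lt.ne' (Nat.dvd_one.1 d3)
  rw [hc0, pow_zero] at hc
  have h8 : p ^ k = 2 := by omega
  have h9 : p = 2 := by
    have : p ∣ 2 := by rw [← h8]; exact dvd_pow_self p hk0
    exact (Nat.prime_dvd_prime_iff_eq hp Nat.prime_two).1 this
  exact ⟨h9, by rw [hk, h8]⟩

end Cfsg.Agent.S4013
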