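import Cfsg.Statements.S4027
import Cfsg.Agent.Lib_helper2_Real

set_option autoImplicit false
open Cfsg

namespace Cfsg.Agent.S4027

open Cfsg.Agent.H2

/-- Let G be a finite group in which every element x of odd order satisfies N_G(⟨x⟩) = C_G(x). Then the Sylow 2-subgroups of G are normal. -/
theorem result {G : Type*} [Group G] [Finite G]
    (hirr : ∀ x : G, (∀ r : ℕ, r.Prime → r ∣ orderOf x → r ≠ 2) →
      Subgroup.normalizer ((Subgroup.zpowers x : Subgroup G) : Set G) ≤ Subgroup.centralizer {x}) (P : Sylow 2 G) :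
    (P : Subgroup G).Normal := by
  apply sylow2_normal_of_noRealOdd
  intro x hx hodd hconj
  obtain ⟨c, hc⟩ := isConj_iff.mp hconj
  have h1 : c ∈ Subgroup.normalizer ((Subgroup.zpowers x : Subgroup G) : Set G) := by
    rw [Subgroup.mem_normalizer_iff_map_conj_eq, MonoidHom.map_zpowers]
    have : (MulAut.conj c : G →* G) x = x⁻¹ := by simpa [MulAut.conj_apply] using hc
    rw [this, Subgroup.zpowers_inv]
  have h2 := hirr x (by
    rintro r - hr rfl
    exact (Nat.not_even_iff_odd.mpr hodd) (even_iff_two_dvd.mpr hr)) h1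
  rw [Subgroup.mem_centralizer_singleton_iff] at h2
  have h3 : x = x⁻¹ := by
    rw [← hc, h2, mul_inv_cancel_right]
  apply hx
  apply eq_one_of_sq_eq_one_of_odd _ hodd
  rw [pow_two]
  nth_rewrite 1 [h3]
  simp

end Cfsg.Agent.S4027
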