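import Cfsg.Statements.S4028
import Mathlib
import Cfsg.Agent.Lib_helper7_DihSyl

set_option autoImplicit false
open Cfsg

namespace Cfsg.Agent.S4028

theorem mem_norm_zpowers {X : Type*} [Group X] [Finite X] {g x : X}
    (h : g * x * g⁻¹ ∈ Subgroup.zpowers x) :
    g ∈ Subgroup.normalizer ((Subgroup.zpowers x : Subgroup X) : Set X) := by
  rw [Subgroup.mem_normalizer_iff_map_conj_eq]
  apply Subgroup.eq_of_le_of_card_ge
  · rw [MonoidHom.map_zpowers, Subgroup.zpowers_le]; exact h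
  · rw [Subgroup.card_map_of_injective (MulEquiv.injective _)]

theorem conj_mem_of_norm {X : Type*} [Group X] {g x : X}
    (h : g ∈ Subgroup.normalizer ((Subgroup.zpowers x : Subgroup X) : Set X)) :
    g * x * g⁻¹ ∈ Subgroup.zpowers x :=
  (Subgroup.mem_normalizer_iff.1 h x).1 (Subgroup.mem_zpowers x)

theorem isPGroup_zpowers {X : Type*} [Group X] {u : X} {a : ℕ} (h : u ^ (2 ^ a) = 1) :
    IsPGroup 2 (Subgroup.zpowers u) := by
  rintro ⟨w, hw⟩
  obtain ⟨j, rfl⟩ := Subgroup.mem_zpowers_iff.1 hw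
  refine ⟨a, Subtype.ext ?_⟩
  show (u ^ j) ^ (2 ^ a) = 1
  rw [← zpow_natCast, ← zpow_mul, mul_comm, zpow_mul, zpow_natCast, h, one_zpow]

/-- Let G be a finite group with Sylow 2-subgroup P. Then N_G(⟨x⟩) = C_G(x) holds for every 2-element x of G if and only if N_P(⟨y⟩) = C_P(y) holds for every y ∈ P (computed inside P). -/
theorem result {G : Type*} [Group G] [Finite G] (P : Sylow 2 G) :
    (∀ x : G, (∀ r : ℕ, r.Prime → r ∣ orderOf x → r = 2) →
      Subgroup.normalizer ((Subgroup.zpowers x : Subgroup G) : Set G) ≤ Subgroup.centralizer {x}) ↔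
    (∀ y : ↥(P : Subgroup G), Subgroup.normalizer ((Subgroup.zpowers y : Subgroup ↥(P : Subgroup G)) : Set ↥(P : Subgroup G)) ≤
        Subgroup.centralizer {y}) := by
  haveI : Fact (Nat.Prime 2) := ⟨Nat.prime_two⟩
  constructor
  · intro h y t ht
    have hy2 : ∀ r : ℕ, r.Prime → r ∣ orderOf (y : G) → r = 2 := by
      intro r hr hd
      obtain ⟨k, hk⟩ := (IsPGroup.iff_orderOf.1 P.isPGroup') y
      rw [Subgroup.orderOf_coe, hk] at hd
      exact (Nat.prime_dvd_prime_iff_eq hr Nat.prime_two).1 (hr.dvd_of_dvd_pow hd)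
    have h1 := conj_mem_of_norm ht
    obtain ⟨j, hj⟩ := Subgroup.mem_zpowers_iff.1 h1
    have h2 : (t : G) * (y : G) * (t : G)⁻¹ ∈ Subgroup.zpowers (y : G) := by
      refine Subgroup.mem_zpowers_iff.2 ⟨j, ?_⟩
      have := congrArg Subtype.val hj
      simpa using this
    have h3 := h (y : G) hy2 (mem_norm_zpowers h2)
    rw [Subgroup.mem_centralizer_singleton_iff] at h3 ⊢
    exact Subtype.ext h3
  · intro h x hx g hg
    -- x is a 2-element
    have hxo : orderOf x = 2 ^ (orderOf x).primeFactorsList.length :=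
      Nat.eq_prime_pow_of_unique_prime_dvd (orderOf_pos x).ne' (fun {d} hd hdv => hx d hd hdv)
    have hx2 : x ^ (2 ^ (orderOf x).primeFactorsList.length) = 1 := by
      rw [← hxo]; exact pow_orderOf_eq_one x
    have hxP : IsPGroup 2 (Subgroup.zpowers x) := isPGroup_zpowers hx2
    -- step 1
    obtain ⟨k, hk⟩ := H7.mulAut_pow_of_cyclic hxP inferInstance
      ((Subgroup.zpowers x).normalizerMonoidHom ⟨g, hg⟩)
    have hgk : g ^ (2 ^ k) ∈ Subgroup.centralizer ({x} : Set G) := by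
      rw [← map_pow] at hk
      have h1 : (⟨g, hg⟩ : Subgroup.normalizer ((Subgroup.zpowers x : Subgroup G) : Set G)) ^ (2 ^ k) ∈
          (Subgroup.zpowers x).normalizerMonoidHom.ker := hk
      rw [Subgroup.normalizerMonoidHom_ker, Subgroup.mem_subgroupOf] at h1
      rw [Subgroup.mem_centralizer_singleton_iff]
      exact ((Subgroup.mem_centralizer_iff.1 h1) x (Subgroup.mem_zpowers x)).symm
    -- step 2
    obtain ⟨a, m, hm, hn⟩ := Nat.exists_eq_two_pow_mul_odd (orderOf_pos g).ne'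
    have hu2 : (g ^ m) ^ (2 ^ a) = 1 := by
      rw [← pow_mul, mul_comm, ← hn]; exact pow_orderOf_eq_one g
    have huN : g ^ m ∈ Subgroup.normalizer ((Subgroup.zpowers x : Subgroup G) : Set G) :=
      Subgroup.pow_mem _ hg m
    have hT : IsPGroup 2 (Subgroup.zpowers (g ^ m) ⊔ Subgroup.zpowers x : Subgroup G) :=
      IsPGroup.to_sup_of_normal_right' (isPGroup_zpowers hu2) hxP (Subgroup.zpowers_le.2 huN)
    obtain ⟨Q, hQ⟩ := hT.exists_le_sylow
    obtain ⟨c, hc⟩ := MulAction.exists_smul_eq G P Q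
    have hmemP : ∀ w ∈ (Q : Subgroup G), c⁻¹ * w * c ∈ (P : Subgroup G) := by
      intro w hw
      rw [← hc, Sylow.coe_subgroup_smul, Subgroup.mem_pointwise_smul_iff_inv_smul_mem] at hw
      simpa [MulAut.smul_def] using hw
    have hxQ : x ∈ (Q : Subgroup G) := hQ (Subgroup.mem_sup_right (Subgroup.mem_zpowers x))
    have huQ : g ^ m ∈ (Q : Subgroup G) := hQ (Subgroup.mem_sup_left (Subgroup.mem_zpowers _))
    obtain ⟨j, hj⟩ := Subgroup.mem_zpowers_iff.1 (conj_mem_of_norm huN)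
    have ht : (⟨c⁻¹ * g ^ m * c, hmemP _ huQ⟩ : (P : Subgroup G)) ∈ Subgroup.normalizer
        ((Subgroup.zpowers (⟨c⁻¹ * x * c, hmemP _ hxQ⟩ : (P : Subgroup G)) :
          Subgroup (P : Subgroup G)) : Set (P : Subgroup G)) := by
      apply mem_norm_zpowers
      refine Subgroup.mem_zpowers_iff.2 ⟨j, Subtype.ext ?_⟩
      show (c⁻¹ * x * c) ^ j = (c⁻¹ * g ^ m * c) * (c⁻¹ * x * c) * (c⁻¹ * g ^ m * c)⁻¹
      have e1 : (c⁻¹ * x * c) ^ j = c⁻¹ * x ^ j * c := by
        have := conj_zpow (a := c⁻¹) (b := x) (i := j)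
        simpa using this
      rw [e1, hj]; group
    have h5 := h _ ht
    rw [Subgroup.mem_centralizer_singleton_iff] at h5
    have h6 : (c⁻¹ * g ^ m * c) * (c⁻¹ * x * c) = (c⁻¹ * x * c) * (c⁻¹ * g ^ m * c) :=
      congrArg Subtype.val h5
    have hum : g ^ m ∈ Subgroup.centralizer ({x} : Set G) := by
      rw [Subgroup.mem_centralizer_singleton_iff]
      have h7 : c * ((c⁻¹ * g ^ m * c) * (c⁻¹ * x * c)) * c⁻¹ =
          c * ((c⁻¹ * x * c) * (c⁻¹ * g ^ m * c)) * c⁻¹ := by rw [h6]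
      have e2 : c * ((c⁻¹ * g ^ m * c) * (c⁻¹ * x * c)) * c⁻¹ = g ^ m * x := by group
      have e3 : c * ((c⁻¹ * x * c) * (c⁻¹ * g ^ m * c)) * c⁻¹ = x * g ^ m := by group
      rw [e2, e3] at h7
      exact h7
    -- step 3
    have hcop : Nat.Coprime (2 ^ k) m := Nat.Coprime.pow_left k (Nat.coprime_two_left.2 hm)
    have hbez := Nat.gcd_eq_gcd_ab (2 ^ k) m
    rw [hcop.gcd_eq_one] at hbez
    have hg1 : g = (g ^ (2 ^ k)) ^ (Nat.gcdA (2 ^ k) m) * (g ^ m) ^ (Nat.gcdB (2 ^ k) m) := by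
      rw [← zpow_natCast g (2 ^ k), ← zpow_natCast g m, ← zpow_mul, ← zpow_mul, ← zpow_add, ← hbez]
      simp
    rw [hg1]
    exact Subgroup.mul_mem _ (Subgroup.zpow_mem _ hgk _) (Subgroup.zpow_mem _ hum _)

end Cfsg.Agent.S4028
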