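import Cfsg.Statements.S4029
import Cfsg.Agent.Lib_helper4_CharL
import Cfsg.Agent.Lib_helper1_Frattini

set_option autoImplicit false
set_option linter.style.haveILetI false
open Cfsg
open Cfsg.Agent.H4
open scoped ComplexConjugate

namespace Cfsg.Agent.S4029

/-- Let P be a finite 2-group in which N_P(⟨y⟩) = C_P(y) for every y ∈ P. If s is the number of conjugacy classes of involutions of P, then #(P/Φ(P)) ≤ s + 1; in particular the subgroup generated by the involutions of P has order at least #(P/Φ(P)). -/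
theorem result {P : Type*} [Group P] [Finite P] (hP : IsPGroup 2 P)
    (hirr : ∀ y : P, Subgroup.normalizer ((Subgroup.zpowers y : Subgroup P) : Set P) ≤ Subgroup.centralizer {y}) :
    Nat.card (P ⧸ frattini P) ≤ Nat.card {c : ConjClasses P // ∃ y : P, ConjClasses.mk y = c ∧ orderOf y = 2} + 1 ∧
    Nat.card (P ⧸ frattini P) ≤ Nat.card (Subgroup.closure {y : P | orderOf y = 2}) := by
  classical
  haveI : Fact (Nat.Prime 2) := ⟨Nat.prime_two⟩
  set Φ := frattini P with hΦ
  haveI := Fintype.ofFinite (P ⧸ Φ)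
  have hsq : ∀ q : P ⧸ Φ, q * q = 1 := by
    intro q
    obtain ⟨x, rfl⟩ := QuotientGroup.mk_surjective q
    rw [← QuotientGroup.mk_mul, QuotientGroup.eq_one_iff, ← pow_two]
    exact (Cfsg.Agent.H1.pgroup_frattini 2 hP).2 x
  have hinv : ∀ q : P ⧸ Φ, q⁻¹ = q := fun q => inv_eq_of_mul_eq_one_left (hsq q)
  have hcomm : ∀ a b : P ⧸ Φ, a * b = b * a := by
    intro a b
    have h1 := hinv (a * b)
    rw [mul_inv_rev, hinv, hinv] at h1
    exact h1.symm
  -- number of irreducible characters of the quotient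
  have hcardQ : Nat.card (IrrCharacter (P ⧸ Φ)) = Nat.card (P ⧸ Φ) := by
    rw [card_irr]
    apply Nat.card_congr
    refine (Equiv.ofBijective (ConjClasses.mk : P ⧸ Φ → ConjClasses (P ⧸ Φ)) ⟨?_, ConjClasses.mk_surjective⟩).symm
    intro a b hab
    rw [ConjClasses.mk_eq_mk_iff_isConj] at hab
    obtain ⟨c, hc⟩ := isConj_iff.1 hab
    rw [← hc, hcomm c a, mul_assoc, mul_inv_cancel, mul_one]
  -- inflation gives real characters
  let F : IrrCharacter (P ⧸ Φ) → {χ : IrrCharacter P // ∀ g : P, ((χ : P → ℂ) g).im = 0} := fun χ =>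
    ⟨⟨fun g => (χ : P ⧸ Φ → ℂ) (g : P ⧸ Φ), IsIrrCharacter.inflate Φ χ.2⟩, by
      intro g
      show ((χ : P ⧸ Φ → ℂ) (g : P ⧸ Φ)).im = 0
      rw [← Complex.conj_eq_iff_im, ← IsCharacter.inv_eq_conj (IsIrrCharacter.isCharacter χ.2), hinv]⟩
  have hF : Function.Injective F := by
    intro χ ψ h
    apply Subtype.ext
    funext q
    obtain ⟨x, rfl⟩ := QuotientGroup.mk_surjective q
    exact congrFun (congrArg (fun z => (z.1 : P → ℂ)) h) x
  have h1 : Nat.card (P ⧸ Φ) ≤ Nat.card {C : ConjClasses P // ∀ g : P, ConjClasses.mk g = C → IsConj g g⁻¹} := by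
    rw [← hcardQ, ← card_real_irr]
    exact Nat.card_le_card_of_injective F hF
  -- real elements are involutions
  have hreal : ∀ g : P, IsConj g g⁻¹ → g * g = 1 := by
    intro g hg
    obtain ⟨c, hc⟩ := isConj_iff.1 hg
    have hc' : c⁻¹ * g * c = g⁻¹ := by
      have : g = c⁻¹ * g⁻¹ * c := by rw [← hc]; group
      calc c⁻¹ * g * c = (c⁻¹ * g⁻¹ * c)⁻¹ := by group
        _ = g⁻¹ := by rw [← this]
    have hcn : c ∈ Subgroup.normalizer ((Subgroup.zpowers g : Subgroup P) : Set P) := by
      rw [Subgroup.mem_normalizer_iff]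
      intro h
      constructor
      · intro hh
        obtain ⟨j, rfl⟩ := Subgroup.mem_zpowers_iff.1 hh
        rw [← conj_zpow, hc]
        exact Subgroup.zpow_mem _ (Subgroup.inv_mem _ (Subgroup.mem_zpowers g)) j
      · intro hh
        obtain ⟨j, hj⟩ := Subgroup.mem_zpowers_iff.1 hh
        have h5 : h = c⁻¹ * g ^ j * c := by rw [hj]; group
        have h6 : c⁻¹ * g ^ j * c = (c⁻¹ * g * c) ^ j := by
          have := conj_zpow (a := c⁻¹) (b := g) (i := j)
          rw [inv_inv] at this
          exact this.symm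
        rw [h5, h6, hc']
        exact Subgroup.zpow_mem _ (Subgroup.inv_mem _ (Subgroup.mem_zpowers g)) j
    have h2 := hirr g hcn
    rw [Subgroup.mem_centralizer_iff] at h2
    have h3 := h2 g rfl
    have h4 : g = g⁻¹ := by
      rw [← hc, ← h3, mul_assoc, mul_inv_cancel, mul_one]
    calc g * g = g * g⁻¹ := by rw [← h4]
      _ = 1 := mul_inv_cancel g
  have hord : ∀ g : P, g * g = 1 → g ≠ 1 → orderOf g = 2 := by
    intro g h2 h3
    exact orderOf_eq_prime (by rw [pow_two]; exact h2) h3
  -- map real classes to involution classes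
  let B := {c : ConjClasses P // ∃ y : P, ConjClasses.mk y = c ∧ orderOf y = 2}
  let Gm : {C : ConjClasses P // ∀ g : P, ConjClasses.mk g = C → IsConj g g⁻¹} → Option B := fun C =>
    if h : ∃ y : P, ConjClasses.mk y = C.1 ∧ orderOf y = 2 then some ⟨C.1, h⟩ else none
  have hGm : Function.Injective Gm := by
    intro C D hCD
    have hone : ∀ C : {C : ConjClasses P // ∀ g : P, ConjClasses.mk g = C → IsConj g g⁻¹},
        (¬ ∃ y : P, ConjClasses.mk y = C.1 ∧ orderOf y = 2) → C.1 = ConjClasses.mk 1 := by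
      intro C hC
      obtain ⟨g, hg⟩ := ConjClasses.mk_surjective C.1
      by_contra hne
      apply hC
      refine ⟨g, hg, hord g (hreal g (C.2 g hg)) ?_⟩
      intro h1
      apply hne
      rw [← hg, h1]
    apply Subtype.ext
    by_cases hC : ∃ y : P, ConjClasses.mk y = C.1 ∧ orderOf y = 2
    · by_cases hD : ∃ y : P, ConjClasses.mk y = D.1 ∧ orderOf y = 2
      · simp only [Gm, dif_pos hC, dif_pos hD, Option.some.injEq] at hCD
        exact congrArg (fun z : B => z.1) hCD
      · simp [Gm, dif_pos hC, dif_neg hD] at hCD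
    · by_cases hD : ∃ y : P, ConjClasses.mk y = D.1 ∧ orderOf y = 2
      · simp [Gm, dif_neg hC, dif_pos hD] at hCD
      · rw [hone C hC, hone D hD]
  have h2 : Nat.card (P ⧸ Φ) ≤ Nat.card B + 1 := by
    rw [← Finite.card_option]
    exact h1.trans (Nat.card_le_card_of_injective Gm hGm)
  refine ⟨h2, h2.trans ?_⟩
  rw [← Finite.card_option]
  let Hm : Option B → Subgroup.closure {y : P | orderOf y = 2} := fun o =>
    match o with
    | none => 1
    | some c => ⟨c.2.choose, Subgroup.subset_closure c.2.choose_spec.2⟩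
  apply Nat.card_le_card_of_injective Hm
  intro a b hab
  cases a with
  | none =>
    cases b with
    | none => rfl
    | some d =>
      exfalso
      have h3 : (1 : P) = d.2.choose := congrArg Subtype.val hab
      have h4 := d.2.choose_spec.2
      rw [← h3, orderOf_one] at h4
      omega
  | some c =>
    cases b with
    | none =>
      exfalso
      have h3 : c.2.choose = (1 : P) := congrArg Subtype.val hab
      have h4 := c.2.choose_spec.2
      rw [h3, orderOf_one] at h4
      omega
    | some d =>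
      have h3 : c.2.choose = d.2.choose := congrArg Subtype.val hab
      congr 1
      apply Subtype.ext
      rw [← c.2.choose_spec.1, ← d.2.choose_spec.1, h3]

end Cfsg.Agent.S4029
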