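import Cfsg.Statements.S4032
import Mathlib
import Cfsg.Agent.Lib_helper1_SZ

set_option autoImplicit false
open Cfsg

namespace Cfsg.Agent.S4032

open scoped Pointwise

theorem mem_norm_zpowers {X : Type*} [Group X] [Finite X] {g x : X}
    (h : g * x * g⁻¹ ∈ Subgroup.zpowers x) :
    g ∈ Subgroup.normalizer ((Subgroup.zpowers x : Subgroup X) : Set X) := by
  rw [Subgroup.mem_normalizer_iff_map_conj_eq]
  apply Subgroup.eq_of_le_of_card_ge
  · rw [MonoidHom.map_zpowers, Subgroup.zpowers_le]; exact h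
  · rw [Subgroup.card_map_of_injective (MulEquiv.injective _)]

/-- Let π be a set of primes and G a finite group in which N_G(⟨x⟩) = C_G(x) for every π-element x. If N is a normal subgroup of G whose order is divisible by no prime of π, then G/N has the same property: N_{G/N}(⟨y⟩) = C_{G/N}(y) for every π-element y of G/N. -/
theorem result {G : Type*} [Group G] [Finite G] (π : Set ℕ)
    (hirr : ∀ x : G, (∀ r : ℕ, r.Prime → r ∣ orderOf x → r ∈ π) →
      Subgroup.normalizer ((Subgroup.zpowers x : Subgroup G) : Set G) ≤ Subgroup.centralizer {x})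
    (N : Subgroup G) [N.Normal] (hN : ∀ r : ℕ, r.Prime → r ∣ Nat.card N → r ∉ π) :
    ∀ y : G ⧸ N, (∀ r : ℕ, r.Prime → r ∣ orderOf y → r ∈ π) →
      Subgroup.normalizer ((Subgroup.zpowers y : Subgroup (G ⧸ N)) : Set (G ⧸ N)) ≤ Subgroup.centralizer {y} := by
  intro y hy gbar hg
  obtain ⟨x₀, hx₀⟩ := QuotientGroup.mk_surjective y
  obtain ⟨g, rfl⟩ := QuotientGroup.mk_surjective gbar
  have hcopN : ∀ m : ℕ, (∀ r : ℕ, r.Prime → r ∣ m → r ∈ π) → (Nat.card N).Coprime m := by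
    intro m hm
    exact Nat.coprime_of_dvd fun r hr h1 h2 => hN r hr h1 (hm r hr h2)
  obtain ⟨s, hs⟩ := exists_pow_eq_self_of_coprime (x := y) (hcopN _ hy)
  set x := (x₀ ^ Nat.card N) ^ s with hx
  have hxy : (QuotientGroup.mk x : G ⧸ N) = y := by
    rw [hx, QuotientGroup.mk_pow, QuotientGroup.mk_pow, hx₀]; exact hs
  have hxk : x ^ orderOf y = 1 := by
    have h1 : x₀ ^ orderOf y ∈ N := by
      rw [← QuotientGroup.eq_one_iff, QuotientGroup.mk_pow, hx₀]; exact pow_orderOf_eq_one y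
    have h2 : (x₀ ^ orderOf y) ^ Nat.card N = 1 := by
      have := pow_card_eq_one' (x := (⟨_, h1⟩ : N))
      exact congrArg Subtype.val this
    calc x ^ orderOf y = ((x₀ ^ orderOf y) ^ Nat.card N) ^ s := by
          rw [hx, ← pow_mul, ← pow_mul, ← pow_mul, ← pow_mul]; congr 1; ring
      _ = 1 := by rw [h2, one_pow]
  have hxπ : ∀ r : ℕ, r.Prime → r ∣ orderOf x → r ∈ π := fun r hr hd =>
    hy r hr (hd.trans (orderOf_dvd_of_pow_eq_one hxk))
  have hirx := hirr x hxπ
  have hconj : g * x * g⁻¹ ∈ N ⊔ Subgroup.zpowers x := by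
    have h1 : (QuotientGroup.mk g : G ⧸ N) * y * (QuotientGroup.mk g : G ⧸ N)⁻¹ ∈ Subgroup.zpowers y :=
      (Subgroup.mem_normalizer_iff.1 hg y).1 (Subgroup.mem_zpowers y)
    obtain ⟨j, hj⟩ := Subgroup.mem_zpowers_iff.1 h1
    have h2 : (x ^ j)⁻¹ * (g * x * g⁻¹) ∈ N := by
      rw [← QuotientGroup.eq, QuotientGroup.mk_zpow, hxy, hj, QuotientGroup.mk_mul,
        QuotientGroup.mk_mul, QuotientGroup.mk_inv, hxy]
    have h3 : g * x * g⁻¹ = x ^ j * ((x ^ j)⁻¹ * (g * x * g⁻¹)) := by group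
    rw [h3]
    exact Subgroup.mul_mem _ (Subgroup.mem_sup_right (Subgroup.zpow_mem _ (Subgroup.mem_zpowers x) j))
      (Subgroup.mem_sup_left h2)
  have hBz : MulAut.conj g • Subgroup.zpowers x = Subgroup.zpowers (g * x * g⁻¹) := by
    have h0 : MulAut.conj g • Subgroup.zpowers x =
        (Subgroup.zpowers x).map (MulAut.conj g).toMonoidHom := rfl
    rw [h0, MonoidHom.map_zpowers]; rfl
  obtain ⟨d, hd, hdA⟩ := H1.sz_conj_internal N (Subgroup.zpowers x) (MulAut.conj g • Subgroup.zpowers x)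
    (by rw [Subgroup.normalizer_eq_top_iff.2 inferInstance]; exact le_top)
    (by rw [hBz, Subgroup.zpowers_le]; exact hconj)
    (H1.card_conj_smul _ _)
    (by rw [Nat.card_zpowers]; exact hcopN _ hxπ)
    (Or.inr inferInstance)
  have h4 : g * x * g⁻¹ ∈ MulAut.conj d • Subgroup.zpowers x := by
    rw [hdA, hBz]; exact Subgroup.mem_zpowers _
  rw [H1.mem_conj_smul] at h4
  have h5 : (d⁻¹ * g) * x * (d⁻¹ * g)⁻¹ ∈ Subgroup.zpowers x := by
    have e : (d⁻¹ * g) * x * (d⁻¹ * g)⁻¹ = d⁻¹ * (g * x * g⁻¹) * d := by group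
    rw [e]
    exact h4
  have h6 := hirx (mem_norm_zpowers h5)
  rw [Subgroup.mem_centralizer_singleton_iff] at h6 ⊢
  have h7 := congrArg (QuotientGroup.mk : G → G ⧸ N) h6
  have hd1 : (QuotientGroup.mk d : G ⧸ N) = 1 := (QuotientGroup.eq_one_iff d).2 hd
  simp only [QuotientGroup.mk_mul, QuotientGroup.mk_inv, hd1, inv_one, one_mul, hxy] at h7
  exact h7

end Cfsg.Agent.S4032
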