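import Cfsg.Statements.S4034
import Cfsg.Agent.Lib_helper2_PReg
import Cfsg.Agent.Lib_helper1_Max
import Cfsg.Agent.Lib_helper2_KP2

set_option autoImplicit false
open Cfsg

namespace Cfsg.Agent.S4034

open Cfsg.Agent.H2

theorem exists_conj_mem.{u} {p : ℕ} (hp : p.Prime) : ∀ (n : ℕ) (G : Type u) [Group G] [Finite G],
    Nat.card G = n → ∀ (H : Subgroup G), (∀ a ∈ H, ∀ b ∈ H, a * b = b * a) → ¬ p ∣ Nat.card ↥H →
    (∃ k : ℕ, H.index = p ^ k) → ∀ x : G, (orderOf x).Coprime p → ∃ g : G, g * x * g⁻¹ ∈ H := by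
  intro n
  induction n using Nat.strong_induction_on with
  | _ n ih =>
    intro G _ _ hn H hab hnd hidx x hx
    by_cases hx1 : x = 1
    · exact ⟨1, by simp [hx1, H.one_mem]⟩
    have ho1 : orderOf x ≠ 1 := fun h => hx1 (orderOf_eq_one_iff.mp h)
    set q := (orderOf x).minFac with hq
    have hqp : q.Prime := Nat.minFac_prime ho1
    have hqd : q ∣ orderOf x := Nat.minFac_dvd _
    have : Fact q.Prime := ⟨hqp⟩
    have hqne : q ≠ p := by
      intro h
      have h2 : p ∣ orderOf x := h ▸ hqd
      exact (Nat.Prime.coprime_iff_not_dvd hp).mp hx.symm h2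
    set e := orderOf x / q with he
    have hoy : orderOf (x ^ e) = q := orderOf_pow_orderOf_div (orderOf_pos x).ne' hqd
    have hpg : IsPGroup q ↥(Subgroup.zpowers (x ^ e)) := by
      apply IsPGroup.of_card (n := 1)
      rw [Nat.card_zpowers, hoy, pow_one]
    obtain ⟨k, hk⟩ := hidx
    have hqi : ¬ q ∣ H.index := by
      rw [hk]
      intro h
      exact hqne ((Nat.prime_dvd_prime_iff_eq hqp hp).mp (hqp.dvd_of_dvd_pow h))
    obtain ⟨a, ha⟩ := H3.exists_conj_le_of_not_dvd_index _ H hpg hqi
    set x' := a⁻¹ * x * a with hx'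
    have hox' : orderOf x' = orderOf x := by
      have := orderOf_conj_eq a⁻¹ x
      rwa [inv_inv] at this
    suffices hsuff : ∃ g : G, g * x' * g⁻¹ ∈ H by
      obtain ⟨g, hg⟩ := hsuff
      refine ⟨g * a⁻¹, ?_⟩
      have e1 : g * a⁻¹ * x * (g * a⁻¹)⁻¹ = g * x' * g⁻¹ := by rw [hx']; group
      rw [e1]
      exact hg
    have hy' : x' ^ e ∈ H := by
      have h1 := ha (x ^ e) (Subgroup.mem_zpowers _)
      have e1 : x' ^ e = a⁻¹ * x ^ e * a := by
        have := conj_pow (a := a⁻¹) (b := x) (i := e)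
        rw [inv_inv] at this
        exact this
      rw [e1]
      exact h1
    have hoy' : orderOf (x' ^ e) = q := by
      rw [he, ← hox']
      exact orderOf_pow_orderOf_div (orderOf_pos x').ne' (hox' ▸ hqd)
    set C := Subgroup.centralizer ({x' ^ e} : Set G) with hC
    have hHC : H ≤ C := by
      intro u hu
      exact Subgroup.mem_centralizer_singleton_iff.mpr (hab u hu _ hy')
    have hxC : x' ∈ C := by
      rw [hC, Subgroup.mem_centralizer_singleton_iff]
      exact ((Commute.refl x').pow_right e).eq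
    by_cases hCtop : C = ⊤
    · -- central case
      set Z := Subgroup.zpowers (x' ^ e) with hZ
      have hZn : Z.Normal := by
        constructor
        intro z hz g
        obtain ⟨j, rfl⟩ := Subgroup.mem_zpowers_iff.mp hz
        have hg : g ∈ C := hCtop ▸ Subgroup.mem_top g
        have h1 : Commute g (x' ^ e) := Subgroup.mem_centralizer_singleton_iff.mp hg
        have h2 : g * (x' ^ e) ^ j * g⁻¹ = (x' ^ e) ^ j := by
          rw [(h1.zpow_right j).eq]; group
        rw [h2]
        exact Subgroup.zpow_mem _ (Subgroup.mem_zpowers _) _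
      have hZH : Z ≤ H := by
        rw [hZ, Subgroup.zpowers_le]
        exact hy'
      have hcardZ : Nat.card ↥Z = q := by rw [hZ, Nat.card_zpowers, hoy']
      have hlt : Nat.card (G ⧸ Z) < n := by
        have h1 := Subgroup.card_eq_card_quotient_mul_card_subgroup Z
        rw [hcardZ, hn] at h1
        have h2 : 0 < Nat.card (G ⧸ Z) := Nat.card_pos
        have h3 := hqp.two_le
        nlinarith
      obtain ⟨gb, hgb⟩ := ih _ hlt (G ⧸ Z) rfl (H.map (QuotientGroup.mk' Z)) (by
          rintro _ ⟨u, hu, rfl⟩ _ ⟨v, hv, rfl⟩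
          rw [← map_mul, ← map_mul, hab u hu v hv]) (by
          intro h
          exact hnd (h.trans (Subgroup.card_map_dvd H _))) ⟨k, by rw [H1.index_map_mk_of_le hZH, hk]⟩
          (QuotientGroup.mk' Z x') (Nat.Coprime.coprime_dvd_left (orderOf_map_dvd _ _) (hox' ▸ hx))
      obtain ⟨g, rfl⟩ := QuotientGroup.mk'_surjective Z gb
      refine ⟨g, ?_⟩
      rw [← map_inv, ← map_mul, ← map_mul] at hgb
      obtain ⟨u, hu, hu2⟩ := hgb
      have h1 : u⁻¹ * (g * x' * g⁻¹) ∈ Z := QuotientGroup.eq.mp hu2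
      have h2 := H.mul_mem hu (hZH h1)
      rwa [mul_inv_cancel_left] at h2
    · have hlt : Nat.card ↥C < n := by
        rw [← hn]
        have hc := C.card_mul_index
        have h2 : C.index ≠ 1 := fun h => hCtop (Subgroup.index_eq_one.mp h)
        have h3 : C.index ≠ 0 := Subgroup.index_ne_zero_of_finite
        have h4 : 0 < Nat.card ↥C := Nat.card_pos
        have h5 : 2 ≤ C.index := by omega
        nlinarith
      have hidx' : ∃ k' : ℕ, (H.subgroupOf C).index = p ^ k' := by
        have h1 : (H.subgroupOf C).index ∣ p ^ k := by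
          rw [← hk]
          exact Subgroup.relIndex_dvd_index_of_le hHC
        obtain ⟨i, -, hi⟩ := (Nat.dvd_prime_pow hp).mp h1
        exact ⟨i, hi⟩
      obtain ⟨c, hc⟩ := ih _ hlt ↥C rfl (H.subgroupOf C) (by
          intro u hu v hv
          exact Subtype.ext (hab u hu v hv)) (by
          rw [Nat.card_congr (Subgroup.subgroupOfEquivOfLe hHC).toEquiv]
          exact hnd) hidx' ⟨x', hxC⟩ (by
          rw [← Subgroup.orderOf_coe]
          exact hox' ▸ hx)
      exact ⟨c, hc⟩

/-- Let G be a finite group and p a prime. Every conjugacy class of p-regular elements of G (elements of order prime to p) has p-power size if and only if G has an abelian p-complement, i.e. an abelian subgroup of order prime to p and p-power index. -/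
theorem result {G : Type*} [Group G] [Finite G] {p : ℕ} (hp : p.Prime) :
    (∀ x : G, (orderOf x).Coprime p → ∃ k : ℕ, (ConjClasses.mk x).carrier.ncard = p ^ k) ↔
    (∃ H : Subgroup G, IsMulCommutative H ∧ ¬ p ∣ Nat.card H ∧ ∃ k : ℕ, H.index = p ^ k) := by
  constructor
  · intro h
    apply PRegHyp.exists_complement hp
    intro x hx
    obtain ⟨k, hk⟩ := h x hx
    exact ⟨k, by rw [← ncard_carrier_eq_index, hk]⟩
  · rintro ⟨H, hab, hnd, k, hk⟩ x hx
    have hab' : ∀ a ∈ H, ∀ b ∈ H, a * b = b * a := by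
      intro a ha b hb
      exact congrArg Subtype.val (hab.is_comm.comm ⟨a, ha⟩ ⟨b, hb⟩)
    obtain ⟨g, hg⟩ := exists_conj_mem hp _ G rfl H hab' hnd ⟨k, hk⟩ x hx
    have h1 : ConjClasses.mk x = ConjClasses.mk (g * x * g⁻¹) :=
      ConjClasses.mk_eq_mk_iff_isConj.mpr (isConj_iff.mpr ⟨g, rfl⟩)
    rw [h1, ncard_carrier_eq_index]
    have h2 : H ≤ Subgroup.centralizer ({g * x * g⁻¹} : Set G) := by
      intro u hu
      exact Subgroup.mem_centralizer_singleton_iff.mpr (hab' u hu _ hg)
    have h3 := Subgroup.index_dvd_of_le h2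
    rw [hk] at h3
    obtain ⟨i, -, hi⟩ := (Nat.dvd_prime_pow hp).mp h3
    exact ⟨i, hi⟩

end Cfsg.Agent.S4034
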