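import Cfsg.Statements.S4036
import Mathlib

set_option autoImplicit false
open Cfsg

namespace Cfsg.Agent.S4036

/-- Let P be a finite abelian p-group and K a group of automorphisms of P (a subgroup of Aut P) whose order is divisible by p. If all non-identity elements of K have the same fixed-point subgroup on P, then K has no non-trivial normal subgroup of order prime to p. -/
theorem result {P : Type*} [CommGroup P] [Finite P] {p : ℕ}
    [Fact p.Prime] (hP : IsPGroup p P) (K : Subgroup (MulAut P)) (hK : p ∣ Nat.card K)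
    (hfix : ∀ x y : MulAut P, x ∈ K → y ∈ K → x ≠ 1 → y ≠ 1 → ∀ v : P, x v = v ↔ y v = v) :
    ∀ N : Subgroup ↥K, N.Normal → ¬ p ∣ Nat.card N → N = ⊥ := by
  intro N hNn hNp
  classical
  by_contra hNbot
  haveI := Fintype.ofFinite N
  let τ : P →* P :=
    { toFun := fun v => ∏ n : N, ((n : K) : MulAut P) v
      map_one' := by simp
      map_mul' := by intro a b; simp [Finset.prod_mul_distrib] }
  have hτ : ∀ v, τ v = ∏ n : N, ((n : K) : MulAut P) v := fun v => rfl
  obtain ⟨y, hy⟩ := exists_prime_orderOf_dvd_card' p hK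
  have hp : p.Prime := Fact.out
  have hy1 : (y : MulAut P) ≠ 1 := by
    intro h
    have : y = 1 := Subtype.ext h
    rw [this, orderOf_one] at hy
    exact hp.one_lt.ne hy
  obtain ⟨n0, hn0, hn01⟩ : ∃ n0 ∈ N, n0 ≠ 1 := by
    by_contra hcon
    push Not at hcon
    exact hNbot ((Subgroup.eq_bot_iff_forall N).mpr hcon)
  have hn01' : (n0 : MulAut P) ≠ 1 := fun h => hn01 (Subtype.ext h)
  have hτK : ∀ (k : K) (v : P), (k : MulAut P) (τ v) = τ ((k : MulAut P) v) := by
    intro k v
    rw [hτ, hτ, map_prod]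
    rw [← Equiv.prod_comp (MulAut.conjNormal k : MulAut N).toEquiv
      (fun n : N => ((n : K) : MulAut P) ((k : MulAut P) v))]
    apply Finset.prod_congr rfl
    intro n _
    show _ = (((MulAut.conjNormal k n : N) : K) : MulAut P) ((k : MulAut P) v)
    rw [MulAut.conjNormal_apply]
    simp
  have hτr : ∀ v, τ ((n0 : MulAut P) v) = τ v := by
    intro v
    rw [hτ, hτ, ← Equiv.prod_comp (Equiv.mulRight (⟨n0, hn0⟩ : N))
      (fun n : N => ((n : K) : MulAut P) v)]
    rfl
  have hWne : τ.ker ≠ ⊥ := by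
    intro h
    have hinj : Function.Injective τ := (MonoidHom.ker_eq_bot_iff τ).mp h
    apply hn01'
    ext v
    exact hinj (hτr v)
  have hWF : ∀ v, τ v = 1 → (n0 : MulAut P) v = v → v = 1 := by
    intro v hv hfv
    have hall : ∀ n : N, ((n : K) : MulAut P) v = v := by
      intro n
      by_cases hn : ((n : K) : MulAut P) = 1
      · rw [hn]; rfl
      · exact (hfix _ _ (n : K).2 n0.2 hn hn01' v).mpr hfv
    rw [hτ, Finset.prod_congr rfl (fun n _ => hall n), Finset.prod_const, Finset.card_univ,
      ← Nat.card_eq_fintype_card] at hv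
    obtain ⟨k, hk⟩ := hP v
    have h1 := orderOf_dvd_of_pow_eq_one hv
    have h2 := orderOf_dvd_of_pow_eq_one hk
    have hcop : Nat.Coprime (p ^ k) (Nat.card N) :=
      Nat.Coprime.pow_left k ((Nat.Prime.coprime_iff_not_dvd hp).mpr hNp)
    exact orderOf_eq_one_iff.mp (Nat.eq_one_of_dvd_coprimes hcop h2 h1)
  let S : SubMulAction (Subgroup.zpowers y) P :=
    { carrier := {v | τ v = 1}
      smul_mem' := by
        intro c v hv
        show τ (((c : K) : MulAut P) v) = 1
        rw [← hτK, (show τ v = 1 from hv), map_one] }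
  have hYp : IsPGroup p (Subgroup.zpowers y) :=
    IsPGroup.of_card (n := 1) (by rw [Nat.card_zpowers, hy, pow_one])
  have hcardS : p ∣ Nat.card S := by
    have e : Nat.card S = Nat.card τ.ker :=
      Nat.card_congr (Equiv.subtypeEquivRight (fun v => (MonoidHom.mem_ker).symm))
    rw [e]
    rcases (hP.to_subgroup τ.ker).card_eq_or_dvd with h | h
    · exact absurd (Subgroup.card_eq_one.mp h) hWne
    · exact h
  have hone : (⟨1, (map_one τ : τ 1 = 1)⟩ : S) ∈ MulAction.fixedPoints (Subgroup.zpowers y) S := by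
    rw [MulAction.mem_fixedPoints]
    intro c
    apply Subtype.ext
    show ((c : K) : MulAut P) 1 = 1
    exact map_one _
  obtain ⟨b, hb, hb1⟩ := hYp.exists_fixed_point_of_prime_dvd_card_of_fixed_point S hcardS hone
  rw [MulAction.mem_fixedPoints] at hb
  have hyb : (y : MulAut P) (b : P) = b :=
    congrArg Subtype.val (hb ⟨y, Subgroup.mem_zpowers y⟩)
  have hnb : (n0 : MulAut P) (b : P) = b := (hfix _ _ y.2 n0.2 hy1 hn01' b).mp hyb
  exact hb1 (Subtype.ext (hWF b b.2 hnb).symm)

end Cfsg.Agent.S4036
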