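import Cfsg.Statements.S4043
import Cfsg.Agent.Lib_helper1_SZ
import Cfsg.Agent.Lib_lead_Frob6

set_option autoImplicit false
open Cfsg

namespace Cfsg.Agent.S4043

open scoped Pointwise

/-- data extracted from a normal `p`-complement of the subgroup `A` -/
theorem extract {G : Type*} [Group G] [Finite G] {p : ℕ} [Fact p.Prime] (A : Subgroup G)
    (hAp : Cfsg.HasNormalPComplement p A) :
    ∃ K S : Subgroup G, K ≤ A ∧ S ≤ A ∧ A ≤ Subgroup.normalizer (K : Set G) ∧ IsPGroup p S ∧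
      (∀ a ∈ A, ∃ k ∈ K, ∃ s ∈ S, a = k * s) ∧
      Nat.card K * p ^ (Nat.card A).factorization p = Nat.card A := by
  obtain ⟨S, K, hKn, hKS⟩ := hAp
  refine ⟨K.map A.subtype, (S : Subgroup A).map A.subtype, Subgroup.map_subtype_le _,
    Subgroup.map_subtype_le _, ?_, ?_, ?_, ?_⟩
  · rw [Subgroup.le_normalizer_iff]
    rintro a ha _ ⟨k, hk, rfl⟩
    exact ⟨⟨a, ha⟩ * k * ⟨a, ha⟩⁻¹, hKn.conj_mem k hk ⟨a, ha⟩, rfl⟩
  · exact S.2.map A.subtype
  · intro a ha
    have h1 : (⟨a, ha⟩ : A) ∈ ((K : Set A) * ((S : Subgroup A) : Set A)) := by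
      rw [hKS.mul_eq]; trivial
    obtain ⟨k, hk, s, hs, hks⟩ := Set.mem_mul.mp h1
    exact ⟨k, ⟨k, hk, rfl⟩, s, ⟨s, hs, rfl⟩, (congrArg Subtype.val hks).symm⟩
  · rw [Subgroup.card_map_of_injective A.subtype_injective, ← S.card_eq_multiplicity]
    exact hKS.card_mul_card

theorem normalizer_eq {G : Type*} [Group G] [Finite G] {p : ℕ} [Fact p.Prime] (N : Subgroup G)
    [N.Normal] (hN : IsPGroup p N) (A : Subgroup G) (hA : A.IsComplement' N)
    (hC : ∀ n : G, n ∈ N → (∀ a : G, a ∈ A → a * n * a⁻¹ = n) → n = 1)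
    {K S : Subgroup G} (hKA : K ≤ A) (hSA : S ≤ A) (hAK : A ≤ Subgroup.normalizer (K : Set G))
    (hS : IsPGroup p S) (hKS : ∀ a ∈ A, ∃ k ∈ K, ∃ s ∈ S, a = k * s) :
    Subgroup.normalizer (K : Set G) = A := by
  have hdisj : A ⊓ N = ⊥ := hA.disjoint.eq_bot
  set C : Subgroup G := N ⊓ Subgroup.normalizer (K : Set G) with hCdef
  have hCK : ∀ c ∈ C, ∀ k ∈ K, k * c = c * k := by
    intro c hc k hk
    have hc' := Subgroup.mem_inf.mp hc
    have h1 : c * k * c⁻¹ * k⁻¹ ∈ A ⊓ N := by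
      refine Subgroup.mem_inf.mpr ⟨?_, ?_⟩
      · apply hKA
        exact K.mul_mem ((Subgroup.mem_normalizer_iff.mp hc'.2 k).mp hk) (K.inv_mem hk)
      · have : c * k * c⁻¹ * k⁻¹ = c * (k * c⁻¹ * k⁻¹) := by group
        rw [this]
        exact N.mul_mem hc'.1 (Subgroup.Normal.conj_mem inferInstance _ (N.inv_mem hc'.1) k)
    rw [hdisj, Subgroup.mem_bot] at h1
    calc k * c = (c * k * c⁻¹ * k⁻¹)⁻¹ * (c * k) := by group
      _ = c * k := by rw [h1]; simp
  have hCbot : C = ⊥ := by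
    by_contra hne
    have hSC : S ≤ Subgroup.normalizer (C : Set G) := by
      rw [Subgroup.le_normalizer_iff]
      intro s hs c hc
      have hc' := Subgroup.mem_inf.mp hc
      refine Subgroup.mem_inf.mpr ⟨Subgroup.Normal.conj_mem inferInstance _ hc'.1 s, ?_⟩
      have hs' := hAK (hSA hs)
      exact Subgroup.mul_mem _ (Subgroup.mul_mem _ hs' hc'.2) (Subgroup.inv_mem _ hs')
    obtain ⟨v, hv, hv1, hvS⟩ := LeadFrob.exists_fixed_of_pgroups (hN.to_le inf_le_left) hS hne hSC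
    apply hv1
    apply hC v (Subgroup.mem_inf.mp hv).1
    intro a ha
    obtain ⟨k, hk, s, hs, rfl⟩ := hKS a ha
    have h1 := hvS s hs
    have h2 := hCK v hv k hk
    calc k * s * v * (k * s)⁻¹ = k * (s * v) * s⁻¹ * k⁻¹ := by group
      _ = (k * v) * k⁻¹ := by rw [h1]; group
      _ = v := by rw [h2]; group
  apply le_antisymm _ hAK
  intro x hx
  have h1 : x ∈ ((A : Set G) * (N : Set G)) := by rw [hA.mul_eq]; trivial
  obtain ⟨a, ha, n, hn, rfl⟩ := Set.mem_mul.mp h1
  have h2 : n ∈ C := by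
    refine Subgroup.mem_inf.mpr ⟨hn, ?_⟩
    have : n = a⁻¹ * (a * n) := by group
    rw [this]
    exact Subgroup.mul_mem _ (Subgroup.inv_mem _ (hAK ha)) hx
  rw [hCbot, Subgroup.mem_bot] at h2
  rw [h2, mul_one]
  exact ha

/-- Let G be a finite group that is the semidirect product of a normal p-subgroup N by a subgroup A, and also of N by a subgroup A₁, where p is a prime and A and A₁ both have normal p-complements. If C_N(A) = C_N(A₁) = 1, then A₁ is conjugate to A by an element of N. -/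
theorem result {G : Type*} [Group G] [Finite G] {p : ℕ}
    [Fact p.Prime] (N : Subgroup G) [N.Normal] (hN : IsPGroup p N) (A A₁ : Subgroup G)
    (hA : A.IsComplement' N) (hA₁ : A₁.IsComplement' N)
    (hAp : Cfsg.HasNormalPComplement p A) (hA₁p : Cfsg.HasNormalPComplement p A₁)
    (hC : ∀ n : G, n ∈ N → (∀ a : G, a ∈ A → a * n * a⁻¹ = n) → n = 1)
    (hC₁ : ∀ n : G, n ∈ N → (∀ a : G, a ∈ A₁ → a * n * a⁻¹ = n) → n = 1) :
    ∃ n : G, n ∈ N ∧ A₁ = A.map (MulAut.conj n).toMonoidHom := by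
  have hp : p.Prime := Fact.out
  obtain ⟨K, S, hKA, hSA, hAK, hS, hKS, hcK⟩ := extract A hAp
  obtain ⟨K₁, S₁, hKA₁, hSA₁, hAK₁, hS₁, hKS₁, hcK₁⟩ := extract A₁ hA₁p
  have hcard : Nat.card A₁ = Nat.card A := by
    have h1 := hA.card_mul_card
    have h2 := hA₁.card_mul_card
    rw [← h1] at h2
    exact Nat.eq_of_mul_eq_mul_right Nat.card_pos h2
  have hcKK : Nat.card K₁ = Nat.card K := by
    rw [hcard] at hcK₁
    exact Nat.eq_of_mul_eq_mul_right (pow_pos hp.pos _) (hcK₁.trans hcK.symm)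
  have hKp : ¬ p ∣ Nat.card K := by
    intro hdvd
    have h1 : p ^ ((Nat.card A).factorization p + 1) ∣ Nat.card A := by
      calc p ^ ((Nat.card A).factorization p + 1) = p * p ^ (Nat.card A).factorization p := by
            rw [pow_succ, mul_comm]
        _ ∣ Nat.card K * p ^ (Nat.card A).factorization p := mul_dvd_mul_right hdvd _
        _ = Nat.card A := hcK
    exact Nat.pow_succ_factorization_not_dvd Nat.card_pos.ne' hp h1
  have hcop : (Nat.card N).Coprime (Nat.card K) := by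
    obtain ⟨j, hj⟩ := hN.exists_card_eq
    rw [hj]
    exact Nat.Coprime.pow_left _ ((Nat.Prime.coprime_iff_not_dvd hp).mpr hKp)
  -- `M = N ⊔ K` is normal of `p`-power index
  have hMn : (N ⊔ K).Normal := by
    rw [← Subgroup.normalizer_eq_top_iff, eq_top_iff, ← hA.sup_eq_top]
    apply sup_le
    · refine le_trans ?_ (Subgroup.normalizer_inf_normalizer_le_normalizer_sup N K)
      exact le_inf Subgroup.le_normalizer_of_normal hAK
    · exact le_trans le_sup_left Subgroup.le_normalizer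
  have hMidx : (N ⊔ K).index ∣ p ^ (Nat.card A).factorization p := by
    have h1 : Nat.card N * Nat.card K ∣ Nat.card (N ⊔ K : Subgroup G) :=
      hcop.mul_dvd_of_dvd_of_dvd (Subgroup.card_dvd_of_le le_sup_left)
        (Subgroup.card_dvd_of_le le_sup_right)
    have h2 := (N ⊔ K).card_mul_index
    have h3 := hA.card_mul_card
    obtain ⟨t, ht⟩ := h1
    rw [ht, ← h3, ← hcK] at h2
    have h4 : Nat.card N * Nat.card K * (t * (N ⊔ K).index) =
        Nat.card N * Nat.card K * p ^ (Nat.card A).factorization p := by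
      rw [← mul_assoc, h2]; ring
    have h5 := Nat.eq_of_mul_eq_mul_left (Nat.mul_pos Nat.card_pos Nat.card_pos) h4
    exact Dvd.intro_left t h5
  have hK₁M : K₁ ≤ N ⊔ K := by
    intro x hx
    obtain ⟨j, _, hj⟩ := (Nat.dvd_prime_pow hp).mp hMidx
    have h1 : x ^ (p ^ j) ∈ N ⊔ K := by
      rw [← hj]; exact Subgroup.pow_index_mem _ x
    have h2 : (p ^ j).Coprime (orderOf x) := by
      apply Nat.Coprime.pow_left
      rw [Nat.Prime.coprime_iff_not_dvd hp]
      intro hdvd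
      apply hKp
      rw [← hcKK]
      have h3 := orderOf_dvd_natCard (⟨x, hx⟩ : K₁)
      rw [Subgroup.orderOf_mk] at h3
      exact hdvd.trans h3
    obtain ⟨m, hm⟩ := exists_pow_eq_self_of_coprime h2
    rw [← hm]
    exact Subgroup.pow_mem _ h1 m
  have hsolv : Group.IsSolvable N := by
    have := hN.isNilpotent
    infer_instance
  obtain ⟨d, hd, hdK⟩ := H1.sz_conj_internal N K K₁ Subgroup.le_normalizer_of_normal hK₁M hcKK hcop
    (Or.inl hsolv)
  refine ⟨d, hd, ?_⟩
  have hn := normalizer_eq N hN A hA hC hKA hSA hAK hS hKS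
  have hn₁ := normalizer_eq N hN A₁ hA₁ hC₁ hKA₁ hSA₁ hAK₁ hS₁ hKS₁
  have h1 : A.map (MulAut.conj d).toMonoidHom ≤ A₁ := by
    rw [← hn₁, ← hdK]
    conv_lhs => rw [← hn]
    exact Subgroup.le_normalizer_map _
  refine (Subgroup.eq_of_le_of_card_ge h1 ?_).symm
  rw [Subgroup.card_map_of_injective (MulAut.conj d).injective, hcard]

end Cfsg.Agent.S4043
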