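import Cfsg.Statements.S4049
import Cfsg.Agent.Lib_helper2_Real

set_option autoImplicit false
open Cfsg

namespace Cfsg.Agent.S4049

open Cfsg.Agent.H2

/-- Let G be a finite group such that N_G(H)/C_G(H) has odd order for every nontrivial subgroup H of odd order. Then the Sylow 2-subgroups of G are normal. -/
theorem result {G : Type*} [Group G] [Finite G]
    (hhom : ∀ H : Subgroup G, H ≠ ⊥ → ¬ 2 ∣ Nat.card ↥H →
        ¬ 2 ∣ (Subgroup.centralizer (H : Set G)).relIndex (Subgroup.normalizer (H : Set G))) (P : Sylow 2 G) :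
    (P : Subgroup G).Normal := by
  apply sylow2_normal_of_noRealOdd
  intro x hx hodd hconj
  obtain ⟨c, hc⟩ := isConj_iff.mp hconj
  set H := Subgroup.zpowers x with hH
  have h1 : c ∈ Subgroup.normalizer (H : Set G) := by
    rw [Subgroup.mem_normalizer_iff_map_conj_eq, MonoidHom.map_zpowers]
    have : (MulAut.conj c : G →* G) x = x⁻¹ := by simpa [MulAut.conj_apply] using hc
    rw [this, Subgroup.zpowers_inv]
  have hHne : H ≠ ⊥ := by
    rw [hH, Ne, Subgroup.zpowers_eq_bot]
    exact hx
  have hHodd : ¬ 2 ∣ Nat.card H := by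
    rw [hH, Nat.card_zpowers, ← even_iff_two_dvd, Nat.not_even_iff_odd]
    exact hodd
  have h2 := hhom H hHne hHodd
  rw [← even_iff_two_dvd, Nat.not_even_iff_odd] at h2
  have h3 := Subgroup.pow_index_mem ((Subgroup.centralizer (H : Set G)).subgroupOf (Subgroup.normalizer (H : Set G))) ⟨c, h1⟩
  rw [Subgroup.mem_subgroupOf] at h3
  simp only [Subgroup.coe_pow] at h3
  have h4 := conj_odd_pow_of_inv hc h2
  change c ^ (Subgroup.centralizer (H : Set G)).relIndex (Subgroup.normalizer (H : Set G)) ∈ _ at h3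
  have h5 := (Subgroup.mem_centralizer_iff.mp h3) x (Subgroup.mem_zpowers x)
  have h6 : x = x⁻¹ := by
    rw [← h4, ← h5, mul_inv_cancel_right]
  apply hx
  apply eq_one_of_sq_eq_one_of_odd _ hodd
  rw [pow_two]
  nth_rewrite 1 [h6]
  simp

end Cfsg.Agent.S4049
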