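import Cfsg.Statements.S4051
import Cfsg.Agent.Lib_helper1_Coprime
import Mathlib

set_option autoImplicit false
set_option linter.style.haveILetI false

open Cfsg
open scoped Pointwise

namespace Cfsg.Agent.S4051

/-- `π`-number -/
def piN (π : Set ℕ) (n : ℕ) : Prop := ∀ p : ℕ, p.Prime → p ∣ n → p ∈ π
/-- `π'`-number -/
def piN' (π : Set ℕ) (n : ℕ) : Prop := ∀ p : ℕ, p.Prime → p ∣ n → p ∉ π

lemma piN_mul {π : Set ℕ} {a b : ℕ} (ha : piN π a) (hb : piN π b) : piN π (a * b) := by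
  intro p hp h
  rcases hp.dvd_mul.1 h with h | h
  · exact ha p hp h
  · exact hb p hp h

lemma piN_dvd {π : Set ℕ} {a b : ℕ} (hb : piN π b) (h : a ∣ b) : piN π a :=
  fun p hp hpa => hb p hp (hpa.trans h)

lemma piN'_dvd {π : Set ℕ} {a b : ℕ} (hb : piN' π b) (h : a ∣ b) : piN' π a :=
  fun p hp hpa => hb p hp (hpa.trans h)

lemma cop {π : Set ℕ} {a b : ℕ} (ha : piN π a) (hb : piN' π b) : Nat.Coprime a b :=
  Nat.coprime_of_dvd (fun k hk h1 h2 => hb k hk h2 (ha k hk h1))

lemma eq_one_of_both {π : Set ℕ} {a : ℕ} (ha : piN π a) (hb : piN' π a) : a = 1 := by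
  have := cop ha hb
  simpa using this

/-- order of a lift -/
lemma piN_order_of_quot {G : Type*} [Group G] [Finite G] (π : Set ℕ) (L : Subgroup G) [L.Normal]
    (hL : piN π (Nat.card L)) (x : G) (hx : piN π (orderOf (QuotientGroup.mk' L x))) :
    piN π (orderOf x) := by
  apply piN_dvd (piN_mul hx hL)
  apply orderOf_dvd_of_pow_eq_one
  have h1 : x ^ orderOf (QuotientGroup.mk' L x) ∈ L := by
    apply (QuotientGroup.eq_one_iff _).1
    have := pow_orderOf_eq_one (QuotientGroup.mk' L x)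
    rw [← map_pow] at this
    exact this
  have h2 := pow_card_eq_one' (G := L) (x := ⟨_, h1⟩)
  rw [pow_mul]
  exact congrArg Subtype.val h2

/-- `p`-part lifting -/
lemma ppart {Y Y' : Type*} [Group Y] [Finite Y] [Group Y'] (f : Y →* Y') (p : ℕ) (hp : p.Prime) (y : Y)
    (hy : orderOf (f y) = p) : ∃ j a : ℕ, (y ^ j) ^ (p ^ a) = 1 ∧ f (y ^ j) ≠ 1 := by
  obtain ⟨a, m, hm, e⟩ := Nat.exists_eq_pow_mul_and_not_dvd (n := orderOf y) (orderOf_pos y).ne' p
    hp.ne_one
  refine ⟨m, a, ?_, ?_⟩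
  · rw [← pow_mul, mul_comm, ← e, pow_orderOf_eq_one]
  · intro h
    rw [map_pow] at h
    exact hm (hy ▸ orderOf_dvd_of_pow_eq_one h)

lemma piN_of_ppow {π : Set ℕ} {Y : Type*} [Group Y] (p : ℕ) (hp : p.Prime) (hpπ : p ∈ π) (w : Y) (a : ℕ)
    (h : w ^ (p ^ a) = 1) : piN π (orderOf w) := by
  intro r hr hrw
  have := hr.dvd_of_dvd_pow (hrw.trans (orderOf_dvd_of_pow_eq_one h))
  rw [(Nat.prime_dvd_prime_iff_eq hr hp).1 this]
  exact hpπ

lemma piN'_of_ppow {π : Set ℕ} {Y : Type*} [Group Y] (p : ℕ) (hp : p.Prime) (hpπ : p ∉ π) (w : Y) (a : ℕ)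
    (h : w ^ (p ^ a) = 1) : piN' π (orderOf w) := by
  intro r hr hrw
  have := hr.dvd_of_dvd_pow (hrw.trans (orderOf_dvd_of_pow_eq_one h))
  rw [(Nat.prime_dvd_prime_iff_eq hr hp).1 this]
  exact hpπ

/-- If `X / Z(X)` is a `π`-group then products of `π`-elements are `π`-elements. -/
lemma mul_of_center {X : Type*} [Group X] [Finite X] (π : Set ℕ)
    (h : piN π (Subgroup.center X).index) (x y : X) (hx : piN π (orderOf x))
    (hy : piN π (orderOf y)) : piN π (orderOf (x * y)) := by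
  apply piN_dvd (piN_mul h (piN_mul hx hy))
  apply orderOf_dvd_of_pow_eq_one
  have e := map_mul (MonoidHom.transferCenterPow X) x y
  have e' : (x * y) ^ (Subgroup.center X).index
      = x ^ (Subgroup.center X).index * y ^ (Subgroup.center X).index := by
    have h0 := congrArg Subtype.val e
    rw [Subgroup.coe_mul, MonoidHom.transferCenterPow_apply, MonoidHom.transferCenterPow_apply,
      MonoidHom.transferCenterPow_apply] at h0
    exact h0
  have hc : Commute (x ^ (Subgroup.center X).index) (y ^ (Subgroup.center X).index) := by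
    have hmem : x ^ (Subgroup.center X).index ∈ Subgroup.center X := by
      rw [← MonoidHom.transferCenterPow_apply]; exact (MonoidHom.transferCenterPow X x).2
    exact (Subgroup.mem_center_iff.1 hmem _).symm
  rw [pow_mul, e', hc.mul_pow, ← pow_mul, ← pow_mul]
  have h1 : x ^ ((Subgroup.center X).index * (orderOf x * orderOf y)) = 1 := by
    rw [mul_comm, mul_assoc, pow_mul, pow_orderOf_eq_one, one_pow]
  have h2 : y ^ ((Subgroup.center X).index * (orderOf x * orderOf y)) = 1 := by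
    rw [mul_comm, mul_comm (orderOf x), mul_assoc, pow_mul, pow_orderOf_eq_one, one_pow]
  rw [h1, h2, one_mul]

/-- a prime dividing the index of a normal subgroup gives a `p`-element outside it -/
lemma exists_pelt {Y : Type*} [Group Y] [Finite Y] (N : Subgroup Y) (p : ℕ) (hp : p.Prime)
    (h : p ∣ N.index) : ∃ (w : Y) (a : ℕ), w ∉ N ∧ w ^ (p ^ a) = 1 := by
  haveI : Fact p.Prime := ⟨hp⟩
  let P : Sylow p Y := default
  by_contra hcon
  have hle : (P : Subgroup Y) ≤ N := by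
    intro w hw
    by_contra hwN
    obtain ⟨a, ha⟩ := P.isPGroup' ⟨w, hw⟩
    exact hcon ⟨w, a, hwN, congrArg Subtype.val ha⟩
  exact P.not_dvd_index (h.trans (Subgroup.index_dvd_of_le hle))

lemma centralizes {G : Type*} [Group G] [Finite G] (π : Set ℕ)
    (hhom : (∀ H : Subgroup G, H ≠ ⊥ → (∀ p : ℕ, p.Prime → p ∣ Nat.card ↥H → p ∉ π) →
        ∀ p : ℕ, p.Prime → p ∣ (Subgroup.centralizer (H : Set G)).relIndex (Subgroup.normalizer (H : Set G)) → p ∉ π))
    (K L₁ : Subgroup G) [K.Normal] [L₁.Normal] (hL : piN π (Nat.card L₁))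
    (hKL : piN' π (Nat.card (K.map (QuotientGroup.mk' L₁)))) (x : G) (hx : piN π (orderOf x)) :
    ∀ u ∈ K.map (QuotientGroup.mk' L₁), QuotientGroup.mk' L₁ x * u = u * QuotientGroup.mk' L₁ x := by
  classical
  set f := QuotientGroup.mk' L₁ with hf
  have hfs : Function.Surjective f := QuotientGroup.mk'_surjective L₁
  set Kb := K.map f with hKb
  haveI hKbn : Kb.Normal := Subgroup.Normal.map inferInstance f hfs
  set xb := f x with hxb
  have hxb' : piN π (orderOf xb) := piN_dvd hx (orderOf_map_dvd f x)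
  suffices hC : (Subgroup.centralizer {xb}).subgroupOf Kb = ⊤ by
    intro u hu
    have : (⟨u, hu⟩ : Kb) ∈ (Subgroup.centralizer {xb}).subgroupOf Kb := by rw [hC]; trivial
    exact (Subgroup.mem_centralizer_singleton_iff.1 (Subgroup.mem_subgroupOf.1 this)).symm
  rw [← Subgroup.index_eq_one]
  by_contra hidx
  obtain ⟨q, hq, hqi⟩ := Nat.exists_prime_and_dvd hidx
  haveI : Fact q.Prime := ⟨hq⟩
  have hqKb : q ∣ Nat.card Kb := hqi.trans (Subgroup.index_dvd_card _)
  have hqπ : q ∉ π := hKL q hq hqKb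
  have hqK : q ∣ Nat.card K := hqKb.trans (Subgroup.card_map_dvd K f)
  let Q : Sylow q K := default
  set Q₁ : Subgroup G := (Q : Subgroup K).map K.subtype with hQ₁
  have hQ1 : Q₁ ≠ ⊥ := fun h => Q.ne_bot_of_dvd_card hqK
    ((Subgroup.map_eq_bot_iff_of_injective _ K.subtype_injective).1 h)
  have hQp : IsPGroup q Q₁ := Q.isPGroup'.map K.subtype
  have hQπ : ∀ p : ℕ, p.Prime → p ∣ Nat.card Q₁ → p ∉ π := by
    intro p hp hpd
    obtain ⟨n, hn⟩ := (IsPGroup.iff_card).1 hQp
    rw [hn] at hpd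
    rw [(Nat.prime_dvd_prime_iff_eq hp hq).1 (hp.dvd_of_dvd_pow hpd)]
    exact hqπ
  have hh : piN' π ((Subgroup.centralizer (Q₁ : Set G)).relIndex (Subgroup.normalizer (Q₁ : Set G))) :=
    hhom Q₁ hQ1 hQπ
  have hsolv : Group.IsSolvable (Subgroup.zpowers xb) := by
    apply Group.isSolvable_of_comm
    intro a b
    obtain ⟨i, hi⟩ := Subgroup.mem_zpowers_iff.1 a.2
    obtain ⟨j, hj⟩ := Subgroup.mem_zpowers_iff.1 b.2
    apply Subtype.ext
    rw [Subgroup.coe_mul, Subgroup.coe_mul, ← hi, ← hj, ← zpow_add, ← zpow_add, add_comm]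
  obtain ⟨k, hk, hkA⟩ := Cfsg.Agent.H1.glauberman_exists (Subgroup.zpowers xb) Kb
    ((Subgroup.normalizer (Q₁ : Set G)).map f)
    (by rw [Subgroup.normalizer_eq_top]; exact le_top)
    (by rw [Nat.card_zpowers]; exact cop hxb' hKL) (Or.inl hsolv)
    (by
      intro a ha
      obtain ⟨i, rfl⟩ := Subgroup.mem_zpowers_iff.1 ha
      obtain ⟨k, hk, hk'⟩ := Cfsg.Agent.H1.sylow_frattini_internal K Q (x ^ i)
        (by rw [Subgroup.normalizer_eq_top]; trivial)
      refine ⟨f k, Subgroup.mem_map_of_mem f hk, ?_⟩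
      rw [hxb, ← map_zpow, ← map_mul]
      exact Subgroup.mem_map_of_mem f hk')
  have hmem : k * xb * k⁻¹ ∈ (Subgroup.normalizer (Q₁ : Set G)).map f := by
    apply hkA
    have := Subgroup.smul_mem_pointwise_smul xb (MulAut.conj k) (Subgroup.zpowers xb)
      (Subgroup.mem_zpowers xb)
    simpa [MulAut.smul_def] using this
  obtain ⟨n, hn, hnk⟩ := hmem
  have hno : piN π (orderOf n) := by
    apply piN_order_of_quot π L₁ hL
    apply piN_dvd hxb'
    apply orderOf_dvd_of_pow_eq_one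
    show (f n) ^ orderOf xb = 1
    rw [hnk, conj_pow, pow_orderOf_eq_one]; simp
  have hnc : n ∈ Subgroup.centralizer (Q₁ : Set G) := by
    set φ := Q₁.normalizerMonoidHom with hφ
    have h1 : piN π (orderOf (φ ⟨n, hn⟩)) := by
      apply piN_dvd hno
      have := orderOf_map_dvd φ ⟨n, hn⟩
      rwa [Subgroup.orderOf_mk] at this
    have h2 : piN' π (orderOf (φ ⟨n, hn⟩)) := by
      apply piN'_dvd hh
      have h3 := orderOf_dvd_natCard (⟨φ ⟨n, hn⟩, ⟨_, rfl⟩⟩ : φ.range)
      have e := Subgroup.orderOf_coe (⟨φ ⟨n, hn⟩, ⟨_, rfl⟩⟩ : φ.range)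
      rw [← e, ← Subgroup.index_ker, Subgroup.normalizerMonoidHom_ker] at h3
      exact h3
    have h4 := eq_one_of_both h1 h2
    rw [orderOf_eq_one_iff] at h4
    have h5 : (⟨n, hn⟩ : Subgroup.normalizer (Q₁ : Set G)) ∈ φ.ker := h4
    rw [Subgroup.normalizerMonoidHom_ker] at h5
    exact Subgroup.mem_subgroupOf.1 h5
  have hsurj : Function.Surjective (f.subgroupMap K) := f.subgroupMap_surjective K
  let T : Sylow q Kb := Q.mapSurjective hsurj
  let T' : Sylow q Kb := (⟨k, hk⟩ : Kb)⁻¹ • T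
  have hT' : (T' : Subgroup Kb) ≤ (Subgroup.centralizer {xb}).subgroupOf Kb := by
    intro y hy
    rw [Sylow.coe_subgroup_smul] at hy
    obtain ⟨s, hs, rfl⟩ := Subgroup.mem_smul_pointwise_iff_exists _ _ _ |>.1 hy
    have hs' : s ∈ (Q : Subgroup K).map (f.subgroupMap K) := by
      rw [← Sylow.coe_mapSurjective hsurj]; exact hs
    obtain ⟨u, hu, rfl⟩ := hs'
    rw [Subgroup.mem_subgroupOf, Subgroup.mem_centralizer_singleton_iff]
    have hcu : n * (u : G) = (u : G) * n :=
      ((Subgroup.mem_centralizer_iff.1 hnc) (u : G) ⟨u, hu, rfl⟩).symm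
    have hcu' : (k * xb * k⁻¹) * f (u : G) = f (u : G) * (k * xb * k⁻¹) := by
      rw [← hnk, ← map_mul, ← map_mul, hcu]
    have e1 : (((MulAut.conj (⟨k, hk⟩ : Kb)⁻¹ • (f.subgroupMap K) u : Kb)) : G ⧸ L₁)
        = k⁻¹ * f (u : G) * k := by
      simp [MulAut.smul_def]
    rw [e1]
    calc k⁻¹ * f (u : G) * k * xb = k⁻¹ * (f (u : G) * (k * xb * k⁻¹)) * k := by group
      _ = k⁻¹ * ((k * xb * k⁻¹) * f (u : G)) * k := by rw [hcu']
      _ = xb * (k⁻¹ * f (u : G) * k) := by group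
  exact T'.not_dvd_index (hqi.trans (Subgroup.index_dvd_of_le hT'))

/-- Let π be a set of primes and G a finite group such that N_G(H)/C_G(H) is a π'-group for every nontrivial π'-subgroup H of G. If K is a normal subgroup of G such that the π-elements of K form a subgroup and the π-elements of G/K form a subgroup, then the π-elements of G form a subgroup. -/
theorem result {G : Type*} [Group G] [Finite G] (π : Set ℕ)
    (hπ : ∀ p ∈ π, p.Prime) (hhom : (∀ H : Subgroup G, H ≠ ⊥ → (∀ p : ℕ, p.Prime → p ∣ Nat.card ↥H → p ∉ π) →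
        ∀ p : ℕ, p.Prime → p ∣ (Subgroup.centralizer (H : Set G)).relIndex (Subgroup.normalizer (H : Set G)) → p ∉ π))
    (K : Subgroup G) [K.Normal]
    (hK : ∃ L : Subgroup ↥K, ∀ x : ↥K, x ∈ L ↔ ∀ p : ℕ, p.Prime → p ∣ orderOf x → p ∈ π)
    (hQ : ∃ L : Subgroup (G ⧸ K), ∀ x : G ⧸ K, x ∈ L ↔ ∀ p : ℕ, p.Prime → p ∣ orderOf x → p ∈ π) :
    (∃ K : Subgroup G, ∀ x : G, x ∈ K ↔ ∀ p : ℕ, p.Prime → p ∣ orderOf x → p ∈ π) := by

  classical
  obtain ⟨L, hL⟩ := hK
  obtain ⟨LQ, hLQ⟩ := hQ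
  set L₁ : Subgroup G := L.map K.subtype with hL₁
  have mem_L₁ : ∀ x : G, x ∈ L₁ ↔ x ∈ K ∧ piN π (orderOf x) := by
    intro x
    constructor
    · rintro ⟨l, hl, rfl⟩
      refine ⟨l.2, ?_⟩
      have := (hL l).1 hl
      intro p hp hpd
      exact this p hp (by rwa [← Subgroup.orderOf_coe])
    · rintro ⟨hx, hxo⟩
      refine ⟨⟨x, hx⟩, (hL _).2 ?_, rfl⟩
      intro p hp hpd
      exact hxo p hp (by rwa [Subgroup.orderOf_mk] at hpd)
  have hL₁K : L₁ ≤ K := Subgroup.map_subtype_le L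
  haveI hL₁n : L₁.Normal := ⟨fun n hn g => by
    rw [mem_L₁] at hn ⊢
    refine ⟨‹K.Normal›.conj_mem n hn.1 g, ?_⟩
    have : orderOf (g * n * g⁻¹) = orderOf n := (MulAut.conj g).orderOf_eq n
    rw [this]; exact hn.2⟩
  have hL₁π : piN π (Nat.card L₁) := by
    intro p hp hpd
    haveI : Fact p.Prime := ⟨hp⟩
    obtain ⟨w, hw⟩ := exists_prime_orderOf_dvd_card' (G := L₁) p hpd
    have := ((mem_L₁ w).1 w.2).2
    exact this p hp (by rw [Subgroup.orderOf_coe, hw])
  set f := QuotientGroup.mk' L₁ with hf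
  have hKL : piN' π (Nat.card (K.map f)) := by
    intro p hp hpd hpπ
    haveI : Fact p.Prime := ⟨hp⟩
    obtain ⟨w, hw⟩ := exists_prime_orderOf_dvd_card' (G := K.map f) p hpd
    obtain ⟨y, hy, hyw⟩ := w.2
    have hyo : orderOf (f y) = p := by rw [hyw, Subgroup.orderOf_coe, hw]
    obtain ⟨j, a, h1, h2⟩ := ppart f p hp y hyo
    apply h2
    apply (QuotientGroup.eq_one_iff _).2
    exact (mem_L₁ _).2 ⟨K.pow_mem hy j, piN_of_ppow p hp hpπ _ a h1⟩
  have hmul : ∀ x y : G, piN π (orderOf x) → piN π (orderOf y) → piN π (orderOf (x * y)) := by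
    intro x y hx hy
    set M : Subgroup G := LQ.comap (QuotientGroup.mk' K) with hM
    set D : Subgroup (G ⧸ L₁) := M.map f ⊓ Subgroup.centralizer ((K.map f : Subgroup (G ⧸ L₁)) : Set (G ⧸ L₁))
      with hD
    have hmemD : ∀ z : G, piN π (orderOf z) → f z ∈ D := by
      intro z hz
      refine Subgroup.mem_inf.2 ⟨Subgroup.mem_map_of_mem f ?_, ?_⟩
      · rw [hM, Subgroup.mem_comap]
        exact (hLQ _).2 (piN_dvd hz (orderOf_map_dvd (QuotientGroup.mk' K) z))
      · rw [Subgroup.mem_centralizer_iff]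
        intro u hu
        exact (centralizes π hhom K L₁ hL₁π hKL z hz u hu).symm
    have hcenter : piN π (Subgroup.center D).index := by
      intro p hp hpd
      by_contra hpπ
      obtain ⟨w, a, hwN, hwa⟩ := exists_pelt (Subgroup.center D) p hp hpd
      apply hwN
      obtain ⟨g, hg, hgw⟩ := w.2.1
      have hgK : g ∈ K := by
        have h1 : piN π (orderOf (QuotientGroup.mk' K g)) := (hLQ _).1 hg
        have h2 : (QuotientGroup.mk' K g) ^ (p ^ a) = 1 := by
          rw [← map_pow]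
          apply (QuotientGroup.eq_one_iff _).2
          apply hL₁K
          apply (QuotientGroup.eq_one_iff _).1
          show f (g ^ (p ^ a)) = 1
          rw [map_pow, hgw]
          exact congrArg Subtype.val hwa
        have h3 := eq_one_of_both h1 (piN'_of_ppow p hp hpπ _ a h2)
        rw [orderOf_eq_one_iff] at h3
        exact (QuotientGroup.eq_one_iff _).1 h3
      have hwK : (w : G ⧸ L₁) ∈ K.map f := hgw ▸ Subgroup.mem_map_of_mem f hgK
      rw [Subgroup.mem_center_iff]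
      intro z
      apply Subtype.ext
      exact ((Subgroup.mem_centralizer_iff.1 z.2.2) (w : G ⧸ L₁) hwK).symm
    have key := mul_of_center π hcenter ⟨f x, hmemD x hx⟩ ⟨f y, hmemD y hy⟩
      (by rw [Subgroup.orderOf_mk]; exact piN_dvd hx (orderOf_map_dvd f x))
      (by rw [Subgroup.orderOf_mk]; exact piN_dvd hy (orderOf_map_dvd f y))
    apply piN_order_of_quot π L₁ hL₁π
    rw [← Subgroup.orderOf_coe] at key
    rw [map_mul]
    exact key
  refine ⟨{ carrier := {x | piN π (orderOf x)}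
            mul_mem' := fun {a b} ha hb => hmul a b ha hb
            one_mem' := ?_
            inv_mem' := ?_ }, fun x => Iff.rfl⟩
  · intro p hp hpd
    rw [orderOf_one] at hpd
    exact absurd (Nat.dvd_one.1 hpd) hp.one_lt.ne'
  · intro x hx
    show piN π (orderOf x⁻¹)
    rw [orderOf_inv]; exact hx

end Cfsg.Agent.S4051
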