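import Cfsg.Statements.S4050
import Cfsg.Agent.S4051
import Mathlib

set_option autoImplicit false
set_option linter.style.haveILetI false

open Cfsg
open Cfsg.Agent.S4051

namespace Cfsg.Agent.S4050

def HasPi (π : Set ℕ) (X : Type*) [Group X] : Prop :=
  ∃ C : Subgroup X, ∀ x : X, x ∈ C ↔ ∀ p : ℕ, p.Prime → p ∣ orderOf x → p ∈ π

lemma hasPi_congr {π : Set ℕ} {X Y : Type*} [Group X] [Group Y] (e : X ≃* Y) (h : HasPi π Y) :
    HasPi π X := by
  obtain ⟨C, hC⟩ := h
  refine ⟨C.comap e.toMonoidHom, fun x => ?_⟩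
  rw [Subgroup.mem_comap]
  have := hC (e x)
  rw [e.orderOf_eq] at this
  exact this

/-- elementwise form of the hypothesis -/
def HomE (π : Set ℕ) (X : Type*) [Group X] : Prop :=
  ∀ H : Subgroup X, H ≠ ⊥ → piN' π (Nat.card H) → ∀ w ∈ Subgroup.normalizer (H : Set X),
    ∀ p ∈ π, p.Prime → ∀ a : ℕ, w ^ (p ^ a) = 1 → w ∈ Subgroup.centralizer (H : Set X)

def Hom (π : Set ℕ) (X : Type*) [Group X] : Prop :=
  ∀ H : Subgroup X, H ≠ ⊥ → (∀ p : ℕ, p.Prime → p ∣ Nat.card ↥H → p ∉ π) →
    ∀ p : ℕ, p.Prime → p ∣ (Subgroup.centralizer (H : Set X)).relIndex (Subgroup.normalizer (H : Set X)) → p ∉ π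

lemma homE_of_hom {π : Set ℕ} {X : Type*} [Group X] [Finite X] (h : Hom π X) : HomE π X := by
  intro H hH hHπ w hw p hpπ hp a hwa
  have hh := h H hH hHπ
  set φ := H.normalizerMonoidHom with hφ
  have h1 : (φ ⟨w, hw⟩) ^ (p ^ a) = 1 := by
    rw [← map_pow]
    have : (⟨w, hw⟩ : Subgroup.normalizer (H : Set X)) ^ (p ^ a) = 1 := Subtype.ext hwa
    rw [this, map_one]
  have h2 : piN π (orderOf (φ ⟨w, hw⟩)) := piN_of_ppow p hp hpπ _ a h1
  have h3 : piN' π (orderOf (φ ⟨w, hw⟩)) := by
    apply piN'_dvd hh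
    have h3 := orderOf_dvd_natCard (⟨φ ⟨w, hw⟩, ⟨_, rfl⟩⟩ : φ.range)
    have e := Subgroup.orderOf_coe (⟨φ ⟨w, hw⟩, ⟨_, rfl⟩⟩ : φ.range)
    rw [← e, ← Subgroup.index_ker, Subgroup.normalizerMonoidHom_ker] at h3
    exact h3
  have h4 := eq_one_of_both h2 h3
  rw [orderOf_eq_one_iff] at h4
  have h5 : (⟨w, hw⟩ : Subgroup.normalizer (H : Set X)) ∈ φ.ker := h4
  rw [Subgroup.normalizerMonoidHom_ker] at h5
  exact Subgroup.mem_subgroupOf.1 h5

lemma hom_of_homE {π : Set ℕ} {X : Type*} [Group X] [Finite X] (h : HomE π X) : Hom π X := by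
  intro H hH hHπ p hp hpd hpπ
  obtain ⟨w, a, hwN, hwa⟩ := exists_pelt
    ((Subgroup.centralizer (H : Set X)).subgroupOf (Subgroup.normalizer (H : Set X))) p hp hpd
  apply hwN
  rw [Subgroup.mem_subgroupOf]
  exact h H hH hHπ w w.2 p hpπ hp a (congrArg Subtype.val hwa)

lemma homE_subgroup {π : Set ℕ} {X : Type*} [Group X] (S : Subgroup X) (h : HomE π X) : HomE π S := by
  intro H hH hHπ w hw p hpπ hp a hwa
  have hH' : H.map S.subtype ≠ ⊥ := fun e =>
    hH ((Subgroup.map_eq_bot_iff_of_injective _ S.subtype_injective).1 e)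
  have hcard : Nat.card (H.map S.subtype) = Nat.card H :=
    Subgroup.card_map_of_injective S.subtype_injective
  have hwN : (w : X) ∈ Subgroup.normalizer ((H.map S.subtype : Subgroup X) : Set X) := by
    rw [Subgroup.mem_normalizer_iff]
    intro x
    constructor
    · rintro ⟨y, hy, rfl⟩
      exact ⟨w * y * w⁻¹, (Subgroup.mem_normalizer_iff.1 hw y).1 hy, rfl⟩
    · rintro ⟨y, hy, hyx⟩
      refine ⟨w⁻¹ * y * w, ?_, ?_⟩
      · apply (Subgroup.mem_normalizer_iff.1 hw _).2
        have : w * (w⁻¹ * y * w) * w⁻¹ = y := by group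
        rw [this]; exact hy
      · have : (y : X) = (w : X) * x * (w : X)⁻¹ := hyx
        simp [this, mul_assoc]
  have := h (H.map S.subtype) hH' (hcard ▸ hHπ) w hwN p hpπ hp a (congrArg Subtype.val hwa)
  rw [Subgroup.mem_centralizer_iff] at this ⊢
  intro y hy
  exact Subtype.ext (this y ⟨y, hy, rfl⟩)

lemma step {π : Set ℕ} (hπ : ∀ p ∈ π, p.Prime) {Γ : Type*} [Group Γ] [Finite Γ] (hΓ : Hom π Γ)
    (K' : Subgroup Γ) [K'.Normal] (hK : HasPi π K') (hidx : piN π K'.index ∨ piN' π K'.index) :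
    HasPi π Γ := by
  apply Cfsg.Agent.S4051.result π hπ hΓ K' hK
  have hc : Nat.card (Γ ⧸ K') = K'.index := (Subgroup.index_eq_card K').symm
  rcases hidx with h | h
  · refine ⟨⊤, fun x => ⟨fun _ => ?_, fun _ => trivial⟩⟩
    exact piN_dvd h (hc ▸ orderOf_dvd_natCard x)
  · refine ⟨⊥, fun x => ⟨fun hx => ?_, fun hx => ?_⟩⟩
    · rw [Subgroup.mem_bot] at hx
      subst hx
      intro p hp hpd
      rw [orderOf_one] at hpd
      exact absurd (Nat.dvd_one.1 hpd) hp.one_lt.ne'
    · have h1 : piN' π (orderOf x) := piN'_dvd h (hc ▸ orderOf_dvd_natCard x)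
      have h2 := eq_one_of_both (show piN π (orderOf x) from hx) h1
      rw [orderOf_eq_one_iff] at h2
      rw [h2]; exact Subgroup.one_mem _

/-- Let π be a set of primes and G a finite group. The π-elements of G (elements whose order is divisible only by primes of π) form a subgroup if and only if G is π-separable (it has a chain of normal subgroups from 1 to G with each successive index divisible only by primes in π or only by primes outside π) and N_G(H)/C_G(H) is a π'-group for every nontrivial π'-subgroup H of G. -/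
theorem result {G : Type*} [Group G] [Finite G] (π : Set ℕ)
    (hπ : ∀ p ∈ π, p.Prime) :
    (∃ K : Subgroup G, ∀ x : G, x ∈ K ↔ ∀ p : ℕ, p.Prime → p ∣ orderOf x → p ∈ π) ↔
    ((∃ (n : ℕ) (H : Fin (n + 1) → Subgroup G), H 0 = ⊥ ∧ H (Fin.last n) = ⊤ ∧ Monotone H ∧ (∀ i, (H i).Normal) ∧
      ∀ i : Fin n, (∀ q : ℕ, q.Prime → q ∣ (H i.castSucc).relIndex (H i.succ) → q ∈ π) ∨
        (∀ q : ℕ, q.Prime → q ∣ (H i.castSucc).relIndex (H i.succ) → q ∉ π)) ∧
     (∀ H : Subgroup G, H ≠ ⊥ → (∀ p : ℕ, p.Prime → p ∣ Nat.card ↥H → p ∉ π) →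
        ∀ p : ℕ, p.Prime → p ∣ (Subgroup.centralizer (H : Set G)).relIndex (Subgroup.normalizer (H : Set G)) → p ∉ π)) := by

  classical
  constructor
  · rintro ⟨C, hC⟩
    have hC' : ∀ x : G, x ∈ C ↔ piN π (orderOf x) := hC
    haveI hCn : C.Normal := ⟨fun n hn g => by
      rw [hC'] at hn ⊢
      have : orderOf (g * n * g⁻¹) = orderOf n := (MulAut.conj g).orderOf_eq n
      rw [this]; exact hn⟩
    refine ⟨⟨2, ![⊥, C, ⊤], rfl, rfl, ?_, ?_, ?_⟩, ?_⟩
    · rw [Fin.monotone_iff_le_succ]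
      intro i
      fin_cases i
      · exact bot_le
      · exact le_top
    · intro i
      fin_cases i
      · exact Subgroup.normal_bot
      · exact hCn
      · exact Subgroup.normal_top
    · intro i
      fin_cases i
      · left
        intro q hq hqd
        have hqd' : q ∣ Nat.card C := by
          have : (⊥ : Subgroup G).relIndex C = Nat.card C := Subgroup.relIndex_bot_left C
          rw [← this]; exact hqd
        haveI : Fact q.Prime := ⟨hq⟩
        obtain ⟨w, hw⟩ := exists_prime_orderOf_dvd_card' (G := C) q hqd'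
        exact (hC' w).1 w.2 q hq (by rw [Subgroup.orderOf_coe, hw])
      · right
        intro q hq hqd hqπ
        have hqd' : q ∣ C.index := by
          have : C.relIndex ⊤ = C.index := Subgroup.relIndex_top_right C
          rw [← this]; exact hqd
        obtain ⟨w, a, hwN, hwa⟩ := exists_pelt C q hq hqd'
        exact hwN ((hC' w).2 (piN_of_ppow q hq hqπ w a hwa))
    · apply hom_of_homE
      intro H hH hHπ w hw p hpπ hp a hwa
      have hwC : w ∈ C := (hC' w).2 (piN_of_ppow p hp hpπ w a hwa)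
      rw [Subgroup.mem_centralizer_iff]
      intro h hh
      have h1 : w * h * w⁻¹ * h⁻¹ ∈ C := by
        have := C.mul_mem hwC (hCn.conj_mem w⁻¹ (C.inv_mem hwC) h)
        simpa [mul_assoc] using this
      have h2 : w * h * w⁻¹ * h⁻¹ ∈ H :=
        H.mul_mem ((Subgroup.mem_normalizer_iff.1 hw h).1 hh) (H.inv_mem hh)
      have h3 : piN' π (orderOf (w * h * w⁻¹ * h⁻¹)) := by
        apply piN'_dvd hHπ
        have := orderOf_dvd_natCard (⟨_, h2⟩ : H)
        rwa [Subgroup.orderOf_mk] at this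
      have h4 := eq_one_of_both ((hC' _).1 h1) h3
      rw [orderOf_eq_one_iff] at h4
      have h5 := mul_inv_eq_one.1 h4
      exact (mul_inv_eq_iff_eq_mul.1 h5).symm
  · rintro ⟨⟨n, H, h0, hlast, hmono, hn, hfac⟩, hhom⟩
    have hE : HomE π G := homE_of_hom hhom
    have key : ∀ i : Fin (n + 1), HasPi π (H i) := by
      intro i
      induction i using Fin.induction with
      | zero =>
        refine ⟨⊤, fun x => ⟨fun _ => ?_, fun _ => trivial⟩⟩
        have hx : x = 1 := by
          apply Subtype.ext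
          have h1 : (x : G) ∈ (⊥ : Subgroup G) := h0 ▸ x.2
          exact Subgroup.mem_bot.1 h1
        subst hx
        intro p hp hpd
        rw [orderOf_one] at hpd
        exact absurd (Nat.dvd_one.1 hpd) hp.one_lt.ne'
      | succ i ih =>
        haveI := hn i.castSucc
        have hle : H i.castSucc ≤ H i.succ := hmono (Fin.castSucc_lt_succ).le
        exact step hπ (hom_of_homE (homE_subgroup (H i.succ) hE))
          ((H i.castSucc).subgroupOf (H i.succ))
          (hasPi_congr (Subgroup.subgroupOfEquivOfLe hle) ih) (hfac i)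
    exact hasPi_congr ((Subgroup.topEquiv.symm).trans (MulEquiv.subgroupCongr hlast.symm))
      (key (Fin.last n))

end Cfsg.Agent.S4050
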