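import Cfsg.Statements.S4056
import Cfsg.Agent.Lib_helper7_Omega
import Cfsg.Agent.Lib_lead_XS1

set_option autoImplicit false
open Cfsg

namespace Cfsg.Agent.S4056

open scoped commutatorElement

/-- In a finite 2-group of nilpotency class at most 2 and exponent dividing 4, the Frattini subgroup lies in the centre and is elementary abelian. -/
theorem result {P : Type*} [Group P] [Finite P] (hP : IsPGroup 2 P)
    (hcl : Group.nilpotencyClass P ≤ 2) (hexp : Monoid.exponent P ∣ 4) :
    frattini P ≤ Subgroup.center P ∧ Cfsg.IsElementaryAbelian 2 (frattini P) := by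
  haveI : Fact (Nat.Prime 2) := ⟨Nat.prime_two⟩
  haveI := hP.isNilpotent
  have h4 : ∀ x : P, x ^ 4 = 1 := fun x => (Monoid.exponent_dvd_iff_forall_pow_eq_one).1 hexp x
  have hlcs : Subgroup.lowerCentralSeries (⊤ : Subgroup P) 2 = ⊥ := by
    have h := Subgroup.lowerCentralSeries_nilpotencyClass (G := P)
    exact eq_bot_iff.2 (h ▸ Subgroup.lowerCentralSeries_antitone _ hcl)
  have hcc : ∀ x y z : P, Commute ⁅x, y⁆ z := by
    intro x y z
    have h1 : ⁅⁅x, y⁆, z⁆ ∈ Subgroup.lowerCentralSeries (⊤ : Subgroup P) 2 :=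
      Subgroup.commutator_mem_commutator (Subgroup.commutator_mem_commutator (Subgroup.mem_top x)
        (Subgroup.mem_top y)) (Subgroup.mem_top z)
    rw [hlcs, Subgroup.mem_bot] at h1
    exact commutatorElement_eq_one_iff_commute.1 h1
  have hc2 : ∀ x y : P, ⁅y, x⁆ ^ 2 = 1 := by
    intro x y
    have h := H7.mul_pow_class2 (x := x) (y := y) (c := ⁅y, x⁆)
      (by rw [commutatorElement_def]; group) (hcc _ _ _) (hcc _ _ _) 4
    rw [h4, h4, h4] at h
    have h6 : ⁅y, x⁆ ^ 6 = 1 := by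
      have e : Nat.choose 4 2 = 6 := by decide
      rw [e] at h
      simpa using h.symm
    have h8 : ⁅y, x⁆ ^ (4 + 4) = ⁅y, x⁆ ^ 6 * ⁅y, x⁆ ^ 2 := by rw [← pow_add]
    rw [pow_add, h4, h6] at h8
    simpa using h8.symm
  have hsq : ∀ x z : P, Commute (x ^ 2) z := by
    intro x z
    have h := H7.pow_mul_class2 (x := z) (y := x) (c := ⁅x, z⁆)
      (by rw [commutatorElement_def]; group) (hcc _ _ _) 2
    rw [hc2, one_mul] at h
    exact h
  let N : Subgroup P :=
    { carrier := {z | z ∈ Subgroup.center P ∧ z ^ 2 = 1}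
      mul_mem' := by
        rintro a b ⟨ha, ha2⟩ ⟨hb, hb2⟩
        refine ⟨Subgroup.mul_mem _ ha hb, ?_⟩
        have hab : Commute a b := (Subgroup.mem_center_iff.1 ha b).symm
        rw [hab.mul_pow, ha2, hb2, one_mul]
      one_mem' := ⟨Subgroup.one_mem _, one_pow _⟩
      inv_mem' := by
        rintro a ⟨ha, ha2⟩
        exact ⟨Subgroup.inv_mem _ ha, by rw [inv_pow, ha2, inv_one]⟩ }
  have hle : frattini P ≤ N := by
    refine LeadXS.frattini_le (p := 2) N ?_ ?_
    · rw [commutator_def, Subgroup.commutator_le]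
      intro a _ b _
      exact ⟨Subgroup.mem_center_iff.2 fun z => (hcc a b z).eq.symm, hc2 b a⟩
    · intro x
      exact ⟨Subgroup.mem_center_iff.2 fun z => (hsq x z).eq.symm, by rw [← pow_mul]; exact h4 x⟩
  refine ⟨fun z hz => (hle hz).1, ⟨⟨fun a b => Subtype.ext ?_⟩⟩, fun a ha => (hle ha).2⟩
  exact (Subgroup.mem_center_iff.1 (hle a.2).1 b).symm

end Cfsg.Agent.S4056
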