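import Mathlib
import Cfsg.Statements.S4066
import Cfsg.Agent.Lib_helper1_Basic

set_option autoImplicit false
open Cfsg

namespace Cfsg.Agent.S4066

open scoped Pointwise
theorem isPGroup_closure_comm {G : Type*} [Group G] {p k : ℕ} (s : Set G)
    (hcomm : ∀ a ∈ s, ∀ b ∈ s, a * b = b * a) (hpow : ∀ a ∈ s, a ^ p ^ k = 1) :
    IsPGroup p (Subgroup.closure s) := by
  have h1 : Subgroup.closure s ≤ Subgroup.centralizer s :=
    (Subgroup.closure_le _).2 (fun a ha => Subgroup.mem_centralizer_iff.2 (fun b hb => hcomm b hb a ha))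
  have h2 : Subgroup.closure s ≤ Subgroup.centralizer (Subgroup.closure s : Set G) :=
    (Subgroup.closure_le _).2 (fun a ha => Subgroup.mem_centralizer_iff.2
      (fun b hb => (Subgroup.mem_centralizer_iff.1 (h1 hb) a ha).symm))
  have h3 : ∀ a ∈ Subgroup.closure s, a ^ p ^ k = 1 := by
    intro a ha
    induction ha using Subgroup.closure_induction with
    | mem x hx => exact hpow x hx
    | one => exact one_pow _
    | mul x y hx hy ihx ihy =>
      have hc : Commute x y := (Subgroup.mem_centralizer_iff.1 (h2 hy) x hx)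
      rw [hc.mul_pow, ihx, ihy, one_mul]
    | inv x _ ih => rw [inv_pow, ih, inv_one]
  intro a
  exact ⟨k, Subtype.ext (h3 a a.2)⟩

/-- Let G be a finite group in which the centralizer of every element meets each of its conjugates by elements outside its normalizer trivially. Then any two distinct Sylow p-subgroups of G, for any prime p, intersect trivially. -/
theorem result {G : Type*} [Group G] [Finite G] (hTI : ∀ x : G, Cfsg.IsTISubset (Subgroup.centralizer ({x} : Set G) : Set G))
    {p : ℕ} [Fact p.Prime] (P Q : Sylow p G) (hPQ : P ≠ Q) : (P : Subgroup G) ⊓ (Q : Subgroup G) = ⊥ := by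
  by_contra hne
  obtain ⟨y, hy, hy1⟩ := (Subgroup.ne_bot_iff_exists_ne_one).1 hne |>.elim
    (fun y hy => (⟨y.1, y.2, fun h => hy (Subtype.ext h)⟩ : ∃ y : G, y ∈ (P : Subgroup G) ⊓ Q ∧ y ≠ 1))
  haveI : Nontrivial (P : Subgroup G) := ⟨⟨⟨y, hy.1⟩, 1, fun h => hy1 (congrArg Subtype.val h)⟩⟩
  haveI hcn := P.2.center_nontrivial
  obtain ⟨z', hz'⟩ := exists_ne (1 : Subgroup.center (P : Subgroup G))
  set z : G := ((z' : (P : Subgroup G)) : G) with hz
  have hz1 : z ≠ 1 := fun h => hz' (Subtype.ext (Subtype.ext h))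
  have hzP : ∀ t ∈ (P : Subgroup G), t * z = z * t := by
    intro t ht
    exact congrArg Subtype.val ((Subgroup.mem_center_iff.1 z'.2) ⟨t, ht⟩)
  set C := Subgroup.centralizer ({z} : Set G) with hC
  have hmemC : ∀ t, t ∈ C ↔ z * t = t * z := by
    intro t
    rw [hC, Subgroup.mem_centralizer_iff]
    simp
  have hPC : (P : Subgroup G) ≤ C := fun t ht => (hmemC t).2 (hzP t ht).symm
  obtain ⟨g, hg⟩ := MulAction.exists_smul_eq G P Q
  have hQmem : ∀ t, t ∈ (Q : Subgroup G) ↔ g⁻¹ * t * g ∈ (P : Subgroup G) := by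
    intro t
    rw [← hg]
    exact H1.mem_conj_smul
  have hgN : g ∈ Subgroup.normalizer (C : Set G) := by
    by_contra hgN
    have h1 := hTI z g hgN (g⁻¹ * y * g) (hPC ((hQmem y).1 hy.2)) (by
      have : g * (g⁻¹ * y * g) * g⁻¹ = y := by group
      rw [this]; exact hPC hy.1)
    apply hy1
    have : y = g * (g⁻¹ * y * g) * g⁻¹ := by group
    rw [this, h1]; group
  have hQC : (Q : Subgroup G) ≤ C := by
    intro t ht
    have h1 := hPC ((hQmem t).1 ht)
    exact (Subgroup.mem_normalizer_iff''.1 hgN t).2 h1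
  -- C normalizes every centralizer of its elements
  have hCn : ∀ x ∈ C, ∀ c ∈ C, c ∈ Subgroup.normalizer
      ((Subgroup.centralizer ({x} : Set G) : Subgroup G) : Set G) := by
    intro x hx c hc
    by_contra hcn
    apply hz1
    have hzx : z ∈ Subgroup.centralizer ({x} : Set G) := by
      rw [Subgroup.mem_centralizer_iff]
      intro t ht
      rw [Set.mem_singleton_iff.1 ht]
      exact ((hmemC x).1 hx).symm
    apply hTI x c hcn z hzx
    have : c * z * c⁻¹ = z := by
      rw [← (hmemC c).1 hc, mul_inv_cancel_right]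
    rw [this]; exact hzx
  have hcomm1 : ∀ x ∈ C, ∀ c ∈ C, ∀ w ∈ Subgroup.centralizer ({x} : Set G),
      (c * x * c⁻¹) * w = w * (c * x * c⁻¹) := by
    intro x hx c hc w hw
    have h1 := (Subgroup.mem_normalizer_iff''.1 (hCn x hx c hc) w).1 hw
    have h2 := Subgroup.mem_centralizer_iff.1 h1 x (Set.mem_singleton x)
    calc (c * x * c⁻¹) * w = c * (x * (c⁻¹ * w * c)) * c⁻¹ := by group
      _ = c * ((c⁻¹ * w * c) * x) * c⁻¹ := by rw [h2]
      _ = w * (c * x * c⁻¹) := by group
  apply hPQ
  have hle : (P : Subgroup G) ≤ Q := by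
    intro x hx
    have hxC := hPC hx
    set s : Set G := {a | ∃ c ∈ C, a = c * x * c⁻¹} with hs
    have hxx : x ∈ Subgroup.centralizer ({x} : Set G) := by
      rw [Subgroup.mem_centralizer_iff]
      intro t ht
      rw [Set.mem_singleton_iff.1 ht]
    have hsc : ∀ a ∈ s, a ∈ Subgroup.centralizer ({x} : Set G) := by
      rintro _ ⟨c, hc, rfl⟩
      rw [Subgroup.mem_centralizer_iff]
      intro t ht
      rw [Set.mem_singleton_iff.1 ht]
      exact (hcomm1 x hxC c hc x hxx).symm
    obtain ⟨k, hk⟩ := P.2 ⟨x, hx⟩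
    have hk' : x ^ p ^ k = 1 := congrArg Subtype.val hk
    have hAp : IsPGroup p (Subgroup.closure s) := by
      apply isPGroup_closure_comm (k := k)
      · rintro _ ⟨c, hc, rfl⟩ b hb
        exact hcomm1 x hxC c hc b (hsc b hb)
      · rintro _ ⟨c, hc, rfl⟩
        rw [conj_pow, hk']; group
    have hQn : (Q : Subgroup G) ≤ Subgroup.normalizer ((Subgroup.closure s : Subgroup G) : Set G) := by
      intro q hq
      rw [← H1.conj_smul_eq_iff_mem_normalizer]
      have hsub : ∀ r ∈ C, MulAut.conj r • Subgroup.closure s ≤ Subgroup.closure s := by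
        intro r hr
        change (Subgroup.closure s).map (MulAut.conj r).toMonoidHom ≤ _
        rw [MonoidHom.map_closure]
        apply Subgroup.closure_mono
        rintro _ ⟨_, ⟨c, hc, rfl⟩, rfl⟩
        refine ⟨r * c, mul_mem hr hc, ?_⟩
        change r * (c * x * c⁻¹) * r⁻¹ = _
        group
      apply le_antisymm (hsub q (hQC hq))
      have h1 := hsub q⁻¹ (inv_mem (hQC hq))
      rw [← Subgroup.pointwise_smul_le_pointwise_smul_iff (a := MulAut.conj q), map_inv,
        smul_inv_smul] at h1
      exact h1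
    have hsup : IsPGroup p ((Q : Subgroup G) ⊔ Subgroup.closure s : Subgroup G) :=
      Q.2.to_sup_of_normal_right' hAp hQn
    have hmax := Q.is_maximal' hsup le_sup_left
    have hxs : x ∈ Subgroup.closure s :=
      Subgroup.subset_closure ⟨1, one_mem _, by group⟩
    have : x ∈ ((Q : Subgroup G) ⊔ Subgroup.closure s : Subgroup G) := Subgroup.mem_sup_right hxs
    rw [hmax] at this
    exact this
  exact Sylow.ext (P.is_maximal' Q.2 hle).symm

end Cfsg.Agent.S4066
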