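import Cfsg.Statements.S4074

set_option autoImplicit false
open Cfsg

namespace Cfsg.Agent.S4074

open DihedralGroup

theorem r_nsmul_mem {n : ℕ} (H : Subgroup (DihedralGroup n)) (k : ZMod n) (hk : r k ∈ H) (m : ℕ) :
    r (m • k) ∈ H := by
  induction m with
  | zero =>
    rw [zero_nsmul]
    exact H.one_mem
  | succ m ih =>
    have := H.mul_mem ih hk
    rwa [r_mul_r, ← succ_nsmul] at this

theorem selfnorm {n : ℕ} (H : Subgroup (DihedralGroup n)) (i : ZMod n) (hi : sr i ∈ H)
    (hr : ∀ j : ZMod n, r (j + j) ∈ H → r j ∈ H) :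
    Subgroup.normalizer (H : Set (DihedralGroup n)) = H := by
  apply le_antisymm _ Subgroup.le_normalizer
  have hB : ∀ j : ZMod n, r j ∈ Subgroup.normalizer (H : Set (DihedralGroup n)) → r j ∈ H := by
    intro j hj
    apply hr
    have h1 := (Subgroup.mem_normalizer_iff.1 hj (sr i)).1 hi
    have h2 := H.mul_mem h1 hi
    have e : r j * sr i * (r j)⁻¹ * sr i = r (j + j) := by
      rw [show (r j)⁻¹ = r (-j) from rfl, r_mul_sr, sr_mul_r, sr_mul_sr]; congr 1; ring
    rwa [e] at h2
  intro x hx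
  cases x with
  | r j => exact hB j hx
  | sr j =>
    have h1 : r (j - i) ∈ Subgroup.normalizer (H : Set (DihedralGroup n)) := by
      have := mul_mem (Subgroup.le_normalizer hi) hx
      rwa [sr_mul_sr] at this
    have h2 := H.mul_mem hi (hB _ h1)
    rw [sr_mul_r, add_sub_cancel] at h2
    exact h2

theorem exists_sr {n : ℕ} (H : Subgroup (DihedralGroup n)) (hH : ¬ IsMulCommutative H) :
    ∃ i, sr i ∈ H := by
  by_contra hne
  push_neg at hne
  apply hH
  refine ⟨⟨fun a b => ?_⟩⟩
  obtain ⟨a, ha⟩ := a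
  obtain ⟨b, hb⟩ := b
  apply Subtype.ext
  show a * b = b * a
  cases a with
  | sr i => exact absurd ha (hne i)
  | r i =>
    cases b with
    | sr j => exact absurd hb (hne j)
    | r j => rw [r_mul_r, r_mul_r, add_comm]

theorem zmod4 : ∀ d j : ZMod 4, d + d ≠ 0 → ∃ m : Fin 4, (m : ℕ) • d = j := by decide

theorem four_all (H : Subgroup (DihedralGroup 4)) (hH : ¬ IsMulCommutative H) :
    ∀ j : ZMod 4, r j ∈ H := by
  have key : ∀ d : ZMod 4, r d ∈ H → d + d ≠ 0 → ∀ j : ZMod 4, r j ∈ H := by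
    intro d hd hdd j
    obtain ⟨m, rfl⟩ := zmod4 d j hdd
    exact r_nsmul_mem H d hd m
  by_contra hne
  apply hH
  refine ⟨⟨fun a b => ?_⟩⟩
  obtain ⟨a, ha⟩ := a
  obtain ⟨b, hb⟩ := b
  apply Subtype.ext
  show a * b = b * a
  have hz : ∀ d : ZMod 4, r d ∈ H → d + d = 0 := fun d hd => by_contra fun h => hne (key d hd h)
  cases a with
  | r x =>
    cases b with
    | r y => rw [r_mul_r, r_mul_r, add_comm]
    | sr y =>
      rw [r_mul_sr, sr_mul_r]; congr 1
      have := hz x ha
      linear_combination -this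
  | sr x =>
    cases b with
    | r y =>
      rw [sr_mul_r, r_mul_sr]; congr 1
      have := hz y hb
      linear_combination this
    | sr y =>
      rw [sr_mul_sr, sr_mul_sr]; congr 1
      have h1 := H.mul_mem ha hb
      rw [sr_mul_sr] at h1
      have := hz _ h1
      linear_combination this

theorem exists_par {n : ℕ} (h2 : 2 ∣ n) : ∃ φ : DihedralGroup n →* Multiplicative (ZMod 2),
    (∀ i, φ (r i) = Multiplicative.ofAdd (ZMod.castHom h2 (ZMod 2) i)) ∧
    (∀ i, φ (sr i) = Multiplicative.ofAdd (ZMod.castHom h2 (ZMod 2) i)) := by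
  refine ⟨MonoidHom.mk' (fun x => match x with
    | r i => Multiplicative.ofAdd (ZMod.castHom h2 (ZMod 2) i)
    | sr i => Multiplicative.ofAdd (ZMod.castHom h2 (ZMod 2) i)) ?_, fun i => rfl, fun i => rfl⟩
  rintro (a | a) (b | b)
  · rw [r_mul_r]
    show Multiplicative.ofAdd (ZMod.castHom h2 (ZMod 2) (a + b)) =
      Multiplicative.ofAdd (ZMod.castHom h2 (ZMod 2) a) * Multiplicative.ofAdd (ZMod.castHom h2 (ZMod 2) b)
    rw [map_add, ofAdd_add]
  · rw [r_mul_sr]
    show Multiplicative.ofAdd (ZMod.castHom h2 (ZMod 2) (b - a)) =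
      Multiplicative.ofAdd (ZMod.castHom h2 (ZMod 2) a) * Multiplicative.ofAdd (ZMod.castHom h2 (ZMod 2) b)
    rw [map_sub, CharTwo.sub_eq_add, add_comm, ofAdd_add]
  · rw [sr_mul_r]
    show Multiplicative.ofAdd (ZMod.castHom h2 (ZMod 2) (a + b)) =
      Multiplicative.ofAdd (ZMod.castHom h2 (ZMod 2) a) * Multiplicative.ofAdd (ZMod.castHom h2 (ZMod 2) b)
    rw [map_add, ofAdd_add]
  · rw [sr_mul_sr]
    show Multiplicative.ofAdd (ZMod.castHom h2 (ZMod 2) (b - a)) =
      Multiplicative.ofAdd (ZMod.castHom h2 (ZMod 2) a) * Multiplicative.ofAdd (ZMod.castHom h2 (ZMod 2) b)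
    rw [map_sub, CharTwo.sub_eq_add, add_comm, ofAdd_add]

/-- For n > 2, every non-abelian subgroup of the dihedral group of order 2n is self-normalizing if and only if n = 4 or n is odd. -/
theorem result (n : ℕ) (hn : 2 < n) :
    (∀ H : Subgroup (DihedralGroup n), ¬ IsMulCommutative H → Subgroup.normalizer (H : Set (DihedralGroup n)) = H) ↔
    (n = 4 ∨ Odd n) := by
  constructor
  · intro h
    by_contra hcon
    push_neg at hcon
    obtain ⟨hn4, hodd⟩ := hcon
    have heven : Even n := Nat.not_odd_iff_even.1 hodd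
    have h2 : 2 ∣ n := even_iff_two_dvd.1 heven
    obtain ⟨φ, hφr, hφs⟩ := exists_par h2
    have hnc : ¬ IsMulCommutative φ.ker := by
      intro hc
      have hr2 : r (2 : ZMod n) ∈ φ.ker := by
        rw [MonoidHom.mem_ker, hφr, map_ofNat]
        rfl
      have hs0 : sr (0 : ZMod n) ∈ φ.ker := by
        rw [MonoidHom.mem_ker, hφs, map_zero]
        rfl
      have := hc.is_comm.comm ⟨_, hr2⟩ ⟨_, hs0⟩
      have h3 : r (2 : ZMod n) * sr 0 = sr 0 * r 2 := congrArg Subtype.val this
      rw [r_mul_sr, sr_mul_r] at h3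
      have h4 : (0 : ZMod n) - 2 = 0 + 2 := by
        injection h3
      have h5 : ((4 : ℕ) : ZMod n) = 0 := by
        push_cast
        linear_combination -h4
      have h6 := Nat.le_of_dvd (by norm_num) ((ZMod.natCast_eq_zero_iff 4 n).1 h5)
      omega
    have h7 := h φ.ker hnc
    rw [Subgroup.normalizer_eq_top] at h7
    have h8 : r (1 : ZMod n) ∈ φ.ker := h7 ▸ Subgroup.mem_top _
    rw [MonoidHom.mem_ker, hφr, map_one] at h8
    exact absurd h8 (by decide)
  · rintro (rfl | hodd) H hH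
    · obtain ⟨i, hi⟩ := exists_sr H hH
      exact selfnorm H i hi (fun j _ => four_all H hH j)
    · obtain ⟨i, hi⟩ := exists_sr H hH
      refine selfnorm H i hi (fun j hj => ?_)
      obtain ⟨m, hm⟩ := hodd
      have h1 := r_nsmul_mem H _ hj (m + 1)
      have e : ((m + 1) • (j + j) : ZMod n) = j := by
        rw [nsmul_eq_mul]
        have h0 : ((2 * m + 1 : ℕ) : ZMod n) = 0 := by rw [← hm]; exact ZMod.natCast_self n
        push_cast at h0 ⊢
        linear_combination j * h0
      rwa [e] at h1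

end Cfsg.Agent.S4074
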