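import Cfsg.Statements.S4084
import Cfsg.Agent.Lib_helper3_Sylow

set_option autoImplicit false
open Cfsg

namespace Cfsg.Agent.S4084

theorem aux {G H : Type*} [Group G] [Finite G] [Group H] [Finite H] (e : G ≃ H)
    (he : ∀ x y : G, Commute x y ↔ Commute (e x) (e y))
    {p q : ℕ} (hp : p.Prime) (hq : q.Prime) (hpq : p ≠ q) :
    (∃ g : G, orderOf g = p * q) → (∃ h : H, orderOf h = p * q) := by
  classical
  rintro ⟨g, hg⟩
  let A : Subgroup G := Subgroup.centralizer (Subgroup.centralizer ({g} : Set G) : Set G)
  let B : Subgroup H := Subgroup.centralizer (Subgroup.centralizer ({e g} : Set H) : Set H)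
  have hmemA : ∀ x : G, x ∈ A ↔ ∀ y : G, Commute y g → Commute y x := by
    intro x
    show x ∈ Subgroup.centralizer (Subgroup.centralizer ({g} : Set G) : Set G) ↔ _
    rw [Subgroup.mem_centralizer_iff]
    constructor
    · intro h y hy
      exact h y (Subgroup.mem_centralizer_singleton_iff.mpr hy.eq)
    · intro h y hy
      exact (h y (Subgroup.mem_centralizer_singleton_iff.mp hy)).eq
  have hmemB : ∀ x : H, x ∈ B ↔ ∀ y : H, Commute y (e g) → Commute y x := by
    intro x
    show x ∈ Subgroup.centralizer (Subgroup.centralizer ({e g} : Set H) : Set H) ↔ _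
    rw [Subgroup.mem_centralizer_iff]
    constructor
    · intro h y hy
      exact h y (Subgroup.mem_centralizer_singleton_iff.mpr hy.eq)
    · intro h y hy
      exact (h y (Subgroup.mem_centralizer_singleton_iff.mp hy)).eq
  have hAB : ∀ x : G, x ∈ A ↔ e x ∈ B := by
    intro x
    rw [hmemA, hmemB]
    constructor
    · intro h y hy
      obtain ⟨y', rfl⟩ := e.surjective y
      exact (he _ _).mp (h y' ((he _ _).mpr hy))
    · intro h y hy
      exact (he _ _).mpr (h (e y) ((he _ _).mp hy))
  have hcard : Nat.card A = Nat.card B :=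
    Nat.card_congr (e.subtypeEquiv hAB)
  have hgA : g ∈ A := H3.subset_double_centralizer _ rfl
  have hdvd : p * q ∣ Nat.card B := by
    rw [← hcard, ← hg]
    have := orderOf_dvd_natCard (⟨g, hgA⟩ : A)
    rwa [Subgroup.orderOf_mk] at this
  have : Fact p.Prime := ⟨hp⟩
  have : Fact q.Prime := ⟨hq⟩
  obtain ⟨a, ha⟩ := exists_prime_orderOf_dvd_card' p ((dvd_mul_right p q).trans hdvd)
  obtain ⟨b, hb⟩ := exists_prime_orderOf_dvd_card' q ((dvd_mul_left q p).trans hdvd)
  have hcomm : Commute (a : H) (b : H) :=
    H3.commute_of_mem_double_centralizer ({e g} : Set H) (by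
      intro u hu v hv
      rw [Set.mem_singleton_iff] at hu hv
      rw [hu, hv]) a.2 b.2
  refine ⟨(a : H) * b, ?_⟩
  have ha' : orderOf (a : H) = p := by rw [Subgroup.orderOf_coe, ha]
  have hb' : orderOf (b : H) = q := by rw [Subgroup.orderOf_coe, hb]
  rw [hcomm.orderOf_mul_eq_mul_orderOf_of_coprime (by rw [ha', hb']; exact (Nat.coprime_primes hp hq).mpr hpq), ha', hb']

/-- Let G and H be finite groups whose commuting graphs are isomorphic: there is a bijection e : G → H with x, y commuting exactly when e(x), e(y) commute. Then G and H have the same prime graph: for distinct primes p, q, G has an element of order pq if and only if H does (and #G = #H, so the prime divisors agree). -/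
theorem result {G H : Type*} [Group G] [Finite G] [Group H] [Finite H] (e : G ≃ H)
    (he : ∀ x y : G, Commute x y ↔ Commute (e x) (e y))
    {p q : ℕ} (hp : p.Prime) (hq : q.Prime) (hpq : p ≠ q) :
    (∃ g : G, orderOf g = p * q) ↔ (∃ h : H, orderOf h = p * q) := by
  constructor
  · exact aux e he hp hq hpq
  · apply aux e.symm _ hp hq hpq
    intro x y
    rw [he]
    simp

end Cfsg.Agent.S4084
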