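import Cfsg.Statements.S4086


set_option autoImplicit false
open Cfsg

namespace Cfsg.Agent.S4086

theorem gcd_mem {G : Type*} [Group G] (z : G) (n : ℕ) (hn : z ^ n = 1) (i : ℤ) :
    z ^ (Int.gcd i n) ∈ Subgroup.zpowers (z ^ i) := by
  rw [Subgroup.mem_zpowers_iff]
  refine ⟨Int.gcdA i n, ?_⟩
  have h := Int.gcd_eq_gcd_ab i n
  rw [← zpow_natCast z (Int.gcd i n), h, zpow_add, zpow_mul, zpow_mul, zpow_natCast, hn, one_zpow, mul_one]

theorem chain {G : Type*} [Group G] (z : G) (p k : ℕ) (hp : p.Prime) (hz : z ^ (p ^ k) = 1) (i j : ℤ) :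
    z ^ i ∈ Subgroup.zpowers (z ^ j) ∨ z ^ j ∈ Subgroup.zpowers (z ^ i) := by
  have key : ∀ (i j : ℤ) (a b : ℕ), Int.gcd i (p ^ k : ℕ) = p ^ a → Int.gcd j (p ^ k : ℕ) = p ^ b → a ≤ b →
      z ^ j ∈ Subgroup.zpowers (z ^ i) := by
    intro i j a b ha hb hab
    have h1 := gcd_mem z (p ^ k) hz i
    rw [ha] at h1
    have h2 : ((p ^ a : ℕ) : ℤ) ∣ j := by
      have h3 : ((p ^ b : ℕ) : ℤ) ∣ j := hb ▸ Int.gcd_dvd_left _ _
      exact (Int.natCast_dvd_natCast.mpr (pow_dvd_pow p hab)).trans h3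
    obtain ⟨c, hc⟩ := h2
    rw [hc, zpow_mul, zpow_natCast]
    exact Subgroup.zpow_mem _ h1 c
  have hi : Int.gcd i (p ^ k : ℕ) ∣ p ^ k := Int.natCast_dvd_natCast.mp (Int.gcd_dvd_right _ _)
  have hj : Int.gcd j (p ^ k : ℕ) ∣ p ^ k := Int.natCast_dvd_natCast.mp (Int.gcd_dvd_right _ _)
  obtain ⟨a, -, ha⟩ := (Nat.dvd_prime_pow hp).mp hi
  obtain ⟨b, -, hb⟩ := (Nat.dvd_prime_pow hp).mp hj
  rcases le_total a b with hab | hab
  · exact Or.inr (key i j a b ha hb hab)
  · exact Or.inl (key j i b a hb ha hab)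

/-- For a finite group G the following are equivalent: every non-identity element has prime-power order; whenever two elements generate a cyclic subgroup, one of them is a power of the other (the enhanced power graph of G coincides with its power graph). -/
theorem result {G : Type*} [Group G] [Finite G] :
    (∀ g : G, g ≠ 1 → IsPrimePow (orderOf g)) ↔
    (∀ x y : G, IsCyclic ↥(Subgroup.closure ({x, y} : Set G)) → (x ∈ Subgroup.zpowers y ∨ y ∈ Subgroup.zpowers x)) := by
  classical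
  constructor
  · intro h x y hc
    obtain ⟨⟨z, hzc⟩, hz⟩ := hc.exists_generator
    have hx : x ∈ Subgroup.closure ({x, y} : Set G) := Subgroup.subset_closure (by simp)
    have hy : y ∈ Subgroup.closure ({x, y} : Set G) := Subgroup.subset_closure (by simp)
    obtain ⟨i, hi⟩ := Subgroup.mem_zpowers_iff.mp (hz ⟨x, hx⟩)
    obtain ⟨j, hj⟩ := Subgroup.mem_zpowers_iff.mp (hz ⟨y, hy⟩)
    have hi' : z ^ i = x := by simpa using congrArg Subtype.val hi
    have hj' : z ^ j = y := by simpa using congrArg Subtype.val hj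
    by_cases hz1 : z = 1
    · left
      rw [← hi', hz1, one_zpow]; exact one_mem _
    · obtain ⟨p, k, hp, -, hpk⟩ := h z hz1
      rw [← hi', ← hj']
      exact chain z p k hp.nat_prime (by rw [hpk]; exact pow_orderOf_eq_one z) i j
  · intro h g hg
    by_contra hnpp
    have hn0 : orderOf g ≠ 0 := (orderOf_pos g).ne'
    have hn1 : orderOf g ≠ 1 := fun h1 => hg (orderOf_eq_one_iff.mp h1)
    set p := (orderOf g).minFac with hpdef
    have hp : p.Prime := Nat.minFac_prime hn1
    obtain ⟨a, m, hm, hnam⟩ := Nat.exists_eq_pow_mul_and_not_dvd hn0 p hp.ne_one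
    have ha0 : a ≠ 0 := by
      rintro rfl
      apply hm
      rw [pow_zero, one_mul] at hnam
      rw [← hnam]; exact Nat.minFac_dvd _
    have hm0 : m ≠ 0 := by
      rintro rfl
      exact hm (dvd_zero p)
    have hm1 : m ≠ 1 := by
      rintro rfl
      apply hnpp
      rw [hnam, mul_one]
      exact hp.isPrimePow.pow ha0
    have hpa0 : p ^ a ≠ 0 := pow_ne_zero _ hp.ne_zero
    have hox : orderOf (g ^ (p ^ a)) = m := by
      rw [orderOf_pow_of_dvd hpa0 ⟨m, hnam⟩, hnam, Nat.mul_div_cancel_left _ (Nat.pos_of_ne_zero hpa0)]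
    have hoy : orderOf (g ^ m) = p ^ a := by
      rw [orderOf_pow_of_dvd hm0 ⟨p ^ a, by rw [hnam, mul_comm]⟩, hnam, Nat.mul_div_cancel _ (Nat.pos_of_ne_zero hm0)]
    have hle : Subgroup.closure ({g ^ (p ^ a), g ^ m} : Set G) ≤ Subgroup.zpowers g := by
      rw [Subgroup.closure_le]
      rintro w (rfl | rfl)
      · exact Subgroup.pow_mem _ (Subgroup.mem_zpowers g) _
      · exact Subgroup.pow_mem _ (Subgroup.mem_zpowers g) _
    have hcyc : IsCyclic ↥(Subgroup.closure ({g ^ (p ^ a), g ^ m} : Set G)) := Subgroup.isCyclic_of_le hle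
    have hcop : Nat.Coprime (p ^ a) m := Nat.Coprime.pow_left _ ((Nat.Prime.coprime_iff_not_dvd hp).mpr hm)
    rcases h _ _ hcyc with h1 | h1
    · have := orderOf_dvd_of_mem_zpowers h1
      rw [hox, hoy] at this
      exact hm1 (Nat.Coprime.eq_one_of_dvd hcop.symm this)
    · have := orderOf_dvd_of_mem_zpowers h1
      rw [hox, hoy] at this
      exact hm ((dvd_pow_self p ha0).trans this)

end Cfsg.Agent.S4086
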