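import Cfsg.Statements.S4089
import Mathlib
import Cfsg.Agent.Lib_helper1_Basic
import Cfsg.Agent.Lib_helper1_Cores
import Cfsg.Agent.Lib_helper1_PRed2
import Cfsg.Agent.Lib_helper1_SZ
import Cfsg.Agent.Lib_helper1_Coprime

set_option autoImplicit false
open Cfsg

namespace Cfsg.Agent.S4089

open Subgroup Cfsg.Agent

theorem sn_of_pgroup {P : Type*} [Group P] [Finite P] {p : ℕ} [Fact p.Prime] (hP : IsPGroup p P) :
    ∀ (n : ℕ) (H : Subgroup P), Nat.card P ≤ Nat.card H + n → H.IsSubnormal := by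
  haveI := hP.isNilpotent
  have hnc : NormalizerCondition P := Group.normalizerCondition_of_isNilpotent
  intro n
  induction n with
  | zero =>
    intro H h
    rw [Subgroup.eq_top_of_le_card H (by simpa using h)]
    exact IsSubnormal.top
  | succ k ih =>
    intro H h
    by_cases htop : H = ⊤
    · rw [htop]; exact IsSubnormal.top
    · have hlt : H < normalizer (H : Set P) := hnc H (lt_top_iff_ne_top.mpr htop)
      have hc := H1.card_lt_card_of_lt hlt
      exact IsSubnormal.step H _ le_normalizer (ih _ (by omega)) normal_in_normalizer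

theorem grow {G : Type*} [Group G] [Finite G] {p : ℕ} [Fact p.Prime] {R J : Subgroup G}
    (hJ : IsPGroup p J) (hlt : R < J) : ∃ x ∈ J, x ∈ normalizer (R : Set G) ∧ x ∉ R := by
  haveI := hJ.isNilpotent
  have hnc : NormalizerCondition J := Group.normalizerCondition_of_isNilpotent
  have h1 : R.subgroupOf J < ⊤ := by
    rw [lt_top_iff_ne_top]
    intro h
    rw [subgroupOf_eq_top] at h
    exact (not_le_of_gt hlt) h
  have h2 := hnc _ h1
  obtain ⟨x, hxN, hxR⟩ := SetLike.exists_of_lt h2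
  refine ⟨x, x.2, ?_, fun h => hxR (mem_subgroupOf.mpr h)⟩
  rw [mem_normalizer_iff] at hxN ⊢
  intro r
  constructor
  · intro hr
    have := (hxN ⟨r, hlt.le hr⟩).mp (mem_subgroupOf.mpr hr)
    exact mem_subgroupOf.mp this
  · intro hr
    have hrJ : r ∈ J := by
      have h3 : (x : G) * r * (x : G)⁻¹ ∈ J := hlt.le hr
      have h4 := mul_mem (mul_mem (inv_mem x.2) h3) x.2
      simpa [mul_assoc] using h4
    have := (hxN ⟨r, hrJ⟩).mpr (mem_subgroupOf.mpr hr)
    exact mem_subgroupOf.mp this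

section
variable {G : Type*} [Group G] [Finite G] (p : ℕ) [Fact p.Prime]

theorem le_pc (R : Subgroup G) (hR : IsPGroup p R) :
    R ≤ (Cfsg.pCore p (normalizer (R : Set G))).map (normalizer (R : Set G)).subtype := by
  have h1 : R.subgroupOf (normalizer (R : Set G)) ≤ Cfsg.pCore p (normalizer (R : Set G)) :=
    H1.le_pCore p normal_in_normalizer (H1.isPGroup_subgroupOf hR _)
  have h3 := map_mono (f := (normalizer (R : Set G)).subtype) h1
  rwa [map_subgroupOf_eq_of_le le_normalizer] at h3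

theorem le_norm_pcOf (M : Subgroup G) :
    M ≤ normalizer (((Cfsg.pCore p M).map M.subtype : Subgroup G) : Set G) := by
  haveI := H1.pCore_characteristic (G := M) p
  exact le_normalizer.trans (H1.normalizer_le_normalizer_map_of_characteristic M (Cfsg.pCore p M))

theorem part1 (H : Subgroup G) (hH : IsPGroup p H) (g : G) :
    (H.subgroupOf (H ⊔ zpowers g)).IsSubnormal ↔
      ∃ R : Subgroup G, H ≤ R ∧
        (Cfsg.pCore p (normalizer (R : Set G))).map (normalizer (R : Set G)).subtype = R ∧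
        g ∈ normalizer (R : Set G) := by
  obtain ⟨L, hL⟩ : ∃ L, L = H ⊔ zpowers g := ⟨_, rfl⟩
  rw [← hL]
  have hHL : H ≤ L := by rw [hL]; exact le_sup_left
  have hgL : g ∈ L := by rw [hL]; exact mem_sup_right (mem_zpowers g)
  constructor
  · intro hsn
    have h1 : H.subgroupOf L ≤ Cfsg.pCore p L :=
      H1.subnormal_pgroup_le_pCore hsn (H1.isPGroup_subgroupOf hH L)
    have h2 : H ≤ (Cfsg.pCore p L).map L.subtype := by
      have h3 := map_mono (f := L.subtype) h1
      rwa [map_subgroupOf_eq_of_le hHL] at h3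
    have hne : ({R : Subgroup G | IsPGroup p R ∧ H ≤ R ∧ g ∈ normalizer (R : Set G)}).Nonempty :=
      ⟨(Cfsg.pCore p L).map L.subtype, (H1.pCore_isPGroup p).map _, h2, le_norm_pcOf p L hgL⟩
    obtain ⟨R, hR, hmax⟩ := (Set.toFinite _).exists_maximal hne
    refine ⟨R, hR.2.1, ?_, hR.2.2⟩
    apply le_antisymm
    · exact hmax ⟨(H1.pCore_isPGroup p).map _, hR.2.1.trans (le_pc p R hR.1),
        le_norm_pcOf p _ hR.2.2⟩ (le_pc p R hR.1)
    · exact le_pc p R hR.1
  · rintro ⟨R, hHR, hrad, hg⟩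
    have hRp : IsPGroup p R := by rw [← hrad]; exact (H1.pCore_isPGroup p).map _
    have hLN : L ≤ normalizer (R : Set G) := by
      rw [hL]; exact sup_le (hHR.trans le_normalizer) (zpowers_le.mpr hg)
    have hn : (R.subgroupOf L).Normal := normal_subgroupOf_of_le_normalizer hLN
    have hle : H.subgroupOf L ≤ R.subgroupOf L := comap_mono hHR
    apply IsSubnormal.trans hle ?_ hn.isSubnormal
    exact sn_of_pgroup (H1.isPGroup_subgroupOf hRp L) _ _ (Nat.le_add_left _ _)

theorem claimC (R : Subgroup G)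
    (hrad : (Cfsg.pCore p (normalizer (R : Set G))).map (normalizer (R : Set G)).subtype = R)
    (x : G) (hx : ∀ Q : Sylow p G, R ≤ (Q : Subgroup G) → x ∈ (Q : Subgroup G)) : x ∈ R := by
  have hRp : IsPGroup p R := by rw [← hrad]; exact (H1.pCore_isPGroup p).map _
  obtain ⟨J, hJ⟩ : ∃ J, J = sInf {K : Subgroup G | ∃ Q : Sylow p G, R ≤ (Q : Subgroup G) ∧ K = (Q : Subgroup G)} :=
    ⟨_, rfl⟩
  have hJle : ∀ Q : Sylow p G, R ≤ (Q : Subgroup G) → J ≤ (Q : Subgroup G) := by
    intro Q hQ; rw [hJ]; exact sInf_le ⟨Q, hQ, rfl⟩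
  obtain ⟨Q0, hQ0⟩ := hRp.exists_le_sylow
  have hJp : IsPGroup p J := Q0.2.to_le (hJle Q0 hQ0)
  have hRJ : R ≤ J := by
    rw [hJ]; apply le_sInf; rintro K ⟨Q, hQ, rfl⟩; exact hQ
  have hxJ : x ∈ J := by
    rw [hJ, mem_sInf]; rintro K ⟨Q, hQ, rfl⟩; exact hx Q hQ
  have hJR : J = R := by
    by_contra hne
    have hlt : R < J := lt_of_le_of_ne hRJ (fun h => hne h.symm)
    obtain ⟨y, hyJ, hyN, hyR⟩ := grow hJp hlt
    apply hyR
    rw [← hrad]
    refine ⟨⟨y, hyN⟩, ?_, rfl⟩
    show (⟨y, hyN⟩ : normalizer (R : Set G)) ∈ Cfsg.pCore p (normalizer (R : Set G))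
    rw [H1.pCore_eq_iInf_sylow, mem_iInf]
    intro T
    have hTp : IsPGroup p ((T : Subgroup (normalizer (R : Set G))).map (normalizer (R : Set G)).subtype) :=
      T.2.map _
    obtain ⟨Q, hQ⟩ := hTp.exists_le_sylow
    have hRT : R ≤ (T : Subgroup (normalizer (R : Set G))).map (normalizer (R : Set G)).subtype := by
      conv_lhs => rw [← hrad]
      apply map_mono
      rw [H1.pCore_eq_iInf_sylow]
      exact iInf_le _ T
    have hyQ : y ∈ (Q : Subgroup G) := hJle Q (hRT.trans hQ) hyJ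
    have hTQ : (T : Subgroup (normalizer (R : Set G))) ≤ (Q : Subgroup G).subgroupOf (normalizer (R : Set G)) := by
      intro t ht
      rw [mem_subgroupOf]
      exact hQ ⟨t, ht, rfl⟩
    have heq := T.is_maximal' (H1.isPGroup_subgroupOf Q.2 _) hTQ
    have : (⟨y, hyN⟩ : normalizer (R : Set G)) ∈ (Q : Subgroup G).subgroupOf (normalizer (R : Set G)) :=
      mem_subgroupOf.mpr hyQ
    rw [heq] at this
    exact this
  rw [← hJR]; exact hxJ

end

/-- Let G be a finite group, p a prime and H a p-subgroup of G. Then the set of elements g of G such that H is subnormal in the subgroup generated by H and g is the union of the normalizers N_G(R) over the subgroups R of G containing H with R = O_p(N_G(R)); and this set does not change when H is replaced by the intersection of all Sylow p-subgroups of G containing H. -/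
theorem result {G : Type*} [Group G] [Finite G] (p : ℕ) [Fact p.Prime]
    (H : Subgroup G) (hH : IsPGroup p H) :
    {g : G | ((H).subgroupOf (H ⊔ Subgroup.zpowers g)).IsSubnormal} =
      {g : G | ∃ R : Subgroup G, H ≤ R ∧ (Cfsg.pCore p (Subgroup.normalizer (R : Set G))).map (Subgroup.normalizer (R : Set G)).subtype = R ∧ g ∈ Subgroup.normalizer (R : Set G)} ∧
    ∀ g : G, (((H).subgroupOf (H ⊔ Subgroup.zpowers g)).IsSubnormal ↔
      (((sInf {K : Subgroup G | ∃ Q : Sylow p G, H ≤ (Q : Subgroup G) ∧ K = (Q : Subgroup G)})).subgroupOf ((sInf {K : Subgroup G | ∃ Q : Sylow p G, H ≤ (Q : Subgroup G) ∧ K = (Q : Subgroup G)}) ⊔ Subgroup.zpowers g)).IsSubnormal) := by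
  constructor
  · exact Set.ext (fun g => part1 p H hH g)
  · intro g
    obtain ⟨I, hI⟩ : ∃ I, I = sInf {K : Subgroup G | ∃ Q : Sylow p G, H ≤ (Q : Subgroup G) ∧ K = (Q : Subgroup G)} :=
      ⟨_, rfl⟩
    rw [← hI]
    have hHI : H ≤ I := by
      rw [hI]; apply le_sInf; rintro K ⟨Q, hQ, rfl⟩; exact hQ
    have hIp : IsPGroup p I := by
      obtain ⟨Q0, hQ0⟩ := hH.exists_le_sylow
      exact Q0.2.to_le (by rw [hI]; exact sInf_le ⟨Q0, hQ0, rfl⟩)
    rw [part1 p H hH g, part1 p I hIp g]
    constructor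
    · rintro ⟨R, hHR, hrad, hg⟩
      refine ⟨R, ?_, hrad, hg⟩
      intro x hx
      apply claimC p R hrad x
      intro Q hQ
      have : I ≤ (Q : Subgroup G) := by rw [hI]; exact sInf_le ⟨Q, hHR.trans hQ, rfl⟩
      exact this hx
    · rintro ⟨R, hIR, hrad, hg⟩
      exact ⟨R, hHI.trans hIR, hrad, hg⟩

end Cfsg.Agent.S4089
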