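import Cfsg.Statements.S4093
import Mathlib

set_option autoImplicit false
open scoped BigOperators
open Cfsg

namespace Cfsg.Agent.S4093

theorem orbit_card {G : Type*} [Group G] [Finite G] (N : Subgroup G) (x : G) :
    Nat.card {y : G // ∃ n ∈ N, y = n * x * n⁻¹} =
      Nat.card N / Nat.card ↥(N ⊓ Subgroup.centralizer ({x} : Set G)) := by
  classical
  symm
  apply Nat.div_eq_of_eq_mul_left Nat.card_pos
  rw [← Nat.card_prod]
  symm
  have hσ : ∀ y : {y : G // ∃ n ∈ N, y = n * x * n⁻¹}, ∃ n ∈ N, (y : G) = n * x * n⁻¹ := fun y => y.2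
  choose σ hσN hσ using hσ
  let Ψ : {y : G // ∃ n ∈ N, y = n * x * n⁻¹} × ↥(N ⊓ Subgroup.centralizer ({x} : Set G)) → N :=
    fun q => ⟨σ q.1 * (q.2 : G), N.mul_mem (hσN q.1) (Subgroup.mem_inf.mp q.2.2).1⟩
  have hconj : ∀ (y : {y : G // ∃ n ∈ N, y = n * x * n⁻¹})
      (c : ↥(N ⊓ Subgroup.centralizer ({x} : Set G))),
      (σ y * (c : G)) * x * (σ y * (c : G))⁻¹ = (y : G) := by
    intro y c
    have hc : (c : G) * x = x * (c : G) :=
      Subgroup.mem_centralizer_singleton_iff.mp (Subgroup.mem_inf.mp c.2).2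
    calc (σ y * (c : G)) * x * (σ y * (c : G))⁻¹ = σ y * ((c : G) * x) * (c : G)⁻¹ * (σ y)⁻¹ := by group
      _ = σ y * x * (σ y)⁻¹ := by rw [hc]; group
      _ = _ := (hσ y).symm
  apply Nat.card_eq_of_bijective Ψ
  constructor
  · rintro ⟨y, c⟩ ⟨y', c'⟩ h
    have h1 : σ y * (c : G) = σ y' * (c' : G) := congrArg Subtype.val h
    have h2 := hconj y c
    rw [h1, hconj y' c'] at h2
    have h3 : y = y' := (Subtype.ext h2).symm
    subst h3
    have h4 : c = c' := Subtype.ext (mul_left_cancel h1)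
    rw [h4]
  · rintro ⟨n, hn⟩
    let y : {y : G // ∃ n ∈ N, y = n * x * n⁻¹} := ⟨n * x * n⁻¹, n, hn, rfl⟩
    have hy : n * x * n⁻¹ = σ y * x * (σ y)⁻¹ := hσ y
    refine ⟨(y, ⟨(σ y)⁻¹ * n, Subgroup.mem_inf.mpr ⟨N.mul_mem (N.inv_mem (hσN y)) hn, ?_⟩⟩), ?_⟩
    · rw [Subgroup.mem_centralizer_singleton_iff]
      calc (σ y)⁻¹ * n * x = (σ y)⁻¹ * (n * x * n⁻¹) * n := by group
        _ = (σ y)⁻¹ * (σ y * x * (σ y)⁻¹) * n := by rw [hy]
        _ = _ := by group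
    · apply Subtype.ext
      show σ y * ((σ y)⁻¹ * n) = n
      group


/-- Let G be a finite group with a normal subgroup N complementing a Sylow p-subgroup P (a normal p-complement). Then the number of elements of G of p-power order equals the sum over x ∈ P of the index of C_N(x) in N. -/
theorem result {G : Type*} [Group G] [Finite G] (p : ℕ) [Fact p.Prime]
    (P : Sylow p G) (N : Subgroup G) [N.Normal] (hNP : N.IsComplement' (P : Subgroup G)) :
    Nat.card {g : G // ∃ k : ℕ, orderOf g = p ^ k} =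
      ∑ᶠ x : (P : Subgroup G), Nat.card N / Nat.card ↥(N ⊓ Subgroup.centralizer ({(x : G)} : Set G)) := by
  classical
  haveI := Fintype.ofFinite (P : Subgroup G)
  have hp : p.Prime := Fact.out
  rw [finsum_eq_sum_of_fintype, Finset.sum_congr rfl
    (fun (x : (P : Subgroup G)) _ => (orbit_card N (x : G)).symm), ← Nat.card_sigma]
  symm
  have hord : ∀ (x : (P : Subgroup G)) (n : G), ∃ k : ℕ, orderOf (n * (x : G) * n⁻¹) = p ^ k := by
    intro x n
    obtain ⟨k, hk⟩ := P.2 x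
    have hk' : (x : G) ^ (p ^ k) = 1 := congrArg Subtype.val hk
    have h1 : (n * (x : G) * n⁻¹) ^ (p ^ k) = 1 := by rw [conj_pow, hk']; group
    obtain ⟨j, -, hj⟩ := (Nat.dvd_prime_pow hp).mp (orderOf_dvd_of_pow_eq_one h1)
    exact ⟨j, hj⟩
  let Φ : (Σ x : (P : Subgroup G), {y : G // ∃ n ∈ N, y = n * (x : G) * n⁻¹}) →
      {g : G // ∃ k : ℕ, orderOf g = p ^ k} :=
    fun q => ⟨(q.2 : G), by
      obtain ⟨n, -, hn⟩ := q.2.2
      rw [hn]; exact hord q.1 n⟩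
  apply Nat.card_eq_of_bijective Φ
  constructor
  · rintro ⟨x, y, n, hn, hy⟩ ⟨x', y', n', hn', hy'⟩ h
    have h1 : y = y' := congrArg Subtype.val h
    have h2 : (x : G)⁻¹ * (x' : G) ∈ N := by
      have hx' : (x' : G) = n'⁻¹ * (n * (x : G) * n⁻¹) * n' := by rw [← hy, h1, hy']; group
      have e : (x : G)⁻¹ * (x' : G) = ((x : G)⁻¹ * (n'⁻¹ * n) * (x : G)⁻¹⁻¹) * (n⁻¹ * n') := by
        rw [hx']; group
      rw [e]
      exact N.mul_mem (‹N.Normal›.conj_mem _ (N.mul_mem (N.inv_mem hn') hn) _)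
        (N.mul_mem (N.inv_mem hn) hn')
    have h3 : (x : G)⁻¹ * (x' : G) ∈ (P : Subgroup G) := (P : Subgroup G).mul_mem ((P : Subgroup G).inv_mem x.2) x'.2
    have h4 : (x : G)⁻¹ * (x' : G) = 1 :=
      Subgroup.mem_bot.mp (hNP.disjoint.le_bot (Subgroup.mem_inf.mpr ⟨h2, h3⟩))
    have h5 : x = x' := Subtype.ext (inv_mul_eq_one.mp h4)
    subst h5
    subst h1
    rfl
  · rintro ⟨y, k, hk⟩
    have hpg : IsPGroup p (Subgroup.zpowers y) :=
      IsPGroup.of_card (n := k) (by rw [Nat.card_zpowers, hk])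
    obtain ⟨Q, hQ⟩ := hpg.exists_le_sylow
    obtain ⟨g, hg⟩ := MulAction.exists_smul_eq G P Q
    have hyQ : y ∈ (Q : Subgroup G) := hQ (Subgroup.mem_zpowers y)
    rw [← hg, Sylow.smul_def, Sylow.pointwise_smul_def] at hyQ
    obtain ⟨x, hx, hxy⟩ := hyQ
    have hxy' : g * x * g⁻¹ = y := hxy
    obtain ⟨⟨n, u⟩, hnu⟩ := (Subgroup.isComplement'_def.mp hNP).2 g
    have hnu' : (n : G) * (u : G) = g := hnu
    refine ⟨⟨⟨(u : G) * x * (u : G)⁻¹, (P : Subgroup G).mul_mem ((P : Subgroup G).mul_mem u.2 hx)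
      ((P : Subgroup G).inv_mem u.2)⟩, ⟨y, n, n.2, ?_⟩⟩, rfl⟩
    rw [← hxy', ← hnu']
    group

end Cfsg.Agent.S4093
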