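import Cfsg.Statements.S4097
import Cfsg.Agent.Lib_helper3_FrobB
import Cfsg.Agent.Lib_helper3_Solv
import Cfsg.Agent.Lib_helper1_Coprime
import Cfsg.Agent.Lib_helper1_PQ

set_option autoImplicit false
open Cfsg

namespace Cfsg.Agent.S4097

open scoped Pointwise
open Subgroup

universe u

theorem key {G : Type u} [Group G] [Finite G] (A : Subgroup G) (hA : Group.IsSolvable A)
    (hc : ∀ S : Subgroup G, A ≤ S → Group.IsSolvable S → ∀ a ∈ A, ∀ s ∈ S, a * s = s * a)
    (hmax : ∀ L : Subgroup G, A ≤ L → L ≠ ⊤ → L ≤ centralizer (A : Set G)) : A ≤ center G := by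
  classical
  by_contra hcon
  set M := centralizer (A : Set G) with hMdef
  have hmemM : ∀ x, x ∈ M ↔ ∀ a ∈ A, a * x = x * a := fun x => Subgroup.mem_centralizer_iff
  have hS : ∀ S : Subgroup G, A ≤ S → Group.IsSolvable S → S ≤ M := by
    intro S h1 h2 s hs
    rw [hmemM]; intro a ha; exact hc S h1 h2 a ha s hs
  have hAM : A ≤ M := hS A le_rfl hA
  have hMtop : M ≠ ⊤ := by
    intro h
    apply hcon
    intro a ha
    rw [Subgroup.mem_center_iff]
    intro g
    have : g ∈ M := h ▸ mem_top g
    exact ((hmemM g).mp this a ha).symm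
  have hNM : normalizer (M : Set G) ≤ M := by
    by_cases h : normalizer (M : Set G) = ⊤
    · exfalso
      have hMn : M.Normal := normalizer_eq_top_iff.mp h
      let C := M ⊓ centralizer (M : Set G)
      have hCn : C.Normal := inferInstance
      have hAC : A ≤ C := by
        refine le_inf hAM ?_
        intro a ha
        rw [Subgroup.mem_centralizer_iff]
        intro m hm
        exact ((hmemM m).mp hm a ha).symm
      have hCcomm : ∀ a ∈ C, ∀ b ∈ C, a * b = b * a := by
        intro a ha b hb
        exact (Subgroup.mem_centralizer_iff.mp (mem_inf.mp hb).2 a (mem_inf.mp ha).1)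
      apply hMtop
      rw [eq_top_iff]
      intro g _
      have hsol : Group.IsSolvable (C ⊔ zpowers g : Subgroup G) := by
        apply H3.isSolvable_sup_of_le_normalizer _ (H3.isSolvable_of_comm hCcomm)
        · apply H3.isSolvable_of_comm
          intro a ha b hb
          obtain ⟨i, rfl⟩ := mem_zpowers_iff.mp ha
          obtain ⟨j, rfl⟩ := mem_zpowers_iff.mp hb
          rw [← zpow_add, ← zpow_add, add_comm]
        · rw [normalizer_eq_top_iff.mpr hCn]; exact le_top
      exact hS _ (hAC.trans le_sup_left) hsol ((le_sup_right : zpowers g ≤ C ⊔ zpowers g) (mem_zpowers g))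
    · exact hmax _ (hAM.trans le_normalizer) h
  have hTI : ∀ g, g ∉ M → M ⊓ (MulAut.conj g • M) ≤ center G := by
    intro g hg x hx
    obtain ⟨hx1, hx2⟩ := mem_inf.mp hx
    have h1 : ¬ (MulAut.conj g • A ≤ M) := by
      intro hle
      have h2 : A ≤ MulAut.conj g • M := by
        intro a ha
        rw [H3.mem_conj_smul_iff, hmemM]
        intro b hb
        have h3 : g * b * g⁻¹ ∈ M := by
          apply hle
          rw [H3.mem_conj_smul_iff]
          have : g⁻¹ * (g * b * g⁻¹) * g = b := by group
          rw [this]; exact hb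
        have h4 := (hmemM _).mp h3 a ha
        calc b * (g⁻¹ * a * g) = g⁻¹ * ((g * b * g⁻¹) * a) * g := by group
          _ = g⁻¹ * (a * (g * b * g⁻¹)) * g := by rw [h4]
          _ = (g⁻¹ * a * g) * b := by group
      have hcard : Nat.card (MulAut.conj g • M : Subgroup G) = Nat.card M := H3.card_conj_smul M g
      have h5 : MulAut.conj g • M ≠ ⊤ := by
        intro h
        apply hMtop
        apply Subgroup.eq_top_of_card_eq
        rw [← hcard, h, Subgroup.card_top]
      have h6 : MulAut.conj g • M ≤ M := hmax _ h2 h5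
      have h7 : MulAut.conj g • M = M := Subgroup.eq_of_le_of_card_ge h6 hcard.ge
      exact hg (hNM (H1.conj_smul_eq_iff_mem_normalizer.mp h7))
    have h9 : A ⊔ MulAut.conj g • A = ⊤ := by
      by_contra hne
      exact h1 (le_sup_right.trans (hmax _ le_sup_left hne))
    have h10 : A ⊔ MulAut.conj g • A ≤ centralizer {x} := by
      refine sup_le ?_ ?_
      · intro a ha
        rw [Subgroup.mem_centralizer_singleton_iff]
        exact ((hmemM x).mp hx1 a ha)
      · intro b hb
        rw [H3.mem_conj_smul_iff] at hb hx2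
        rw [Subgroup.mem_centralizer_singleton_iff]
        have h4 := (hmemM _).mp hx2 _ hb
        calc b * x = g * ((g⁻¹ * b * g) * (g⁻¹ * x * g)) * g⁻¹ := by group
          _ = g * ((g⁻¹ * x * g) * (g⁻¹ * b * g)) * g⁻¹ := by rw [h4]
          _ = x * b := by group
    rw [h9] at h10
    rw [Subgroup.mem_center_iff]
    intro y
    have := Subgroup.mem_centralizer_singleton_iff.mp (h10 (mem_top y))
    exact this
  let π := QuotientGroup.mk' (center G)
  have hker : π.ker = center G := QuotientGroup.ker_mk' _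
  have hZM : center G ≤ M := by
    intro z hz
    rw [hmemM]
    intro a _
    exact Subgroup.mem_center_iff.mp hz a
  let Mb := M.map π
  have hcomap : Mb.comap π = M := by
    rw [Subgroup.comap_map_eq, hker, sup_eq_left]; exact hZM
  have hFrob : Cfsg.IsFrobeniusComplement Mb := by
    refine ⟨?_, ?_, ?_⟩
    · intro h
      rw [Subgroup.map_eq_bot_iff, hker] at h
      exact hcon (hAM.trans h)
    · intro h
      apply hMtop
      rw [← hcomap, h, Subgroup.comap_top]
    · intro q hq
      obtain ⟨g, rfl⟩ := QuotientGroup.mk'_surjective _ q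
      have hg : g ∉ M := fun h => hq (Subgroup.mem_map_of_mem π h)
      rw [eq_bot_iff]
      intro y hy
      obtain ⟨hy1, hy2⟩ := mem_inf.mp hy
      obtain ⟨m, hm, rfl⟩ := Subgroup.mem_map.mp hy1
      rw [H3.mem_conj_smul_iff] at hy2
      have h1 : g⁻¹ * m * g ∈ M := by
        rw [← hcomap, Subgroup.mem_comap, map_mul, map_mul, map_inv]
        exact hy2
      have h2 : m ∈ center G := hTI g hg (mem_inf.mpr ⟨hm, (H3.mem_conj_smul_iff M g m).mpr h1⟩)
      rw [Subgroup.mem_bot]
      exact (QuotientGroup.eq_one_iff m).mpr h2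
  obtain ⟨K, hK, hKn, hKc⟩ := H3.frobenius_theorem Mb hFrob
  have hcardK : Nat.card K = Mb.index := by
    rw [← H3.frob_card_kernel hFrob, ← hK]; rfl
  have hcop : (Nat.card Mb).Coprime (Nat.card K) := by
    rw [hcardK]
    obtain ⟨t, ht⟩ := H3.frob_index_mod hFrob
    have h1 : 1 ≤ Mb.index := Nat.one_le_iff_ne_zero.mpr Subgroup.index_ne_zero_of_finite
    have h2 : Mb.index = Nat.card Mb * t + 1 := by omega
    rw [h2]
    simp
  let Ab := A.map π
  have hAbM : Ab ≤ Mb := Subgroup.map_mono hAM
  have hcop' : (Nat.card Ab).Coprime (Nat.card K) :=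
    Nat.Coprime.coprime_dvd_left (Subgroup.card_dvd_of_le hAbM) hcop
  have hK1 : Nat.card K ≠ 1 := by
    rw [hcardK]
    intro h
    exact hFrob.2.1 (Subgroup.index_eq_one.mp h)
  have hr : Fact (Nat.card K).minFac.Prime := ⟨Nat.minFac_prime hK1⟩
  have hAbs : Group.IsSolvable Ab := H1.isSolvable_map π hA
  obtain ⟨P, hP⟩ := H1.coprime_invariant_sylow_exists Ab K
    (by rw [normalizer_eq_top_iff.mpr hKn]; exact le_top) hcop' (Or.inl hAbs) (Nat.card K).minFac
  set R := (P : Subgroup K).map K.subtype with hR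
  have hRK : R ≤ K := Subgroup.map_subtype_le _
  have hRne : R ≠ ⊥ := by
    intro h
    rw [hR, Subgroup.map_eq_bot_iff, Subgroup.ker_subtype, le_bot_iff] at h
    exact P.ne_bot_of_dvd_card (Nat.minFac_dvd _) h
  have hRs : Group.IsSolvable R := H1.isSolvable_of_isPGroup (P.2.map K.subtype)
  have hSb : Group.IsSolvable (R ⊔ Ab : Subgroup _) := H3.isSolvable_sup_of_le_normalizer hP hRs hAbs
  have hSs : Group.IsSolvable ((R ⊔ Ab).comap π) := by
    apply H3.isSolvable_comap π _ hSb
    rw [hker]
    apply H3.isSolvable_of_comm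
    intro a ha b _
    exact (Subgroup.mem_center_iff.mp ha b).symm
  have hAS : A ≤ (R ⊔ Ab).comap π := by
    intro a ha
    rw [Subgroup.mem_comap]
    exact (le_sup_right : Ab ≤ R ⊔ Ab) (Subgroup.mem_map_of_mem π ha)
  have hSM := hS _ hAS hSs
  apply hRne
  rw [eq_bot_iff]
  intro y hy
  obtain ⟨s, rfl⟩ := QuotientGroup.mk'_surjective _ y
  have h1 : s ∈ M := hSM (Subgroup.mem_comap.mpr ((le_sup_left : R ≤ R ⊔ Ab) hy))
  have h2 : π s ∈ K ⊓ Mb := mem_inf.mpr ⟨hRK hy, Subgroup.mem_map_of_mem π h1⟩
  rw [hKc.disjoint.eq_bot] at h2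
  exact h2

theorem main (n : ℕ) : ∀ (G : Type u) [Group G] [Finite G], Nat.card G = n → ∀ A : Subgroup G,
    Group.IsSolvable A →
    (∀ S : Subgroup G, A ≤ S → Group.IsSolvable S → ∀ a ∈ A, ∀ s ∈ S, a * s = s * a) →
    A ≤ center G := by
  induction n using Nat.strong_induction_on with
  | _ n ih =>
    intro G _ _ hn A hA hc
    apply key A hA hc
    intro L hAL hL
    have hlt : Nat.card L < n := by
      rw [← hn]
      exact H1.card_lt_of_ne_top hL
    have h0 := ih _ hlt L rfl (A.subgroupOf L) (H1.isSolvable_subgroupOf L hA) (by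
      intro S hS hSs a ha s hs
      have h1 : Group.IsSolvable (S.map L.subtype) := H1.isSolvable_map _ hSs
      have h2 : A ≤ S.map L.subtype := by
        intro x hx
        exact ⟨⟨x, hAL hx⟩, hS (mem_subgroupOf.mpr hx), rfl⟩
      have h3 := hc _ h2 h1 a.1 (mem_subgroupOf.mp ha) s.1 ⟨s, hs, rfl⟩
      exact Subtype.ext h3)
    intro x hx
    rw [Subgroup.mem_centralizer_iff]
    intro a ha
    have h1 : (⟨a, hAL ha⟩ : L) ∈ center L := h0 (mem_subgroupOf.mpr ha)
    have h2 := Subgroup.mem_center_iff.mp h1 ⟨x, hx⟩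
    exact (congrArg Subtype.val h2).symm

/-- Let A be a solvable subgroup of a finite group G such that A lies in the centre of every solvable subgroup of G containing A. Then A lies in the centre of G. -/
theorem result {G : Type*} [Group G] [Finite G]
    (A : Subgroup G) (hA : Group.IsSolvable A)
    (hc : ∀ S : Subgroup G, A ≤ S → Group.IsSolvable S → ∀ a ∈ A, ∀ s ∈ S, a * s = s * a) : A ≤ Subgroup.center G := by
  exact main _ G rfl A hA hc

end Cfsg.Agent.S4097
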