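import Cfsg.Statements.S4106
import Mathlib
import Cfsg.Agent.Lib_helper2_KP2

set_option autoImplicit false
open Cfsg

namespace Cfsg.Agent.S4106

/-- Let G be a finite group, π a set of primes and m the π-part of the order of G. Then the number of conjugacy classes of G consisting of π-elements (elements whose order is divisible only by primes in π) is at most m. -/
theorem result {G : Type*} [Group G] [Finite G]
    (π : Set ℕ) (hπ : ∀ q ∈ π, q.Prime)
    (m : ℕ) (hm : m ∣ Nat.card G) (hmπ : ∀ q : ℕ, q.Prime → q ∣ m → q ∈ π)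
    (hm' : ∀ q ∈ π, ¬ q ∣ Nat.card G / m) :
    Nat.card {C : ConjClasses G // ∀ q : ℕ, q.Prime → (∃ g : G, ConjClasses.mk g = C ∧ q ∣ orderOf g) → q ∈ π} ≤ m := by
  classical
  have hG0 : Nat.card G ≠ 0 := Nat.card_pos.ne'
  have hm0 : m ≠ 0 := fun h => hG0 (by rw [h] at hm; exact Nat.eq_zero_of_zero_dvd hm)
  let σ : Finset ℕ := (Nat.card G).primeFactors.filter (· ∈ π)
  have hσ : ∀ r ∈ σ, r.Prime := fun r hr => Nat.prime_of_mem_primeFactors (Finset.mem_filter.1 hr).1
  have h1 := Cfsg.Agent.H2.kPi_le σ hσ G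
  have h2 : σ.prod (fun r => r ^ (Nat.card G).factorization r) = m := by
    have hq0 : Nat.card G / m ≠ 0 := by
      intro h
      have := Nat.div_mul_cancel hm
      rw [h, zero_mul] at this
      exact hG0 this.symm
    have e1 : σ.prod (fun r => r ^ (Nat.card G).factorization r) = σ.prod (fun r => r ^ m.factorization r) := by
      apply Finset.prod_congr rfl
      intro r hr
      have hrπ : r ∈ π := (Finset.mem_filter.1 hr).2
      have e2 : (Nat.card G).factorization r = m.factorization r := by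
        conv_lhs => rw [← Nat.div_mul_cancel hm]
        rw [Nat.factorization_mul hq0 hm0, Finsupp.add_apply,
          Nat.factorization_eq_zero_of_not_dvd (hm' r hrπ), zero_add]
      rw [e2]
    rw [e1]
    have hsub : m.primeFactors ⊆ σ := by
      intro r hr
      have hr' := Nat.mem_primeFactors.1 hr
      exact Finset.mem_filter.2 ⟨Nat.mem_primeFactors.2 ⟨hr'.1, hr'.2.1.trans hm, hG0⟩, hmπ r hr'.1 hr'.2.1⟩
    rw [← Finset.prod_subset hsub]
    · exact Nat.factorization_prod_pow_eq_self hm0
    · intro r hr hr2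
      have : ¬ r ∣ m := fun hd => hr2 (Nat.mem_primeFactors.2 ⟨hσ r hr, hd, hm0⟩)
      rw [Nat.factorization_eq_zero_of_not_dvd this, pow_zero]
  rw [h2] at h1
  refine le_trans (le_of_eq ?_) h1
  unfold Cfsg.Agent.H2.kPi
  apply Nat.card_congr
  apply Equiv.subtypeEquivRight
  intro C
  constructor
  · intro h x hx r hr hdvd
    refine Finset.mem_coe.2 (Finset.mem_filter.2 ⟨Nat.mem_primeFactors.2 ⟨hr, hdvd.trans (orderOf_dvd_natCard x), hG0⟩, ?_⟩)
    exact h r hr ⟨x, ConjClasses.mem_carrier_iff_mk_eq.1 hx, hdvd⟩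
  · rintro h q hq ⟨g, hg, hdvd⟩
    have := h g (ConjClasses.mem_carrier_iff_mk_eq.2 hg) q hq hdvd
    exact (Finset.mem_filter.1 (Finset.mem_coe.1 this)).2

end Cfsg.Agent.S4106
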