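import Cfsg.Statements.S4107
import Cfsg.Agent.Lib_helper3_Fitting2

set_option autoImplicit false
open Cfsg

namespace Cfsg.Agent.S4107

theorem key {G : Type*} [Group G] [Finite G] (N : Subgroup G) [N.Normal]
    (heq : ∀ x : G, x ∉ N → ∀ n ∈ N, orderOf (x * n) = orderOf x)
    (q : ℕ) [Fact q.Prime] (Q : Subgroup G) [Q.Normal] (hQ : IsPGroup q Q) (x : G) (hxQ : x ∈ Q) (hxN : x ∉ N) :
    IsPGroup q N := by
  intro n
  obtain ⟨a, ha⟩ := hQ ⟨x, hxQ⟩
  have ha' : x ^ q ^ a = 1 := congrArg Subtype.val ha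
  have hD : (Q ⊓ N).Normal := inferInstance
  have hcomm : Commute ((x : G) : G ⧸ (Q ⊓ N)) (((n : G) : G) : G ⧸ (Q ⊓ N)) := by
    show ((x * n : G) : G ⧸ (Q ⊓ N)) = ((n * x : G) : G ⧸ (Q ⊓ N))
    apply QuotientGroup.eq.mpr
    refine Subgroup.mem_inf.mpr ⟨?_, ?_⟩
    · have h1 : (x * (n : G))⁻¹ * (n * x) = ((n : G)⁻¹ * x⁻¹ * ((n : G)⁻¹)⁻¹) * x := by group
      rw [h1]
      exact Q.mul_mem (‹Q.Normal›.conj_mem _ (Q.inv_mem hxQ) _) hxQ
    · have h1 : (x * (n : G))⁻¹ * (n * x) = (n : G)⁻¹ * (x⁻¹ * n * (x⁻¹)⁻¹) := by group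
      rw [h1]
      exact N.mul_mem (N.inv_mem n.2) (‹N.Normal›.conj_mem _ n.2 _)
  have h2 : (x * (n : G)) ^ q ^ a = 1 := by
    have h3 : orderOf (x * (n : G)) = orderOf x := heq x hxN n n.2
    have h4 : orderOf x ∣ q ^ a := orderOf_dvd_of_pow_eq_one ha'
    exact orderOf_dvd_iff_pow_eq_one.mp (h3 ▸ h4)
  have h5 : (((n : G) ^ q ^ a : G) : G ⧸ (Q ⊓ N)) = 1 := by
    have h6 := hcomm.mul_pow (q ^ a)
    have h7 : (((x * (n : G)) ^ q ^ a : G) : G ⧸ (Q ⊓ N)) = ((x ^ q ^ a : G) : G ⧸ (Q ⊓ N)) * (((n : G) ^ q ^ a : G) : G ⧸ (Q ⊓ N)) := h6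
    rw [h2, ha'] at h7
    simpa using h7.symm
  have h8 : (n : G) ^ q ^ a ∈ Q ⊓ N := (QuotientGroup.eq_one_iff _).mp h5
  obtain ⟨b, hb⟩ := hQ ⟨_, (Subgroup.mem_inf.mp h8).1⟩
  have hb' : ((n : G) ^ q ^ a) ^ q ^ b = 1 := congrArg Subtype.val hb
  refine ⟨a + b, ?_⟩
  apply Subtype.ext
  show (n : G) ^ q ^ (a + b) = 1
  rw [pow_add, pow_mul, hb']

theorem sylow_map_normal {G : Type*} [Group G] [Finite G] (F : Subgroup G) [F.Normal] (hF : Group.IsNilpotent F)
    (q : ℕ) [Fact q.Prime] (P : Sylow q F) : ((P : Subgroup F).map F.subtype).Normal := by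
  have h1 : (P : Subgroup F).Normal := inferInstance
  have h2 : (P : Subgroup F).Characteristic := Sylow.characteristic_of_normal P h1
  infer_instance

theorem exists_sylow {G : Type*} [Group G] [Finite G] (F N : Subgroup G) (hFN : ¬ F ≤ N) :
    ∃ (q : ℕ) (_ : Fact q.Prime) (P : Sylow q F), ¬ (P : Subgroup F).map F.subtype ≤ N := by
  by_contra hcon
  push Not at hcon
  apply hFN
  rw [← Subgroup.subgroupOf_eq_top, ← Subgroup.index_eq_one, Nat.eq_one_iff_not_exists_prime_dvd]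
  intro r hr hdvd
  have : Fact r.Prime := ⟨hr⟩
  obtain ⟨P⟩ := (inferInstance : Nonempty (Sylow r F))
  have h1 : (P : Subgroup F) ≤ N.subgroupOf F := by
    intro y hy
    rw [Subgroup.mem_subgroupOf]
    exact hcon r ⟨hr⟩ P (Subgroup.mem_map.mpr ⟨y, hy, rfl⟩)
  exact P.not_dvd_index (hdvd.trans (Subgroup.index_dvd_of_le h1))

/-- Let G be a finite group and N a proper non-trivial normal subgroup such that for every x outside N all elements of the coset xN have the same order as x. Then N ≤ F(G) or F(G) ≤ N, where F(G) is the Fitting subgroup; and if N is properly contained in F(G) then F(G) has prime-power order. -/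
theorem result {G : Type*} [Group G] [Finite G] (N : Subgroup G) [N.Normal] (hN1 : N ≠ ⊥) (hN2 : N ≠ ⊤)
    (heq : ∀ x : G, x ∉ N → ∀ n ∈ N, orderOf (x * n) = orderOf x) :
    (N ≤ Cfsg.fittingSubgroup G ∨ Cfsg.fittingSubgroup G ≤ N) ∧
    (N < Cfsg.fittingSubgroup G → IsPrimePow (Nat.card (Cfsg.fittingSubgroup G))) := by
  classical
  have hFn : (Cfsg.fittingSubgroup G).Normal := H3.fitting_normal
  have hFnil : Group.IsNilpotent (Cfsg.fittingSubgroup G) := H3.fitting_isNilpotent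
  have main : ¬ Cfsg.fittingSubgroup G ≤ N → ∃ (q : ℕ) (_ : Fact q.Prime), IsPGroup q N := by
    intro hFN
    obtain ⟨q, hq, P, hP⟩ := exists_sylow _ N hFN
    obtain ⟨x, hxP, hxN⟩ := SetLike.not_le_iff_exists.mp hP
    have := sylow_map_normal _ hFnil q P
    exact ⟨q, hq, key N heq q _ (P.isPGroup'.map _) x hxP hxN⟩
  constructor
  · by_cases hFN : Cfsg.fittingSubgroup G ≤ N
    · exact Or.inr hFN
    · left
      obtain ⟨q, hq, hNq⟩ := main hFN
      exact H3.le_fitting N inferInstance hNq.isNilpotent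
  · intro hlt
    have hFN : ¬ Cfsg.fittingSubgroup G ≤ N := fun h => absurd hlt (not_lt_of_ge h)
    obtain ⟨q, hq, hNq⟩ := main hFN
    have huniq : ∀ {r : ℕ}, r.Prime → r ∣ Nat.card (Cfsg.fittingSubgroup G) → r = q := by
      intro r hr hdvd
      by_contra hrq
      have : Fact r.Prime := ⟨hr⟩
      obtain ⟨R⟩ := (inferInstance : Nonempty (Sylow r (Cfsg.fittingSubgroup G)))
      have hRbot := R.ne_bot_of_dvd_card hdvd
      obtain ⟨y, hyR, hy1⟩ := (Subgroup.ne_bot_iff_exists_ne_one).mp hRbot |> fun ⟨y, hy⟩ => (⟨y.1, y.2, fun h => hy (Subtype.ext h)⟩ : ∃ y : Cfsg.fittingSubgroup G, y ∈ (R : Subgroup _) ∧ y ≠ 1)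
      have hcop : Nat.Coprime q r := (Nat.coprime_primes hq.out hr).mpr (Ne.symm hrq)
      have honly : ∀ (z : G) (a b : ℕ), z ^ q ^ a = 1 → z ^ r ^ b = 1 → z = 1 := by
        intro z a b h1 h2
        have h3 := Nat.dvd_gcd (orderOf_dvd_of_pow_eq_one h1) (orderOf_dvd_of_pow_eq_one h2)
        rw [Nat.Coprime.pow a b hcop] at h3
        exact orderOf_eq_one_iff.mp (Nat.dvd_one.mp h3)
      have hyN : (y : G) ∉ N := by
        intro hyN
        obtain ⟨a, ha⟩ := hNq ⟨y, hyN⟩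
        obtain ⟨b, hb⟩ := R.isPGroup' ⟨y, hyR⟩
        apply hy1
        apply Subtype.ext
        refine honly y a b (congrArg Subtype.val ha) ?_
        have := congrArg Subtype.val (congrArg Subtype.val hb)
        simpa using this
      have := sylow_map_normal _ hFnil r R
      have hNr : IsPGroup r N := key N heq r ((R : Subgroup _).map (Cfsg.fittingSubgroup G).subtype) (R.isPGroup'.map _) y (Subgroup.mem_map.mpr ⟨y, hyR, rfl⟩) hyN
      apply hN1
      rw [eq_bot_iff]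
      intro n hn
      obtain ⟨a, ha⟩ := hNq ⟨n, hn⟩
      obtain ⟨b, hb⟩ := hNr ⟨n, hn⟩
      rw [Subgroup.mem_bot]
      exact honly n a b (congrArg Subtype.val ha) (congrArg Subtype.val hb)
    have hcard := Nat.eq_prime_pow_of_unique_prime_dvd (Nat.card_pos (α := Cfsg.fittingSubgroup G)).ne' huniq
    rw [hcard]
    apply hq.out.isPrimePow.pow
    intro h0
    rw [h0, pow_zero] at hcard
    have hbot : Cfsg.fittingSubgroup G = ⊥ := (Subgroup.card_eq_one).mp hcard
    rw [hbot] at hlt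
    exact absurd hlt (not_lt_bot)

end Cfsg.Agent.S4107
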