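import Cfsg.Statements.S4108
import Mathlib
import Cfsg.Agent.Lib_lead_Frob4

set_option autoImplicit false
open Cfsg

namespace Cfsg.Agent.S4108

/-- Let G be a finite group, p a prime and N a proper non-trivial normal p-subgroup such that for every x outside N all elements of the coset xN have the same order as x. Then every non-trivial subgroup H of G of order prime to p acts fixed-point-freely on N: NH is a Frobenius group with complement H and kernel N. -/
theorem result {G : Type*} [Group G] [Finite G] (N : Subgroup G) [N.Normal] (hN1 : N ≠ ⊥) (hN2 : N ≠ ⊤)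
    (heq : ∀ x : G, x ∉ N → ∀ n ∈ N, orderOf (x * n) = orderOf x)
    (p : ℕ) [Fact p.Prime] (hNp : IsPGroup p N) :
    ∀ H : Subgroup G, H ≠ ⊥ → (Nat.card H).Coprime p →
      Cfsg.IsFrobeniusComplement (H.subgroupOf (N ⊔ H)) ∧ Cfsg.frobeniusKernel (H.subgroupOf (N ⊔ H)) = (N.subgroupOf (N ⊔ H) : Set ↥(N ⊔ H)) := by
  intro H hH1 hHp
  classical
  have hp : p.Prime := Fact.out
  have hNL : N ≤ N ⊔ H := le_sup_left
  have hHL : H ≤ N ⊔ H := le_sup_right
  obtain ⟨n, hn⟩ := IsPGroup.iff_card.1 hNp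
  have hcop0 : (Nat.card N).Coprime (Nat.card H) := by
    rw [hn]; exact Nat.Coprime.pow_left n hHp.symm
  have hcop : (Nat.card (N.subgroupOf (N ⊔ H))).Coprime (Nat.card (H.subgroupOf (N ⊔ H))) := by
    rw [Cfsg.Agent.H1.card_subgroupOf_of_le hNL, Cfsg.Agent.H1.card_subgroupOf_of_le hHL]
    exact hcop0
  have hsup : N.subgroupOf (N ⊔ H) ⊔ H.subgroupOf (N ⊔ H) = ⊤ := by
    rw [← Subgroup.subgroupOf_sup hNL hHL, Subgroup.subgroupOf_self]
  have hc := Cfsg.Agent.H1.isComplement'_of_sup_of_coprime hsup hcop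
  apply Cfsg.Agent.LeadFrob.frob_of_complement _ _ hc
  · intro h
    apply hN1
    exact Subgroup.card_eq_one.1 (by rw [← Cfsg.Agent.H1.card_subgroupOf_of_le hNL, h, Subgroup.card_bot])
  · intro h
    apply hH1
    exact Subgroup.card_eq_one.1 (by rw [← Cfsg.Agent.H1.card_subgroupOf_of_le hHL, h, Subgroup.card_bot])
  · intro h hh hh1 k hk hkh
    have hh' : (h : G) ∈ H := Subgroup.mem_subgroupOf.1 hh
    have hk' : (k : G) ∈ N := Subgroup.mem_subgroupOf.1 hk
    have hh1' : (h : G) ≠ 1 := fun e => hh1 (Subtype.ext e)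
    have oh : orderOf (h : G) ∣ Nat.card H := by
      have := orderOf_dvd_natCard (⟨(h : G), hh'⟩ : H)
      rwa [Subgroup.orderOf_mk] at this
    have ok : orderOf (k : G) ∣ Nat.card N := by
      have := orderOf_dvd_natCard (⟨(k : G), hk'⟩ : N)
      rwa [Subgroup.orderOf_mk] at this
    have hhN : (h : G) ∉ N := by
      intro hN
      have o2 : orderOf (h : G) ∣ Nat.card N := by
        have := orderOf_dvd_natCard (⟨(h : G), hN⟩ : N)
        rwa [Subgroup.orderOf_mk] at this
      exact hh1' (orderOf_eq_one_iff.1 (Nat.eq_one_of_dvd_coprimes hcop0 o2 oh))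
    have h1 := heq h hhN k hk'
    have hcomm : Commute (h : G) (k : G) := (congrArg Subtype.val hkh).symm
    have hco : (orderOf (h : G)).Coprime (orderOf (k : G)) :=
      Nat.Coprime.coprime_dvd_left oh (Nat.Coprime.coprime_dvd_right ok hcop0.symm)
    rw [hcomm.orderOf_mul_eq_mul_orderOf_of_coprime hco] at h1
    have h2 : orderOf (k : G) = 1 := by
      have hpos := orderOf_pos (h : G)
      exact Nat.eq_of_mul_eq_mul_left hpos (by rw [h1, mul_one])
    exact Subtype.ext (orderOf_eq_one_iff.1 h2)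

end Cfsg.Agent.S4108
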