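import Mathlib
import Cfsg.Statements.S4112
import Cfsg.Agent.Lib_helper1_PNilp2
import Cfsg.Agent.Lib_helper1_PNilp
import Cfsg.Agent.Lib_helper1_Transfer
import Cfsg.Agent.Lib_helper5_PGrp

set_option autoImplicit false
open Cfsg

namespace Cfsg.Agent.S4112

open Subgroup Cfsg.Agent.H1

theorem no_supp {H : Type*} [Group H] [Finite H] (D : Subgroup H) [D.Normal]
    (hD : ∀ X : Subgroup H, X ⊔ D = ⊤ → X = ⊤) (p : ℕ) (hp : p.Prime) (hpH : p ∣ Nat.card H) :
    p ∣ D.index := by
  haveI : Fact p.Prime := ⟨hp⟩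
  by_contra hnd
  obtain ⟨P⟩ : Nonempty (Sylow p H) := inferInstance
  have hPD : (P : Subgroup H) ≤ D := by
    apply le_normal_of_coprime_index
    obtain ⟨n, hn⟩ := P.2.exists_card_eq
    rw [hn]
    exact Nat.Coprime.pow_left _ ((Nat.Prime.coprime_iff_not_dvd hp).mpr hnd)
  have h1 := hD _ (Sylow.normalizer_sup_eq_top' P hPD)
  haveI hPn : (P : Subgroup H).Normal := normalizer_eq_top_iff.mp h1
  obtain ⟨C, hC⟩ := exists_right_complement'_of_coprime (N := (P : Subgroup H)) (by
    obtain ⟨n, hn⟩ := P.2.exists_card_eq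
    rw [hn]
    exact Nat.Coprime.pow_left _ ((Nat.Prime.coprime_iff_not_dvd hp).mpr P.not_dvd_index))
  have h2 : C = ⊤ := by
    apply hD
    rw [eq_top_iff, ← hC.sup_eq_top]
    exact sup_le (hPD.trans le_sup_right) le_sup_left
  have h3 := hC.disjoint.eq_bot
  rw [h2, inf_top_eq] at h3
  have h4 := P.dvd_card_of_dvd_card hpH
  rw [h3, card_bot] at h4
  exact hp.one_lt.ne' (Nat.dvd_one.mp h4)

theorem kl3 {G : Type*} [Group G] [Finite G] (N M : Subgroup G)
    (hcam : ∀ g : G, g ∉ N → ∀ m ∈ M, ∃ x : G, x * g * x⁻¹ = g * m)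
    {x n : G} (hx : x ∉ N) (hn : n ∈ M) (hc : Commute x n)
    (hcop : (orderOf x).Coprime (orderOf n)) : n = 1 := by
  have h1 := hc.orderOf_mul_eq_mul_orderOf_of_coprime hcop
  obtain ⟨y, hy⟩ := hcam x hx n hn
  have h0 : orderOf (x * n) = orderOf x := by
    rw [← hy]
    exact (MulAut.conj y).orderOf_eq x
  rw [h0] at h1
  have h2 : orderOf n = 1 :=
    Nat.eq_of_mul_eq_mul_left (orderOf_pos x) (by rw [mul_one]; exact h1.symm)
  exact orderOf_eq_one_iff.mp h2

/-- Let G be a finite group and M ≤ N non-trivial proper normal subgroups such that for every g outside N the conjugacy class of g is a union of cosets of M (equivalently gm is conjugate to g for every m ∈ M). Then (1) and (2) below are equivalent, and they imply (3): (1) every g outside N acts fixed-point-freely on M, that is C_G(x) ≤ N for every x ∈ M, x ≠ 1; (2) the index of N in G is coprime to the order of M; (3) there is a subgroup H of G with HN = G and H ∩ M = 1. -/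
theorem result {G : Type*} [Group G] [Finite G] (N M : Subgroup G) [N.Normal] [M.Normal] (hMN : M ≤ N) (hM1 : M ≠ ⊥) (hN2 : N ≠ ⊤)
    (hcam : ∀ g : G, g ∉ N → ∀ m ∈ M, ∃ x : G, x * g * x⁻¹ = g * m) :
    ((∀ x ∈ M, x ≠ 1 → Subgroup.centralizer ({x} : Set G) ≤ N) ↔ N.index.Coprime (Nat.card M)) ∧
    ((∀ x ∈ M, x ≠ 1 → Subgroup.centralizer ({x} : Set G) ≤ N) → ∃ H : Subgroup G, H ⊔ N = ⊤ ∧ H ⊓ M = ⊥) := by
  have hMn : M.Normal := inferInstance
  have h12 : (∀ x ∈ M, x ≠ 1 → Subgroup.centralizer ({x} : Set G) ≤ N) →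
      N.index.Coprime (Nat.card M) := by
    intro h1
    by_contra hnc
    obtain ⟨p, hp, hpN, hpM⟩ := Nat.Prime.not_coprime_iff_dvd.mp hnc
    haveI : Fact p.Prime := ⟨hp⟩
    obtain ⟨y, hy⟩ := exists_prime_orderOf_dvd_card' (G := M) p hpM
    have hyo : orderOf (y : G) = p := by
      rw [Subgroup.orderOf_coe]
      exact hy
    have hzp : IsPGroup p (zpowers (y : G)) :=
      IsPGroup.of_card (n := 1) (by rw [Nat.card_zpowers, hyo, pow_one])
    obtain ⟨P, hP⟩ := hzp.exists_le_sylow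
    have hyP : (y : G) ∈ (P : Subgroup G) := hP (mem_zpowers _)
    have hR : ((P : Subgroup G) ⊓ M) ≠ ⊥ := by
      intro hb
      have h2 : (y : G) ∈ (P : Subgroup G) ⊓ M := ⟨hyP, y.2⟩
      rw [hb, mem_bot] at h2
      rw [h2, orderOf_one] at hyo
      exact hp.one_lt.ne hyo
    have hnorm : (P : Subgroup G) ≤ normalizer (((P : Subgroup G) ⊓ M : Subgroup G) : Set G) := by
      intro t ht
      rw [mem_normalizer_iff]
      intro h
      rw [mem_inf, mem_inf]
      constructor
      · rintro ⟨h1, h2⟩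
        exact ⟨(P : Subgroup G).mul_mem ((P : Subgroup G).mul_mem ht h1)
          ((P : Subgroup G).inv_mem ht), hMn.conj_mem h h2 t⟩
      · rintro ⟨h1, h2⟩
        have e : t⁻¹ * (t * h * t⁻¹) * t = h := by group
        refine ⟨?_, ?_⟩
        · have := (P : Subgroup G).mul_mem ((P : Subgroup G).mul_mem
            ((P : Subgroup G).inv_mem ht) h1) ht
          rwa [e] at this
        · have := hMn.conj_mem _ h2 t⁻¹
          rwa [inv_inv, e] at this
    obtain ⟨z, hz, hzo, hzc⟩ := Cfsg.Agent.H5.exists_central_orderOf_eq P.2 inf_le_left hnorm hR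
    have hz1 : z ≠ 1 := by
      intro h
      rw [h, orderOf_one] at hzo
      exact hp.one_lt.ne hzo
    have hPN : (P : Subgroup G) ≤ N := by
      intro t ht
      apply h1 z hz.2 hz1
      rw [mem_centralizer_singleton_iff]
      exact hzc t ht
    exact P.not_dvd_index (hpN.trans (index_dvd_of_le hPN))
  have h21 : N.index.Coprime (Nat.card M) →
      (∀ x ∈ M, x ≠ 1 → Subgroup.centralizer ({x} : Set G) ≤ N) := by
    intro hcop x hxM hx1 g hg
    by_contra hgN
    rw [mem_centralizer_singleton_iff] at hg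
    have hox : orderOf x ≠ 1 := fun h => hx1 (orderOf_eq_one_iff.mp h)
    set p := (orderOf x).minFac with hpdef
    have hp : p.Prime := Nat.minFac_prime hox
    haveI : Fact p.Prime := ⟨hp⟩
    set x' := x ^ (orderOf x / p) with hx'
    have hx'o : orderOf x' = p := orderOf_pow_orderOf_div (orderOf_pos x).ne' (Nat.minFac_dvd _)
    have hx'M : x' ∈ M := pow_mem hxM _
    have hcg : Commute g x' := (show Commute g x from hg).pow_right _
    have hpM : p ∣ Nat.card M := by
      rw [← hx'o]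
      exact Subgroup.orderOf_dvd_natCard M hx'M
    have hpN : ¬ p ∣ N.index := fun hd =>
      Nat.Prime.not_coprime_iff_dvd.mpr ⟨p, hp, hd, hpM⟩ hcop
    obtain ⟨s, hs, t, ht, hst, ⟨k, hsk⟩, htc⟩ := exists_p_decomposition p g
    have hsN : s ∈ N := by
      rw [← QuotientGroup.eq_one_iff]
      apply eq_one_of_pow_eq_one_of_coprime (n := p ^ k)
      · rw [← QuotientGroup.mk_pow, hsk]
        rfl
      · rw [← index_eq_card]
        exact Nat.Coprime.pow_left _ ((Nat.Prime.coprime_iff_not_dvd hp).mpr hpN)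
    have htN : t ∉ N := fun h => hgN (by rw [hst]; exact mul_mem hsN h)
    have hct : Commute t x' := by
      obtain ⟨i, hi⟩ := mem_zpowers_iff.mp ht
      rw [← hi]
      exact hcg.zpow_left i
    have h1 := kl3 N M hcam htN hx'M hct (by rw [hx'o]; exact htc)
    rw [h1, orderOf_one] at hx'o
    exact hp.one_lt.ne hx'o
  refine ⟨⟨h12, h21⟩, fun h1 => ?_⟩
  have hcop := h12 h1
  obtain ⟨H0, hH0⟩ := (Set.toFinite {X : Subgroup G | X ⊔ N = ⊤}).exists_minimal ⟨⊤, top_sup_eq _⟩
  have hH0p : H0 ⊔ N = ⊤ := hH0.prop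
  have hD : ∀ X : Subgroup H0, X ⊔ N.subgroupOf H0 = ⊤ → X = ⊤ := by
    intro X hX
    have h1 : X.map H0.subtype ⊔ N = ⊤ := by
      rw [eq_top_iff, ← hH0p]
      refine sup_le ?_ le_sup_right
      intro y hy
      have h0 : (⟨y, hy⟩ : H0) ∈ X ⊔ N.subgroupOf H0 := by
        rw [hX]
        exact mem_top _
      have h2 : y ∈ (X ⊔ N.subgroupOf H0).map H0.subtype := ⟨⟨y, hy⟩, h0, rfl⟩
      rw [Subgroup.map_sup] at h2
      have h5 : (N.subgroupOf H0).map H0.subtype ≤ N := by
        rw [subgroupOf_map_subtype]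
        exact inf_le_left
      have h6 : X.map H0.subtype ⊔ (N.subgroupOf H0).map H0.subtype ≤ X.map H0.subtype ⊔ N :=
        sup_le_sup_left h5 _
      exact h6 h2
    have h3 := hH0.le_of_le h1 (map_subtype_le X)
    rw [eq_top_iff]
    intro y _
    obtain ⟨y', hy', hyy⟩ := h3 y.2
    have : y' = y := Subtype.ext hyy
    exact this ▸ hy'
  have hidx : (N.subgroupOf H0).index = N.index := by
    have : N.relIndex H0 = N.index := by
      rw [← relIndex_sup_right, hH0p, relIndex_top_right]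
    exact this
  refine ⟨H0, hH0p, ?_⟩
  by_contra hne
  have hc1 : Nat.card (H0 ⊓ M : Subgroup G) ≠ 1 := fun h => hne (card_eq_one.mp h)
  obtain ⟨p, hp, hpd⟩ := Nat.exists_prime_and_dvd hc1
  have hpi := no_supp (N.subgroupOf H0) hD p hp (hpd.trans (card_dvd_of_le inf_le_left))
  rw [hidx] at hpi
  exact Nat.Prime.not_coprime_iff_dvd.mpr ⟨p, hp, hpi, hpd.trans (card_dvd_of_le inf_le_right)⟩ hcop

end Cfsg.Agent.S4112
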