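import Cfsg.Statements.S4116
import Mathlib
import Cfsg.Agent.Lib_lead_Frob
import Cfsg.Agent.Lib_helper2_KP2

set_option autoImplicit false
open Cfsg

namespace Cfsg.Agent.S4116

open scoped Pointwise


/-- Let G be a finite group with a subgroup H whose order is coprime to its index (a Hall subgroup) and which meets each of its conjugates by elements outside N_G(H) trivially. Then every subgroup of G whose order is divisible only by primes dividing the order of H lies in a conjugate of H. -/
theorem result {G : Type*} [Group G] [Finite G] (H : Subgroup G)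
    (hHall : (Nat.card H).Coprime H.index) (hTI : Cfsg.IsTISubset (H : Set G))
    (K : Subgroup G) (hK : ∀ q : ℕ, q.Prime → q ∣ Nat.card K → q ∣ Nat.card H) :
    ∃ g : G, K ≤ H.map (MulAut.conj g).toMonoidHom := by
  classical
  change ∃ g : G, K ≤ MulAut.conj g • H
  have hb : ∀ g x : G, x ∈ H → x ≠ 1 → x ∈ MulAut.conj g • H → MulAut.conj g • H = H := by
    intro g x hx hx1 hxg
    rw [Cfsg.Agent.H1.mem_conj_smul] at hxg
    have hn : g⁻¹ ∈ Subgroup.normalizer (H : Set G) := by
      by_contra hn
      exact hx1 (hTI g⁻¹ hn x hx (by rw [inv_inv]; exact hxg))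
    exact Cfsg.Agent.H1.conj_smul_eq_iff_mem_normalizer.2 (by simpa using inv_mem hn)
  have hc0 : ∀ l : G, (∀ q : ℕ, q.Prime → q ∣ orderOf l → q ∣ Nat.card H) →
      l ∈ Subgroup.normalizer (H : Set G) → l ∈ H := by
    intro l hl hn
    have hcop : (H.relIndex (Subgroup.normalizer (H : Set G))).Coprime (orderOf l) := by
      apply Nat.Coprime.symm
      apply Nat.coprime_of_dvd
      intro q hq hq1 hq2
      have h1 := hl q hq hq1
      have h2 : q ∣ H.index := hq2.trans (Subgroup.relIndex_dvd_index_of_le Subgroup.le_normalizer)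
      exact hq.one_lt.ne' (Nat.eq_one_of_dvd_coprimes hHall h1 h2)
    have : (H.subgroupOf (Subgroup.normalizer (H : Set G))).Normal := Subgroup.normal_in_normalizer
    have h3 := Subgroup.pow_index_mem (H.subgroupOf (Subgroup.normalizer (H : Set G))) ⟨l, hn⟩
    have h4 : l ^ (H.relIndex (Subgroup.normalizer (H : Set G))) ∈ H := by
      have h5 : l ^ (H.subgroupOf (Subgroup.normalizer (H : Set G))).index ∈ H := by
        simpa [Subgroup.mem_subgroupOf] using h3
      exact h5
    obtain ⟨m, hm⟩ := exists_pow_eq_self_of_coprime hcop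
    rw [← hm]; exact H.pow_mem h4 m
  have hc1 : ∀ l ∈ K, ∀ c : G, MulAut.conj (c⁻¹ * l * c) • H = H → l ∈ MulAut.conj c • H := by
    intro l hl c h
    rw [Cfsg.Agent.H1.mem_conj_smul]
    apply hc0 _ _ (Cfsg.Agent.H1.conj_smul_eq_iff_mem_normalizer.1 h)
    intro q hq hqd
    have e : orderOf (c⁻¹ * l * c) = orderOf l := by
      have := Cfsg.Agent.H2.orderOf_conj_eq c⁻¹ l
      rwa [inv_inv] at this
    rw [e] at hqd
    apply hK q hq
    have := orderOf_dvd_natCard (⟨l, hl⟩ : K)
    rw [Subgroup.orderOf_mk] at this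
    exact hqd.trans this
  apply Cfsg.Agent.LeadFrob.le_conj_of_TI H K _ hb
  · intro l hl g h
    apply hc1 l hl g
    rw [map_mul, map_mul, mul_smul, mul_smul, h, ← mul_smul, ← map_mul]; simp
  · intro x hx hx1
    have hox : orderOf x ≠ 1 := fun h => hx1 (orderOf_eq_one_iff.1 h)
    have hq : (orderOf x).minFac.Prime := Nat.minFac_prime hox
    set q := (orderOf x).minFac with hqdef
    have : Fact q.Prime := ⟨hq⟩
    have hqx : q ∣ orderOf x := Nat.minFac_dvd _
    have hqK : q ∣ Nat.card K := by
      have := orderOf_dvd_natCard (⟨x, hx⟩ : K)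
      rw [Subgroup.orderOf_mk] at this
      exact hqx.trans this
    have hqH := hK q hq hqK
    set y := x ^ (orderOf x / q) with hy
    have hoy : orderOf y = q := orderOf_pow_orderOf_div (orderOf_pos x).ne' hqx
    have hy1 : y ≠ 1 := by
      intro h; rw [h, orderOf_one] at hoy; exact hq.one_lt.ne hoy
    obtain ⟨QH⟩ : Nonempty (Sylow q H) := inferInstance
    have hidx : ¬ q ∣ ((QH : Subgroup H).map H.subtype).index := by
      rw [Subgroup.index_map_subtype, hq.dvd_mul]
      rintro (h | h)
      · exact QH.not_dvd_index h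
      · exact hq.one_lt.ne' (Nat.eq_one_of_dvd_coprimes hHall hqH h)
    obtain ⟨z, hz, hzy⟩ := Cfsg.Agent.H2.exists_conj_mem_sylow' ((QH.2.map H.subtype).toSylow hidx) y
      ⟨1, by rw [hoy, pow_one]⟩
    rw [ConjClasses.mk_eq_mk_iff_isConj, isConj_iff] at hzy
    obtain ⟨c, hc⟩ := hzy
    have hzH : z ∈ H := by
      rw [IsPGroup.toSylow_coe] at hz
      obtain ⟨w, _, rfl⟩ := hz
      exact w.2
    have hz1 : z ≠ 1 := by
      rintro rfl
      apply hy1; rw [← hc]; group
    refine ⟨c, hc1 x hx c (hb _ z hzH hz1 ?_)⟩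
    rw [Cfsg.Agent.H1.mem_conj_smul]
    have hcomm : x⁻¹ * y * x = y := by
      have : y * x = x * y := by rw [hy, ← pow_succ, ← pow_succ']
      rw [mul_assoc, this, inv_mul_cancel_left]
    have e : (c⁻¹ * x * c)⁻¹ * z * (c⁻¹ * x * c) = c⁻¹ * (x⁻¹ * (c * z * c⁻¹) * x) * c := by group
    rw [e, hc, hcomm, ← hc]
    have e2 : c⁻¹ * (c * z * c⁻¹) * c = z := by group
    rw [e2]; exact hzH

end Cfsg.Agent.S4116
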