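import Cfsg.Statements.S4117
-- import your own Cfsg.Agent.* helpers here

set_option autoImplicit false
open Cfsg

namespace Cfsg.Agent.S4117

open Subgroup
open scoped Pointwise commutatorElement

theorem mem_zpowers_of_cyclic {P : Type*} [Group P] [Finite P] [IsCyclic P] {p : ℕ} (hp : p.Prime)
    {x y : P} (hx : orderOf x = p) (hy : y ^ p = 1) : y ∈ zpowers x := by
  classical
  letI : Fintype P := Fintype.ofFinite P
  have h1 : (Finset.univ.filter (fun a : P => a ^ p = 1)).card ≤ p :=
    IsCyclic.card_pow_eq_one_le hp.pos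
  have h2 : ((zpowers x : Set P).toFinset) ⊆ Finset.univ.filter (fun a : P => a ^ p = 1) := by
    intro a ha
    rw [Set.mem_toFinset] at ha
    obtain ⟨k, rfl⟩ := ha
    simp only [Finset.mem_filter, Finset.mem_univ, true_and]
    rw [← zpow_natCast, ← zpow_mul, mul_comm, zpow_mul, zpow_natCast, ← hx, pow_orderOf_eq_one,
      one_zpow]
  have h3 : ((zpowers x : Set P).toFinset).card = p := by
    rw [Set.toFinset_card, ← Nat.card_eq_fintype_card]
    exact (Nat.card_zpowers x).trans hx
  have h4 := Finset.eq_of_subset_of_card_le h2 (by rw [h3]; exact h1)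
  have h5 : y ∈ Finset.univ.filter (fun a : P => a ^ p = 1) := by simp [hy]
  rw [← h4, Set.mem_toFinset] at h5
  exact h5

theorem avg {G A : Type*} [Group G] [Finite G] [Group A] [Finite A] [MulDistribMulAction A G]
    (K : Subgroup G) (hKc : ∀ x ∈ K, ∀ y ∈ K, x * y = y * x)
    (hcop : (Nat.card K).Coprime (Nat.card A)) (hK : ∀ (g : G) (a : A), g⁻¹ * a • g ∈ K) :
    (∀ g : G, ∃ e ∈ K, ∀ a : A, a • (g * e) = g * e) ∧
    (K = closure {y : G | ∃ (a : A) (g : G), y = g⁻¹ * a • g} →
      ∀ k ∈ K, (∀ a : A, a • k = k) → k = 1) := by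
  classical
  letI : Fintype A := Fintype.ofFinite A
  letI : CommGroup K :=
    { (inferInstance : Group K) with mul_comm := fun x y => Subtype.ext (hKc x x.2 y y.2) }
  have hinv : ∀ (a : A) (k : G), k ∈ K → a • k ∈ K := by
    intro a k hk
    have := mul_mem hk (hK k a)
    rwa [mul_inv_cancel_left] at this
  let c : G → A → K := fun g a => ⟨g⁻¹ * a • g, hK g a⟩
  let ψ : A → K →* K := fun a =>
    { toFun := fun k => ⟨a • (k : G), hinv a k k.2⟩
      map_one' := Subtype.ext (smul_one a)
      map_mul' := fun x y => Subtype.ext (smul_mul' a (x : G) (y : G)) }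
  have hc : ∀ g a b, ψ a (c g b) = (c g a)⁻¹ * c g (a * b) := by
    intro g a b
    apply Subtype.ext
    show a • (g⁻¹ * b • g) = (g⁻¹ * a • g)⁻¹ * (g⁻¹ * (a * b) • g)
    rw [smul_mul', smul_inv', mul_smul]
    group
  have hm : Fintype.card A = Nat.card A := (Nat.card_eq_fintype_card).symm
  constructor
  · intro g
    set d : K := ∏ b : A, c g b with hd
    have hψd : ∀ a, ψ a d = ((c g a)⁻¹) ^ (Nat.card A) * d := by
      intro a
      rw [hd, map_prod]
      simp only [hc]
      rw [Finset.prod_mul_distrib, Finset.prod_const, Finset.card_univ, hm]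
      congr 1
      exact Fintype.prod_equiv (Equiv.mulLeft a) _ _ (fun b => rfl)
    set e : K := (powCoprime hcop).symm d with he
    have hed : e ^ (Nat.card A) = d := by
      have := (powCoprime hcop).apply_symm_apply d
      rwa [powCoprime_apply] at this
    have hψe : ∀ a, ψ a e = (c g a)⁻¹ * e := by
      intro a
      apply (powCoprime hcop).injective
      rw [powCoprime_apply, powCoprime_apply, ← map_pow, hed, hψd, mul_pow, hed]
    refine ⟨e, e.2, ?_⟩
    intro a
    have h1 := congrArg Subtype.val (hψe a)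
    have h2 : a • (e : G) = (g⁻¹ * a • g)⁻¹ * (e : G) := h1
    rw [smul_mul', h2]
    group
  · intro hKeq k hk hfix
    have hν : ∀ x (hx : x ∈ K), ∏ b : A, ψ b ⟨x, hx⟩ = 1 := by
      intro x hx
      have hx' : x ∈ closure {y : G | ∃ (a : A) (g : G), y = g⁻¹ * a • g} := hKeq ▸ hx
      have key : ∀ x (_ : x ∈ closure {y : G | ∃ (a : A) (g : G), y = g⁻¹ * a • g}),
          ∀ hx : x ∈ K, ∏ b : A, ψ b ⟨x, hx⟩ = 1 := by
        intro x hx'
        induction hx' using closure_induction with
        | mem x hx0 =>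
          intro hx
          obtain ⟨a, g, rfl⟩ := hx0
          have h1 : ∀ b, ψ b ⟨g⁻¹ * a • g, hx⟩ = (c g b)⁻¹ * c g (b * a) := fun b => hc g b a
          simp only [h1]
          rw [Finset.prod_mul_distrib, Finset.prod_inv_distrib]
          have h2 : ∏ b : A, c g (b * a) = ∏ b : A, c g b :=
            Fintype.prod_equiv (Equiv.mulRight a) _ _ (fun b => rfl)
          rw [h2, inv_mul_cancel]
        | one =>
          intro hx
          have h1 : ∀ b, ψ b ⟨1, hx⟩ = 1 := fun b => map_one (ψ b)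
          simp only [h1, Finset.prod_const_one]
        | mul x y hx0 hy0 ihx ihy =>
          intro hxy
          have hxK : x ∈ K := hKeq ▸ hx0
          have hyK : y ∈ K := hKeq ▸ hy0
          have h1 : ∀ b, ψ b ⟨x * y, hxy⟩ = ψ b ⟨x, hxK⟩ * ψ b ⟨y, hyK⟩ :=
            fun b => map_mul (ψ b) ⟨x, hxK⟩ ⟨y, hyK⟩
          simp only [h1]
          rw [Finset.prod_mul_distrib, ihx hxK, ihy hyK, one_mul]
        | inv x hx0 ihx =>
          intro hxi
          have hxK : x ∈ K := hKeq ▸ hx0
          have h1 : ∀ b, ψ b ⟨x⁻¹, hxi⟩ = (ψ b ⟨x, hxK⟩)⁻¹ := fun b => map_inv (ψ b) ⟨x, hxK⟩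
          simp only [h1]
          rw [Finset.prod_inv_distrib, ihx hxK, inv_one]
      exact key x hx' hx
    have h1 := hν k hk
    have h2 : ∀ b, ψ b ⟨k, hk⟩ = ⟨k, hk⟩ := fun b => Subtype.ext (hfix b)
    simp only [h2] at h1
    rw [Finset.prod_const, Finset.card_univ, hm] at h1
    have h3 : (⟨k, hk⟩ : K) = 1 := by
      apply (powCoprime hcop).injective
      rw [powCoprime_apply, powCoprime_apply, h1, one_pow]
    exact congrArg Subtype.val h3

/-- Let A be a finite group acting on the finite group G by automorphisms with the orders of A and G coprime, and suppose every Sylow subgroup of G is cyclic. Then the fixed-point subgroup C_G(A) is a Hall subgroup of G (its order is coprime to its index), the subgroup [G, A] generated by the elements g⁻¹·a(g) is cyclic and normal with [G, A] ∩ C_G(A) = 1 and [G, A]·C_G(A) = G. -/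
theorem result {G A : Type*} [Group G] [Finite G] [Group A] [Finite A]
    [MulDistribMulAction A G] (hcop : (Nat.card A).Coprime (Nat.card G))
    (hcyc : ∀ (p : ℕ) [Fact p.Prime] (P : Sylow p G), IsCyclic (P : Subgroup G)) :
    (Nat.card (MulAction.fixedPoints A G : Set G)).Coprime (Nat.card G / Nat.card (MulAction.fixedPoints A G : Set G)) ∧
    IsCyclic (Subgroup.closure {y : G | ∃ (a : A) (g : G), y = g⁻¹ * a • g}) ∧
    (Subgroup.closure {y : G | ∃ (a : A) (g : G), y = g⁻¹ * a • g}).Normal ∧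
    (Subgroup.closure {y : G | ∃ (a : A) (g : G), y = g⁻¹ * a • g} : Set G) ∩ MulAction.fixedPoints A G = {1} ∧
    Subgroup.closure {y : G | ∃ (a : A) (g : G), y = g⁻¹ * a • g} ⊔ Subgroup.closure (MulAction.fixedPoints A G) = ⊤ := by
  classical
  haveI : IsZGroup G := ⟨fun p hp P => by haveI := Fact.mk hp; exact hcyc p P⟩
  set K := closure {y : G | ∃ (a : A) (g : G), y = g⁻¹ * a • g} with hKdef
  have hKmem : ∀ (g : G) (a : A), g⁻¹ * a • g ∈ K := fun g a => Subgroup.subset_closure ⟨a, g, rfl⟩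
  set N := _root_.commutator G with hN
  haveI hNcyc : IsCyclic N := IsZGroup.isCyclic_commutator G
  haveI hNchar : N.Characteristic := inferInstance
  haveI hNn : N.Normal := inferInstance
  have hNinv : ∀ (a : A) (n : G), n ∈ N → a • n ∈ N := by
    intro a n hn
    have h1 := hNchar.fixed (MulDistribMulAction.toMulAut A G a)
    rw [← h1] at hn
    exact hn
  have hpow : ∀ a : A, ∃ l : ℤ, ∀ x ∈ N, a • x = x ^ l := by
    intro a
    obtain ⟨⟨n₀, hn₀⟩, hgen⟩ := IsCyclic.exists_generator (α := N)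
    obtain ⟨l, hl⟩ := hgen ⟨a • n₀, hNinv a n₀ hn₀⟩
    have hl' : n₀ ^ l = a • n₀ := congrArg Subtype.val hl
    refine ⟨l, fun x hx => ?_⟩
    obtain ⟨j, hj⟩ := hgen ⟨x, hx⟩
    have hj' : n₀ ^ j = x := congrArg Subtype.val hj
    rw [← hj', smul_zpow', ← hl', ← zpow_mul, ← zpow_mul, mul_comm]
  set M := centralizer (N : Set G) with hM
  have hKM : K ≤ M := by
    rw [hKdef, closure_le]
    rintro _ ⟨a, g, rfl⟩
    show g⁻¹ * a • g ∈ centralizer (N : Set G)
    rw [mem_centralizer_iff]
    intro n hn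
    obtain ⟨l, hl⟩ := hpow a
    have hn' : a⁻¹ • n ∈ N := hNinv a⁻¹ n hn
    have e1 : a • (g * (a⁻¹ • n) * g⁻¹) = g * n * g⁻¹ := by
      rw [hl _ (hNn.conj_mem _ hn' g), conj_zpow, ← hl _ hn', smul_inv_smul]
    rw [smul_mul', smul_mul', smul_inv', smul_inv_smul] at e1
    have e2 : a • g * n = g * n * g⁻¹ * a • g := by
      rw [← e1]; group
    calc n * (g⁻¹ * a • g) = g⁻¹ * (g * n * g⁻¹ * a • g) := by group
      _ = g⁻¹ * (a • g * n) := by rw [e2]
      _ = g⁻¹ * a • g * n := by group
  haveI : Group.IsNilpotent M := by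
    apply Subgroup.isNilpotent_of_ker_le_center (Abelianization.of (G := M))
    rw [Abelianization.ker_of, commutator_def, Subgroup.commutator_le]
    intro x _ y _
    rw [mem_center_iff]
    intro z
    apply Subtype.ext
    have h1 : ((⁅x, y⁆ : M) : G) ∈ N := by
      have : ((⁅x, y⁆ : M) : G) = ⁅(x : G), (y : G)⁆ := by
        simp [commutatorElement_def]
      rw [this]
      exact commutator_mem_commutator (mem_top _) (mem_top _)
    exact ((mem_centralizer_iff.1 z.2) _ h1).symm
  haveI hMcyc : IsCyclic M := inferInstance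
  have hKcyc : IsCyclic K := isCyclic_of_injective (inclusion hKM) (inclusion_injective hKM)
  have hKc : ∀ x ∈ K, ∀ y ∈ K, x * y = y * x := by
    intro x hx y hy
    letI := IsCyclic.commGroup (α := M)
    exact congrArg Subtype.val (mul_comm (⟨x, hKM hx⟩ : M) ⟨y, hKM hy⟩)
  have hKn : K.Normal := by
    have h1 : ∀ x : G, K.map (MulAut.conj x).toMonoidHom ≤ K := by
      intro x
      conv_lhs => rw [hKdef, MonoidHom.map_closure]
      rw [closure_le]
      rintro _ ⟨_, ⟨a, g, rfl⟩, rfl⟩
      show x * (g⁻¹ * a • g) * x⁻¹ ∈ K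
      have e : x * (g⁻¹ * a • g) * x⁻¹ =
          ((g * x⁻¹)⁻¹ * a • (g * x⁻¹)) * ((x⁻¹)⁻¹ * a • x⁻¹)⁻¹ := by
        rw [smul_mul']; group
      rw [e]
      exact mul_mem (hKmem _ _) (inv_mem (hKmem _ _))
    exact ⟨fun k hk x => h1 x ⟨k, hk, rfl⟩⟩
  have hcop' : (Nat.card K).Coprime (Nat.card A) :=
    Nat.Coprime.coprime_dvd_left (card_subgroup_dvd_card K) hcop.symm
  obtain ⟨h5, h4'⟩ := avg K hKc hcop' hKmem
  have h4 := h4' hKdef
  set F := FixedPoints.subgroup A G with hF
  have hFcoe : (F : Set G) = MulAction.fixedPoints A G := rfl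
  have hdisj : Disjoint F K := by
    rw [disjoint_def]
    intro x hxF hxK
    exact h4 x hxK hxF
  have hmul : (F : Set G) * (K : Set G) = Set.univ := by
    rw [Set.eq_univ_iff_forall]
    intro g
    obtain ⟨e, he, hfix⟩ := h5 g
    exact ⟨g * e, hfix, e⁻¹, inv_mem he, by simp⟩
  have hcompl := isComplement'_of_disjoint_and_mul_eq_univ hdisj hmul
  have hcard : Nat.card F * Nat.card K = Nat.card G := hcompl.card_mul_card
  refine ⟨?_, hKcyc, hKn, ?_, ?_⟩
  · have e1 : Nat.card (MulAction.fixedPoints A G : Set G) = Nat.card F := rfl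
    rw [e1, ← hcard, Nat.mul_div_cancel_left _ Nat.card_pos]
    apply Nat.coprime_of_dvd
    intro p hp hpF hpK
    haveI := Fact.mk hp
    obtain ⟨x, hx⟩ := exists_prime_orderOf_dvd_card' (G := F) p hpF
    obtain ⟨y, hy⟩ := exists_prime_orderOf_dvd_card' (G := K) p hpK
    rw [← Subgroup.orderOf_coe] at hx hy
    have hpx : IsPGroup p (zpowers (x : G)) :=
      IsPGroup.of_card (n := 1) (by rw [Nat.card_zpowers, hx, pow_one])
    have hpy : IsPGroup p (zpowers (y : G)) :=
      IsPGroup.of_card (n := 1) (by rw [Nat.card_zpowers, hy, pow_one])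
    obtain ⟨P, hP⟩ := hpx.exists_le_sylow
    obtain ⟨P', hP'⟩ := hpy.exists_le_sylow
    obtain ⟨g, rfl⟩ := MulAction.exists_smul_eq G P' P
    have hy' : g * (y : G) * g⁻¹ ∈ ((g • P' : Sylow p G) : Subgroup G) := by
      rw [Sylow.coe_subgroup_smul]
      have := Subgroup.smul_mem_pointwise_smul (y : G) (MulAut.conj g) (P' : Subgroup G)
        (hP' (mem_zpowers _))
      simpa [MulAut.smul_def] using this
    haveI : IsCyclic ((g • P' : Sylow p G) : Subgroup G) := hcyc p _
    have h6 := mem_zpowers_of_cyclic (P := ((g • P' : Sylow p G) : Subgroup G)) hp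
      (x := ⟨(x : G), hP (mem_zpowers _)⟩) (y := ⟨g * (y : G) * g⁻¹, hy'⟩)
      (by rw [Subgroup.orderOf_mk]; exact hx)
      (by
        apply Subtype.ext
        show (g * (y : G) * g⁻¹) ^ p = 1
        rw [conj_pow, ← hy, pow_orderOf_eq_one]; group)
    obtain ⟨k, hk⟩ := h6
    have hk' : (x : G) ^ k = g * (y : G) * g⁻¹ := congrArg Subtype.val hk
    have h7 : g * (y : G) * g⁻¹ ∈ F := by rw [← hk']; exact zpow_mem x.2 k
    have h8 : g * (y : G) * g⁻¹ = 1 := h4 _ (hKn.conj_mem _ y.2 g) h7
    have h9 : (y : G) = 1 := by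
      have : (y : G) = g⁻¹ * (g * (y : G) * g⁻¹) * g := by group
      rw [this, h8]; group
    rw [h9, orderOf_one] at hy
    exact hp.one_lt.ne hy
  · ext x
    constructor
    · rintro ⟨hxK, hxF⟩
      exact h4 x hxK hxF
    · intro hx
      rw [Set.mem_singleton_iff] at hx
      rw [hx]
      exact ⟨one_mem _, fun a => smul_one a⟩
  · rw [eq_top_iff]
    intro g _
    obtain ⟨e, he, hfix⟩ := h5 g
    have : g = e⁻¹⁻¹ * e⁻¹ * g := by group
    have e2 : g = (g * e * g⁻¹)⁻¹ * (g * e) := by group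
    rw [e2]
    exact mul_mem (mem_sup_left (inv_mem (hKn.conj_mem _ he g)))
      (mem_sup_right (Subgroup.subset_closure hfix))

end Cfsg.Agent.S4117
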