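import Cfsg.Statements.S4142
import Mathlib
import Cfsg.Agent.Lib_helper1_Hall

set_option autoImplicit false
open Cfsg

namespace Cfsg.Agent.S4142

theorem camina_key {G : Type*} [Group G] [Finite G] (N : Subgroup G) [hN : N.Normal] (g : G) :
    Nat.card (Subgroup.centralizer ({(QuotientGroup.mk g : G ⧸ N)} : Set (G ⧸ N))) * Nat.card N =
      Nat.card {n : N // ∃ x : G, x * g * x⁻¹ = g * n} *
        Nat.card (Subgroup.centralizer ({g} : Set G)) := by
  classical
  rw [← Cfsg.Agent.H1.card_comap_mk, ← Nat.card_prod]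
  symm
  have hσ : ∀ n : {n : N // ∃ x : G, x * g * x⁻¹ = g * n}, ∃ x : G, x * g * x⁻¹ = g * (n.1 : G) :=
    fun n => n.2
  choose σ hσ using hσ
  have hconj : ∀ (n : {n : N // ∃ x : G, x * g * x⁻¹ = g * n})
      (c : Subgroup.centralizer ({g} : Set G)),
      (σ n * (c : G)) * g * (σ n * (c : G))⁻¹ = g * (n.1 : G) := by
    intro n c
    have hc : (c : G) * g = g * (c : G) := Subgroup.mem_centralizer_singleton_iff.mp c.2
    calc (σ n * (c : G)) * g * (σ n * (c : G))⁻¹ = σ n * ((c : G) * g) * (c : G)⁻¹ * (σ n)⁻¹ := by group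
      _ = σ n * g * (σ n)⁻¹ := by rw [hc]; group
      _ = _ := hσ n
  have hmemD : ∀ x : G, x ∈ (Subgroup.centralizer ({(QuotientGroup.mk g : G ⧸ N)} : Set (G ⧸ N))).comap
      (QuotientGroup.mk' N) ↔ g⁻¹ * (x * g * x⁻¹) ∈ N := by
    intro x
    rw [Subgroup.mem_comap, Subgroup.mem_centralizer_singleton_iff]
    show (x : G ⧸ N) * (g : G ⧸ N) = (g : G ⧸ N) * (x : G ⧸ N) ↔ _
    rw [← QuotientGroup.mk_mul, ← QuotientGroup.mk_mul, eq_comm, QuotientGroup.eq]
    constructor
    · intro h
      have := hN.conj_mem _ h x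
      convert this using 1
      group
    · intro h
      have := hN.conj_mem _ h x⁻¹
      convert this using 1
      group
  let Ψ : {n : N // ∃ x : G, x * g * x⁻¹ = g * n} × Subgroup.centralizer ({g} : Set G) →
      (Subgroup.centralizer ({(QuotientGroup.mk g : G ⧸ N)} : Set (G ⧸ N))).comap
        (QuotientGroup.mk' N) :=
    fun p => ⟨σ p.1 * (p.2 : G), by
      rw [hmemD, hconj, inv_mul_cancel_left]; exact p.1.1.2⟩
  apply Nat.card_eq_of_bijective Ψ
  constructor
  · rintro ⟨n, c⟩ ⟨n', c'⟩ h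
    have h1 : σ n * (c : G) = σ n' * (c' : G) := congrArg Subtype.val h
    have h2 := hconj n c
    rw [h1, hconj n' c'] at h2
    have h3 : n = n' := (Subtype.ext (Subtype.ext (mul_left_cancel h2))).symm
    subst h3
    have h4 : c = c' := Subtype.ext (mul_left_cancel h1)
    rw [h4]
  · rintro ⟨x, hx⟩
    have hx' := (hmemD x).mp hx
    let n : {n : N // ∃ x : G, x * g * x⁻¹ = g * n} :=
      ⟨⟨g⁻¹ * (x * g * x⁻¹), hx'⟩, x, by simp⟩
    have hn : σ n * g * (σ n)⁻¹ = x * g * x⁻¹ := by
      rw [hσ n]; simp [n]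
    refine ⟨(n, ⟨(σ n)⁻¹ * x, ?_⟩), ?_⟩
    · rw [Subgroup.mem_centralizer_singleton_iff]
      calc (σ n)⁻¹ * x * g = (σ n)⁻¹ * (x * g * x⁻¹) * x := by group
        _ = (σ n)⁻¹ * (σ n * g * (σ n)⁻¹) * x := by rw [hn]
        _ = _ := by group
    · apply Subtype.ext
      show σ n * ((σ n)⁻¹ * x) = x
      group


/-- Let G be a finite group and N a normal subgroup. Then the conjugacy class of every element g outside N is a union of cosets of N (gn is conjugate to g for all n ∈ N) if and only if for every g outside N the centralizer of g in G has the same order as the centralizer of gN in G/N. -/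
theorem result {G : Type*} [Group G] [Finite G] (N : Subgroup G) [N.Normal] :
    (∀ g : G, g ∉ N → ∀ n ∈ N, ∃ x : G, x * g * x⁻¹ = g * n) ↔
      ∀ g : G, g ∉ N → Nat.card (Subgroup.centralizer ({g} : Set G)) =
        Nat.card (Subgroup.centralizer ({(QuotientGroup.mk g : G ⧸ N)} : Set (G ⧸ N))) := by
  constructor
  · intro h g hg
    have key := camina_key N g
    have h1 : Nat.card {n : N // ∃ x : G, x * g * x⁻¹ = g * n} = Nat.card N :=
      Nat.card_congr (Equiv.subtypeUnivEquiv (fun n => h g hg n n.2))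
    rw [h1, mul_comm] at key
    exact (Nat.eq_of_mul_eq_mul_left Nat.card_pos key).symm
  · intro h g hg n hn
    have key := camina_key N g
    rw [← h g hg, mul_comm] at key
    have h1 := Nat.eq_of_mul_eq_mul_right Nat.card_pos key
    by_contra hcon
    have := Finite.card_subtype_lt (p := fun n : N => ∃ x : G, x * g * x⁻¹ = g * n)
      (x := ⟨n, hn⟩) hcon
    omega

end Cfsg.Agent.S4142
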