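import Mathlib
import Cfsg.Statements.S4145
import Cfsg.Agent.Lib_helper1_CycAct
import Cfsg.Agent.Lib_helper1_Transfer

set_option autoImplicit false
open Cfsg

namespace Cfsg.Agent.S4145

open Cfsg.Agent.H1
open scoped Pointwise

theorem part_one {G : Type*} [Group G] [Finite G] (p : ℕ) [Fact p.Prime]
    (P : Sylow p G) (hP : IsCyclic (P : Subgroup G)) (H : Subgroup G) [H.Normal]
    (h2 : p ∣ H.index) (X : Subgroup G) (hX : IsPGroup p X) (y : G) (hyH : y ∈ H)
    (hyN : y ∈ Subgroup.normalizer (X : Set G)) (hyo : (orderOf y).Coprime p) :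
    y ∈ Subgroup.centralizer (X : Set G) := by
  obtain ⟨P', hXP'⟩ := hX.exists_le_sylow
  obtain ⟨g, hgP', m, hgm, hP'g⟩ := exists_generator_of_cyclic_sylow P hP P' P'.isPGroup'
  have hab : IsMulCommutative (P' : Subgroup G) := by rw [hP'g]; infer_instance
  have hP'H : ¬ (P' : Subgroup G) ≤ H := fun h =>
    P'.not_dvd_index (h2.trans (Subgroup.index_dvd_of_le h))
  have hP'C : (P' : Subgroup G) ≤ Subgroup.centralizer (X : Set G) := by
    intro a ha
    rw [Subgroup.mem_centralizer_iff]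
    intro x hx
    exact setLike_mul_comm (hXP' hx) ha
  set C := Subgroup.centralizer (X : Set G) with hC
  have hyC : ∀ c ∈ C, y * c * y⁻¹ ∈ C := by
    intro c hc
    rw [hC, Subgroup.mem_centralizer_iff] at hc ⊢
    intro x hx
    have hx' : y⁻¹ * x * y ∈ X := ((Subgroup.mem_normalizer_iff''.mp hyN) x).mp hx
    have := hc _ hx'
    calc x * (y * c * y⁻¹) = y * ((y⁻¹ * x * y) * c) * y⁻¹ := by group
      _ = y * (c * (y⁻¹ * x * y)) * y⁻¹ := by rw [this]
      _ = y * c * y⁻¹ * x := by group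
  have hP'E : (P' : Subgroup G) ≤ Subgroup.normalizer ((C ⊓ H : Subgroup G) : Set G) := by
    apply le_normalizer_of_forall
    intro a ha e he
    exact Subgroup.mem_inf.mpr ⟨mul_mem (mul_mem (hP'C ha) he.1) (inv_mem (hP'C ha)),
      Subgroup.Normal.conj_mem inferInstance e he.2 a⟩
  have hconj : ((y • P' : Sylow p G) : Subgroup G) ≤ (C ⊓ H) ⊔ (P' : Subgroup G) := by
    intro z hz
    rw [Sylow.coe_subgroup_smul, mem_conj_smul] at hz
    have e1 : z = (y * (y⁻¹ * z * y) * y⁻¹ * (y⁻¹ * z * y)⁻¹) * (y⁻¹ * z * y) := by group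
    rw [e1]
    refine mul_mem (Subgroup.mem_sup_left (Subgroup.mem_inf.mpr ⟨?_, ?_⟩)) (Subgroup.mem_sup_right hz)
    · exact mul_mem (hyC _ (hP'C hz)) (inv_mem (hP'C hz))
    · have e2 : y * (y⁻¹ * z * y) * y⁻¹ * (y⁻¹ * z * y)⁻¹ =
          y * ((y⁻¹ * z * y) * y⁻¹ * (y⁻¹ * z * y)⁻¹) := by group
      rw [e2]
      exact mul_mem hyH (Subgroup.Normal.conj_mem inferInstance _ (inv_mem hyH) _)
  obtain ⟨d, hd, hde⟩ := sylow_conj_of_le P' (y • P') _ le_sup_right hconj
  have hd' : d ∈ ((C ⊓ H : Subgroup G) : Set G) * ((P' : Subgroup G) : Set G) := by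
    rw [← Subgroup.coe_mul_of_right_le_normalizer_left _ _ hP'E]; exact hd
  obtain ⟨e, he, x₀, hx₀, rfl⟩ := Set.mem_mul.mp hd'
  have he' : e ∈ C ⊓ H := he
  have hx₀' : x₀ ∈ (P' : Subgroup G) := hx₀
  set n := e⁻¹ * y with hn
  have hnN : n ∈ Subgroup.normalizer ((P' : Subgroup G) : Set G) := by
    rw [← conj_smul_eq_iff_mem_normalizer, hn, map_mul, mul_smul]
    have h3 : MulAut.conj y • (P' : Subgroup G) = ((y • P' : Sylow p G) : Subgroup G) := by
      rw [Sylow.coe_subgroup_smul]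
    rw [h3, ← hde, map_mul, mul_smul, Subgroup.conj_smul_eq_self_of_mem hx₀', ← mul_smul, ← map_mul]
    simp
  have hnH : n ∈ H := mul_mem (inv_mem he'.2) hyH
  have hng : n * g * n⁻¹ ∈ Subgroup.zpowers g := by
    rw [← hP'g]; exact ((Subgroup.mem_normalizer_iff.mp hnN) g).mp hgP'
  have hfin : IsOfFinOrder g := isOfFinOrder_of_finite g
  obtain ⟨k, hk⟩ := Submonoid.mem_powers_iff _ _ |>.mp (hfin.mem_powers_iff_mem_zpowers.mpr hng)
  have hd2 := cyclic_aut_dichotomy (p := p) hgm hk.symm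
  have hdvd : (p : ℤ) ∣ (k : ℤ) - 1 := by
    by_contra hnd
    apply hP'H
    rw [hP'g, Subgroup.zpowers_le]
    have h4 : Subgroup.zpowers (n * g * n⁻¹ * g⁻¹) ≤ H := by
      rw [Subgroup.zpowers_le]
      have e2 : n * g * n⁻¹ * g⁻¹ = n * (g * n⁻¹ * g⁻¹) := by group
      rw [e2]
      exact mul_mem hnH (Subgroup.Normal.conj_mem inferInstance _ (inv_mem hnH) _)
    exact h4 (hd2.1 hnd)
  have hcomm := hd2.2 hdvd
  -- powers of y and n act in the same way on X
  have hsame : ∀ j : ℕ, ∀ x ∈ X, y ^ j * x * (y ^ j)⁻¹ = n ^ j * x * (n ^ j)⁻¹ := by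
    intro j
    induction j with
    | zero => intro x _; simp
    | succ j ih =>
      intro x hx
      have hx' : y * x * y⁻¹ ∈ X := ((Subgroup.mem_normalizer_iff.mp hyN) x).mp hx
      have h5 : n * x * n⁻¹ = y * x * y⁻¹ := by
        have h6 := (Subgroup.mem_centralizer_iff.mp he'.1) _ hx'
        calc n * x * n⁻¹ = e⁻¹ * ((y * x * y⁻¹) * e) := by rw [hn]; group
          _ = e⁻¹ * (e * (y * x * y⁻¹)) := by rw [h6]
          _ = y * x * y⁻¹ := by group
      calc y ^ (j + 1) * x * (y ^ (j + 1))⁻¹ = y ^ j * (y * x * y⁻¹) * (y ^ j)⁻¹ := by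
            rw [pow_succ]; group
        _ = n ^ j * (y * x * y⁻¹) * (n ^ j)⁻¹ := ih _ hx'
        _ = n ^ j * (n * x * n⁻¹) * (n ^ j)⁻¹ := by rw [h5]
        _ = n ^ (j + 1) * x * (n ^ (j + 1))⁻¹ := by rw [pow_succ]; group
  rw [hC, Subgroup.mem_centralizer_iff]
  intro x hx
  have hxg : x ∈ Subgroup.zpowers g := by rw [← hP'g]; exact hXP' hx
  obtain ⟨i, rfl⟩ := Subgroup.mem_zpowers_iff.mp hxg
  have h7 : Commute (n ^ p ^ m) (g ^ i) := hcomm.zpow_right i
  have h8 : Commute (y ^ p ^ m) (g ^ i) := by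
    have h9 := hsame (p ^ m) _ hx
    have h10 : n ^ p ^ m * g ^ i * (n ^ p ^ m)⁻¹ = g ^ i := by rw [h7.eq]; group
    rw [h10] at h9
    exact mul_inv_eq_iff_eq_mul.mp h9
  exact (commute_of_pow_commute hyo h8).eq.symm

/-- Let G be a finite group with a cyclic Sylow p-subgroup and H a normal subgroup such that p divides both the order of H and the index of H. Then H has a normal p-complement and G is p-solvable. -/
theorem result {G : Type*} [Group G] [Finite G] (p : ℕ) [Fact p.Prime]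
    (P : Sylow p G) (hP : IsCyclic (P : Subgroup G)) (H : Subgroup G) [H.Normal] (h1 : p ∣ Nat.card H) (h2 : p ∣ H.index) :
    Cfsg.HasNormalPComplement p H ∧ Cfsg.IsPSolvable p G := by
  have hp : p.Prime := Fact.out
  have hH : Cfsg.HasNormalPComplement p H := by
    apply hasNormalPComplement_of_frobCond
    apply frobCond_subgroup_of
    intro X _ hX y hyH hyN hyo
    exact part_one p P hP H h2 X hX y hyH hyN hyo
  refine ⟨hH, ?_⟩
  set K := Cfsg.pPrimeCore p G with hK
  have hKn : K.Normal := pPrimeCore_normal (G := G) p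
  have hKcop : (Nat.card K).Coprime p := card_pPrimeCore_coprime p
  have hf : Function.Surjective (QuotientGroup.mk' K) := QuotientGroup.mk'_surjective K
  set Hb := H.map (QuotientGroup.mk' K) with hHb
  have hHbn : Hb.Normal := Subgroup.Normal.map inferInstance _ hf
  have hHbp : IsPGroup p Hb := by
    obtain ⟨j, hj⟩ := card_normal_pnilpotent H hH
    have h3 := card_map_mk_mul_card_inf H K
    rw [hj, mul_comm] at h3
    exact IsPGroup.of_card (n := j) (Nat.eq_of_mul_eq_mul_left Nat.card_pos h3)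
  have hHb1 : Hb ≠ ⊥ := by
    intro h
    rw [hHb, Subgroup.map_eq_bot_iff, QuotientGroup.ker_mk'] at h
    have h3 := h1.trans (Subgroup.card_dvd_of_le h)
    exact (hp.coprime_iff_not_dvd.mp hKcop.symm) h3
  let Pb : Sylow p (G ⧸ K) := P.mapSurjective hf
  have hPbc : IsCyclic (Pb : Subgroup (G ⧸ K)) :=
    isCyclic_of_surjective ((QuotientGroup.mk' K).subgroupMap (P : Subgroup G))
      ((QuotientGroup.mk' K).subgroupMap_surjective (P : Subgroup G))
  set Cb := Subgroup.centralizer (Hb : Set (G ⧸ K)) with hCb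
  have hCbn : Cb.Normal := inferInstance
  have hCbnp : Cfsg.HasNormalPComplement p Cb := by
    apply hasNormalPComplement_of_frobCond
    apply frobCond_subgroup_of
    intro Y _ hY y hyC hyN hyo
    have hW : IsPGroup p (Y ⊔ Hb : Subgroup (G ⧸ K)) := hY.to_sup_of_normal_right hHbp
    have hyW : y ∈ Subgroup.normalizer ((Y ⊔ Hb : Subgroup (G ⧸ K)) : Set (G ⧸ K)) := by
      apply Subgroup.normalizer_inf_normalizer_le_normalizer_sup Y Hb
      refine Subgroup.mem_inf.mpr ⟨hyN, ?_⟩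
      rw [Subgroup.normalizer_eq_top_iff.mpr hHbn]; trivial
    obtain ⟨v, hv, hv1⟩ := (Subgroup.ne_bot_iff_exists_ne_one).mp hHb1 |> fun ⟨v, hv⟩ =>
      (⟨v.1, v.2, fun h => hv (Subtype.ext h)⟩ : ∃ v ∈ Hb, v ≠ 1)
    have hyv : Commute y v := ((Subgroup.mem_centralizer_iff.mp hyC) v hv).symm
    have h3 := mem_centralizer_of_cyclic_of_fix Pb hPbc _ hW hyW hyo (Subgroup.mem_sup_right hv)
      hv1 hyv
    exact Subgroup.centralizer_le (by exact_mod_cast (le_sup_left : Y ≤ Y ⊔ Hb)) h3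
  have hCbp : IsPGroup p Cb := by
    obtain ⟨j, hj⟩ := card_normal_pnilpotent Cb hCbnp
    rw [pPrimeCore_quotient_eq_bot, bot_inf_eq, Subgroup.card_bot, one_mul] at hj
    exact IsPGroup.of_card hj
  have hPbC : (Pb : Subgroup (G ⧸ K)) ≤ Cb := by
    have hHP : Hb ≤ Pb := hHbp.le_sylow_of_normal Pb
    obtain ⟨g, -, m, -, hPg⟩ := exists_generator_of_cyclic_sylow Pb hPbc Pb Pb.isPGroup'
    have hab : IsMulCommutative (Pb : Subgroup (G ⧸ K)) := by rw [hPg]; infer_instance
    intro a ha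
    rw [hCb, Subgroup.mem_centralizer_iff]
    intro x hx
    exact setLike_mul_comm (hHP hx) ha
  have hKle : K ≤ Cb.comap (QuotientGroup.mk' K) := by
    conv_lhs => rw [← QuotientGroup.ker_mk' K]
    exact Subgroup.ker_le_comap _ _
  refine ⟨3, ![⊥, K, Cb.comap (QuotientGroup.mk' K), ⊤], rfl, rfl, ?_, ?_, ?_⟩
  · rw [Fin.monotone_iff_le_succ]
    intro i
    fin_cases i
    · exact bot_le
    · exact hKle
    · exact le_top
  · intro i
    fin_cases i
    · exact (inferInstance : (⊥ : Subgroup G).Normal)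
    · exact hKn
    · exact (inferInstance : (Cb.comap (QuotientGroup.mk' K)).Normal)
    · exact (inferInstance : (⊤ : Subgroup G).Normal)
  · intro i
    fin_cases i
    · right
      change ((⊥ : Subgroup G).relIndex K).Coprime p
      rw [Subgroup.relIndex_bot_left]
      exact hKcop
    · left
      change ∃ m : ℕ, K.relIndex (Cb.comap (QuotientGroup.mk' K)) = p ^ m
      obtain ⟨j, hj⟩ := hCbp.exists_card_eq
      refine ⟨j, ?_⟩
      have h3 := relIndex_mul_card' hKle
      rw [card_comap_mk, hj] at h3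
      exact Nat.eq_of_mul_eq_mul_right Nat.card_pos h3
    · right
      change ((Cb.comap (QuotientGroup.mk' K)).relIndex ⊤).Coprime p
      rw [Subgroup.relIndex_top_right, Subgroup.index_comap_of_surjective _ hf]
      have h3 : ¬ p ∣ Cb.index := fun h => Pb.not_dvd_index (h.trans (Subgroup.index_dvd_of_le hPbC))
      exact (hp.coprime_iff_not_dvd.mpr h3).symm

end Cfsg.Agent.S4145
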