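import Mathlib
import Cfsg.Statements.S4154

set_option autoImplicit false
open Cfsg

namespace Cfsg.Agent.S4154


/-- Let G be a finite group and α an automorphism of G such that every element of G is the product of an element fixed by α and an element of the form g⁻¹α(g). If N is a normal α-invariant subgroup, then the automorphism ᾱ induced on G/N has the same property, and every coset fixed by ᾱ contains an element fixed by α (so the fixed points of ᾱ are the images of the fixed points of α). -/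
theorem result {G : Type*} [Group G] [Finite G] (α : MulAut G)
    (hccp : ∀ x : G, ∃ c g : G, α c = c ∧ x = c * (g⁻¹ * α g))
    (N : Subgroup G) [N.Normal] (hN : ∀ n ∈ N, α n ∈ N) :
    (∀ x : G, ∃ c g : G, c⁻¹ * α c ∈ N ∧ x⁻¹ * (c * (g⁻¹ * α g)) ∈ N) ∧
    (∀ x : G, x⁻¹ * α x ∈ N → ∃ c : G, α c = c ∧ c⁻¹ * x ∈ N) := by
  constructor
  · intro x
    obtain ⟨c, g, hc, hx⟩ := hccp x
    refine ⟨c, g, ?_, ?_⟩
    · rw [hc, inv_mul_cancel]; exact one_mem _
    · rw [← hx, inv_mul_cancel]; exact one_mem _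
  -- the fixed-point subgroup and the preimage of the fixed points of the quotient
  let C : Subgroup G :=
    { carrier := {c | α c = c}
      mul_mem' := fun {a b} ha hb => by
        change α (a * b) = a * b
        rw [map_mul, ha, hb]
      one_mem' := map_one α
      inv_mem' := fun {a} ha => by
        change α a⁻¹ = a⁻¹
        rw [map_inv, ha] }
  let L : Subgroup G :=
    { carrier := {x | x⁻¹ * α x ∈ N}
      mul_mem' := fun {a b} ha hb => by
        change (a * b)⁻¹ * α (a * b) ∈ N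
        have : (a * b)⁻¹ * α (a * b) = b⁻¹ * (a⁻¹ * α a) * b * (b⁻¹ * α b) := by
          rw [map_mul]; group
        rw [this]
        refine mul_mem ?_ hb
        have h1 := ‹N.Normal›.conj_mem _ ha b⁻¹
        rwa [inv_inv] at h1
      one_mem' := by
        change (1 : G)⁻¹ * α 1 ∈ N
        rw [map_one, inv_one, one_mul]; exact one_mem _
      inv_mem' := fun {a} ha => by
        change (a⁻¹)⁻¹ * α a⁻¹ ∈ N
        have : (a⁻¹)⁻¹ * α a⁻¹ = a * (a⁻¹ * α a)⁻¹ * a⁻¹ := by rw [map_inv]; group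
        rw [this]
        exact ‹N.Normal›.conj_mem _ (inv_mem ha) a }
  have hmemL : ∀ x, x ∈ L ↔ x⁻¹ * α x ∈ N := fun x => Iff.rfl
  have hmemC : ∀ x, x ∈ C ↔ α x = x := fun x => Iff.rfl
  have hNL : N ≤ L := fun n hn => (hmemL n).2 (mul_mem (inv_mem hn) (hN n hn))
  have hCL : C ≤ L := fun c hc => by
    rw [hmemL, (hmemC c).1 hc, inv_mul_cancel]; exact one_mem _
  set A := C ⊔ N with hA
  have hAL : A ≤ L := sup_le hCL hNL
  have hNA : N ≤ A := le_sup_right
  have hsurj : Function.Surjective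
      (fun q : (↥A ⧸ N.subgroupOf A) × (G ⧸ L) =>
        (((q.1.out : G) * q.2.out * (α q.2.out)⁻¹ : G) : G ⧸ N)) := by
    intro y
    obtain ⟨y, rfl⟩ := QuotientGroup.mk_surjective y
    obtain ⟨c, g, hc, hy⟩ := hccp y
    have hcA : c ∈ A := Subgroup.mem_sup_left hc
    refine ⟨(QuotientGroup.mk (⟨c, hcA⟩ : A), QuotientGroup.mk g⁻¹), ?_⟩
    obtain ⟨n1, hn1⟩ := QuotientGroup.mk_out_eq_mul (N.subgroupOf A) (⟨c, hcA⟩ : A)
    obtain ⟨l, hl⟩ := QuotientGroup.mk_out_eq_mul L g⁻¹
    simp only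
    rw [hn1, hl, QuotientGroup.eq, hy]
    have hn1' : ((n1 : A) : G) ∈ N := n1.2
    have hl' : (l : G)⁻¹ * α l ∈ N := l.2
    have e : (((⟨c, hcA⟩ * (n1 : A) : A) : G) * (g⁻¹ * l) * (α (g⁻¹ * l))⁻¹)⁻¹ * (c * (g⁻¹ * α g)) =
        (α g)⁻¹ * ((l : G) * ((l : G)⁻¹ * α l) * (l : G)⁻¹ * (g * ((n1 : A) : G)⁻¹ * g⁻¹)) * α g := by
      rw [map_mul, map_inv, Subgroup.coe_mul]
      group
    rw [e]
    have h1 := ‹N.Normal›.conj_mem _ (mul_mem (‹N.Normal›.conj_mem _ hl' l)
      (‹N.Normal›.conj_mem _ (inv_mem hn1') g)) (α g)⁻¹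
    rwa [inv_inv] at h1
  have hcard := Nat.card_le_card_of_surjective _ hsurj
  rw [Nat.card_prod] at hcard
  have e1 : Nat.card (G ⧸ N) = N.relIndex L * L.index := by
    rw [← Subgroup.index_eq_card, Subgroup.relIndex_mul_index hNL]
  have e2 : Nat.card (↥A ⧸ N.subgroupOf A) = N.relIndex A := rfl
  have e3 : Nat.card (G ⧸ L) = L.index := rfl
  have e4 : N.relIndex A * A.relIndex L = N.relIndex L := Subgroup.relIndex_mul_relIndex _ _ _ hNA hAL
  rw [e1, e2, e3, ← e4] at hcard
  have hLpos : 0 < L.index := Nat.pos_of_ne_zero Subgroup.index_ne_zero_of_finite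
  have hApos : 0 < N.relIndex A := Nat.pos_of_ne_zero (Subgroup.index_ne_zero_of_finite (H := N.subgroupOf A))
  have h5 : N.relIndex A * A.relIndex L ≤ N.relIndex A * 1 := by
    rw [mul_one]; exact Nat.le_of_mul_le_mul_right hcard hLpos
  have h6 : A.relIndex L ≤ 1 := Nat.le_of_mul_le_mul_left h5 hApos
  have h7 : A.relIndex L = 1 := by
    have : A.relIndex L ≠ 0 := Subgroup.index_ne_zero_of_finite (H := A.subgroupOf L)
    omega
  have hLA : L ≤ A := Subgroup.relIndex_eq_one.1 h7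
  intro x hx
  obtain ⟨c, hc, n, hn, rfl⟩ := Subgroup.mem_sup_of_normal_right.1 (hLA ((hmemL x).2 hx))
  exact ⟨c, hc, by rw [inv_mul_cancel_left]; exact hn⟩

end Cfsg.Agent.S4154
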