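import Mathlib
import Cfsg.Statements.S4155
import Cfsg.Agent.S0040
import Cfsg.Agent.Lib_helper1_Cores
import Cfsg.Agent.Lib_helper1_PNilp2
import Cfsg.Agent.Lib_helper5_CN

set_option autoImplicit false
open Cfsg

namespace Cfsg.Agent.S4155

open Subgroup Cfsg.Agent.H1

section sd
open SemidirectProduct

theorem sd_lemma {A Q : Type*} [Group A] [Finite A] [Group Q] [Finite Q] [Nontrivial A]
    (ψ : Q →* MulAut A)
    (hfpf : ∀ x : Q, x ≠ 1 → ∀ a : A, ψ x a = a → a = 1) (q : ℕ) [hq : Fact q.Prime]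
    (hQ : IsPGroup q Q) :
    IsCyclic Q ∨ ∃ n : ℕ, Nonempty (Q ≃* QuaternionGroup (2 ^ n)) := by
  haveI : Finite (A ⋊[ψ] Q) := Finite.of_equiv _ equivProd.symm
  set K : Subgroup (A ⋊[ψ] Q) := (inl : A →* A ⋊[ψ] Q).range with hK
  set H : Subgroup (A ⋊[ψ] Q) := (inr : Q →* A ⋊[ψ] Q).range with hH
  haveI : K.Normal := by
    rw [hK, range_inl_eq_ker_rightHom]
    infer_instance
  have hc : K.IsComplement' H := by
    apply isComplement'_of_disjoint_and_mul_eq_univ
    · rw [disjoint_iff, eq_bot_iff]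
      rintro x ⟨⟨a, rfl⟩, ⟨b, hb⟩⟩
      have h1 := congrArg SemidirectProduct.left hb
      simp only [left_inr, left_inl] at h1
      rw [mem_bot, ← h1, map_one]
    · rw [Set.eq_univ_iff_forall]
      intro y
      exact ⟨inl y.left, ⟨y.left, rfl⟩, inr y.right, ⟨y.right, rfl⟩, inl_left_mul_inr_right y⟩
  have hK1 : K ≠ ⊥ := by
    intro h
    obtain ⟨a, ha⟩ := exists_ne (1 : A)
    have h1 : (inl a : A ⋊[ψ] Q) ∈ K := ⟨a, rfl⟩
    rw [h, mem_bot] at h1
    exact ha (inl_injective (by rw [h1, map_one]))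
  have hf : ∀ h ∈ H, h ≠ 1 → K ⊓ centralizer {h} = ⊥ := by
    rintro _ ⟨x, rfl⟩ hx
    rw [eq_bot_iff]
    rintro _ ⟨⟨a, rfl⟩, h2⟩
    have h2' : (inl a : A ⋊[ψ] Q) ∈ centralizer {(inr x : A ⋊[ψ] Q)} := h2
    rw [mem_centralizer_singleton_iff] at h2'
    have h3 := congrArg SemidirectProduct.left h2'
    simp only [mul_left, left_inl, right_inl, left_inr, right_inr, map_one, MulAut.one_apply,
      mul_one, one_mul] at h3
    have hx1 : x ≠ 1 := fun h => hx (by rw [h, map_one])
    rw [mem_bot, hfpf x hx1 a h3.symm, map_one]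
  have e1 : Q ≃* H := MonoidHom.ofInjective inr_injective
  have hHq : IsPGroup q H := hQ.of_equiv e1
  let P : Sylow q H := (hHq.to_subgroup ⊤).toSylow (by
    rw [index_top]
    exact fun h => hq.out.one_lt.ne' (Nat.dvd_one.mp h))
  have hP : (P : Subgroup H) = ⊤ := IsPGroup.toSylow_coe _ _
  have e : Q ≃* (P : Subgroup H) :=
    (e1.trans topEquiv.symm).trans (MulEquiv.subgroupCongr hP.symm)
  rcases Cfsg.Agent.S0040.result K H hc hK1 hf q P with h | ⟨n, ⟨f⟩⟩
  · left
    exact isCyclic_of_surjective e.symm e.symm.surjective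
  · right
    exact ⟨n, ⟨e.trans f⟩⟩

end sd

theorem kl {G : Type*} [Group G] [Finite G] (N : Subgroup G)
    (heq : ∀ x : G, x ∉ N → ∀ n ∈ N, orderOf (x * n) = orderOf x)
    {x n : G} (hx : x ∉ N) (hn : n ∈ N) (hc : Commute x n)
    (hcop : (orderOf x).Coprime (orderOf n)) : n = 1 := by
  have h1 := hc.orderOf_mul_eq_mul_orderOf_of_coprime hcop
  rw [heq x hx n hn] at h1
  have h2 : orderOf n = 1 :=
    Nat.eq_of_mul_eq_mul_left (orderOf_pos x) (by rw [mul_one]; exact h1.symm)
  exact orderOf_eq_one_iff.mp h2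

theorem exists_other_prime {m : ℕ} (hm0 : m ≠ 0) (hm1 : m ≠ 1) (hnpp : ¬ IsPrimePow m) (q : ℕ)
    (hq : q.Prime) : ∃ p : ℕ, p.Prime ∧ p ≠ q ∧ p ∣ m := by
  by_contra hcon
  push Not at hcon
  apply hnpp
  have h1 := Nat.eq_prime_pow_of_unique_prime_dvd (n := m) (p := q) hm0 (fun {d} hd hdm => by
    by_contra hne
    exact hcon d hd hne hdm)
  rw [h1]
  apply IsPrimePow.pow hq.isPrimePow
  intro h0
  rw [h0, pow_zero] at h1
  exact hm1 h1

/-- Let G be a finite group and N a proper non-trivial normal nilpotent subgroup whose order is not a prime power, such that for every x outside N all elements of the coset xN have the same order as x. Then N is the Fitting subgroup of G, and for every prime q every Sylow q-subgroup of G/N is cyclic or generalized quaternion. -/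
theorem result {G : Type*} [Group G] [Finite G] (N : Subgroup G) [N.Normal] (hN1 : N ≠ ⊥) (hN2 : N ≠ ⊤)
    (heq : ∀ x : G, x ∉ N → ∀ n ∈ N, orderOf (x * n) = orderOf x)
    (hnil : Group.IsNilpotent N) (hnpp : ¬ IsPrimePow (Nat.card N)) :
    N = Cfsg.fittingSubgroup G ∧
    ∀ (q : ℕ) [Fact q.Prime] (Q : Sylow q (G ⧸ N)), IsCyclic (Q : Subgroup (G ⧸ N)) ∨ ∃ n : ℕ, Nonempty ((Q : Subgroup (G ⧸ N)) ≃* QuaternionGroup (2 ^ n)) := by
  have hN0 : Nat.card N ≠ 0 := Nat.card_pos.ne'
  have hN1' : Nat.card N ≠ 1 := fun h => hN1 (card_eq_one.mp h)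
  have hother := exists_other_prime hN0 hN1' hnpp
  have hNF : N ≤ Cfsg.fittingSubgroup G := le_fitting inferInstance hnil
  constructor
  · apply le_antisymm hNF
    intro x hxF
    by_contra hxN
    obtain ⟨p1, hp1, -, hp1N⟩ := hother 2 Nat.prime_two
    obtain ⟨p2, hp2, hp21, hp2N⟩ := hother p1 hp1
    haveI : Fact p1.Prime := ⟨hp1⟩
    haveI : Fact p2.Prime := ⟨hp2⟩
    obtain ⟨n1, hn1⟩ := exists_prime_orderOf_dvd_card' (G := N) p1 hp1N
    obtain ⟨n2, hn2⟩ := exists_prime_orderOf_dvd_card' (G := N) p2 hp2N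
    have hn1o : orderOf (n1 : G) = p1 := by
      rw [Subgroup.orderOf_coe]
      exact hn1
    have hn2o : orderOf (n2 : G) = p2 := by
      rw [Subgroup.orderOf_coe]
      exact hn2
    obtain ⟨a, ha, b, hb, hab, ⟨k, hak⟩, hbc⟩ := exists_p_decomposition p1 x
    have hzF : zpowers x ≤ Cfsg.fittingSubgroup G := zpowers_le.mpr hxF
    by_cases hbN : b ∈ N
    · have haN : a ∉ N := fun h => hxN (by rw [hab]; exact mul_mem h hbN)
      have hc : Commute a (n2 : G) := Cfsg.Agent.H5.CN.commute_of_nilpotent fitting_nilpotent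
        (hzF ha) (hNF n2.2) hak (by rw [hn2o]; exact (Nat.coprime_primes hp2 hp1).mpr hp21)
      have h1 := kl N heq haN n2.2 hc (by
        rw [hn2o]
        exact Nat.Coprime.coprime_dvd_left (orderOf_dvd_of_pow_eq_one hak)
          (Nat.Coprime.pow_left _ ((Nat.coprime_primes hp1 hp2).mpr hp21.symm)))
      rw [h1, orderOf_one] at hn2o
      exact hp2.one_lt.ne hn2o
    · have hc : Commute (n1 : G) b := Cfsg.Agent.H5.CN.commute_of_nilpotent fitting_nilpotent
        (hNF n1.2) (hzF hb) (k := 1) (by rw [pow_one, ← hn1o]; exact pow_orderOf_eq_one _) hbc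
      have h1 := kl N heq hbN n1.2 hc.symm (by rw [hn1o]; exact hbc)
      rw [h1, orderOf_one] at hn1o
      exact hp1.one_lt.ne hn1o
  · intro q hq Q
    obtain ⟨p, hp, hpq, hpN⟩ := hother q hq.out
    haveI : Fact p.Prime := ⟨hp⟩
    obtain ⟨u, huP, huo, huc⟩ := Cfsg.Agent.H5.CN.exists_central hnil hpN
    have huN : u ∈ N := Cfsg.Agent.H5.CN.pPart_le p N huP
    have hNn : N.Normal := inferInstance
    let A : Subgroup G :=
      { carrier := {z | z ∈ N ∧ (∀ n ∈ N, n * z = z * n) ∧ z ^ p = 1}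
        one_mem' := ⟨one_mem _, fun n _ => by simp, one_pow _⟩
        mul_mem' := by
          rintro z w ⟨hz, hzc, hzp⟩ ⟨hw, hwc, hwp⟩
          refine ⟨mul_mem hz hw, fun n hn => ?_, ?_⟩
          · rw [← mul_assoc, hzc n hn, mul_assoc, hwc n hn, mul_assoc]
          · rw [(show Commute z w from (hwc z hz)).mul_pow, hzp, hwp, one_mul]
        inv_mem' := by
          rintro z ⟨hz, hzc, hzp⟩
          refine ⟨inv_mem hz, fun n hn => ?_, by rw [inv_pow, hzp, inv_one]⟩
          exact ((show Commute n z from hzc n hn).inv_right).eq }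
    haveI hAn : A.Normal := by
      constructor
      rintro z ⟨hz, hzc, hzp⟩ g
      refine ⟨hNn.conj_mem z hz g, fun n hn => ?_, by rw [conj_pow, hzp]; simp⟩
      have h1 := hzc (g⁻¹ * n * g) (by simpa using hNn.conj_mem n hn g⁻¹)
      calc n * (g * z * g⁻¹) = g * ((g⁻¹ * n * g) * z) * g⁻¹ := by group
        _ = g * (z * (g⁻¹ * n * g)) * g⁻¹ := by rw [h1]
        _ = g * z * g⁻¹ * n := by group
    haveI : Nontrivial A := ⟨⟨⟨u, huN, huc, by rw [← huo]; exact pow_orderOf_eq_one u⟩, 1, by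
      intro h
      have : u = 1 := congrArg Subtype.val h
      rw [this, orderOf_one] at huo
      exact hp.one_lt.ne huo⟩⟩
    have hker : N ≤ (MulAut.conjNormal (H := A)).ker := by
      intro n hn
      rw [MonoidHom.mem_ker]
      ext a
      rw [MulAut.conjNormal_apply, MulAut.one_apply, a.2.2.1 n hn, mul_inv_cancel_right]
    let ψ : (Q : Subgroup (G ⧸ N)) →* MulAut A :=
      (QuotientGroup.lift N (MulAut.conjNormal (H := A)) hker).comp
        (Q : Subgroup (G ⧸ N)).subtype
    apply sd_lemma ψ ?_ q Q.2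
    intro x hx a hxa
    obtain ⟨g, hg⟩ := QuotientGroup.mk_surjective (x : G ⧸ N)
    have hgN : g ∉ N := by
      intro h
      apply hx
      apply Subtype.ext
      rw [← hg]
      exact (QuotientGroup.eq_one_iff g).mpr h
    have hga : g * (a : G) * g⁻¹ = a := by
      have h1 : ψ x = MulAut.conjNormal g := by
        show QuotientGroup.lift N _ hker (x : G ⧸ N) = _
        rw [← hg]
        rfl
      rw [h1] at hxa
      have := congrArg Subtype.val hxa
      rwa [MulAut.conjNormal_apply] at this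
    have hcga : Commute g (a : G) := mul_inv_eq_iff_eq_mul.mp hga
    obtain ⟨k, hk⟩ := Q.2 x
    have hgk : g ^ q ^ k ∈ N := by
      rw [← QuotientGroup.eq_one_iff, QuotientGroup.mk_pow, hg]
      simpa using congrArg Subtype.val hk
    obtain ⟨s, hs, t, ht, hst, ⟨j, hsj⟩, htc⟩ := exists_p_decomposition q g
    have htN : t ∈ N := by
      obtain ⟨i, hi⟩ := mem_zpowers_iff.mp ht
      have h1 : t ^ q ^ k ∈ N := by
        rw [← hi, ← zpow_natCast, ← zpow_mul, mul_comm, zpow_mul, zpow_natCast]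
        exact zpow_mem hgk i
      have hcop : Nat.Coprime (q ^ k) (orderOf t) := Nat.Coprime.pow_left _ htc.symm
      obtain ⟨m, hm⟩ := exists_pow_eq_self_of_coprime hcop
      rw [← hm]
      exact pow_mem h1 m
    have hsN : s ∉ N := fun h => hgN (by rw [hst]; exact mul_mem h htN)
    have hcs : Commute s (a : G) := by
      obtain ⟨i, hi⟩ := mem_zpowers_iff.mp hs
      rw [← hi]
      exact hcga.zpow_left i
    have ha1 := kl N heq hsN a.2.1 hcs (by
      apply Nat.Coprime.coprime_dvd_left (orderOf_dvd_of_pow_eq_one hsj)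
      apply Nat.Coprime.coprime_dvd_right (orderOf_dvd_of_pow_eq_one a.2.2.2)
      exact Nat.Coprime.pow_left _ ((Nat.coprime_primes hq.out hp).mpr hpq.symm))
    exact Subtype.ext ha1

end Cfsg.Agent.S4155
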