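import Cfsg.Statements.S4160
import Cfsg.Agent.Lib_helper3_Cover
import Cfsg.Agent.Lib_helper5_CharP2

set_option autoImplicit false
open Cfsg

namespace Cfsg.Agent.S4160

open scoped Pointwise

/-- an element whose class size is prime to `p` lies in a conjugate of `C(P)` -/
theorem mem_conj_centralizer {G : Type*} [Group G] [Finite G] {p : ℕ} [Fact p.Prime] (P : Sylow p G)
    (x : G) (hx : ¬ p ∣ (Subgroup.centralizer ({x} : Set G)).index) :
    ∃ g : G, x ∈ MulAut.conj g • Subgroup.centralizer ((P : Subgroup G) : Set G) := by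
  obtain ⟨a, ha⟩ := H3.exists_conj_le_of_not_dvd_index (P : Subgroup G) _ P.2 hx
  refine ⟨a⁻¹, ?_⟩
  rw [H3.mem_conj_smul_iff, Subgroup.mem_centralizer_iff]
  intro y hy
  have h1 := Subgroup.mem_centralizer_singleton_iff.mp (ha y hy)
  simp only [inv_inv]
  calc y * (a * x * a⁻¹) = a * ((a⁻¹ * y * a) * x) * a⁻¹ := by group
    _ = a * (x * (a⁻¹ * y * a)) * a⁻¹ := by rw [h1]
    _ = a * x * a⁻¹ * y := by group

theorem npc_of_normalizer_eq {G : Type*} [Group G] [Finite G] {p : ℕ} [Fact p.Prime] (P : Sylow p G)
    (h : Subgroup.normalizer ((Subgroup.centralizer ((P : Subgroup G) : Set G) : Subgroup G) : Set G)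
      = Subgroup.centralizer ((P : Subgroup G) : Set G)) : Cfsg.HasNormalPComplement p G := by
  have hP : Subgroup.normalizer ((P : Subgroup G) : Set G) ≤ Subgroup.centralizer ((P : Subgroup G) : Set G) := by
    rw [← h]
    exact H5.normalizer_le_normalizer_centralizer _
  exact ⟨P, _, MonoidHom.normal_ker _, MonoidHom.ker_transferSylow_isComplement' P hP⟩

/-- Let G be a finite group and p ≠ q primes each dividing the size of some conjugacy class of G, such that no conjugacy class size is divisible by pq. Then G has a normal p-complement or a normal q-complement. -/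
theorem result {G : Type*} [Group G] [Finite G] (p q : ℕ) (hp : p.Prime) (hq : q.Prime) (hpq : p ≠ q)
    (hp' : ∃ x : G, p ∣ (Subgroup.centralizer ({x} : Set G)).index) (hq' : ∃ x : G, q ∣ (Subgroup.centralizer ({x} : Set G)).index) (h : ∀ x : G, ¬ p * q ∣ (Subgroup.centralizer ({x} : Set G)).index) :
    Cfsg.HasNormalPComplement p G ∨ Cfsg.HasNormalPComplement q G := by
  have : Fact p.Prime := ⟨hp⟩
  have : Fact q.Prime := ⟨hq⟩
  let P : Sylow p G := default
  let Q : Sylow q G := default
  have hcov : ∀ x : G, (∃ g : G, x ∈ MulAut.conj g • Subgroup.centralizer ((P : Subgroup G) : Set G)) ∨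
      (∃ g : G, x ∈ MulAut.conj g • Subgroup.centralizer ((Q : Subgroup G) : Set G)) := by
    intro x
    by_cases h1 : p ∣ (Subgroup.centralizer ({x} : Set G)).index
    · right
      apply mem_conj_centralizer Q x
      intro h2
      exact h x (Nat.Coprime.mul_dvd_of_dvd_of_dvd ((Nat.coprime_primes hp hq).mpr hpq) h1 h2)
    · left
      exact mem_conj_centralizer P x h1
  rcases H3.normalizer_eq_of_cover _ _ hcov with h1 | h1
  · exact Or.inl (npc_of_normalizer_eq P h1)
  · exact Or.inr (npc_of_normalizer_eq Q h1)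

end Cfsg.Agent.S4160
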