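import Cfsg.Statements.S4168


set_option autoImplicit false
open Cfsg

namespace Cfsg.Agent.S4168

/-- Let L be a finite quasisimple group (perfect with L/Z(L) simple). Then every prime dividing the order of the centre Z(L) also divides the order of L/Z(L). -/
theorem result {L : Type*} [Group L] [Finite L] (hL : Cfsg.IsQuasisimple L)
    (p : ℕ) (hp : p.Prime) (hdiv : p ∣ Nat.card (Subgroup.center L)) : p ∣ (Subgroup.center L).index := by
  classical
  have hperf : commutator L = ⊤ := Group.isPerfect_def.mp hL.1
  have hker : ∀ g : L, g ^ (Subgroup.center L).index = 1 := by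
    intro g
    have h1 : commutator L ≤ (MonoidHom.transferCenterPow L).ker := by
      rw [commutator_eq_closure, Subgroup.closure_le]
      rintro x ⟨a, b, rfl⟩
      have hc : ∀ u v : Subgroup.center L, u * v = v * u := fun u v => by
        apply Subtype.ext
        exact (Subgroup.mem_center_iff.mp v.2 u)
      show _ ∈ (MonoidHom.transferCenterPow L).ker
      rw [MonoidHom.mem_ker, commutatorElement_def, map_mul, map_mul, map_mul, map_inv, map_inv]
      rw [hc (MonoidHom.transferCenterPow L a)]
      group
    have h2 : g ∈ (MonoidHom.transferCenterPow L).ker := h1 (hperf ▸ Subgroup.mem_top g)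
    have h3 := MonoidHom.mem_ker.mp h2
    have h4 := congrArg Subtype.val h3
    exact h4
  have : Fact p.Prime := ⟨hp⟩
  obtain ⟨z, hz⟩ := exists_prime_orderOf_dvd_card' p hdiv
  have h5 : (z : L) ^ (Subgroup.center L).index = 1 := hker z
  have h6 : orderOf (z : L) = p := by rw [Subgroup.orderOf_coe]; exact hz
  rw [← h6]
  exact orderOf_dvd_of_pow_eq_one h5

end Cfsg.Agent.S4168
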