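import Cfsg.Statements.S4177
import Mathlib

set_option autoImplicit false
open Cfsg

namespace Cfsg.Agent.S4177

theorem core {k V L : Type*} [Field k] [AddCommGroup V] [Module k V] [Group L] [Fintype L]
    (hchar : (Fintype.card L : k) ≠ 0) (τ : Representation k L V) (a : V)
    (hspan : Submodule.span k {u : V | ∃ l : L, τ l a = u} = ⊤) (w : V) (hw : ∀ l, τ l w = w) :
    w ∈ Submodule.span k {∑ l : L, τ l a} := by
  classical
  let s : V →ₗ[k] V := ∑ l : L, τ l
  have hs : ∀ v, s v = ∑ l : L, τ l v := by
    intro v
    simp [s, LinearMap.sum_apply]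
  have h1 : ∀ l : L, s (τ l a) = s a := by
    intro l
    rw [hs, hs]
    apply Fintype.sum_equiv (Equiv.mulRight l)
    intro l'
    show τ l' (τ l a) = τ (l' * l) a
    rw [map_mul]; rfl
  have h2 : (⊤ : Submodule k V) ≤ (Submodule.span k {s a}).comap s := by
    rw [← hspan, Submodule.span_le]
    rintro _ ⟨l, rfl⟩
    show s (τ l a) ∈ Submodule.span k {s a}
    rw [h1]
    exact Submodule.mem_span_singleton_self _
  have h3 : s w ∈ Submodule.span k {s a} := h2 (Submodule.mem_top (x := w))
  have h4 : s w = (Fintype.card L : k) • w := by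
    rw [hs]
    simp only [hw, Finset.sum_const, Finset.card_univ]
    rw [Nat.cast_smul_eq_nsmul]
  rw [h4, hs] at h3
  have h5 := Submodule.smul_mem _ (Fintype.card L : k)⁻¹ h3
  rwa [smul_smul, inv_mul_cancel₀ hchar, one_smul] at h5


/-- Let k be a field whose characteristic does not divide the order of the finite group H (for instance a field of characteristic zero), and ρ a k-linear representation of H on V. Let a be a vector whose H-orbit spans V. Then the space of H-fixed vectors has dimension at most 1, and every vector b whose H-orbit has size coprime to the size of the orbit of a is fixed by H. -/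
theorem result {k V H : Type*} [Field k] [AddCommGroup V] [Module k V] [Group H] [Finite H]
    (hchar : ¬ ringChar k ∣ Nat.card H) (ρ : Representation k H V) (a : V)
    (hspan : Submodule.span k {u : V | ∃ h : H, ρ h a = u} = ⊤) :
    Module.finrank k ρ.invariants ≤ 1 ∧
    ∀ b : V, (Nat.card {u : V | ∃ h : H, ρ h a = u}).Coprime (Nat.card {u : V | ∃ h : H, ρ h b = u}) → ∀ h : H, ρ h b = b := by
  classical
  letI : Fintype H := Fintype.ofFinite H
  have hcast : ∀ n : ℕ, n ∣ Nat.card H → (n : k) ≠ 0 := by
    intro n hn h0
    exact hchar (((ringChar.spec k n).mp h0).trans hn)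
  constructor
  · have h1 : ρ.invariants ≤ Submodule.span k {∑ l : H, ρ l a} := by
      intro w hw
      exact core (by rw [← Nat.card_eq_fintype_card]; exact hcast _ dvd_rfl) ρ a hspan w
        ((Representation.mem_invariants ρ w).mp hw)
    refine (Submodule.finrank_mono h1).trans ?_
    refine (finrank_span_le_card _).trans ?_
    simp
  · intro b hcop
    letI act : MulAction H V := MulAction.compHom V (ρ : H →* Module.End k V)
    have hOa : {u : V | ∃ h : H, ρ h a = u} = MulAction.orbit H a := rfl
    have hOb : {u : V | ∃ h : H, ρ h b = u} = MulAction.orbit H b := rfl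
    rw [hOa, hOb, Nat.card_coe_set_eq, Nat.card_coe_set_eq, ← MulAction.index_stabilizer,
      ← MulAction.index_stabilizer] at hcop
    set S := MulAction.stabilizer H a with hS
    set L := MulAction.stabilizer H b with hL
    have h2 : (S ⊓ L).relIndex L * L.index = (S ⊓ L).index :=
      Subgroup.relIndex_mul_index inf_le_right
    rw [Subgroup.inf_relIndex_right] at h2
    have h3 : S.index ∣ (S ⊓ L).index := Subgroup.index_dvd_of_le inf_le_left
    rw [← h2] at h3
    have h5 : S.index ∣ S.relIndex L := hcop.dvd_of_dvd_mul_right h3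
    have h6 : MulAction.stabilizer L a = S.subgroupOf L := by
      ext u
      rw [Subgroup.mem_subgroupOf, MulAction.mem_stabilizer_iff, MulAction.mem_stabilizer_iff]
      rfl
    have h7 : S.relIndex L = (MulAction.orbit L a).ncard := by
      rw [← MulAction.index_stabilizer, h6]; rfl
    have h8 : MulAction.orbit L a = MulAction.orbit H a := by
      apply Set.eq_of_subset_of_ncard_le
      · rintro _ ⟨l, rfl⟩; exact ⟨l, rfl⟩
      · rw [← MulAction.index_stabilizer (G := H), ← h7]
        apply Nat.le_of_dvd _ h5
        rw [h7]
        exact (Set.ncard_pos (s := MulAction.orbit L a) (Set.finite_range _)).mpr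
          (MulAction.nonempty_orbit a)
      · exact Set.finite_range _
    let τ : Representation k L V := (ρ : H →* Module.End k V).comp L.subtype
    have hτ : ∀ (l : L) (v : V), τ l v = ρ l v := fun _ _ => rfl
    have hspanL : Submodule.span k {u : V | ∃ l : L, τ l a = u} = ⊤ := by
      have e : {u : V | ∃ l : L, τ l a = u} = MulAction.orbit L a := rfl
      rw [e, h8, ← hOa]; exact hspan
    have hLc : (Fintype.card L : k) ≠ 0 := by
      rw [← Nat.card_eq_fintype_card]
      exact hcast _ (Subgroup.card_subgroup_dvd_card L)
    have hb := core hLc τ a hspanL b (fun l => l.2)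
    set T := ∑ l : L, τ l a with hTdef
    let O : Finset V := Finset.univ.image (fun h : H => ρ h a)
    have hOmem : ∀ u, u ∈ O ↔ u ∈ MulAction.orbit H a := by
      intro u
      simp only [O, Finset.mem_image, Finset.mem_univ, true_and]
      rfl
    set σ := ∑ u ∈ O, u with hσdef
    have hσ : ∀ g : H, ρ g σ = σ := by
      intro g
      rw [hσdef, map_sum]
      apply Finset.sum_bij (fun u _ => ρ g u)
      · intro u hu
        obtain ⟨h, -, rfl⟩ := Finset.mem_image.mp hu
        exact Finset.mem_image.mpr ⟨g * h, Finset.mem_univ _, by rw [map_mul]; rfl⟩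
      · intro u _ u' _ e
        have := congrArg (ρ g⁻¹) e
        simpa [← Module.End.mul_apply, ← map_mul] using this
      · intro u hu
        obtain ⟨h, -, rfl⟩ := Finset.mem_image.mp hu
        exact ⟨ρ (g⁻¹ * h) a, Finset.mem_image.mpr ⟨_, Finset.mem_univ _, rfl⟩, by
          rw [← Module.End.mul_apply, ← map_mul, mul_inv_cancel_left]⟩
      · intro u _; rfl
    have hT : ∀ u ∈ O, ∑ l : L, τ l u = T := by
      intro u hu
      rw [hOmem, ← h8] at hu
      obtain ⟨l0, rfl⟩ := hu
      apply Fintype.sum_equiv (Equiv.mulRight l0)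
      intro l
      show τ l (τ l0 a) = τ (l * l0) a
      rw [map_mul]; rfl
    have hsum : (O.card : k) • T = (Fintype.card L : k) • σ := by
      have e1 : ∑ u ∈ O, ∑ l : L, τ l u = O.card • T := by
        rw [Finset.sum_congr rfl hT, Finset.sum_const]
      have e2 : ∑ u ∈ O, ∑ l : L, τ l u = Fintype.card L • σ := by
        rw [Finset.sum_comm]
        have : ∀ l ∈ (Finset.univ : Finset L), ∑ u ∈ O, τ l u = σ := by
          intro l _
          rw [← map_sum]
          exact hσ l
        rw [Finset.sum_congr rfl this, Finset.sum_const, Finset.card_univ]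
      rw [Nat.cast_smul_eq_nsmul, Nat.cast_smul_eq_nsmul, ← e1, e2]
    have hOc : (O.card : k) ≠ 0 := by
      apply hcast
      have : O.card = S.index := by
        rw [hS, MulAction.index_stabilizer, ← Set.ncard_coe_finset]
        congr 1
        ext u
        exact hOmem u
      rw [this]
      exact Subgroup.index_dvd_card S
    have hTσ : T = ((O.card : k)⁻¹ * (Fintype.card L : k)) • σ := by
      rw [mul_smul, ← hsum, smul_smul, inv_mul_cancel₀ hOc, one_smul]
    obtain ⟨c, hc⟩ := Submodule.mem_span_singleton.mp hb
    intro h
    rw [← hc, hTσ, map_smul, map_smul, hσ]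

end Cfsg.Agent.S4177
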