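import Cfsg.Statements.S4176
import Mathlib
import Cfsg.Agent.S4177
import Cfsg.Agent.Lib_lead_PCompl

set_option autoImplicit false
open Cfsg

namespace Cfsg.Agent.S4176

theorem keyM {k V H : Type*} [Field k] [AddCommGroup V] [Module k V] [Group H] [Finite H]
    (ρ : Representation k H V) (a : V)
    (hspan : Submodule.span k {u : V | ∃ h : H, ρ h a = u} = ⊤)
    (L : Subgroup H) (hKc : (Nat.card L : k) ≠ 0)
    (hOc' : (Nat.card {u : V | ∃ h : H, ρ h a = u} : k) ≠ 0)
    (hcop : (Nat.card {u : V | ∃ h : H, ρ h a = u}).Coprime L.index) :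
    ∃ σ : V, (∀ g : H, ρ g σ = σ) ∧ ∀ w : V, (∀ l ∈ L, ρ l w = w) → w ∈ Submodule.span k {σ} := by
  classical
  letI : Fintype H := Fintype.ofFinite H
  letI act : MulAction H V := MulAction.compHom V (ρ : H →* Module.End k V)
  have hOa : {u : V | ∃ h : H, ρ h a = u} = MulAction.orbit H a := rfl
  rw [hOa, Nat.card_coe_set_eq, ← MulAction.index_stabilizer] at hcop hOc'
  set S := MulAction.stabilizer H a with hS
  have h2 : (S ⊓ L).relIndex L * L.index = (S ⊓ L).index :=
    Subgroup.relIndex_mul_index inf_le_right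
  rw [Subgroup.inf_relIndex_right] at h2
  have h3 : S.index ∣ (S ⊓ L).index := Subgroup.index_dvd_of_le inf_le_left
  rw [← h2] at h3
  have h5 : S.index ∣ S.relIndex L := hcop.dvd_of_dvd_mul_right h3
  have h6 : MulAction.stabilizer L a = S.subgroupOf L := by
    ext u
    rw [Subgroup.mem_subgroupOf, MulAction.mem_stabilizer_iff, MulAction.mem_stabilizer_iff]
    rfl
  have h7 : S.relIndex L = (MulAction.orbit L a).ncard := by
    rw [← MulAction.index_stabilizer, h6]; rfl
  have h8 : MulAction.orbit L a = MulAction.orbit H a := by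
    apply Set.eq_of_subset_of_ncard_le
    · rintro _ ⟨l, rfl⟩; exact ⟨l, rfl⟩
    · rw [← MulAction.index_stabilizer (G := H), ← h7]
      apply Nat.le_of_dvd _ h5
      rw [h7]
      exact (Set.ncard_pos (s := MulAction.orbit L a) (Set.finite_range _)).mpr
        (MulAction.nonempty_orbit a)
    · exact Set.finite_range _
  let τ : Representation k L V := (ρ : H →* Module.End k V).comp L.subtype
  have hτ : ∀ (l : L) (v : V), τ l v = ρ l v := fun _ _ => rfl
  have hspanL : Submodule.span k {u : V | ∃ l : L, τ l a = u} = ⊤ := by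
    have e : {u : V | ∃ l : L, τ l a = u} = MulAction.orbit L a := rfl
    rw [e, h8, ← hOa]; exact hspan
  have hLc : (Fintype.card L : k) ≠ 0 := by
    rw [← Nat.card_eq_fintype_card]
    exact hKc
  set T := ∑ l : L, τ l a with hTdef
  let O : Finset V := Finset.univ.image (fun h : H => ρ h a)
  have hOmem : ∀ u, u ∈ O ↔ u ∈ MulAction.orbit H a := by
    intro u
    simp only [O, Finset.mem_image, Finset.mem_univ, true_and]
    rfl
  set σ := ∑ u ∈ O, u with hσdef
  have hσ : ∀ g : H, ρ g σ = σ := by
    intro g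
    rw [hσdef, map_sum]
    apply Finset.sum_bij (fun u _ => ρ g u)
    · intro u hu
      obtain ⟨h, -, rfl⟩ := Finset.mem_image.mp hu
      exact Finset.mem_image.mpr ⟨g * h, Finset.mem_univ _, by rw [map_mul]; rfl⟩
    · intro u _ u' _ e
      have := congrArg (ρ g⁻¹) e
      simpa [← Module.End.mul_apply, ← map_mul] using this
    · intro u hu
      obtain ⟨h, -, rfl⟩ := Finset.mem_image.mp hu
      exact ⟨ρ (g⁻¹ * h) a, Finset.mem_image.mpr ⟨_, Finset.mem_univ _, rfl⟩, by
        rw [← Module.End.mul_apply, ← map_mul, mul_inv_cancel_left]⟩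
    · intro u _; rfl
  have hT : ∀ u ∈ O, ∑ l : L, τ l u = T := by
    intro u hu
    rw [hOmem, ← h8] at hu
    obtain ⟨l0, rfl⟩ := hu
    apply Fintype.sum_equiv (Equiv.mulRight l0)
    intro l
    show τ l (τ l0 a) = τ (l * l0) a
    rw [map_mul]; rfl
  have hsum : (O.card : k) • T = (Fintype.card L : k) • σ := by
    have e1 : ∑ u ∈ O, ∑ l : L, τ l u = O.card • T := by
      rw [Finset.sum_congr rfl hT, Finset.sum_const]
    have e2 : ∑ u ∈ O, ∑ l : L, τ l u = Fintype.card L • σ := by
      rw [Finset.sum_comm]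
      have : ∀ l ∈ (Finset.univ : Finset L), ∑ u ∈ O, τ l u = σ := by
        intro l _
        rw [← map_sum]
        exact hσ l
      rw [Finset.sum_congr rfl this, Finset.sum_const, Finset.card_univ]
    rw [Nat.cast_smul_eq_nsmul, Nat.cast_smul_eq_nsmul, ← e1, e2]
  have hOc : (O.card : k) ≠ 0 := by
    have : O.card = S.index := by
      rw [hS, MulAction.index_stabilizer, ← Set.ncard_coe_finset]
      congr 1
      ext u
      exact hOmem u
    rw [this]
    exact hOc'
  have hTσ : T = ((O.card : k)⁻¹ * (Fintype.card L : k)) • σ := by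
    rw [mul_smul, ← hsum, smul_smul, inv_mul_cancel₀ hOc, one_smul]
  refine ⟨σ, hσ, ?_⟩
  intro w hw
  have hb := Cfsg.Agent.S4177.core hLc τ a hspanL w (fun l => hw l l.2)
  obtain ⟨c, hc⟩ := Submodule.mem_span_singleton.mp hb
  rw [← hc, ← hTdef, hTσ, smul_smul]
  exact Submodule.smul_mem _ _ (Submodule.mem_span_singleton_self σ)


/-- Let k be a field of prime characteristic p, H a finite p-soluble group and ρ a k-linear representation of H on V. Let a be a vector that is fixed by some Sylow p-subgroup of H and whose H-orbit spans V. Then the space of H-fixed vectors has dimension at most 1, and every vector b whose H-orbit has size coprime to the size of the orbit of a is fixed by H. -/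
theorem result {k V H : Type*} [Field k] (p : ℕ) [Fact p.Prime] [CharP k p] [AddCommGroup V] [Module k V]
    [Group H] [Finite H] (hsol : Cfsg.IsPSolvable p H) (ρ : Representation k H V) (a : V)
    (hfix : ∃ P : Sylow p H, ∀ x : H, x ∈ (P : Subgroup H) → ρ x a = a)
    (hspan : Submodule.span k {u : V | ∃ h : H, ρ h a = u} = ⊤) :
    Module.finrank k ρ.invariants ≤ 1 ∧
    ∀ b : V, (Nat.card {u : V | ∃ h : H, ρ h a = u}).Coprime (Nat.card {u : V | ∃ h : H, ρ h b = u}) → ∀ h : H, ρ h b = b := by
  classical
  have hp : p.Prime := Fact.out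
  letI act : MulAction H V := MulAction.compHom V (ρ : H →* Module.End k V)
  have hOx : ∀ x : V, Nat.card {u : V | ∃ h : H, ρ h x = u} = (MulAction.stabilizer H x).index := by
    intro x
    have e : {u : V | ∃ h : H, ρ h x = u} = MulAction.orbit H x := rfl
    rw [e, Nat.card_coe_set_eq, ← MulAction.index_stabilizer]
  have hcast : ∀ n : ℕ, n.Coprime p → (n : k) ≠ 0 := by
    intro n hn h0
    have h1 := (CharP.cast_eq_zero_iff k p n).mp h0
    have h2 := Nat.Coprime.eq_one_of_dvd hn.symm h1
    exact hp.one_lt.ne' h2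
  obtain ⟨P, hP⟩ := hfix
  have hm : (Nat.card {u : V | ∃ h : H, ρ h a = u}).Coprime p := by
    rw [hOx]
    have h1 : (P : Subgroup H) ≤ MulAction.stabilizer H a := fun x hx => hP x hx
    have h2 : (MulAction.stabilizer H a).index ∣ (P : Subgroup H).index :=
      Subgroup.index_dvd_of_le h1
    have h3 : ((P : Subgroup H).index).Coprime p :=
      ((Nat.Prime.coprime_iff_not_dvd hp).mpr P.not_dvd_index).symm
    exact Nat.Coprime.coprime_dvd_left h2 h3
  constructor
  · obtain ⟨K, hK1, e, hK2⟩ := Cfsg.Agent.LeadPC.exists_pcomplement p hp hsol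
    obtain ⟨σ, -, hσ2⟩ := keyM ρ a hspan K (hcast _ hK1) (hcast _ hm) (by
      rw [hK2]; exact Nat.Coprime.pow_right e hm)
    have h1 : ρ.invariants ≤ Submodule.span k {σ} := by
      intro w hw
      exact hσ2 w (fun l _ => (Representation.mem_invariants ρ w).mp hw l)
    refine (Submodule.finrank_mono h1).trans ?_
    refine (finrank_span_le_card _).trans ?_
    simp
  · intro b hcop
    set L := MulAction.stabilizer H b with hL
    obtain ⟨K', hK1, e, hK2⟩ := Cfsg.Agent.LeadPC.exists_pcomplement p hp
      (Cfsg.Agent.H7.isPSolvable_subgroup hp hsol L)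
    obtain ⟨σ, hσ1, hσ2⟩ := keyM ρ a hspan (K'.map L.subtype)
      (by
        rw [Subgroup.card_map_of_injective L.subtype_injective]
        exact hcast _ hK1)
      (hcast _ hm) (by
        rw [Subgroup.index_map_subtype, hK2]
        apply Nat.Coprime.mul_right (Nat.Coprime.pow_right e hm)
        rw [hL, ← hOx]
        exact hcop)
    have hb : b ∈ Submodule.span k {σ} := by
      apply hσ2
      rintro _ ⟨l, -, rfl⟩
      exact l.2
    obtain ⟨c, hc⟩ := Submodule.mem_span_singleton.mp hb
    intro h
    rw [← hc, map_smul, hσ1]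

end Cfsg.Agent.S4176
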