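import Cfsg.Statements.S4178


set_option autoImplicit false
open Cfsg

namespace Cfsg.Agent.S4178

theorem index_add_one_le {G T : Type*} [Group G] [Finite T] (K : Subgroup G) (f : G → T) (t₀ : T)
    (h0 : ∀ g, f g ≠ t₀) (hf : ∀ g g', f g = f g' → g⁻¹ * g' ∈ K) : K.index + 1 ≤ Nat.card T := by
  classical
  let ψ : Option (G ⧸ K) → T := fun o => match o with
    | none => t₀
    | some q => f q.out
  have hψ : Function.Injective ψ := by
    intro a b hab
    cases a with
    | none =>
      cases b with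
      | none => rfl
      | some q => exact absurd hab.symm (h0 _)
    | some q =>
      cases b with
      | none => exact absurd hab (h0 _)
      | some q' =>
        have h1 : f q.out = f q'.out := hab
        have h2 := hf _ _ h1
        have h3 : ((q.out : G) : G ⧸ K) = ((q'.out : G) : G ⧸ K) := QuotientGroup.eq.mpr h2
        rw [QuotientGroup.out_eq', QuotientGroup.out_eq'] at h3
        rw [h3]
  have hfin : Finite (Option (G ⧸ K)) := Finite.of_injective ψ hψ
  have hfin' : Finite (G ⧸ K) := Finite.of_injective (fun q => (some q : Option (G ⧸ K))) (Option.some_injective _)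
  have h4 := Nat.card_le_card_of_injective ψ hψ
  have := Fintype.ofFinite (G ⧸ K)
  rw [Nat.card_eq_fintype_card, Fintype.card_option, ← Nat.card_eq_fintype_card, ← Subgroup.index_eq_card] at h4
  exact h4

theorem exists_fixed {F V : Type*} [Field F] [AddCommGroup V] [Module F V] [Finite V]
    (h : V ≃ₗ[F] V) (W : Submodule F V) (hW : ∀ w ∈ W, h w ∈ W) (v : V) (hv : v ∉ W) (hvW : h v - v ∈ W) :
    ∃ u : V, u ≠ 0 ∧ h u = u := by
  by_contra hcon
  push Not at hcon
  have hinj : ∀ a b : V, h a - a = h b - b → a = b := by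
    intro a b hab
    by_contra hne
    apply hcon (a - b) (sub_ne_zero.mpr hne)
    rw [map_sub]
    have : h a - h b = (h a - a) - (h b - b) + (a - b) := by abel
    rw [this, hab]; abel
  let D : W → W := fun w => ⟨h w - w, W.sub_mem (hW w w.2) w.2⟩
  have hD : Function.Injective D := by
    intro a b hab
    exact Subtype.ext (hinj a b (congrArg Subtype.val hab))
  obtain ⟨w, hw⟩ := Finite.surjective_of_injective hD ⟨h v - v, hvW⟩
  have : (w : V) = v := hinj _ _ (congrArg Subtype.val hw)
  exact hv (this ▸ w.2)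

/-- Let F be a finite field with q elements, V a non-zero finite-dimensional F-space of dimension d, H a group of invertible linear maps of V, and R the subgroup of H generated by the elements of H that fix some non-zero vector (have eigenvalue 1). Then the index of R in H is at most q^d − 1; and if H leaves invariant some proper non-zero subspace, the index is at most q^(d/2) − 1. -/
theorem result {F V : Type*} [Field F] [Fintype F] [AddCommGroup V] [Module F V] [FiniteDimensional F V] [Nontrivial V]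
    (H : Subgroup (V ≃ₗ[F] V)) :
    (Subgroup.closure {h : ↥H | ∃ v : V, v ≠ 0 ∧ (h : V ≃ₗ[F] V) v = v}).index ≤ Fintype.card F ^ Module.finrank F V - 1 ∧
    ((∃ W : Submodule F V, W ≠ ⊥ ∧ W ≠ ⊤ ∧ ∀ h ∈ H, ∀ w ∈ W, h w ∈ W) →
      ((Subgroup.closure {h : ↥H | ∃ v : V, v ≠ 0 ∧ (h : V ≃ₗ[F] V) v = v}).index : ℝ) ≤ Real.sqrt ((Fintype.card F : ℝ) ^ Module.finrank F V) - 1) := by
  classical
  have hVfin : Finite V := Module.finite_of_finite F
  set R := Subgroup.closure {h : ↥H | ∃ v : V, v ≠ 0 ∧ (h : V ≃ₗ[F] V) v = v} with hR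
  have hq1 : 1 ≤ Fintype.card F := Fintype.card_pos
  -- bound through an invariant subspace
  have bound1 : ∀ W : Submodule F V, W ≠ ⊥ → (∀ h ∈ H, ∀ w ∈ W, h w ∈ W) →
      R.index + 1 ≤ Fintype.card F ^ Module.finrank F W := by
    intro W hW hinv
    obtain ⟨v, hvW, hv0⟩ := (Submodule.ne_bot_iff W).mp hW
    have h1 := index_add_one_le (T := W) R (fun g => ⟨(g : V ≃ₗ[F] V) v, hinv g g.2 v hvW⟩) 0
      (by
        intro g hg
        have h2 : (g : V ≃ₗ[F] V) v = 0 := congrArg Subtype.val hg
        exact hv0 ((LinearEquiv.map_eq_zero_iff _).mp h2))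
      (by
        intro g g' hgg
        have h2 : (g : V ≃ₗ[F] V) v = (g' : V ≃ₗ[F] V) v := congrArg Subtype.val hgg
        apply Subgroup.subset_closure
        refine ⟨v, hv0, ?_⟩
        show ((g : V ≃ₗ[F] V)⁻¹ * (g' : V ≃ₗ[F] V)) v = v
        rw [LinearEquiv.mul_apply, ← h2]
        exact (g : V ≃ₗ[F] V).symm_apply_apply v)
    rw [Module.natCard_eq_pow_finrank (K := F), Nat.card_eq_fintype_card] at h1
    exact h1
  have bound2 : ∀ W : Submodule F V, W ≠ ⊤ → (∀ h ∈ H, ∀ w ∈ W, h w ∈ W) →
      R.index + 1 ≤ Fintype.card F ^ Module.finrank F (V ⧸ W) := by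
    intro W hW hinv
    obtain ⟨v, hvW⟩ : ∃ v : V, v ∉ W := by
      by_contra hcon
      push Not at hcon
      exact hW (eq_top_iff.mpr fun x _ => hcon x)
    have hfinq : Finite (V ⧸ W) := Module.finite_of_finite F
    have h1 := index_add_one_le (T := V ⧸ W) R (fun g => Submodule.Quotient.mk ((g : V ≃ₗ[F] V) v)) 0
      (by
        intro g hg
        have h2 : (g : V ≃ₗ[F] V) v ∈ W := (Submodule.Quotient.mk_eq_zero W).mp hg
        have h3 := hinv (g⁻¹ : ↥H) (g⁻¹ : ↥H).2 _ h2
        apply hvW
        have h4 : ((g⁻¹ : ↥H) : V ≃ₗ[F] V) ((g : V ≃ₗ[F] V) v) = v := (g : V ≃ₗ[F] V).symm_apply_apply v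
        rwa [h4] at h3)
      (by
        intro g g' hgg
        have h2 : (g : V ≃ₗ[F] V) v - (g' : V ≃ₗ[F] V) v ∈ W := (Submodule.Quotient.eq W).mp hgg
        apply Subgroup.subset_closure
        have h3 := hinv (g⁻¹ : ↥H) (g⁻¹ : ↥H).2 _ h2
        have h4 : ((g⁻¹ : ↥H) : V ≃ₗ[F] V) ((g : V ≃ₗ[F] V) v - (g' : V ≃ₗ[F] V) v) = v - ((g⁻¹ * g' : ↥H) : V ≃ₗ[F] V) v := by
          rw [map_sub]
          congr 1
          exact (g : V ≃ₗ[F] V).symm_apply_apply v
        rw [h4] at h3
        have h5 : ((g⁻¹ * g' : ↥H) : V ≃ₗ[F] V) v - v ∈ W := by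
          have := W.neg_mem h3
          simpa using this
        exact exists_fixed _ W (hinv _ (g⁻¹ * g' : ↥H).2) v hvW h5)
    rw [Module.natCard_eq_pow_finrank (K := F), Nat.card_eq_fintype_card] at h1
    exact h1
  constructor
  · have h1 := bound1 ⊤ top_ne_bot (fun _ _ _ _ => Submodule.mem_top)
    rw [finrank_top] at h1
    omega
  · rintro ⟨W, hWbot, hWtop, hinv⟩
    have h1 := bound1 W hWbot hinv
    have h2 := bound2 W hWtop hinv
    have h3 := Submodule.finrank_quotient_add_finrank W
    have hk : ∃ k : ℕ, 2 * k ≤ Module.finrank F V ∧ R.index + 1 ≤ Fintype.card F ^ k := by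
      rcases le_total (Module.finrank F W) (Module.finrank F (V ⧸ W)) with h | h
      · exact ⟨_, by omega, h1⟩
      · exact ⟨_, by omega, h2⟩
    obtain ⟨k, hk1, hk2⟩ := hk
    have h4 : ((R.index : ℝ) + 1) ≤ (Fintype.card F : ℝ) ^ k := by exact_mod_cast hk2
    have h5 : (Fintype.card F : ℝ) ^ k ≤ Real.sqrt ((Fintype.card F : ℝ) ^ Module.finrank F V) := by
      rw [Real.le_sqrt (by positivity) (by positivity), ← pow_mul, mul_comm]
      exact pow_le_pow_right₀ (by exact_mod_cast hq1) hk1
    linarith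

end Cfsg.Agent.S4178
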