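import Cfsg.Statements.S4184
import Cfsg.Agent.Lib_helper3_Conj

set_option autoImplicit false
open Cfsg

namespace Cfsg.Agent.S4184

open Subgroup

/-- class size -/
noncomputable abbrev cs {G : Type*} [Group G] (g : G) : ℕ := (centralizer ({g} : Set G)).index

def Full (A : Set ℕ) (m k : ℕ) : Prop := ∀ q ∈ A, q.Prime → k.factorization q = m.factorization q

theorem full_mono {A : Set ℕ} {m k k' : ℕ} (hm : m ≠ 0) (h : Full A m k) (h1 : k ∣ k') (h2 : k' ∣ m) :
    Full A m k' := by
  intro q hq hqp
  have hk' : k' ≠ 0 := fun h0 => hm (by rw [h0] at h2; exact Nat.eq_zero_of_zero_dvd h2)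
  have hk : k ≠ 0 := fun h0 => hk' (by rw [h0] at h1; exact Nat.eq_zero_of_zero_dvd h1)
  have a1 := (Nat.factorization_le_iff_dvd hk hk').mpr h1 q
  have a2 := (Nat.factorization_le_iff_dvd hk' hm).mpr h2 q
  have a3 := h q hq hqp
  omega

theorem fac_add {G : Type*} [Group G] [Finite G] (g : G) (q : ℕ) :
    (cs g).factorization q + (Nat.card (centralizer ({g} : Set G))).factorization q
      = (Nat.card G).factorization q := by
  have h := (centralizer ({g} : Set G)).index_mul_card
  have h1 : (centralizer ({g} : Set G)).index ≠ 0 := index_ne_zero_of_finite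
  have h2 : Nat.card (centralizer ({g} : Set G)) ≠ 0 := Nat.card_pos.ne'
  rw [← h, Nat.factorization_mul h1 h2]
  rfl

theorem exists_central {G : Type*} [Group G] [Finite G] {p : ℕ} [Fact p.Prime] (Q : Subgroup G)
    (hQ : IsPGroup p Q) (hne : Q ≠ ⊥) : ∃ z ∈ Q, z ≠ 1 ∧ ∀ y ∈ Q, y * z = z * y := by
  have : Nontrivial Q := (Subgroup.nontrivial_iff_ne_bot Q).mpr hne
  have hc := hQ.center_nontrivial
  obtain ⟨z, hz⟩ := exists_ne (1 : center Q)
  refine ⟨((z : Q) : G), (z : Q).2, ?_, ?_⟩
  · intro h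
    apply hz
    ext
    simpa using h
  · intro y hy
    have := (Subgroup.mem_center_iff.mp z.2) ⟨y, hy⟩
    exact congrArg Subtype.val this

theorem not_dvd_cs {G : Type*} [Group G] [Finite G] {q : ℕ} [Fact q.Prime] (Q : Sylow q G) (z : G)
    (hz : ∀ y ∈ Q, y * z = z * y) : ¬ q ∣ cs z := by
  have hle : (Q : Subgroup G) ≤ centralizer ({z} : Set G) := by
    intro y hy
    rw [mem_centralizer_singleton_iff]
    exact hz y hy
  exact fun h => Q.not_dvd_index (h.trans (index_dvd_of_le hle))

theorem core {G : Type*} [Group G] [Finite G] (A : Set ℕ) (m : ℕ) (hm : m ≠ 0)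
    (h1 : ∀ g : G, cs g ∣ m)
    (h2 : ∀ g : G, g ≠ 1 → Full A m (cs g) ∨ Full Aᶜ m (cs g))
    (h3 : ∀ g : G, ¬ (Full A m (cs g) ∧ Full Aᶜ m (cs g)))
    (r : ℕ) (hrA : r ∉ A) (hr : r.Prime) (hrm : r ∣ m) (hmn : m ∣ Nat.card G)
    (p : ℕ) (hp : p.Prime) (hpA : p ∈ A) (hpm : p ∣ m) :
    (Nat.card G).factorization p ≤ m.factorization p := by
  by_contra hlt
  push Not at hlt
  have := Fact.mk hp
  have := Fact.mk hr
  have hpr : p ≠ r := fun h => hrA (h ▸ hpA)
  have hcop : ∀ i j : ℕ, (p ^ i).Coprime (r ^ j) := fun i j =>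
    Nat.Coprime.pow i j ((Nat.coprime_primes hp hr).mpr hpr)
  have hmp : m.factorization p ≠ 0 := (hp.factorization_pos_of_dvd hm hpm).ne'
  have hmr : m.factorization r ≠ 0 := (hr.factorization_pos_of_dvd hm hrm).ne'
  -- the element w
  let R : Sylow r G := default
  have hRne : (R : Subgroup G) ≠ ⊥ := by
    intro h
    have h4 := R.card_eq_multiplicity
    rw [h] at h4
    simp only [Subgroup.card_bot] at h4
    have h5 : (Nat.card G).factorization r ≠ 0 :=
      (hr.factorization_pos_of_dvd Nat.card_pos.ne' (hrm.trans hmn)).ne'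
    have h6 : 1 < r ^ (Nat.card G).factorization r := Nat.one_lt_pow h5 hr.one_lt
    omega
  obtain ⟨w, hwR, hw1, hwc⟩ := exists_central (R : Subgroup G) R.isPGroup' hRne
  have hwA : Full A m (cs w) := by
    rcases h2 w hw1 with h | h
    · exact h
    · exfalso
      have h4 := h r hrA hr
      rw [Nat.factorization_eq_zero_of_not_dvd (not_dvd_cs R w hwc)] at h4
      exact hmr h4.symm
  obtain ⟨j, hj⟩ : ∃ j : ℕ, orderOf w = r ^ j := by
    have := (IsPGroup.iff_orderOf.mp R.isPGroup') ⟨w, hwR⟩
    simpa using this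
  -- p-elements commuting with w
  have claim : ∀ t : G, t ≠ 1 → Commute t w → (∃ i : ℕ, orderOf t = p ^ i) → Full A m (cs t) := by
    intro t ht htw ⟨i, hi⟩
    have hco : (orderOf t).Coprime (orderOf w) := by rw [hi, hj]; exact hcop i j
    have a1 := Cfsg.Agent.H3.mem_zpowers_mul_of_coprime htw hco
    have a2 := Cfsg.Agent.H3.mem_zpowers_mul_of_coprime' htw hco
    have b1 : cs t ∣ cs (t * w) := index_dvd_of_le (Cfsg.Agent.H3.centralizer_le_of_mem_zpowers a1)
    have b2 : cs w ∣ cs (t * w) := index_dvd_of_le (Cfsg.Agent.H3.centralizer_le_of_mem_zpowers a2)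
    have c1 : Full A m (cs (t * w)) := full_mono hm hwA b2 (h1 _)
    rcases h2 t ht with h | h
    · exact h
    · exact absurd ⟨c1, full_mono hm h b1 (h1 _)⟩ (h3 _)
  -- valuations of centralizers
  have hval : ∀ t : G, Full A m (cs t) →
      (Nat.card (centralizer ({t} : Set G))).factorization p + m.factorization p
        = (Nat.card G).factorization p := by
    intro t ht
    have := fac_add t p
    have := ht p hpA hp
    omega
  -- Sylow p-subgroup of C(w)
  let T0 : Sylow p (centralizer ({w} : Set G)) := default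
  let T : Subgroup G := (T0 : Subgroup (centralizer ({w} : Set G))).map (centralizer ({w} : Set G)).subtype
  have hTcard : Nat.card T = p ^ (Nat.card (centralizer ({w} : Set G))).factorization p := by
    rw [← T0.card_eq_multiplicity]
    exact Nat.card_congr (Subgroup.equivMapOfInjective _ _ (Subgroup.subtype_injective _)).symm.toEquiv
  have hTp : IsPGroup p T := IsPGroup.of_card hTcard
  have hTw : ∀ t ∈ T, Commute t w := by
    rintro t ⟨⟨t', ht'⟩, -, rfl⟩
    exact (mem_centralizer_singleton_iff.mp ht')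
  have hTne : T ≠ ⊥ := by
    intro h
    rw [h] at hTcard
    simp only [Subgroup.card_bot] at hTcard
    have h5 := hval w hwA
    have h6 : (Nat.card (centralizer ({w} : Set G))).factorization p ≠ 0 := by omega
    have h7 : 1 < p ^ (Nat.card (centralizer ({w} : Set G))).factorization p := Nat.one_lt_pow h6 hp.one_lt
    omega
  have hTord : ∀ t ∈ T, ∃ i : ℕ, orderOf t = p ^ i := by
    intro t ht
    have := (IsPGroup.iff_orderOf.mp hTp) ⟨t, ht⟩
    simpa using this
  obtain ⟨P, hTP⟩ := hTp.exists_le_sylow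
  have hPne : (P : Subgroup G) ≠ ⊥ := fun h => hTne (eq_bot_iff.mpr (h ▸ hTP))
  obtain ⟨z, hzP, hz1, hzc⟩ := exists_central (P : Subgroup G) P.isPGroup' hPne
  have hzA : ¬ Full A m (cs z) := by
    intro h
    have h4 := h p hpA hp
    rw [Nat.factorization_eq_zero_of_not_dvd (not_dvd_cs P z hzc)] at h4
    exact hmp h4.symm
  have hzT : z ∉ T := fun h => hzA (claim z hz1 (hTw z h) (hTord z h))
  obtain ⟨t, htT, ht1, htc⟩ := exists_central T hTp hTne
  have htA : Full A m (cs t) := claim t ht1 (hTw t htT) (hTord t htT)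
  have hT2P : T ⊔ zpowers z ≤ (P : Subgroup G) := sup_le hTP (by rw [zpowers_le]; exact hzP)
  have hT2p : IsPGroup p (T ⊔ zpowers z : Subgroup G) := P.isPGroup'.to_le hT2P
  have hT2C : T ⊔ zpowers z ≤ centralizer ({t} : Set G) := by
    refine sup_le ?_ ?_
    · intro y hy
      rw [mem_centralizer_singleton_iff]
      exact htc y hy
    · rw [zpowers_le, mem_centralizer_singleton_iff]
      exact (hzc t (hTP htT)).symm
  obtain ⟨k, hk⟩ := hT2p.exists_card_eq
  have hk1 : p ^ k ∣ Nat.card (centralizer ({t} : Set G)) := hk ▸ Subgroup.card_dvd_of_le hT2C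
  have hk2 : k ≤ (Nat.card (centralizer ({t} : Set G))).factorization p :=
    (hp.pow_dvd_iff_le_factorization Nat.card_pos.ne').mp hk1
  have e1 := hval t htA
  have e2 := hval w hwA
  have hle : Nat.card (T ⊔ zpowers z : Subgroup G) ≤ Nat.card T := by
    rw [hk, hTcard]
    exact Nat.pow_le_pow_right hp.pos (by omega)
  have heq : T = T ⊔ zpowers z := Subgroup.eq_of_le_of_card_ge le_sup_left hle
  apply hzT
  rw [heq]
  exact (le_sup_right : zpowers z ≤ T ⊔ zpowers z) (mem_zpowers z)

theorem fac_eq {M : Type*} [Group M] [Finite M] (y : M) (p q : ℕ) (hp : p.Prime) (hq : q.Prime)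
    (hpq : p ≠ q) (hpy : p ∣ orderOf y) (hno : ¬ ∃ x : M, orderOf x = p * q) :
    (cs y).factorization q = (Nat.card M).factorization q := by
  have := Fact.mk hq
  have h := fac_add y q
  have h0 : ¬ q ∣ Nat.card (centralizer ({y} : Set M)) := by
    intro hd
    obtain ⟨w, hw⟩ := exists_prime_orderOf_dvd_card' q hd
    apply hno
    have hz : orderOf (y ^ (orderOf y / p)) = p := orderOf_pow_orderOf_div (orderOf_pos y).ne' hpy
    have hw' : orderOf (w : M) = q := by rw [Subgroup.orderOf_coe]; exact hw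
    have hc : Commute (y ^ (orderOf y / p)) (w : M) := by
      have : Commute (w : M) y := mem_centralizer_singleton_iff.mp w.2
      exact (this.pow_right _).symm
    refine ⟨y ^ (orderOf y / p) * (w : M), ?_⟩
    rw [hc.orderOf_mul_eq_mul_orderOf_of_coprime (by rw [hz, hw']; exact (Nat.coprime_primes hp hq).mpr hpq),
      hz, hw']
  rw [Nat.factorization_eq_zero_of_not_dvd h0] at h
  omega

/-- Let G and M be finite groups with trivial centres and the same set of conjugacy class sizes, and suppose the prime graph of M is disconnected: the prime divisors of #M split into two non-empty parts such that M has no element of order pq with p in one part and q in the other. Then #G = #M. -/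
theorem result {G M : Type*}
    [Group G] [Finite G] [Group M] [Finite M] (hZG : Subgroup.center G = ⊥) (hZM : Subgroup.center M = ⊥)
    (h : Set.range (fun g : G => (Subgroup.centralizer ({g} : Set G)).index) = Set.range (fun g : M => (Subgroup.centralizer ({g} : Set M)).index))
    (hdisc : ∃ A : Set ℕ, (∃ a ∈ A, a.Prime ∧ a ∣ Nat.card M) ∧ (∃ b ∉ A, b.Prime ∧ b ∣ Nat.card M) ∧
      ∀ a ∈ A, ∀ b ∉ A, a.Prime → b.Prime → a ∣ Nat.card M → b ∣ Nat.card M → ¬ ∃ x : M, orderOf x = a * b) :
    Nat.card G = Nat.card M := by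
  obtain ⟨A, ⟨a, haA, hap, ham⟩, ⟨b, hbA, hbp, hbm⟩, hd⟩ := hdisc
  set m := Nat.card M with hmdef
  have hm : m ≠ 0 := Nat.card_pos.ne'
  have hn : Nat.card G ≠ 0 := Nat.card_pos.ne'
  have hd' : ∀ a ∈ A, ∀ b ∉ A, a.Prime → b.Prime → ¬ ∃ x : M, orderOf x = a * b := by
    intro a ha b hb hap hbp ⟨x, hx⟩
    have h1 : a * b ∣ m := hx ▸ orderOf_dvd_natCard x
    exact hd a ha b hb hap hbp ((Dvd.intro _ rfl).trans h1) ((Dvd.intro_left _ rfl).trans h1) ⟨x, hx⟩
  -- facts on M
  have M1 : ∀ y : M, cs y ∣ m := fun y => Subgroup.index_dvd_card _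
  have M2a : ∀ y : M, ∀ p : ℕ, p.Prime → p ∣ orderOf y → p ∈ A → Full Aᶜ m (cs y) := by
    intro y p hp hpy hpA q hq hqp
    exact fac_eq y p q hp hqp (fun h => hq (h ▸ hpA)) hpy (hd' p hpA q hq hp hqp)
  have M2b : ∀ y : M, ∀ p : ℕ, p.Prime → p ∣ orderOf y → p ∉ A → Full A m (cs y) := by
    intro y p hp hpy hpA q hq hqp
    refine fac_eq y p q hp hqp (fun h => hpA (h ▸ hq)) hpy ?_
    rw [mul_comm]
    exact hd' q hq p hpA hqp hp
  have M2 : ∀ y : M, y ≠ 1 → Full A m (cs y) ∨ Full Aᶜ m (cs y) := by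
    intro y hy
    have h1 : orderOf y ≠ 1 := by rwa [Ne, orderOf_eq_one_iff]
    obtain ⟨p, hp, hpy⟩ := Nat.exists_prime_and_dvd h1
    by_cases hpA : p ∈ A
    · exact Or.inr (M2a y p hp hpy hpA)
    · exact Or.inl (M2b y p hp hpy hpA)
  have cs_one : ∀ {K : Type _} [Group K], cs (1 : K) = 1 := by
    intro K _
    have : Subgroup.centralizer ({1} : Set K) = ⊤ := by
      ext x; simp [Subgroup.mem_centralizer_singleton_iff]
    simp [cs, this]
  have M3 : ∀ y : M, ¬ (Full A m (cs y) ∧ Full Aᶜ m (cs y)) := by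
    rintro y ⟨f1, f2⟩
    have h0 : cs y ≠ 0 := Subgroup.index_ne_zero_of_finite
    have h1 : cs y = m := by
      apply Nat.eq_of_factorization_eq h0 hm
      intro q
      by_cases hq : q.Prime
      · by_cases hqA : q ∈ A
        · exact f1 q hqA hq
        · exact f2 q hqA hq
      · rw [Nat.factorization_eq_zero_of_not_prime _ hq, Nat.factorization_eq_zero_of_not_prime _ hq]
    have h2 := (Subgroup.centralizer ({y} : Set M)).index_mul_card
    have h3 : Nat.card (Subgroup.centralizer ({y} : Set M)) = 1 := by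
      have : m * Nat.card (Subgroup.centralizer ({y} : Set M)) = m * 1 := by
        rw [mul_one]; rw [← h1]; exact h2.trans (by rw [h1])
      exact Nat.eq_of_mul_eq_mul_left (Nat.pos_of_ne_zero hm) this
    have h4 : Subgroup.centralizer ({y} : Set M) = ⊥ := (Subgroup.card_eq_one).mp h3
    have h5 : y ∈ Subgroup.centralizer ({y} : Set M) := by
      rw [Subgroup.mem_centralizer_singleton_iff]
    rw [h4, Subgroup.mem_bot] at h5
    rw [h5, cs_one] at h1
    rw [← h1] at ham
    exact hap.one_lt.ne' (Nat.dvd_one.mp ham)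
  -- transfer to G
  have tr : ∀ g : G, ∃ y : M, cs y = cs g := by
    intro g
    have : cs g ∈ Set.range (fun g : M => (Subgroup.centralizer ({g} : Set M)).index) := by
      rw [← h]; exact ⟨g, rfl⟩
    exact this
  have tr' : ∀ y : M, ∃ g : G, cs g = cs y := by
    intro y
    have : cs y ∈ Set.range (fun g : G => (Subgroup.centralizer ({g} : Set G)).index) := by
      rw [h]; exact ⟨y, rfl⟩
    exact this
  have G0 : ∀ g : G, g ≠ 1 → cs g ≠ 1 := by
    intro g hg h1
    have h2 : Subgroup.centralizer ({g} : Set G) = ⊤ := Subgroup.index_eq_one.mp h1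
    have h3 : g ∈ Subgroup.center G := by
      rw [Subgroup.mem_center_iff]
      intro x
      have : x ∈ Subgroup.centralizer ({g} : Set G) := h2 ▸ Subgroup.mem_top x
      exact Subgroup.mem_centralizer_singleton_iff.mp this
    rw [hZG, Subgroup.mem_bot] at h3
    exact hg h3
  have G1 : ∀ g : G, cs g ∣ m := by
    intro g; obtain ⟨y, hy⟩ := tr g; rw [← hy]; exact M1 y
  have G2 : ∀ g : G, g ≠ 1 → Full A m (cs g) ∨ Full Aᶜ m (cs g) := by
    intro g hg
    obtain ⟨y, hy⟩ := tr g
    rw [← hy]
    apply M2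
    rintro rfl
    rw [cs_one] at hy
    exact G0 g hg hy.symm
  have G3 : ∀ g : G, ¬ (Full A m (cs g) ∧ Full Aᶜ m (cs g)) := by
    intro g; obtain ⟨y, hy⟩ := tr g; rw [← hy]; exact M3 y
  have G4a : ∃ g : G, Full Aᶜ m (cs g) := by
    have := Fact.mk hap
    obtain ⟨y, hy⟩ := exists_prime_orderOf_dvd_card' a ham
    obtain ⟨g, hg⟩ := tr' y
    exact ⟨g, hg ▸ M2a y a hap (hy ▸ dvd_rfl) haA⟩
  have G4b : ∃ g : G, Full A m (cs g) := by
    have := Fact.mk hbp
    obtain ⟨y, hy⟩ := exists_prime_orderOf_dvd_card' b hbm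
    obtain ⟨g, hg⟩ := tr' y
    exact ⟨g, hg ▸ M2b y b hbp (hy ▸ dvd_rfl) hbA⟩
  have csn : ∀ g : G, ∀ q : ℕ, (cs g).factorization q ≤ (Nat.card G).factorization q := by
    intro g q
    exact (Nat.factorization_le_iff_dvd Subgroup.index_ne_zero_of_finite hn).mpr (Subgroup.index_dvd_card _) q
  have hmn : m ∣ Nat.card G := by
    rw [← Nat.factorization_le_iff_dvd hm hn]
    intro q
    by_cases hq : q.Prime
    · by_cases hqA : q ∈ A
      · obtain ⟨g, hg⟩ := G4b
        rw [← hg q hqA hq]; exact csn g q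
      · obtain ⟨g, hg⟩ := G4a
        rw [← hg q hqA hq]; exact csn g q
    · rw [Nat.factorization_eq_zero_of_not_prime _ hq]; exact Nat.zero_le _
  apply Nat.eq_of_factorization_eq hn hm
  intro q
  by_cases hq : q.Prime
  · apply le_antisymm _ ((Nat.factorization_le_iff_dvd hm hn).mpr hmn q)
    by_cases hqm : q ∣ m
    · by_cases hqA : q ∈ A
      · exact core A m hm G1 G2 G3 b hbA hbp hbm hmn q hq hqA hqm
      · refine core Aᶜ m hm G1 ?_ ?_ a (by simpa using haA) hap ham hmn q hq hqA hqm
        · intro g hg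
          rw [compl_compl]
          exact (G2 g hg).symm
        · intro g
          rw [compl_compl]
          exact fun hh => G3 g ⟨hh.2, hh.1⟩
    · -- q does not divide m
      have := Fact.mk hq
      have hqn : ¬ q ∣ Nat.card G := by
        intro hqn
        let P : Sylow q G := default
        have hC : Subgroup.centralizer ((P : Subgroup G) : Set G) = ⊤ := by
          by_contra hne
          obtain ⟨g, hg⟩ := Cfsg.Agent.H3.exists_not_mem_conj _ hne
          have h1 : ¬ q ∣ cs g := fun hh => hqm (hh.trans (G1 g))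
          obtain ⟨c, hc⟩ := Cfsg.Agent.H3.exists_conj_le_of_not_dvd_index (P : Subgroup G) _ P.isPGroup' h1
          apply hg c⁻¹
          rw [Subgroup.mem_centralizer_iff]
          intro x hx
          have h2 := Subgroup.mem_centralizer_singleton_iff.mp (hc x hx)
          have h3 : x = c * (c⁻¹ * x * c) * c⁻¹ := by group
          have e1 : x * (c⁻¹⁻¹ * g * c⁻¹) = c * ((c⁻¹ * x * c) * g) * c⁻¹ := by group
          have e2 : c⁻¹⁻¹ * g * c⁻¹ * x = c * (g * (c⁻¹ * x * c)) * c⁻¹ := by group
          rw [e1, e2, h2]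
        have hPZ : (P : Subgroup G) ≤ Subgroup.center G := by
          intro x hx
          rw [Subgroup.mem_center_iff]
          intro y
          have : y ∈ Subgroup.centralizer ((P : Subgroup G) : Set G) := hC ▸ Subgroup.mem_top y
          exact ((Subgroup.mem_centralizer_iff.mp this) x hx).symm
        rw [hZG] at hPZ
        have hPb : (P : Subgroup G) = ⊥ := eq_bot_iff.mpr hPZ
        have h4 := P.card_eq_multiplicity
        rw [hPb] at h4
        simp only [Subgroup.card_bot] at h4
        have h5 : (Nat.card G).factorization q ≠ 0 := (hq.factorization_pos_of_dvd hn hqn).ne'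
        have h6 : 1 < q ^ (Nat.card G).factorization q := Nat.one_lt_pow h5 hq.one_lt
        omega
      rw [Nat.factorization_eq_zero_of_not_dvd hqn]
      exact Nat.zero_le _
  · rw [Nat.factorization_eq_zero_of_not_prime _ hq, Nat.factorization_eq_zero_of_not_prime _ hq]

end Cfsg.Agent.S4184
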