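import Cfsg.Statements.S4186


set_option autoImplicit false
open Cfsg

namespace Cfsg.Agent.S4186

/-- Let T and X be subgroups of a group with T a finite 2-group normalizing X but not centralizing it. Then some element of T inverts some non-identity element of X under conjugation. -/
theorem result {G : Type*} [Group G] (T X : Subgroup G) [Finite ↥T] (hT : IsPGroup 2 ↥T) (hTN : T ≤ Subgroup.normalizer (X : Set G)) (hTC : ¬ T ≤ Subgroup.centralizer (X : Set G)) : ∃ t ∈ T, ∃ x ∈ X, x ≠ 1 ∧ t * x * t⁻¹ = x⁻¹ := by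
  classical
  obtain ⟨t0, ht0T, ht0C⟩ := SetLike.not_le_iff_exists.mp hTC
  obtain ⟨k, hk⟩ := hT ⟨t0, ht0T⟩
  have hk' : t0 ^ 2 ^ k = 1 := by
    have := congrArg Subtype.val hk
    simpa using this
  have hex : ∃ i : ℕ, t0 ^ 2 ^ i ∈ Subgroup.centralizer (X : Set G) := ⟨k, by rw [hk']; exact one_mem _⟩
  have hi := Nat.find_spec hex
  have hmin := fun j => @Nat.find_min _ _ hex j
  set i := Nat.find hex with hidef
  have hi0 : i ≠ 0 := by
    intro h0
    rw [h0] at hi
    simp at hi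
    exact ht0C hi
  obtain ⟨j, hj⟩ := Nat.exists_eq_succ_of_ne_zero hi0
  have hjC : t0 ^ 2 ^ j ∉ Subgroup.centralizer (X : Set G) := hmin j (by omega)
  set t := t0 ^ 2 ^ j with ht
  have htT : t ∈ T := T.pow_mem ht0T _
  have ht2 : t * t ∈ Subgroup.centralizer (X : Set G) := by
    have : t * t = t0 ^ 2 ^ i := by
      rw [ht, hj, ← pow_add, Nat.succ_eq_add_one, pow_succ]; congr 1; ring
    rw [this]; exact hi
  have : ∃ x ∈ X, t * x * t⁻¹ ≠ x := by
    by_contra hcon
    push Not at hcon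
    apply hjC
    rw [Subgroup.mem_centralizer_iff]
    intro x hx
    have := hcon x hx
    calc x * t = (t * x * t⁻¹) * t := by rw [this]
      _ = t * x := by group
  obtain ⟨x, hxX, hx⟩ := this
  have htx : t * x * t⁻¹ ∈ X := by
    have := (Subgroup.mem_normalizer_iff.mp (hTN htT) x).mp hxX
    exact this
  refine ⟨t, htT, x⁻¹ * (t * x * t⁻¹), X.mul_mem (X.inv_mem hxX) htx, ?_, ?_⟩
  · intro h
    apply hx
    have := congrArg (fun z => x * z) h
    simpa using this
  · have h2 := (Subgroup.mem_centralizer_iff.mp ht2) x hxX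
    have h3 : t * t * x * t⁻¹ * t⁻¹ = x := by
      rw [← h2]; group
    calc t * (x⁻¹ * (t * x * t⁻¹)) * t⁻¹ = (t * x⁻¹ * t⁻¹) * (t * t * x * t⁻¹ * t⁻¹) := by group
      _ = (t * x⁻¹ * t⁻¹) * x := by rw [h3]
      _ = (x⁻¹ * (t * x * t⁻¹))⁻¹ := by group

end Cfsg.Agent.S4186
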