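import Cfsg.Statements.S4189
import Cfsg.Agent.Lib_helper7_MaxClass5

set_option autoImplicit false
open Cfsg

namespace Cfsg.Agent.S4189

/-- Let P be a finite non-abelian 2-group whose commutator subgroup has index 4 and whose automorphism group is not a 2-group (some automorphism has order that is not a power of 2). Then P is isomorphic to the quaternion group of order 8. -/
theorem result {P : Type*} [Group P] [Finite P] (hP : IsPGroup 2 P) (hna : ¬ IsMulCommutative P) (h4 : (commutator P).index = 4) (haut : ¬ IsPGroup 2 (MulAut P)) : Nonempty (P ≃* QuaternionGroup 2) := by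
  haveI : Fact (Nat.Prime 2) := ⟨Nat.prime_two⟩
  obtain ⟨n, hn⟩ := hP.exists_card_eq
  have hdvd : 4 ∣ 2 ^ n := by rw [← hn, ← h4]; exact Subgroup.index_dvd_card _
  have hn3 : 3 ≤ n := by
    by_contra h
    have : n = 0 ∨ n = 1 ∨ n = 2 := by omega
    rcases this with rfl | rfl | rfl
    · norm_num at hdvd
    · norm_num at hdvd
    · exact hna (IsPGroup.isMulCommutative_of_card_eq_prime_sq hn)
  obtain ⟨m, rfl⟩ : ∃ m, n = m + 1 := ⟨n - 1, by omega⟩
  have hm : 2 ≤ m := by omega
  obtain ⟨a, y, hord, hy, h⟩ := H7.maxclass_structure (m := m) hm hn h4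
  have hidx2 : (Subgroup.zpowers a).index = 2 :=
    H7.index_zpowers_eq_two hn a (by rw [hord]; ring)
  by_cases hm3 : 3 ≤ m
  · exfalso
    apply haut
    intro α
    apply H7.exists_pow_eq_one_of_cyclic_index_two a m hord hidx2 α
    by_contra hmem
    have h5 := H7.pow_four_of_not_mem hord hm hidx2 hy h (α a) hmem
    rw [← map_pow, map_eq_one_iff α α.injective, ← orderOf_dvd_iff_pow_eq_one, hord] at h5
    have h6 := Nat.le_of_dvd (by norm_num) h5
    have h8 : 2 ^ 3 ≤ 2 ^ m := Nat.pow_le_pow_right (by norm_num) hm3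
    omega
  · have hm2 : m = 2 := by omega
    subst hm2
    rcases h with ⟨h1, h3⟩ | ⟨h1, h3⟩ | ⟨hm', -, -⟩
    · exfalso
      apply haut
      intro α
      apply H7.exists_pow_eq_one_of_cyclic_index_two a 2 hord hidx2 α
      by_contra hmem
      have h5 := H7.sq_of_not_mem_dihedral hidx2 hy h1 h3 (α a) hmem
      rw [← map_pow, map_eq_one_iff α α.injective, ← orderOf_dvd_iff_pow_eq_one, hord] at h5
      norm_num at h5
    · exact H7.quaternion_iso 2 (by norm_num) a y (by rw [hord]; norm_num) h1 (by simpa using h3)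
        (by rw [hn]; norm_num) hy
    · omega

end Cfsg.Agent.S4189
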