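import Cfsg.Statements.S4195
import Cfsg.Agent.Lib_helper3_Class

set_option autoImplicit false
open Cfsg

namespace Cfsg.Agent.S4195

/-- Let x be a non-identity element of a finite group G whose centralizer contains a Sylow 2-subgroup of G. If x is conjugate to its inverse, then x has order 2. -/
theorem result {G : Type*} [Group G] [Finite G] (x : G) (hx : x ≠ 1) (P : Sylow 2 G) (hP : (P : Subgroup G) ≤ Subgroup.centralizer ({x} : Set G)) (hreal : IsConj x x⁻¹) : orderOf x = 2 := by
  classical
  have hodd : ¬ 2 ∣ Nat.card {y : G // IsConj x y} := by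
    rw [H3.card_isConj_eq_index]
    intro h
    have : Fact (Nat.Prime 2) := ⟨Nat.prime_two⟩
    exact P.not_dvd_index (h.trans (Subgroup.index_dvd_of_le hP))
  let f : {y : G // IsConj x y} → {y : G // IsConj x y} := fun y =>
    ⟨(y.1)⁻¹, hreal.trans (by
      obtain ⟨a, ha⟩ := isConj_iff.mp y.2
      exact isConj_iff.mpr ⟨a, by rw [← ha]; group⟩)⟩
  have hf : Function.Involutive f := fun y => Subtype.ext (inv_inv y.1)
  obtain ⟨y, hy⟩ := H3.exists_fixed_of_involutive_of_odd f hf hodd
  have hy1 : (y.1)⁻¹ = y.1 := congrArg Subtype.val hy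
  obtain ⟨a, ha⟩ := isConj_iff.mp y.2
  have hx2 : x ^ 2 = 1 := by
    have h1 : y.1 * y.1 = 1 := by
      nth_rewrite 1 [← hy1]; group
    rw [← ha] at h1
    have h2 : a * (x * x) * a⁻¹ = 1 := by
      rw [← h1]; group
    have h3 : x * x = a⁻¹ * (a * (x * x) * a⁻¹) * a := by group
    rw [pow_two, h3, h2]; group
  exact orderOf_eq_prime hx2 hx

end Cfsg.Agent.S4195
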