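import Cfsg.Statements.S4196
import Cfsg.Agent.S4195

set_option autoImplicit false
open Cfsg

namespace Cfsg.Agent.S4196

/-- A finite group G has elementary abelian Sylow 2-subgroups (commutative with every element squaring to the identity) if and only if every 2-element of G has a Sylow 2-subgroup in its centralizer and is conjugate to its inverse. -/
theorem result {G : Type*} [Group G] [Finite G] (P : Sylow 2 G) :
    (IsMulCommutative (P : Subgroup G) ∧ ∀ x ∈ (P : Subgroup G), x ^ 2 = 1) ↔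
      ∀ x : G, (∃ k : ℕ, orderOf x = 2 ^ k) → (∃ Q : Sylow 2 G, (Q : Subgroup G) ≤ Subgroup.centralizer ({x} : Set G)) ∧ IsConj x x⁻¹ := by
  classical
  have : Fact (Nat.Prime 2) := ⟨Nat.prime_two⟩
  constructor
  · rintro ⟨hcomm, hexp⟩ x ⟨k, hk⟩
    have hz : IsPGroup 2 (Subgroup.zpowers x) := by
      rw [IsPGroup.iff_card]
      exact ⟨k, by rw [Nat.card_zpowers, hk]⟩
    obtain ⟨Q, hQ⟩ := hz.exists_le_sylow
    obtain ⟨g, hg⟩ := MulAction.exists_smul_eq G P Q
    have hmem : ∀ y ∈ (Q : Subgroup G), ∃ z ∈ (P : Subgroup G), y = g * z * g⁻¹ := by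
      intro y hy
      rw [← hg, Sylow.coe_subgroup_smul] at hy
      obtain ⟨z, hz, hzy⟩ := Subgroup.mem_pointwise_smul_iff_inv_smul_mem.mp hy |> fun h => (⟨_, h, rfl⟩ : ∃ z ∈ (P : Subgroup G), z = (MulAut.conj g)⁻¹ • y)
      refine ⟨z, hz, ?_⟩
      rw [hzy]
      simp [MulAut.smul_def]
      group
    have hxQ : x ∈ (Q : Subgroup G) := hQ (Subgroup.mem_zpowers x)
    obtain ⟨z, hzP, hzx⟩ := hmem x hxQ
    refine ⟨⟨Q, ?_⟩, ?_⟩
    · intro y hy
      obtain ⟨w, hwP, hwy⟩ := hmem y hy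
      rw [Subgroup.mem_centralizer_iff]
      intro u hu
      rw [Set.mem_singleton_iff] at hu
      subst hu
      have hc : z * w = w * z := by
        have := (isMulCommutative_iff.mp hcomm) ⟨z, hzP⟩ ⟨w, hwP⟩
        exact congrArg Subtype.val this
      rw [hzx, hwy]
      calc g * z * g⁻¹ * (g * w * g⁻¹) = g * (z * w) * g⁻¹ := by group
        _ = g * (w * z) * g⁻¹ := by rw [hc]
        _ = g * w * g⁻¹ * (g * z * g⁻¹) := by group
    · have hz2 := hexp z hzP
      have hx2 : x * x = 1 := by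
        rw [hzx]
        calc g * z * g⁻¹ * (g * z * g⁻¹) = g * (z ^ 2) * g⁻¹ := by rw [pow_two]; group
          _ = 1 := by rw [hz2]; group
      have : x⁻¹ = x := inv_eq_of_mul_eq_one_left hx2
      rw [this]
  · intro h
    have hexp : ∀ x ∈ (P : Subgroup G), x ^ 2 = 1 := by
      intro x hx
      by_cases hx1 : x = 1
      · rw [hx1]; simp
      · have hk : ∃ k : ℕ, orderOf x = 2 ^ k := by
          obtain ⟨k, hk⟩ := (IsPGroup.iff_orderOf.mp P.isPGroup') ⟨x, hx⟩
          exact ⟨k, by rw [← hk, Subgroup.orderOf_mk]⟩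
        obtain ⟨⟨Q, hQ⟩, hc⟩ := h x hk
        have := S4195.result x hx1 Q hQ hc
        rw [← this]; exact pow_orderOf_eq_one x
    refine ⟨⟨⟨fun a b => ?_⟩⟩, hexp⟩
    apply Subtype.ext
    show (a : G) * b = b * a
    have ha := hexp a a.2
    have hb := hexp b b.2
    have hab := hexp (a * b) (mul_mem a.2 b.2)
    have h2 : (a : G)⁻¹ = a := inv_eq_of_mul_eq_one_left (by rw [← pow_two]; exact ha)
    have h3 : (b : G)⁻¹ = b := inv_eq_of_mul_eq_one_left (by rw [← pow_two]; exact hb)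
    have h4 : ((a : G) * b)⁻¹ = a * b := inv_eq_of_mul_eq_one_left (by rw [← pow_two]; exact hab)
    rw [← h4, mul_inv_rev, h2, h3]

end Cfsg.Agent.S4196
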