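import Cfsg.Statements.S4203
import Cfsg.Agent.Lib_helper3_Sylow3
import Cfsg.Agent.Lib_helper1_Max
import Cfsg.Agent.Lib_helper4_CharD

set_option autoImplicit false
open Cfsg

namespace Cfsg.Agent.S4203

universe u

theorem two_three_decomp (n : ℕ) (hn : n ≠ 0) (h : ∀ r : ℕ, r.Prime → r ∣ n → r ≤ 3) :
    ∃ a b : ℕ, n = 2 ^ a * 3 ^ b := by
  obtain ⟨a, m, hm, rfl⟩ := Nat.exists_eq_pow_mul_and_not_dvd hn 2 (by norm_num)
  have hm0 : m ≠ 0 := by rintro rfl; simp at hn
  obtain ⟨b, m', hm', rfl⟩ := Nat.exists_eq_pow_mul_and_not_dvd hm0 3 (by norm_num)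
  refine ⟨a, b, ?_⟩
  have h1 : m' = 1 := by
    rw [Nat.eq_one_iff_not_exists_prime_dvd]
    intro r hr hdvd
    have h2 := h r hr ((hdvd.mul_left _).mul_left _)
    have h3 := hr.two_le
    have h4 : r = 2 ∨ r = 3 := by omega
    rcases h4 with rfl | rfl
    · exact hm (hdvd.mul_left _)
    · exact hm' hdvd
  rw [h1, mul_one]

theorem arith (p q : ℕ) (hp : p.Prime) (hq : q.Prime) (hqp : q ≤ p) (i : ℕ) (hi : i = q ∨ i = q ^ 2)
    (hmod : i ≡ 1 [MOD p]) : p = 3 := by
  have hp2 := hp.two_le
  have hq2 := hq.two_le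
  rcases hi with rfl | rfl
  · exfalso
    have h1 : p ∣ i - 1 := (Nat.modEq_iff_dvd' (by omega)).mp hmod.symm
    have h2 := Nat.le_of_dvd (by omega) h1
    omega
  · have h1 : p ∣ q ^ 2 - 1 := (Nat.modEq_iff_dvd' (Nat.one_le_pow _ _ (by omega))).mp hmod.symm
    have h2 : q ^ 2 - 1 = (q - 1) * (q + 1) := by
      obtain ⟨k, rfl⟩ : ∃ k, q = k + 1 := ⟨q - 1, by omega⟩
      simp only [Nat.add_sub_cancel]
      have : (k + 1) ^ 2 = k * (k + 1 + 1) + 1 := by ring
      omega
    rw [h2] at h1
    rcases (Nat.Prime.dvd_mul hp).mp h1 with h3 | h3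
    · have := Nat.le_of_dvd (by omega) h3
      omega
    · obtain ⟨c, hc⟩ := h3
      have hc1 : c = 1 := by
        rcases c with _ | _ | c
        · omega
        · rfl
        · exfalso
          have : p * (c + 1 + 1) ≥ p * 2 := Nat.mul_le_mul_left p (by omega)
          omega
      rw [hc1, mul_one] at hc
      -- q + 1 = p both prime
      rcases hq.eq_two_or_odd with h4 | h4
      · omega
      · exfalso
        rcases hp.eq_two_or_odd with h5 | h5
        · omega
        · omega

theorem aux (n : ℕ) : ∀ (G : Type u) [Group G] [Finite G], Nat.card G = n →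
    (∀ M : Subgroup G, IsCoatom M → ∃ p : ℕ, p.Prime ∧ (M.index = p ∨ M.index = p ^ 2)) → Group.IsSolvable G := by
  induction n using Nat.strong_induction_on with
  | _ n ih =>
    intro G _ _ hn h
    by_cases hsub : Subsingleton G
    · infer_instance
    rw [not_subsingleton_iff_nontrivial] at hsub
    have hcard1 : Nat.card G ≠ 1 := (Finite.one_lt_card (α := G)).ne'
    have hne : (Nat.card G).primeFactors.Nonempty := by
      rw [Nat.nonempty_primeFactors]
      exact Finite.one_lt_card
    set p := (Nat.card G).primeFactors.max' hne with hpdef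
    have hpmem : p ∈ (Nat.card G).primeFactors := Finset.max'_mem _ hne
    have hp : p.Prime := Nat.prime_of_mem_primeFactors hpmem
    have hpdvd : p ∣ Nat.card G := Nat.dvd_of_mem_primeFactors hpmem
    have hmax : ∀ r : ℕ, r.Prime → r ∣ Nat.card G → r ≤ p := by
      intro r hr hdvd
      exact Finset.le_max' _ r (Nat.mem_primeFactors.mpr ⟨hr, hdvd, Nat.card_pos.ne'⟩)
    have : Fact p.Prime := ⟨hp⟩
    obtain ⟨P⟩ := (inferInstance : Nonempty (Sylow p G))
    by_cases hPn : (P : Subgroup G).Normal
    · have s1 : Group.IsSolvable (P : Subgroup G) := by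
        have := P.isPGroup'.isNilpotent
        infer_instance
      have hPbot := P.ne_bot_of_dvd_card hpdvd
      have hlt : Nat.card (G ⧸ (P : Subgroup G)) < n := by
        rw [← hn, Subgroup.card_eq_card_quotient_mul_card_subgroup (P : Subgroup G)]
        have h1 : 1 < Nat.card (P : Subgroup G) := by
          rw [Subgroup.one_lt_card_iff_ne_bot]; exact hPbot
        have h2 : 0 < Nat.card (G ⧸ (P : Subgroup G)) := Nat.card_pos
        nlinarith
      have s2 : Group.IsSolvable (G ⧸ (P : Subgroup G)) := by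
        apply ih _ hlt (G ⧸ (P : Subgroup G)) rfl
        intro L hL
        have h1 := h _ (H1.isCoatom_comap_mk (P : Subgroup G) hL)
        rwa [Subgroup.index_comap_of_surjective _ (QuotientGroup.mk'_surjective _)] at h1
      exact (Group.isSolvable_iff_subgroup_quotient (P : Subgroup G)).mpr ⟨s1, s2⟩
    · have hNtop : Subgroup.normalizer ((P : Subgroup G) : Set G) ≠ ⊤ := by
        intro htop
        exact hPn (Subgroup.normalizer_eq_top_iff.mp htop)
      obtain ⟨M, hM, hNM⟩ := (eq_top_or_exists_le_coatom _).resolve_left hNtop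
      have hmod := H3.index_modEq_one_of_normalizer_le P M hNM
      obtain ⟨q, hq, hidx⟩ := h M hM
      have hqdvd : q ∣ Nat.card G := by
        have h1 : q ∣ M.index := by
          rcases hidx with h2 | h2
          · rw [h2]
          · rw [h2]; exact dvd_pow_self q (by norm_num)
        exact h1.trans (Subgroup.index_dvd_card M)
      have hp3 : p = 3 := arith p q hp hq (hmax q hq hqdvd) M.index hidx hmod
      obtain ⟨a, b, hab⟩ := two_three_decomp (Nat.card G) Nat.card_pos.ne' (fun r hr hdvd => hp3 ▸ hmax r hr hdvd)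
      exact H4.burnside_paqb 2 3 a b Nat.prime_two Nat.prime_three hab

/-- A finite group in which every maximal subgroup has index a prime or the square of a prime is solvable. -/
theorem result {G : Type*} [Group G] [Finite G] (h : ∀ M : Subgroup G, IsCoatom M → ∃ p : ℕ, p.Prime ∧ (M.index = p ∨ M.index = p ^ 2)) : Group.IsSolvable G := by
  exact aux _ G rfl h

end Cfsg.Agent.S4203
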