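import Cfsg.Statements.S4250
import Mathlib
import Cfsg.Agent.Lib_helper7_WellPlaced
import Cfsg.Agent.S2791
import Cfsg.Agent.Lib_helper3_Sylow

set_option autoImplicit false
open Cfsg

namespace Cfsg.Agent.S4250

/-- Let P be a Sylow p-subgroup of a finite group G. Call an intersection H = P ∩ Q with a Sylow p-subgroup Q tame when N_P(H) and N_Q(H) are Sylow p-subgroups of N_G(H). Then P ∩ G′ is generated by [P, N_G(P)] together with the commutator subgroups [P ∩ Q, ⟨x⟩] for all tame intersections P ∩ Q and all p-elements x of N_G(P ∩ Q). -/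
theorem result {G : Type*} [Group G] [Finite G] (p : ℕ) [Fact p.Prime] (P : Sylow p G) :
    (P : Subgroup G) ⊓ commutator G =
      ⁅(P : Subgroup G), Subgroup.normalizer ((P : Subgroup G) : Set G)⁆ ⊔
        ⨆ (Q : Sylow p G) (_ : (¬ p ∣ ((P : Subgroup G) ⊓ Subgroup.normalizer (((P : Subgroup G) ⊓ (Q : Subgroup G) : Subgroup G) : Set G)).relIndex (Subgroup.normalizer (((P : Subgroup G) ⊓ (Q : Subgroup G) : Subgroup G) : Set G)) ∧ ¬ p ∣ ((Q : Subgroup G) ⊓ Subgroup.normalizer (((P : Subgroup G) ⊓ (Q : Subgroup G) : Subgroup G) : Set G)).relIndex (Subgroup.normalizer (((P : Subgroup G) ⊓ (Q : Subgroup G) : Subgroup G) : Set G))))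
          (x : G) (_ : x ∈ Subgroup.normalizer (((P : Subgroup G) ⊓ (Q : Subgroup G) : Subgroup G) : Set G) ∧ ∃ k : ℕ, orderOf x = p ^ k),
          ⁅(P : Subgroup G) ⊓ (Q : Subgroup G), Subgroup.zpowers x⁆ := by
  classical
  set L : Subgroup G := ⁅(P : Subgroup G), Subgroup.normalizer ((P : Subgroup G) : Set G)⁆ ⊔
        ⨆ (Q : Sylow p G) (_ : (¬ p ∣ ((P : Subgroup G) ⊓ Subgroup.normalizer (((P : Subgroup G) ⊓ (Q : Subgroup G) : Subgroup G) : Set G)).relIndex (Subgroup.normalizer (((P : Subgroup G) ⊓ (Q : Subgroup G) : Subgroup G) : Set G)) ∧ ¬ p ∣ ((Q : Subgroup G) ⊓ Subgroup.normalizer (((P : Subgroup G) ⊓ (Q : Subgroup G) : Subgroup G) : Set G)).relIndex (Subgroup.normalizer (((P : Subgroup G) ⊓ (Q : Subgroup G) : Subgroup G) : Set G))))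
          (x : G) (_ : x ∈ Subgroup.normalizer (((P : Subgroup G) ⊓ (Q : Subgroup G) : Subgroup G) : Set G) ∧ ∃ k : ℕ, orderOf x = p ^ k),
          ⁅(P : Subgroup G) ⊓ (Q : Subgroup G), Subgroup.zpowers x⁆ with hL
  let R : Subgroup G → G → Prop := fun T y =>
    (T = (P : Subgroup G) ∧ y ∈ Subgroup.normalizer (T : Set G)) ∨
    (∃ Q' : Sylow p G, T = (P : Subgroup G) ⊓ (Q' : Subgroup G) ∧
      (¬ p ∣ ((P : Subgroup G) ⊓ Subgroup.normalizer (T : Set G)).relIndex (Subgroup.normalizer (T : Set G)) ∧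
       ¬ p ∣ ((Q' : Subgroup G) ⊓ Subgroup.normalizer (T : Set G)).relIndex (Subgroup.normalizer (T : Set G))) ∧
      y ∈ Subgroup.normalizer (T : Set G) ∧ ∃ k : ℕ, orderOf y = p ^ k)
  have hRn : ∀ T x, R T x → x ∈ Subgroup.normalizer (T : Set G) := by
    rintro T x (⟨-, h⟩ | ⟨Q', -, -, h, -⟩) <;> exact h
  have hRi : ∀ T x, R T x → R T x⁻¹ := by
    rintro T x (⟨h1, h⟩ | ⟨Q', h1, h2, h3, h4⟩)
    · exact Or.inl ⟨h1, Subgroup.inv_mem _ h⟩
    · exact Or.inr ⟨Q', h1, h2, Subgroup.inv_mem _ h3, by rwa [orderOf_inv]⟩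
  have hRL : ∀ T y, R T y → ⁅T, Subgroup.zpowers y⁆ ≤ L := by
    rintro T y (⟨h1, h⟩ | ⟨Q', h1, h2, h3, h4⟩)
    · subst h1
      exact le_sup_of_le_left (Subgroup.commutator_mono le_rfl (Subgroup.zpowers_le.2 h))
    · subst h1
      exact le_sup_of_le_right (le_iSup_of_le Q' (le_iSup_of_le h2 (le_iSup_of_le y
        (le_iSup_of_le ⟨h3, h4⟩ le_rfl))))
  have hfin : ∀ (Y : Set G) (y : G), H7.Chain R Y y → ∀ a ∈ Y, a⁻¹ * (y⁻¹ * a * y) ∈ L := by
    intro Y y h
    induction h with
    | nil Y => intro a _; simp [L.one_mem]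
    | cons Y T x y hR hYT _ ih =>
      intro a ha
      have e1 : a⁻¹ * (x⁻¹ * a * x) ∈ L := by
        apply hRL T x hR
        have := Subgroup.commutator_mem_commutator (T.inv_mem (hYT ha))
          ((Subgroup.zpowers x).inv_mem (Subgroup.mem_zpowers x))
        rw [commutatorElement_def] at this
        simpa [mul_assoc] using this
      have e2 := ih (x⁻¹ * a * x) ⟨a, ha, rfl⟩
      have e : a⁻¹ * ((x * y)⁻¹ * a * (x * y))
          = (a⁻¹ * (x⁻¹ * a * x)) * ((x⁻¹ * a * x)⁻¹ * (y⁻¹ * (x⁻¹ * a * x) * y)) := by group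
      rw [e]
      exact L.mul_mem e1 e2
  have key := H7.alperin_general (R := R) P hRn hRi (by
    intro Q hQ IH
    obtain ⟨h, h1, h2⟩ := H7.exists_fully_normalized P (P.2.to_le hQ)
    refine ⟨H7.rc h Q, h1, ⟨h, rfl⟩, h2, ?_⟩
    set U := H7.rc h Q with hU
    have hcU : Nat.card U = Nat.card Q := H7.card_rc h Q
    have hUE : ∀ m ∈ Subgroup.normalizer (U : Set G), U ≤ (P : Subgroup G) ⊓ H7.rc m (P : Subgroup G) := by
      intro m hm
      refine le_inf h1 ?_
      calc U = H7.rc m U := (H7.rc_eq_self_iff.2 hm).symm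
        _ ≤ _ := H7.rc_mono m h1
    have viaIH : ∀ m ∈ Subgroup.normalizer (U : Set G), U < (P : Subgroup G) ⊓ H7.rc m (P : Subgroup G) →
        H7.Chain R U m := by
      intro m hm hlt
      have hc : Nat.card Q < Nat.card ((P : Subgroup G) ⊓ H7.rc m (P : Subgroup G) : Subgroup G) := by
        rw [← hcU]; exact H7.card_lt_of_lt hlt
      have hle : H7.rc m⁻¹ ((P : Subgroup G) ⊓ H7.rc m (P : Subgroup G)) ≤ (P : Subgroup G) := by
        calc H7.rc m⁻¹ ((P : Subgroup G) ⊓ H7.rc m (P : Subgroup G)) ≤ H7.rc m⁻¹ (H7.rc m (P : Subgroup G)) :=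
              H7.rc_mono _ inf_le_right
          _ = (P : Subgroup G) := by rw [← H7.rc_mul]; simp [H7.rc_one]
      have c1 := (IH _ inf_le_left hc m⁻¹ hle).mono (B := (U : Set G)) (hUE m hm)
      have c2 := c1.symm hRn hRi
      rw [H7.rcs_subgroup_of_mem_normalizer (Subgroup.inv_mem _ hm), inv_inv] at c2
      exact c2
    intro m hm
    by_cases hall : ∀ m' ∈ Subgroup.normalizer (U : Set G), U < (P : Subgroup G) ⊓ H7.rc m' (P : Subgroup G)
    · exact viaIH m hm (hall m hm)
    · push Not at hall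
      obtain ⟨m0, hm0, hnot⟩ := hall
      have heq : U = (P : Subgroup G) ⊓ H7.rc m0 (P : Subgroup G) :=
        (hUE m0 hm0).eq_or_lt.resolve_right hnot
      have hmU : H7.rc m0 U = U := H7.rc_eq_self_iff.2 hm0
      have hcoe : (((m0⁻¹ • P : Sylow p G) : Subgroup G)) = H7.rc m0 (P : Subgroup G) := by
        rw [Sylow.smul_def, Sylow.pointwise_smul_def]
        rfl
      have htame : ¬ p ∣ (((m0⁻¹ • P : Sylow p G) : Subgroup G) ⊓ Subgroup.normalizer (U : Set G)).relIndex
          (Subgroup.normalizer (U : Set G)) := by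
        rw [hcoe]
        have e1 : H7.rc m0 (P : Subgroup G) ⊓ Subgroup.normalizer (U : Set G)
            = H7.rc m0 ((P : Subgroup G) ⊓ Subgroup.normalizer (U : Set G)) := by
          rw [H7.rc_inf, ← H7.normalizer_rc, hmU]
        have e2 : Subgroup.normalizer (U : Set G) = H7.rc m0 (Subgroup.normalizer (U : Set G)) := by
          rw [← H7.normalizer_rc, hmU]
        rw [e1]
        have := (h2.map_conj m0⁻¹).2.2
        change ¬ p ∣ (H7.rc m0 ((P : Subgroup G) ⊓ Subgroup.normalizer (U : Set G))).relIndex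
          (H7.rc m0 (Subgroup.normalizer (U : Set G))) at this
        rwa [← e2] at this
      by_cases hUP : U = (P : Subgroup G)
      · exact H7.Chain.single (T := U) (Or.inl ⟨hUP, hm⟩) (le_refl _)
      · have hlt : U < (P : Subgroup G) := lt_of_le_of_ne h1 hUP
        have hSN := H7.lt_inf_normalizer P.2 hlt
        set N := Subgroup.normalizer (U : Set G) with hN
        set K := Subgroup.closure {y : G | y ∈ N ∧ ∃ k : ℕ, orderOf y = p ^ k} with hK
        have hKN : K ≤ N := by
          rw [hK, Subgroup.closure_le]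
          exact fun y hy => hy.1
        have hNK : N ≤ Subgroup.normalizer (K : Set G) := by
          apply S2791.le_normalizer_of_conj
          intro n hn k hk
          induction hk using Subgroup.closure_induction with
          | mem x hx =>
            refine Subgroup.subset_closure ⟨N.mul_mem (N.mul_mem hn hx.1) (N.inv_mem hn), ?_⟩
            rw [H7.orderOf_conj']; exact hx.2
          | one => simp [K.one_mem]
          | mul x y _ _ ihx ihy =>
            have e : n * (x * y) * n⁻¹ = (n * x * n⁻¹) * (n * y * n⁻¹) := by group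
            rw [e]; exact K.mul_mem ihx ihy
          | inv x _ ihx =>
            have e : n * x⁻¹ * n⁻¹ = (n * x * n⁻¹)⁻¹ := by group
            rw [e]; exact K.inv_mem ihx
        have hSK : (P : Subgroup G) ⊓ N ≤ K := by
          intro s hs
          exact Subgroup.subset_closure ⟨hs.2, H3.orderOf_of_mem_pGroup P.2 hs.1⟩
        have hs := (h2.of_le hSK hKN).2.2
        obtain ⟨k, hk, hkm⟩ := S2791.frat hNK hSK (P.2.to_le inf_le_left) hs m hm
        have hKc : ∀ y ∈ K, H7.Chain R U y := by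
          intro y hy
          induction hy using Subgroup.closure_induction with
          | mem x hx =>
            exact H7.Chain.single (T := U) (Or.inr ⟨m0⁻¹ • P, by rw [hcoe]; exact heq, ⟨h2.2.2, htame⟩,
              hx.1, hx.2⟩) (le_refl _)
          | one => exact H7.Chain.nil _
          | mul x y hx _ ihx ihy =>
            refine ihx.trans ?_
            rw [H7.rcs_subgroup_of_mem_normalizer (hKN hx)]
            exact ihy
          | inv x hx ihx =>
            have := ihx.symm hRn hRi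
            rwa [H7.rcs_subgroup_of_mem_normalizer (hKN hx)] at this
        have e : m = k⁻¹ * (k * m) := by group
        rw [e]
        refine (hKc _ (K.inv_mem hk)).trans ?_
        rw [H7.rcs_subgroup_of_mem_normalizer (hKN (K.inv_mem hk))]
        have hrc : H7.rc (k * m) ((P : Subgroup G) ⊓ N) = (P : Subgroup G) ⊓ N := H7.rc_eq_self_iff.2 hkm
        exact (IH _ inf_le_left (by rw [← hcU]; exact H7.card_lt_of_lt hSN) (k * m)
          (by rw [hrc]; exact inf_le_left)).mono (B := (U : Set G)) hSN.le)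
  apply le_antisymm
  · rw [inf_comm, Subgroup.commutator_inf_eq_focalSubgroup, Subgroup.focalSubgroup_def, Subgroup.closure_le]
    rintro g ⟨hg, x, hx, u, hgu⟩
    rw [commutatorElement_def] at hgu
    subst hgu
    have hxu : u * x⁻¹ * u⁻¹ ∈ (P : Subgroup G) := by
      have : u * x⁻¹ * u⁻¹ = x⁻¹ * (x * u * x⁻¹ * u⁻¹) := by group
      rw [this]
      exact (P : Subgroup G).mul_mem ((P : Subgroup G).inv_mem hx) hg
    have hch := H7.alperin_general_set P key {x⁻¹} u⁻¹
      (by
        intro a ha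
        rw [Set.mem_singleton_iff] at ha
        subst ha
        exact (P : Subgroup G).inv_mem hx)
      (by
        rintro _ ⟨a, ha, rfl⟩
        rw [Set.mem_singleton_iff] at ha
        subst ha
        change u⁻¹⁻¹ * x⁻¹ * u⁻¹ ∈ (P : Subgroup G)
        rw [inv_inv]
        exact hxu)
    have := hfin _ _ hch x⁻¹ rfl
    have e : x * u * x⁻¹ * u⁻¹ = x⁻¹⁻¹ * (u⁻¹⁻¹ * x⁻¹ * u⁻¹) := by group
    rw [SetLike.mem_coe, e]
    exact this
  · rw [hL]
    refine sup_le ?_ (iSup_le fun Q => iSup_le fun _ => iSup_le fun x => iSup_le fun hx => ?_)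
    · refine le_inf ?_ (Subgroup.commutator_mono le_top le_top)
      rw [Subgroup.commutator_le]
      intro a ha b hb
      rw [commutatorElement_def, mul_assoc, mul_assoc]
      refine (P : Subgroup G).mul_mem ha ?_
      rw [← mul_assoc]
      exact (Subgroup.mem_normalizer_iff.1 hb _).1 ((P : Subgroup G).inv_mem ha)
    · refine le_inf ?_ (Subgroup.commutator_mono le_top le_top)
      refine le_trans ?_ (inf_le_left : (P : Subgroup G) ⊓ (Q : Subgroup G) ≤ (P : Subgroup G))
      rw [Subgroup.commutator_le]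
      intro a ha b hb
      have hb' : b ∈ Subgroup.normalizer (((P : Subgroup G) ⊓ (Q : Subgroup G) : Subgroup G) : Set G) :=
        (Subgroup.zpowers_le.2 hx.1) hb
      rw [commutatorElement_def, mul_assoc, mul_assoc]
      refine Subgroup.mul_mem _ ha ?_
      rw [← mul_assoc]
      exact (Subgroup.mem_normalizer_iff.1 hb' _).1 (Subgroup.inv_mem _ ha)

end Cfsg.Agent.S4250
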