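import Mathlib
import Cfsg.Statements.S4216
import Cfsg.Agent.S4250

set_option autoImplicit false
open Cfsg

namespace Cfsg.Agent.S4216

open scoped Pointwise commutatorElement

/-- Grün's first Theorem: if `P` is a Sylow `p`-subgroup of the finite group `G`, then `P ∩ G'` is the subgroup generated by `P ∩ N_G(P)'` together with the subgroups `P ∩ z P' z⁻¹` for all `z ∈ G`, where `'` denotes the derived subgroup and `N_G(P)` the normalizer of `P`. -/
theorem result {G : Type*} [Group G] [Finite G] {p : ℕ} [Fact p.Prime] (P : Sylow p G) : (P : Subgroup G) ⊓ commutator G = ((P : Subgroup G) ⊓ ⁅Subgroup.normalizer ((P : Subgroup G) : Set G), Subgroup.normalizer ((P : Subgroup G) : Set G)⁆) ⊔ ⨆ z : G, (P : Subgroup G) ⊓ (⁅(P : Subgroup G), (P : Subgroup G)⁆).map (MulAut.conj z).toMonoidHom := by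
  have hcomm : ∀ A B : Subgroup G, ⁅A, B⁆ ≤ commutator G := by
    intro A B
    rw [commutator_def]
    exact Subgroup.commutator_mono le_top le_top
  have hnorm : ∀ R B : Subgroup G, B ≤ Subgroup.normalizer (R : Set G) → ⁅R, B⁆ ≤ R := by
    intro R B hB
    rw [Subgroup.commutator_le]
    intro a ha b hb
    have h1 : b * a⁻¹ * b⁻¹ ∈ R := (Subgroup.mem_normalizer_iff.1 (hB hb) a⁻¹).1 (R.inv_mem ha)
    have h2 : ⁅a, b⁆ = a * (b * a⁻¹ * b⁻¹) := by rw [commutatorElement_def]; group
    rw [h2]
    exact R.mul_mem ha h1
  apply le_antisymm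
  · rw [Cfsg.Agent.S4250.result p P]
    apply sup_le
    · apply le_sup_of_le_left
      exact le_inf (hnorm _ _ le_rfl) (Subgroup.commutator_mono Subgroup.le_normalizer le_rfl)
    · apply iSup_le
      intro Q
      apply iSup_le
      intro _
      apply iSup_le
      intro x
      apply iSup_le
      rintro ⟨hxN, k, hk⟩
      have hxp : IsPGroup p (Subgroup.zpowers x) := IsPGroup.of_card (n := k) (by
        rw [Nat.card_zpowers, hk])
      have hRp : IsPGroup p ((P : Subgroup G) ⊓ (Q : Subgroup G) : Subgroup G) := P.2.to_le inf_le_left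
      have hzN : Subgroup.zpowers x ≤
          Subgroup.normalizer (((P : Subgroup G) ⊓ (Q : Subgroup G) : Subgroup G) : Set G) := by
        rw [Subgroup.zpowers_le]; exact hxN
      have hsup := IsPGroup.to_sup_of_normal_right' hxp hRp hzN
      obtain ⟨S, hS⟩ := hsup.exists_le_sylow
      obtain ⟨g, hg⟩ := MulAction.exists_smul_eq G P S
      have hSeq : (S : Subgroup G) = (P : Subgroup G).map (MulAut.conj g).toMonoidHom := by
        rw [← hg, Sylow.coe_subgroup_smul]
        rfl
      apply le_sup_of_le_right
      apply le_iSup_of_le g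
      apply le_inf
      · exact (hnorm _ _ hzN).trans inf_le_left
      · rw [Subgroup.map_commutator, ← hSeq]
        exact Subgroup.commutator_mono (le_sup_right.trans hS) (le_sup_left.trans hS)
  · apply sup_le
    · exact inf_le_inf_left _ (hcomm _ _)
    · apply iSup_le
      intro z
      apply inf_le_inf_left
      rw [Subgroup.map_commutator]
      exact hcomm _ _

end Cfsg.Agent.S4216
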