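import Cfsg.Statements.S4218
import Cfsg.Agent.Lib_helper7_PSolv3
import Cfsg.Agent.Lib_helper1_Frattini
import Cfsg.Agent.S2909

set_option autoImplicit false
open Cfsg

namespace Cfsg.Agent.S4218

open Subgroup
open scoped commutatorElement

/-- preimage in `G` of the Frattini subgroup of `L / N`. -/
def frat {G : Type*} [Group G] (N L : Subgroup G) [N.Normal] : Subgroup G :=
  ((frattini (↥L ⧸ N.subgroupOf L)).comap (QuotientGroup.mk' (N.subgroupOf L))).map L.subtype

theorem frat_le {G : Type*} [Group G] (N L : Subgroup G) [N.Normal] : frat N L ≤ L :=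
  map_subtype_le _

theorem frat_normal {G : Type*} [Group G] (N L : Subgroup G) [N.Normal] [L.Normal] :
    (frat N L).Normal := by
  constructor
  rintro _ ⟨f, hf, rfl⟩ g
  have hmap : (N.subgroupOf L).map (MulAut.conjNormal g : MulAut ↥L).toMonoidHom = N.subgroupOf L := by
    apply le_antisymm
    · rintro _ ⟨x, hx, rfl⟩
      have hx : x ∈ N.subgroupOf L := hx
      rw [mem_subgroupOf] at hx ⊢
      simp only [MulEquiv.coe_toMonoidHom, MulAut.conjNormal_apply]
      exact ‹N.Normal›.conj_mem _ hx g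
    · intro x hx
      refine ⟨(MulAut.conjNormal g : MulAut ↥L).symm x, ?_, by simp⟩
      rw [mem_subgroupOf] at hx
      change _ ∈ N.subgroupOf L
      rw [mem_subgroupOf, MulAut.conjNormal_symm_apply]
      have := ‹N.Normal›.conj_mem _ hx g⁻¹
      rwa [inv_inv] at this
  refine ⟨MulAut.conjNormal g f, ?_, by simp⟩
  change QuotientGroup.mk' (N.subgroupOf L) (MulAut.conjNormal g f) ∈ frattini (↥L ⧸ N.subgroupOf L)
  have h1 : QuotientGroup.mk' (N.subgroupOf L) (MulAut.conjNormal g f) =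
      QuotientGroup.congr (N.subgroupOf L) (N.subgroupOf L) (MulAut.conjNormal g) hmap
        (QuotientGroup.mk' (N.subgroupOf L) f) := rfl
  rw [h1]
  have h2 := (frattini_characteristic (G := ↥L ⧸ N.subgroupOf L)).fixed
    (QuotientGroup.congr (N.subgroupOf L) (N.subgroupOf L) (MulAut.conjNormal g) hmap)
  have h3 : QuotientGroup.mk' (N.subgroupOf L) f ∈ frattini (↥L ⧸ N.subgroupOf L) := hf
  rw [← h2] at h3
  exact h3

theorem frat_nongen {G : Type*} [Group G] [Finite G] (N L : Subgroup G) [N.Normal] {H : Subgroup G}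
    (hHL : H ≤ L) (hNH : N ≤ H) (hsup : H ⊔ frat N L = L) : H = L := by
  apply le_antisymm hHL
  rw [← subgroupOf_eq_top]
  have h1 : H.subgroupOf L ⊔ (frat N L).subgroupOf L = ⊤ := by
    rw [← subgroupOf_sup hHL (frat_le N L), hsup, subgroupOf_self]
  have h2 : (frat N L).subgroupOf L =
      (frattini (↥L ⧸ N.subgroupOf L)).comap (QuotientGroup.mk' (N.subgroupOf L)) := by
    rw [frat, subgroupOf, comap_map_eq_self_of_injective L.subtype_injective]
  rw [h2] at h1
  have h3 := congrArg (Subgroup.map (QuotientGroup.mk' (N.subgroupOf L))) h1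
  rw [Subgroup.map_sup, map_comap_eq_self_of_surjective (QuotientGroup.mk'_surjective _),
    ← MonoidHom.range_eq_map, MonoidHom.range_eq_top.mpr (QuotientGroup.mk'_surjective _)] at h3
  have h4 := frattini_nongenerating h3
  have h5 := congrArg (Subgroup.comap (QuotientGroup.mk' (N.subgroupOf L))) h4
  rw [comap_map_eq, QuotientGroup.ker_mk', comap_top, sup_eq_left.mpr] at h5
  · exact h5
  · intro x hx
    rw [mem_subgroupOf] at hx ⊢
    exact hNH hx

theorem comm_mem_frat {G : Type*} [Group G] [Finite G] {p : ℕ} [Fact p.Prime] (N L : Subgroup G)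
    [N.Normal] (hp : IsPGroup p (↥L ⧸ N.subgroupOf L)) {g x : G} (hg : g ∈ L) (hx : x ∈ L) :
    g * x * g⁻¹ * x⁻¹ ∈ frat N L := by
  refine ⟨⁅(⟨g, hg⟩ : L), ⟨x, hx⟩⁆, ?_, rfl⟩
  change QuotientGroup.mk' (N.subgroupOf L) ⁅(⟨g, hg⟩ : L), ⟨x, hx⟩⁆ ∈ frattini (↥L ⧸ N.subgroupOf L)
  apply (Cfsg.Agent.H1.pgroup_frattini p hp).1
  rw [map_commutatorElement]
  exact commutator_mem_commutator (mem_top _) (mem_top _)

/-- Let `G` be a finite `p`-solvable group, `N₀ = O_{p'}(G)`, `P₁ = O_{p',p}(G)`, and let `F ≤ P₁` be the preimage of the Frattini subgroup of `P₁/N₀`. Then an element `g` of `G` induces the identity on `P₁/F` by conjugation (that is, `g x g⁻¹ x⁻¹ ∈ F` for all `x ∈ P₁`) if and only if `g ∈ P₁`: the group `G/P₁` acts faithfully on `P₁/F`. -/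
theorem result {G : Type*} [Group G] [Finite G] {p : ℕ} [Fact p.Prime] (hG : Cfsg.IsPSolvable p G) (g : G) : (∀ x ∈ Cfsg.pPrimePCore p G, g * x * g⁻¹ * x⁻¹ ∈ ((frattini (↥(Cfsg.pPrimePCore p G) ⧸ (Cfsg.pPrimeCore p G).subgroupOf (Cfsg.pPrimePCore p G))).comap (QuotientGroup.mk' ((Cfsg.pPrimeCore p G).subgroupOf (Cfsg.pPrimePCore p G)))).map (Cfsg.pPrimePCore p G).subtype) ↔ g ∈ Cfsg.pPrimePCore p G := by
  have hpp : p.Prime := Fact.out
  change (∀ x ∈ Cfsg.pPrimePCore p G, g * x * g⁻¹ * x⁻¹ ∈ frat (Cfsg.pPrimeCore p G) (Cfsg.pPrimePCore p G)) ↔ _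
  have hLn : (Cfsg.pPrimePCore p G).Normal := by
    have : (Cfsg.pCore p (G ⧸ Cfsg.pPrimeCore p G)).Normal := Cfsg.Agent.H7.pCore_normal p
    exact this.comap _
  have hNL : Cfsg.pPrimeCore p G ≤ Cfsg.pPrimePCore p G := Cfsg.Agent.H7.le_comap_mk' _ _
  have hPbn : (Cfsg.pCore p (G ⧸ Cfsg.pPrimeCore p G)).Normal := Cfsg.Agent.H7.pCore_normal p
  have hPbp : IsPGroup p (Cfsg.pCore p (G ⧸ Cfsg.pPrimeCore p G)) := Cfsg.Agent.H7.pCore_isPGroup p
  have hLdef : Cfsg.pPrimePCore p G = (Cfsg.pCore p (G ⧸ Cfsg.pPrimeCore p G)).comap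
    (QuotientGroup.mk' (Cfsg.pPrimeCore p G)) := rfl
  have hHH : centralizer (Cfsg.pCore p (G ⧸ Cfsg.pPrimeCore p G) : Set (G ⧸ Cfsg.pPrimeCore p G)) ≤
      Cfsg.pCore p (G ⧸ Cfsg.pPrimeCore p G) :=
    Cfsg.Agent.H7.hall_higman_123 (Cfsg.Agent.H7.isPSolvable_quotient hpp hG _)
      (Cfsg.Agent.H7.pPrimeCore_quotient_self p)
  set N := Cfsg.pPrimeCore p G with hN
  set L := Cfsg.pPrimePCore p G with hL
  set Pb := Cfsg.pCore p (G ⧸ N) with hPb
  have hFn : (frat N L).Normal := frat_normal N L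
  have hmapL : L.map (QuotientGroup.mk' N) = Pb := by
    rw [hLdef, map_comap_eq_self_of_surjective (QuotientGroup.mk'_surjective _)]
  constructor
  · intro hg
    have hall : ∀ (E : Subgroup G), E.Normal → ∀ g : G, g ∈ normalizer (E : Set G) := by
      intro E hE g
      rw [normalizer_eq_top]
      trivial
    set K := Cfsg.Agent.S2909.secKer L (frat N L) with hK
    have hKn : K.Normal := by
      constructor
      intro k hk r
      exact Cfsg.Agent.S2909.conj_mem_secKer (hall L hLn r) (hall _ hFn r) hk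
    have hgK : g ∈ K := ⟨hall L hLn g, hall _ hFn g, hg⟩
    -- p'-elements of K lie in N
    have key : ∀ y ∈ K, (orderOf y).Coprime p → y ∈ N := by
      intro y hy hyo
      set yb := QuotientGroup.mk' N y with hyb
      have hybo : (orderOf yb).Coprime p := Nat.Coprime.coprime_dvd_left (orderOf_map_dvd _ y) hyo
      obtain ⟨n, hn⟩ := hPbp.exists_card_eq
      have hcop : (Nat.card (zpowers yb)).Coprime (Nat.card Pb) := by
        rw [Nat.card_zpowers, hn]
        exact Nat.Coprime.pow_right n hybo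
      have h1 := Cfsg.Agent.H1.coprime_comm_sup_centralizer (zpowers yb) Pb
        (normalizer_eq_top Pb ▸ le_top) hcop (Or.inr (Cfsg.Agent.H1.isSolvable_of_isPGroup hPbp))
      have h2 : ⁅Pb, zpowers yb⁆ ≤ (frat N L).map (QuotientGroup.mk' N) := by
        rw [commutator_le]
        intro x hx z hz
        rw [← hmapL] at hx
        obtain ⟨x, hx, rfl⟩ := hx
        obtain ⟨i, rfl⟩ := mem_zpowers_iff.mp hz
        have hyi : y ^ i ∈ K := zpow_mem hy i
        refine ⟨⁅x, y ^ i⁆, ?_, ?_⟩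
        · have h3 : ⁅x, y ^ i⁆ = (y ^ i * x * (y ^ i)⁻¹ * x⁻¹)⁻¹ := by
            rw [commutatorElement_def]; group
          rw [h3]
          exact inv_mem (hyi.2.2 x hx)
        · rw [map_commutatorElement, map_zpow]
      set H := (Pb ⊓ centralizer (zpowers yb : Set (G ⧸ N))).comap (QuotientGroup.mk' N) with hH
      have hHL : H ≤ L := by
        rw [hLdef]
        exact comap_mono inf_le_left
      have hNH : N ≤ H := Cfsg.Agent.H7.le_comap_mk' _ _
      have hsup : H ⊔ frat N L = L := by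
        apply le_antisymm (sup_le hHL (frat_le N L))
        have h3 : L.map (QuotientGroup.mk' N) ≤ (H ⊔ frat N L).map (QuotientGroup.mk' N) := by
          rw [hmapL, Subgroup.map_sup, hH,
            map_comap_eq_self_of_surjective (QuotientGroup.mk'_surjective _)]
          conv_lhs => rw [← h1]
          rw [sup_comm]
          exact sup_le_sup le_rfl h2
        rw [Subgroup.map_le_map_iff, QuotientGroup.ker_mk'] at h3
        exact h3.trans (sup_le le_rfl (hNH.trans le_sup_left))
      have h4 := frat_nongen N L hHL hNH hsup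
      have h5 : Pb ≤ centralizer (zpowers yb : Set (G ⧸ N)) := by
        rw [← hmapL, ← h4, hH, map_comap_eq_self_of_surjective (QuotientGroup.mk'_surjective _)]
        exact inf_le_right
      have h6 : yb ∈ Pb := by
        apply hHH
        rw [mem_centralizer_iff]
        intro x hx
        exact (mem_centralizer_iff.mp (h5 hx) yb (mem_zpowers yb)).symm
      obtain ⟨k, hk⟩ := (IsPGroup.iff_orderOf.mp hPbp) ⟨yb, h6⟩
      rw [Subgroup.orderOf_mk] at hk
      have h7 : orderOf yb = 1 := by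
        rw [hk] at hybo ⊢
        rcases Nat.eq_zero_or_pos k with rfl | hkpos
        · rfl
        · exfalso
          have := Nat.Coprime.coprime_dvd_left (dvd_pow_self p hkpos.ne') hybo
          rw [Nat.coprime_self] at this
          exact hpp.one_lt.ne' this
      rw [orderOf_eq_one_iff] at h7
      exact (QuotientGroup.eq_one_iff y).mp h7
    have hKp : IsPGroup p (K.map (QuotientGroup.mk' N)) := by
      rintro ⟨_, k, hk, rfl⟩
      obtain ⟨a, m, hm, hkm⟩ := Nat.exists_eq_pow_mul_and_not_dvd (orderOf_pos k).ne' p hpp.ne_one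
      refine ⟨a, ?_⟩
      apply Subtype.ext
      change (QuotientGroup.mk' N k) ^ p ^ a = 1
      rw [← map_pow]
      apply (QuotientGroup.eq_one_iff _).mpr
      apply key _ (pow_mem hk _)
      rw [orderOf_pow, hkm, Nat.gcd_eq_right (Dvd.intro _ rfl), Nat.mul_div_cancel_left _ (pow_pos hpp.pos a)]
      exact ((Nat.Prime.coprime_iff_not_dvd hpp).mpr hm).symm
    have hle : K.map (QuotientGroup.mk' N) ≤ Pb :=
      Cfsg.Agent.H7.le_pCore (hKn.map _ (QuotientGroup.mk'_surjective N)) hKp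
    exact hle ⟨g, hgK, rfl⟩
  · intro hg x hx
    apply comm_mem_frat (p := p) N L _ hg hx
    obtain ⟨m, hm⟩ := hPbp.exists_card_eq
    apply IsPGroup.of_card (n := m)
    have h1 := Cfsg.Agent.H1.relIndex_mul_card' hNL
    have h2 : Nat.card L = p ^ m * Nat.card N := by
      rw [hLdef, Cfsg.Agent.H1.card_comap_mk, hm]
    rw [h2] at h1
    exact Nat.eq_of_mul_eq_mul_right Nat.card_pos h1

end Cfsg.Agent.S4218
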