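import Mathlib
import Cfsg.Statements.S4242
import Cfsg.Agent.Lib_helper1_Schmidt
import Cfsg.Agent.Lib_helper1_FrobNPC
import Cfsg.Agent.Lib_helper1_PNilp2
import Cfsg.Agent.Lib_helper1_Wielandt
import Cfsg.Agent.Lib_helper7_Gen4

set_option autoImplicit false
open Cfsg

namespace Cfsg.Agent.S4242

open Subgroup Cfsg.Agent.H1
open scoped IsMulCommutative

theorem t1 {G : Type*} [Group G] [Finite G] {p : ℕ}
    (h : ∀ M : Subgroup G, IsCoatom M → p ∣ Nat.card M → Group.IsNilpotent M)
    (L : Subgroup G) (hL : L ≠ ⊤) (hpL : p ∣ Nat.card L) : Group.IsNilpotent L := by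
  obtain ⟨M, hM, hle⟩ := (eq_top_or_exists_le_coatom L).resolve_left hL
  have h1 := h M hM (hpL.trans (Subgroup.card_dvd_of_le hle))
  exact isNilpotent_of_le hle h1

theorem dvd_card_of_pgroup_ne_bot {G : Type*} [Group G] [Finite G] {p : ℕ} [Fact p.Prime]
    {N : Subgroup G}
    (hNp : IsPGroup p N) (hN1 : N ≠ ⊥) : p ∣ Nat.card N := by
  obtain ⟨n, hn⟩ := hNp.exists_card_eq
  rcases n with _ | n
  · exfalso
    apply hN1
    rw [pow_zero] at hn
    exact card_eq_one.mp hn
  · rw [hn]
    exact dvd_pow_self p (Nat.succ_ne_zero n)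

theorem caseB {G : Type*} [Group G] [Finite G] {p : ℕ} (hp : p.Prime)
    (h : ∀ L : Subgroup G, L ≠ ⊤ → p ∣ Nat.card L → Group.IsNilpotent L)
    (K : Subgroup G) (hK : IsCoatom K) (hKn : ¬ Group.IsNilpotent K) (hpK : ¬ p ∣ Nat.card K)
    (N : Subgroup G) (hN : N.Normal) (hNp : IsPGroup p N) (hN1 : N ≠ ⊥) :
    ∃ Z K : Subgroup G, Z.Normal ∧ K.Normal ∧ Z ⊓ K = ⊥ ∧ Z ⊔ K = ⊤ ∧ Nat.card Z = p ∧
          Cfsg.IsMinimalNonNilpotent K ∧ ¬ p ∣ Nat.card K := by
  haveI : Fact p.Prime := ⟨hp⟩
  have hcopK : ∀ L : Subgroup G, L ≤ K → (Nat.card L).Coprime (Nat.card N) := by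
    intro L hL
    obtain ⟨n, hn⟩ := hNp.exists_card_eq
    rw [hn]
    apply Nat.Coprime.pow_right
    rw [Nat.coprime_comm, Nat.Prime.coprime_iff_not_dvd hp]
    exact fun hd => hpK (hd.trans (card_dvd_of_le hL))
  have hpN : p ∣ Nat.card N := dvd_card_of_pgroup_ne_bot hNp hN1
  have hNsolv : Group.IsSolvable N := by
    haveI := hNp.isNilpotent
    infer_instance
  have key : ∀ L : Subgroup G, L ≤ K → L ≠ K →
      Group.IsNilpotent L ∧ L ≤ centralizer (N : Set G) := by
    intro L hL hne
    have hcard : ∀ X : Subgroup G, X ≤ K →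
        Nat.card (X ⊔ N : Subgroup G) = Nat.card X * Nat.card N := by
      intro X hX
      have h1 := card_sup_mul_card_inf X N
      rw [inf_eq_bot_of_coprime (hcopK X hX), card_bot, mul_one] at h1
      exact h1
    have hne' : L ⊔ N ≠ ⊤ := by
      intro htop
      apply hne
      apply eq_of_le_of_card_ge hL
      have h1 := hcard L hL
      have h2 := hcard K le_rfl
      have h3 : Nat.card (K ⊔ N : Subgroup G) ≤ Nat.card (L ⊔ N : Subgroup G) :=
        card_le_of_le (by rw [htop]; exact le_top)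
      rw [h1, h2] at h3
      exact Nat.le_of_mul_le_mul_right h3 Nat.card_pos
    have hnil := h (L ⊔ N) hne' (hpN.trans (card_dvd_of_le le_sup_right))
    have hLnil := isNilpotent_of_le le_sup_left hnil
    exact ⟨hLnil, le_centralizer_of_nilpotent_sup hnil (hcopK L hL) (Or.inr hNsolv)⟩
  have hKC : K ≤ centralizer (N : Set G) := by
    intro k hk
    have hz : zpowers k ≤ K := zpowers_le.mpr hk
    have hne : zpowers k ≠ K := by
      intro he
      apply hKn
      rw [← he]
      infer_instance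
    exact (key _ hz hne).2 (mem_zpowers k)
  obtain ⟨z, hz⟩ := exists_prime_orderOf_dvd_card' (G := N) p hpN
  have hzo : orderOf (z : G) = p := by
    rw [Subgroup.orderOf_coe]
    exact hz
  have hzK : (z : G) ∉ K := by
    intro hmem
    apply hpK
    rw [← hzo]
    exact Subgroup.orderOf_dvd_natCard K hmem
  have hsup : ∀ X : Subgroup G, K ≤ X → (z : G) ∈ X → X = ⊤ := by
    intro X hX hzX
    by_contra hne
    have := (hK.le_iff_eq hne).mp hX
    exact hzK (this ▸ hzX)
  have hzc : ∀ g : G, (z : G) * g = g * (z : G) := by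
    have h1 := hsup (centralizer {(z : G)}) (fun k hk => by
        rw [mem_centralizer_singleton_iff]
        exact ((mem_centralizer_iff.mp (hKC hk)) z z.2).symm) (by rw [mem_centralizer_singleton_iff])
    intro g
    have : g ∈ centralizer {(z : G)} := h1 ▸ mem_top g
    rw [mem_centralizer_singleton_iff] at this
    exact this.symm
  have hZn : (zpowers (z : G)).Normal := by
    constructor
    intro x hx g
    obtain ⟨n, rfl⟩ := mem_zpowers_iff.mp hx
    have : g * (z : G) ^ n * g⁻¹ = (z : G) ^ n := by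
      have hc : Commute g ((z : G) ^ n) := Commute.zpow_right (hzc g).symm n
      rw [hc.eq, mul_inv_cancel_right]
    rw [this]
    exact hx
  have hKn' : K.Normal := by
    rw [← normalizer_eq_top_iff]
    apply hsup _ le_normalizer
    rw [mem_normalizer_iff]
    intro h
    rw [hzc h, mul_inv_cancel_right]
  have hKmin : Cfsg.IsMinimalNonNilpotent K := by
    refine ⟨hKn, fun H hH => ?_⟩
    have h1 : H.map K.subtype ≤ K := map_subtype_le H
    have h2 : H.map K.subtype ≠ K := by
      intro he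
      apply hH
      rw [eq_top_iff]
      intro x _
      have : (x : G) ∈ H.map K.subtype := by
        rw [he]
        exact x.2
      obtain ⟨y, hy, hyx⟩ := this
      have : y = x := Subtype.ext hyx
      exact this ▸ hy
    haveI h3 := (key _ h1 h2).1
    exact Group.nilpotent_of_mulEquiv (H.equivMapOfInjective K.subtype K.subtype_injective).symm
  refine ⟨zpowers (z : G), K, hZn, hKn', inf_eq_bot_of_coprime ?_,
    hsup _ le_sup_right (mem_sup_left (mem_zpowers _)), by rw [Nat.card_zpowers, hzo], hKmin, hpK⟩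
  rw [Nat.card_zpowers, hzo]
  exact (Nat.Prime.coprime_iff_not_dvd hp).mpr hpK

theorem caseA {G : Type*} [Group G] [Finite G] {p : ℕ} (hp : p.Prime) (hpG : p ∣ Nat.card G)
    (h : ∀ L : Subgroup G, L ≠ ⊤ → p ∣ Nat.card L → Group.IsNilpotent L)
    (K : Subgroup G) (hK : IsCoatom K) (hKn : ¬ Group.IsNilpotent K) (hpK : ¬ p ∣ Nat.card K) :
    ∃ N : Subgroup G, N.Normal ∧ IsPGroup p N ∧ N ≠ ⊥ := by
  haveI : Fact p.Prime := ⟨hp⟩
  by_contra hA
  push Not at hA
  have hF : FrobCond p G := by
    intro X hX g hg hgo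
    by_cases hX1 : X = ⊥
    · subst hX1
      simp [mem_centralizer_iff]
    have hNX : normalizer (X : Set G) ≠ ⊤ :=
      fun ht => hX1 (hA X (normalizer_eq_top_iff.mp ht) hX)
    have hpX : p ∣ Nat.card X := dvd_card_of_pgroup_ne_bot hX hX1
    have hS := h _ hNX (hpX.trans (card_dvd_of_le le_normalizer))
    have hcop : (Nat.card (zpowers g)).Coprime (Nat.card X) := by
      obtain ⟨n, hn⟩ := hX.exists_card_eq
      rw [hn, Nat.card_zpowers]
      exact Nat.Coprime.pow_right _ hgo
    have h1 := commutator_eq_bot_of_nilpotent_coprime hS le_normalizer (zpowers_le.mpr hg)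
      (zpowers_le.mpr hg) hcop (Or.inl inferInstance)
    rw [commutator_comm] at h1
    exact commutator_eq_bot_iff_le_centralizer.mp h1 (mem_zpowers g)
  obtain ⟨P, K', hK'n, hc⟩ := hasNormalPComplement_of_frobCond hF
  have hpP : p ∣ Nat.card P := P.dvd_card_of_dvd_card hpG
  have hcopP : ∀ L : Subgroup G, L ≤ K → (Nat.card (P : Subgroup G)).Coprime (Nat.card L) := by
    intro L hL
    obtain ⟨n, hn⟩ := P.2.exists_card_eq
    rw [hn]
    apply Nat.Coprime.pow_left
    rw [Nat.Prime.coprime_iff_not_dvd hp]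
    exact fun hd => hpK (hd.trans (card_dvd_of_le hL))
  have hKK' : K ≤ K' := by
    apply le_normal_of_coprime_index
    rw [hc.symm.index_eq_card]
    exact (hcopP K le_rfl).symm
  have hK'top : K' ≠ ⊤ := by
    intro ht
    have := hc.symm.index_eq_card
    rw [ht, index_top] at this
    rw [← this] at hpP
    exact hp.one_lt.ne' (Nat.dvd_one.mp hpP)
  have hKeq : K' = K := (hK.le_iff_eq hK'top).mp hKK'
  subst hKeq
  have hPK : (P : Subgroup G) ≤ normalizer (K' : Set G) := by
    rw [normalizer_eq_top_iff.mpr hK'n]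
    exact le_top
  have hPsolv : Group.IsSolvable (P : Subgroup G) := by
    haveI := P.2.isNilpotent
    infer_instance
  have hD : K' ⊓ centralizer ((P : Subgroup G) : Set G) = K' := by
    apply Cfsg.Agent.H7.eq_of_forall_sylow_le inf_le_left
    intro q hq
    haveI : Fact q.Prime := ⟨hq⟩
    obtain ⟨Q, hQ⟩ := coprime_invariant_sylow_exists (P : Subgroup G) K' hPK (hcopP K' le_rfl)
      (Or.inl hPsolv) q
    refine ⟨Q, le_inf (map_subtype_le _) ?_⟩
    set Q' := (Q : Subgroup K').map K'.subtype with hQ'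
    have hQ'K : Q' ≤ K' := map_subtype_le _
    have hQ'p : IsPGroup q Q' := Q.2.map _
    have hne : Q' ⊔ P ≠ ⊤ := by
      intro ht
      apply hKn
      have h1 := card_sup_mul_card_inf' Q' (P : Subgroup G) hQ
      rw [inf_eq_bot_of_coprime (hcopP Q' hQ'K).symm, card_bot, mul_one, ht, card_top,
        ← hc.card_mul_card] at h1
      have h2 : Q' = K' := eq_of_le_of_card_ge hQ'K
        (le_of_eq (Nat.eq_of_mul_eq_mul_right Nat.card_pos h1))
      rw [← h2]
      exact hQ'p.isNilpotent
    have hnil := h _ hne (hpP.trans (card_dvd_of_le le_sup_right))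
    have h1 := commutator_eq_bot_of_nilpotent_coprime hnil le_sup_left le_sup_right hQ
      (hcopP Q' hQ'K) (Or.inl hPsolv)
    exact commutator_eq_bot_iff_le_centralizer.mp h1
  have hKC : K' ≤ centralizer ((P : Subgroup G) : Set G) := inf_eq_left.mp hD
  have hPn : (P : Subgroup G).Normal := by
    rw [← normalizer_eq_top_iff, eq_top_iff, ← hc.sup_eq_top]
    exact sup_le (hKC.trans (centralizer_le_normalizer _)) le_normalizer
  have := hA P hPn P.2
  rw [this, card_bot] at hpP
  exact hp.one_lt.ne' (Nat.dvd_one.mp hpP)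

theorem back {G : Type*} [Group G] [Finite G] {p : ℕ} (hp : p.Prime)
    (Z K : Subgroup G) (hZ : Z.Normal) (hKn : K.Normal) (hd : Z ⊓ K = ⊥) (hs : Z ⊔ K = ⊤)
    (hZp : Nat.card Z = p) (hKm : Cfsg.IsMinimalNonNilpotent K) (hpK : ¬ p ∣ Nat.card K)
    (M : Subgroup G) (hM : IsCoatom M) (hpM : p ∣ Nat.card M) : Group.IsNilpotent M := by
  haveI : Fact p.Prime := ⟨hp⟩
  have hidx : Z.index = Nat.card K := by
    have h1 := card_sup_mul_card_inf Z K
    rw [hd, hs, card_bot, mul_one, card_top, ← Z.card_mul_index] at h1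
    exact Nat.eq_of_mul_eq_mul_left Nat.card_pos h1
  obtain ⟨x, hx⟩ := exists_prime_orderOf_dvd_card' (G := M) p hpM
  have hxo : orderOf (x : G) = p := by
    rw [Subgroup.orderOf_coe]
    exact hx
  have hxZ : zpowers (x : G) ≤ Z := by
    apply le_normal_of_coprime_index
    rw [hidx, Nat.card_zpowers, hxo]
    exact (Nat.Prime.coprime_iff_not_dvd hp).mpr hpK
  have hxZ' : zpowers (x : G) = Z := eq_of_le_of_card_ge hxZ (by rw [Nat.card_zpowers, hxo, hZp])
  have hZM : Z ≤ M := by
    rw [← hxZ']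
    exact zpowers_le.mpr x.2
  have hne : M ⊓ K ≠ K := by
    intro he
    apply hM.1
    rw [eq_top_iff, ← hs]
    exact sup_le hZM (inf_eq_right.mp he)
  haveI hLnil : Group.IsNilpotent (M ⊓ K : Subgroup G) := by
    haveI h1 := hKm.2 ((M ⊓ K).subgroupOf K) (by
      intro ht
      rw [subgroupOf_eq_top] at ht
      exact hne (le_antisymm inf_le_right ht))
    exact Group.nilpotent_of_mulEquiv (subgroupOfEquivOfLe (inf_le_right : M ⊓ K ≤ K))
  haveI hZnil : Group.IsNilpotent Z :=
    (IsPGroup.of_card (n := 1) (by rw [hZp, pow_one])).isNilpotent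
  let f := MonoidHom.noncommCoprod Z.subtype (M ⊓ K).subtype (fun z k =>
    commute_of_normal_of_disjoint Z K hZ hKn (disjoint_iff.mpr hd) z k z.2 k.2.2)
  have hr : f.range = Z ⊔ (M ⊓ K) := by
    have h0 := MonoidHom.noncommCoprod_range Z.subtype (M ⊓ K).subtype (fun z k =>
      commute_of_normal_of_disjoint Z K hZ hKn (disjoint_iff.mpr hd) z k z.2 k.2.2)
    rw [range_subtype, range_subtype] at h0
    exact h0
  have hfn : Group.IsNilpotent f.range :=
    Group.nilpotent_of_surjective f.rangeRestrict f.rangeRestrict_surjective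
  refine isNilpotent_of_le ?_ hfn
  rw [hr]
  intro m hm
  have hm' : m ∈ ((Z ⊔ K : Subgroup G) : Set G) := by
    rw [hs]
    exact mem_top m
  rw [mul_normal] at hm'
  obtain ⟨z, hz, k, hk, rfl⟩ := Set.mem_mul.mp hm'
  refine mul_mem (mem_sup_left hz) (mem_sup_right ⟨?_, hk⟩)
  have := mul_mem (inv_mem (hZM hz)) hm
  rwa [inv_mul_cancel_left] at this

/-- Let G be a finite group and p a prime dividing its order. Every maximal subgroup of G of order divisible by p is nilpotent if and only if G is nilpotent, or G is a minimal non-nilpotent group, or G is the internal direct product of a normal subgroup of order p and a normal minimal non-nilpotent subgroup of order prime to p. -/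
theorem result {G : Type*} [Group G] [Finite G] (p : ℕ) (hp : p.Prime) (hpG : p ∣ Nat.card G) :
    (∀ M : Subgroup G, IsCoatom M → p ∣ Nat.card M → Group.IsNilpotent M) ↔
      (Group.IsNilpotent G ∨ Cfsg.IsMinimalNonNilpotent G ∨
        ∃ Z K : Subgroup G, Z.Normal ∧ K.Normal ∧ Z ⊓ K = ⊥ ∧ Z ⊔ K = ⊤ ∧ Nat.card Z = p ∧
          Cfsg.IsMinimalNonNilpotent K ∧ ¬ p ∣ Nat.card K) := by
  constructor
  · intro h
    by_cases hG : Group.IsNilpotent G
    · exact Or.inl hG
    by_cases hmin : Cfsg.IsMinimalNonNilpotent G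
    · exact Or.inr (Or.inl hmin)
    refine Or.inr (Or.inr ?_)
    have hT := t1 h
    have : ∃ H : Subgroup G, H ≠ ⊤ ∧ ¬ Group.IsNilpotent H := by
      by_contra hcon
      push Not at hcon
      exact hmin ⟨hG, hcon⟩
    obtain ⟨H, hH, hHn⟩ := this
    obtain ⟨K, hK, hle⟩ := (eq_top_or_exists_le_coatom H).resolve_left hH
    have hKn : ¬ Group.IsNilpotent K := fun hn => hHn (isNilpotent_of_le hle hn)
    have hpK : ¬ p ∣ Nat.card K := fun hd => hKn (h K hK hd)
    obtain ⟨N, hN, hNp, hN1⟩ := caseA hp hpG hT K hK hKn hpK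
    exact caseB hp hT K hK hKn hpK N hN hNp hN1
  · rintro (hG | hmin | ⟨Z, K, hZ, hKn, hd, hs, hZp, hKm, hpK⟩) M hM hpM
    · infer_instance
    · exact hmin.2 M hM.1
    · exact back hp Z K hZ hKn hd hs hZp hKm hpK M hM hpM

end Cfsg.Agent.S4242
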