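import Cfsg.Statements.S4251
import Cfsg.Agent.S0071
import Cfsg.Agent.Lib_helper7_AlperinAbs
import Cfsg.Agent.Lib_helper7_Transfer
import Cfsg.Agent.Lib_helper1_Basic
import Mathlib

set_option autoImplicit false
open Cfsg

namespace Cfsg.Agent.S4251

open Cfsg.Agent.H7

/-- Let P be a Sylow p-subgroup of a finite group G. Call an intersection H = P ∩ Q with a Sylow p-subgroup Q tame when N_P(H) and N_Q(H) are Sylow p-subgroups of N_G(H). If N_G(H)/C_G(H) is a p-group for every nontrivial tame intersection H = P ∩ Q, then G has a normal p-complement. -/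
theorem result {G : Type*} [Group G] [Finite G] (p : ℕ) [Fact p.Prime] (P : Sylow p G)
    (h : ∀ Q : Sylow p G, (P : Subgroup G) ⊓ (Q : Subgroup G) ≠ ⊥ → (¬ p ∣ ((P : Subgroup G) ⊓ Subgroup.normalizer (((P : Subgroup G) ⊓ (Q : Subgroup G) : Subgroup G) : Set G)).relIndex (Subgroup.normalizer (((P : Subgroup G) ⊓ (Q : Subgroup G) : Subgroup G) : Set G)) ∧ ¬ p ∣ ((Q : Subgroup G) ⊓ Subgroup.normalizer (((P : Subgroup G) ⊓ (Q : Subgroup G) : Subgroup G) : Set G)).relIndex (Subgroup.normalizer (((P : Subgroup G) ⊓ (Q : Subgroup G) : Subgroup G) : Set G))) →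
      IsPGroup p (Subgroup.normalizer (((P : Subgroup G) ⊓ (Q : Subgroup G) : Subgroup G) : Set G) ⧸
        (Subgroup.centralizer (((P : Subgroup G) ⊓ (Q : Subgroup G) : Subgroup G) : Set G)).subgroupOf
          (Subgroup.normalizer (((P : Subgroup G) ⊓ (Q : Subgroup G) : Subgroup G) : Set G)))) :
    Cfsg.HasNormalPComplement p G := by
  have hpp : p.Prime := Fact.out
  let D : Subgroup G → G → Prop := fun Q g => ∃ u ∈ (P : Subgroup G), ∀ a ∈ Q, g⁻¹ * a * g = u⁻¹ * a * u
  have key : ∀ Q : Subgroup G, Q ≤ P → ∀ g, rc g Q ≤ P → D Q g := by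
    apply alperin_abstract P D
    · rintro Q Q' g hle ⟨u, hu, h⟩
      exact ⟨u, hu, fun a ha => h a (hle ha)⟩
    · rintro Q g h' ⟨u₁, hu₁, h₁⟩ ⟨u₂, hu₂, h₂⟩
      refine ⟨u₁ * u₂, mul_mem hu₁ hu₂, ?_⟩
      intro a ha
      have hmem : g⁻¹ * a * g ∈ rc g Q := by
        rw [mem_rc]
        have : g * (g⁻¹ * a * g) * g⁻¹ = a := by group
        rw [this]; exact ha
      calc (g * h')⁻¹ * a * (g * h') = h'⁻¹ * (g⁻¹ * a * g) * h' := by group
        _ = u₂⁻¹ * (g⁻¹ * a * g) * u₂ := h₂ _ hmem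
        _ = u₂⁻¹ * (u₁⁻¹ * a * u₁) * u₂ := by rw [h₁ a ha]
        _ = (u₁ * u₂)⁻¹ * a * (u₁ * u₂) := by group
    · rintro Q g ⟨u, hu, h⟩
      refine ⟨u⁻¹, inv_mem hu, ?_⟩
      intro b hb
      rw [mem_rc] at hb
      have h1 := h _ hb
      have h2 : g⁻¹ * (g * b * g⁻¹) * g = b := by group
      rw [h2] at h1
      rw [inv_inv, inv_inv]
      calc g * b * g⁻¹ = u * (u⁻¹ * (g * b * g⁻¹) * u) * u⁻¹ := by group
        _ = u * b * u⁻¹ := by rw [← h1]
    · intro Q hQ IH
      obtain ⟨x, h1, h2⟩ := exists_fully_normalized P (P.2.to_le hQ)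
      refine ⟨rc x Q, h1, ⟨x, rfl⟩, h2, ?_⟩
      intro m hm
      set U := rc x Q with hU
      set W : Subgroup G := (P : Subgroup G) ⊓ ((m • P : Sylow p G) : Subgroup G) with hW
      have hmP : ∀ y : G, y ∈ ((m • P : Sylow p G) : Subgroup G) ↔ m⁻¹ * y * m ∈ (P : Subgroup G) := by
        intro y
        exact mem_map_conj
      have hUW : U ≤ W := by
        intro a ha
        refine ⟨h1 ha, ?_⟩
        show a ∈ ((m • P : Sylow p G) : Subgroup G)
        rw [hmP]
        exact h1 ((Subgroup.mem_normalizer_iff''.mp hm a).mp ha)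
      by_cases hWU : W = U
      swap
      · have hlt : U < W := lt_of_le_of_ne hUW (Ne.symm hWU)
        have hcard : Nat.card Q < Nat.card W := by
          rw [← card_rc x Q]
          exact Cfsg.Agent.H1.card_lt_card_of_lt hlt
        obtain ⟨u, hu, hu'⟩ := IH W inf_le_left hcard m (by
          intro b hb
          rw [mem_rc] at hb
          have h3 := (hmP _).mp hb.2
          have h4 : m⁻¹ * (m * b * m⁻¹) * m = b := by group
          rwa [h4] at h3)
        exact ⟨u, hu, fun a ha => hu' a (hUW ha)⟩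
      by_cases hbot : W = ⊥
      · refine ⟨1, one_mem _, ?_⟩
        intro a ha
        rw [← hWU, hbot, Subgroup.mem_bot] at ha
        rw [ha]; group
      have hm' : m ∈ Subgroup.normalizer (W : Set G) := by rw [hWU]; exact hm
      have hT : IsSylowIn p ((P : Subgroup G) ⊓ Subgroup.normalizer (W : Set G))
          (Subgroup.normalizer (W : Set G)) := by rw [hWU]; exact h2
      have hT2 : IsSylowIn p (((m • P : Sylow p G) : Subgroup G) ⊓ Subgroup.normalizer (W : Set G))
          (Subgroup.normalizer (W : Set G)) := by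
        have h3 := hT.map_conj m
        rw [map_conj_inf, map_conj_of_mem hm'] at h3
        exact h3
      have hpg := h (m • P) hbot ⟨hT.2.2, hT2.2.2⟩
      obtain ⟨k, hk⟩ := hpg.exists_card_eq
      have hk' : (Subgroup.centralizer (W : Set G)).relIndex (Subgroup.normalizer (W : Set G)) = p ^ k := hk
      have hle : Subgroup.normalizer (W : Set G) ≤ Subgroup.centralizer (W : Set G) ⊔
          ((P : Subgroup G) ⊓ Subgroup.normalizer (W : Set G)) := by
        rw [← Subgroup.relIndex_eq_one]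
        have e1 := Subgroup.relIndex_dvd_of_le_left (Subgroup.normalizer (W : Set G))
          (le_sup_left : Subgroup.centralizer (W : Set G) ≤ Subgroup.centralizer (W : Set G) ⊔
          ((P : Subgroup G) ⊓ Subgroup.normalizer (W : Set G)))
        have e2 := Subgroup.relIndex_dvd_of_le_left (Subgroup.normalizer (W : Set G))
          (le_sup_right : ((P : Subgroup G) ⊓ Subgroup.normalizer (W : Set G)) ≤ Subgroup.centralizer (W : Set G) ⊔
          ((P : Subgroup G) ⊓ Subgroup.normalizer (W : Set G)))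
        rw [hk'] at e1
        exact Nat.eq_one_of_dvd_coprimes
          (Nat.Coprime.pow_left k ((Nat.Prime.coprime_iff_not_dvd hpp).mpr hT.2.2)) e1 e2
      have hnorm : ((P : Subgroup G) ⊓ Subgroup.normalizer (W : Set G)) ≤
          Subgroup.normalizer ((Subgroup.centralizer (W : Set G) : Subgroup G) : Set G) := by
        intro s hs
        rw [← map_conj_eq_self_iff, ← centralizer_map_conj, map_conj_eq_self_iff.mpr hs.2]
      have hmem : m ∈ ((Subgroup.centralizer (W : Set G) ⊔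
          ((P : Subgroup G) ⊓ Subgroup.normalizer (W : Set G)) : Subgroup G) : Set G) := hle hm'
      rw [Subgroup.coe_mul_of_right_le_normalizer_left _ _ hnorm] at hmem
      obtain ⟨c, hc, s, hs, rfl⟩ := hmem
      refine ⟨s, hs.1, ?_⟩
      intro a ha
      have hca : a * c = c * a := (Subgroup.mem_centralizer_iff.mp hc) a (hUW ha)
      calc (c * s)⁻¹ * a * (c * s) = s⁻¹ * (c⁻¹ * (a * c)) * s := by group
        _ = s⁻¹ * a * s := by rw [hca]; group
  refine ⟨P, ?_⟩
  rw [Cfsg.Agent.S0071.result P]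
  intro Q hQ g hg hgp
  obtain ⟨u, hu, hu'⟩ := key Q hQ g (by rw [rc_eq_self_iff.mpr hg]; exact hQ)
  have hpow : ∀ n : ℕ, ∀ a ∈ Q, (g ^ n)⁻¹ * a * g ^ n = (u ^ n)⁻¹ * a * u ^ n := by
    intro n
    induction n with
    | zero => intro a _; simp
    | succ n ih =>
      intro a ha
      have h1 : g⁻¹ * a * g ∈ Q := (Subgroup.mem_normalizer_iff''.mp hg a).mp ha
      calc (g ^ (n + 1))⁻¹ * a * g ^ (n + 1) = (g ^ n)⁻¹ * (g⁻¹ * a * g) * g ^ n := by
            rw [pow_succ']; group
        _ = (u ^ n)⁻¹ * (g⁻¹ * a * g) * u ^ n := ih _ h1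
        _ = (u ^ n)⁻¹ * (u⁻¹ * a * u) * u ^ n := by rw [hu' a ha]
        _ = (u ^ (n + 1))⁻¹ * a * u ^ (n + 1) := by rw [pow_succ' u]; group
  obtain ⟨k, hk⟩ := (IsPGroup.iff_orderOf.mp P.2) ⟨u, hu⟩
  rw [Subgroup.orderOf_mk] at hk
  have hgk : g ^ (p ^ k) ∈ Subgroup.centralizer (Q : Set G) := by
    rw [Subgroup.mem_centralizer_iff]
    intro a ha
    have h1 := hpow (p ^ k) a ha
    rw [← hk, pow_orderOf_eq_one] at h1
    simp only [inv_one, one_mul, mul_one] at h1
    rw [hk] at h1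
    calc a * g ^ (p ^ k) = g ^ (p ^ k) * ((g ^ (p ^ k))⁻¹ * a * g ^ (p ^ k)) := by group
      _ = g ^ (p ^ k) * a := by rw [h1]
  obtain ⟨j, hj⟩ := exists_pow_eq_self_of_coprime (Nat.Coprime.pow_left k hgp.symm : (p ^ k).Coprime (orderOf g))
  rw [← hj]
  exact Subgroup.pow_mem _ hgk j

end Cfsg.Agent.S4251
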