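import Cfsg.Statements.S4260


set_option autoImplicit false
open Cfsg

namespace Cfsg.Agent.S4260

/-- Let H be a Hall subgroup of a finite group G (the order of H is coprime to its index) such that x^[G : H] lies in H for every x in G. Then H is normal in G. -/
theorem result {G : Type*} [Group G] [Finite G] (H : Subgroup G) (hHall : (Nat.card H).Coprime H.index)
    (hexp : ∀ x : G, x ^ H.index ∈ H) : H.Normal := by
  classical
  have hchar : ∀ x : G, x ∈ H ↔ x ^ Nat.card H = 1 := by
    intro x
    constructor
    · intro hx
      have := pow_card_eq_one' (G := H) (x := ⟨x, hx⟩)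
      exact congrArg Subtype.val this
    · intro hx
      have hcop : (orderOf x).Coprime H.index :=
        Nat.Coprime.coprime_dvd_left (orderOf_dvd_of_pow_eq_one hx) hHall
      obtain ⟨m, hm⟩ := exists_pow_eq_self_of_coprime hcop.symm
      rw [← hm]
      exact H.pow_mem (hexp x) m
  constructor
  intro n hn g
  rw [hchar] at hn ⊢
  rw [conj_pow, hn]; group

end Cfsg.Agent.S4260
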