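import Cfsg.Statements.S4261
import Mathlib
import Cfsg.Agent.S0048
import Cfsg.Agent.Lib_helper1_Frattini
import Cfsg.Agent.Lib_helper1_Max

set_option autoImplicit false
open Cfsg

namespace Cfsg.Agent.S4261

/-- Let M be a maximal subgroup of a finite solvable group G such that x^[G : M] lies in M for every x in G. Then M is normal in G. -/
theorem result {G : Type*} [Group G] [Finite G] (hG : Group.IsSolvable G) (M : Subgroup G) (hM : IsCoatom M)
    (hexp : ∀ x : G, x ^ M.index ∈ M) : M.Normal := by
  classical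
  obtain ⟨p, k, hp, hk, hpk⟩ := (isPrimePow_nat_iff _).1 (Cfsg.Agent.S0048.result M hM)
  have : Fact p.Prime := ⟨hp⟩
  have hmem : ∀ y : G, (orderOf y).Coprime p → y ∈ M := by
    intro y hy
    have hc : (M.index).Coprime (orderOf y) := by
      rw [← hpk]; exact (Nat.Coprime.pow_left k hy.symm)
    obtain ⟨m, hm⟩ := exists_pow_eq_self_of_coprime hc
    rw [← hm]
    exact M.pow_mem (hexp y) m
  have hcore : ∀ y : G, (orderOf y).Coprime p → y ∈ M.normalCore := by
    intro y hy b
    apply hmem
    have : b * y * b⁻¹ = MulAut.conj b y := by simp [MulAut.conj_apply]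
    rw [this, MulEquiv.orderOf_eq]; exact hy
  obtain ⟨e, m, hm, hcard⟩ := Nat.exists_eq_pow_mul_and_not_dvd (Nat.card_pos (α := G)).ne' p hp.ne_one
  have hPG : IsPGroup p (G ⧸ M.normalCore) := by
    intro q
    induction q using QuotientGroup.induction_on with
    | H g =>
      refine ⟨e, ?_⟩
      rw [← QuotientGroup.mk_pow, QuotientGroup.eq_one_iff]
      apply hcore
      have h1 : (g ^ p ^ e) ^ m = 1 := by
        rw [← pow_mul, ← hcard]; exact pow_card_eq_one'
      have h2 : orderOf (g ^ p ^ e) ∣ m := orderOf_dvd_of_pow_eq_one h1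
      exact Nat.Coprime.coprime_dvd_left h2 ((Nat.Prime.coprime_iff_not_dvd hp).2 hm).symm
  have hnil : Group.IsNilpotent (G ⧸ M.normalCore) := hPG.isNilpotent
  have hco := Cfsg.Agent.H1.isCoatom_map_mk_of_le (Subgroup.normalCore_le M) hM
  have hn := Cfsg.Agent.H1.coatom_normal_of_nilpotent hco
  have h3 := hn.comap (QuotientGroup.mk' M.normalCore)
  rwa [Cfsg.Agent.H1.comap_map_mk_of_le (Subgroup.normalCore_le M)] at h3

end Cfsg.Agent.S4261
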