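import Cfsg.Statements.S4262
import Cfsg.Agent.Lib_helper3_Conj
import Cfsg.Agent.Lib_helper1_PNilp2
import Cfsg.Agent.Lib_helper5_CharP1
import Cfsg.Agent.Lib_helper2_Solv
import Cfsg.Agent.Lib_helper3_Fitting2

set_option autoImplicit false
open Cfsg

namespace Cfsg.Agent.S4262

open Subgroup

variable {G : Type*} [Group G] [Finite G]

/-- The hypothesis of the statement. -/
def Hyp (G : Type*) [Group G] : Prop :=
  ∀ g : G, g ∉ Subgroup.center G → IsCoatom (Subgroup.centralizer ({g} : Set G))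

omit [Finite G] in
theorem cent_ne_top {x : G} (hx : x ∉ center G) : centralizer ({x} : Set G) ≠ ⊤ := by
  intro h
  apply hx
  rw [mem_center_iff]
  intro g
  have : g ∈ centralizer ({x} : Set G) := h ▸ mem_top g
  rw [mem_centralizer_singleton_iff] at this
  exact this

omit [Finite G] in
theorem cent_eq_of_mem_zpowers (h : Hyp G) {g x : G} (hx : x ∉ center G) (hxg : x ∈ zpowers g) :
    centralizer ({g} : Set G) = centralizer ({x} : Set G) := by
  have hg : g ∉ center G := by
    intro hg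
    exact hx ((zpowers_le.2 hg) hxg)
  have hle := H3.centralizer_le_of_mem_zpowers hxg
  rcases (h g hg).le_iff.1 hle with h1 | h1
  · exact absurd h1 (cent_ne_top hx)
  · exact h1.symm

omit [Finite G] in
theorem mem_zpowers_mul_of_coprime {x y : G} (hc : Commute x y)
    (hco : (orderOf x).Coprime (orderOf y)) : x ∈ zpowers (x * y) := by
  obtain ⟨m, hm⟩ := exists_pow_eq_self_of_coprime (G := G) (x := x) (n := orderOf y) hco.symm
  have h1 : (x * y) ^ orderOf y = x ^ orderOf y := by
    rw [hc.mul_pow, pow_orderOf_eq_one, mul_one]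
  have h2 : ((x * y) ^ orderOf y) ^ m ∈ zpowers (x * y) :=
    Subgroup.pow_mem _ (Subgroup.pow_mem _ (mem_zpowers _) _) _
  rwa [h1, hm] at h2

/-- Fact 1. -/
theorem cent_le_of_coprime (h : Hyp G) {x y : G} (hx : x ∉ center G) (hc : Commute x y)
    (hco : (orderOf x).Coprime (orderOf y)) :
    centralizer ({x} : Set G) ≤ centralizer ({y} : Set G) := by
  have h1 : x ∈ zpowers (x * y) := mem_zpowers_mul_of_coprime hc hco
  have h2 : y ∈ zpowers (x * y) := by
    have := mem_zpowers_mul_of_coprime hc.symm hco.symm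
    rwa [hc.symm.eq] at this
  rw [← cent_eq_of_mem_zpowers h hx h1]
  exact H3.centralizer_le_of_mem_zpowers h2

/-- Fact 2. -/
theorem exists_primary (g : G) (hg : g ∉ center G) :
    ∃ p : ℕ, p.Prime ∧ ∃ x ∈ zpowers g, x ∉ center G ∧ ∃ k : ℕ, x ^ p ^ k = 1 := by
  induction' hn : orderOf g using Nat.strong_induction_on with n ih generalizing g
  have hg1 : g ≠ 1 := by
    rintro rfl
    exact hg (one_mem _)
  have hn1 : orderOf g ≠ 1 := by
    rwa [Ne, orderOf_eq_one_iff]
  obtain ⟨p, hp, hpd⟩ := Nat.exists_prime_and_dvd hn1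
  have : Fact p.Prime := ⟨hp⟩
  obtain ⟨a, ha, b, hb, hab, ⟨k, hk⟩, hcop⟩ := H1.exists_p_decomposition p g
  by_cases hac : a ∈ center G
  · have hbc : b ∉ center G := by
      intro hbc
      exact hg (hab ▸ mul_mem hac hbc)
    have hbd : orderOf b ∣ orderOf g := orderOf_dvd_of_mem_zpowers hb
    have hlt : orderOf b < n := by
      rw [← hn]
      refine lt_of_le_of_ne (Nat.le_of_dvd (orderOf_pos g) hbd) ?_
      intro he
      rw [he] at hcop
      exact hp.one_lt.ne' (hcop.symm.eq_one_of_dvd hpd)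
    obtain ⟨q, hq, x, hx, hxc, hk'⟩ := ih _ hlt b hbc rfl
    exact ⟨q, hq, x, (zpowers_le.2 hb) hx, hxc, hk'⟩
  · exact ⟨p, hp, a, ha, hac, k, hk⟩

/-- Fact 3. -/
theorem decomp (h : Hyp G) (p : ℕ) [Fact p.Prime] {x : G} (hx : x ∉ center G)
    (hxp : ∃ k : ℕ, x ^ p ^ k = 1) (m : G) (hm : m ∈ centralizer ({x} : Set G)) :
    ∃ a ∈ centralizer ({x} : Set G), ∃ b ∈ centralizer ({x} : Set G), m = a * b ∧
      (∃ k : ℕ, a ^ p ^ k = 1) ∧ b ∈ centralizer (centralizer ({x} : Set G) : Set G) := by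
  obtain ⟨a, ha, b, hb, hab, hk, hcop⟩ := H1.exists_p_decomposition p m
  have hz : zpowers m ≤ centralizer ({x} : Set G) := zpowers_le.2 hm
  refine ⟨a, hz ha, b, hz hb, hab, hk, ?_⟩
  obtain ⟨k, hk⟩ := hxp
  have hco : (orderOf x).Coprime (orderOf b) :=
    Nat.Coprime.coprime_dvd_left (orderOf_dvd_of_pow_eq_one hk) (hcop.symm.pow_left k)
  have hc : Commute x b := by
    have := hz hb
    rw [mem_centralizer_singleton_iff] at this
    exact this.symm
  have hle := cent_le_of_coprime h hx hc hco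
  rw [mem_centralizer_iff]
  intro c hc
  have := hle hc
  rw [mem_centralizer_singleton_iff] at this
  exact this

theorem cent_pquot (h : Hyp G) (p : ℕ) [Fact p.Prime] {x : G} (hx : x ∉ center G)
    (hxp : ∃ k : ℕ, x ^ p ^ k = 1) :
    IsPGroup p (↥(centralizer ({x} : Set G)) ⧸ center ↥(centralizer ({x} : Set G))) := by
  intro q
  obtain ⟨m, rfl⟩ := QuotientGroup.mk_surjective q
  obtain ⟨a, ha, b, hb, hab, ⟨k, hk⟩, hbc⟩ := decomp h p hx hxp m m.2
  refine ⟨k, ?_⟩
  rw [← QuotientGroup.mk_pow, QuotientGroup.eq_one_iff, mem_center_iff]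
  intro c
  apply Subtype.ext
  have hcomm : Commute a b := by
    rw [mem_centralizer_iff] at hbc
    exact hbc a ha
  have h1 : (m : G) ^ p ^ k = b ^ p ^ k := by
    rw [hab, hcomm.mul_pow, hk, one_mul]
  have h2 : b ^ p ^ k ∈ centralizer (centralizer ({x} : Set G) : Set G) := pow_mem hbc _
  rw [mem_centralizer_iff] at h2
  have h3 := h2 c c.2
  simp only [Subgroup.coe_mul, SubgroupClass.coe_pow, h1]
  exact h3

theorem cent_nilpotent (h : Hyp G) (p : ℕ) [Fact p.Prime] {x : G} (hx : x ∉ center G)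
    (hxp : ∃ k : ℕ, x ^ p ^ k = 1) : Group.IsNilpotent ↥(centralizer ({x} : Set G)) := by
  have := (cent_pquot h p hx hxp).isNilpotent
  exact Subgroup.isNilpotent_of_ker_le_center
    (QuotientGroup.mk' (center ↥(centralizer ({x} : Set G)))) (by simp)

/-- (U0) -/
theorem cent_not_normal (h : Hyp G) (hns : ¬ Group.IsSolvable G) {g : G} (hg : g ∉ center G) :
    ¬ (centralizer ({g} : Set G)).Normal := by
  intro hN
  obtain ⟨p, hp, x, hxg, hx, hxp⟩ := exists_primary g hg
  have : Fact p.Prime := ⟨hp⟩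
  have hnil := cent_nilpotent h p hx hxp
  rw [← cent_eq_of_mem_zpowers h hx hxg] at hnil
  obtain ⟨u, hu⟩ : ∃ u : G, u ∉ centralizer ({g} : Set G) := by
    by_contra hcon
    push Not at hcon
    exact cent_ne_top hg (eq_top_iff.2 fun u _ => hcon u)
  have htop : centralizer ({g} : Set G) ⊔ zpowers u = ⊤ := by
    rcases (h g hg).le_iff.1 (le_sup_left : centralizer ({g} : Set G) ≤ _ ⊔ zpowers u) with h1 | h1
    · exact h1
    · exfalso
      apply hu
      rw [← h1]
      exact (le_sup_right : zpowers u ≤ _) (mem_zpowers u)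
  have hs := H2.isSolvable_sup_of_normal (centralizer ({g} : Set G)) (zpowers u) inferInstance
    inferInstance
  rw [htop] at hs
  exact hns (Group.isSolvable_of_surjective (f := (⊤ : Subgroup G).subtype)
    (fun y => ⟨⟨y, mem_top y⟩, rfl⟩))

/-- (U1) -/
theorem exists_sylow (h : Hyp G) (hns : ¬ Group.IsSolvable G) (p : ℕ) [Fact p.Prime] {x : G}
    (hx : x ∉ center G) (hxp : ∃ k : ℕ, x ^ p ^ k = 1) :
    ∃ T : Sylow p G, x ∈ T ∧ normalizer ((T : Subgroup G) : Set G) = centralizer ({x} : Set G) := by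
  have hnil := cent_nilpotent h p hx hxp
  set M := centralizer ({x} : Set G) with hM
  obtain ⟨T0⟩ : Nonempty (Sylow p M) := inferInstance
  have hT0n : (T0 : Subgroup M).Normal := inferInstance
  set S : Subgroup G := (T0 : Subgroup M).map M.subtype with hS
  have hSM : S ≤ M := map_subtype_le _
  have hSp : IsPGroup p S := T0.isPGroup'.map _
  have hmem : ∀ u ∈ M, (∃ k : ℕ, u ^ p ^ k = 1) → u ∈ S := by
    intro u hu ⟨k, hk⟩
    have hz : IsPGroup p (zpowers (⟨u, hu⟩ : M)) := by
      rintro ⟨w, hw⟩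
      obtain ⟨j, rfl⟩ := mem_zpowers_iff.1 hw
      refine ⟨k, Subtype.ext ?_⟩
      have hv : (⟨u, hu⟩ : M) ^ p ^ k = 1 := Subtype.ext hk
      change ((⟨u, hu⟩ : M) ^ j) ^ p ^ k = 1
      rw [← zpow_natCast, ← zpow_mul, mul_comm, zpow_mul, zpow_natCast, hv, one_zpow]
    obtain ⟨Q, hQ⟩ := hz.exists_le_sylow
    have := Sylow.unique_of_normal T0 hT0n
    have hQT : Q = T0 := Subsingleton.elim _ _
    rw [hQT] at hQ
    exact ⟨⟨u, hu⟩, hQ (mem_zpowers _), rfl⟩
  have hxM : x ∈ M := by
    rw [hM, mem_centralizer_singleton_iff]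
  have hxS : x ∈ S := hmem x hxM hxp
  have hMN : M ≤ normalizer (S : Set G) := by
    have h1 := le_normalizer_map (H := (T0 : Subgroup M)) M.subtype
    rw [normalizer_eq_top_iff.2 hT0n] at h1
    rw [← MonoidHom.range_eq_map, range_subtype] at h1
    exact h1
  have hNtop : normalizer (S : Set G) ≠ ⊤ := by
    intro htop
    have hSn : S.Normal := normalizer_eq_top_iff.1 htop
    apply cent_not_normal h hns hx
    refine ⟨fun m hm g => ?_⟩
    obtain ⟨a, ha, b, hb, hab, hk, hbc⟩ := decomp h p hx hxp m hm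
    have h1 : g * a * g⁻¹ ∈ M := hSM (hSn.conj_mem a (hmem a ha hk) g)
    have h2 : g * b * g⁻¹ ∈ M := by
      have h3 : g⁻¹ * x * g⁻¹⁻¹ ∈ M := hSM (hSn.conj_mem x hxS g⁻¹)
      rw [mem_centralizer_iff] at hbc
      have h4 := hbc _ h3
      rw [hM, mem_centralizer_singleton_iff]
      rw [inv_inv] at h4
      calc g * b * g⁻¹ * x = g * (b * (g⁻¹ * x * g)) * g⁻¹ := by group
        _ = g * ((g⁻¹ * x * g) * b) * g⁻¹ := by rw [h4]
        _ = x * (g * b * g⁻¹) := by group
    have : g * m * g⁻¹ = (g * a * g⁻¹) * (g * b * g⁻¹) := by rw [hab]; group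
    rw [this]
    exact mul_mem h1 h2
  have hN : normalizer (S : Set G) = M := by
    rcases (h x hx).le_iff.1 hMN with h1 | h1
    · exact absurd h1 hNtop
    · exact h1
  have hnd : ¬ p ∣ S.index := by
    obtain ⟨n, hn⟩ := hSp.exists_card_eq
    have hmod : S.relIndex (normalizer (S : Set G)) ≡ S.index [MOD p] :=
      Sylow.card_quotient_normalizer_modEq_card_quotient hn
    rw [hN] at hmod
    have h1 : S.relIndex M = (T0 : Subgroup M).index := by
      rw [relIndex, subgroupOf, hS, comap_map_eq_self_of_injective M.subtype_injective]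
    rw [h1] at hmod
    intro hd
    exact T0.not_dvd_index ((Nat.modEq_zero_iff_dvd.1 (hmod.trans (Nat.modEq_zero_iff_dvd.2 hd))))
  exact ⟨hSp.toSylow hnd, hxS, hN⟩

theorem abelian_case (h : Hyp G) (hns : ¬ Group.IsSolvable G) {g0 : G} (hg0 : g0 ∉ center G)
    (hab : ∀ a ∈ centralizer ({g0} : Set G), ∀ b ∈ centralizer ({g0} : Set G), a * b = b * a) :
    False := by
  obtain ⟨p, hp, x, hxg, hx, hxp⟩ := exists_primary g0 hg0
  have : Fact p.Prime := ⟨hp⟩
  have hC := cent_eq_of_mem_zpowers h hx hxg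
  rw [hC] at hab
  obtain ⟨T, hxT, hNT⟩ := exists_sylow h hns p hx hxp
  have hP : normalizer ((T : Subgroup G) : Set G) ≤ centralizer ((T : Subgroup G) : Set G) := by
    intro a ha
    rw [mem_centralizer_iff]
    intro b hb
    have hb' : b ∈ normalizer ((T : Subgroup G) : Set G) := le_normalizer hb
    rw [hNT] at ha hb'
    exact hab b hb' a ha
  set K := (MonoidHom.transferSylow T hP).ker with hK
  have hcompl : IsComplement' K T := MonoidHom.ker_transferSylow_isComplement' T hP
  have hKnd : ¬ p ∣ Nat.card K := MonoidHom.not_dvd_card_ker_transferSylow T hP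
  have key : ∀ y : G, y ∉ center G → ¬ p ∣ (centralizer ({y} : Set G)).index := by
    intro y hy
    obtain ⟨q, hq, x', hx'y, hx', hx'p⟩ := exists_primary y hy
    have : Fact q.Prime := ⟨hq⟩
    rw [cent_eq_of_mem_zpowers h hx' hx'y]
    obtain ⟨T', hxT', hNT'⟩ := exists_sylow h hns q hx' hx'p
    rw [← hNT']
    by_cases hqp : q = p
    · subst hqp
      intro hd
      exact T'.not_dvd_index (hd.trans (index_dvd_of_le le_normalizer))
    · have hT'K : (T' : Subgroup G) ≤ K := by
        apply H1.le_normal_of_coprime_index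
        rw [hcompl.symm.index_eq_card]
        obtain ⟨n, hn⟩ := T.isPGroup'.exists_card_eq
        obtain ⟨n', hn'⟩ := T'.isPGroup'.exists_card_eq
        rw [hn, hn']
        exact Nat.Coprime.pow _ _ ((Nat.coprime_primes hq hp).2 hqp)
      have hsup := Sylow.normalizer_sup_eq_top' T' hT'K
      have h1 := H3.relIndex_sup_of_normal K (normalizer ((T' : Subgroup G) : Set G))
      have hsup' : normalizer ((T' : Subgroup G) : Set G) ⊔ K = ⊤ := hsup
      rw [hsup', relIndex_top_right] at h1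
      rw [h1]
      intro hd
      exact hKnd (hd.trans (relIndex_dvd_card _ _))
  obtain ⟨y, hy⟩ := H3.exists_not_mem_conj (centralizer ({x} : Set G)) (cent_ne_top hx)
  by_cases hyc : y ∈ center G
  · apply hy 1
    simp only [inv_one, one_mul, mul_one]
    exact center_le_centralizer _ hyc
  · obtain ⟨a, ha⟩ := H3.exists_conj_le_of_not_dvd_index (T : Subgroup G) (centralizer ({y} : Set G))
      T.isPGroup' (key y hyc)
    have h1 := ha x hxT
    rw [mem_centralizer_singleton_iff] at h1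
    apply hy a⁻¹
    rw [mem_centralizer_singleton_iff, inv_inv]
    calc a * y * a⁻¹ * x = a * (y * (a⁻¹ * x * a)) * a⁻¹ := by group
      _ = a * ((a⁻¹ * x * a) * y) * a⁻¹ := by rw [h1]
      _ = x * (a * y * a⁻¹) := by group

/-- The centre of a subgroup, as a subgroup of the ambient group. -/
def ZG (M : Subgroup G) : Subgroup G := M ⊓ centralizer (M : Set G)

omit [Finite G] in
theorem card_ZG (M : Subgroup G) : Nat.card (ZG M) = Nat.card (center M) := by
  have : ZG M = (center M).map M.subtype := by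
    ext g
    simp only [ZG, mem_inf, mem_map, mem_center_iff, mem_centralizer_iff]
    constructor
    · rintro ⟨h1, h2⟩
      exact ⟨⟨g, h1⟩, fun c => Subtype.ext (h2 c c.2), rfl⟩
    · rintro ⟨m, hm, rfl⟩
      exact ⟨m.2, fun c hc => congrArg Subtype.val (hm ⟨c, hc⟩)⟩
  rw [this, card_map_of_injective M.subtype_injective]

theorem sq_mul_card_ZG_le (h : Hyp G) (p : ℕ) [Fact p.Prime] {x : G} (hx : x ∉ center G)
    (hxp : ∃ k : ℕ, x ^ p ^ k = 1)
    (hnab : ¬ ∀ a ∈ centralizer ({x} : Set G), ∀ b ∈ centralizer ({x} : Set G), a * b = b * a) :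
    p ^ 2 * Nat.card (ZG (centralizer ({x} : Set G))) ≤ Nat.card (centralizer ({x} : Set G)) := by
  have hpq := cent_pquot h p hx hxp
  set M := centralizer ({x} : Set G) with hM
  obtain ⟨k, hk⟩ := hpq.exists_card_eq
  have hncyc : ¬ IsCyclic (M ⧸ center M) := by
    intro hc
    apply hnab
    intro a ha b hb
    have := ((QuotientGroup.mk' (center M)).isMulCommutative_of_isCyclic_of_ker_le_center
      (by simp)).is_comm.comm (⟨a, ha⟩ : M) ⟨b, hb⟩
    exact congrArg Subtype.val this
  have hk2 : 2 ≤ k := by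
    by_contra hlt
    push Not at hlt
    apply hncyc
    interval_cases k
    · rw [pow_zero] at hk
      have : Subsingleton (M ⧸ center M) := (Nat.card_eq_one_iff_unique.1 hk).1
      infer_instance
    · rw [pow_one] at hk
      exact isCyclic_of_prime_card hk
  rw [card_ZG, ← card_mul_index (center M), index_eq_card, hk, mul_comm]
  exact Nat.mul_le_mul_left _ (Nat.pow_le_pow_right (Fact.out : p.Prime).pos hk2)

theorem fiber_bound (p : ℕ) [Fact p.Prime] (F : Finset (Subgroup G))
    (hF : ∀ M ∈ F, (∃ T : Sylow p G, normalizer ((T : Subgroup G) : Set G) = M) ∧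
      p ^ 2 * Nat.card (ZG M) ≤ Nat.card M) :
    p ^ 2 * ∑ M ∈ F, Nat.card (ZG M) ≤ Nat.card G := by
  classical
  have := Fintype.ofFinite (Sylow p G)
  have hex : ∀ M : Subgroup G, ∃ T : Sylow p G, M ∈ F → normalizer ((T : Subgroup G) : Set G) = M := by
    intro M
    by_cases hM : M ∈ F
    · obtain ⟨T, hT⟩ := (hF M hM).1
      exact ⟨T, fun _ => hT⟩
    · exact ⟨default, fun h => absurd h hM⟩
  choose f hf using hex
  have hcard : F.card ≤ Nat.card (Sylow p G) := by
    rw [Nat.card_eq_fintype_card, ← Finset.card_univ]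
    apply Finset.card_le_card_of_injOn f (fun _ _ => Finset.mem_univ _)
    intro M hM M' hM' he
    rw [← hf M hM, ← hf M' hM', he]
  have hM : ∀ M ∈ F, Nat.card M * Nat.card (Sylow p G) = Nat.card G := by
    intro M hM
    have e : Nat.card (Sylow p G) = (normalizer ((f M : Subgroup G) : Set G)).index :=
      Sylow.card_eq_index_normalizer (f M)
    rw [e, hf M hM, card_mul_index]
  have hpos : 0 < Nat.card (Sylow p G) := Nat.card_pos
  have h1 : p ^ 2 * ∑ M ∈ F, Nat.card (ZG M) ≤ ∑ M ∈ F, Nat.card M := by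
    rw [Finset.mul_sum]
    exact Finset.sum_le_sum fun M hM => (hF M hM).2
  have h2 : (∑ M ∈ F, Nat.card M) * Nat.card (Sylow p G) ≤ Nat.card G * Nat.card (Sylow p G) := by
    rw [Finset.sum_mul, Finset.sum_congr rfl hM, Finset.sum_const, smul_eq_mul, mul_comm]
    exact Nat.mul_le_mul_left _ hcard
  exact h1.trans (Nat.le_of_mul_le_mul_right h2 hpos)

theorem nonabelian_case (h : Hyp G) (hns : ¬ Group.IsSolvable G)
    (hnab : ∀ g : G, g ∉ center G →
      ¬ ∀ a ∈ centralizer ({g} : Set G), ∀ b ∈ centralizer ({g} : Set G), a * b = b * a) :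
    False := by
  classical
  have := Fintype.ofFinite G
  have := Fintype.ofFinite (Subgroup G)
  set N := Nat.card G with hN
  have hNpos : 0 < N := Nat.card_pos
  let 𝓜 : Finset (Subgroup G) :=
    Finset.univ.filter (fun M => ∃ g : G, g ∉ center G ∧ M = centralizer ({g} : Set G))
  have hex : ∀ M : Subgroup G, ∃ p : ℕ, M ∈ 𝓜 → p.Prime ∧
      (∃ T : Sylow p G, normalizer ((T : Subgroup G) : Set G) = M) ∧
      p ^ 2 * Nat.card (ZG M) ≤ Nat.card M := by
    intro M
    by_cases hM : M ∈ 𝓜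
    · obtain ⟨g, hg, rfl⟩ := (Finset.mem_filter.1 hM).2
      obtain ⟨p, hp, x, hxg, hx, hxp⟩ := exists_primary g hg
      have : Fact p.Prime := ⟨hp⟩
      have hC := cent_eq_of_mem_zpowers h hx hxg
      obtain ⟨T, -, hNT⟩ := exists_sylow h hns p hx hxp
      refine ⟨p, fun _ => ⟨hp, ⟨T, by rw [hNT, hC]⟩, ?_⟩⟩
      rw [hC]
      exact sq_mul_card_ZG_le h p hx hxp (hnab x hx)
    · exact ⟨0, fun h => absurd h hM⟩
  choose P hP using hex
  -- the covering
  obtain ⟨g0, hg0⟩ : ∃ g0 : G, g0 ∉ center G := by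
    by_contra hcon
    push Not at hcon
    apply hns
    apply Group.isSolvable_of_comm
    intro a b
    exact (mem_center_iff.1 (hcon b) a)
  have hcover : N ≤ ∑ M ∈ 𝓜, Nat.card (ZG M) := by
    have hsub : (Finset.univ : Finset G) ⊆ 𝓜.biUnion (fun M => Finset.univ.filter (· ∈ ZG M)) := by
      intro g _
      rw [Finset.mem_biUnion]
      by_cases hg : g ∈ center G
      · refine ⟨centralizer ({g0} : Set G), Finset.mem_filter.2 ⟨Finset.mem_univ _, g0, hg0, rfl⟩, ?_⟩
        rw [Finset.mem_filter]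
        exact ⟨Finset.mem_univ _, center_le_centralizer _ hg, center_le_centralizer _ hg⟩
      · refine ⟨centralizer ({g} : Set G), Finset.mem_filter.2 ⟨Finset.mem_univ _, g, hg, rfl⟩, ?_⟩
        rw [Finset.mem_filter]
        have e1 : g ∈ centralizer ({g} : Set G) := by rw [mem_centralizer_singleton_iff]
        have e2 : g ∈ centralizer ((centralizer ({g} : Set G) : Subgroup G) : Set G) := by
          rw [mem_centralizer_iff]
          intro c hc
          exact mem_centralizer_singleton_iff.1 hc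
        exact ⟨Finset.mem_univ _, e1, e2⟩
    have h1 := (Finset.card_le_card hsub).trans Finset.card_biUnion_le
    rw [Finset.card_univ, ← Nat.card_eq_fintype_card] at h1
    refine h1.trans (le_of_eq (Finset.sum_congr rfl fun M _ => ?_))
    rw [Nat.card_eq_fintype_card, Fintype.card_subtype]
  have hmaps : ∀ M ∈ 𝓜, P M ∈ Finset.Ioc 1 N := by
    intro M hM
    obtain ⟨hp, -, hle⟩ := hP M hM
    rw [Finset.mem_Ioc]
    refine ⟨hp.one_lt, ?_⟩
    have h1 : 0 < Nat.card (ZG M) := Nat.card_pos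
    have h2 : Nat.card M ≤ N := Subgroup.card_le_card_group M
    nlinarith [hp.one_lt]
  have hfib : ∀ q ∈ Finset.Ioc 1 N,
      q ^ 2 * ∑ M ∈ 𝓜.filter (fun M => P M = q), Nat.card (ZG M) ≤ N := by
    intro q _
    by_cases hq : q.Prime
    · have : Fact q.Prime := ⟨hq⟩
      apply fiber_bound q
      intro M hM
      obtain ⟨hM1, rfl⟩ := Finset.mem_filter.1 hM
      exact (hP M hM1).2
    · have : 𝓜.filter (fun M => P M = q) = ∅ := by
        rw [Finset.filter_eq_empty_iff]
        intro M hM he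
        exact hq (he ▸ (hP M hM).1)
      rw [this]
      simp
  have hsum : (∑ M ∈ 𝓜, Nat.card (ZG M)) =
      ∑ q ∈ Finset.Ioc 1 N, ∑ M ∈ 𝓜.filter (fun M => P M = q), Nat.card (ZG M) :=
    (Finset.sum_fiberwise_of_maps_to hmaps _).symm
  have hQ : (N : ℚ) ≤ ∑ q ∈ Finset.Ioc 1 N, (N : ℚ) * ((q : ℚ) ^ 2)⁻¹ := by
    have h1 : (N : ℚ) ≤ ((∑ M ∈ 𝓜, Nat.card (ZG M) : ℕ) : ℚ) := by exact_mod_cast hcover
    rw [hsum] at h1
    push_cast at h1
    refine h1.trans (Finset.sum_le_sum fun q hq => ?_)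
    have h2 := hfib q hq
    have h3 : ((q : ℚ) ^ 2) * ∑ M ∈ 𝓜.filter (fun M => P M = q), (Nat.card (ZG M) : ℚ) ≤ N := by
      exact_mod_cast h2
    have hqpos : (0 : ℚ) < (q : ℚ) ^ 2 := by
      have : 1 < q := (Finset.mem_Ioc.1 hq).1
      positivity
    rw [← div_eq_mul_inv, le_div_iff₀ hqpos, mul_comm]
    exact h3
  rw [← Finset.mul_sum] at hQ
  have hS := sum_Ioc_inv_sq_le_sub (α := ℚ) (k := 1) (n := N) one_ne_zero hNpos
  have hNQ : (0 : ℚ) < N := by exact_mod_cast hNpos
  have h4 : (N : ℚ) * ∑ q ∈ Finset.Ioc 1 N, ((q : ℚ) ^ 2)⁻¹ ≤ N * (((1 : ℕ) : ℚ)⁻¹ - (N : ℚ)⁻¹) :=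
    mul_le_mul_of_nonneg_left hS hNQ.le
  have h5 : (N : ℚ) * (((1 : ℕ) : ℚ)⁻¹ - (N : ℚ)⁻¹) = N - 1 := by
    field_simp
    simp
  rw [h5] at h4
  linarith

/-- Let G be a finite group in which the centralizer of every non-central element is a maximal subgroup of G. Then G is solvable. -/
theorem result {G : Type*} [Group G] [Finite G]
    (h : ∀ g : G, g ∉ Subgroup.center G → IsCoatom (Subgroup.centralizer ({g} : Set G))) :
    Group.IsSolvable G := by
  by_contra hns
  by_cases hab : ∃ g : G, g ∉ center G ∧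
      ∀ a ∈ centralizer ({g} : Set G), ∀ b ∈ centralizer ({g} : Set G), a * b = b * a
  · obtain ⟨g, hg, hab⟩ := hab
    exact abelian_case h hns hg hab
  · push Not at hab
    apply nonabelian_case h hns
    intro g hg hcon
    obtain ⟨a, ha, b, hb, hne⟩ := hab g hg
    exact hne (hcon a ha b hb)

end Cfsg.Agent.S4262
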