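import Cfsg.Statements.S4263
import Cfsg.Agent.Lib_helper3_Fitting2

set_option autoImplicit false
open Cfsg

namespace Cfsg.Agent.S4263

/-- Let G be a finite group. An element x lies in the Fitting subgroup F(G) if and only if, for every subgroup H of G, the power x^[G : H] lies in H. -/
theorem result {G : Type*} [Group G] [Finite G] (x : G) :
    x ∈ Cfsg.fittingSubgroup G ↔ ∀ H : Subgroup G, x ^ H.index ∈ H := by
  have hFn : (Cfsg.fittingSubgroup G).Normal := Cfsg.Agent.H3.fitting_normal
  constructor
  · intro hx H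
    have hF : Group.IsNilpotent (Cfsg.fittingSubgroup G) := Cfsg.Agent.H3.fitting_isNilpotent
    have hle : Subgroup.zpowers x ≤ Cfsg.fittingSubgroup G := by
      rw [Subgroup.zpowers_le]; exact hx
    have hsub : (Subgroup.zpowers x).IsSubnormal :=
      Subgroup.IsSubnormal.trans hle (Cfsg.Agent.H3.isSubnormal_of_isNilpotent _) hFn.isSubnormal
    have hdvd := Cfsg.Agent.H3.relIndex_dvd_index_of_isSubnormal _ hsub H
    have h1 : x ^ (H.relIndex (Subgroup.zpowers x)) ∈ H := by
      have h2 := Subgroup.pow_index_mem (H.subgroupOf (Subgroup.zpowers x))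
        ⟨x, Subgroup.mem_zpowers x⟩
      simpa [Subgroup.mem_subgroupOf, Subgroup.relIndex] using h2
    obtain ⟨k, hk⟩ := hdvd
    rw [hk, pow_mul]
    exact H.pow_mem h1 k
  · intro h
    rw [← QuotientGroup.eq_one_iff]
    by_contra hne
    have h1 : orderOf (x : G ⧸ Cfsg.fittingSubgroup G) ≠ 1 := by
      rwa [Ne, orderOf_eq_one_iff]
    obtain ⟨q, hq, hqd⟩ := Nat.exists_prime_and_dvd h1
    have := Fact.mk hq
    let P : Sylow q G := default
    have key : x ^ (P : Subgroup G).index ∈ Cfsg.fittingSubgroup G := by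
      have h2 : x ^ (P : Subgroup G).index ∈ (P : Subgroup G).normalCore := by
        intro b
        have h3 := h ((P : Subgroup G).map (MulAut.conj b⁻¹).toMonoidHom)
        have h4 : ((P : Subgroup G).map (MulAut.conj b⁻¹).toMonoidHom).index = (P : Subgroup G).index :=
          Subgroup.index_map_equiv (P : Subgroup G) (MulAut.conj b⁻¹)
        rw [h4] at h3
        obtain ⟨y, hy, hyx⟩ := h3
        have : b * x ^ (P : Subgroup G).index * b⁻¹ = y := by
          rw [← hyx]; simp [mul_assoc]
        rw [this]; exact hy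
      refine Cfsg.Agent.H3.le_fitting _ inferInstance ?_ h2
      exact (P.isPGroup'.to_le (Subgroup.normalCore_le _)).isNilpotent
    have h5 : orderOf (x : G ⧸ Cfsg.fittingSubgroup G) ∣ (P : Subgroup G).index := by
      apply orderOf_dvd_of_pow_eq_one
      rw [← QuotientGroup.mk_pow, QuotientGroup.eq_one_iff]
      exact key
    exact P.not_dvd_index (hqd.trans h5)

end Cfsg.Agent.S4263
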