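import Cfsg.Statements.S4421


set_option autoImplicit false
open Cfsg

namespace Cfsg.Agent.S4421

theorem map_conj_mul {G : Type*} [Group G] (A : Subgroup G) (g h : G) :
    A.map (MulAut.conj (g * h)).toMonoidHom = (A.map (MulAut.conj h).toMonoidHom).map (MulAut.conj g).toMonoidHom := by
  rw [Subgroup.map_map]
  congr 1
  ext x
  simp [mul_assoc]

theorem map_conj_one {G : Type*} [Group G] (A : Subgroup G) :
    A.map (MulAut.conj (1 : G)).toMonoidHom = A := by
  ext x
  simp

theorem mem_normalizer_iff_map {G : Type*} [Group G] (A : Subgroup G) (g : G) :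
    g ∈ Subgroup.normalizer (A : Set G) ↔ A.map (MulAut.conj g).toMonoidHom = A := by
  constructor
  · intro hg
    ext x
    rw [Subgroup.mem_map]
    constructor
    · rintro ⟨y, hy, rfl⟩
      exact (Subgroup.mem_normalizer_iff.mp hg y).mp hy
    · intro hx
      refine ⟨g⁻¹ * x * g, ?_, by simp [mul_assoc]⟩
      have := (Subgroup.mem_normalizer_iff.mp (inv_mem hg) x).mp hx
      simpa using this
  · intro h
    rw [Subgroup.mem_normalizer_iff]
    intro y
    constructor
    · intro hy
      rw [← h]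
      exact Subgroup.mem_map.mpr ⟨y, hy, by simp⟩
    · intro hy
      have hy' : g * y * g⁻¹ ∈ A.map (MulAut.conj g).toMonoidHom := by rw [h]; exact hy
      obtain ⟨z, hz, hzy⟩ := Subgroup.mem_map.mp hy'
      have : z = y := by simpa using hzy
      rw [← this]; exact hz

/-- A factorization of a normalizer from two-step control of fusion. Let `G` be a finite group and `A ≤ S ≤ H` subgroups of `G` such that: (i) `S` controls the `G`-fusion of `A` in the sense that every `G`-conjugate of `A` lying in `S` is an `S`-conjugate of `A`; (ii) `H` controls the `G`-fusion of `S` in the same sense; (iii) every conjugate of `S` by an element of the normalizer of `A` lies in `H`. Then `N_G(A) = N_H(A) · (N_G(S) ∩ N_G(A))`: every element of the normalizer of `A` is a product of an element of `H` normalizing `A` and an element normalizing both `S` and `A`. -/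
theorem result {G : Type*} [Group G] [Finite G] (A S H : Subgroup G)
    (hAS : A ≤ S) (hSH : S ≤ H)
    (h1 : ∀ g : G, A.map (MulAut.conj g).toMonoidHom ≤ S → ∃ s ∈ S, A.map (MulAut.conj g).toMonoidHom = A.map (MulAut.conj s).toMonoidHom)
    (h2 : ∀ g : G, S.map (MulAut.conj g).toMonoidHom ≤ H → ∃ y ∈ H, S.map (MulAut.conj g).toMonoidHom = S.map (MulAut.conj y).toMonoidHom)
    (h3 : ∀ x ∈ Subgroup.normalizer (A : Set G), S.map (MulAut.conj x).toMonoidHom ≤ H) :
    ∀ x ∈ Subgroup.normalizer (A : Set G), ∃ y ∈ H ⊓ Subgroup.normalizer (A : Set G),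
      ∃ z ∈ Subgroup.normalizer (S : Set G) ⊓ Subgroup.normalizer (A : Set G), x = y * z := by
  intro x hx
  obtain ⟨y, hyH, hy⟩ := h2 x (h3 x hx)
  have hxA := (mem_normalizer_iff_map A x).mp hx
  -- y⁻¹ x normalizes S
  have h4 : y⁻¹ * x ∈ Subgroup.normalizer (S : Set G) := by
    rw [mem_normalizer_iff_map, map_conj_mul, hy, ← map_conj_mul, inv_mul_cancel, map_conj_one]
  have h5 : A.map (MulAut.conj y⁻¹).toMonoidHom ≤ S := by
    have h6 : A ≤ S.map (MulAut.conj y).toMonoidHom := by
      rw [← hy]
      calc A = A.map (MulAut.conj x).toMonoidHom := hxA.symm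
        _ ≤ _ := Subgroup.map_mono hAS
    calc A.map (MulAut.conj y⁻¹).toMonoidHom ≤ (S.map (MulAut.conj y).toMonoidHom).map (MulAut.conj y⁻¹).toMonoidHom :=
          Subgroup.map_mono h6
      _ = S := by rw [← map_conj_mul, inv_mul_cancel, map_conj_one]
  obtain ⟨s, hsS, hs⟩ := h1 _ h5
  have h7 : y * s ∈ Subgroup.normalizer (A : Set G) := by
    rw [mem_normalizer_iff_map, map_conj_mul, ← hs, ← map_conj_mul, mul_inv_cancel, map_conj_one]
  refine ⟨y * s, Subgroup.mem_inf.mpr ⟨H.mul_mem hyH (hSH hsS), h7⟩, (y * s)⁻¹ * x, Subgroup.mem_inf.mpr ⟨?_, ?_⟩, by group⟩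
  · have : (y * s)⁻¹ * x = s⁻¹ * (y⁻¹ * x) := by group
    rw [this]
    exact mul_mem (inv_mem (Subgroup.le_normalizer hsS)) h4
  · exact mul_mem (inv_mem h7) hx

end Cfsg.Agent.S4421
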