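import Cfsg.Statements.S4269
import Cfsg.Agent.S4421

set_option autoImplicit false
open Cfsg

namespace Cfsg.Agent.S4269

open scoped commutatorElement

theorem mem_sup_of_normalizes {G : Type*} [Group G] (A B : Subgroup G)
    (h : ∀ a ∈ A, ∀ b ∈ B, a * b * a⁻¹ ∈ B) {x : G} (hx : x ∈ A ⊔ B) :
    ∃ b ∈ B, ∃ a ∈ A, x = b * a := by
  rw [Subgroup.sup_eq_closure] at hx
  induction hx using Subgroup.closure_induction with
  | mem x hx =>
    rcases hx with hx | hx
    · exact ⟨1, B.one_mem, x, hx, by group⟩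
    · exact ⟨x, hx, 1, A.one_mem, by group⟩
  | one => exact ⟨1, B.one_mem, 1, A.one_mem, by group⟩
  | mul x y _ _ ihx ihy =>
    obtain ⟨b, hb, a, ha, rfl⟩ := ihx
    obtain ⟨b', hb', a', ha', rfl⟩ := ihy
    exact ⟨b * (a * b' * a⁻¹), B.mul_mem hb (h a ha b' hb'), a * a', A.mul_mem ha ha', by group⟩
  | inv x _ ihx =>
    obtain ⟨b, hb, a, ha, rfl⟩ := ihx
    refine ⟨a⁻¹ * b⁻¹ * (a⁻¹)⁻¹, h _ (A.inv_mem ha) _ (B.inv_mem hb), a⁻¹, A.inv_mem ha, by group⟩

theorem map_conj_self {G : Type*} [Group G] (H : Subgroup G) {h : G} (hh : h ∈ H) :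
    H.map (MulAut.conj h).toMonoidHom = H :=
  (S4421.mem_normalizer_iff_map H h).mp (Subgroup.le_normalizer hh)

theorem mem_map_conj {G : Type*} [Group G] (H : Subgroup G) (g x : G) :
    x ∈ H.map (MulAut.conj g).toMonoidHom ↔ g⁻¹ * x * g ∈ H := by
  rw [Subgroup.mem_map]
  constructor
  · rintro ⟨y, hy, rfl⟩
    have : g⁻¹ * ((MulAut.conj g).toMonoidHom y) * g = y := by simp [mul_assoc]
    rw [this]; exact hy
  · intro h
    exact ⟨_, h, by simp [mul_assoc]⟩

/-- Let G be a finite group, V an abelian normal subgroup and H a subgroup with HV = G. Then H is pronormal in G (H and gHg⁻¹ are conjugate inside the subgroup they generate, for every g) if and only if every H-invariant subgroup U of V satisfies U = N_U(H)·[H, U], that is, U is the join of U ∩ N_G(H) and the commutator subgroup [H, U]. -/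
theorem result {G : Type*} [Group G] [Finite G]
    (V : Subgroup G) [V.Normal] (hV : IsMulCommutative ↥V) (H : Subgroup G) (hHV : H ⊔ V = ⊤) :
    Cfsg.IsPronormal H ↔
      ∀ U : Subgroup G, U ≤ V → (∀ h ∈ H, U.map (MulAut.conj h).toMonoidHom = U) →
        U = (U ⊓ Subgroup.normalizer (H : Set G)) ⊔ ⁅H, U⁆ := by
  classical
  have hVc : ∀ a ∈ V, ∀ b ∈ V, a * b = b * a := by
    intro a ha b hb
    have := (isMulCommutative_iff.mp hV) ⟨a, ha⟩ ⟨b, hb⟩
    exact congrArg Subtype.val this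
  have hVn : ∀ a ∈ V, ∀ g : G, g * a * g⁻¹ ∈ V := fun a ha g => ‹V.Normal›.conj_mem a ha g
  constructor
  · intro hpro U hUV hUinv
    have hUinv' : ∀ h ∈ H, ∀ u ∈ U, h * u * h⁻¹ ∈ U := by
      intro h hh u hu
      have : h * u * h⁻¹ ∈ U.map (MulAut.conj h).toMonoidHom := Subgroup.mem_map.mpr ⟨u, hu, by simp⟩
      rwa [hUinv h hh] at this
    have hKU : ⁅H, U⁆ ≤ U := by
      rw [Subgroup.commutator_le]
      intro h hh u hu
      rw [commutatorElement_def]
      exact U.mul_mem (hUinv' h hh u hu) (U.inv_mem hu)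
    apply le_antisymm
    · intro u hu
      obtain ⟨x, hx, hxu⟩ := hpro u
      have hle : H ⊔ H.map (MulAut.conj u).toMonoidHom ≤ H ⊔ ⁅H, U⁆ := by
        apply sup_le le_sup_left
        intro y hy
        obtain ⟨h, hh, rfl⟩ := Subgroup.mem_map.mp hy
        have h1 : (MulAut.conj u).toMonoidHom h = ⁅h, u⁆⁻¹ * h := by
          simp [commutatorElement_def]
          group
        rw [h1]
        exact mul_mem (inv_mem (Subgroup.mem_sup_right (Subgroup.commutator_mem_commutator hh hu))) (Subgroup.mem_sup_left hh)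
      have hnorm : ∀ a ∈ H, ∀ b ∈ ⁅H, U⁆, a * b * a⁻¹ ∈ ⁅H, U⁆ := by
        intro a ha b hb
        have h1 : a * b * a⁻¹ ∈ (⁅H, U⁆).map (MulAut.conj a).toMonoidHom := Subgroup.mem_map.mpr ⟨b, hb, by simp⟩
        rwa [Subgroup.map_commutator, map_conj_self H ha, hUinv a ha] at h1
      obtain ⟨w, hw, h, hh, rfl⟩ := mem_sup_of_normalizes H ⁅H, U⁆ hnorm (hle hx)
      rw [S4421.map_conj_mul, map_conj_self H hh] at hxu
      have h2 : w⁻¹ * u ∈ Subgroup.normalizer (H : Set G) := by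
        rw [S4421.mem_normalizer_iff_map, S4421.map_conj_mul, hxu, ← S4421.map_conj_mul, inv_mul_cancel, S4421.map_conj_one]
      have h3 : u = (w⁻¹ * u) * ((w⁻¹ * u)⁻¹ * w * (w⁻¹ * u)) := by group
      have hwU : w ∈ U := hKU hw
      have h4 : w⁻¹ * u ∈ U := U.mul_mem (U.inv_mem hwU) hu
      have h5 : (w⁻¹ * u)⁻¹ * w * (w⁻¹ * u) = w := by
        have := hVc w (hUV hwU) (w⁻¹ * u) (hUV h4)
        rw [mul_assoc, this]; group
      rw [h5] at h3
      rw [h3]
      exact mul_mem (Subgroup.mem_sup_left (Subgroup.mem_inf.mpr ⟨h4, h2⟩)) (Subgroup.mem_sup_right hw)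
    · exact sup_le inf_le_left hKU
  · intro hcond g
    have hg : g ∈ V ⊔ H := by rw [sup_comm, hHV]; exact Subgroup.mem_top g
    rw [Subgroup.mem_sup_of_normal_left] at hg
    obtain ⟨v, hv, k, hk, rfl⟩ := hg
    rw [S4421.map_conj_mul, map_conj_self H hk]
    set J := H ⊔ H.map (MulAut.conj v).toMonoidHom with hJ
    have hHJ : H ≤ J := le_sup_left
    have hvJ : ∀ h ∈ H, v * h * v⁻¹ ∈ J := by
      intro h hh
      exact Subgroup.mem_sup_right (Subgroup.mem_map.mpr ⟨h, hh, by simp⟩)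
    let T : Subgroup G :=
      { carrier := {u | u ∈ V ∧ ∀ h ∈ H, u * h * u⁻¹ * h⁻¹ ∈ J}
        one_mem' := ⟨V.one_mem, fun h _ => by
          have : (1 : G) * h * 1⁻¹ * h⁻¹ = 1 := by group
          rw [this]; exact J.one_mem⟩
        mul_mem' := by
          rintro u u' ⟨hu, hu2⟩ ⟨hu', hu2'⟩
          refine ⟨V.mul_mem hu hu', fun h hh => ?_⟩
          have ha : u' * h * u'⁻¹ * h⁻¹ ∈ V := by
            have : u' * h * u'⁻¹ * h⁻¹ = u' * (h * u'⁻¹ * h⁻¹) := by group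
            rw [this]; exact V.mul_mem hu' (hVn _ (V.inv_mem hu') h)
          have h1 : u * u' * h * (u * u')⁻¹ * h⁻¹ = (u * (u' * h * u'⁻¹ * h⁻¹)) * (h * u⁻¹ * h⁻¹) := by group
          rw [h1, hVc u hu _ ha]
          have h2 : u' * h * u'⁻¹ * h⁻¹ * u * (h * u⁻¹ * h⁻¹) = (u' * h * u'⁻¹ * h⁻¹) * (u * h * u⁻¹ * h⁻¹) := by group
          rw [h2]
          exact J.mul_mem (hu2' h hh) (hu2 h hh)
        inv_mem' := by
          rintro u ⟨hu, hu2⟩
          refine ⟨V.inv_mem hu, fun h hh => ?_⟩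
          have hb : h * u * h⁻¹ ∈ V := hVn u hu h
          have h1 : u⁻¹ * h * u⁻¹⁻¹ * h⁻¹ = u⁻¹ * (h * u * h⁻¹) := by group
          rw [h1, hVc _ (V.inv_mem hu) _ hb]
          have h2 : h * u * h⁻¹ * u⁻¹ = (u * h * u⁻¹ * h⁻¹)⁻¹ := by group
          rw [h2]
          exact J.inv_mem (hu2 h hh) }
    have hTmem : ∀ u, u ∈ T ↔ (u ∈ V ∧ ∀ h ∈ H, u * h * u⁻¹ * h⁻¹ ∈ J) := fun u => Iff.rfl
    have hTV : T ≤ V := fun u hu => hu.1
    have hvT : v ∈ T := ⟨hv, fun h hh => J.mul_mem (hvJ h hh) (J.inv_mem (hHJ hh))⟩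
    have hTinv' : ∀ k ∈ H, ∀ u ∈ T, k * u * k⁻¹ ∈ T := by
      intro k hk u hu
      refine ⟨hVn u hu.1 k, fun h hh => ?_⟩
      have h1 : k * u * k⁻¹ * h * (k * u * k⁻¹)⁻¹ * h⁻¹ = k * (u * (k⁻¹ * h * k) * u⁻¹ * (k⁻¹ * h * k)⁻¹) * k⁻¹ := by group
      rw [h1]
      exact J.mul_mem (J.mul_mem (hHJ hk) (hu.2 _ (H.mul_mem (H.mul_mem (H.inv_mem hk) hh) hk))) (J.inv_mem (hHJ hk))
    have hTinv : ∀ h ∈ H, T.map (MulAut.conj h).toMonoidHom = T := by
      intro h hh
      ext y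
      rw [mem_map_conj]
      constructor
      · intro hy
        have := hTinv' h hh _ hy
        have h2 : h * (h⁻¹ * y * h) * h⁻¹ = y := by group
        rwa [h2] at this
      · intro hy
        have := hTinv' h⁻¹ (H.inv_mem hh) y hy
        simpa using this
    have hKJ : ⁅H, T⁆ ≤ J := by
      rw [Subgroup.commutator_le]
      intro h hh u hu
      have h2 : ⁅h, u⁆ = (u * h * u⁻¹ * h⁻¹)⁻¹ := by rw [commutatorElement_def]; group
      rw [h2]
      exact J.inv_mem (hu.2 h hh)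
    have hKT : ⁅H, T⁆ ≤ T := by
      rw [Subgroup.commutator_le]
      intro h hh u hu
      rw [commutatorElement_def]
      exact T.mul_mem (hTinv' h hh u hu) (T.inv_mem hu)
    have hT := hcond T hTV hTinv
    have hvT' : v ∈ (T ⊓ Subgroup.normalizer (H : Set G)) ⊔ ⁅H, T⁆ := hT ▸ hvT
    obtain ⟨w, hw, n, hn, hvwn⟩ := mem_sup_of_normalizes _ _ (by
      intro a ha b hb
      have haV : a ∈ V := hTV (Subgroup.mem_inf.mp ha).1
      have hbV : b ∈ V := hTV (hKT hb)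
      rw [hVc a haV b hbV]
      have : b * a * a⁻¹ = b := by group
      rw [this]; exact hb) hvT'
    refine ⟨w, hKJ hw, ?_⟩
    rw [hvwn, S4421.map_conj_mul, (S4421.mem_normalizer_iff_map H n).mp (Subgroup.mem_inf.mp hn).2]

end Cfsg.Agent.S4269
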