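import Cfsg.Statements.S4303
import Cfsg.Agent.Lib_helper3_SylNum
import Cfsg.Agent.S4341

set_option autoImplicit false
universe u
open Cfsg

namespace Cfsg.Agent.S4303

/-- the allowed factors -/
def Good (p m : ℕ) : Prop :=
  (IsPrimePow m ∧ m % p = 1) ∨
    ∃ (S : Type u) (_ : Group S) (_ : Finite S), IsSimpleGroup S ∧ m = Nat.card (Sylow p S)

open Subgroup in
theorem aux (p : ℕ) [Fact p.Prime] (n : ℕ) : ∀ (G : Type u) [Group G] [Finite G], Nat.card G = n →
    ∃ l : List ℕ, l.prod = Nat.card (Sylow p G) ∧ ∀ m ∈ l, Good.{u} p m := by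
  induction n using Nat.strong_induction_on with
  | _ n ih =>
  intro G _ _ hn
  have hp : p.Prime := Fact.out
  by_cases hsimple : ∀ K : Subgroup G, K.Normal → K = ⊥ ∨ K = ⊤
  · rcases subsingleton_or_nontrivial G with h | hnt
    · have : Subsingleton (Sylow p G) := ⟨fun P Q => Sylow.ext (Subsingleton.elim _ _)⟩
      refine ⟨[], ?_, by simp⟩
      have h1 : Nat.card (Sylow p G) ≤ 1 := Finite.card_le_one_iff_subsingleton.2 this
      have h2 : 0 < Nat.card (Sylow p G) := Nat.card_pos
      simp only [List.prod_nil]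
      omega
    · have : IsSimpleGroup G := ⟨hsimple⟩
      refine ⟨[Nat.card (Sylow p G)], by simp, ?_⟩
      intro m hm
      rw [List.mem_singleton] at hm
      exact Or.inr ⟨G, inferInstance, inferInstance, this, hm⟩
  · push Not at hsimple
    obtain ⟨K, hKn, hKbot, hKtop⟩ := hsimple
    obtain ⟨P⟩ : Nonempty (Sylow p G) := inferInstance
    have hDN : (((P : Subgroup G) ⊓ K).subgroupOf (((P : Subgroup G) ⊔ K) ⊓
        normalizer (((P : Subgroup G) ⊓ K : Subgroup G) : Set G))).Normal :=
      normal_subgroupOf_of_le_normalizer inf_le_right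
    have key := S4341.result p K P _ rfl
    obtain ⟨l1, hl1, hg1⟩ := ih _ (hn ▸ H1.card_quotient_lt hKbot) (G ⧸ K) rfl
    obtain ⟨l2, hl2, hg2⟩ := ih _ (hn ▸ H1.card_lt_of_ne_top hKtop) K rfl
    set D : Subgroup G := (P : Subgroup G) ⊓ K with hD
    set N : Subgroup G := ((P : Subgroup G) ⊔ K) ⊓ normalizer (D : Set G) with hN
    by_cases hlt : Nat.card (N ⧸ D.subgroupOf N) < n
    · obtain ⟨l3, hl3, hg3⟩ := ih _ hlt (N ⧸ D.subgroupOf N) rfl
      refine ⟨l1 ++ l2 ++ l3, ?_, ?_⟩
      · rw [List.prod_append, List.prod_append, hl1, hl2, hl3, key]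
      · intro m hm
        rw [List.mem_append, List.mem_append] at hm
        rcases hm with (hm | hm) | hm
        · exact hg1 m hm
        · exact hg2 m hm
        · exact hg3 m hm
    have hge : n ≤ Nat.card (N ⧸ D.subgroupOf N) := not_lt.1 hlt
    have hmul := (D.subgroupOf N).card_eq_card_quotient_mul_card_subgroup
    have hNle : Nat.card N ≤ n := hn ▸ Subgroup.card_le_card_group N
    have hDpos : 0 < Nat.card (D.subgroupOf N) := Nat.card_pos
    have hnpos : 0 < n := hn ▸ Nat.card_pos
    have hD1 : Nat.card (D.subgroupOf N) = 1 := by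
      by_contra hne
      have h2 : 2 ≤ Nat.card (D.subgroupOf N) := by omega
      have : n * 2 ≤ Nat.card N := by
        rw [hmul]; exact Nat.mul_le_mul hge h2
      omega
    have hNtop : N = ⊤ := by
      apply Subgroup.eq_top_of_card_eq
      rw [hD1, mul_one] at hmul
      omega
    have hDle : D ≤ N := le_inf (inf_le_left.trans le_sup_left) le_normalizer
    have hDbot : D = ⊥ := by
      rw [H1.card_subgroupOf_of_le hDle] at hD1
      exact card_eq_one.1 hD1
    have hPK : (P : Subgroup G) ⊔ K = ⊤ := top_le_iff.1 (hNtop ▸ inf_le_left)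
    have h7K : ¬ p ∣ Nat.card K := by
      intro h7
      obtain ⟨Q, hQ⟩ := LeadSyl.exists_sylow_inf K P
      apply Q.ne_bot_of_dvd_card h7
      rw [hQ, ← hD, hDbot]
      simp
    have hcop : (Nat.card P).Coprime (Nat.card K) := by
      obtain ⟨k, hk⟩ := P.2.exists_card_eq
      rw [hk]
      exact Nat.Coprime.pow_left _ ((Nat.Prime.coprime_iff_not_dvd hp).2 h7K)
    have h2 : (normalizer ((P : Subgroup G) : Set G)).relIndex K = Nat.card (Sylow p G) := by
      rw [P.card_eq_index_normalizer]
      change _ = (normalizer ((P : Subgroup G) : Set G)).index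
      rw [← relIndex_top_right, ← hPK]
      symm
      apply LeadSyl.relIndex_eq_of_sup K _ _ le_sup_right
      · rw [normalizer_eq_top]; exact le_top
      · exact sup_le (le_trans (le_inf le_normalizer le_sup_left) le_sup_right) le_sup_left
    set t := Nat.card (Sylow p G) with ht
    have ht0 : t ≠ 0 := Nat.card_pos.ne'
    refine ⟨t.primeFactors.toList.map (fun ℓ => ℓ ^ t.factorization ℓ), ?_, ?_⟩
    · rw [Finset.prod_map_toList]
      exact Nat.prod_factorization_pow_eq_self ht0
    · intro m hm
      rw [List.mem_map] at hm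
      obtain ⟨ℓ, hℓ, rfl⟩ := hm
      rw [Finset.mem_toList] at hℓ
      have hℓp : ℓ.Prime := Nat.prime_of_mem_primeFactors hℓ
      have : Fact ℓ.Prime := ⟨hℓp⟩
      left
      constructor
      · refine ⟨ℓ, t.factorization ℓ, hℓp.prime, ?_, rfl⟩
        exact hℓp.factorization_pos_of_dvd ht0 (Nat.dvd_of_mem_primeFactors hℓ)
      · have h1 := H3.coprime_part_modEq_one p ℓ P K hcop
        rw [h2] at h1
        have h3 : ℓ ^ t.factorization ℓ % p = 1 % p := h1
        rw [h3, Nat.mod_eq_of_lt hp.one_lt]

/-- For a finite group `G` and a prime `p`, the number of Sylow `p`-subgroups of `G` is a product of natural numbers each of which is either a prime power congruent to 1 modulo `p` or the number of Sylow `p`-subgroups of some finite simple group. -/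
theorem result {G : Type u} [Group G] [Finite G]
    (p : ℕ) [Fact p.Prime] :
    ∃ l : List ℕ, l.prod = Nat.card (Sylow p G) ∧
      ∀ m ∈ l, (IsPrimePow m ∧ m % p = 1) ∨
        ∃ (S : Type u) (_ : Group S) (_ : Finite S), IsSimpleGroup S ∧ m = Nat.card (Sylow p S) := by
  exact aux p _ G rfl

end Cfsg.Agent.S4303
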