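import Cfsg.Statements.S4304
import Cfsg.Agent.Lib_helper3_SylNum2
import Cfsg.Agent.S4341

set_option autoImplicit false
open Cfsg

namespace Cfsg.Agent.S4304

open Subgroup in
theorem simple_case {S : Type*} [Group S] [Finite S] [IsSimpleGroup S]
    (h15 : Nat.card (Sylow 7 S) = 15) : False := by
  have hp7 : Fact (Nat.Prime 7) := ⟨by norm_num⟩
  obtain ⟨P⟩ : Nonempty (Sylow 7 S) := inferInstance
  have hPn : ¬ (P : Subgroup S).Normal := by
    intro h
    have := Sylow.unique_of_normal P h
    rw [Nat.card_unique] at h15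
    omega
  have hS : ¬ IsMulCommutative S := by
    intro h
    apply hPn
    refine ⟨fun n hn g => ?_⟩
    have : g * n * g⁻¹ = n := by rw [h.is_comm.comm g n]; group
    rw [this]; exact hn
  have hPbot : (P : Subgroup S) ≠ ⊥ := by
    intro h
    apply hPn
    rw [h]; infer_instance
  have hdvd : 7 ∣ Nat.card S := by
    obtain ⟨k, hk⟩ := P.2.exists_card_eq
    have hk0 : k ≠ 0 := by
      rintro rfl
      rw [pow_zero] at hk
      exact hPbot (card_eq_one.1 hk)
    exact ((dvd_pow_self 7 hk0).trans (hk ▸ dvd_rfl)).trans (card_subgroup_dvd_card (P : Subgroup S))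
  have hP : Nat.card P = 7 := S4343.result hS 7 hdvd (by rw [h15]; norm_num) P
  have hn : Nat.card (Sylow 7 S) = 2 * 7 + 1 := h15
  have hfaith : ∀ g : S, (∀ Y : Sylow 7 S, g • Y = Y) → g = 1 := by
    intro g hg
    have hker : g ∈ (MulAction.toPermHom S (Sylow 7 S)).ker := by
      rw [MonoidHom.mem_ker]
      ext1 Y
      exact hg Y
    rcases (MonoidHom.normal_ker (MulAction.toPermHom S (Sylow 7 S))).eq_bot_or_eq_top with h | h
    · rw [h] at hker; exact hker
    · exfalso
      apply hPn
      rw [← normalizer_eq_top_iff, eq_top_iff]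
      intro x _
      have hx : x ∈ (MulAction.toPermHom S (Sylow 7 S)).ker := by rw [h]; trivial
      rw [MonoidHom.mem_ker] at hx
      have hx' : x • P = P := by
        have := congrArg (fun σ : Equiv.Perm (Sylow 7 S) => σ P) hx
        exact this
      exact Sylow.smul_eq_iff_mem_normalizer.1 hx'
  have hnt : Nontrivial (Sylow 7 S) := by
    rw [← Finite.one_lt_card_iff_nontrivial, h15]; norm_num
  obtain ⟨Q, hQ⟩ := exists_ne P
  set C : Subgroup S := centralizer ((P : Subgroup S) : Set S) with hC
  have hD : ∀ Y : Sylow 7 S, Y ≠ P → ∀ d ∈ C, d • Y = Y → d = 1 := fun Y hY d hd hdY =>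
    H3.centralizer_stab_trivial hfaith P Y hP hn hY d hd hdY
  have hCP : ∀ c ∈ C, c • P = P := fun c hc =>
    Sylow.smul_eq_iff_mem_normalizer.2 (centralizer_le_normalizer _ hc)
  -- `|C| ≤ 14`
  have hCle : Nat.card C + 1 ≤ 15 := by
    let φ : Option C → Sylow 7 S := fun o =>
      match o with
      | none => P
      | some c => (c : S) • Q
    have hnone : ∀ c : C, (c : S) • Q ≠ P := by
      intro c h
      have h' : (c : S) • Q = (c : S) • P := h.trans (hCP c c.2).symm
      exact hQ (smul_left_cancel _ h')
    have hinj : Function.Injective φ := by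
      intro o1 o2 h
      rcases o1 with _ | x <;> rcases o2 with _ | y
      · rfl
      · exact absurd h.symm (hnone y)
      · exact absurd h (hnone x)
      · have h' : (x : S) • Q = (y : S) • Q := h
        have h2 : ((y : S)⁻¹ * x) • Q = Q := by rw [mul_smul, h', inv_smul_smul]
        have h4 := hD Q hQ _ (C.mul_mem (C.inv_mem y.2) x.2) h2
        have h5 : (y : S) = x := inv_mul_eq_one.1 h4
        have h6 : x = y := Subtype.ext h5.symm
        rw [h6]
    have := Nat.card_le_card_of_injective φ hinj
    rwa [Finite.card_option, h15] at this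
  have hcyc : IsCyclic (P : Subgroup S) := isCyclic_of_prime_card hP
  have hPC : (P : Subgroup S) ≤ C := by
    intro x hx
    rw [hC, mem_centralizer_iff]
    intro y hy
    have := hcyc.isMulCommutative.is_comm.comm (⟨y, hy⟩ : (P : Subgroup S)) ⟨x, hx⟩
    exact congrArg Subtype.val this
  have h7C : 7 ∣ Nat.card C := hP ▸ card_dvd_of_le hPC
  -- exclude `|C| = 14`
  have h2C : ¬ 2 ∣ Nat.card C := by
    intro h2
    have hp2 : Fact (Nat.Prime 2) := ⟨Nat.prime_two⟩
    obtain ⟨t, ht⟩ := exists_prime_orderOf_dvd_card' (G := C) 2 h2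
    have ht1 : (t : S) ≠ 1 := by
      intro h
      have : t = 1 := Subtype.ext h
      rw [this, orderOf_one] at ht
      omega
    have ht2 : (t : S) ^ 2 = 1 := by
      have := pow_orderOf_eq_one t
      rw [ht] at this
      exact congrArg Subtype.val this
    classical
    have := Fintype.ofFinite (Sylow 7 S)
    have hsign : Equiv.Perm.sign (MulAction.toPermHom S (Sylow 7 S) (t : S)) = -1 := by
      apply H3.sign_involution_fifteen _ _ P
      · intro Y
        constructor
        · intro hY
          by_contra hne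
          exact ht1 (hD Y hne t t.2 hY)
        · rintro rfl
          exact hCP t t.2
      · rw [← Nat.card_eq_fintype_card, h15]
      · rw [← map_pow, ht2, map_one]
    let ψ : S →* ℤˣ := Equiv.Perm.sign.comp (MulAction.toPermHom S (Sylow 7 S))
    rcases (MonoidHom.normal_ker ψ).eq_bot_or_eq_top with h | h
    · apply hS
      refine ⟨⟨fun a b => ?_⟩⟩
      apply (MonoidHom.ker_eq_bot_iff ψ).1 h
      rw [map_mul, map_mul, mul_comm]
    · have : (t : S) ∈ ψ.ker := by rw [h]; trivial
      rw [MonoidHom.mem_ker] at this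
      have h3 : ψ (t : S) = -1 := hsign
      rw [h3] at this
      exact absurd this (by decide)
  have hC7 : Nat.card C = 7 := by
    obtain ⟨j, hj⟩ := h7C
    have hj1 : j = 1 := by
      have hpos : 0 < Nat.card C := Nat.card_pos
      have : j ≤ 2 := by omega
      interval_cases j
      · omega
      · rfl
      · exact absurd ⟨7, by omega⟩ h2C
    rw [hj, hj1]
  have he := H3.relIndex_centralizer_normalizer_dvd 7 (P : Subgroup S) hP
  have hN := H1.relIndex_mul_card' (centralizer_le_normalizer ((P : Subgroup S) : Set S))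
  have hidx : (normalizer ((P : Subgroup S) : Set S)).index = 15 := by
    rw [← h15]; exact P.card_eq_index_normalizer.symm
  have hcard := (normalizer ((P : Subgroup S) : Set S)).index_mul_card
  rw [hidx, ← hN, hC7] at hcard
  obtain ⟨e, he6, hcard⟩ : ∃ e, e ∣ 6 ∧ 15 * (e * 7) = Nat.card S := ⟨_, he, hcard⟩
  have hecases : e = 1 ∨ e = 2 ∨ e = 3 ∨ e = 6 := by
    have hle : e ≤ 6 := Nat.le_of_dvd (by norm_num) he6
    clear hcard
    interval_cases e <;> omega
  have hp2 : Fact (Nat.Prime 2) := ⟨Nat.prime_two⟩
  have hp5 : Fact (Nat.Prime 5) := ⟨by norm_num⟩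
  rcases hecases with h | h | h | h
  · have := H3.simple_card_of_coprime_pred (G := S) 5 21 (by rw [← hcard, h]) (by norm_num)
      (by norm_num)
    omega
  · have := H3.simple_card_of_coprime_pred (G := S) 2 105 (by rw [← hcard, h]) (by norm_num)
      (by norm_num)
    omega
  · have := H3.simple_card_of_coprime_pred (G := S) 5 63 (by rw [← hcard, h]) (by norm_num)
      (by norm_num)
    omega
  · have := H3.simple_card_of_coprime_pred (G := S) 2 315 (by rw [← hcard, h]) (by norm_num)
      (by norm_num)
    omega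

theorem num_aux (a : ℕ) (h1 : a ∣ 15) (h2 : a ≡ 1 [MOD 7]) (h3 : a ≠ 15) : a = 1 := by
  have hle : a ≤ 15 := Nat.le_of_dvd (by norm_num) h1
  unfold Nat.ModEq at h2
  interval_cases a <;> omega

universe u

open Subgroup in
theorem aux (n : ℕ) : ∀ (G : Type u) [Group G] [Finite G], Nat.card G = n →
    Nat.card (Sylow 7 G) ≠ 15 := by
  induction n using Nat.strong_induction_on with
  | _ n ih =>
  intro G _ _ hn h15
  have hp7 : Fact (Nat.Prime 7) := ⟨by norm_num⟩
  have hp3 : Fact (Nat.Prime 3) := ⟨by norm_num⟩
  by_cases hsimple : ∀ K : Subgroup G, K.Normal → K = ⊥ ∨ K = ⊤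
  · have hnt : Nontrivial G := by
      by_contra h
      rw [not_nontrivial_iff_subsingleton] at h
      have : Subsingleton (Sylow 7 G) := ⟨fun P Q => Sylow.ext (Subsingleton.elim _ _)⟩
      have h1 : Nat.card (Sylow 7 G) ≤ 1 := Finite.card_le_one_iff_subsingleton.2 this
      omega
    have : IsSimpleGroup G := ⟨hsimple⟩
    exact simple_case h15
  · push Not at hsimple
    obtain ⟨K, hKn, hKbot, hKtop⟩ := hsimple
    obtain ⟨P⟩ : Nonempty (Sylow 7 G) := inferInstance
    have hDN : (((P : Subgroup G) ⊓ K).subgroupOf (((P : Subgroup G) ⊔ K) ⊓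
        normalizer (((P : Subgroup G) ⊓ K : Subgroup G) : Set G))).Normal :=
      normal_subgroupOf_of_le_normalizer inf_le_right
    have key := S4341.result 7 K P _ rfl
    rw [h15] at key
    have ha : Nat.card (Sylow 7 (G ⧸ K)) = 1 := by
      apply num_aux _ _ (card_sylow_modEq_one 7 _) (ih _ (hn ▸ H1.card_quotient_lt hKbot) _ rfl)
      rw [key, mul_assoc]; exact Dvd.intro _ rfl
    have hb : Nat.card (Sylow 7 K) = 1 := by
      apply num_aux _ _ (card_sylow_modEq_one 7 _) (ih _ (hn ▸ H1.card_lt_of_ne_top hKtop) _ rfl)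
      rw [key, ha, one_mul]; exact Dvd.intro _ rfl
    rw [ha, hb, one_mul, one_mul] at key
    set D : Subgroup G := (P : Subgroup G) ⊓ K with hD
    set N : Subgroup G := ((P : Subgroup G) ⊔ K) ⊓ normalizer (D : Set G) with hN
    have hge : n ≤ Nat.card (N ⧸ D.subgroupOf N) := by
      by_contra hlt
      push Not at hlt
      exact ih _ hlt _ rfl key.symm
    have hmul := (D.subgroupOf N).card_eq_card_quotient_mul_card_subgroup
    have hNle : Nat.card N ≤ n := hn ▸ Subgroup.card_le_card_group N
    have hDpos : 0 < Nat.card (D.subgroupOf N) := Nat.card_pos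
    have hnpos : 0 < n := hn ▸ Nat.card_pos
    have hD1 : Nat.card (D.subgroupOf N) = 1 := by
      by_contra hne
      have h2 : 2 ≤ Nat.card (D.subgroupOf N) := by omega
      have : n * 2 ≤ Nat.card N := by
        rw [hmul]; exact Nat.mul_le_mul hge h2
      omega
    have hNtop : N = ⊤ := by
      apply Subgroup.eq_top_of_card_eq
      rw [hD1, mul_one] at hmul
      omega
    have hDle : D ≤ N := le_inf (inf_le_left.trans le_sup_left) le_normalizer
    have hDbot : D = ⊥ := by
      rw [H1.card_subgroupOf_of_le hDle] at hD1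
      exact card_eq_one.1 hD1
    have hPK : (P : Subgroup G) ⊔ K = ⊤ := top_le_iff.1 (hNtop ▸ inf_le_left)
    have h7K : ¬ 7 ∣ Nat.card K := by
      intro h7
      obtain ⟨Q, hQ⟩ := LeadSyl.exists_sylow_inf K P
      apply Q.ne_bot_of_dvd_card h7
      rw [hQ, ← hD, hDbot]
      simp
    have hcop : (Nat.card P).Coprime (Nat.card K) := by
      obtain ⟨k, hk⟩ := P.2.exists_card_eq
      rw [hk]
      exact Nat.Coprime.pow_left _ ((Nat.Prime.coprime_iff_not_dvd (by norm_num)).2 h7K)
    have h1 := H3.coprime_part_modEq_one 7 3 P K hcop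
    have h2 : (normalizer ((P : Subgroup G) : Set G)).relIndex K = 15 := by
      rw [← h15, P.card_eq_index_normalizer]
      change _ = (normalizer ((P : Subgroup G) : Set G)).index
      rw [← relIndex_top_right, ← hPK]
      symm
      apply LeadSyl.relIndex_eq_of_sup K _ _ le_sup_right
      · rw [normalizer_eq_top]; exact le_top
      · exact sup_le (le_trans (le_inf le_normalizer le_sup_left) le_sup_right) le_sup_left
    have h3 : (15 : ℕ).factorization 3 = 1 := by
      have : (15 : ℕ) = 3 * 5 := rfl
      rw [this, Nat.factorization_mul (by norm_num) (by norm_num), Finsupp.add_apply,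
        Nat.Prime.factorization_self (by norm_num),
        Nat.factorization_eq_zero_of_not_dvd (by norm_num)]
    rw [h2, h3] at h1
    exact absurd h1 (by decide)

/-- No finite group has exactly 15 Sylow 7-subgroups. -/
theorem result {G : Type*} [Group G] [Finite G] : Nat.card (Sylow 7 G) ≠ 15 := by
  exact aux _ G rfl

end Cfsg.Agent.S4304
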