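import Cfsg.Statements.S4333
import Cfsg.Agent.Lib_helper7_Subn

set_option autoImplicit false
open Pointwise
open Cfsg

universe u
namespace Cfsg.Agent.S4333

open Subgroup Cfsg.Agent.H7
open scoped Pointwise

theorem aux (n : ℕ) : ∀ {G : Type u} [Group G] [Finite G], Nat.card G = n → ∀ (A : Subgroup G),
    (∀ a ∈ A, ∀ g : G, (A.subgroupOf (A ⊔ MulAut.conj (g⁻¹ * a * g) • A)).IsSubnormal) →
    A.IsSubnormal := by
  induction n using Nat.strong_induction_on with
  | _ n ih =>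
  intro G _ _ hn A hyp
  by_contra hA
  have IH' : ∀ U : Subgroup G, U ≠ ⊤ → ∀ B ≤ U,
      (∀ b ∈ B, ∀ g : G, (B.subgroupOf (B ⊔ MulAut.conj (g⁻¹ * b * g) • B)).IsSubnormal) →
      (B.subgroupOf U).IsSubnormal := by
    intro U hU B hBU hB
    have hlt : Nat.card U < n := by
      rw [← hn, ← card_top (G := G)]
      exact card_lt_of_lt (lt_top_iff_ne_top.mpr hU)
    apply ih _ hlt rfl
    intro b hb g
    apply subn_transport U.subtype B (B ⊔ MulAut.conj ((g : G)⁻¹ * b * g) • B) _ _ _ _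
      (hB b (mem_subgroupOf.mp hb) g)
    · apply sup_le
      · intro y hy
        exact le_sup_left (b := MulAut.conj ((g : G)⁻¹ * b * g) • B) (mem_subgroupOf.mp hy)
      · rintro _ ⟨y, hy, rfl⟩
        apply le_sup_right (a := B)
        exact ⟨y, mem_subgroupOf.mp hy, rfl⟩
    · intro y _
      exact mem_subgroupOf
  have hconj : ∀ x : G, ∀ b ∈ MulAut.conj x • A, ∀ g : G,
      ((MulAut.conj x • A).subgroupOf
        (MulAut.conj x • A ⊔ MulAut.conj (g⁻¹ * b * g) • MulAut.conj x • A)).IsSubnormal := by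
    rintro x _ ⟨a₀, ha₀, rfl⟩ g
    apply subn_transport (MulAut.conj x⁻¹).toMonoidHom A
      (A ⊔ MulAut.conj ((x⁻¹ * g * x)⁻¹ * a₀ * (x⁻¹ * g * x)) • A) _ _ _ _
      (hyp a₀ ha₀ (x⁻¹ * g * x))
    · apply sup_le
      · rintro _ ⟨a, ha, rfl⟩
        apply le_sup_left (b := MulAut.conj ((x⁻¹ * g * x)⁻¹ * a₀ * (x⁻¹ * g * x)) • A)
        change x⁻¹ * (x * a * x⁻¹) * x⁻¹⁻¹ ∈ A
        have : x⁻¹ * (x * a * x⁻¹) * x⁻¹⁻¹ = a := by group
        rw [this]
        exact ha
      · rintro _ ⟨_, ⟨a, ha, rfl⟩, rfl⟩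
        apply le_sup_right (a := A)
        refine ⟨a, ha, ?_⟩
        change ((x⁻¹ * g * x)⁻¹ * a₀ * (x⁻¹ * g * x)) * a * ((x⁻¹ * g * x)⁻¹ * a₀ * (x⁻¹ * g * x))⁻¹ =
          x⁻¹ * ((g⁻¹ * (x * a₀ * x⁻¹) * g) * (x * a * x⁻¹) * (g⁻¹ * (x * a₀ * x⁻¹) * g)⁻¹) * x⁻¹⁻¹
        group
    · intro y _
      rw [← map_conj_eq_smul, mem_map_conj]
      change _ ↔ x⁻¹ * y * x⁻¹⁻¹ ∈ A
      rw [inv_inv]
  obtain ⟨M, hMtop, hAM, hMmax, hMu⟩ := exists_unique_max A hA
    (fun U hU x hx => IH' U hU _ hx (hconj x))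
  have hNM : normalClosure (A : Set G) ≤ M := by
    rw [normalClosure, closure_le]
    intro y hy
    obtain ⟨a, ha, hay⟩ := Group.mem_conjugatesOfSet_iff.mp hy
    obtain ⟨c, rfl⟩ := isConj_iff.mp hay
    apply hMu
    have h1 := hyp a ha c⁻¹
    rw [inv_inv] at h1
    refine le_trans le_sup_right (hMmax (A ⊔ MulAut.conj (c * a * c⁻¹) • A) ?_ le_sup_left)
    intro htop
    apply hA
    rw [htop] at h1
    exact IsSubnormal.trans le_top h1 IsSubnormal.top
  have hNtop : normalClosure (A : Set G) ≠ ⊤ := by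
    intro h
    rw [h, top_le_iff] at hNM
    exact hMtop hNM
  apply hA
  exact IsSubnormal.trans le_normalClosure (IH' _ hNtop A le_normalClosure hyp)
    (normalClosure_normal).isSubnormal

/-- Let A be a subgroup of a finite group G. If A is subnormal in the subgroup generated by A and its conjugate by g⁻¹ a g, for every a ∈ A and every g ∈ G, then A is subnormal in G. (A sharpening of Wielandt's subnormality criterion: only conjugates of A by conjugates of elements of A are needed.) -/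
theorem result {G : Type*} [Group G] [Finite G]
    (A : Subgroup G)
    (h : ∀ a ∈ A, ∀ g : G, (A.subgroupOf (A ⊔ MulAut.conj (g⁻¹ * a * g) • A)).IsSubnormal) :
    A.IsSubnormal := by
  exact aux _ rfl A h

end Cfsg.Agent.S4333
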