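import Cfsg.Statements.S4337
import Cfsg.Agent.S4203

set_option autoImplicit false
open Cfsg

namespace Cfsg.Agent.S4337

/-- A group generated by `m` swaps admits an invariant function that is nonconstant on any given set of
more than `m + 1` points. -/
theorem exists_invariant_on (n m : ℕ) (t : Fin m → Equiv.Perm (Fin n)) (ht : ∀ i, (t i).IsSwap)
    (S : Finset (Fin n)) (hS : m + 1 < S.card) :
    ∃ f : Fin n → ℚ, (∀ h ∈ Subgroup.closure (Set.range t), ∀ x, f (h x) = f x) ∧ ∃ x ∈ S, ∃ y ∈ S, f x ≠ f y := by
  classical
  choose a b hab using ht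
  let ext : (S → ℚ) → (Fin n → ℚ) := fun g x => if h : x ∈ S then g ⟨x, h⟩ else 0
  have ext_add : ∀ g g' x, ext (g + g') x = ext g x + ext g' x := by
    intro g g' x
    by_cases h : x ∈ S <;> simp [ext, h]
  have ext_smul : ∀ (c : ℚ) g x, ext (c • g) x = c * ext g x := by
    intro c g x
    by_cases h : x ∈ S <;> simp [ext, h]
  let L : (S → ℚ) →ₗ[ℚ] (Fin m → ℚ) :=
    { toFun := fun g i => ext g (a i) - ext g (b i)
      map_add' := by intro f g; funext i; simp only [ext_add, Pi.add_apply]; ring
      map_smul' := by intro c f; funext i; simp only [ext_smul, Pi.smul_apply, RingHom.id_apply, smul_eq_mul]; ring }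
  have h1 := LinearMap.finrank_range_add_finrank_ker L
  have h2 : Module.finrank ℚ (LinearMap.range L) ≤ m := by
    have := Submodule.finrank_le (LinearMap.range L)
    simpa using this
  have h3 : Module.finrank ℚ (S → ℚ) = S.card := by simp
  have h4 : 2 ≤ Module.finrank ℚ (LinearMap.ker L) := by omega
  have hinv : ∀ g ∈ LinearMap.ker L, ∀ h ∈ Subgroup.closure (Set.range t), ∀ x, ext g (h x) = ext g x := by
    intro g hg h hh
    have hf' : ∀ i, ext g (a i) = ext g (b i) := by
      intro i
      have := congrFun (LinearMap.mem_ker.mp hg) i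
      exact sub_eq_zero.mp this
    induction hh using Subgroup.closure_induction with
    | mem h hh =>
      obtain ⟨i, rfl⟩ := hh
      intro x
      rw [(hab i).2]
      by_cases hxa : x = a i
      · rw [hxa, Equiv.swap_apply_left, hf']
      · by_cases hxb : x = b i
        · rw [hxb, Equiv.swap_apply_right, hf']
        · rw [Equiv.swap_apply_of_ne_of_ne hxa hxb]
    | one => intro x; rfl
    | mul g g' _ _ ihg ihg' =>
      intro x
      rw [Equiv.Perm.mul_apply, ihg, ihg']
    | inv g _ ihg =>
      intro x
      have := ihg (g⁻¹ x)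
      rw [Equiv.Perm.coe_inv, Equiv.apply_symm_apply] at this
      exact this.symm
  by_contra hcon
  push Not at hcon
  have hne : S.Nonempty := Finset.card_pos.mp (by omega)
  obtain ⟨x0, hx0⟩ := hne
  have hle : LinearMap.ker L ≤ Submodule.span ℚ {(fun _ => 1 : S → ℚ)} := by
    intro g hg
    have hconst := hcon (ext g) (hinv g hg)
    rw [Submodule.mem_span_singleton]
    refine ⟨g ⟨x0, hx0⟩, ?_⟩
    funext x
    have := hconst x x.2 x0 hx0
    simp only [ext, x.2, hx0, dite_true] at this
    simp [this]
  have h5 := Submodule.finrank_mono hle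
  have h6 : Module.finrank ℚ (Submodule.span ℚ {(fun _ => 1 : S → ℚ)}) ≤ 1 := by
    have := finrank_span_le_card (R := ℚ) ({(fun _ => 1 : S → ℚ)} : Set (S → ℚ))
    simpa using this
  omega

/-- In a finite symmetric group, any three transpositions generate a solvable subgroup. -/
theorem result (n : ℕ) (a b c : Equiv.Perm (Fin n))
    (ha : a.IsSwap) (hb : b.IsSwap) (hc : c.IsSwap) :
    Group.IsSolvable (Subgroup.closure ({a, b, c} : Set (Equiv.Perm (Fin n)))) := by
  classical
  let t : Fin 3 → Equiv.Perm (Fin n) := ![a, b, c]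
  have ht : ∀ i, (t i).IsSwap := by
    intro i
    fin_cases i
    · exact ha
    · exact hb
    · exact hc
  have hrange : Set.range t = ({a, b, c} : Set (Equiv.Perm (Fin n))) := by
    ext x
    simp only [Set.mem_range, Set.mem_insert_iff, Set.mem_singleton_iff]
    constructor
    · rintro ⟨i, rfl⟩
      fin_cases i
      · left; rfl
      · right; left; rfl
      · right; right; rfl
    · rintro (rfl | rfl | rfl)
      · exact ⟨0, rfl⟩
      · exact ⟨1, rfl⟩
      · exact ⟨2, rfl⟩
  rw [← hrange]
  have hprimes : ∀ r : ℕ, r.Prime → r ∣ Nat.card (Subgroup.closure (Set.range t)) → r ≤ 3 := by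
    intro r hr hdvd
    by_contra hlt
    push Not at hlt
    have : Fact r.Prime := ⟨hr⟩
    have hr5 : 5 ≤ r := by
      by_contra h5
      have h4 : r = 4 := by omega
      rw [h4] at hr
      exact absurd hr (by norm_num)
    obtain ⟨g, hg⟩ := exists_prime_orderOf_dvd_card' r hdvd
    have hg' : orderOf (g : Equiv.Perm (Fin n)) = r := by rw [Subgroup.orderOf_coe, hg]
    have hg1 : (g : Equiv.Perm (Fin n)) ≠ 1 := by
      intro h
      rw [h, orderOf_one] at hg'
      exact hr.one_lt.ne hg'
    obtain ⟨x, hx⟩ : ∃ x, (g : Equiv.Perm (Fin n)) x ≠ x := by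
      by_contra hcon
      push Not at hcon
      exact hg1 (Equiv.ext hcon)
    -- the orbit of x under powers of g
    let S : Finset (Fin n) := (Finset.range r).image (fun i => ((g : Equiv.Perm (Fin n)) ^ i) x)
    have hinj : Set.InjOn (fun i => ((g : Equiv.Perm (Fin n)) ^ i) x) (Finset.range r : Set ℕ) := by
      have key : ∀ i j : ℕ, i < j → j < r → ((g : Equiv.Perm (Fin n)) ^ i) x ≠ ((g : Equiv.Perm (Fin n)) ^ j) x := by
        intro i j hij hjr heq
        have h1 : ((g : Equiv.Perm (Fin n)) ^ (j - i)) x = x := by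
          have h2 : (g : Equiv.Perm (Fin n)) ^ j = (g : Equiv.Perm (Fin n)) ^ i * (g : Equiv.Perm (Fin n)) ^ (j - i) := by
            rw [← pow_add]; congr 1; omega
          rw [h2, Equiv.Perm.mul_apply] at heq
          exact (((g : Equiv.Perm (Fin n)) ^ i).injective heq).symm
        have hcop : Nat.Coprime (orderOf (g : Equiv.Perm (Fin n))) (j - i) := by
          rw [hg']
          exact (Nat.Prime.coprime_iff_not_dvd hr).mpr (fun hd => by
            have := Nat.le_of_dvd (by omega) hd
            omega)
        obtain ⟨k, hk⟩ := exists_pow_eq_self_of_coprime hcop.symm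
        apply hx
        rw [← hk]
        have h3 : ∀ k : ℕ, (((g : Equiv.Perm (Fin n)) ^ (j - i)) ^ k) x = x := by
          intro k
          induction k with
          | zero => simp
          | succ k ih => rw [pow_succ, Equiv.Perm.mul_apply, h1, ih]
        exact h3 k
      intro i hi j hj hij
      have hi' : i < r := Finset.mem_range.mp hi
      have hj' : j < r := Finset.mem_range.mp hj
      rcases lt_trichotomy i j with h | h | h
      · exact absurd hij (key i j h hj')
      · exact h
      · exact absurd hij.symm (key j i h hi')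
    have hScard : S.card = r := by
      rw [Finset.card_image_of_injOn hinj, Finset.card_range]
    obtain ⟨f, hf, y, hy, z, hz, hyz⟩ := exists_invariant_on n 3 t ht S (by rw [hScard]; omega)
    apply hyz
    obtain ⟨i, -, rfl⟩ := Finset.mem_image.mp hy
    obtain ⟨j, -, rfl⟩ := Finset.mem_image.mp hz
    rw [hf _ (Subgroup.pow_mem _ g.2 i) x, hf _ (Subgroup.pow_mem _ g.2 j) x]
  obtain ⟨u, v, huv⟩ := S4203.two_three_decomp _ Nat.card_pos.ne' hprimes
  exact H4.burnside_paqb 2 3 u v Nat.prime_two Nat.prime_three huv

end Cfsg.Agent.S4337
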