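import Cfsg.Statements.S4342
import Mathlib
import Cfsg.Agent.Lib_lead_SylNum

set_option autoImplicit false
open Cfsg

namespace Cfsg.Agent.S4342

/-- Let H be a normal subgroup of a finite group G and p a prime not dividing the index of H. Then the number of Sylow p-subgroups of H/Z(H) equals the number of Sylow p-subgroups of G. -/
theorem result {G : Type*} [Group G] [Finite G]
    (p : ℕ) [Fact p.Prime] (H : Subgroup G) [H.Normal] (hp : ¬ p ∣ H.index) :
    Nat.card (Sylow p (H ⧸ Subgroup.center H)) = Nat.card (Sylow p G) := by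
  obtain ⟨P⟩ : Nonempty (Sylow p G) := inferInstance
  have hPH : (P : Subgroup G) ≤ H := by
    intro x hx
    obtain ⟨k, hk⟩ := P.2 ⟨x, hx⟩
    have hk' : x ^ p ^ k = 1 := by
      have := congrArg Subtype.val hk
      simpa using this
    have hcop : (H.index).Coprime (orderOf x) := by
      obtain ⟨j, -, hj⟩ := (Nat.dvd_prime_pow (Fact.out : p.Prime)).1 (orderOf_dvd_of_pow_eq_one hk')
      rw [hj]
      exact Nat.Coprime.pow_right _ ((Nat.Prime.coprime_iff_not_dvd Fact.out).2 hp).symm
    obtain ⟨m, hm⟩ := exists_pow_eq_self_of_coprime hcop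
    rw [← hm]
    exact pow_mem (H.pow_index_mem x) m
  -- n_p(G) = n_p(H)
  have e1 : Nat.card (Sylow p G) = (Subgroup.normalizer ((P : Subgroup G) : Set G)).index :=
    P.card_eq_index_normalizer
  have e2 := LeadSyl.index_normalizer_eq H P
  have hH : Subgroup.normalizer (H : Set G) = ⊤ := Subgroup.normalizer_eq_top H
  rw [sup_eq_right.2 hPH, hH, Subgroup.index_top, one_mul] at e2
  have e3 := LeadSyl.card_sylow_subgroup H (P : Subgroup G) hPH (P.subtype hPH) (Sylow.coe_subtype _ _)
  -- n_p(H/Z(H)) = n_p(H)
  have e4 := LeadSyl.card_sylow_quotient (Subgroup.center H) (P.subtype hPH)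
  have e5 := LeadSyl.index_normalizer_eq (Subgroup.center H) (P.subtype hPH)
  have e6 : (Subgroup.normalizer (((P.subtype hPH : Sylow p H) : Subgroup H) : Set H)).relIndex
      (((P.subtype hPH : Sylow p H) : Subgroup H) ⊔ Subgroup.center H) = 1 := by
    rw [Subgroup.relIndex_eq_one]
    refine sup_le Subgroup.le_normalizer ?_
    intro z hz
    rw [Subgroup.mem_normalizer_iff]
    intro y
    have : z * y * z⁻¹ = y := by
      rw [← (Subgroup.mem_center_iff.1 hz y)]; group
    rw [this]
  rw [e6, mul_one] at e5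
  have e7 : Nat.card (Sylow p H) =
      (Subgroup.normalizer (((P.subtype hPH : Sylow p H) : Subgroup H) : Set H)).index :=
    (P.subtype hPH).card_eq_index_normalizer
  rw [e4, ← e5, ← e7, e3, e1, e2]

end Cfsg.Agent.S4342
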