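import Cfsg.Statements.S4344
import Cfsg.Agent.Lib_helper3_Sylow2

set_option autoImplicit false
open Cfsg

namespace Cfsg.Agent.S4344

/-- Let S be a finite non-abelian simple group, M a maximal subgroup of S and C a cyclic normal subgroup of M. If a Sylow p-subgroup P of S (for a prime p dividing the order of S) is contained in C, then the number of Sylow p-subgroups of S equals the index of M. -/
theorem result {S : Type*} [Group S] [Finite S]
    [IsSimpleGroup S] (hS : ¬ IsMulCommutative S) (p : ℕ) [Fact p.Prime] (hp : p ∣ Nat.card S)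
    (M : Subgroup S) (hM : IsCoatom M) (C : Subgroup S) (hCM : C ≤ M) (hCn : (C.subgroupOf M).Normal)
    (hC : IsCyclic C) (P : Sylow p S) (hP : (P : Subgroup S) ≤ C) :
    Nat.card (Sylow p S) = M.index := by
  classical
  rw [Sylow.card_eq_index_normalizer P]
  congr 1
  -- P is normalized by M
  have hMN : M ≤ Subgroup.normalizer ((P : Subgroup S) : Set S) := by
    intro m hm
    apply Subgroup.mem_normalizer_fintype
    intro y hy
    -- m y m⁻¹ ∈ C, a p-element commuting with P
    have hyC : m * y * m⁻¹ ∈ C := by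
      have := hCn.conj_mem ⟨y, hCM (hP hy)⟩ (by rw [Subgroup.mem_subgroupOf]; exact hP hy) ⟨m, hm⟩
      rw [Subgroup.mem_subgroupOf] at this
      simpa using this
    apply H3.mem_sylow_of_commute P
    · obtain ⟨k, hk⟩ := H3.orderOf_of_mem_pGroup P.isPGroup' hy
      exact ⟨k, by rw [H3.orderOf_conj', hk]⟩
    · intro z hz
      have hcomm := isMulCommutative_iff.mp hC.isMulCommutative
      have := hcomm ⟨z, hP hz⟩ ⟨m * y * m⁻¹, hyC⟩
      exact congrArg Subtype.val this
  rcases hM.le_iff.mp hMN with h | h
  · exfalso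
    have hnorm : (P : Subgroup S).Normal := Subgroup.normalizer_eq_top_iff.mp h
    rcases IsSimpleGroup.eq_bot_or_eq_top_of_normal _ hnorm with h1 | h1
    · exact P.ne_bot_of_dvd_card hp h1
    · apply hS
      have hCtop : C = ⊤ := top_le_iff.mp (h1 ▸ hP)
      refine ⟨⟨fun a b => ?_⟩⟩
      have hcomm := isMulCommutative_iff.mp hC.isMulCommutative
      have := hcomm ⟨a, hCtop ▸ Subgroup.mem_top a⟩ ⟨b, hCtop ▸ Subgroup.mem_top b⟩
      exact congrArg Subtype.val this
  · exact h

end Cfsg.Agent.S4344
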