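import Cfsg.Statements.S4345
import Mathlib
import Cfsg.Agent.Lib_lead_SylNum
import Cfsg.Agent.Lib_helper1_Cores

set_option autoImplicit false
open Cfsg

namespace Cfsg.Agent.S4345

universe u

theorem exists_pCore_ne_bot (G : Type u) [Group G] [Finite G] [Nontrivial G] [Group.IsSolvable G] :
    ∃ q : ℕ, q.Prime ∧ Cfsg.pCore q G ≠ ⊥ := by
  by_contra hcon
  push Not at hcon
  have h1 : Cfsg.fittingSubgroup G = ⊥ := by
    rw [H1.fitting_eq_iSup_pCore, eq_bot_iff]
    exact iSup_le fun q => (hcon q q.2).le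
  have h2 := H1.centralizer_fitting_le (G := G)
  rw [h1] at h2
  have h3 : (⊤ : Subgroup G) ≤ ⊥ := by
    refine le_trans ?_ h2
    intro x _
    rw [Subgroup.mem_centralizer_iff]
    intro y hy
    have : y = 1 := hy
    rw [this]; simp
  exact top_ne_bot (eq_bot_iff.2 h3)

theorem aux (p ℓ : ℕ) [Fact p.Prime] (hℓ : ℓ.Prime) (n : ℕ) :
    ∀ (G : Type u) [Group G] [Finite G], Nat.card G = n → Group.IsSolvable G →
      ℓ ^ (Nat.card (Sylow p G)).factorization ℓ ≡ 1 [MOD p] := by
  induction n using Nat.strong_induction_on with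
  | _ n ih =>
  intro G _ _ hn hs
  obtain ⟨P⟩ : Nonempty (Sylow p G) := inferInstance
  rcases subsingleton_or_nontrivial G with hG | hG
  · have h1 : Nat.card (Sylow p G) ∣ 1 := by
      have := P.card_dvd_index.trans (Subgroup.index_dvd_card _)
      rwa [Nat.card_eq_one_iff_unique.2 ⟨hG, ⟨1⟩⟩] at this
    rw [Nat.dvd_one.1 h1]
    simp [Nat.ModEq]
  · obtain ⟨q, hq, hK⟩ := exists_pCore_ne_bot G
    have hKn : (Cfsg.pCore q G).Normal := H1.pCore_normal q
    have hKp : IsPGroup q (Cfsg.pCore q G) := H1.pCore_isPGroup q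
    have : Fact q.Prime := ⟨hq⟩
    obtain ⟨m, hm⟩ := hKp.exists_card_eq
    have hlt : Nat.card (G ⧸ Cfsg.pCore q G) < n := by
      have h1 := (Cfsg.pCore q G).index_mul_card
      have h2 : 1 < Nat.card (Cfsg.pCore q G) := (Subgroup.one_lt_card_iff_ne_bot _).2 hK
      have h3 : 0 < (Cfsg.pCore q G).index := Nat.pos_of_ne_zero Subgroup.index_ne_zero_of_finite
      rw [← hn, ← h1]
      change (Cfsg.pCore q G).index < _
      nlinarith
    have ih' := ih _ hlt (G ⧸ Cfsg.pCore q G) rfl inferInstance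
    have e1 : Nat.card (Sylow p G) = (Subgroup.normalizer ((P : Subgroup G) : Set G)).index :=
      P.card_eq_index_normalizer
    have e2 := LeadSyl.card_sylow_quotient (Cfsg.pCore q G) P
    have e3 := LeadSyl.index_normalizer_eq (Cfsg.pCore q G) P
    have e4 := LeadSyl.card_sylow_subgroup ((P : Subgroup G) ⊔ Cfsg.pCore q G) (P : Subgroup G)
      le_sup_left (P.subtype le_sup_left) (Sylow.coe_subtype _ _)
    have e5 : Nat.card (Sylow p ↥((P : Subgroup G) ⊔ Cfsg.pCore q G)) ≡ 1 [MOD p] :=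
      card_sylow_modEq_one p _
    rw [e4] at e5
    have e6 : (Subgroup.normalizer ((P : Subgroup G) : Set G)).relIndex
        ((P : Subgroup G) ⊔ Cfsg.pCore q G) ∣ q ^ m := by
      rw [← hm]
      refine (Subgroup.relIndex_dvd_of_le_left _ Subgroup.le_normalizer).trans ?_
      rw [LeadSyl.relIndex_sup_eq]
      exact Subgroup.relIndex_dvd_card _ _
    obtain ⟨j, -, hj⟩ := (Nat.dvd_prime_pow hq).1 e6
    rw [e1, e3, ← e2]
    have hne1 : Nat.card (Sylow p (G ⧸ Cfsg.pCore q G)) ≠ 0 := Nat.card_pos.ne'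
    have hne2 : (Subgroup.normalizer ((P : Subgroup G) : Set G)).relIndex
        ((P : Subgroup G) ⊔ Cfsg.pCore q G) ≠ 0 := by rw [hj]; exact pow_ne_zero _ hq.ne_zero
    rw [Nat.factorization_mul hne1 hne2, Finsupp.add_apply, pow_add]
    have h7 : ℓ ^ ((Subgroup.normalizer ((P : Subgroup G) : Set G)).relIndex
        ((P : Subgroup G) ⊔ Cfsg.pCore q G)).factorization ℓ ≡ 1 [MOD p] := by
      by_cases hlq : ℓ = q
      · subst hlq
        rw [hj] at e5 ⊢
        rw [hq.factorization_pow, Finsupp.single_eq_same]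
        exact e5
      · rw [hj, hq.factorization_pow, Finsupp.single_eq_of_ne (by tauto)]
        simp [Nat.ModEq]
    simpa using ih'.mul h7


/-- Let G be a finite solvable group and p, ℓ primes. Then the largest power of ℓ dividing the number of Sylow p-subgroups of G is congruent to 1 modulo p. -/
theorem result {G : Type*} [Group G] [Finite G]
    (hG : Group.IsSolvable G) (p ℓ : ℕ) [Fact p.Prime] (hℓ : ℓ.Prime) :
    ℓ ^ (Nat.card (Sylow p G)).factorization ℓ ≡ 1 [MOD p] := by
  exact aux p ℓ hℓ _ G rfl hG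

end Cfsg.Agent.S4345
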