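import Cfsg.Statements.S4354
import Cfsg.Agent.Lib_helper3_Sylow

set_option autoImplicit false
open Cfsg

namespace Cfsg.Agent.S4354

open Subgroup

/-- every `p`-element has class size prime to `p` -/
def PC (p : ℕ) (K : Type*) [Group K] : Prop :=
  ∀ x : K, (∃ k : ℕ, orderOf x = p ^ k) → ¬ p ∣ (centralizer ({x} : Set K)).index

theorem pc_sub {G : Type*} [Group G] [Finite G] (p : ℕ) (N : Subgroup G) [N.Normal] (h : PC p G) :
    PC p N := by
  intro x hx hdvd
  have hx' : ∃ k : ℕ, orderOf (x : G) = p ^ k := by simpa [Subgroup.orderOf_coe] using hx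
  apply h (x : G) hx'
  have h1 : centralizer ({x} : Set N) = (centralizer ({(x : G)} : Set G)).subgroupOf N := by
    ext y
    simp [mem_subgroupOf, mem_centralizer_singleton_iff, Subtype.ext_iff]
  rw [h1] at hdvd
  exact hdvd.trans (Cfsg.Agent.H3.relIndex_dvd_index_of_isSubnormal N
    (Normal.isSubnormal inferInstance) _)

theorem pc_quot {G : Type*} [Group G] [Finite G] (p : ℕ) [Fact p.Prime] (N : Subgroup G) [N.Normal]
    (h : PC p G) : PC p (G ⧸ N) := by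
  intro x hx hdvd
  obtain ⟨y, hy, rfl⟩ := Cfsg.Agent.H3.lift_pElement N x hx
  apply h y hy
  have h1 : (centralizer ({y} : Set G)).map (QuotientGroup.mk' N) ≤
      centralizer ({(y : G ⧸ N)} : Set (G ⧸ N)) := by
    rintro _ ⟨c, hc, rfl⟩
    rw [SetLike.mem_coe, mem_centralizer_singleton_iff] at hc
    rw [mem_centralizer_singleton_iff]
    change (QuotientGroup.mk (c * y) : G ⧸ N) = QuotientGroup.mk (y * c)
    rw [hc]
  exact (hdvd.trans (index_dvd_of_le h1)).trans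
    (index_map_dvd _ (QuotientGroup.mk'_surjective N))

theorem centralizes_inf {G : Type*} [Group G] [Finite G] (p : ℕ) [Fact p.Prime] (N : Subgroup G)
    [N.Normal] (h : PC p G)
    (hN : ∀ B : Subgroup G, B ≤ N → IsPGroup p B → ∀ u ∈ B, ∀ v ∈ B, u * v = v * u)
    (P : Sylow p G) (x : G) (hx : x ∈ P) (a : G) (haP : a ∈ P) (haN : a ∈ N) : x * a = a * x := by
  have hxo := Cfsg.Agent.H3.orderOf_of_mem_pGroup P.isPGroup' hx
  obtain ⟨c0, hc0⟩ := Cfsg.Agent.H3.exists_conj_le_of_not_dvd_index (P : Subgroup G)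
    (centralizer ({x} : Set G)) P.isPGroup' (h x hxo)
  set Q : Subgroup G := (P : Subgroup G).map (MulAut.conj c0⁻¹).toMonoidHom with hQ
  have hQidx : Q.index = (P : Subgroup G).index := index_map_equiv (P : Subgroup G) (MulAut.conj c0⁻¹)
  have hQp : IsPGroup p Q := P.isPGroup'.map _
  have hQx : ∀ q ∈ Q, q * x = x * q := by
    rintro _ ⟨y, hy, rfl⟩
    have := mem_centralizer_singleton_iff.mp (hc0 y hy)
    simpa using this
  set B : Subgroup G := Q ⊓ N with hB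
  have hBp : IsPGroup p B := hQp.to_le inf_le_left
  set X : Set G := (B : Set G) ∪ {x} with hXdef
  have hX : ∀ a ∈ X, ∀ b ∈ X, a * b = b * a := by
    rintro a (ha | ha) b (hb | hb)
    · exact hN B inf_le_right hBp a ha b hb
    · rw [Set.mem_singleton_iff.mp hb]; exact hQx a ha.1
    · rw [Set.mem_singleton_iff.mp ha]; exact (hQx b hb.1).symm
    · rw [Set.mem_singleton_iff.mp ha, Set.mem_singleton_iff.mp hb]
  set S2 : Subgroup G := centralizer (centralizer X : Set G) with hS2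
  have hXS2 : X ⊆ S2 := Cfsg.Agent.H3.subset_double_centralizer X
  set M : Subgroup G := N ⊔ zpowers x with hM
  have hxM : x ∈ M := (le_sup_right : zpowers x ≤ M) (mem_zpowers x)
  have hNM : N ≤ M := le_sup_left
  set S1 : Subgroup G := ((P : Subgroup G) ⊓ N) ⊔ zpowers x with hS1
  have hS1P : S1 ≤ P := sup_le inf_le_left (by rw [zpowers_le]; exact hx)
  have hS1p : IsPGroup p S1 := P.isPGroup'.to_le hS1P
  -- index computation
  have hidx : ¬ p ∣ S2.relIndex M := by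
    rw [← inf_relIndex_right]
    have e1 : (S2 ⊓ M) ⊔ N = M := by
      apply le_antisymm (sup_le inf_le_right hNM)
      refine sup_le le_sup_right ?_
      rw [zpowers_le]
      exact (le_sup_left : S2 ⊓ M ≤ _) ⟨hXS2 (Or.inr rfl), hxM⟩
    have e2 := Cfsg.Agent.H3.relIndex_sup_of_normal N (S2 ⊓ M)
    rw [e1] at e2
    rw [e2]
    have e3 : B ≤ S2 ⊓ M := le_inf (fun b hb => hXS2 (Or.inl hb)) (inf_le_right.trans hNM)
    have e4 : (S2 ⊓ M).relIndex N ∣ B.relIndex N := relIndex_dvd_of_le_left N e3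
    have e5 : B.relIndex N = Q.relIndex N := inf_relIndex_right Q N
    have e6 : Q.relIndex N ∣ Q.index := Cfsg.Agent.H3.relIndex_dvd_index_of_isSubnormal N
      (Normal.isSubnormal inferInstance) Q
    intro hd
    apply P.not_dvd_index
    rw [← hQidx]
    exact (hd.trans e4).trans (e5 ▸ e6)
  obtain ⟨c, hc⟩ := Cfsg.Agent.H3.exists_conj_le_of_not_dvd_index (S1.subgroupOf M) (S2.subgroupOf M)
    (hS1p.comap_of_injective M.subtype (subtype_injective M)) hidx
  have hxS1 : x ∈ S1 := (le_sup_right : zpowers x ≤ S1) (mem_zpowers x)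
  have haS1 : a ∈ S1 := (le_sup_left : (P : Subgroup G) ⊓ N ≤ S1) ⟨haP, haN⟩
  have k1 := hc ⟨x, hxM⟩ (by rw [mem_subgroupOf]; exact hxS1)
  have k2 := hc ⟨a, hNM haN⟩ (by rw [mem_subgroupOf]; exact haS1)
  rw [mem_subgroupOf] at k1 k2
  have k3 := Cfsg.Agent.H3.commute_of_mem_double_centralizer X hX k1 k2
  simp only [Subgroup.coe_mul, InvMemClass.coe_inv] at k3
  have k4 : (c : G)⁻¹ * (x * a) * c = (c : G)⁻¹ * (a * x) * c := by
    calc (c : G)⁻¹ * (x * a) * c = ((c : G)⁻¹ * x * c) * ((c : G)⁻¹ * a * c) := by group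
      _ = ((c : G)⁻¹ * a * c) * ((c : G)⁻¹ * x * c) := k3
      _ = (c : G)⁻¹ * (a * x) * c := by group
  exact mul_left_cancel (mul_right_cancel k4)

/-- Let G be a finite group and p a prime such that the Sylow p-subgroups of G are non-abelian while every element of p-power order has conjugacy class size prime to p, and suppose no nontrivial proper normal subgroup N of G has this property and no quotient G/N by such an N has it. Then G is simple. -/
theorem result {G : Type*} [Group G] [Finite G]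
    (p : ℕ) [Fact p.Prime] (h : ((∃ P : Sylow p G, ¬ IsMulCommutative P) ∧ ∀ x : G, (∃ k : ℕ, orderOf x = p ^ k) → ¬ p ∣ (Subgroup.centralizer ({x} : Set G)).index))
    (hmin : ∀ (N : Subgroup G) [N.Normal], N ≠ ⊥ → N ≠ ⊤ →
      ¬ ((∃ P : Sylow p N, ¬ IsMulCommutative P) ∧ ∀ x : N, (∃ k : ℕ, orderOf x = p ^ k) → ¬ p ∣ (Subgroup.centralizer ({x} : Set N)).index) ∧
      ¬ ((∃ P : Sylow p (G ⧸ N), ¬ IsMulCommutative P) ∧ ∀ x : (G ⧸ N), (∃ k : ℕ, orderOf x = p ^ k) → ¬ p ∣ (Subgroup.centralizer ({x} : Set (G ⧸ N))).index)) :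
    IsSimpleGroup G := by
  obtain ⟨⟨P, hPnc⟩, hpc⟩ := h
  have hPC : PC p G := hpc
  have hnt : Nontrivial G := by
    by_contra hcon
    rw [not_nontrivial_iff_subsingleton] at hcon
    exact hPnc ⟨⟨fun a b => Subsingleton.elim _ _⟩⟩
  refine { exists_pair_ne := hnt.exists_pair_ne, eq_bot_or_eq_top_of_normal := ?_ }
  intro N hNn
  by_contra hcon
  push Not at hcon
  obtain ⟨hNb, hNt⟩ := hcon
  obtain ⟨m1, m2⟩ := hmin N hNb hNt
  have hNcomm : ∀ Q : Sylow p N, IsMulCommutative Q := by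
    intro Q; by_contra hQ; exact m1 ⟨⟨Q, hQ⟩, pc_sub p N hPC⟩
  have hQcomm : ∀ Q : Sylow p (G ⧸ N), IsMulCommutative Q := by
    intro Q; by_contra hQ; exact m2 ⟨⟨Q, hQ⟩, pc_quot p N hPC⟩
  apply hPnc
  have hN : ∀ B : Subgroup G, B ≤ N → IsPGroup p B → ∀ u ∈ B, ∀ v ∈ B, u * v = v * u := by
    intro B hBN hBp u hu v hv
    have hB' : IsPGroup p (B.subgroupOf N) := hBp.comap_of_injective N.subtype (subtype_injective N)
    obtain ⟨Q, hQ⟩ := hB'.exists_le_sylow
    have hu' : (⟨u, hBN hu⟩ : N) ∈ Q := hQ (by rw [mem_subgroupOf]; exact hu)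
    have hv' : (⟨v, hBN hv⟩ : N) ∈ Q := hQ (by rw [mem_subgroupOf]; exact hv)
    have h1 := (isMulCommutative_iff.mp (hNcomm Q)) ⟨_, hu'⟩ ⟨_, hv'⟩
    have h2 := congrArg (fun z : Q => ((z : N) : G)) h1
    simpa using h2
  have key : ∀ x ∈ P, ∀ y ∈ P, x * y = y * x := by
    intro x hx
    have hxo := Cfsg.Agent.H3.orderOf_of_mem_pGroup P.isPGroup' hx
    obtain ⟨a, ha⟩ := Cfsg.Agent.H3.exists_conj_le_of_not_dvd_index (P : Subgroup G)
      (centralizer ({x} : Set G)) P.isPGroup' (hPC x hxo)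
    set x' : G := a * x * a⁻¹ with hx'
    have hx'c : ∀ y ∈ P, y * x' = x' * y := by
      intro y hy
      have h1 : a⁻¹ * y * a * x = x * (a⁻¹ * y * a) := mem_centralizer_singleton_iff.mp (ha y hy)
      calc y * x' = a * (a⁻¹ * y * a * x) * a⁻¹ := by rw [hx']; group
        _ = a * (x * (a⁻¹ * y * a)) * a⁻¹ := by rw [h1]
        _ = x' * y := by rw [hx']; group
    have hx'o : ∃ k : ℕ, orderOf x' = p ^ k := by
      obtain ⟨k, hk⟩ := hxo
      refine ⟨k, ?_⟩
      rw [← hk]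
      exact (MulAut.conj a).orderOf_eq x
    have hx'P : x' ∈ P := Cfsg.Agent.H3.mem_sylow_of_commute P x' hx'o hx'c
    set Pb : Sylow p (G ⧸ N) := P.mapSurjective (QuotientGroup.mk'_surjective N) with hPb
    have hPbmem : ∀ z : G ⧸ N, z ∈ Pb ↔ ∃ y ∈ P, (y : G ⧸ N) = z := by
      intro z
      change z ∈ (Pb : Subgroup (G ⧸ N)) ↔ _
      rw [hPb, Sylow.coe_mapSurjective]
      exact Subgroup.mem_map
    have hPbc := hQcomm Pb
    have hPbcomm : ∀ u ∈ Pb, ∀ v ∈ Pb, u * v = v * u := by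
      intro u hu v hv
      have h1 := (isMulCommutative_iff.mp hPbc) ⟨u, hu⟩ ⟨v, hv⟩
      exact congrArg Subtype.val h1
    have hxb : (x : G ⧸ N) ∈ Pb := (hPbmem _).mpr ⟨x, hx, rfl⟩
    have hx'b : (x' : G ⧸ N) ∈ Pb := (hPbmem _).mpr ⟨x', hx'P, rfl⟩
    have hconj : ((a⁻¹ : G) : G ⧸ N)⁻¹ * (x : G ⧸ N) * ((a⁻¹ : G) : G ⧸ N) = (x' : G ⧸ N) := by
      rw [hx']
      simp
    obtain ⟨nb, hnb, hnbx⟩ := Pb.conj_eq_normalizer_conj_of_mem (x : G ⧸ N) ((a⁻¹ : G) : G ⧸ N) hxb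
      (by rw [hconj]; exact hx'b)
    rw [hconj] at hnbx
    obtain ⟨n0, rfl⟩ := QuotientGroup.mk_surjective nb
    set L0 : Subgroup G := (P : Subgroup G) ⊔ N with hL0
    have hPL0 : (P : Subgroup G) ≤ L0 := le_sup_left
    have hmemL0 : ∀ g : G, (g : G ⧸ N) ∈ Pb → g ∈ L0 := by
      intro g hg
      obtain ⟨y, hy, hyg⟩ := (hPbmem _).mp hg
      have h1 : y⁻¹ * g ∈ N := QuotientGroup.eq.mp hyg
      have h2 : g = y * (y⁻¹ * g) := by group
      rw [h2]
      exact L0.mul_mem (hPL0 hy) ((le_sup_right : N ≤ L0) h1)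
    have hL0mem : ∀ g ∈ L0, (g : G ⧸ N) ∈ Pb := by
      intro g hg
      have h1 : L0.map (QuotientGroup.mk' N) = (P : Subgroup G).map (QuotientGroup.mk' N) := by
        rw [hL0, Subgroup.map_sup]
        have : N.map (QuotientGroup.mk' N) = ⊥ := by
          rw [Subgroup.map_eq_bot_iff, QuotientGroup.ker_mk']
        rw [this, sup_bot_eq]
      have h2 : (g : G ⧸ N) ∈ L0.map (QuotientGroup.mk' N) := Subgroup.mem_map_of_mem _ hg
      rw [h1] at h2
      obtain ⟨y, hy, hyg⟩ := h2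
      exact (hPbmem _).mpr ⟨y, hy, hyg⟩
    set P' : Subgroup G := (P : Subgroup G).map (MulAut.conj n0⁻¹).toMonoidHom with hP'
    have hP'p : IsPGroup p P' := P.isPGroup'.map _
    have hP'L0 : P' ≤ L0 := by
      rintro _ ⟨y, hy, rfl⟩
      apply hmemL0
      have h1 : ((n0 : G ⧸ N))⁻¹ ∈ normalizer ((Pb : Subgroup (G ⧸ N)) : Set (G ⧸ N)) := inv_mem hnb
      have h2 := (mem_normalizer_iff.mp h1 (y : G ⧸ N)).mp ((hPbmem _).mpr ⟨y, hy, rfl⟩)
      have h3 : (n0 : G ⧸ N)⁻¹ * (y : G ⧸ N) * (n0 : G ⧸ N) ∈ (Pb : Subgroup (G ⧸ N)) := by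
        simpa using h2
      have h4 : (((MulAut.conj n0⁻¹).toMonoidHom y : G) : G ⧸ N) =
          (n0 : G ⧸ N)⁻¹ * (y : G ⧸ N) * (n0 : G ⧸ N) := by simp
      rw [h4]
      exact h3
    have hidx : ¬ p ∣ (P : Subgroup G).relIndex L0 := fun hd =>
      P.not_dvd_index (hd.trans (relIndex_dvd_index_of_le hPL0))
    obtain ⟨l, hl⟩ := Cfsg.Agent.H3.exists_conj_le_of_not_dvd_index (P'.subgroupOf L0)
      ((P : Subgroup G).subgroupOf L0) (hP'p.comap_of_injective L0.subtype (subtype_injective L0)) hidx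
    set n : G := n0 * l with hn
    have hnP : ∀ y ∈ P, n⁻¹ * y * n ∈ P := by
      intro y hy
      have h1 : n0⁻¹ * y * n0 ∈ P' := ⟨y, hy, by simp⟩
      have h2 := hl ⟨n0⁻¹ * y * n0, hP'L0 h1⟩ (by rw [mem_subgroupOf]; exact h1)
      rw [mem_subgroupOf] at h2
      simp only [Subgroup.coe_mul, InvMemClass.coe_inv] at h2
      have h3 : n⁻¹ * y * n = (l : G)⁻¹ * (n0⁻¹ * y * n0) * l := by rw [hn]; group
      rw [h3]; exact h2
    have hlb : ((l : G) : G ⧸ N) ∈ Pb := hL0mem l l.2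
    have hx''b : ((n⁻¹ * x * n : G) : G ⧸ N) = (x' : G ⧸ N) := by
      have h1 : ((n⁻¹ * x * n : G) : G ⧸ N) =
          ((l : G) : G ⧸ N)⁻¹ * ((n0 : G ⧸ N)⁻¹ * (x : G ⧸ N) * (n0 : G ⧸ N)) * ((l : G) : G ⧸ N) := by
        rw [hn]
        simp [mul_assoc]
      rw [h1, ← hnbx, mul_assoc, hPbcomm _ hx'b _ hlb, ← mul_assoc, inv_mul_cancel, one_mul]
    have ha0N : x'⁻¹ * (n⁻¹ * x * n) ∈ N := QuotientGroup.eq.mp hx''b.symm
    have ha0P : x'⁻¹ * (n⁻¹ * x * n) ∈ P := mul_mem (inv_mem hx'P) (hnP x hx)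
    have hx''c : ∀ y ∈ P, y * (n⁻¹ * x * n) = (n⁻¹ * x * n) * y := by
      intro y hy
      have h1 := centralizes_inf p N hPC hN P y hy _ ha0P ha0N
      have h2 := hx'c y hy
      calc y * (n⁻¹ * x * n) = y * x' * (x'⁻¹ * (n⁻¹ * x * n)) := by group
        _ = x' * (y * (x'⁻¹ * (n⁻¹ * x * n))) := by rw [h2, mul_assoc]
        _ = x' * ((x'⁻¹ * (n⁻¹ * x * n)) * y) := by rw [h1]
        _ = (n⁻¹ * x * n) * y := by group
    intro y hy
    have h1 := hx''c _ (hnP y hy)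
    have h2 : n⁻¹ * (y * x) * n = n⁻¹ * (x * y) * n := by
      calc n⁻¹ * (y * x) * n = (n⁻¹ * y * n) * (n⁻¹ * x * n) := by group
        _ = (n⁻¹ * x * n) * (n⁻¹ * y * n) := h1
        _ = n⁻¹ * (x * y) * n := by group
    exact (mul_left_cancel (mul_right_cancel h2)).symm
  exact ⟨⟨fun u v => Subtype.ext (key u u.2 v v.2)⟩⟩

end Cfsg.Agent.S4354
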