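import Cfsg.Statements.S4370
import Cfsg.Agent.Lib_helper7_RankTwo
import Cfsg.Agent.S0016
import Cfsg.Agent.Lib_helper1_Wielandt

set_option autoImplicit false
open Cfsg

namespace Cfsg.Agent.S4370

open Subgroup in
theorem zmod_two_mul {n : ℕ} [NeZero n] (j : ZMod (2 * n)) (h : j + j = 0) :
    j = 0 ∨ j = (n : ZMod (2 * n)) := by
  have h1 : ((2 * j.val : ℕ) : ZMod (2 * n)) = 0 := by
    push_cast
    rw [ZMod.natCast_zmod_val]
    calc (2 : ZMod (2 * n)) * j = j + j := two_mul j
      _ = 0 := h
  rw [ZMod.natCast_eq_zero_iff] at h1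
  have h2 : n ∣ j.val := Nat.dvd_of_mul_dvd_mul_left (by norm_num) h1
  obtain ⟨t, ht⟩ := h2
  have h3 : j.val < 2 * n := ZMod.val_lt j
  have hn : 0 < n := Nat.pos_of_ne_zero (NeZero.ne n)
  have ht2 : t < 2 := by
    by_contra hh
    push Not at hh
    have : n * 2 ≤ n * t := Nat.mul_le_mul_left n hh
    omega
  have hj : j = ((j.val : ℕ) : ZMod (2 * n)) := (ZMod.natCast_zmod_val j).symm
  interval_cases t
  · left; rw [hj, ht]; simp
  · right; rw [hj, ht]; simp

open Subgroup QuaternionGroup in
theorem isCyclic_centralizer_quaternion {n : ℕ} [NeZero n] (q : QuaternionGroup n)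
    (hq : q ∉ center (QuaternionGroup n)) :
    IsCyclic (centralizer ({q} : Set (QuaternionGroup n))) := by
  rcases q with i | i
  · apply Subgroup.isCyclic_of_le (H' := zpowers (QuaternionGroup.a 1))
    intro c hc
    rw [mem_centralizer_singleton_iff] at hc
    rcases c with j | j
    · refine ⟨(j.val : ℤ), ?_⟩
      show (a 1 : QuaternionGroup n) ^ ((j.val : ℕ) : ℤ) = a j
      rw [zpow_natCast, a_one_pow, ZMod.natCast_zmod_val]
    · exfalso
      apply hq
      rw [xa_mul_a, a_mul_xa, xa.injEq] at hc
      have hi : i = -i := by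
        have := add_left_cancel (hc.trans (sub_eq_add_neg j i))
        exact this
      rw [mem_center_iff]
      rintro (k | k)
      · rw [a_mul_a, a_mul_a, add_comm]
      · rw [xa_mul_a, a_mul_xa, sub_eq_add_neg, ← hi]
  · apply Subgroup.isCyclic_of_le (H' := zpowers (QuaternionGroup.xa i))
    intro c hc
    rw [mem_centralizer_singleton_iff] at hc
    have hsq : (a (n : ZMod (2 * n)) : QuaternionGroup n) ∈ zpowers (xa i) := by
      rw [← xa_sq i]; exact pow_mem (mem_zpowers _) 2
    rcases c with j | j
    · rw [xa_mul_a, a_mul_xa, xa.injEq] at hc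
      have hj : j + j = 0 := by
        have h1 : -j = j := add_left_cancel ((sub_eq_add_neg i j).symm.trans hc)
        calc j + j = -j + j := by rw [h1]
          _ = 0 := neg_add_cancel j
      rcases zmod_two_mul j hj with rfl | rfl
      · rw [a_zero]; exact one_mem _
      · exact hsq
    · rw [xa_mul_xa, xa_mul_xa, a.injEq] at hc
      have hj : (j - i) + (j - i) = 0 := by
        have h1 : i - j = j - i := by
          have h2 : (n : ZMod (2 * n)) + (i - j) = (n : ZMod (2 * n)) + (j - i) := by
            rw [← add_sub_assoc, ← add_sub_assoc]; exact hc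
          exact add_left_cancel h2
        calc (j - i) + (j - i) = (i - j) + (j - i) := by rw [h1]
          _ = 0 := by ring
      rcases zmod_two_mul (j - i) hj with h | h
      · rw [sub_eq_zero] at h
        rw [h]; exact mem_zpowers _
      · have hj' : j = i + n := by rw [← h]; ring
        rw [hj', ← xa_mul_a]
        exact mul_mem (mem_zpowers _) hsq

/-- Let G be a finite non-abelian nilpotent group. Then the centralizer of every non-central element of G is cyclic if and only if G is isomorphic to the direct product of a generalized quaternion group and a cyclic group of odd order. -/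
theorem result {G : Type*} [Group G] [Finite G] (hG : Group.IsNilpotent G)
    (hna : ¬ IsMulCommutative G) :
    (∀ x : G, x ∉ Subgroup.center G → IsCyclic (Subgroup.centralizer ({x} : Set G))) ↔
      ∃ (k m : ℕ), 1 ≤ k ∧ Odd m ∧ Nonempty (G ≃* QuaternionGroup (2 ^ k) × Multiplicative (ZMod m)) := by
  haveI := hG
  constructor
  · intro hcent
    obtain ⟨p, hp, P, hPna⟩ : ∃ (p : ℕ) (_ : Fact p.Prime) (P : Sylow p G),
        ¬ IsMulCommutative (P : Subgroup G) := by
      by_contra hall
      push Not at hall
      apply hna
      obtain ⟨e⟩ := ((Group.isNilpotent_of_finite_tfae (G := G)).out 0 4).mp hG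
      refine ⟨⟨fun a b => ?_⟩⟩
      apply e.symm.injective
      rw [map_mul, map_mul]
      funext q Q
      haveI : Fact (q : ℕ).Prime := ⟨Nat.prime_of_mem_primeFactors q.2⟩
      exact (hall q inferInstance Q).is_comm.comm _ _
    haveI := hp
    have hpp := hp.out
    have hcop : Nat.Coprime (Nat.card (P : Subgroup G)) (P : Subgroup G).index :=
      Sylow.card_coprime_index P
    obtain ⟨K, hK⟩ := Subgroup.exists_right_complement'_of_coprime hcop
    have hcardmul := hK.card_mul_card
    have hKcard : Nat.card K = (P : Subgroup G).index := by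
      have h1 := Subgroup.card_mul_index (P : Subgroup G)
      rw [← hcardmul] at h1
      exact (Nat.eq_of_mul_eq_mul_left Nat.card_pos h1).symm
    have hKidx : K.index = Nat.card (P : Subgroup G) := by
      have h1 := Subgroup.card_mul_index K
      rw [← hcardmul, mul_comm] at h1
      exact Nat.eq_of_mul_eq_mul_right Nat.card_pos h1
    have hKn : K.Normal := H1.hall_normal_of_nilpotent K (by rw [hKcard, hKidx]; exact hcop.symm)
    have hPn : (P : Subgroup G).Normal := inferInstance
    have hcomm : ∀ a ∈ (P : Subgroup G), ∀ b ∈ K, Commute a b := fun a ha b hb =>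
      Subgroup.commute_of_normal_of_disjoint _ _ hPn hKn hK.disjoint a b ha hb
    obtain ⟨u, huP, v, hvP, huv⟩ : ∃ u ∈ (P : Subgroup G), ∃ v ∈ (P : Subgroup G),
        u * v ≠ v * u := by
      by_contra hall
      push Not at hall
      apply hPna
      refine ⟨⟨fun a b => ?_⟩⟩
      apply Subtype.ext
      exact hall a a.2 b b.2
    have huZ : u ∉ Subgroup.center G := by
      intro h
      exact huv (Subgroup.mem_center_iff.1 h v).symm
    have hKcyc : IsCyclic K := by
      haveI := hcent u huZ
      apply Subgroup.isCyclic_of_le (H' := Subgroup.centralizer ({u} : Set G))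
      intro b hb
      rw [Subgroup.mem_centralizer_singleton_iff]
      exact (hcomm u huP b hb).symm
    have huniq : ∀ H L : Subgroup (P : Subgroup G), Nat.card H = p → Nat.card L = p → H = L := by
      intro H L hH hL
      by_contra hne
      obtain ⟨E, hE1, hE2, hE3⟩ := H7.exists_elemAb_sq_of_two_subgroups P.2 hH hL hne
      have hE2' : ∀ a ∈ E.map (P : Subgroup G).subtype, ∀ b ∈ E.map (P : Subgroup G).subtype,
          a * b = b * a := by
        rintro _ ⟨a, ha, rfl⟩ _ ⟨b, hb, rfl⟩
        exact congrArg (fun t : (P : Subgroup G) => (t : G)) (hE2 a ha b hb)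
      obtain ⟨x, hxZ, hxE⟩ : ∃ x, x ∉ Subgroup.center G ∧
          E.map (P : Subgroup G).subtype ≤ Subgroup.centralizer ({x} : Set G) := by
        by_cases h : ∀ e ∈ E.map (P : Subgroup G).subtype, e ∈ Subgroup.center G
        · refine ⟨u, huZ, ?_⟩
          intro e he
          rw [Subgroup.mem_centralizer_singleton_iff]
          exact (Subgroup.mem_center_iff.1 (h e he) u).symm
        · push Not at h
          obtain ⟨e, he, heZ⟩ := h
          refine ⟨e, heZ, ?_⟩
          intro f hf
          rw [Subgroup.mem_centralizer_singleton_iff]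
          exact hE2' f hf e he
      haveI := hcent x hxZ
      have hEcyc : IsCyclic (E.map (P : Subgroup G).subtype) := Subgroup.isCyclic_of_le hxE
      obtain ⟨g, hg⟩ := hEcyc.exists_ofOrder_eq_natCard
      rw [Subgroup.card_map_of_injective (P : Subgroup G).subtype_injective, hE1] at hg
      obtain ⟨g0, hg0, hg1⟩ := g.2
      have hgp : g ^ p = 1 := by
        apply Subtype.ext
        show (g : G) ^ p = 1
        rw [← hg1]
        exact congrArg (fun t : (P : Subgroup G) => (t : G)) (hE3 g0 hg0)
      rw [← orderOf_dvd_iff_pow_eq_one, hg] at hgp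
      have h1 := Nat.le_of_dvd hpp.pos hgp
      have h2 : p < p ^ 2 := by rw [pow_two]; nlinarith [hpp.one_lt]
      omega
    rcases S0016.result p P.2 huniq with hc | ⟨rfl, n, ⟨eQ⟩⟩
    · exact absurd hc.isMulCommutative hPna
    · haveI : NeZero (2 ^ n) := ⟨by positivity⟩
      have hPcard : Nat.card (P : Subgroup G) = 4 * 2 ^ n := by
        rw [Nat.card_congr eQ.toEquiv, Nat.card_eq_fintype_card, QuaternionGroup.card]
      have hn1 : 1 ≤ n := by
        by_contra h
        have : n = 0 := by omega
        subst this
        apply hPna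
        exact IsPGroup.isMulCommutative_of_card_eq_prime_sq (p := 2) (by rw [hPcard]; norm_num)
      refine ⟨n, Nat.card K, hn1, ?_, ?_⟩
      · rw [← Nat.coprime_two_left, hKcard]
        exact Nat.Coprime.coprime_dvd_left (by rw [hPcard]; exact Dvd.intro (2 * 2 ^ n) (by ring)) hcop
      · let f : ↥(P : Subgroup G) × ↥K →* G :=
          MonoidHom.noncommCoprod (P : Subgroup G).subtype K.subtype
            (fun a b => hcomm a a.2 b b.2)
        have hf : Function.Bijective f := hK
        exact ⟨(MulEquiv.ofBijective f hf).symm.trans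
          (MulEquiv.prodCongr eQ (zmodCyclicMulEquiv hKcyc).symm)⟩
  · rintro ⟨k, m, hk, hm, ⟨e⟩⟩ x hx
    haveI : NeZero (2 ^ k) := ⟨by positivity⟩
    have hq : (e x).1 ∉ Subgroup.center (QuaternionGroup (2 ^ k)) := by
      intro hq
      apply hx
      rw [Subgroup.mem_center_iff]
      intro g
      apply e.injective
      rw [map_mul, map_mul]
      apply Prod.ext
      · exact Subgroup.mem_center_iff.1 hq (e g).1
      · exact mul_comm _ _
    haveI hcyc := isCyclic_centralizer_quaternion (e x).1 hq
    let f1 : Subgroup.centralizer ({x} : Set G) →*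
        Subgroup.centralizer ({(e x).1} : Set (QuaternionGroup (2 ^ k))) :=
      ((MonoidHom.fst (QuaternionGroup (2 ^ k)) (Multiplicative (ZMod m))).comp
        (e.toMonoidHom.comp (Subgroup.centralizer ({x} : Set G)).subtype)).codRestrict _ (by
        intro g
        rw [Subgroup.mem_centralizer_singleton_iff]
        have h1 := Subgroup.mem_centralizer_singleton_iff.1 g.2
        have h2 := congrArg (fun t => (e t).1) h1
        simpa using h2)
    let f2 : Subgroup.centralizer ({x} : Set G) →* Multiplicative (ZMod m) :=
      (MonoidHom.snd (QuaternionGroup (2 ^ k)) (Multiplicative (ZMod m))).comp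
        (e.toMonoidHom.comp (Subgroup.centralizer ({x} : Set G)).subtype)
    haveI : IsCyclic (Subgroup.centralizer ({(e x).1} : Set (QuaternionGroup (2 ^ k))) ×
        Multiplicative (ZMod m)) := by
      rw [Group.isCyclic_prod_iff]
      refine ⟨hcyc, inferInstance, ?_⟩
      have h1 : Nat.card (Subgroup.centralizer ({(e x).1} : Set (QuaternionGroup (2 ^ k)))) ∣
          2 ^ (k + 2) := by
        have := Subgroup.card_subgroup_dvd_card
          (Subgroup.centralizer ({(e x).1} : Set (QuaternionGroup (2 ^ k))))
        rw [Nat.card_eq_fintype_card (α := QuaternionGroup (2 ^ k)), QuaternionGroup.card] at this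
        have e2 : 2 ^ (k + 2) = 4 * 2 ^ k := by ring
        rw [e2]; exact this
      have h2 : Nat.card (Multiplicative (ZMod m)) = m := by
        rw [Nat.card_congr Multiplicative.toAdd, Nat.card_zmod]
      rw [h2]
      exact Nat.Coprime.coprime_dvd_left h1 (Nat.Coprime.pow_left _ (Nat.coprime_two_left.2 hm))
    apply isCyclic_of_injective (f1.prod f2)
    intro g h hgh
    apply Subtype.ext
    apply e.injective
    have h1 : (e g).1 = (e h).1 := congrArg (fun t => (t.1 : QuaternionGroup (2 ^ k))) hgh
    have h2 : (e g).2 = (e h).2 := congrArg (fun t => t.2) hgh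
    exact Prod.ext h1 h2

end Cfsg.Agent.S4370
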