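import Cfsg.Statements.S4377


set_option autoImplicit false
open Cfsg

namespace Cfsg.Agent.S4377

theorem sum_eq {G : Type*} [Group G] [Finite G] {n : ℕ} (hn : n ≠ 0) :
    ∑ m ∈ n.divisors, Nat.card {g : G // orderOf g = m} = Nat.card {g : G // g ^ n = 1} := by
  classical
  have := Fintype.ofFinite G
  have h := sum_card_orderOf_eq_card_pow_eq_one (G := G) hn
  simp only [Nat.card_eq_fintype_card, Fintype.card_subtype]
  exact h

/-- Two finite groups have the same number of elements of each order if and only if, for every n, they have the same number of elements g with gⁿ = 1. -/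
theorem result {G H : Type*} [Group G] [Finite G] [Group H] [Finite H] :
    (∀ n : ℕ, Nat.card {g : G // orderOf g = n} = Nat.card {h : H // orderOf h = n}) ↔
      ∀ n : ℕ, Nat.card {g : G // g ^ n = 1} = Nat.card {h : H // h ^ n = 1} := by
  classical
  constructor
  · intro h
    have hpos : ∀ n : ℕ, n ≠ 0 → Nat.card {g : G // g ^ n = 1} = Nat.card {h : H // h ^ n = 1} := by
      intro n hn
      rw [← sum_eq hn, ← sum_eq hn]
      exact Finset.sum_congr rfl (fun m _ => h m)
    intro n
    by_cases hn : n = 0
    · subst hn
      have h1 := hpos (Nat.card G * Nat.card H) (Nat.mul_ne_zero Nat.card_pos.ne' Nat.card_pos.ne')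
      have hG' : ∀ (m : ℕ), Nat.card G ∣ m → Nat.card {g : G // g ^ m = 1} = Nat.card G := by
        intro m hm
        apply Nat.card_congr
        refine Equiv.subtypeUnivEquiv (fun g => ?_)
        obtain ⟨c, rfl⟩ := hm
        rw [pow_mul, pow_card_eq_one', one_pow]
      have hH' : ∀ (m : ℕ), Nat.card H ∣ m → Nat.card {g : H // g ^ m = 1} = Nat.card H := by
        intro m hm
        apply Nat.card_congr
        refine Equiv.subtypeUnivEquiv (fun g => ?_)
        obtain ⟨c, rfl⟩ := hm
        rw [pow_mul, pow_card_eq_one', one_pow]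
      rw [hG' _ (dvd_mul_right _ _), hH' _ (dvd_mul_left _ _)] at h1
      rw [hG' 0 (dvd_zero _), hH' 0 (dvd_zero _), h1]
    · exact hpos n hn
  · intro h n
    induction n using Nat.strong_induction_on with
    | _ n ih =>
      by_cases hn : n = 0
      · subst hn
        have h1 : IsEmpty {g : G // orderOf g = 0} := ⟨fun g => (orderOf_pos g.1).ne' g.2⟩
        have h2 : IsEmpty {g : H // orderOf g = 0} := ⟨fun g => (orderOf_pos g.1).ne' g.2⟩
        rw [Nat.card_of_isEmpty, Nat.card_of_isEmpty]
      · have h1 := h n
        rw [← sum_eq hn, ← sum_eq hn, ← Nat.cons_self_properDivisors hn, Finset.sum_cons, Finset.sum_cons] at h1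
        have h2 : ∑ m ∈ n.properDivisors, Nat.card {g : G // orderOf g = m} = ∑ m ∈ n.properDivisors, Nat.card {g : H // orderOf g = m} :=
          Finset.sum_congr rfl (fun m hm => ih m (Nat.mem_properDivisors.mp hm).2)
        omega

end Cfsg.Agent.S4377
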