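import Cfsg.Statements.S4387
import Cfsg.Agent.Lib_helper3_Sylow2

set_option autoImplicit false
open Pointwise
open Cfsg

namespace Cfsg.Agent.S4387

open scoped Pointwise

/-- Let G be a non-trivial finite group in which any two maximal subgroups are conjugate. Then G is cyclic of prime-power order. -/
theorem result {G : Type*} [Group G] [Finite G] [Nontrivial G]
    (h : ∀ M N : Subgroup G, IsCoatom M → IsCoatom N → ∃ g : G, N = MulAut.conj g • M) :
    IsCyclic G ∧ IsPrimePow (Nat.card G) := by
  classical
  have hbt : (⊥ : Subgroup G) ≠ ⊤ := bot_ne_top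
  obtain ⟨M, hM, -⟩ := (eq_top_or_exists_le_coatom (⊥ : Subgroup G)).resolve_left hbt
  have hall : ∀ K : Subgroup G, K ≠ ⊤ → ∃ g : G, K ≤ MulAut.conj g • M := by
    intro K hK
    obtain ⟨N, hN, hKN⟩ := (eq_top_or_exists_le_coatom K).resolve_left hK
    obtain ⟨g, hg⟩ := h M N hM hN
    exact ⟨g, hg ▸ hKN⟩
  constructor
  · obtain ⟨g, hg⟩ := H3.exists_not_mem_conj M hM.1
    have htop : Subgroup.zpowers g = ⊤ := by
      by_contra hne
      obtain ⟨a, ha⟩ := hall _ hne
      have := ha (Subgroup.mem_zpowers g)
      rw [H3.mem_conj_smul_iff] at this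
      exact hg a this
    exact ⟨g, fun x => (htop ▸ Subgroup.mem_top x : x ∈ Subgroup.zpowers g)⟩
  · by_contra hnpp
    have hidx : M.index = 1 := by
      rw [Nat.eq_one_iff_not_exists_prime_dvd]
      intro r hr hrM
      have : Fact r.Prime := ⟨hr⟩
      obtain ⟨P⟩ := (inferInstance : Nonempty (Sylow r G))
      have hPtop : (P : Subgroup G) ≠ ⊤ := by
        intro htop
        apply hnpp
        obtain ⟨n, hn⟩ := IsPGroup.iff_card.mp P.isPGroup'
        rw [htop, Subgroup.card_top] at hn
        rw [hn]
        have hn0 : n ≠ 0 := by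
          rintro rfl
          rw [pow_zero] at hn
          have := Finite.one_lt_card (α := G)
          omega
        exact hr.isPrimePow.pow hn0
      obtain ⟨a, ha⟩ := hall _ hPtop
      have h1 : (MulAut.conj a • M).index = M.index := H3.index_conj_smul _ _
      have h2 : M.index ∣ (P : Subgroup G).index := h1 ▸ Subgroup.index_dvd_of_le ha
      exact P.not_dvd_index (hrM.trans h2)
    exact hM.1 (Subgroup.index_eq_one.mp hidx)

end Cfsg.Agent.S4387
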