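import Cfsg.Statements.S4399
import Cfsg.Agent.Lib_helper7_MaxClass2

set_option autoImplicit false
open Cfsg

namespace Cfsg.Agent.S4399

/-- Let S be a finite 2-group whose commutator quotient S/[S,S] is a Klein four-group (order 4 and exponent 2). Then S itself has order 4, or S is dihedral of order at least 8, semidihedral of order at least 16 (order 2^(k+4) with an element a of order 2^(k+3) and an involution b with b a b⁻¹ = a^(2^(k+2)−1)), or generalized quaternion of order at least 8. -/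
theorem result {S : Type*} [Group S] [Finite S] (h2 : IsPGroup 2 S) (hab : Nat.card (Abelianization S) = 4)
    (hexp : ∀ x : Abelianization S, x ^ 2 = 1) :
    Nat.card S = 4 ∨
    ((∃ k : ℕ, Nonempty (S ≃* DihedralGroup (2 ^ (k + 2)))) ∨
      (∃ k : ℕ, Nat.card S = 2 ^ (k + 4) ∧ ∃ a b : S, orderOf a = 2 ^ (k + 3) ∧ orderOf b = 2 ∧ b * a * b⁻¹ = a ^ (2 ^ (k + 2) - 1)) ∨
      (∃ k : ℕ, Nonempty (S ≃* QuaternionGroup (2 ^ (k + 1))))) := by
  have hidx : (commutator S).index = 4 := hab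
  obtain ⟨n, hn⟩ := h2.exists_card_eq
  have hdvd : 4 ∣ 2 ^ n := by rw [← hn, ← hidx]; exact Subgroup.index_dvd_card _
  have hn2 : 2 ≤ n := by
    by_contra h
    have : n = 0 ∨ n = 1 := by omega
    rcases this with rfl | rfl <;> norm_num at hdvd
  by_cases hn3 : n = 2
  · left; rw [hn, hn3]; norm_num
  right
  obtain ⟨k, rfl⟩ : ∃ k, n = k + 2 + 1 := ⟨n - 3, by omega⟩
  obtain ⟨a, y, hord, hy, h⟩ := H7.maxclass_structure (m := k + 2) (by omega) hn hidx
  rcases h with ⟨h1, h3⟩ | ⟨h1, h3⟩ | ⟨hm, h1, h3⟩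
  · left
    exact ⟨k, H7.dihedral_iso _ a y hord h1 h3 (by rw [hn]; ring) hy⟩
  · right; right
    refine ⟨k, H7.quaternion_iso _ (by positivity) a y (by rw [hord]; ring) h1 h3
      (by rw [hn]; ring) hy⟩
  · right; left
    obtain ⟨j, rfl⟩ : ∃ j, k = j + 1 := ⟨k - 1, by omega⟩
    refine ⟨j, hn, a, y, hord, ?_, h1⟩
    apply orderOf_eq_prime h3
    rintro rfl
    exact hy (one_mem _)

end Cfsg.Agent.S4399
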