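import Cfsg.Statements.S4403
import Mathlib
import Cfsg.Agent.Lib_helper1_AbSylow
import Cfsg.Agent.Lib_helper5_SEF
import Cfsg.Agent.S0082
import Cfsg.Agent.Lib_helper1_Coprime

set_option autoImplicit false
open Cfsg

namespace Cfsg.Agent.S4403

theorem caseA {K : Type*} [Group K] [Finite K] (p : ℕ) [Fact p.Prime]
    (hO : Cfsg.pPrimeCore p K = ⊥) (P : Sylow p K) (hP : IsCyclic ↥(P : Subgroup K))
    (Z : Subgroup K) (hZn : Z.Normal) (hZP : Z ≤ P) (hZc : Nat.card Z = p) :
    (P : Subgroup K) = Subgroup.centralizer (Z : Set K) := by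
  have hp : p.Prime := Fact.out
  have hcomm : ∀ a ∈ (P : Subgroup K), ∀ b ∈ (P : Subgroup K), a * b = b * a := by
    intro a ha b hb
    have := hP.isMulCommutative.is_comm.comm ⟨a, ha⟩ ⟨b, hb⟩
    exact congrArg Subtype.val this
  have hPC : (P : Subgroup K) ≤ Subgroup.centralizer (Z : Set K) := by
    intro x hx
    rw [Subgroup.mem_centralizer_iff]
    intro z hz
    exact hcomm z (hZP hz) x hx
  obtain ⟨C, hC⟩ : ∃ C : Subgroup K, C = Subgroup.centralizer (Z : Set K) := ⟨_, rfl⟩
  have hCn : C.Normal := by rw [hC]; infer_instance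
  rw [← hC] at hPC ⊢
  obtain ⟨P', hP'⟩ : ∃ P' : Sylow p C, P' = P.subtype hPC := ⟨_, rfl⟩
  have hP'c : (P' : Subgroup C) = (P : Subgroup K).subgroupOf C := by rw [hP']; rfl
  have hcyc' : IsCyclic ↥(P' : Subgroup C) := by
    rw [hP'c]
    exact (Subgroup.subgroupOfEquivOfLe hPC).isCyclic.2 hP
  have hmc' : IsMulCommutative ↥(P' : Subgroup C) := hcyc'.isMulCommutative
  have d1 := H1.abelian_sylow_decomp_inf P' hmc'
  have d2 := H1.abelian_sylow_decomp_sup P' hmc'
  have hZ' : Z.subgroupOf C ≤ (P' : Subgroup C) ⊓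
      Subgroup.centralizer (Subgroup.normalizer ((P' : Subgroup C) : Set C) : Set C) := by
    intro x hx
    rw [Subgroup.mem_inf]
    refine ⟨?_, ?_⟩
    · rw [hP'c]
      exact hZP hx
    · rw [Subgroup.mem_centralizer_iff]
      intro y _
      have hy : (y : K) ∈ Subgroup.centralizer (Z : Set K) := by rw [← hC]; exact y.2
      rw [Subgroup.mem_centralizer_iff] at hy
      exact Subtype.ext (hy x hx).symm
  have hZle : Z ≤ C := hZP.trans hPC
  have hZ'ne : Z.subgroupOf C ≠ ⊥ := by
    intro h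
    have h1 : Nat.card (Z.subgroupOf C) = p := by
      rw [Nat.card_congr (Subgroup.subgroupOfEquivOfLe hZle).toEquiv, hZc]
    rw [h, Subgroup.card_bot] at h1
    exact hp.one_lt.ne h1
  have hcb : ⁅(P' : Subgroup C), Subgroup.normalizer ((P' : Subgroup C) : Set C)⁆ = ⊥ := by
    rcases H1.le_total_of_cyclic_pgroup hcyc' P'.2 (inf_le_left : (P' : Subgroup C) ⊓
      Subgroup.centralizer (Subgroup.normalizer ((P' : Subgroup C) : Set C) : Set C) ≤ P')
      (le_sup_right.trans_eq d2) with h | h
    · exfalso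
      rw [inf_eq_left.2 h] at d1
      rw [d1] at hZ'
      exact hZ'ne (le_bot_iff.1 hZ')
    · rw [inf_eq_right.2 h] at d1
      exact d1
  have hN : Subgroup.normalizer ((P' : Subgroup C) : Set C) ≤
      Subgroup.centralizer ((P' : Subgroup C) : Set C) := by
    rw [Subgroup.commutator_eq_bot_iff_le_centralizer] at hcb
    exact Subgroup.le_centralizer_iff.1 hcb
  have hT := MonoidHom.ker_transferSylow_isComplement' P' hN
  obtain ⟨T, hTd⟩ : ∃ T : Subgroup C, T = (MonoidHom.transferSylow P' hN).ker := ⟨_, rfl⟩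
  have hTn : T.Normal := by rw [hTd]; infer_instance
  rw [← hTd] at hT
  have hTcop : (Nat.card T).Coprime p := by
    rw [← hT.index_eq_card, Nat.coprime_comm, Nat.Prime.coprime_iff_not_dvd hp]
    exact P'.not_dvd_index
  have hTsub : (T.map C.subtype).IsSubnormal := by
    apply H5.subnormal_of_normal_in hCn.isSubnormal (Subgroup.map_subtype_le T)
    intro c hc
    rw [Subgroup.mem_normalizer_iff]
    intro x
    constructor
    · rintro ⟨t, ht, rfl⟩
      exact ⟨⟨c, hc⟩ * t * ⟨c, hc⟩⁻¹, hTn.conj_mem t ht _, rfl⟩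
    · rintro ⟨t, ht, hte⟩
      refine ⟨⟨c, hc⟩⁻¹ * t * ⟨c, hc⟩, ?_, ?_⟩
      · have := hTn.conj_mem t ht ⟨c, hc⟩⁻¹
        simpa using this
      · simp only [Subgroup.coe_subtype, Subgroup.coe_mul, Subgroup.coe_inv] at hte ⊢
        rw [hte]
        group
  have hTbot : T = ⊥ := by
    have h1 := H5.subnormal_coprime_le_pPrimeCore p _ hTsub (by
      rw [Subgroup.card_map_of_injective C.subtype_injective]; exact hTcop)
    rw [hO, le_bot_iff] at h1
    exact (Subgroup.map_eq_bot_iff_of_injective _ C.subtype_injective).1 h1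
  rw [hTbot, Subgroup.isComplement'_bot_left, hP'c, Subgroup.subgroupOf_eq_top] at hT
  exact le_antisymm hPC hT

theorem uniq {K : Type*} [Group K] [Finite K] {p : ℕ} [Fact p.Prime] (P : Sylow p K)
    (hP : IsCyclic ↥(P : Subgroup K)) (R H₁ H₂ : Subgroup K) (hR : IsPGroup p R) (h1 : H₁ ≤ R)
    (h2 : H₂ ≤ R) (hc : Nat.card H₁ = Nat.card H₂) : H₁ = H₂ := by
  obtain ⟨S, hS⟩ := hR.exists_le_sylow
  have hSc : IsCyclic ↥(S : Subgroup K) := (P.equiv S).isCyclic.1 hP
  exact le_antisymm
    (H1.le_of_card_dvd_of_le_isCyclic hSc (h1.trans hS) (h2.trans hS) (by rw [hc]))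
    (H1.le_of_card_dvd_of_le_isCyclic hSc (h2.trans hS) (h1.trans hS) (by rw [hc]))

theorem mem_normalizer_of_map_eq {K : Type*} [Group K] (Z : Subgroup K) (n : K)
    (h : Z.map (MulAut.conj n).toMonoidHom = Z) : n ∈ Subgroup.normalizer (Z : Set K) := by
  rw [Subgroup.mem_normalizer_iff]
  intro x
  constructor
  · intro hx
    rw [← h]
    exact ⟨x, hx, rfl⟩
  · intro hx
    rw [← h] at hx
    obtain ⟨z, hz, hze⟩ := hx
    have : n * z * n⁻¹ = n * x * n⁻¹ := hze
    have h2 : z = x := by
      have h3 := mul_right_cancel this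
      exact mul_left_cancel h3
    rw [← h2]
    exact hz

theorem se_of {K : Type*} [Group K] [Finite K] {p : ℕ} [Fact p.Prime]
    (hOp : Cfsg.pCore p K = ⊥) (P : Sylow p K) (hP : IsCyclic ↥(P : Subgroup K))
    (Z : Subgroup K) (hZP : Z ≤ P) (hZc : Nat.card Z = p) :
    H7.SE p (Subgroup.normalizer (Z : Set K)) := by
  have hp : p.Prime := Fact.out
  have hZpg : IsPGroup p Z := P.2.to_le hZP
  refine ⟨?_, ?_, ?_⟩
  · intro h
    have hn : Z.Normal := Subgroup.normalizer_eq_top_iff.1 h
    have h1 := H1.le_pCore p hn hZpg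
    rw [hOp, le_bot_iff] at h1
    rw [h1, Subgroup.card_bot] at hZc
    exact hp.one_lt.ne hZc
  · rw [← hZc]
    exact Subgroup.card_dvd_of_le Subgroup.le_normalizer
  · intro A hAM hA hAne
    have hR : IsPGroup p (A ⊔ Z : Subgroup K) := IsPGroup.to_sup_of_normal_right' hA hZpg hAM
    have hpA : p ∣ Nat.card A := by
      obtain ⟨k, hk⟩ := IsPGroup.iff_card.1 hA
      rw [hk]
      apply dvd_pow_self
      rintro rfl
      rw [pow_zero] at hk
      exact hAne (Subgroup.card_eq_one.1 hk)
    obtain ⟨a, ha⟩ := exists_prime_orderOf_dvd_card' (G := A) p hpA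
    have hZA : Subgroup.zpowers (a : K) = Z := by
      apply uniq P hP _ _ _ hR _ le_sup_right
      · rw [Nat.card_zpowers, Subgroup.orderOf_coe, ha, hZc]
      · rw [Subgroup.zpowers_le]
        exact (le_sup_left : A ≤ A ⊔ Z) a.2
    have hZleA : Z ≤ A := by
      rw [← hZA, Subgroup.zpowers_le]
      exact a.2
    intro n hn
    apply mem_normalizer_of_map_eq
    apply uniq P hP A _ _ hA _ hZleA
    · rw [Subgroup.card_map_of_injective (MulAut.conj n).injective]
    · rintro _ ⟨z, hz, rfl⟩
      exact (Subgroup.mem_normalizer_iff.1 hn z).1 (hZleA hz)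

theorem not_dvd_index_of {K : Type*} [Group K] [Finite K] {p : ℕ} [Fact p.Prime] (P : Sylow p K)
    (hP : IsCyclic ↥(P : Subgroup K)) (L : Subgroup K) (hLn : L.Normal) (hLs : IsSimpleGroup L)
    (hLna : ¬ IsMulCommutative L) (hLp : p ∣ Nat.card L) : ¬ p ∣ L.index := by
  have hp : p.Prime := Fact.out
  obtain ⟨G₁, hG₁⟩ : ∃ G₁ : Subgroup K, G₁ = L ⊔ (P : Subgroup K) := ⟨_, rfl⟩
  have hPG : (P : Subgroup K) ≤ G₁ := by rw [hG₁]; exact le_sup_right
  have hLG : L ≤ G₁ := by rw [hG₁]; exact le_sup_left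
  have hcyc' : IsCyclic ↥((P.subtype hPG : Sylow p G₁) : Subgroup G₁) :=
    (Subgroup.subgroupOfEquivOfLe hPG).isCyclic.2 hP
  rcases S0082.result (P.subtype hPG) hcyc' with hc | hc
  · exfalso
    obtain ⟨P₂, T, hTn, hT⟩ := hc
    have hTcop : (Nat.card T).Coprime p := by
      rw [← hT.index_eq_card, Nat.coprime_comm, Nat.Prime.coprime_iff_not_dvd hp]
      exact P₂.not_dvd_index
    obtain ⟨T', hT'⟩ : ∃ T' : Subgroup K, T' = T.map G₁.subtype := ⟨_, rfl⟩
    have hT'card : Nat.card T' = Nat.card T := by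
      rw [hT', Subgroup.card_map_of_injective G₁.subtype_injective]
    have hT'G : T' ≤ G₁ := by rw [hT']; exact Subgroup.map_subtype_le T
    have hT'n : G₁ ≤ Subgroup.normalizer (T' : Set K) := by
      intro c hc
      rw [Subgroup.mem_normalizer_iff, hT']
      intro x
      constructor
      · rintro ⟨t, ht, rfl⟩
        exact ⟨⟨c, hc⟩ * t * ⟨c, hc⟩⁻¹, hTn.conj_mem t ht _, rfl⟩
      · rintro ⟨t, ht, hte⟩
        refine ⟨⟨c, hc⟩⁻¹ * t * ⟨c, hc⟩, ?_, ?_⟩
        · have := hTn.conj_mem t ht ⟨c, hc⟩⁻¹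
          simpa using this
        · simp only [Subgroup.coe_subtype, Subgroup.coe_mul, Subgroup.coe_inv] at hte ⊢
          rw [hte]
          group
    haveI : (T'.subgroupOf L).Normal :=
      Subgroup.normal_subgroupOf_of_le_normalizer (hLG.trans hT'n)
    rcases hLs.eq_bot_or_eq_top_of_normal (T'.subgroupOf L) inferInstance with h | h
    · rw [Subgroup.subgroupOf_eq_bot] at h
      have h1 := H1.card_sup_mul_card_inf' T' L (hLG.trans hT'n)
      rw [disjoint_iff.1 h, Subgroup.card_bot, mul_one] at h1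
      have h2 : Nat.card (T' ⊔ L : Subgroup K) ∣ Nat.card G₁ :=
        Subgroup.card_dvd_of_le (sup_le hT'G hLG)
      rw [h1, ← hT.card_mul_card, hT'card] at h2
      have h3 : Nat.card L ∣ Nat.card (P₂ : Subgroup G₁) :=
        Nat.dvd_of_mul_dvd_mul_left Nat.card_pos h2
      obtain ⟨k, hk⟩ := IsPGroup.iff_card.1 P₂.2
      rw [hk] at h3
      obtain ⟨j, -, hj⟩ := (Nat.dvd_prime_pow hp).1 h3
      have hLpg : IsPGroup p L := IsPGroup.of_card hj
      haveI : Nontrivial L := hLs.toNontrivial
      have hcn : Nontrivial (Subgroup.center L) := hLpg.center_nontrivial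
      rcases hLs.eq_bot_or_eq_top_of_normal (Subgroup.center L) inferInstance with h4 | h4
      · exact (Subgroup.nontrivial_iff_ne_bot _).1 hcn h4
      · apply hLna
        refine ⟨⟨fun a b => ?_⟩⟩
        have : b ∈ Subgroup.center L := by rw [h4]; trivial
        exact Subgroup.mem_center_iff.1 this a
    · rw [Subgroup.subgroupOf_eq_top] at h
      have h1 : Nat.card L ∣ Nat.card T' := Subgroup.card_dvd_of_le h
      rw [hT'card] at h1
      have h2 := hLp.trans h1
      exact (Nat.Prime.coprime_iff_not_dvd hp).1 hTcop.symm h2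
  · have hle : Cfsg.pResidual p G₁ ≤ L.subgroupOf G₁ := by
      unfold Cfsg.pResidual
      rw [Subgroup.closure_le]
      intro g hg
      have hg' : (orderOf g).Coprime p := hg
      change (g : K) ∈ L
      have hgm : (g : K) ∈ L ⊔ (P : Subgroup K) := by rw [← hG₁]; exact g.2
      rw [← SetLike.mem_coe, Subgroup.normal_mul] at hgm
      obtain ⟨l, hl, y, hy, hly⟩ := Set.mem_mul.1 hgm
      rw [← QuotientGroup.eq_one_iff]
      have h1 : ((g : K) : K ⧸ L) = ((y : K) : K ⧸ L) := by
        rw [← hly, QuotientGroup.mk_mul, (QuotientGroup.eq_one_iff l).2 hl, one_mul]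
      have h2 : orderOf ((g : K) : K ⧸ L) ∣ orderOf g := by
        rw [← Subgroup.orderOf_coe]
        exact orderOf_map_dvd (QuotientGroup.mk' L) (g : K)
      have h3 : orderOf ((y : K) : K ⧸ L) ∣ orderOf y := orderOf_map_dvd (QuotientGroup.mk' L) y
      obtain ⟨k, hk⟩ := IsPGroup.iff_orderOf.1 P.2 ⟨y, hy⟩
      rw [Subgroup.orderOf_mk] at hk
      rw [← h1, hk] at h3
      have h4 : (orderOf g).Coprime (p ^ k) := Nat.Coprime.pow_right k hg'
      have h5 : orderOf ((g : K) : K ⧸ L) = 1 := Nat.eq_one_of_dvd_coprimes h4 h2 h3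
      exact orderOf_eq_one_iff.1 h5
    rw [hc, top_le_iff, Subgroup.subgroupOf_eq_top] at hle
    intro hd
    exact P.not_dvd_index (hd.trans (Subgroup.index_dvd_of_le (hPG.trans hle)))

/-- Let K be a finite group, p a prime dividing its order with O_{p'}(K) = 1 (no nontrivial normal subgroup of order prime to p), and P a cyclic Sylow p-subgroup of K. Then either P is normal and self-centralizing in K with K/P cyclic of order dividing p − 1 (so K is the semidirect product of P by a group of automorphisms of P of order dividing p − 1), or the generalized Fitting subgroup F*(K) is a non-abelian simple group and p does not divide the index of F*(K) in K. -/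
theorem result {K : Type*} [Group K] [Finite K] (p : ℕ) [Fact p.Prime] (hp : p ∣ Nat.card K) (hO : Cfsg.pPrimeCore p K = ⊥)
    (P : Sylow p K) (hP : IsCyclic ↥(P : Subgroup K)) :
    ((P : Subgroup K).Normal ∧ Subgroup.centralizer ((P : Subgroup K) : Set K) = (P : Subgroup K) ∧
      (∀ (_ : (P : Subgroup K).Normal), IsCyclic (K ⧸ (P : Subgroup K))) ∧ (P : Subgroup K).index ∣ p - 1) ∨
    (IsSimpleGroup ↥(Cfsg.generalizedFittingSubgroup K) ∧ ¬ IsMulCommutative ↥(Cfsg.generalizedFittingSubgroup K) ∧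
      ¬ p ∣ (Cfsg.generalizedFittingSubgroup K).index) := by
  have hp' : p.Prime := Fact.out
  have hpP : p ∣ Nat.card (P : Subgroup K) := by
    have h1 := P.ne_bot_of_dvd_card hp
    obtain ⟨k, hk⟩ := IsPGroup.iff_card.1 P.2
    rw [hk]
    apply dvd_pow_self
    rintro rfl
    rw [pow_zero] at hk
    exact h1 (Subgroup.card_eq_one.1 hk)
  obtain ⟨z, hz⟩ := exists_prime_orderOf_dvd_card' (G := (P : Subgroup K)) p hpP
  obtain ⟨Z, hZ⟩ : ∃ Z : Subgroup K, Z = Subgroup.zpowers (z : K) := ⟨_, rfl⟩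
  have hZP : Z ≤ P := by rw [hZ, Subgroup.zpowers_le]; exact z.2
  have hZc : Nat.card Z = p := by rw [hZ, Nat.card_zpowers, Subgroup.orderOf_coe, hz]
  by_cases hOp : Cfsg.pCore p K = ⊥
  · right
    have hSE := se_of hOp P hP Z hZP hZc
    obtain ⟨hs, hna⟩ := H5.genFitting_simple_of_SE hO hSE
    refine ⟨hs, hna, ?_⟩
    have hn : (Cfsg.generalizedFittingSubgroup K).Normal := H5.genFitting_normal
    apply not_dvd_index_of P hP _ hn hs hna
    by_contra hnd
    have h1 : Cfsg.generalizedFittingSubgroup K ≤ Cfsg.pPrimeCore p K :=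
      le_sSup ⟨hn, ((Nat.Prime.coprime_iff_not_dvd hp').2 hnd).symm⟩
    rw [hO, le_bot_iff] at h1
    haveI := hs.toNontrivial
    exact (Subgroup.nontrivial_iff_ne_bot _).1 inferInstance h1
  · left
    have hQn : (Cfsg.pCore p K).Normal := H1.pCore_normal p
    have hQp : IsPGroup p (Cfsg.pCore p K) := H1.pCore_isPGroup p
    have hQP : Cfsg.pCore p K ≤ P := by
      have h3 : IsPGroup p ((P : Subgroup K) ⊔ Cfsg.pCore p K : Subgroup K) :=
        IsPGroup.to_sup_of_normal_right P.2 hQp
      have h4 := P.3 h3 le_sup_left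
      rw [← h4]
      exact le_sup_right
    have hpQ : p ∣ Nat.card (Cfsg.pCore p K) := by
      obtain ⟨k, hk⟩ := IsPGroup.iff_card.1 hQp
      rw [hk]
      apply dvd_pow_self
      rintro rfl
      rw [pow_zero] at hk
      exact hOp (Subgroup.card_eq_one.1 hk)
    obtain ⟨a, ha⟩ := exists_prime_orderOf_dvd_card' (G := Cfsg.pCore p K) p hpQ
    have hZA : Subgroup.zpowers (a : K) = Z := by
      apply uniq P hP _ _ _ P.2 _ hZP
      · rw [Nat.card_zpowers, Subgroup.orderOf_coe, ha, hZc]
      · rw [Subgroup.zpowers_le]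
        exact hQP a.2
    have hZQ : Z ≤ Cfsg.pCore p K := by
      rw [← hZA, Subgroup.zpowers_le]
      exact a.2
    have hZn : Z.Normal := by
      rw [← Subgroup.normalizer_eq_top_iff, eq_top_iff]
      intro n _
      apply mem_normalizer_of_map_eq
      apply uniq P hP _ _ _ hQp _ hZQ
      · rw [Subgroup.card_map_of_injective (MulAut.conj n).injective]
      · rintro _ ⟨y, hy, rfl⟩
        exact hQn.conj_mem y (hZQ hy) n
    have hPC := caseA p hO P hP Z hZn hZP hZc
    have hPn : (P : Subgroup K).Normal := by rw [hPC]; infer_instance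
    have hcomm : ∀ a ∈ (P : Subgroup K), ∀ b ∈ (P : Subgroup K), a * b = b * a := by
      intro a ha b hb
      have := hP.isMulCommutative.is_comm.comm ⟨a, ha⟩ ⟨b, hb⟩
      exact congrArg Subtype.val this
    haveI : Fact (Nat.card Z).Prime := ⟨by rw [hZc]; exact hp'⟩
    haveI hZcyc : IsCyclic Z := isCyclic_of_prime_card rfl
    have hker : ∀ x : K, MulAut.conjNormal x = (1 : MulAut Z) ↔ x ∈ (P : Subgroup K) := by
      intro x
      rw [hPC, Subgroup.mem_centralizer_iff]
      constructor
      · intro h y hy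
        have h1 := congrArg Subtype.val (DFunLike.congr_fun h (⟨y, hy⟩ : Z))
        rw [MulAut.conjNormal_apply] at h1
        have h2 : x * y * x⁻¹ = y := h1
        rw [mul_inv_eq_iff_eq_mul] at h2
        exact h2.symm
      · intro h
        ext y
        rw [MulAut.conjNormal_apply]
        have := h y y.2
        rw [← this, mul_inv_cancel_right]
        rfl
    have hAutc : IsCyclic (MulAut Z) := by
      have e := IsCyclic.mulAutMulEquiv Z
      exact e.isCyclic.2 inferInstance
    have hinj : Function.Injective (QuotientGroup.lift (P : Subgroup K)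
        (MulAut.conjNormal : K →* MulAut Z) (fun x hx => (hker x).2 hx)) := by
      rw [injective_iff_map_eq_one]
      intro q
      induction q using QuotientGroup.induction_on with
      | H x =>
        intro h
        have h' : (MulAut.conjNormal x : MulAut Z) = 1 := h
        exact (QuotientGroup.eq_one_iff x).2 ((hker x).1 h')
    refine ⟨hPn, ?_, ?_, ?_⟩
    · apply le_antisymm
      · conv_rhs => rw [hPC]
        exact Subgroup.centralizer_le hZP
      · intro x hx
        rw [Subgroup.mem_centralizer_iff]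
        intro y hy
        exact hcomm y hy x hx
    · intro _
      exact isCyclic_of_injective _ hinj
    · have h1 := Subgroup.card_dvd_of_injective _ hinj
      rw [IsCyclic.card_mulAut, hZc, Nat.totient_prime hp'] at h1
      exact h1

end Cfsg.Agent.S4403
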