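import Cfsg.Statements.S4420
import Mathlib

set_option autoImplicit false
open Cfsg

namespace Cfsg.Agent.S4420

/-- Structure of groups in which every element outside some proper subgroup has square 1. Let H be a finite group with a proper subgroup A such that every element outside A has square 1. Then H has an abelian normal subgroup B of index 2 such that every element outside B is an involution inverting every element of B; and if H is not an elementary abelian 2-group, B is the only abelian normal subgroup of index 2 with this property. -/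
theorem result {H : Type*} [Group H] [Finite H] (A : Subgroup H) (hA : A ≠ ⊤) (hD : ∀ x : H, x ∉ A → x ^ 2 = 1) :
    ∃ B : Subgroup H, B.Normal ∧ IsMulCommutative ↥B ∧ B.index = 2 ∧
      (∀ x : H, x ∉ B → x ^ 2 = 1 ∧ ∀ b ∈ B, x * b * x⁻¹ = b⁻¹) ∧
      (¬ (IsMulCommutative H ∧ ∀ x : H, x ^ 2 = 1) →
        ∀ B' : Subgroup H, B'.Normal → IsMulCommutative ↥B' → B'.index = 2 →
          (∀ x : H, x ∉ B' → x ^ 2 = 1 ∧ ∀ b ∈ B', x * b * x⁻¹ = b⁻¹) → B' = B) := by
  classical
  obtain ⟨x0, hx0⟩ : ∃ x : H, x ∉ A := by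
    by_contra hcon
    push Not at hcon
    exact hA (eq_top_iff.2 fun x _ => hcon x)
  have hinvself : ∀ x : H, x ^ 2 = 1 → x⁻¹ = x := by
    intro x hx
    exact inv_eq_of_mul_eq_one_left (by rw [← pow_two]; exact hx)
  have hinv : ∀ x : H, x ∉ A → ∀ a ∈ A, x * a * x⁻¹ = a⁻¹ := by
    intro x hx a ha
    have hxa : x * a ∉ A := by
      intro h
      apply hx
      have := A.mul_mem h (A.inv_mem ha)
      rwa [mul_inv_cancel_right] at this
    have h1 := hD _ hxa
    rw [hinvself x (hD x hx)]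
    apply eq_inv_of_mul_eq_one_left
    rw [← h1, pow_two]; group
  by_cases hexp : ∀ x : H, x ^ 2 = 1
  · -- elementary abelian case
    have hcomm : ∀ a b : H, a * b = b * a := by
      intro a b
      have h1 := hexp (a * b)
      have h2 : a * b = (a * b)⁻¹ := (hinvself _ h1).symm
      rw [h2, mul_inv_rev, hinvself a (hexp a), hinvself b (hexp b)]
    have hPG : IsPGroup 2 H := fun g => ⟨1, by simpa using hexp g⟩
    have : Fact (Nat.Prime 2) := ⟨Nat.prime_two⟩
    obtain ⟨n, hn⟩ := IsPGroup.iff_card.1 hPG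
    have hn0 : n ≠ 0 := by
      rintro rfl
      rw [pow_zero, Nat.card_eq_one_iff_unique] at hn
      exact hx0 (by rw [hn.1.elim x0 1]; exact A.one_mem)
    obtain ⟨n', rfl⟩ := Nat.exists_eq_succ_of_ne_zero hn0
    obtain ⟨B, hB⟩ := Sylow.exists_subgroup_card_pow_prime (G := H) 2 (n := n')
      (by rw [hn]; exact pow_dvd_pow 2 (Nat.le_succ n'))
    refine ⟨B, ⟨fun b hb g => by rw [hcomm g b, mul_inv_cancel_right]; exact hb⟩,
      ⟨⟨fun a b => Subtype.ext (hcomm a b)⟩⟩, ?_, ?_, ?_⟩
    · have h1 := B.card_mul_index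
      rw [hB, hn, pow_succ] at h1
      exact Nat.eq_of_mul_eq_mul_left (pow_pos (by norm_num) n') h1
    · intro x _
      refine ⟨hexp x, fun b _ => ?_⟩
      rw [hcomm x b, mul_inv_cancel_right, hinvself b (hexp b)]
    · intro hne
      exact absurd ⟨⟨⟨hcomm⟩⟩, hexp⟩ hne
  · push Not at hexp
    obtain ⟨y0, hy0⟩ := hexp
    have hprod : ∀ x y : H, x ∉ A → y ∉ A → x * y ∈ A := by
      intro x y hx hy
      by_contra hxy
      apply hy0
      have hy0A : y0 ∈ A := by
        by_contra h; exact hy0 (hD _ h)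
      have h1 := hinv _ hxy y0 hy0A
      have h2 : x * y * y0 * (x * y)⁻¹ = x * (y * y0 * y⁻¹) * x⁻¹ := by group
      rw [h2, hinv y hy y0 hy0A, hinv x hx _ (A.inv_mem hy0A), inv_inv] at h1
      rw [pow_two]
      nth_rewrite 1 [h1]
      exact inv_mul_cancel y0
    have hidx : A.index = 2 := by
      rw [Subgroup.index_eq_two_iff]
      refine ⟨x0, fun b => ?_⟩
      by_cases hb : b ∈ A
      · right
        refine ⟨hb, fun h => hx0 ?_⟩
        have := A.mul_mem (A.inv_mem hb) h
        rwa [inv_mul_cancel_left] at this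
      · left
        exact ⟨hprod b x0 hb hx0, hb⟩
    have hAcomm : ∀ a ∈ A, ∀ b ∈ A, a * b = b * a := by
      intro a ha b hb
      have h1 := hinv x0 hx0 (a * b) (A.mul_mem ha hb)
      have h2 : x0 * (a * b) * x0⁻¹ = (x0 * a * x0⁻¹) * (x0 * b * x0⁻¹) := by group
      rw [h2, hinv x0 hx0 a ha, hinv x0 hx0 b hb, ← mul_inv_rev] at h1
      exact (inv_injective h1).symm
    refine ⟨A, Subgroup.normal_of_index_eq_two hidx, ⟨⟨fun a b => Subtype.ext (hAcomm a a.2 b b.2)⟩⟩,
      hidx, fun x hx => ⟨hD x hx, hinv x hx⟩, ?_⟩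
    intro _ B' _ hB'c _ hB'
    by_contra hne
    apply hy0
    have hB'comm : ∀ a ∈ B', ∀ b ∈ B', a * b = b * a := fun a ha b hb =>
      congrArg Subtype.val (mul_comm' (⟨a, ha⟩ : B') ⟨b, hb⟩)
    have hsq : ∀ x h : H, x * h = h * x → x * h * x⁻¹ = h⁻¹ → h ^ 2 = 1 := by
      intro x h h1 h2
      rw [h1, mul_inv_cancel_right] at h2
      rw [pow_two]
      nth_rewrite 1 [h2]
      exact inv_mul_cancel h
    by_cases hy0A : y0 ∈ A
    · by_cases hy0B : y0 ∈ B'
      · have : (∃ x ∈ B', x ∉ A) ∨ (∃ x ∈ A, x ∉ B') := by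
          by_contra hcon
          push Not at hcon
          exact hne (le_antisymm hcon.1 hcon.2)
        rcases this with ⟨x, hxB, hxA⟩ | ⟨x, hxA, hxB⟩
        · exact hsq x y0 (hB'comm x hxB y0 hy0B) (hinv x hxA y0 hy0A)
        · exact hsq x y0 (hAcomm x hxA y0 hy0A) ((hB' x hxB).2 y0 hy0B)
      · exact (hB' y0 hy0B).1
    · exact hD y0 hy0A

end Cfsg.Agent.S4420
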