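import Cfsg.Statements.S4762
import Mathlib
import Cfsg.Agent.Lib_helper3_Det6
import Cfsg.Agent.Lib_helper3_Extra
import Cfsg.Agent.Lib_helper1_Wielandt
import Cfsg.Agent.Lib_helper1_Frattini
import Cfsg.Agent.Lib_lead_XS1
import Cfsg.Agent.S0184

set_option autoImplicit false
open Cfsg

namespace Cfsg.Agent.S4762

open Subgroup Cfsg Cfsg.Agent
open scoped ComplexConjugate
universe u

theorem card_split (G : Type u) [Group G] [Finite G] [Fintype (IrrCharacter G)] :
    (Nat.card G : ℤ) = (commutator G).index +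
      ∑ χ ∈ Finset.univ.filter (fun χ : IrrCharacter G => ¬ charDegree χ.1 = 1),
        (charDegree χ.1 : ℤ) ^ 2 := by
  classical
  rw [← H3.sum_charDegree_sq (G := G),
    ← Finset.sum_filter_add_sum_filter_not Finset.univ (fun χ : IrrCharacter G => charDegree χ.1 = 1)]
  congr 1
  rw [← H4.card_linear, Nat.card_eq_fintype_card, Fintype.card_subtype]
  have h1 : ∀ χ ∈ Finset.univ.filter (fun χ : IrrCharacter G => charDegree χ.1 = 1),
      (charDegree χ.1 : ℤ) ^ 2 = 1 := by
    intro χ hχ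
    rw [(Finset.mem_filter.mp hχ).2]
    norm_num
  rw [Finset.sum_congr rfl h1, Finset.sum_const, nsmul_eq_mul, mul_one]
  congr 2
  ext χ
  simp only [Finset.mem_filter, Finset.mem_univ, true_and]
  constructor
  · intro h
    rw [← H3.coe_charDegree χ.2, h, Nat.cast_one]
  · intro h
    exact H4.charDegree_eq (d := 1) (by rw [h, Nat.cast_one])

theorem dvd_degree_iff {G : Type u} [Group G] [Finite G] {p : ℕ} [hp : Fact p.Prime]
    (hG : IsPGroup p G) (χ : IrrCharacter G) : p ∣ charDegree χ.1 ↔ ¬ charDegree χ.1 = 1 := by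
  obtain ⟨d, -, hd, hd1⟩ := H4.IsIrrCharacter.exists_degree χ.2
  rw [H4.charDegree_eq hd1]
  obtain ⟨n, hn⟩ := IsPGroup.iff_card.mp hG
  rw [hn] at hd
  obtain ⟨k, -, rfl⟩ := (Nat.dvd_prime_pow hp.out).mp hd
  constructor
  · intro h h1
    rw [h1] at h
    exact hp.out.one_lt.ne' (Nat.dvd_one.mp h)
  · intro h
    have : k ≠ 0 := by
      rintro rfl
      exact h (pow_zero p)
    exact dvd_pow_self p this

theorem backward {G : Type u} [Group G] [Finite G] (hG : IsExtraspecial 2 G) :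
    Nat.card {χ : IrrCharacter G // 2 ∣ charDegree (χ : G → ℂ)} = 1 := by
  classical
  haveI : Fact (Nat.Prime 2) := ⟨Nat.prime_two⟩
  haveI := Fintype.ofFinite (IrrCharacter G)
  have hP : IsPGroup 2 G := hG.1.1
  have hZ : Nat.card (center G) = 2 := hG.2
  have hcomm : commutator G = center G := hG.1.2.2
  have hdeg : ∀ χ : IrrCharacter G, ¬ charDegree χ.1 = 1 →
      2 * (charDegree χ.1) ^ 2 = Nat.card G := by
    intro χ hχ
    have : ∃ z₀ ∈ center G, χ.1 z₀ ≠ χ.1 1 := by
      by_contra hc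
      push Not at hc
      exact hχ (H4.charDegree_eq (d := 1) (by
        rw [H3.extraspecial_linear 2 hG χ.2 hc, Nat.cast_one]))
    obtain ⟨z₀, hz₀, hne⟩ := this
    have hv : ∀ g, g ∉ center G → χ.1 g = 0 := fun g hg =>
      H3.irr_vanish_off_center hZ hcomm.le χ.2 hz₀ hne hg
    have := H3.irr_degree_sq_of_vanish χ.2 hv (charDegree χ.1) (H3.coe_charDegree χ.2).symm
    rwa [hZ] at this
  have hsplit := card_split G
  have hidx : 2 * (commutator G).index = Nat.card G := by
    rw [hcomm, ← hZ, Subgroup.card_mul_index]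
  set F := Finset.univ.filter (fun χ : IrrCharacter G => ¬ charDegree χ.1 = 1) with hF
  have hsum : 2 * ∑ χ ∈ F, (charDegree χ.1 : ℤ) ^ 2 = F.card * Nat.card G := by
    rw [Finset.mul_sum, Finset.sum_congr rfl (g := fun _ => (Nat.card G : ℤ)), Finset.sum_const,
      nsmul_eq_mul]
    intro χ hχ
    exact_mod_cast hdeg χ (Finset.mem_filter.mp hχ).2
  have hF1 : F.card = 1 := by
    have hpos : (0 : ℤ) < Nat.card G := by exact_mod_cast Nat.card_pos
    have hidx' : (2 : ℤ) * (commutator G).index = Nat.card G := by exact_mod_cast hidx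
    have h1 : (Nat.card G : ℤ) * 1 = Nat.card G * F.card := by linarith
    have h2 := mul_left_cancel₀ hpos.ne' h1
    exact_mod_cast h2.symm
  rw [Nat.card_eq_fintype_card, Fintype.card_subtype, ← hF1]
  congr 1
  ext χ
  simp [hF, dvd_degree_iff hP χ]

theorem center_mul_sq_le {G : Type u} [Group G] [Finite G] {χ : G → ℂ} (hχ : IsIrrCharacter G χ)
    (d : ℕ) (hd : χ 1 = d) : Nat.card (center G) * d ^ 2 ≤ Nat.card G := by
  classical
  have := Fintype.ofFinite G
  have h1 := H4.IsIrrCharacter.norm_one hχ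
  unfold classInner at h1
  have hG : (Nat.card G : ℂ) ≠ 0 := by exact_mod_cast Nat.card_pos.ne'
  have h2 : ∑ g : G, χ g * conj (χ g) = (Nat.card G : ℂ) := by
    field_simp at h1
    exact h1
  have h3 : ∑ g : G, Complex.normSq (χ g) = (Nat.card G : ℝ) := by
    have h := congrArg Complex.re h2
    simp only [Complex.mul_conj, Complex.re_sum, Complex.ofReal_re, Complex.natCast_re] at h
    exact h
  have h4 : ∑ g ∈ Finset.univ.filter (fun g : G => g ∈ center G), Complex.normSq (χ g)
      ≤ ∑ g : G, Complex.normSq (χ g) :=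
    Finset.sum_le_univ_sum_of_nonneg (fun g => Complex.normSq_nonneg _)
  have h5 : ∀ g ∈ Finset.univ.filter (fun g : G => g ∈ center G),
      Complex.normSq (χ g) = (d : ℝ) ^ 2 := by
    intro g hg
    have h := H3.irr_central_normSq hχ (Finset.mem_filter.mp hg).2
    rw [Complex.mul_conj, hd] at h
    have h' : ((Complex.normSq (χ g) : ℝ) : ℂ) = (((d : ℝ) ^ 2 : ℝ) : ℂ) := by
      rw [h]; push_cast; ring
    exact_mod_cast h'
  rw [Finset.sum_congr rfl h5, Finset.sum_const, nsmul_eq_mul, h3] at h4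
  have h6 : (Finset.univ.filter (fun g : G => g ∈ center G)).card = Nat.card (center G) := by
    rw [Nat.card_eq_fintype_card, Fintype.card_subtype]
  rw [h6] at h4
  exact_mod_cast h4

theorem arith (p idx c e : ℕ) (hp : p.Prime) (h : idx * p ^ c = idx + (p ^ e) ^ 2) :
    p = 2 ∧ c = 1 := by
  have hpc : 0 < p ^ c := pow_pos hp.pos c
  obtain ⟨t, ht⟩ : ∃ t, p ^ c = t + 1 := ⟨p ^ c - 1, by omega⟩
  rw [ht] at h
  have h1 : idx * t = p ^ (e * 2) := by rw [pow_mul]; nlinarith
  have h2 : t ∣ p ^ (e * 2) := ⟨idx, by rw [← h1, mul_comm]⟩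
  obtain ⟨j, -, rfl⟩ := (Nat.dvd_prime_pow hp).mp h2
  have hc0 : c ≠ 0 := by
    rintro rfl
    have := pow_pos hp.pos j
    rw [pow_zero] at ht
    omega
  have hj0 : j = 0 := by
    by_contra hj
    have h3 : p ∣ p ^ c := dvd_pow_self p hc0
    have h4 : p ∣ p ^ j := dvd_pow_self p hj
    rw [ht] at h3
    have := (Nat.dvd_add_right h4).mp h3
    exact hp.one_lt.ne' (Nat.dvd_one.mp this)
  rw [hj0, pow_zero] at ht
  have h5 : p ∣ 2 := by
    have : p ∣ p ^ c := dvd_pow_self p hc0
    rwa [ht] at this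
  have hp2 : p = 2 := (Nat.prime_dvd_prime_iff_eq hp Nat.prime_two).mp h5
  refine ⟨hp2, ?_⟩
  rw [hp2] at ht
  have : (2 : ℕ) ^ c = 2 ^ 1 := by rw [ht]; norm_num
  exact Nat.pow_right_injective (le_refl 2) this

theorem forward_pgroup {G : Type u} [Group G] [Finite G] (p : ℕ) [hp : Fact p.Prime]
    (hG : IsPGroup p G)
    (h : Nat.card {χ : IrrCharacter G // p ∣ charDegree (χ : G → ℂ)} = 1) :
    p = 2 ∧ IsExtraspecial 2 G := by
  classical
  haveI := Fintype.ofFinite (IrrCharacter G)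
  set F := Finset.univ.filter (fun χ : IrrCharacter G => ¬ charDegree χ.1 = 1) with hF
  have hF1 : F.card = 1 := by
    rw [← h, Nat.card_eq_fintype_card, Fintype.card_subtype]
    congr 1
    ext χ
    simp [hF, dvd_degree_iff hG χ]
  obtain ⟨χ₀, hχ₀⟩ := Finset.card_eq_one.mp hF1
  have hsplit := card_split G
  rw [← hF, hχ₀, Finset.sum_singleton] at hsplit
  obtain ⟨d, hd0, hd, hd1⟩ := H4.IsIrrCharacter.exists_degree χ₀.2
  rw [H4.charDegree_eq hd1] at hsplit
  obtain ⟨n, hn⟩ := IsPGroup.iff_card.mp hG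
  obtain ⟨c, hc⟩ := IsPGroup.iff_card.mp (hG.to_subgroup (commutator G))
  rw [hn] at hd
  obtain ⟨e, -, rfl⟩ := (Nat.dvd_prime_pow hp.out).mp hd
  have hsplit' : Nat.card G = (commutator G).index + (p ^ e) ^ 2 := by exact_mod_cast hsplit
  have hidx : (commutator G).index * p ^ c = Nat.card G := by
    rw [← hc, Subgroup.index_mul_card]
  obtain ⟨hp2, hc1⟩ := arith p _ c e hp.out (hidx.trans hsplit')
  subst hp2
  subst hc1
  refine ⟨rfl, ?_⟩
  rw [pow_one] at hc hidx
  -- the commutator subgroup is central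
  have hcZ : commutator G ≤ center G := by
    have hne : commutator G ≠ ⊥ := by
      intro hb
      rw [hb, Subgroup.card_bot] at hc
      omega
    have h1 := S0184.normal_inf_center_ne_bot hG (commutator G) hne
    have h2 : Nat.card (commutator G ⊓ center G : Subgroup G) ∣ 2 :=
      hc ▸ Subgroup.card_dvd_of_le inf_le_left
    rcases (Nat.dvd_prime Nat.prime_two).mp h2 with h3 | h3
    · exact absurd (Subgroup.card_eq_one.mp h3) h1
    · have h4 : commutator G ⊓ center G = commutator G :=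
        Subgroup.eq_of_le_of_card_ge inf_le_left (by rw [h3, hc])
      exact inf_eq_left.mp h4
  have hZle := center_mul_sq_le χ₀.2 (2 ^ e) hd1
  have hZ2 : Nat.card (center G) ≤ 2 := by
    have h1 : Nat.card G = 2 * (2 ^ e) ^ 2 := by omega
    rw [h1] at hZle
    exact Nat.le_of_mul_le_mul_right hZle (by positivity)
  have hZeq : commutator G = center G :=
    Subgroup.eq_of_le_of_card_ge hcZ (by rw [hc]; exact hZ2)
  have hsq : ∀ x : G, x ^ 2 ∈ commutator G := by
    intro x
    rw [hZeq, Subgroup.mem_center_iff]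
    intro y
    set k := x * y * x⁻¹ * y⁻¹ with hk
    have hkc : k ∈ commutator G := by
      rw [commutator_def]
      exact Subgroup.commutator_mem_commutator (Subgroup.mem_top x) (Subgroup.mem_top y)
    have hk2 : k ^ 2 = 1 := by
      have := pow_card_eq_one' (x := (⟨k, hkc⟩ : commutator G))
      rw [hc] at this
      exact congrArg Subtype.val this
    have hkZ := Subgroup.mem_center_iff.mp (hcZ hkc)
    have hxy : x * y = k * (y * x) := by rw [hk]; group
    have e1 : x * x * y = k * k * (y * x * x) := by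
      calc x * x * y = x * (x * y) := by group
        _ = x * (k * (y * x)) := by rw [hxy]
        _ = (x * k) * (y * x) := by group
        _ = (k * x) * (y * x) := by rw [hkZ x]
        _ = k * ((x * y) * x) := by group
        _ = k * ((k * (y * x)) * x) := by rw [hxy]
        _ = k * k * (y * x * x) := by group
    rw [pow_two, e1, ← pow_two k, hk2, one_mul, mul_assoc]
  refine ⟨⟨hG, ?_, hZeq⟩, by rw [← hZeq, hc]⟩
  rw [← hZeq]
  exact le_antisymm (LeadXS.frattini_le (p := 2) _ le_rfl hsq) (H1.pgroup_frattini 2 hG).1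

theorem isPGroup_of_unique {G : Type u} [Group G] [Finite G] [hnil : Group.IsNilpotent G] (p : ℕ)
    [hp : Fact p.Prime]
    (h : Nat.card {χ : IrrCharacter G // p ∣ charDegree (χ : G → ℂ)} = 1) : IsPGroup p G := by
  classical
  obtain ⟨P⟩ : Nonempty (Sylow p G) := inferInstance
  have hPcop : (Nat.card (P : Subgroup G)).Coprime (P : Subgroup G).index := P.card_coprime_index
  haveI hPn : (P : Subgroup G).Normal := H1.hall_normal_of_nilpotent _ hPcop
  obtain ⟨Q, hQ⟩ := Subgroup.exists_right_complement'_of_coprime hPcop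
  have hQidx : Q.index = Nat.card (P : Subgroup G) := hQ.index_eq_card
  have hQcard : Nat.card Q = (P : Subgroup G).index := hQ.symm.index_eq_card.symm
  haveI hQn : Q.Normal := H1.hall_normal_of_nilpotent Q (by rw [hQidx, hQcard]; exact hPcop.symm)
  obtain ⟨hsub, ⟨χ₀, hχ₀⟩⟩ := Nat.card_eq_one_iff_unique.mp h
  have hPna : ¬ ∀ a ∈ (P : Subgroup G), ∀ b ∈ (P : Subgroup G), a * b = b * a := by
    intro hc
    obtain ⟨d, hd, hdvd⟩ := H4.ito_aux _ G rfl χ₀.1 χ₀.2 P hPn hc
    rw [H4.charDegree_eq hd] at hχ₀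
    exact P.not_dvd_index (hχ₀.trans hdvd)
  have hna : ¬ ∀ a b : G ⧸ Q, a * b = b * a := by
    intro hc
    apply hPna
    intro a ha b hb
    have h1 : a * b * a⁻¹ * b⁻¹ ∈ Q := by
      rw [← QuotientGroup.eq_one_iff]
      have := hc (a : G ⧸ Q) (b : G ⧸ Q)
      simp only [QuotientGroup.mk_mul, QuotientGroup.mk_inv]
      rw [this]
      group
    have h2 : a * b * a⁻¹ * b⁻¹ ∈ (P : Subgroup G) :=
      mul_mem (mul_mem (mul_mem ha hb) (inv_mem ha)) (inv_mem hb)
    have h3 : a * b * a⁻¹ * b⁻¹ = 1 := by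
      have := hQ.disjoint.le_bot ⟨h2, h1⟩
      exact Subgroup.mem_bot.mp this
    calc a * b = (a * b * a⁻¹ * b⁻¹) * (b * a) := by group
      _ = b * a := by rw [h3, one_mul]
  rw [H4.comm_iff_irr_linear] at hna
  push Not at hna
  obtain ⟨θ, hθ⟩ := hna
  obtain ⟨n, hn0, hndvd, hn1⟩ := H4.IsIrrCharacter.exists_degree θ.2
  have hpn : p ∣ n := by
    obtain ⟨k, hk⟩ := IsPGroup.iff_card.mp P.2
    rw [← Subgroup.index_eq_card, hQidx, hk] at hndvd
    obtain ⟨j, -, rfl⟩ := (Nat.dvd_prime_pow hp.out).mp hndvd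
    have : j ≠ 0 := by
      rintro rfl
      apply hθ
      rw [hn1]; simp
    exact dvd_pow_self p this
  set χ₁ : G → ℂ := fun g => θ.1 (QuotientGroup.mk' Q g) with hχ₁def
  have hχ₁ : IsIrrCharacter G χ₁ :=
    H4.IsIrrCharacter.comp_surj (QuotientGroup.mk' Q) (QuotientGroup.mk'_surjective Q) θ.2
  have hχ₁Q : ∀ q ∈ Q, χ₁ q = n := by
    intro q hq
    have : QuotientGroup.mk' Q q = 1 := (QuotientGroup.eq_one_iff q).mpr hq
    rw [hχ₁def]
    simp only
    rw [this, hn1]
  have hχ₁1 : χ₁ 1 = n := hχ₁Q 1 Q.one_mem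
  by_contra hnp
  have hPtop : (P : Subgroup G) ≠ ⊤ := by
    intro htop
    apply hnp
    have := P.2
    rw [htop] at this
    exact this.of_equiv Subgroup.topEquiv
  haveI : Nontrivial (G ⧸ (P : Subgroup G)) := by
    rw [← Finite.one_lt_card_iff_nontrivial, ← Subgroup.index_eq_card]
    have h0 : (P : Subgroup G).index ≠ 0 := Subgroup.index_ne_zero_of_finite
    have h1 : (P : Subgroup G).index ≠ 1 := fun h => hPtop (Subgroup.index_eq_one.mp h)
    omega
  have hcomm : commutator (G ⧸ (P : Subgroup G)) ≠ ⊤ :=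
    (Group.IsSolvable.commutator_lt_top_of_nontrivial (G ⧸ (P : Subgroup G))).ne
  have hidx : 1 < (commutator (G ⧸ (P : Subgroup G))).index := by
    have h0 : (commutator (G ⧸ (P : Subgroup G))).index ≠ 0 := Subgroup.index_ne_zero_of_finite
    have h1 : (commutator (G ⧸ (P : Subgroup G))).index ≠ 1 :=
      fun h => hcomm (Subgroup.index_eq_one.mp h)
    omega
  rw [← H4.card_linear, Finite.one_lt_card_iff_nontrivial] at hidx
  obtain ⟨μ₁, μ₂, hne⟩ := hidx.exists_pair_ne
  have hex : ∃ μ : {χ : IrrCharacter (G ⧸ (P : Subgroup G)) // (χ : G ⧸ (P : Subgroup G) → ℂ) 1 = 1},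
      ∃ y, μ.1.1 y ≠ 1 := by
    by_contra hc
    push Not at hc
    apply hne
    apply Subtype.ext
    apply Subtype.ext
    funext y
    rw [hc μ₁ y, hc μ₂ y]
  obtain ⟨μ, y, hy⟩ := hex
  set l : G → ℂ := fun g => μ.1.1 (QuotientGroup.mk' (P : Subgroup G) g) with hl
  have hlchar : IsCharacter G l :=
    H4.IsCharacter.comp (QuotientGroup.mk' (P : Subgroup G)) (H4.IsIrrCharacter.isCharacter μ.1.2)
  have hl1 : l 1 = 1 := by
    rw [hl]
    simp only [map_one]
    exact μ.2
  have hirr : IsIrrCharacter G (l * χ₁) := H4.IsIrrCharacter.linear_mul_irr hlchar hl1 hχ₁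
  have hdeg1 : p ∣ charDegree χ₁ := by rw [H4.charDegree_eq hχ₁1]; exact hpn
  have hdeg2 : p ∣ charDegree (l * χ₁) := by
    rw [H4.charDegree_eq (d := n) (by rw [Pi.mul_apply, hl1, hχ₁1, one_mul])]; exact hpn
  have heq : l * χ₁ = χ₁ := by
    have := hsub.elim (⟨⟨l * χ₁, hirr⟩, hdeg2⟩ : {χ : IrrCharacter G // p ∣ charDegree (χ : G → ℂ)})
      ⟨⟨χ₁, hχ₁⟩, hdeg1⟩
    exact congrArg (fun x => x.1.1) this
  apply hy
  obtain ⟨g, rfl⟩ := QuotientGroup.mk_surjective y
  obtain ⟨⟨x, q⟩, hxq, -⟩ := (Subgroup.isComplement_iff_existsUnique.mp hQ) g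
  simp only at hxq
  have h1 : (QuotientGroup.mk g : G ⧸ (P : Subgroup G)) = QuotientGroup.mk' (P : Subgroup G) q := by
    rw [← hxq, QuotientGroup.mk_mul, (QuotientGroup.eq_one_iff (x : G)).mpr x.2, one_mul]
    rfl
  rw [h1]
  have h2 := congrFun heq (q : G)
  rw [Pi.mul_apply, hχ₁Q q q.2] at h2
  have hn0' : (n : ℂ) ≠ 0 := by exact_mod_cast hn0.ne'
  exact mul_right_cancel₀ hn0' (h2.trans (one_mul _).symm)

/-- Let p be a prime and G a finite nilpotent group. Then G has exactly one irreducible complex character of degree divisible by p if and only if p = 2 and G is an extraspecial 2-group. -/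
theorem result {G : Type*} [Group G] [Finite G] [Group.IsNilpotent G] (p : ℕ) [Fact p.Prime] : Nat.card {χ : Cfsg.IrrCharacter G // p ∣ Cfsg.charDegree (χ : G → ℂ)} = 1 ↔ (p = 2 ∧ Cfsg.IsExtraspecial 2 G) := by
  constructor
  · intro h
    exact forward_pgroup p (isPGroup_of_unique p h) h
  · rintro ⟨rfl, h⟩
    exact backward h

end Cfsg.Agent.S4762
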