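import Cfsg.Statements.S4477
import Mathlib
import Cfsg.Agent.Lib_helper3_AFT
import Cfsg.Agent.S4476
import Cfsg.Agent.S4762

set_option autoImplicit false
open Cfsg

namespace Cfsg.Agent.S4477

open Subgroup Cfsg Cfsg.Agent Cfsg.Agent.H3
open scoped ComplexConjugate

theorem four_le_of_not_cyclic {G : Type*} [Group G] [Finite G] (hG : IsPGroup 2 G)
    (hc : ¬ IsCyclic G) : 4 ≤ Nat.card (G ⧸ frattini G) := by
  haveI : Fact (Nat.Prime 2) := ⟨Nat.prime_two⟩
  by_contra hlt
  push Not at hlt
  apply hc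
  have hQ : IsPGroup 2 (G ⧸ frattini G) := hG.to_quotient _
  obtain ⟨k, hk⟩ := hQ.exists_card_eq
  have hk1 : k < 2 := by
    by_contra h
    push Not at h
    have : 2 ^ 2 ≤ 2 ^ k := Nat.pow_le_pow_right (by norm_num) h
    omega
  have hcyc : IsCyclic (G ⧸ frattini G) := by
    interval_cases k
    · haveI : Subsingleton (G ⧸ frattini G) := (Nat.card_eq_one_iff_unique.mp hk).1
      infer_instance
    · exact isCyclic_of_prime_card (p := 2) hk
  obtain ⟨y, hy⟩ := hcyc.exists_generator
  obtain ⟨x, rfl⟩ := QuotientGroup.mk_surjective y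
  have hsup : zpowers x ⊔ frattini G = ⊤ := by
    rw [eq_top_iff]
    intro g _
    obtain ⟨n, hn⟩ := Subgroup.mem_zpowers_iff.mp (hy (g : G ⧸ frattini G))
    have h1 : (x ^ n)⁻¹ * g ∈ frattini G := QuotientGroup.eq.mp (by simpa using hn)
    have h2 : g = x ^ n * ((x ^ n)⁻¹ * g) := by group
    rw [h2]
    exact mul_mem (mem_sup_left (zpow_mem (mem_zpowers x) n)) (mem_sup_right h1)
  have htop := frattini_nongenerating hsup
  exact isCyclic_iff_exists_zpowers_eq_top.mpr ⟨x, htop⟩

/-- Let G be a finite 2-group whose number of involutions is congruent to 1 modulo 4. Then G is cyclic or its commutator subgroup has index 4. -/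
theorem result {G : Type*} [Group G] [Finite G] (hG : IsPGroup 2 G) (ht : Nat.card {x : G // orderOf x = 2} % 4 = 1) : IsCyclic G ∨ (commutator G).index = 4 := by
  classical
  haveI : Fact (Nat.Prime 2) := ⟨Nat.prime_two⟩
  by_cases hcyc : IsCyclic G
  · exact Or.inl hcyc
  right
  have hΦ := four_le_of_not_cyclic hG hcyc
  have := Fintype.ofFinite G
  have := Fintype.ofFinite (IrrCharacter G)
  have := finite_sign_homs G
  have := Fintype.ofFinite (G →* ℤˣ)
  let _ := signAction G
  have hsmul : ∀ (l : G →* ℤˣ) (χ : IrrCharacter G) (g : G),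
      ((l • χ : IrrCharacter G) : G → ℂ) g = signChar l g * (χ : G → ℂ) g := fun _ _ _ => rfl
  have hν : ∀ χ : IrrCharacter G, ∃ z : ℤ, (z = 0 ∨ z = 1 ∨ z = -1) ∧
      (z : ℂ) = (Nat.card G : ℂ)⁻¹ * ∑ s : G, (χ : G → ℂ) (s * s) ∧
      (z = 0 ↔ ∃ s : G, ((χ : G → ℂ) s).im ≠ 0) := by
    rintro ⟨χ, n, ρ, hρ, rfl⟩
    have := hρ
    have h2 := (H4.frobenius_schur ρ).2
    rcases (H4.frobenius_schur ρ).1 with h | h | h
    · exact ⟨0, Or.inl rfl, by rw [h]; simp, by rw [← h2]; exact ⟨fun _ => h, fun _ => rfl⟩⟩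
    · exact ⟨1, Or.inr (Or.inl rfl), by rw [h]; simp, by rw [← h2, h]; simp⟩
    · exact ⟨-1, Or.inr (Or.inr rfl), by rw [h]; simp, by rw [← h2, h]; simp⟩
  choose ν hν1 hν2 hν3 using hν
  have hd : ∀ χ : IrrCharacter G, ∃ n : ℕ, 0 < n ∧ n ∣ Nat.card G ∧ (χ : G → ℂ) 1 = n :=
    fun χ => H4.IsIrrCharacter.exists_degree χ.2
  choose d hd0 hd1 hd2 using hd
  have hcount : (Nat.card {s : G // s * s = 1} : ℤ) = ∑ χ, ν χ * d χ := by
    have h1 := H4.involution_count (G := G)
    rw [finsum_eq_sum_of_fintype] at h1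
    have h2 : (Nat.card {s : G // s * s = 1} : ℂ) = ((∑ χ, ν χ * d χ : ℤ) : ℂ) := by
      rw [h1]
      push_cast
      apply Finset.sum_congr rfl
      intro χ _
      rw [← hν2, hd2]
    exact_mod_cast h2
  have hνinv : ∀ (l : G →* ℤˣ) (χ : IrrCharacter G), ν (l • χ) = ν χ := by
    intro l χ
    have : (ν (l • χ) : ℂ) = ν χ := by
      rw [hν2, hν2]
      congr 1
      apply Finset.sum_congr rfl
      intro s _
      rw [hsmul]
      simp [signChar]
    exact_mod_cast this
  have hdinv : ∀ (l : G →* ℤˣ) (χ : IrrCharacter G), d (l • χ) = d χ := by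
    intro l χ
    have : (d (l • χ) : ℂ) = d χ := by
      rw [← hd2, ← hd2, hsmul, signChar_one_apply, one_mul]
    exact_mod_cast this
  obtain ⟨a, ha⟩ := hG.exists_card_eq
  have hdpow : ∀ χ : IrrCharacter G, ∃ e : ℕ, d χ = 2 ^ e := by
    intro χ
    have hda := hd1 χ
    rw [ha] at hda
    obtain ⟨e, _, he⟩ := (Nat.dvd_prime_pow Nat.prime_two).mp hda
    exact ⟨e, he⟩
  -- linear part
  have hlin : (4 : ℤ) ∣ ∑ χ, (if d χ = 1 then ν χ else 0) := by
    apply dvd_sum_of_orbit (L := G →* ℤˣ)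
    · intro l χ
      rw [hνinv, hdinv]
    · intro χ
      by_cases hχ : d χ = 1
      · rw [if_pos hχ]
        have hos := MulAction.card_orbit_mul_card_stabilizer_eq_card_group (G →* ℤˣ) χ
        have hP : IsPGroup 2 (G →* ℤˣ) := by
          intro l
          refine ⟨1, ?_⟩
          ext g
          simp [pow_two]
        obtain ⟨D, hD⟩ := hP.exists_card_eq
        have hDk : 2 ≤ D := by
          have h1 := hΦ.trans (card_sign_homs_ge hG)
          rw [hD] at h1
          have h2 : 2 ^ 2 ≤ 2 ^ D := by simpa using h1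
          exact (Nat.pow_le_pow_iff_right (by norm_num)).mp h2
        have hle := card_sign_stab_le (MulAction.stabilizer (G →* ℤˣ) χ) χ.2 (d χ) (hd2 χ) (by
          intro l hl g
          have h1 : l • χ = χ := hl
          have h2 := congr_fun (congr_arg Subtype.val h1) g
          exact h2)
        rw [hχ, one_pow] at hle
        have hst : Fintype.card (MulAction.stabilizer (G →* ℤˣ) χ) = 1 :=
          le_antisymm hle Fintype.card_pos
        rw [hst, mul_one, Fintype.card_eq_nat_card (α := G →* ℤˣ), hD] at hos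
        rw [Nat.card_eq_fintype_card, hos]
        apply Dvd.dvd.mul_right
        have : (4 : ℤ) = 2 ^ 2 := by norm_num
        rw [this]
        push_cast
        exact pow_dvd_pow 2 hDk
      · rw [if_neg hχ, mul_zero]
        exact dvd_zero _
  -- the degree two part
  have hrest : (4 : ℤ) ∣ ∑ χ, (ν χ * d χ - (if d χ = 1 then ν χ else 0)
      - 2 * (if d χ = 2 then ν χ else 0)) := by
    apply Finset.dvd_sum
    intro χ _
    obtain ⟨e, he⟩ := hdpow χ
    rw [he]
    rcases e with _ | _ | e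
    · simp
    · simp; ring_nf; simp
    · have h1 : (2 : ℕ) ^ (e + 1 + 1) ≠ 1 := by
        have : 2 ^ (e + 1 + 1) = 4 * 2 ^ e := by ring
        have := Nat.one_le_two_pow (n := e)
        omega
      have h2 : (2 : ℕ) ^ (e + 1 + 1) ≠ 2 := by
        have : 2 ^ (e + 1 + 1) = 4 * 2 ^ e := by ring
        have := Nat.one_le_two_pow (n := e)
        omega
      rw [if_neg h1, if_neg h2]
      refine ⟨ν χ * 2 ^ e, ?_⟩
      push_cast
      ring
  have ht' : (Nat.card {s : G // s * s = 1} : ℤ) % 4 = 2 := by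
    rw [S4476.card_sq_eq_one]
    push_cast
    omega
  have hodd : (∑ χ, (if d χ = 2 then ν χ else 0)) % 2 = 1 := by
    rw [Finset.sum_sub_distrib, Finset.sum_sub_distrib, ← hcount, ← Finset.mul_sum] at hrest
    omega
  let cj : IrrCharacter G → IrrCharacter G :=
    fun χ => ⟨fun g => conj (χ.1 g), H4.IsIrrCharacter.conj χ.2⟩
  have hcjd : ∀ χ, d (cj χ) = d χ := by
    intro χ
    have : (d (cj χ) : ℂ) = d χ := by
      rw [← hd2 (cj χ)]
      change conj (χ.1 1) = _
      rw [hd2]
      simp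
    exact_mod_cast this
  have hcjν : ∀ χ, ν (cj χ) = ν χ := by
    intro χ
    have : (ν (cj χ) : ℂ) = ν χ := by
      rw [hν2 (cj χ)]
      change (Nat.card G : ℂ)⁻¹ * ∑ s, conj (χ.1 (s * s)) = _
      have h := congrArg conj (hν2 χ)
      simp only [map_mul, map_inv₀, map_natCast, map_sum, map_intCast] at h
      exact h.symm
    exact_mod_cast this
  have hpar : (∑ χ, (((if d χ = 2 then 1 - ν χ else 0 : ℤ)) : ZMod 2)) = 0 := by
    apply Finset.sum_involution (fun χ _ => cj χ)
    · intro χ _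
      rw [hcjd, hcjν]
      exact CharTwo.add_self_eq_zero _
    · intro χ _ hne heq
      apply hne
      have hreal : ∀ s, (χ.1 s).im = 0 := by
        intro s
        have := congrFun (congrArg Subtype.val heq) s
        exact Complex.conj_eq_iff_im.mp this
      have hν0 : ν χ ≠ 0 := by
        rw [Ne, hν3]
        push Not
        exact hreal
      split_ifs
      · rcases hν1 χ with h | h | h
        · exact absurd h hν0
        · rw [h]; simp
        · rw [h]
          have : ((1 - -1 : ℤ) : ZMod 2) = ((2 : ℕ) : ZMod 2) := by norm_num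
          rw [this]
          exact ZMod.natCast_self 2
      · simp
    · intro χ _
      exact Finset.mem_univ _
    · intro χ _
      apply Subtype.ext
      funext g
      simp [cj]
  have hpar' : (2 : ℤ) ∣ ∑ χ, (if d χ = 2 then 1 - ν χ else 0 : ℤ) := by
    rw [← Int.cast_sum] at hpar
    exact (ZMod.intCast_zmod_eq_zero_iff_dvd _ 2).mp hpar
  have hX : (∑ χ, (if d χ = 2 then (1 : ℤ) else 0)) % 2 = 1 := by
    have h1 : ∑ χ, (if d χ = 2 then 1 - ν χ else 0 : ℤ)
        = ∑ χ, (if d χ = 2 then (1 : ℤ) else 0) - ∑ χ, (if d χ = 2 then ν χ else 0) := by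
      rw [← Finset.sum_sub_distrib]
      apply Finset.sum_congr rfl
      intro χ _
      split_ifs <;> simp
    rw [h1] at hpar'
    omega
  -- sum of squares
  have hsplit := S4762.card_split G
  have hsq : ∑ χ ∈ Finset.univ.filter (fun χ : IrrCharacter G => ¬ charDegree χ.1 = 1),
      (charDegree χ.1 : ℤ) ^ 2 = ∑ χ, (if d χ = 1 then (0 : ℤ) else (d χ : ℤ) ^ 2) := by
    rw [Finset.sum_filter]
    apply Finset.sum_congr rfl
    intro χ _
    rw [H4.charDegree_eq (hd2 χ)]
    split_ifs <;> simp_all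
  rw [hsq] at hsplit
  have h8 : (8 : ℤ) ∣ ∑ χ, ((if d χ = 1 then (0 : ℤ) else (d χ : ℤ) ^ 2)
      - 4 * (if d χ = 2 then (1 : ℤ) else 0)) := by
    apply Finset.dvd_sum
    intro χ _
    obtain ⟨e, he⟩ := hdpow χ
    rw [he]
    rcases e with _ | _ | e
    · simp
    · simp
    · have h1 : (2 : ℕ) ^ (e + 1 + 1) ≠ 1 := by
        have : 2 ^ (e + 1 + 1) = 4 * 2 ^ e := by ring
        have := Nat.one_le_two_pow (n := e)
        omega
      have h2 : (2 : ℕ) ^ (e + 1 + 1) ≠ 2 := by
        have : 2 ^ (e + 1 + 1) = 4 * 2 ^ e := by ring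
        have := Nat.one_le_two_pow (n := e)
        omega
      rw [if_neg h1, if_neg h2]
      refine ⟨2 * (2 ^ e) ^ 2, ?_⟩
      push_cast
      ring
  rw [Finset.sum_sub_distrib, ← Finset.mul_sum] at h8
  obtain ⟨m, hm⟩ := hG.index (commutator G)
  have hidx4 : 4 ≤ (commutator G).index := by
    have h1 : commutator G ≤ frattini G := (H1.pgroup_frattini 2 hG).1
    have h2 := Subgroup.index_dvd_of_le h1
    have h3 := Nat.le_of_dvd (Nat.pos_of_ne_zero Subgroup.index_ne_zero_of_finite) h2
    rw [Subgroup.index_eq_card] at h3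
    omega
  have hm3 : m < 3 := by
    by_contra hc
    push Not at hc
    have h1 : (8 : ℕ) ∣ (commutator G).index := by
      rw [hm]
      exact pow_dvd_pow 2 hc
    have h2 : (8 : ℕ) ∣ Nat.card G := h1.trans (Subgroup.index_dvd_card _)
    have h1' : (8 : ℤ) ∣ ((commutator G).index : ℤ) := by exact_mod_cast h1
    have h2' : (8 : ℤ) ∣ (Nat.card G : ℤ) := by exact_mod_cast h2
    omega
  rw [hm] at hidx4 ⊢
  interval_cases m <;> omega

end Cfsg.Agent.S4477
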