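import Cfsg.Statements.S4517
import Cfsg.Agent.Lib_helper4_BlkQ

set_option autoImplicit false
open Cfsg

namespace Cfsg.Agent.S4517

/-- Let G be a finite group, M a maximal ideal of the algebraic integers containing 2, and k a natural number coprime to the order of G with g ^ k = g⁻¹ for every element g of odd order (so that g ↦ g ^ k induces a field automorphism of the character values inverting the roots of unity of odd order). If B is a 2-block of full defect (its defect equals the exponent of 2 in the order of G) that is stable under χ ↦ χ ∘ (· ^ k), then B is the principal 2-block. -/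
theorem result {G : Type*} [Group G] [Finite G] (M : Ideal Cfsg.AlgInt) (hM : Cfsg.IsPModular 2 M) (k : ℕ) (hk : Nat.Coprime k (Nat.card G)) (hk₂ : ∀ g : G, Odd (orderOf g) → g ^ k = g⁻¹) (B : Set (Cfsg.IrrCharacter G)) (hB : Cfsg.IsPBlock M B) (hdef : Cfsg.blockDefect 2 B = (Nat.card G).factorization 2) (hstab : ∀ χ ∈ B, ∃ ψ ∈ B, ∀ g : G, (ψ : G → ℂ) g = (χ : G → ℂ) (g ^ k)) : B = Cfsg.principalBlock M G := by
  obtain ⟨χ, hχ, hodd⟩ := Cfsg.Agent.H4.exists_odd_degree_of_full_defect hM B hB hdef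
  obtain ⟨ψ, hψ, hψv⟩ := hstab χ hχ
  have hsb : Cfsg.SameBlock M (χ : G → ℂ) (ψ : G → ℂ) := by
    have := Cfsg.Agent.H4.IsPBlock.eq_blockOf hM hB hχ
    rw [this] at hψ
    exact hψ
  have h := Cfsg.Agent.H4.principal_of_real_like hM χ ψ hsb hodd (by
    intro g hg
    rw [hψv g, hk₂ g (Nat.not_even_iff_odd.mp (fun h => hg (even_iff_two_dvd.mp h)))])
  rw [Cfsg.Agent.H4.IsPBlock.eq_blockOf hM hB hχ]
  exact (Cfsg.Agent.H4.IsPBlock.eq_blockOf hM ⟨Cfsg.Agent.H4.trivIrr G, rfl⟩ h).symm


end Cfsg.Agent.S4517
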