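import Cfsg.Statements.S4558
import Mathlib
import Cfsg.Agent.Lib_helper4_BlkL

set_option autoImplicit false
open Cfsg

namespace Cfsg.Agent.S4558

open Cfsg.Agent.H4


/-- Let χ be a character of the finite group G and g an element of p-power order for the prime p. If χ g = 0, then p divides the degree of χ. -/
theorem result {G : Type*} [Group G] [Finite G] (p : ℕ) [Fact p.Prime] (χ : G → ℂ) (hχ : Cfsg.IsCharacter G χ) (g : G) (hg : ∃ j : ℕ, orderOf g = p ^ j) (h0 : χ g = 0) : p ∣ Cfsg.charDegree χ := by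
  have hp : p.Prime := Fact.out
  obtain ⟨M, hM⟩ := exists_pModular hp
  obtain ⟨j, hj⟩ := hg
  obtain ⟨d, hd⟩ := IsCharacter.apply_one hχ
  have h1 := char_mul_sub_mem hM hχ (Commute.one_right g) (k := j) (by rw [← hj]; exact pow_orderOf_eq_one g)
  rw [mul_one, h0, hd, zero_sub] at h1
  have h2 := MemLocalIdeal.neg h1
  rw [neg_neg, memLocalIdeal_natCast_iff hM] at h2
  rw [charDegree_eq hd]
  exact h2

end Cfsg.Agent.S4558
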