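import Cfsg.Statements.S4565
import Cfsg.Agent.Lib_helper2_Idem
import Cfsg.Agent.Lib_helper4_CharN

set_option autoImplicit false
set_option linter.style.haveILetI false
open Cfsg
open Cfsg.Agent.H4 Cfsg.Agent.H2
open scoped ComplexConjugate

namespace Cfsg.Agent.S4565

/-- Let χ be an irreducible character of the finite group H that is fully ramified over the normal subgroup Z: the restriction of χ to Z is e times an irreducible character of Z with e ^ 2 equal to the index of Z. If Z ≠ H, then H/Z has no cyclic subgroup that is its own centralizer. -/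
theorem result {H : Type*} [Group H] [Finite H] (Z : Subgroup H) [Z.Normal] (χ : Cfsg.IrrCharacter H) (hfr : ∃ (θ : Cfsg.IrrCharacter ↥Z) (e : ℕ), e ^ 2 = Z.index ∧ ∀ z : ↥Z, (χ : H → ℂ) z = (e : ℂ) * (θ : ↥Z → ℂ) z) (hZ : Z ≠ ⊤) (C : Subgroup (H ⧸ Z)) (hC : IsCyclic C) : Subgroup.centralizer (C : Set (H ⧸ Z)) ≠ C := by
  classical
  intro hcent
  haveI := Fintype.ofFinite H
  haveI := Fintype.ofFinite Z
  obtain ⟨θ, e, he2, heθ⟩ := hfr
  have hidx : Z.index ≠ 0 := Subgroup.index_ne_zero_of_finite
  have he0 : (e : ℂ) ≠ 0 := by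
    intro h
    have h' : e = 0 := by exact_mod_cast h
    subst h'
    simp at he2
    exact hidx he2.symm
  have hresχ : (fun z : Z => (χ : H → ℂ) z) = (e : ℂ) • (θ : Z → ℂ) := by
    funext z; simp [heθ z]
  have hcon : classInner (fun n : Z => (χ : H → ℂ) n) (θ : Z → ℂ) ≠ 0 := by
    rw [hresχ, classInner_smul_left, IsIrrCharacter.norm_one θ.2, mul_one]; exact he0
  obtain ⟨h1, h2⟩ := fully_ramified_iff Z (χ : H → ℂ) χ.2 (θ : Z → ℂ) θ.2 hcon
  obtain ⟨hvan, hinv⟩ := h1.1 ⟨e, hresχ, he2⟩
  have huniq := (h2.1 ⟨e, hresχ, he2⟩ 1 1).2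
  obtain ⟨⟨q, hqC⟩, hq⟩ := hC.exists_generator
  obtain ⟨g, rfl⟩ := QuotientGroup.mk_surjective q
  set π := QuotientGroup.mk' Z with hπ
  have hpow : ∀ h ∈ C, ∃ k : ℤ, (π g) ^ k = h := by
    intro h hh
    obtain ⟨k, hk⟩ := Subgroup.mem_zpowers_iff.1 (hq ⟨h, hh⟩)
    refine ⟨k, ?_⟩
    have := congrArg Subtype.val hk
    have h' : (g : H ⧸ Z) ^ k = h := by simpa using this
    exact h'
  set Cs : Subgroup H := C.comap π with hCs
  have hZC : Z ≤ Cs := by
    intro z hz
    rw [hCs, Subgroup.mem_comap]
    have : π z = 1 := (QuotientGroup.eq_one_iff z).2 hz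
    rw [this]; exact C.one_mem
  have hcomm : ∀ x : H, π x * π g = π g * π x → x ∈ Cs := by
    intro x hx
    rw [hCs, Subgroup.mem_comap, ← hcent, Subgroup.mem_centralizer_iff]
    intro h hh
    obtain ⟨k, rfl⟩ := hpow h hh
    exact ((Commute.zpow_left (show Commute (π g) (π x) from hx.symm) k)).eq
  have hcomm' : ∀ x ∈ Cs, π x * π g = π g * π x := by
    intro x hx
    obtain ⟨k, hk⟩ := hpow (π x) hx
    rw [← hk]
    exact ((Commute.zpow_left (Commute.refl (π g)) k)).eq
  have hgZ : π g ≠ 1 := by
    intro hg1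
    apply hZ
    rw [eq_top_iff]
    intro x _
    have hx : x ∈ Cs := hcomm x (by rw [hg1]; simp)
    obtain ⟨k, hk⟩ := hpow (π x) hx
    rw [hg1, one_zpow] at hk
    exact (QuotientGroup.eq_one_iff x).1 hk.symm
  haveI := Fintype.ofFinite Cs
  set Z' : Subgroup Cs := Z.subgroupOf Cs with hZ'
  haveI := Fintype.ofFinite Z'
  have hZ'n : Z'.Normal := inferInstance
  have hcyc : IsCyclic (Cs ⧸ Z') := by
    let f : Cs →* C := π.subgroupComap C
    have hf : Z' ≤ f.ker := by
      intro x hx
      rw [MonoidHom.mem_ker]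
      apply Subtype.ext
      exact (QuotientGroup.eq_one_iff (x : H)).2 (Subgroup.mem_subgroupOf.1 hx)
    apply isCyclic_of_injective (QuotientGroup.lift Z' f hf)
    rw [injective_iff_map_eq_one]
    intro a ha
    obtain ⟨c, rfl⟩ := QuotientGroup.mk_surjective a
    rw [QuotientGroup.lift_mk] at ha
    rw [QuotientGroup.eq_one_iff, hZ', Subgroup.mem_subgroupOf]
    exact (QuotientGroup.eq_one_iff (c : H)).1 (congrArg Subtype.val ha)
  set e' := Subgroup.subgroupOfEquivOfLe hZC with he'
  let θ' : IrrCharacter Z' := ⟨fun x => (θ : Z → ℂ) (e' x),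
    IsIrrCharacter.comp_surj e'.toMonoidHom e'.surjective θ.2⟩
  obtain ⟨θh, hθh, hθhres⟩ := extends_of_cyclic Z' hcyc (θ' : Z' → ℂ) θ'.2 (by
    intro c n
    have := hinv (c : H) (e' n)
    show (θ : Z → ℂ) _ = (θ : Z → ℂ) _
    rw [← this]
    apply congrArg
    apply Subtype.ext
    rfl)
  have hθhcl := IsCharacter.isClassFunction (IsIrrCharacter.isCharacter hθh)
  -- the main claim
  have hmain : ∀ c : Cs, π c = π g → θh c = 0 := by
    intro c hc
    set η : Cs → ℂ := fun x => if π x = π g then θh x else 0 with hη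
    have hF0 : indFun Cs η = 0 := by
      apply eq_zero_of_classInner_irr_eq_zero _ (indFun_isClassFunction Cs η)
      intro ψ
      rw [frobenius_reciprocity _ _ _ (IrrCharacter.isClassFunction ψ)]
      unfold classInner
      rw [mul_eq_zero]; right
      by_cases hψ : ψ = χ
      · subst hψ
        apply Finset.sum_eq_zero
        intro x _
        simp only [hη]
        split_ifs with hx
        · rw [hvan x (by
            intro hxZ
            apply hgZ
            rw [← hx]
            exact (QuotientGroup.eq_one_iff (x : H)).2 hxZ)]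
          simp
        · simp
      · have h0 : classInner (fun z : Z => (ψ : H → ℂ) z) (θ : Z → ℂ) = 0 := by
          by_contra hne
          apply hψ
          apply Subtype.ext
          apply huniq _ ψ.2
          rw [frobenius_reciprocity _ _ _ (IrrCharacter.isClassFunction ψ), ← classInner_conj_symm]
          simpa using hne
        have hB := idem_zero Z θ ψ h0
        have hA := idem_self Z' θ' ⟨θh, hθh⟩ 1 (by intro z; rw [one_mul]; exact hθhres z)
        have hπw : ∀ (y : Cs) (w : Z'), π ((y * w : Cs) : H) = π y := by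
          intro y w
          have : π ((w : Cs) : H) = 1 := (QuotientGroup.eq_one_iff _).2 (Subgroup.mem_subgroupOf.1 w.2)
          simp only [Subgroup.coe_mul, map_mul, this, mul_one]
        have hAη : ∀ y : Cs, (θ' : Z' → ℂ) 1 * ∑ w : Z', conj ((θ' : Z' → ℂ) w) * η (y * w)
            = (Nat.card Z' : ℂ) * η y := by
          intro y
          simp only [hη, hπw]
          by_cases hy : π y = π g
          · simp only [if_pos hy]
            exact hA y
          · simp only [if_neg hy]
            simp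
        have hB' : ∀ y : Cs, ∑ w : Z', (θ' : Z' → ℂ) w * (ψ : H → ℂ) ((y * (w : Cs)⁻¹ : Cs) : H) = 0 := by
          intro y
          rw [← hB (y : H), ← Equiv.sum_comp e'.toEquiv, ← Equiv.sum_comp (Equiv.inv Z')]
          apply Finset.sum_congr rfl
          intro w _
          simp only [Equiv.inv_apply, Subgroup.coe_inv, inv_inv]
          rw [IsCharacter.inv_eq_conj (IsIrrCharacter.isCharacter θ'.2)]
          rfl
        have hZ0 : (Nat.card Z' : ℂ) ≠ 0 := card_ne_zero_C
        apply (mul_eq_zero.1 (?_ : (Nat.card Z' : ℂ) * ∑ x : Cs, η x * conj ((ψ : H → ℂ) x) = 0)).resolve_left hZ0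
        rw [Finset.mul_sum]
        simp only [← mul_assoc, ← hAη]
        simp only [Finset.mul_sum, Finset.sum_mul]
        rw [Finset.sum_comm]
        have h3 : ∀ w : Z', ∑ x : Cs, (θ' : Z' → ℂ) 1 * (conj ((θ' : Z' → ℂ) w) * η (x * w)) * conj ((ψ : H → ℂ) x)
            = ∑ x : Cs, (θ' : Z' → ℂ) 1 * (conj ((θ' : Z' → ℂ) w) * η x) * conj ((ψ : H → ℂ) ((x * (w : Cs)⁻¹ : Cs) : H)) := by
          intro w
          rw [← Equiv.sum_comp (Equiv.mulRight (w : Cs)⁻¹)]
          apply Finset.sum_congr rfl
          intro x _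
          simp only [Equiv.coe_mulRight, inv_mul_cancel_right]
        simp only [h3]
        rw [Finset.sum_comm]
        apply Finset.sum_eq_zero
        intro x _
        have h4 : ∑ w : Z', (θ' : Z' → ℂ) 1 * (conj ((θ' : Z' → ℂ) w) * η x) * conj ((ψ : H → ℂ) ((x * (w : Cs)⁻¹ : Cs) : H))
            = (θ' : Z' → ℂ) 1 * η x * conj (∑ w : Z', (θ' : Z' → ℂ) w * (ψ : H → ℂ) ((x * (w : Cs)⁻¹ : Cs) : H)) := by
          rw [map_sum, Finset.mul_sum]
          apply Finset.sum_congr rfl
          intro w _
          rw [map_mul]; ring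
        rw [h4, hB' x]
        simp
    have hval := congrFun hF0 (c : H)
    have hterm : ∀ x : H, extendByZero Cs η (x⁻¹ * c * x) = if x ∈ Cs then θh c else 0 := by
      intro x
      by_cases hx : x ∈ Cs
      · rw [if_pos hx]
        have h5 : x⁻¹ * c * x = (((⟨x, hx⟩ : Cs)⁻¹ * c * ⟨x, hx⟩ : Cs) : H) := rfl
        rw [h5, extendByZero_coe]
        simp only [hη]
        rw [if_pos]
        · have := hθhcl c (⟨x, hx⟩ : Cs)⁻¹
          rwa [inv_inv] at this
        · rw [← h5]
          simp only [map_mul, map_inv, hc]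
          rw [mul_assoc, ← hcomm' x hx, ← mul_assoc, inv_mul_cancel, one_mul]
      · rw [if_neg hx]
        by_cases hmem : x⁻¹ * c * x ∈ Cs
        · rw [extendByZero_mem Cs η hmem]
          simp only [hη]
          rw [if_neg]
          intro h6
          apply hx
          apply hcomm
          simp only [map_mul, map_inv, hc] at h6
          calc π x * π g = π x * ((π x)⁻¹ * π g * π x) := by rw [h6]
            _ = π g * π x := by group
        · exact extendByZero_not_mem Cs η hmem
    unfold indFun at hval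
    simp only [hterm, Pi.zero_apply] at hval
    rw [← Finset.sum_filter, Finset.sum_const, nsmul_eq_mul] at hval
    have hcard : ((Finset.univ.filter (fun x : H => x ∈ Cs)).card : ℂ) = (Nat.card Cs : ℂ) := by
      rw [Nat.card_eq_fintype_card, Fintype.card_subtype]
    have hC0 : (Nat.card Cs : ℂ) ≠ 0 := card_ne_zero_C
    rw [hcard, ← mul_assoc, inv_mul_cancel₀ hC0, one_mul] at hval
    exact hval
  have hred := (reducible_iff_coset_vanish Z' ⟨θh, hθh⟩).2 ⟨⟨g, hqC⟩, by
    intro n
    apply hmain
    have : π ((n : Cs) : H) = 1 := (QuotientGroup.eq_one_iff _).2 (Subgroup.mem_subgroupOf.1 n.2)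
    simp only [Subgroup.coe_mul, map_mul, this, one_mul]⟩
  apply hred
  have : (fun n : Z' => θh n) = (θ' : Z' → ℂ) := funext hθhres
  simp only [this]
  exact θ'.2

end Cfsg.Agent.S4565
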