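import Cfsg.Statements.S4585
import Mathlib
import Cfsg.Agent.Lib_helper1_Basic
import Cfsg.Agent.S4584

set_option autoImplicit false
open Cfsg

namespace Cfsg.Agent.S4585

open Cfsg.Agent.S4584

/-- Let p be a prime and P a group of order p^4. Then P' has index p^2 in P if and only if P has maximal nilpotency class, that is, nilpotency class exactly 3. -/
theorem result {P : Type*} [Group P] [Finite P] (p : ℕ) [Fact p.Prime] (hP : Nat.card P = p ^ 4) :
    (commutator P).index = p ^ 2 ↔ Group.nilpotencyClass P = 3 := by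
  classical
  have hp : p.Prime := Fact.out
  have hPp : IsPGroup p P := IsPGroup.of_card hP
  haveI hnil : Group.IsNilpotent P := hPp.isNilpotent
  obtain ⟨g1, hg1⟩ : ∃ g, g = commutator P := ⟨_, rfl⟩
  haveI n1 : g1.Normal := by rw [hg1]; infer_instance
  obtain ⟨g2, hg2⟩ : ∃ g, g = ⁅g1, (⊤ : Subgroup P)⁆ := ⟨_, rfl⟩
  haveI n2 : g2.Normal := by rw [hg2]; infer_instance
  obtain ⟨g3, hg3⟩ : ∃ g, g = ⁅g2, (⊤ : Subgroup P)⁆ := ⟨_, rfl⟩
  have e1 : (⊤ : Subgroup P).lowerCentralSeries 1 = g1 := by
    rw [Subgroup.top_lowerCentralSeries_one, hg1]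
  have e2 : (⊤ : Subgroup P).lowerCentralSeries 2 = g2 := by
    rw [Subgroup.lowerCentralSeries_succ, e1, hg2]
  have e3 : (⊤ : Subgroup P).lowerCentralSeries 3 = g3 := by
    rw [Subgroup.lowerCentralSeries_succ, e2, hg3]
  have hcls : Group.nilpotencyClass P = 3 ↔ g3 = ⊥ ∧ g2 ≠ ⊥ := by
    rw [← e3, ← e2, Ne, Subgroup.lowerCentralSeries_eq_bot_iff_nilpotencyClass_le,
      Subgroup.lowerCentralSeries_eq_bot_iff_nilpotencyClass_le]
    omega
  rw [hcls, ← hg1]
  have strict : ∀ H : Subgroup P, H ≠ ⊥ → H.Normal → ⁅H, (⊤ : Subgroup P)⁆ < H := by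
    intro H hH hn
    refine lt_of_le_of_ne (Subgroup.commutator_le_left H ⊤) (fun heq => hH ?_)
    have hall : ∀ n, H ≤ (⊤ : Subgroup P).lowerCentralSeries n := by
      intro n
      induction n with
      | zero => simp
      | succ k ih =>
        rw [Subgroup.lowerCentralSeries_succ, ← heq]
        exact Subgroup.commutator_mono ih le_rfl
    have := hall (Group.nilpotencyClass P)
    rw [Subgroup.lowerCentralSeries_nilpotencyClass] at this
    exact le_bot_iff.mp this
  have hcomm2 : ∀ c ∈ g1, ∀ g : P, c * g * c⁻¹ * g⁻¹ ∈ g2 := by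
    intro c hc g
    rw [hg2, ← commutatorElement_def]
    exact Subgroup.commutator_mem_commutator hc (Subgroup.mem_top g)
  obtain ⟨a, ha⟩ := (hPp.to_subgroup g1).exists_card_eq
  have idx_iff : g1.index = p ^ 2 ↔ a = 2 := by
    have h1 := Subgroup.card_mul_index g1
    rw [hP, ha] at h1
    constructor
    · intro h
      rw [h, ← pow_add] at h1
      have := Nat.pow_right_injective hp.two_le h1
      omega
    · intro h
      rw [h] at h1
      have h2 : p ^ 4 = p ^ 2 * p ^ 2 := by ring
      rw [h2] at h1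
      exact Nat.eq_of_mul_eq_mul_left (pow_pos hp.pos 2) h1
  rw [idx_iff]
  constructor
  · intro ha2
    rw [ha2] at ha
    have hg1ne : g1 ≠ ⊥ := by
      intro h
      rw [h, Subgroup.card_bot] at ha
      have := Nat.one_lt_pow (n := 2) (by norm_num) hp.one_lt
      omega
    have l21 : g2 < g1 := by rw [hg2]; exact strict g1 hg1ne n1
    obtain ⟨b, hb⟩ := (hPp.to_subgroup g2).exists_card_eq
    have hb1 : b ≤ 1 := by
      have s := step hPp l21 (le_of_eq hb.symm)
      rw [ha] at s
      have := (Nat.pow_le_pow_iff_right hp.one_lt).mp s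
      omega
    constructor
    · by_cases h2 : g2 = ⊥
      · rw [hg3, h2]; exact Subgroup.commutator_bot_left ⊤
      · have l32 : g3 < g2 := by rw [hg3]; exact strict g2 h2 n2
        obtain ⟨c, hc⟩ := (hPp.to_subgroup g3).exists_card_eq
        have s := step hPp l32 (le_of_eq hc.symm)
        rw [hb] at s
        have := (Nat.pow_le_pow_iff_right hp.one_lt).mp s
        have hc0 : c = 0 := by omega
        rw [hc0, pow_zero] at hc
        exact Subgroup.card_eq_one.mp hc
    · intro h2
      -- g1 central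
      have hcent : g1 ≤ Subgroup.center P := by
        intro c hc
        rw [Subgroup.mem_center_iff]
        intro g
        have h3 := hcomm2 c hc g
        rw [h2, Subgroup.mem_bot] at h3
        calc g * c = (c * g * c⁻¹ * g⁻¹)⁻¹ * (c * g) := by group
          _ = c * g := by rw [h3, inv_one, one_mul]
      obtain ⟨u, v, huv⟩ : ∃ u v : P, u * v ≠ v * u := by
        by_contra h
        push Not at h
        apply hg1ne
        rw [hg1, eq_bot_iff, commutator_def, Subgroup.commutator_le]
        intro g _ k _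
        rw [Subgroup.mem_bot, commutatorElement_def, h g k]
        group
      obtain ⟨j, hj⟩ := (hPp.to_subgroup (Subgroup.center P)).exists_card_eq
      have hj2 : 2 ≤ j := by
        have := Subgroup.card_le_of_le hcent
        rw [ha, hj] at this
        exact (Nat.pow_le_pow_iff_right hp.one_lt).mp this
      obtain ⟨F, hF⟩ : ∃ F, F = Subgroup.center P ⊔ Subgroup.zpowers u := ⟨_, rfl⟩
      have huF : u ∈ F := by rw [hF]; exact Subgroup.mem_sup_right (Subgroup.mem_zpowers u)
      have huZ : u ∉ Subgroup.center P := fun h => huv (Subgroup.mem_center_iff.mp h v).symm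
      have l1 : Subgroup.center P < F :=
        lt_of_le_of_ne (by rw [hF]; exact le_sup_left) (fun h => huZ (h ▸ huF))
      have hFC : F ≤ Subgroup.centralizer ({u} : Set P) := by
        rw [hF]
        refine sup_le ?_ ?_
        · intro z hz'
          rw [memC]; exact (Subgroup.mem_center_iff.mp hz' u).symm
        · rw [Subgroup.zpowers_le, memC]
      have l2 : Subgroup.centralizer ({u} : Set P) < ⊤ :=
        lt_of_le_of_ne le_top (fun h => huv ((memC u v).mp (by rw [h]; exact Subgroup.mem_top v)).symm)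
      have s1 := step hPp l1 (le_of_eq hj.symm)
      have s3 := step hPp l2 (le_trans s1 (Subgroup.card_le_of_le hFC))
      rw [Subgroup.card_top, hP] at s3
      have hj4 := (Nat.pow_le_pow_iff_right hp.one_lt).mp s3
      have hj' : j = 2 := by omega
      rw [hj'] at hj
      have hidx : (Subgroup.center P).index = p ^ 2 := by
        have h1 := Subgroup.card_mul_index (Subgroup.center P)
        rw [hP, hj] at h1
        have h2 : p ^ 4 = p ^ 2 * p ^ 2 := by ring
        rw [h2] at h1
        exact Nat.eq_of_mul_eq_mul_left (pow_pos hp.pos 2) h1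
      have hb' := bwd p hP hidx
      rw [← hg1, ha] at hb'
      have : p ^ 2 = p ^ 1 := by rw [pow_one]; exact hb'
      have := Nat.pow_right_injective hp.two_le this
      omega
  · rintro ⟨h3, h2⟩
    have hg1ne : g1 ≠ ⊥ := by
      intro h
      apply h2
      rw [hg2, h]; exact Subgroup.commutator_bot_left ⊤
    have l21 : g2 < g1 := by rw [hg2]; exact strict g1 hg1ne n1
    have l02 : (⊥ : Subgroup P) < g2 := bot_lt_iff_ne_bot.mpr h2
    have s1 : p ^ (0 + 1) ≤ Nat.card g2 := step hPp l02 (by rw [Subgroup.card_bot, pow_zero])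
    have s2 := step hPp l21 s1
    rw [ha] at s2
    have ha2 := (Nat.pow_le_pow_iff_right hp.one_lt).mp s2
    by_contra hane
    have ha3 : 3 ≤ a := by omega
    have htop : (⊤ : Subgroup P) ≠ ⊥ := fun h => hg1ne (le_bot_iff.mp (h ▸ le_top))
    have l1t : g1 < ⊤ := by
      have := strict ⊤ htop inferInstance
      rwa [← commutator_def, ← hg1] at this
    obtain ⟨x, -, hx⟩ := SetLike.exists_of_lt l1t
    obtain ⟨E, hE⟩ : ∃ E, E = g1 ⊔ Subgroup.zpowers x := ⟨_, rfl⟩
    have hxE : x ∈ E := by rw [hE]; exact Subgroup.mem_sup_right (Subgroup.mem_zpowers x)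
    have lE : g1 < E := lt_of_le_of_ne (by rw [hE]; exact le_sup_left) (fun h => hx (h ▸ hxE))
    have sE : p ^ (3 + 1) ≤ Nat.card E :=
      step hPp lE (by rw [ha]; exact Nat.pow_le_pow_right hp.pos ha3)
    have hEtop : E = ⊤ := Subgroup.eq_top_of_le_card E (by rw [hP]; exact sE)
    have hgen : ∀ T : Subgroup P, g1 ≤ T → x ∈ T → ∀ g, g ∈ T := by
      intro T h1 h2 g
      have h4 : E ≤ T := by rw [hE]; exact sup_le h1 (Subgroup.zpowers_le.mpr h2)
      exact h4 (by rw [hEtop]; exact Subgroup.mem_top g)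
    have hTm : ∀ u g : P, g ∈ (Subgroup.centralizer ({(u : P ⧸ g2)} : Set (P ⧸ g2))).comap (QuotientGroup.mk' g2) ↔
        (g : P ⧸ g2) * (u : P ⧸ g2) = (u : P ⧸ g2) * (g : P ⧸ g2) := by
      intro u g
      rw [Subgroup.mem_comap, memC]
      rfl
    have hZq : ∀ u : P, ∀ c ∈ g1, ((c : P) : P ⧸ g2) * (u : P ⧸ g2) = (u : P ⧸ g2) * (c : P ⧸ g2) := by
      intro u c hc
      have h5 := (QuotientGroup.eq_one_iff (N := g2) _).mpr (hcomm2 c hc u)
      rw [QuotientGroup.mk_mul, QuotientGroup.mk_mul, QuotientGroup.mk_mul, QuotientGroup.mk_inv,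
        QuotientGroup.mk_inv] at h5
      calc ((c : P) : P ⧸ g2) * (u : P ⧸ g2)
          = ((c : P ⧸ g2) * (u : P ⧸ g2) * (c : P ⧸ g2)⁻¹ * (u : P ⧸ g2)⁻¹) * ((u : P ⧸ g2) * (c : P ⧸ g2)) := by group
        _ = (u : P ⧸ g2) * (c : P ⧸ g2) := by rw [h5, one_mul]
    have hx_all : ∀ g : P, (g : P ⧸ g2) * (x : P ⧸ g2) = (x : P ⧸ g2) * (g : P ⧸ g2) := by
      intro g
      rw [← hTm]
      apply hgen
      · intro c hc; rw [hTm]; exact hZq x c hc
      · rw [hTm]
    have hall : ∀ u g : P, (g : P ⧸ g2) * (u : P ⧸ g2) = (u : P ⧸ g2) * (g : P ⧸ g2) := by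
      intro u g
      rw [← hTm]
      apply hgen
      · intro c hc; rw [hTm]; exact hZq u c hc
      · rw [hTm]; exact (hx_all u).symm
    have hle : g1 ≤ g2 := by
      rw [hg1, commutator_def, Subgroup.commutator_le]
      intro g _ k _
      rw [← QuotientGroup.eq_one_iff, commutatorElement_def, QuotientGroup.mk_mul, QuotientGroup.mk_mul,
        QuotientGroup.mk_mul, QuotientGroup.mk_inv, QuotientGroup.mk_inv, hall k g]
      group
    exact (not_le_of_gt l21) hle

end Cfsg.Agent.S4585
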