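import Cfsg.Statements.S4601
import Cfsg.Agent.Lib_helper1_Coprime
import Cfsg.Agent.Lib_helper1_PQ
import Cfsg.Agent.Lib_helper1_SZ
import Cfsg.Agent.Lib_helper7_PSolv

set_option autoImplicit false
set_option linter.style.haveILetI false
open Cfsg
open Pointwise

namespace Cfsg.Agent.S4601

open Subgroup Cfsg.Agent.H1 Cfsg.Agent.H7

universe u

theorem pow_card_of_mem {G : Type u} [Group G] (H : Subgroup G) {g : G} (hg : g ∈ H) :
    g ^ Nat.card H = 1 := by
  calc g ^ Nat.card H = (((⟨g, hg⟩ : H) ^ Nat.card H : H) : G) := (Subgroup.coe_pow H ⟨g, hg⟩ _).symm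
    _ = ((1 : H) : G) := by rw [pow_card_eq_one']
    _ = 1 := rfl

theorem fact_eq {p M N : ℕ} (hp : p.Prime) (hN : N ≠ 0) (h1 : p ^ (N.factorization p) ∣ M)
    (h2 : M ∣ N) : M.factorization p = N.factorization p := by
  have hM : M ≠ 0 := fun h => hN (by rw [h] at h2; exact Nat.eq_zero_of_zero_dvd h2)
  apply le_antisymm
  · exact (Nat.factorization_le_iff_dvd hM hN).2 h2 p
  · exact (hp.pow_dvd_iff_le_factorization hM).1 h1

theorem sylow_of_subgroup {G : Type u} [Group G] [Finite G] (p : ℕ) [hp : Fact p.Prime] (H : Subgroup G)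
    (h : (Nat.card H).factorization p = (Nat.card G).factorization p) :
    ∃ P : Sylow p G, (P : Subgroup G) ≤ H := by
  let P₀ : Sylow p H := default
  have hc : Nat.card ((P₀ : Subgroup H).map H.subtype) = p ^ (Nat.card G).factorization p := by
    rw [Nat.card_congr ((P₀ : Subgroup H).equivMapOfInjective H.subtype H.subtype_injective).toEquiv.symm,
      ← h]
    exact P₀.card_eq_multiplicity
  refine ⟨Sylow.ofCard _ hc, ?_⟩
  rw [Sylow.coe_ofCard]
  exact map_subtype_le _

theorem fact_of_not_dvd_index {G : Type u} [Group G] [Finite G] (p : ℕ) [hp : Fact p.Prime] (H : Subgroup G)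
    (h : ¬ p ∣ H.index) : (Nat.card H).factorization p = (Nat.card G).factorization p := by
  rw [← H.card_mul_index, Nat.factorization_mul Nat.card_pos.ne' (Subgroup.index_ne_zero_of_finite)]
  simp [Nat.factorization_eq_zero_of_not_dvd h]

theorem fact_of_sylow_le {G : Type u} [Group G] [Finite G] (p : ℕ) [hp : Fact p.Prime] (P : Sylow p G)
    (H : Subgroup G) (h : (P : Subgroup G) ≤ H) :
    (Nat.card H).factorization p = (Nat.card G).factorization p := by
  apply fact_eq hp.out Nat.card_pos.ne'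
  · rw [← P.card_eq_multiplicity]
    exact Subgroup.card_dvd_of_le h
  · exact Subgroup.card_subgroup_dvd_card H

theorem orderOf_of_mem_sylow {G : Type u} [Group G] (q : ℕ) [hq : Fact q.Prime] (Q : Sylow q G) (y : G)
    (hy : y ∈ (Q : Subgroup G)) : ∃ k : ℕ, orderOf y = q ^ k := by
  obtain ⟨k, hk⟩ := Q.2 ⟨y, hy⟩
  have h1 : y ^ (q ^ k) = 1 := by simpa using congrArg Subtype.val hk
  obtain ⟨j, _, hj⟩ := (Nat.dvd_prime_pow hq.out).1 (orderOf_dvd_of_pow_eq_one h1)
  exact ⟨j, hj⟩

/-- the coprime-action step -/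
theorem central_sylow {G : Type u} [Group G] [Finite G] (p q : ℕ) [hp : Fact p.Prime] [hq : Fact q.Prime]
    (h : ∀ y : G, (∃ k : ℕ, orderOf y = q ^ k) → ¬ p ∣ (centralizer ({y} : Set G)).index)
    (K : Subgroup G) [hK : K.Normal] (hKq : (Nat.card K).Coprime q) (Q : Sylow q G) :
    ∃ S : Subgroup G, S ≤ K ∧ Nat.card S = p ^ (Nat.card K).factorization p ∧
      ∀ y ∈ (Q : Subgroup G), ∀ s ∈ S, s * y = y * s := by
  have hnK : normalizer (K : Set G) = ⊤ := normalizer_eq_top_iff.2 hK
  have hQK : (Q : Subgroup G) ≤ normalizer (K : Set G) := by rw [hnK]; exact le_top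
  have hcop : (Nat.card (Q : Subgroup G)).Coprime (Nat.card K) := by
    rw [Q.card_eq_multiplicity]
    exact (Nat.Coprime.pow_right _ hKq).symm
  have hQs : Group.IsSolvable (Q : Subgroup G) := isSolvable_of_isPGroup Q.2
  obtain ⟨S₀, hS₀⟩ := coprime_invariant_sylow_exists (Q : Subgroup G) K hQK hcop (Or.inl hQs) p
  have hcardmap : ∀ S' : Sylow p K, Nat.card ((S' : Subgroup K).map K.subtype)
      = p ^ (Nat.card K).factorization p := by
    intro S'
    rw [Nat.card_congr ((S' : Subgroup K).equivMapOfInjective K.subtype K.subtype_injective).toEquiv.symm]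
    exact S'.card_eq_multiplicity
  refine ⟨(S₀ : Subgroup K).map K.subtype, map_subtype_le _, hcardmap S₀, ?_⟩
  intro y hy
  set A := zpowers y with hA
  have hAQ : A ≤ (Q : Subgroup G) := by rw [hA, zpowers_le]; exact hy
  have hAK : A ≤ normalizer (K : Set G) := hAQ.trans hQK
  have hcopA : (Nat.card A).Coprime (Nat.card K) :=
    Nat.Coprime.coprime_dvd_left (Subgroup.card_dvd_of_le hAQ) hcop
  have hAs : Group.IsSolvable A := isSolvable_of_le hAQ hQs
  set C := centralizer ({y} : Set G) with hC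
  have hCi : ¬ p ∣ C.index := h y (orderOf_of_mem_sylow q Q y hy)
  have hvC := fact_of_not_dvd_index p C hCi
  have hvCK : (Nat.card (C ⊔ K : Subgroup G)).factorization p = (Nat.card G).factorization p := by
    apply fact_eq hp.out Nat.card_pos.ne'
    · rw [← hvC]
      exact (Nat.ordProj_dvd _ _).trans (Subgroup.card_dvd_of_le le_sup_left)
    · exact Subgroup.card_subgroup_dvd_card _
  have hprod := card_sup_mul_card_inf C K
  have hvD : (Nat.card (C ⊓ K : Subgroup G)).factorization p = (Nat.card K).factorization p := by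
    have h1 : (Nat.card (C ⊔ K : Subgroup G) * Nat.card (C ⊓ K : Subgroup G)).factorization p
        = (Nat.card C * Nat.card K).factorization p := by rw [hprod]
    rw [Nat.factorization_mul Nat.card_pos.ne' Nat.card_pos.ne',
      Nat.factorization_mul Nat.card_pos.ne' Nat.card_pos.ne'] at h1
    simp only [Finsupp.add_apply] at h1
    omega
  set D := C ⊓ K with hD
  let T₀ : Sylow p D := default
  set T := (T₀ : Subgroup D).map D.subtype with hT
  have hTc : Nat.card T = p ^ (Nat.card K).factorization p := by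
    rw [hT, Nat.card_congr ((T₀ : Subgroup D).equivMapOfInjective D.subtype D.subtype_injective).toEquiv.symm,
      ← hvD]
    exact T₀.card_eq_multiplicity
  have hTD : T ≤ D := map_subtype_le _
  have hTy : ∀ t ∈ T, t * y = y * t := by
    intro t ht
    have h0 : t ∈ centralizer ({y} : Set G) := (hTD ht).1
    rw [mem_centralizer_iff] at h0
    exact (h0 y rfl).symm
  have hAT : A ≤ normalizer (T : Set G) := by
    apply le_normalizer_of_forall
    intro a ha t ht
    obtain ⟨k, rfl⟩ := mem_zpowers_iff.1 ha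
    have hc : Commute (y ^ k) t := (Commute.zpow_left (show Commute y t from (hTy t ht).symm) k)
    rw [hc.eq, mul_assoc, mul_inv_cancel, mul_one]
    exact ht
  obtain ⟨S', hTS', hAS'⟩ := coprime_invariant_psubgroup_le_sylow A K hAK hcopA (Or.inl hAs) p T
    (hTD.trans inf_le_right) (T₀.2.map _) hAT
  have hTeq : T = (S' : Subgroup K).map K.subtype :=
    Subgroup.eq_of_le_of_card_ge hTS' (by rw [hTc, hcardmap S'])
  obtain ⟨c, hc, hcS⟩ := coprime_invariant_sylow_conj A K hAK hcopA (Or.inl hAs) p S' S₀ hAS'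
    (hAQ.trans hS₀)
  have h5 := sylow_smul_map_subtype K S' c
  rw [hcS, ← hTeq] at h5
  intro s hs
  rw [h5, mem_conj_smul] at hs
  have hcy : (c : G) * y = y * c := by
    rw [mem_centralizer_iff] at hc
    exact (hc y (mem_zpowers y)).symm
  have h6 := hTy _ hs
  have h7 : s = c * ((c : G)⁻¹ * s * c) * (c : G)⁻¹ := by group
  have hcy' : (c : G)⁻¹ * y = y * (c : G)⁻¹ := by
    have : Commute (c : G) y := hcy
    exact this.inv_left.eq
  rw [h7]
  calc (c : G) * ((c : G)⁻¹ * s * c) * (c : G)⁻¹ * y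
      = (c : G) * (((c : G)⁻¹ * s * c) * y) * (c : G)⁻¹ := by
        rw [mul_assoc _ _ y, hcy']; group
    _ = (c : G) * (y * ((c : G)⁻¹ * s * c)) * (c : G)⁻¹ := by rw [h6]
    _ = y * ((c : G) * ((c : G)⁻¹ * s * c) * (c : G)⁻¹) := by
        rw [← mul_assoc (c : G) y, hcy]; group

theorem aux (p q : ℕ) [hp : Fact p.Prime] [hq : Fact q.Prime] (hpq : p ≠ q) (n : ℕ) :
    ∀ (G : Type u) [Group G] [Finite G], Nat.card G = n →
    (IsPSolvable p G ∨ IsPSolvable q G) →
    (∀ y : G, (∃ k : ℕ, orderOf y = q ^ k) → ¬ p ∣ (centralizer ({y} : Set G)).index) →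
    ∃ (P : Sylow p G) (Q : Sylow q G), (P : Subgroup G) ≤ normalizer ((Q : Subgroup G) : Set G) := by
  induction n using Nat.strong_induction_on with
  | _ n ih =>
  intro G _ _ hn hsolv h
  by_cases htriv : Subsingleton G
  · exact ⟨default, default, fun x _ => by rw [Subsingleton.elim x 1]; exact one_mem _⟩
  have hnt : Nontrivial G := not_subsingleton_iff_nontrivial.1 htriv
  have hcpq : Nat.Coprime p q := (Nat.coprime_primes hp.out hq.out).2 hpq
  obtain ⟨K, hKn, hK0, hcase⟩ : ∃ K : Subgroup G, K.Normal ∧ ⊥ < K ∧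
      ((∃ m, Nat.card K = p ^ m) ∨ (Nat.card K).Coprime p ∨ (∃ m, Nat.card K = q ^ m) ∨
        (Nat.card K).Coprime q) := by
    rcases hsolv with hs | hs
    · obtain ⟨K, h1, h2, _, h4⟩ := isPSolvable_exists_step hp.out hs (M := ⊥) (N := ⊤) inferInstance
        inferInstance bot_lt_top
      rw [relIndex_bot_left] at h4
      rcases h4 with h4 | h4
      · exact ⟨K, h1, h2, Or.inl h4⟩
      · exact ⟨K, h1, h2, Or.inr (Or.inl h4)⟩
    · obtain ⟨K, h1, h2, _, h4⟩ := isPSolvable_exists_step hq.out hs (M := ⊥) (N := ⊤) inferInstance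
        inferInstance bot_lt_top
      rw [relIndex_bot_left] at h4
      rcases h4 with h4 | h4
      · exact ⟨K, h1, h2, Or.inr (Or.inr (Or.inl h4))⟩
      · exact ⟨K, h1, h2, Or.inr (Or.inr (Or.inr h4))⟩
  set π := QuotientGroup.mk' K with hπ
  have hπs : Function.Surjective π := QuotientGroup.mk'_surjective K
  have hlt : Nat.card (G ⧸ K) < n := by
    rw [← hn, ← card_quotient_mul_card K]
    have h1 : 1 < Nat.card K := by
      rw [Subgroup.one_lt_card_iff_ne_bot]
      exact hK0.ne'
    have h2 : 0 < Nat.card (G ⧸ K) := Nat.card_pos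
    nlinarith
  have hsolv' : IsPSolvable p (G ⧸ K) ∨ IsPSolvable q (G ⧸ K) :=
    hsolv.imp (fun hs => isPSolvable_quotient hp.out hs K) (fun hs => isPSolvable_quotient hq.out hs K)
  have hq' : ∀ y : G ⧸ K, (∃ k : ℕ, orderOf y = q ^ k) →
      ¬ p ∣ (centralizer ({y} : Set (G ⧸ K))).index := by
    rintro y ⟨k, hk⟩
    have hz : IsPGroup q (zpowers y) := IsPGroup.of_card (n := k) (by rw [Nat.card_zpowers, hk])
    obtain ⟨Qb, hQb⟩ := hz.exists_le_sylow
    obtain ⟨Q₀, rfl⟩ := Sylow.mapSurjective_surjective hπs q Qb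
    rw [Sylow.coe_mapSurjective] at hQb
    obtain ⟨y₀, hy₀, rfl⟩ := hQb (mem_zpowers y)
    have h1 := h y₀ (orderOf_of_mem_sylow q Q₀ y₀ hy₀)
    intro h2
    apply h1
    have h3 : (centralizer ({y₀} : Set G)).map π ≤ centralizer ({π y₀} : Set (G ⧸ K)) := by
      rintro _ ⟨c, hc, rfl⟩
      rw [mem_centralizer_iff]
      intro z hz
      rw [Set.mem_singleton_iff] at hz
      subst hz
      have hc' : c ∈ centralizer ({y₀} : Set G) := hc
      rw [mem_centralizer_iff] at hc'
      rw [← map_mul, ← map_mul, hc' y₀ rfl]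
    exact (h2.trans (Subgroup.index_dvd_of_le h3)).trans (Subgroup.index_map_dvd _ hπs)
  obtain ⟨Pb, Qb, hPQ⟩ := ih _ hlt (G ⧸ K) rfl hsolv' hq'
  obtain ⟨P, rfl⟩ := Sylow.mapSurjective_surjective hπs p Pb
  obtain ⟨Q, rfl⟩ := Sylow.mapSurjective_surjective hπs q Qb
  rw [Sylow.coe_mapSurjective, Sylow.coe_mapSurjective] at hPQ
  set L := (Q : Subgroup G) ⊔ K with hL
  have hLmem : ∀ x : G, x ∈ L ↔ π x ∈ (Q : Subgroup G).map π := by
    intro x
    rw [← mem_comap, comap_map_eq, hπ, QuotientGroup.ker_mk']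
  have hPL : (P : Subgroup G) ≤ normalizer (L : Set G) := by
    apply le_normalizer_of_forall
    intro a ha x hx
    rw [hLmem] at hx ⊢
    have := conj_mem_of_le_normalizer hPQ (mem_map_of_mem π ha) hx
    simpa using this
  have hLform : ∀ x ∈ L, ∃ u ∈ (Q : Subgroup G), ∃ k ∈ K, x = u * k := by
    intro x hx
    rw [hL, ← SetLike.mem_coe, mul_normal] at hx
    obtain ⟨u, hu, k, hk, rfl⟩ := hx
    exact ⟨u, hu, k, hk, rfl⟩
  rcases hcase with ⟨m, hm⟩ | hKp | ⟨m, hm⟩ | hKq
  · -- K a p-group
    have hKpg : IsPGroup p K := IsPGroup.of_card hm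
    refine ⟨P, Q, ?_⟩
    apply le_normalizer_of_forall
    intro a ha g hg
    obtain ⟨u, hu, k, hk, huk⟩ := hLform _ (conj_mem_of_le_normalizer hPL ha (le_sup_left (a := (Q : Subgroup G)) hg))
    have hKu : K ≤ centralizer ({u} : Set G) :=
      normal_pgroup_le_of_coprime_index hKpg (h u (orderOf_of_mem_sylow q Q u hu))
    have hcomm : Commute u k := by
      have := hKu hk
      rw [mem_centralizer_iff] at this
      exact this u rfl
    have h1 : (a * g * a⁻¹) ^ Nat.card (Q : Subgroup G) = 1 := by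
      rw [conj_pow]
      rw [pow_card_of_mem _ hg]; group
    have h2 : u ^ Nat.card (Q : Subgroup G) = 1 := pow_card_of_mem _ hu
    rw [huk, hcomm.mul_pow, h2, one_mul] at h1
    have h3 : k ^ Nat.card K = 1 := pow_card_of_mem _ hk
    have h4 : orderOf k ∣ Nat.gcd (Nat.card (Q : Subgroup G)) (Nat.card K) :=
      Nat.dvd_gcd (orderOf_dvd_of_pow_eq_one h1) (orderOf_dvd_of_pow_eq_one h3)
    have h5 : Nat.gcd (Nat.card (Q : Subgroup G)) (Nat.card K) = 1 := by
      rw [Q.card_eq_multiplicity, hm]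
      exact Nat.Coprime.pow _ _ hcpq.symm
    rw [h5, Nat.dvd_one, orderOf_eq_one_iff] at h4
    rw [huk, h4, mul_one]
    exact hu
  · -- K a p'-group
    have hLc : (Nat.card (P : Subgroup G)).Coprime (Nat.card L) := by
      have h1 := card_sup_mul_card_inf (Q : Subgroup G) K
      have h2 : Nat.card L ∣ Nat.card (Q : Subgroup G) * Nat.card K := ⟨_, h1.symm⟩
      apply Nat.Coprime.coprime_dvd_right h2
      rw [P.card_eq_multiplicity, Q.card_eq_multiplicity]
      apply Nat.Coprime.pow_left
      exact Nat.Coprime.mul_right (Nat.Coprime.pow_right _ hcpq) hKp.symm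
    obtain ⟨Q', hQ'⟩ := coprime_invariant_sylow_exists (P : Subgroup G) L hPL hLc
      (Or.inl (isSolvable_of_isPGroup P.2)) q
    have hc : Nat.card ((Q' : Subgroup L).map L.subtype) = q ^ (Nat.card G).factorization q := by
      rw [Nat.card_congr ((Q' : Subgroup L).equivMapOfInjective L.subtype L.subtype_injective).toEquiv.symm,
        ← fact_of_sylow_le q Q L le_sup_left]
      exact Q'.card_eq_multiplicity
    refine ⟨P, Sylow.ofCard _ hc, ?_⟩
    rw [Sylow.coe_ofCard]
    exact hQ'
  · -- K a q-group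
    have hKQ : K ≤ (Q : Subgroup G) := (IsPGroup.of_card hm).le_sylow_of_normal Q
    refine ⟨P, Q, ?_⟩
    rw [hL, sup_eq_left.2 hKQ] at hPL
    exact hPL
  · -- K a q'-group
    obtain ⟨S, hSK, hSc, hSQ⟩ := central_sylow p q h K hKq Q
    set W := (P : Subgroup G) ⊔ K with hW
    set R := normalizer ((Q : Subgroup G) : Set G) ⊓ W with hR
    -- Q as a Sylow subgroup of L
    have hQL : (Q : Subgroup G) ≤ L := le_sup_left
    obtain ⟨Q₁, _, hQ₁⟩ := exists_sylow_of_relIndex hQL Q.2 (by
      intro hd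
      exact Q.not_dvd_index (hd.trans (relIndex_dvd_index_of_le hQL)))
    have hPR : (P : Subgroup G) ≤ R ⊔ K := by
      intro x hx
      obtain ⟨l, hl, hlx⟩ := sylow_frattini_internal L Q₁ x (hPL hx)
      rw [hQ₁] at hlx
      obtain ⟨u, hu, k, hk, rfl⟩ := hLform l hl
      have h1 : k * x ∈ normalizer ((Q : Subgroup G) : Set G) := by
        have h2 : u⁻¹ ∈ normalizer ((Q : Subgroup G) : Set G) := le_normalizer (inv_mem hu)
        have := mul_mem h2 hlx
        simpa [mul_assoc] using this
      have h3 : k * x ∈ W := mul_mem (le_sup_right (a := (P : Subgroup G)) hk) (le_sup_left (b := K) hx)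
      have h4 : x = k⁻¹ * (k * x) := by group
      rw [h4]
      exact mul_mem (le_sup_right (a := R) (inv_mem hk)) (le_sup_left (b := K) ⟨h1, h3⟩)
    have hWR : W = R ⊔ K := by
      apply le_antisymm
      · exact sup_le hPR le_sup_right
      · exact sup_le inf_le_right le_sup_right
    have hprod := card_sup_mul_card_inf R K
    rw [← hWR] at hprod
    have hvW := fact_of_sylow_le p P W le_sup_left
    have hSR : S ≤ R ⊓ K := by
      intro s hs
      refine ⟨⟨?_, le_sup_right (a := (P : Subgroup G)) (hSK hs)⟩, hSK hs⟩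
      have : (zpowers s) ≤ normalizer ((Q : Subgroup G) : Set G) := by
        apply le_normalizer_of_forall
        intro a ha y hy
        obtain ⟨j, rfl⟩ := mem_zpowers_iff.1 ha
        have hc : Commute (s ^ j) y := Commute.zpow_left (hSQ y hy s hs) j
        rw [hc.eq, mul_assoc, mul_inv_cancel, mul_one]
        exact hy
      exact this (mem_zpowers s)
    have hvRK : (Nat.card (R ⊓ K : Subgroup G)).factorization p = (Nat.card K).factorization p := by
      apply fact_eq hp.out Nat.card_pos.ne'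
      · rw [← hSc]; exact Subgroup.card_dvd_of_le hSR
      · exact Subgroup.card_dvd_of_le inf_le_right
    have hvR : (Nat.card R).factorization p = (Nat.card G).factorization p := by
      have h1 : (Nat.card W * Nat.card (R ⊓ K : Subgroup G)).factorization p
          = (Nat.card R * Nat.card K).factorization p := by rw [hprod]
      rw [Nat.factorization_mul Nat.card_pos.ne' Nat.card_pos.ne',
        Nat.factorization_mul Nat.card_pos.ne' Nat.card_pos.ne'] at h1
      simp only [Finsupp.add_apply] at h1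
      omega
    obtain ⟨P', hP'⟩ := sylow_of_subgroup p R hvR
    exact ⟨P', Q, hP'.trans inf_le_left⟩

/-- Let p and q be primes and G a finite group that is p-solvable or q-solvable, in which no q-element has conjugacy class size divisible by p. Then some Sylow p-subgroup of G normalizes some Sylow q-subgroup of G. -/
theorem result {G : Type*} [Group G] [Finite G] (p q : ℕ) [Fact p.Prime] [Fact q.Prime] (hsolv : Cfsg.IsPSolvable p G ∨ Cfsg.IsPSolvable q G)
    (h : ∀ y : G, (∃ k : ℕ, orderOf y = q ^ k) → ¬ p ∣ (Subgroup.centralizer ({y} : Set G)).index) :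
    ∃ (P : Sylow p G) (Q : Sylow q G), (P : Subgroup G) ≤ Subgroup.normalizer ((Q : Subgroup G) : Set G) := by

  by_cases hpq : p = q
  · subst hpq
    exact ⟨default, default, Subgroup.le_normalizer⟩
  · exact aux p q hpq _ G rfl hsolv h

end Cfsg.Agent.S4601
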