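import Cfsg.Statements.S4602
import Cfsg.Agent.Lib_helper7_PSolv3
import Cfsg.Agent.Lib_helper1_Coprime

set_option autoImplicit false
open Cfsg

namespace Cfsg.Agent.S4602

open Subgroup
open scoped commutatorElement

/-- Let G be a finite p-solvable group and q a prime different from p. Some Sylow p-subgroup of G normalizes some Sylow q-subgroup of G if and only if q does not divide the order of G/O_{p'}(G), the quotient by the largest normal subgroup of order prime to p. -/
theorem result {G : Type*} [Group G] [Finite G] (p q : ℕ) [Fact p.Prime] [Fact q.Prime] (hpq : p ≠ q) (hsolv : Cfsg.IsPSolvable p G) :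
    (∃ (P : Sylow p G) (Q : Sylow q G), (P : Subgroup G) ≤ Subgroup.normalizer ((Q : Subgroup G) : Set G)) ↔ ¬ q ∣ (Cfsg.pPrimeCore p G).index := by
  have hpp : p.Prime := Fact.out
  have hqq : q.Prime := Fact.out
  have hcpq : p.Coprime q := (Nat.coprime_primes hpp hqq).mpr hpq
  constructor
  · rintro ⟨P, Q, hPQ⟩
    have hHH : centralizer (Cfsg.pCore p (G ⧸ Cfsg.pPrimeCore p G) : Set (G ⧸ Cfsg.pPrimeCore p G)) ≤
        Cfsg.pCore p (G ⧸ Cfsg.pPrimeCore p G) :=
      Cfsg.Agent.H7.hall_higman_123 (Cfsg.Agent.H7.isPSolvable_quotient hpp hsolv _)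
        (Cfsg.Agent.H7.pPrimeCore_quotient_self p)
    have hVn : (Cfsg.pCore p (G ⧸ Cfsg.pPrimeCore p G)).Normal := Cfsg.Agent.H7.pCore_normal p
    have hVp : IsPGroup p (Cfsg.pCore p (G ⧸ Cfsg.pPrimeCore p G)) := Cfsg.Agent.H7.pCore_isPGroup p
    have hVP := Cfsg.Agent.H7.pCore_le_sylow
      (P.mapSurjective (QuotientGroup.mk'_surjective (Cfsg.pPrimeCore p G)))
    rw [Sylow.coe_mapSurjective] at hVP
    set N := Cfsg.pPrimeCore p G with hN
    set V := Cfsg.pCore p (G ⧸ N) with hV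
    set Qb := (Q : Subgroup G).map (QuotientGroup.mk' N) with hQb
    have hQbq : IsPGroup q Qb := Q.2.map _
    have hVQ : V ≤ normalizer (Qb : Set (G ⧸ N)) :=
      hVP.trans ((map_mono hPQ).trans (le_normalizer_map _))
    obtain ⟨a, ha⟩ := hVp.exists_card_eq
    obtain ⟨b, hb⟩ := hQbq.exists_card_eq
    have hdis : Disjoint V Qb := disjoint_of_coprime_natCard (by
      rw [ha, hb]; exact Nat.Coprime.pow a b hcpq)
    have hcomm : ⁅Qb, V⁆ = ⊥ := by
      rw [eq_bot_iff, ← hdis.eq_bot]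
      refine le_inf ?_ (Cfsg.Agent.H1.commutator_le_of_le_normalizer hVQ)
      rw [commutator_comm]
      exact Cfsg.Agent.H1.commutator_le_of_le_normalizer (normalizer_eq_top V ▸ le_top)
    have h1 : Qb ≤ V := (commutator_eq_bot_iff_le_centralizer.mp hcomm).trans hHH
    have h2 : Qb = ⊥ := by
      rw [eq_bot_iff, ← hdis.eq_bot]
      exact le_inf h1 le_rfl
    rw [hQb, Subgroup.map_eq_bot_iff, QuotientGroup.ker_mk'] at h2
    exact fun h => Q.not_dvd_index (h.trans (index_dvd_of_le h2))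
  · intro hq
    let P : Sylow p G := default
    obtain ⟨a, ha⟩ := P.2.exists_card_eq
    obtain ⟨Q0, hQ0⟩ := Cfsg.Agent.H1.coprime_invariant_sylow_exists (P : Subgroup G) (Cfsg.pPrimeCore p G)
      (normalizer_eq_top (Cfsg.pPrimeCore p G) ▸ le_top)
      (by rw [ha]; exact Nat.Coprime.pow_left a (Cfsg.Agent.H7.pPrimeCore_coprime p).symm)
      (Or.inl (Cfsg.Agent.H1.isSolvable_of_isPGroup P.2)) q
    have h1 : IsPGroup q ((Q0 : Subgroup (Cfsg.pPrimeCore p G)).map (Cfsg.pPrimeCore p G).subtype) :=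
      Q0.2.map _
    have h2 : ¬ q ∣ ((Q0 : Subgroup (Cfsg.pPrimeCore p G)).map (Cfsg.pPrimeCore p G).subtype).index := by
      rw [index_map_subtype]
      exact fun h => ((Nat.Prime.dvd_mul hqq).mp h).elim Q0.not_dvd_index hq
    exact ⟨P, h1.toSylow h2, hQ0⟩

end Cfsg.Agent.S4602
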