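import Cfsg.Statements.S4604
import Mathlib
import Cfsg.Agent.S0876
import Cfsg.Agent.Lib_helper4_BlkS
import Cfsg.Agent.Lib_helper4_CharM

set_option autoImplicit false
open Cfsg

namespace Cfsg.Agent.S4604

open Cfsg.Agent.H4

theorem sum_pow_prime_pow {R : Type*} [CommRing R] {p : ℕ} (hp : p.Prime) (n : ℕ) {ι : Type*}
    (s : Finset ι) (f : ι → R) :
    ∃ r : R, (∑ i ∈ s, f i) ^ (p ^ n) = ∑ i ∈ s, (f i) ^ (p ^ n) + (p : R) * r := by
  classical
  induction s using Finset.induction_on with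
  | empty =>
    refine ⟨0, ?_⟩
    simp only [Finset.sum_empty, mul_zero, add_zero]
    exact zero_pow (pow_pos hp.pos n).ne'
  | insert a s ha ih =>
    obtain ⟨r, hr⟩ := ih
    obtain ⟨r', hr'⟩ := exists_add_pow_prime_pow_eq hp (f a) (∑ i ∈ s, f i) n
    refine ⟨r + f a * (∑ i ∈ s, f i) * r', ?_⟩
    rw [Finset.sum_insert ha, Finset.sum_insert ha, hr', hr]
    ring

theorem char_pow_congr {G : Type*} [Group G] [Finite G] {p : ℕ} (hp : p.Prime) (n : ℕ) {χ : G → ℂ}
    (hχ : Cfsg.IsCharacter G χ) (g : G) :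
    ∃ γ : Cfsg.AlgInt, χ g ^ (p ^ n) = χ (g ^ (p ^ n)) + (p : ℂ) * (γ : ℂ) := by
  obtain ⟨d, μ, h1, h2⟩ := IsCharacter.exists_eigen hχ g
  have hint : ∀ i, IsIntegral ℤ (μ i) := by
    intro i
    refine IsIntegral.of_pow (n := Nat.card G) Nat.card_pos ?_
    rw [h1 i]; exact isIntegral_one
  obtain ⟨r, hr⟩ := sum_pow_prime_pow hp n Finset.univ (fun i => (⟨μ i, hint i⟩ : Cfsg.AlgInt))
  refine ⟨r, ?_⟩
  have h3 := h2 1
  rw [pow_one] at h3
  rw [h3, h2]
  have := congrArg (fun z : Cfsg.AlgInt => (z : ℂ)) hr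
  simpa using this


/-- Let G be a finite group, p a prime and p^a the p-part of the order of G. Let x, y ∈ G and let x′, y′ be their p-regular parts: x′ has order prime to p, commutes with x·x′⁻¹, and x·x′⁻¹ has p-power order (likewise for y). Then x′ and y′ are conjugate in G if and only if for every irreducible character χ of G the algebraic integer χ(x)^(p^a) − χ(y)^(p^a) is p times an algebraic integer. -/
theorem result {G : Type*} [Group G] [Finite G] (p : ℕ) [Fact p.Prime] (x y x' y' : G)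
    (hx : (∃ k : ℕ, orderOf (x * x'⁻¹) = p ^ k) ∧ Commute (x * x'⁻¹) x' ∧ ¬ p ∣ orderOf x')
    (hy : (∃ k : ℕ, orderOf (y * y'⁻¹) = p ^ k) ∧ Commute (y * y'⁻¹) y' ∧ ¬ p ∣ orderOf y') :
    IsConj x' y' ↔ ∀ χ : Cfsg.IrrCharacter G, ∃ γ : Cfsg.AlgInt,
      (χ : G → ℂ) x ^ (p ^ (Nat.card G).factorization p) - (χ : G → ℂ) y ^ (p ^ (Nat.card G).factorization p) = (p : ℂ) * (γ : ℂ) := by
  classical
  have hp : p.Prime := Fact.out
  obtain ⟨⟨k, hk⟩, hcx, hpx⟩ := hx
  obtain ⟨⟨l, hl⟩, hcy, hpy⟩ := hy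
  set P := p ^ (Nat.card G).factorization p with hP
  have hpow : ∀ (u : G) (j : ℕ), orderOf u = p ^ j → u ^ P = 1 := by
    intro u j hu
    rw [← orderOf_dvd_iff_pow_eq_one]
    have h0 := orderOf_dvd_natCard u
    rw [hu] at h0 ⊢
    exact pow_dvd_pow p ((Nat.Prime.pow_dvd_iff_le_factorization hp Nat.card_pos.ne').mp h0)
  have hxP : x ^ P = x' ^ P := by
    have : x = (x * x'⁻¹) * x' := by group
    conv_lhs => rw [this]
    rw [hcx.mul_pow, hpow _ k hk, one_mul]
  have hyP : y ^ P = y' ^ P := by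
    have : y = (y * y'⁻¹) * y' := by group
    conv_lhs => rw [this]
    rw [hcy.mul_pow, hpow _ l hl, one_mul]
  constructor
  · intro hconj χ
    have hχc := IsIrrCharacter.isCharacter χ.2
    obtain ⟨γ1, h1⟩ := char_pow_congr hp ((Nat.card G).factorization p) hχc x
    obtain ⟨γ2, h2⟩ := char_pow_congr hp ((Nat.card G).factorization p) hχc y
    have h3 : (χ : G → ℂ) (x' ^ P) = (χ : G → ℂ) (y' ^ P) := by
      obtain ⟨c, hc⟩ := isConj_iff.mp hconj
      rw [← hc, conj_pow]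
      exact (IsCharacter.isClassFunction hχc (x' ^ P) c).symm
    refine ⟨γ1 - γ2, ?_⟩
    rw [h1, h2, ← hP, hxP, hyP, h3]
    push_cast
    ring
  · intro hall
    obtain ⟨M, hM⟩ := exists_pModular hp
    have hax : Cfsg.IsPPart p x (x * x'⁻¹) := ⟨x', by group, hcx, ⟨k, hk⟩, hpx⟩
    have hay : Cfsg.IsPPart p y (y * y'⁻¹) := ⟨y', by group, hcy, ⟨l, hl⟩, hpy⟩
    have key := (Cfsg.Agent.S0876.result p M hM x y _ _ hax hay).mpr ?_
    · have e1 : (x * x'⁻¹)⁻¹ * x = x' := by group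
      have e2 : (y * y'⁻¹)⁻¹ * y = y' := by group
      rwa [e1, e2] at key
    · intro χ
      have hχc := IsIrrCharacter.isCharacter χ.2
      obtain ⟨γ, hγ⟩ := hall χ
      have ix := IsCharacter.isIntegral hχc x
      have iy := IsCharacter.isIntegral hχc y
      obtain ⟨r, hr⟩ := exists_add_pow_prime_pow_eq hp
        ((⟨_, ix⟩ : Cfsg.AlgInt) - ⟨_, iy⟩) (⟨_, iy⟩ : Cfsg.AlgInt) ((Nat.card G).factorization p)
      rw [sub_add_cancel] at hr
      have hr' := congrArg (fun z : Cfsg.AlgInt => (z : ℂ)) hr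
      simp only [Subalgebra.coe_pow, Subalgebra.coe_add, Subalgebra.coe_mul, Subalgebra.coe_sub] at hr'
      have hpc : (((p : Cfsg.AlgInt) : ℂ)) = (p : ℂ) := by simp
      rw [hpc, ← hP] at hr'
      apply MemLocalIdeal.of_pow hM (MemLocalRing.sub hM (memLocalRing_of_isIntegral hM ix)
        (memLocalRing_of_isIntegral hM iy)) P
      have e : ((χ : G → ℂ) x - (χ : G → ℂ) y) ^ P
          = (p : ℂ) * ((γ : ℂ) - ((χ : G → ℂ) x - (χ : G → ℂ) y) * (χ : G → ℂ) y * (r : ℂ)) := by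
        rw [mul_sub, ← hγ, hr']
        ring
      rw [e]
      refine MemLocalIdeal.mul_right hM ((memLocalIdeal_natCast_iff hM p).mpr dvd_rfl) ?_
      refine MemLocalRing.sub hM (memLocalRing_of_isIntegral hM γ.2) ?_
      exact MemLocalRing.mul hM (MemLocalRing.mul hM (MemLocalRing.sub hM
        (memLocalRing_of_isIntegral hM ix) (memLocalRing_of_isIntegral hM iy))
        (memLocalRing_of_isIntegral hM iy)) (memLocalRing_of_isIntegral hM r.2)

end Cfsg.Agent.S4604
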