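import Cfsg.Statements.S4619

set_option autoImplicit false
open scoped Pointwise
open Cfsg

namespace Cfsg.Agent.S4619


/-- Let P be a Sylow p-subgroup of the finite group G that is a trivial-intersection set: P meets each conjugate g P g⁻¹ with g outside N_G(P) trivially. Then for every nontrivial subgroup Q of P the normalizer of Q lies in the normalizer of P, and any g ∈ G conjugating Q into P lies in N_G(P). -/
theorem result {G : Type*} [Group G] [Finite G] (p : ℕ) [Fact p.Prime] (P : Sylow p G) (hTI : (∀ g : G, g ∉ Subgroup.normalizer ((P : Subgroup G) : Set G) → (P : Subgroup G) ⊓ (MulAut.conj g • (P : Subgroup G)) = ⊥)) (Q : Subgroup G) (hQ : Q ≤ (P : Subgroup G)) (hQ1 : Q ≠ ⊥) :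
    Subgroup.normalizer (Q : Set G) ≤ Subgroup.normalizer ((P : Subgroup G) : Set G) ∧
      ∀ g : G, MulAut.conj g • Q ≤ (P : Subgroup G) → g ∈ Subgroup.normalizer ((P : Subgroup G) : Set G) := by
  have key : ∀ g : G, MulAut.conj g • Q ≤ (P : Subgroup G) →
      g ∈ Subgroup.normalizer ((P : Subgroup G) : Set G) := by
    intro g hg
    by_contra hn
    have h1 := hTI g hn
    apply hQ1
    rw [eq_bot_iff]
    intro q hq
    have h2 : g * q * g⁻¹ ∈ (P : Subgroup G) ⊓ (MulAut.conj g • (P : Subgroup G)) := by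
      refine Subgroup.mem_inf.2 ⟨hg ?_, ?_⟩
      · exact ⟨q, hq, rfl⟩
      · exact ⟨q, hQ hq, rfl⟩
    rw [h1, Subgroup.mem_bot] at h2
    rw [Subgroup.mem_bot]
    have : g * q = g := by
      have := congrArg (· * g) h2
      simpa using this
    simpa using this
  refine ⟨?_, key⟩
  intro g hg
  apply key
  rintro _ ⟨q, hq, rfl⟩
  exact hQ ((Subgroup.mem_normalizer_iff.1 hg q).1 hq)

end Cfsg.Agent.S4619
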