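import Cfsg.Statements.S4620
import Mathlib
import Cfsg.Agent.Lib_helper1_PRed2
import Cfsg.Agent.Lib_helper5_PComp1

set_option autoImplicit false
open scoped Pointwise
open Cfsg

namespace Cfsg.Agent.S4620

open Subgroup in
theorem ti_all {H : Type*} [Group H] [Finite H] (p : ℕ) [Fact p.Prime] (P : Sylow p H)
    (hTI : ∀ g : H, g ∉ Subgroup.normalizer ((P : Subgroup H) : Set H) →
      (P : Subgroup H) ⊓ (MulAut.conj g • (P : Subgroup H)) = ⊥)
    (P' : Sylow p H) (t x : H) (hx : x ∈ P') (hx1 : x ≠ 1) (hxt : t⁻¹ * x * t ∈ P') :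
    t ∈ Subgroup.normalizer ((P' : Subgroup H) : Set H) := by
  obtain ⟨g, rfl⟩ := MulAction.exists_smul_eq H P P'
  have hmem : ∀ y : H, y ∈ g • P ↔ g⁻¹ * y * g ∈ P := by
    intro y
    change y ∈ ((g • P : Sylow p H) : Subgroup H) ↔ _
    rw [Sylow.smul_def, Sylow.pointwise_smul_def, Subgroup.mem_pointwise_smul_iff_inv_smul_mem]
    simp only [MulAut.smul_def, ← map_inv, MulAut.conj_apply, inv_inv]
    exact Iff.rfl
  have hs : g⁻¹ * t * g ∈ Subgroup.normalizer ((P : Subgroup H) : Set H) := by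
    by_contra hcon
    have h1 := hTI _ hcon
    have h2 : g⁻¹ * x * g ∈ (P : Subgroup H) ⊓ (MulAut.conj (g⁻¹ * t * g) • (P : Subgroup H)) := by
      refine Subgroup.mem_inf.mpr ⟨(hmem x).mp hx, ?_⟩
      rw [Subgroup.mem_pointwise_smul_iff_inv_smul_mem]
      have h3 := (hmem _).mp hxt
      have : (MulAut.conj (g⁻¹ * t * g))⁻¹ • (g⁻¹ * x * g) = g⁻¹ * (t⁻¹ * x * t) * g := by
        simp [MulAut.smul_def, MulAut.conj_apply]
        group
      rw [this]
      exact h3
    rw [h1, Subgroup.mem_bot] at h2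
    apply hx1
    have : x = g * (g⁻¹ * x * g) * g⁻¹ := by group
    rw [this, h2]
    group
  rw [Subgroup.mem_normalizer_iff] at hs ⊢
  intro h
  change h ∈ g • P ↔ t * h * t⁻¹ ∈ g • P
  rw [hmem, hmem]
  have := hs (g⁻¹ * h * g)
  have e : g⁻¹ * t * g * (g⁻¹ * h * g) * (g⁻¹ * t * g)⁻¹ = g⁻¹ * (t * h * t⁻¹) * g := by group
  rw [e] at this
  exact this

theorem claimA {H : Type*} [Group H] [Finite H] (p : ℕ) [Fact p.Prime]
    (hOp : Cfsg.pCore p H = ⊥) (hOp' : Cfsg.pPrimeCore p H = ⊥)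
    (hTI : ∀ (P' : Sylow p H) (t x : H), x ∈ P' → x ≠ 1 → t⁻¹ * x * t ∈ P' →
      t ∈ Subgroup.normalizer ((P' : Subgroup H) : Set H))
    (K L : Subgroup H) (hK : K.IsSubnormal) (hL : L.IsSubnormal) (hK1 : K ≠ ⊥) (hL1 : L ≠ ⊥)
    (hc : ∀ k ∈ K, ∀ l ∈ L, k * l = l * k) : False := by
  have hp : p.Prime := Fact.out
  have hdvd : ∀ A : Subgroup H, A.IsSubnormal → A ≠ ⊥ → p ∣ Nat.card A := by
    intro A hA hA1
    by_contra hnd
    apply hA1
    have := Cfsg.Agent.H5.subnormal_coprime_le_pPrimeCore p A hA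
      ((Nat.Prime.coprime_iff_not_dvd hp).mpr hnd).symm
    rw [hOp'] at this
    exact le_bot_iff.mp this
  obtain ⟨y, hy⟩ := exists_prime_orderOf_dvd_card' (G := L) p (hdvd L hL hL1)
  obtain ⟨z, hz⟩ := exists_prime_orderOf_dvd_card' (G := K) p (hdvd K hK hK1)
  have hy' : orderOf (y : H) = p := by rw [Subgroup.orderOf_coe]; exact hy
  have hz' : orderOf (z : H) = p := by rw [Subgroup.orderOf_coe]; exact hz
  have hpy : IsPGroup p (Subgroup.zpowers (y : H)) := by
    apply IsPGroup.of_card (n := 1)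
    rw [Nat.card_zpowers, hy', pow_one]
  have hpz : IsPGroup p (Subgroup.zpowers (z : H)) := by
    apply IsPGroup.of_card (n := 1)
    rw [Nat.card_zpowers, hz', pow_one]
  obtain ⟨P', hP'⟩ := hpy.exists_le_sylow
  have hyP : (y : H) ∈ P' := hP' (Subgroup.mem_zpowers _)
  have hy1 : (y : H) ≠ 1 := by
    intro h
    rw [h, orderOf_one] at hy'
    exact hp.one_lt.ne hy'
  have hKN : K ≤ Subgroup.normalizer ((P' : Subgroup H) : Set H) := by
    intro t ht
    apply hTI P' t y hyP hy1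
    have : t⁻¹ * (y : H) * t = y := by
      rw [mul_assoc, ← hc t ht y y.2, inv_mul_cancel_left]
    rw [this]
    exact hyP
  have hDn : ((K ⊓ (P' : Subgroup H)).subgroupOf K).Normal := by
    refine ⟨?_⟩
    intro x hx k
    rw [Subgroup.mem_subgroupOf] at hx ⊢
    refine ⟨(k * x * k⁻¹).2, ?_⟩
    have := (Subgroup.mem_normalizer_iff.mp (hKN k.2) (x : H)).mp hx.2
    exact this
  have hDs : (K ⊓ (P' : Subgroup H)).IsSubnormal :=
    Subgroup.IsSubnormal.step _ K inf_le_left hK hDn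
  have hDp : IsPGroup p (K ⊓ (P' : Subgroup H) : Subgroup H) := P'.2.to_le inf_le_right
  have hD : K ⊓ (P' : Subgroup H) = ⊥ := by
    have := Cfsg.Agent.H1.subnormal_pgroup_le_pCore hDs hDp
    rw [hOp] at this
    exact le_bot_iff.mp this
  have hzP : (z : H) ∈ Subgroup.zpowers (z : H) ⊓ (P' : Subgroup H) := by
    rw [← hpz.inf_normalizer_sylow P']
    exact ⟨Subgroup.mem_zpowers _, hKN z.2⟩
  have : (z : H) ∈ K ⊓ (P' : Subgroup H) := ⟨z.2, hzP.2⟩
  rw [hD, Subgroup.mem_bot] at this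
  rw [this, orderOf_one] at hz'
  exact hp.one_lt.ne hz'

/-- Let H be a finite group with no nontrivial normal p-subgroup and no nontrivial normal subgroup of order prime to p, whose Sylow p-subgroup P is nontrivial and a trivial-intersection set (P meets its conjugates by elements outside N_H(P) trivially). Then H has a unique minimal normal subgroup N; N is non-abelian simple with trivial centralizer in H (so H embeds in Aut(N)), and a Sylow p-subgroup of N is again a nontrivial trivial-intersection set in N. -/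
theorem result {H : Type*} [Group H] [Finite H] (p : ℕ) [Fact p.Prime] (hOp : Cfsg.pCore p H = ⊥) (hOp' : Cfsg.pPrimeCore p H = ⊥) (P : Sylow p H) (hP1 : (P : Subgroup H) ≠ ⊥)
    (hTI : ∀ g : H, g ∉ Subgroup.normalizer ((P : Subgroup H) : Set H) → (P : Subgroup H) ⊓ (MulAut.conj g • (P : Subgroup H)) = ⊥) :
    ∃ N : Subgroup H, N.Normal ∧ N ≠ ⊥ ∧ (∀ K : Subgroup H, K.Normal → K ≠ ⊥ → N ≤ K) ∧
      IsSimpleGroup N ∧ ¬ IsMulCommutative N ∧ Subgroup.centralizer (N : Set H) = ⊥ ∧
      ∀ Q : Sylow p N, (Q : Subgroup N) ≠ ⊥ ∧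
        ∀ n : N, n ∉ Subgroup.normalizer ((Q : Subgroup N) : Set N) → (Q : Subgroup N) ⊓ (MulAut.conj n • (Q : Subgroup N)) = ⊥ := by
  classical
  have hp : p.Prime := Fact.out
  have hT := ti_all p P hTI
  have hA := claimA p hOp hOp' hT
  -- a nontrivial normal subgroup of least order
  obtain ⟨N, ⟨hNn, hN1⟩, hNmin'⟩ :=
    (measure (fun K : Subgroup H => Nat.card K)).wf.has_min {K | K.Normal ∧ K ≠ ⊥}
      ⟨⊤, inferInstance, fun h => hP1 (le_bot_iff.mp (h ▸ le_top))⟩
  have hNmin : ∀ K : Subgroup H, K.Normal → K ≠ ⊥ → Nat.card N ≤ Nat.card K :=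
    fun K hK hK1 => not_lt.mp (hNmin' K ⟨hK, hK1⟩)
  haveI := hNn
  have hNs : N.IsSubnormal := hNn.isSubnormal
  have huniq : ∀ K : Subgroup H, K.Normal → K ≠ ⊥ → N ≤ K := by
    intro K hK hK1
    haveI := hK
    by_cases hd : N ⊓ K = ⊥
    · exfalso
      apply hA N K hNs hK.isSubnormal hN1 hK1
      intro k hk l hl
      exact Subgroup.commute_of_normal_of_disjoint N K hNn hK (disjoint_iff.mpr hd) k l hk hl
    · have h1 := hNmin (N ⊓ K) inferInstance hd
      have h2 : N ⊓ K = N := Subgroup.eq_of_le_of_card_ge inf_le_left h1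
      exact inf_eq_left.mp h2
  have hdvd : p ∣ Nat.card N := by
    by_contra hnd
    apply hN1
    have := Cfsg.Agent.H5.subnormal_coprime_le_pPrimeCore p N hNs
      ((Nat.Prime.coprime_iff_not_dvd hp).mpr hnd).symm
    rw [hOp'] at this
    exact le_bot_iff.mp this
  haveI hNnt : Nontrivial N := (Subgroup.nontrivial_iff_ne_bot N).mpr hN1
  refine ⟨N, hNn, hN1, huniq, ?_, ?_, ?_, ?_⟩
  · -- simple
    refine ⟨?_⟩
    intro K hK
    by_contra hcon
    push Not at hcon
    obtain ⟨M, ⟨hMn, hM1⟩, hMmin'⟩ :=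
      (measure (fun K : Subgroup N => Nat.card K)).wf.has_min {K | K.Normal ∧ K ≠ ⊥}
        ⟨K, hK, hcon.1⟩
    have hMmin : ∀ K : Subgroup N, K.Normal → K ≠ ⊥ → Nat.card M ≤ Nat.card K :=
      fun K hK hK1 => not_lt.mp (hMmin' K ⟨hK, hK1⟩)
    have hMtop : M ≠ ⊤ := by
      intro h
      have h1 := hMmin K hK hcon.1
      rw [h] at h1
      exact hcon.2 (Subgroup.eq_of_le_of_card_ge le_top h1)
    have hsub : ∀ A : Subgroup N, A.Normal → (A.map N.subtype).IsSubnormal :=
      fun A hA' => Subgroup.IsSubnormal.trans' hA'.isSubnormal hNs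
    have hne : ∀ A : Subgroup N, A ≠ ⊥ → A.map N.subtype ≠ ⊥ := by
      intro A hA' h
      exact hA' ((Subgroup.map_eq_bot_iff_of_injective _ N.subtype_injective).mp h)
    have key : ∀ h : H, M.map (MulAut.conjNormal h : N ≃* N).toMonoidHom = M := by
      intro h
      set Mh := M.map (MulAut.conjNormal h : N ≃* N).toMonoidHom with hMh
      have hMhn : Mh.Normal := hMn.map _ (MulAut.conjNormal h : N ≃* N).surjective
      have hcard : Nat.card Mh = Nat.card M :=
        Subgroup.card_map_of_injective (MulAut.conjNormal h : N ≃* N).injective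
      have hMh1 : Mh ≠ ⊥ := by
        intro h0
        rw [h0, Subgroup.card_bot] at hcard
        exact hM1 (Subgroup.card_eq_one.mp hcard.symm)
      by_cases hd : M ⊓ Mh = ⊥
      · exfalso
        apply hA (M.map N.subtype) (Mh.map N.subtype) (hsub M hMn) (hsub Mh hMhn) (hne M hM1)
          (hne Mh hMh1)
        rintro _ ⟨k, hk, rfl⟩ _ ⟨l, hl, rfl⟩
        have := Subgroup.commute_of_normal_of_disjoint M Mh hMn hMhn (disjoint_iff.mpr hd) k l hk hl
        exact congrArg Subtype.val this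
      · haveI := hMn
        haveI := hMhn
        have h1 := hMmin (M ⊓ Mh) inferInstance hd
        have h2 : M ⊓ Mh = M := Subgroup.eq_of_le_of_card_ge inf_le_left h1
        have h3 : M ≤ Mh := inf_eq_left.mp h2
        exact (Subgroup.eq_of_le_of_card_ge h3 hcard.le).symm
    have hMH : (M.map N.subtype).Normal := by
      refine ⟨?_⟩
      rintro _ ⟨x, hx, rfl⟩ g
      have : (MulAut.conjNormal g : N ≃* N) x ∈ M := by
        rw [← key g]
        exact ⟨x, hx, rfl⟩
      exact ⟨_, this, rfl⟩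
    have h1 := huniq _ hMH (hne M hM1)
    apply hMtop
    rw [eq_top_iff]
    intro x _
    obtain ⟨y, hy, hyx⟩ := h1 x.2
    have : y = x := Subtype.ext hyx
    rw [← this]
    exact hy
  · intro hc
    apply hA N N hNs hNs hN1 hN1
    intro k hk l hl
    exact congrArg Subtype.val (hc.is_comm.comm ⟨k, hk⟩ ⟨l, hl⟩)
  · by_contra hcon
    have hCn : (Subgroup.centralizer (N : Set H)).Normal := inferInstance
    apply hA N _ hNs hCn.isSubnormal hN1 hcon
    intro k hk l hl
    exact hl k hk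
  · intro Q
    refine ⟨Q.ne_bot_of_dvd_card hdvd, ?_⟩
    intro n hn
    by_contra hcon
    apply hn
    obtain ⟨x, hx, hx1⟩ : ∃ x : N, x ∈ (Q : Subgroup N) ⊓ (MulAut.conj n • (Q : Subgroup N)) ∧ x ≠ 1 := by
      by_contra hno
      push Not at hno
      exact hcon ((Subgroup.eq_bot_iff_forall _).mpr hno)
    obtain ⟨hxQ, hxn⟩ := Subgroup.mem_inf.mp hx
    rw [Subgroup.mem_pointwise_smul_iff_inv_smul_mem] at hxn
    have hxn' : n⁻¹ * x * n ∈ (Q : Subgroup N) := by
      have e : (MulAut.conj n)⁻¹ • x = n⁻¹ * x * n := by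
        simp only [MulAut.smul_def, ← map_inv, MulAut.conj_apply, inv_inv]
      rw [← e]
      exact hxn
    obtain ⟨P', hP'⟩ := (Q.2.map N.subtype).exists_le_sylow
    have hnN : (n : H) ∈ Subgroup.normalizer ((P' : Subgroup H) : Set H) := by
      apply hT P' n x (hP' ⟨x, hxQ, rfl⟩) (fun h => hx1 (Subtype.ext h))
      exact hP' ⟨_, hxn', rfl⟩
    have hQP : (P' : Subgroup H).subgroupOf N = (Q : Subgroup N) := by
      apply Q.is_maximal'
      · exact P'.2.comap_of_injective N.subtype N.subtype_injective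
      · intro y hy
        exact hP' ⟨y, hy, rfl⟩
    rw [← hQP, Subgroup.mem_normalizer_iff]
    intro h
    rw [Subgroup.mem_subgroupOf, Subgroup.mem_subgroupOf]
    exact Subgroup.mem_normalizer_iff.mp hnN (h : H)

end Cfsg.Agent.S4620
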