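import Cfsg.Statements.S4784
import Cfsg.Agent.Lib_helper2_FS2

set_option autoImplicit false
set_option linter.style.haveILetI false
open Cfsg

namespace Cfsg.Agent.S4784

open Cfsg.Agent.H4

/-- Let H be a subgroup of the finite group G and consider the permutation character of G on the cosets of H (the function induced from the principal character of H). Then exactly one irreducible constituent of it is real-valued with Frobenius–Schur indicator +1 (namely the principal character) if and only if the normal core of H has odd index in G. -/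
theorem result {G : Type*} [Group G] [Fintype G] (H : Subgroup G) : Nat.card {χ : Cfsg.IrrCharacter G // Cfsg.classInner (Cfsg.indFun H (fun _ : H => (1 : ℂ))) (χ : G → ℂ) ≠ 0 ∧ (∀ g : G, (starRingEnd ℂ) ((χ : G → ℂ) g) = (χ : G → ℂ) g) ∧ (Nat.card G : ℂ)⁻¹ * ∑ g : G, (χ : G → ℂ) (g * g) = 1} = 1 ↔ Odd H.normalCore.index := by
  classical
  haveI := Fintype.ofFinite (IrrCharacter G)
  haveI := Fintype.ofFinite H
  set π := indFun H (fun _ : H => (1 : ℂ)) with hπ
  set K := H.normalCore with hK
  have hKH : K ≤ H := Subgroup.normalCore_le H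
  have hπtriv : classInner π ((trivIrr G : IrrCharacter G) : G → ℂ) = 1 := by
    rw [hπ, frobenius_reciprocity _ _ _ (IrrCharacter.isClassFunction _)]
    exact norm_triv H
  have htriv : classInner π ((trivIrr G : IrrCharacter G) : G → ℂ) ≠ 0 ∧
      (∀ g : G, (starRingEnd ℂ) (((trivIrr G : IrrCharacter G) : G → ℂ) g) = ((trivIrr G : IrrCharacter G) : G → ℂ) g) ∧
      (Nat.card G : ℂ)⁻¹ * ∑ g : G, ((trivIrr G : IrrCharacter G) : G → ℂ) (g * g) = 1 := by
    refine ⟨by rw [hπtriv]; exact one_ne_zero, fun g => ?_, H2.nu_triv⟩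
    show (starRingEnd ℂ) 1 = 1
    simp
  constructor
  · intro hcard
    by_contra hodd
    rw [Nat.not_odd_iff_even] at hodd
    obtain ⟨hsub, -⟩ := Nat.card_eq_one_iff_unique.1 hcard
    -- an element outside `H` with square in `H`
    haveI : Fact (Nat.Prime 2) := ⟨Nat.prime_two⟩
    obtain ⟨tb, htb⟩ := exists_prime_orderOf_dvd_card' (G := G ⧸ K) 2
      (by rw [← Subgroup.index_eq_card]; exact hodd.two_dvd)
    obtain ⟨t, rfl⟩ := QuotientGroup.mk_surjective tb
    have ht1 : t ∉ K := by
      intro h
      rw [(QuotientGroup.eq_one_iff t).2 h, orderOf_one] at htb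
      norm_num at htb
    have ht2 : t * t ∈ K := by
      rw [← QuotientGroup.eq_one_iff, QuotientGroup.mk_mul, ← pow_two, ← htb, pow_orderOf_eq_one]
    obtain ⟨b, hb⟩ : ∃ b : G, b * t * b⁻¹ ∉ H := by
      by_contra hcon
      push Not at hcon
      exact ht1 hcon
    set g := b * t * b⁻¹ with hg
    have hgg : g * g ∈ H := by
      have : g * g = b * (t * t) * b⁻¹ := by rw [hg]; group
      rw [this]
      exact hKH ((inferInstance : K.Normal).conj_mem _ ht2 b)
    -- the count
    have hnu1 := H2.nu_ind H (fun _ : H => (1 : ℂ))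
    have hsum : ∑ s : G, extendByZero H (fun _ : H => (1 : ℂ)) (s * s)
        = (Nat.card {s : G // s * s ∈ H} : ℂ) := by
      have h1 : ∀ s : G, extendByZero H (fun _ : H => (1 : ℂ)) (s * s) = if s * s ∈ H then 1 else 0 := by
        intro s
        split_ifs with h
        · rw [extendByZero_mem H _ h]
        · rw [extendByZero_not_mem H _ h]
      simp only [h1]
      rw [Nat.card_eq_fintype_card, Fintype.card_subtype]
      simp
    have hN : Nat.card H + 1 ≤ Nat.card {s : G // s * s ∈ H} := by
      have h1 : Nat.card {s : G // s * s ∈ H} = ({s : G | s * s ∈ H} : Set G).ncard := by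
        rw [← Nat.card_coe_set_eq]; rfl
      have h2 : Nat.card H = (H : Set G).ncard := by
        rw [← Nat.card_coe_set_eq]; rfl
      rw [h1, h2, ← Set.ncard_insert_of_notMem (show g ∉ (H : Set G) from hb) (Set.toFinite _)]
      apply Set.ncard_le_ncard _ (Set.toFinite _)
      intro s hs
      rcases Set.mem_insert_iff.1 hs with rfl | hs
      · exact hgg
      · exact H.mul_mem hs hs
    choose mm hmm using fun χ : IrrCharacter G =>
      IsCharacter.classInner_irr_nat (IsCharacter.ind H (IsCharacter.one (G := H))) χ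
    choose nn hnn hnn' using fun χ : IrrCharacter G => H2.exists_nuZ χ
    have hnu2 := H2.nu_expansion π (indFun_isClassFunction _ _)
    rw [hnu1, hsum] at hnu2
    have hH0 : (Nat.card H : ℂ) ≠ 0 := card_ne_zero_C
    have hZ : (Nat.card {s : G // s * s ∈ H} : ℤ) = (Nat.card H : ℤ) * ∑ χ : IrrCharacter G, (mm χ : ℤ) * nn χ := by
      have h1 : (Nat.card {s : G // s * s ∈ H} : ℂ)
          = (Nat.card H : ℂ) * ∑ χ : IrrCharacter G, (mm χ : ℂ) * (nn χ : ℂ) := by
        have h2 : ∑ χ : IrrCharacter G, (mm χ : ℂ) * (nn χ : ℂ)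
            = ∑ χ : IrrCharacter G, classInner π (χ : G → ℂ) * H2.nu (χ : G → ℂ) := by
          apply Finset.sum_congr rfl
          intro χ _
          rw [hnn χ, hπ, hmm χ]
        rw [h2, ← hnu2]
        field_simp
      exact_mod_cast h1
    have hle : ∑ χ : IrrCharacter G, (mm χ : ℤ) * nn χ ≤ 1 := by
      rw [← Finset.add_sum_erase _ _ (Finset.mem_univ (trivIrr G))]
      have h1 : (mm (trivIrr G) : ℤ) * nn (trivIrr G) = 1 := by
        have h2 : (mm (trivIrr G) : ℂ) = 1 := by rw [← hmm]; exact hπtriv
        have h3 : (nn (trivIrr G) : ℂ) = 1 := by rw [← hnn]; exact H2.nu_triv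
        have h2' : mm (trivIrr G) = 1 := by exact_mod_cast h2
        have h3' : nn (trivIrr G) = 1 := by exact_mod_cast h3
        rw [h2', h3']; norm_num
      have h2 : ∑ χ ∈ Finset.univ.erase (trivIrr G), (mm χ : ℤ) * nn χ ≤ 0 := by
        apply Finset.sum_nonpos
        intro χ hχ
        have hne : χ ≠ trivIrr G := Finset.ne_of_mem_erase hχ
        by_cases hm0 : mm χ = 0
        · rw [hm0]; simp
        · have h3 : nn χ ≠ 1 := by
            intro h4
            have h5 : H2.nu (χ : G → ℂ) = 1 := by rw [hnn, h4]; simp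
            apply hne
            have h6 := @Subsingleton.elim _ hsub ⟨χ, by
              refine ⟨?_, ?_, h5⟩
              · rw [hπ, hmm]; exact_mod_cast hm0
              · intro g
                exact Complex.conj_eq_iff_im.2 (H2.real_of_nu_ne_zero χ (by rw [h5]; exact one_ne_zero) g)⟩
              ⟨trivIrr G, htriv⟩
            exact congrArg Subtype.val h6
          have h4 : nn χ ≤ 0 := by
            rcases hnn' χ with h | h | h
            · omega
            · exact absurd h h3
            · omega
          exact mul_nonpos_of_nonneg_of_nonpos (Int.natCast_nonneg _) h4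
      omega
    have hpos : (0 : ℤ) < Nat.card H := by exact_mod_cast Nat.card_pos
    have : (Nat.card {s : G // s * s ∈ H} : ℤ) ≤ Nat.card H := by
      rw [hZ]; nlinarith
    have h' : (Nat.card H : ℤ) + 1 ≤ (Nat.card {s : G // s * s ∈ H} : ℤ) := by exact_mod_cast hN
    omega
  · intro hodd
    rw [Nat.card_eq_one_iff_unique]
    refine ⟨⟨?_⟩, ⟨⟨trivIrr G, htriv⟩⟩⟩
    have key : ∀ χ : IrrCharacter G, classInner π (χ : G → ℂ) ≠ 0 →
        (∀ g : G, (starRingEnd ℂ) ((χ : G → ℂ) g) = (χ : G → ℂ) g) → χ = trivIrr G := by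
      intro χ h1 h2
      have hker := H2.ker_of_perm_constituent H K hKH χ h1
      obtain ⟨χ', hχ', hval⟩ := IsIrrCharacter.deflate K χ.2 hker
      have h3 := odd_real_irr_trivial (G := G ⧸ K) (by rw [← Subgroup.index_eq_card]; exact hodd)
        ⟨χ', hχ'⟩ (by
          intro q
          obtain ⟨g, rfl⟩ := QuotientGroup.mk_surjective q
          show (χ' (g : G ⧸ K)).im = 0
          rw [hval]
          exact Complex.conj_eq_iff_im.1 (h2 g))
      apply Subtype.ext
      funext g
      rw [← hval g]
      exact congrFun h3 _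
    rintro ⟨χ, h1, h2, -⟩ ⟨ψ, h3, h4, -⟩
    apply Subtype.ext
    show χ = ψ
    rw [key χ h1 h2, key ψ h3 h4]

end Cfsg.Agent.S4784
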