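import Cfsg.Statements.S4796
import Cfsg.Agent.Lib_helper2_Codeg
import Cfsg.Agent.Lib_helper3_FrobA

set_option autoImplicit false
set_option linter.style.haveILetI false
open Cfsg

namespace Cfsg.Agent.S4796

open Cfsg.Agent.H4

/-- structural core: a self-centralising normal subgroup of order `p`. -/
theorem core {G : Type*} [Group G] [Finite G] (χ : Cfsg.IrrCharacter G)
    (hfaith : ∀ g : G, (χ : G → ℂ) g = (χ : G → ℂ) 1 → g = 1) (p : ℕ) (hp : p.Prime) (d : ℕ)
    (hd : (χ : G → ℂ) 1 = d) (hcod : Nat.card G = p * d) :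
    d < p ∧ ∃ P : Subgroup G, P.Normal ∧ Nat.card P = p ∧ P.index = d ∧
      ∀ u : G, (∀ n ∈ P, u * n = n * u) → u ∈ P := by
  classical
  haveI := Fintype.ofFinite G
  haveI := Fintype.ofFinite (IrrCharacter G)
  haveI : Fact p.Prime := ⟨hp⟩
  have hd0 : 0 < d := by
    rcases Nat.eq_zero_or_pos d with h | h
    · rw [h, mul_zero] at hcod
      exact absurd hcod Nat.card_pos.ne'
    · exact h
  have hne : χ ≠ trivIrr G := by
    intro h
    have h1 : ∀ g : G, g = 1 := by
      intro g
      apply hfaith
      rw [h]; rfl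
    have h2 : Nat.card G = 1 := by
      haveI : Subsingleton G := ⟨fun a b => (h1 a).trans (h1 b).symm⟩
      exact Nat.card_unique
    have h3 : p ∣ 1 := by rw [← h2, hcod]; exact dvd_mul_right _ _
    exact hp.one_lt.ne' (Nat.dvd_one.1 h3)
  have hlt : d < p := by
    choose dg hdg0 hdgdvd hdg using fun φ : IrrCharacter G => IsIrrCharacter.exists_degree φ.2
    have h1 : ∑ φ : IrrCharacter G, dg φ ^ 2 = Nat.card G := by
      have h2 := sum_sq_degrees' (G := G)
      simp only [hdg] at h2
      exact_mod_cast h2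
    have h3 : dg χ ^ 2 + dg (trivIrr G) ^ 2 ≤ ∑ φ : IrrCharacter G, dg φ ^ 2 := by
      rw [← Finset.sum_pair (f := fun φ => dg φ ^ 2) hne]
      exact Finset.sum_le_sum_of_subset (Finset.subset_univ _)
    have h4 : dg χ = d := by
      have := hdg χ
      rw [hd] at this
      exact_mod_cast this.symm
    have h5 : 0 < dg (trivIrr G) ^ 2 := pow_pos (hdg0 _) 2
    rw [h1, h4, hcod] at h3
    by_contra hcon
    push Not at hcon
    nlinarith
  refine ⟨hlt, ?_⟩
  obtain ⟨P⟩ : Nonempty (Sylow p G) := inferInstance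
  obtain ⟨θ, hθ, e, hθ1, hPc⟩ := H2.induced_from_sylow p χ 1 d hd (by rw [pow_one]; exact hcod) P
  have he : e = 0 := by
    by_contra hne0
    have h1 : p ^ (1 + e) ∣ p * d := by
      rw [← hPc, ← hcod]; exact Subgroup.card_subgroup_dvd_card _
    rw [pow_add, pow_one] at h1
    have h2 : p ^ e ∣ d := Nat.dvd_of_mul_dvd_mul_left hp.pos h1
    have h3 : p ∣ d := (dvd_pow_self p hne0).trans h2
    exact absurd (Nat.le_of_dvd hd0 h3) (by omega)
  subst he
  rw [add_zero, pow_one] at hPc
  have hidx : (P : Subgroup G).index = d := by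
    have h1 := (P : Subgroup G).card_mul_index
    rw [hPc, hcod] at h1
    exact Nat.eq_of_mul_eq_mul_left hp.pos h1
  have hsyl : Nat.card (Sylow p G) = 1 := by
    have h1 : Nat.card (Sylow p G) ≡ 1 [MOD p] := card_sylow_modEq_one p G
    have h2 : Nat.card (Sylow p G) ∣ d := hidx ▸ P.card_dvd_index
    have h3 : Nat.card (Sylow p G) ≤ d := Nat.le_of_dvd hd0 h2
    have h4 : Nat.card (Sylow p G) % p = 1 % p := h1
    rw [Nat.mod_eq_of_lt (by omega), Nat.mod_eq_of_lt hp.one_lt] at h4
    exact h4
  haveI : Subsingleton (Sylow p G) := (Nat.card_eq_one_iff_unique.1 hsyl).1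
  have hN : (P : Subgroup G).Normal := Sylow.normal_of_subsingleton P
  refine ⟨P, hN, hPc, hidx, ?_⟩
  have hin := card_mul_classInner_ind_ind hN θ θ θ.2 θ.2
  rw [hθ, (irr_orthonormal χ χ), if_pos rfl, mul_one] at hin
  have hin' : Nat.card {g : G // conjFun hN (θ : ↥(P : Subgroup G) → ℂ) g = θ} = Nat.card (P : Subgroup G) := by
    exact_mod_cast hin.symm
  have hsub : ((P : Subgroup G) : Set G) ⊆ {g : G | conjFun hN (θ : ↥(P : Subgroup G) → ℂ) g = θ} := by
    intro g hg
    funext n
    rw [conjFun_apply]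
    have h1 := (IrrCharacter.isClassFunction θ) n (⟨g, hg⟩ : ↥(P : Subgroup G))
    exact h1
  have heq : ((P : Subgroup G) : Set G) = {g : G | conjFun hN (θ : ↥(P : Subgroup G) → ℂ) g = θ} := by
    apply Set.eq_of_subset_of_ncard_le hsub _ (Set.toFinite _)
    rw [← Nat.card_coe_set_eq, ← Nat.card_coe_set_eq]
    exact hin'.le
  intro u hu
  have h1 : u ∈ {g : G | conjFun hN (θ : ↥(P : Subgroup G) → ℂ) g = θ} := by
    funext n
    rw [conjFun_apply]
    have h2 : (⟨u * n * u⁻¹, hN.conj_mem n n.2 u⟩ : ↥(P : Subgroup G)) = n := by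
      apply Subtype.ext
      show u * n * u⁻¹ = n
      rw [hu n n.2, mul_inv_cancel_right]
    rw [h2]
  rw [← heq] at h1
  exact h1

/-- Let G be a finite group with a faithful irreducible complex character χ whose codegree #G / χ(1) is a prime p (for a faithful character the kernel is trivial, so the codegree is #G / χ(1)). Then either G is cyclic of order p, or G is a Frobenius group whose Frobenius kernel has order p: some proper non-trivial subgroup H satisfies H ∩ gHg⁻¹ = 1 for every element g outside H, and the set of elements lying in no conjugate of H, together with the identity, has exactly p elements. -/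
theorem result {G : Type*} [Group G] [Finite G] (χ : Cfsg.IrrCharacter G) (hfaith : ∀ g : G, (χ : G → ℂ) g = (χ : G → ℂ) 1 → g = 1) (p : ℕ) (hp : p.Prime) (hcod : Nat.card G = p * Cfsg.charDegree (χ : G → ℂ)) : (IsCyclic G ∧ Nat.card G = p) ∨ ∃ H : Subgroup G, Cfsg.IsFrobeniusComplement H ∧ Nat.card ↥(Cfsg.frobeniusKernel H) = p := by
  classical
  haveI : Fact p.Prime := ⟨hp⟩
  obtain ⟨d, hd0, hdvd, hd⟩ := IsIrrCharacter.exists_degree χ.2
  rw [charDegree_eq hd] at hcod
  obtain ⟨hlt, P, hN, hPc, hidx, hcent⟩ := core χ hfaith p hp d hd hcod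
  by_cases hd1 : d = 1
  · left
    rw [hd1, mul_one] at hcod
    exact ⟨isCyclic_of_prime_card hcod, hcod⟩
  right
  have hcop : (Nat.card P).Coprime P.index := by
    rw [hPc, hidx]
    exact (Nat.Prime.coprime_iff_not_dvd hp).2 (fun h => absurd (Nat.le_of_dvd hd0 h) (by omega))
  obtain ⟨H, hH⟩ := Subgroup.exists_right_complement'_of_coprime hcop
  have hHc : Nat.card H = d := by
    have h1 := hH.card_mul_card
    rw [hPc, hcod] at h1
    exact Nat.eq_of_mul_eq_mul_left hp.pos h1
  have hHidx : H.index = p := by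
    have h1 := H.card_mul_index
    rw [hHc, hcod, mul_comm] at h1
    exact Nat.eq_of_mul_eq_mul_right hd0 h1
  have hdisj : ∀ u, u ∈ P → u ∈ H → u = 1 := by
    intro u h1 h2
    have := hH.disjoint.le_bot (show u ∈ P ⊓ H from ⟨h1, h2⟩)
    exact this
  have hF : IsFrobeniusComplement H := by
    refine ⟨?_, ?_, ?_⟩
    · intro h
      rw [h, Subgroup.card_bot] at hHc
      exact hd1 hHc.symm
    · intro h
      rw [h, Subgroup.index_top] at hHidx
      exact hp.one_lt.ne hHidx
    · intro g hg
      rw [eq_bot_iff]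
      intro u hu
      obtain ⟨hu1, hu2⟩ := Subgroup.mem_inf.1 hu
      rw [Subgroup.mem_pointwise_smul_iff_inv_smul_mem] at hu2
      have hu2' : g⁻¹ * u * g ∈ H := by simpa [MulAut.smul_def] using hu2
      -- write g = x * h
      obtain ⟨⟨⟨x, hx⟩, ⟨h, hh⟩⟩, hxh⟩ := hH.2 g
      simp only at hxh
      have hx1 : x ≠ 1 := by
        rintro rfl
        rw [one_mul] at hxh
        exact hg (hxh ▸ hh)
      set h'' := h * (g⁻¹ * u * g) * h⁻¹ with hh''
      have hh''H : h'' ∈ H := H.mul_mem (H.mul_mem hh hu2') (H.inv_mem hh)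
      have hu3 : u = x * h'' * x⁻¹ := by
        rw [hh'', ← hxh]; group
      have h4 : u * h''⁻¹ ∈ P := by
        have : u * h''⁻¹ = x * (h'' * x⁻¹ * h''⁻¹) := by rw [hu3]; group
        rw [this]
        exact P.mul_mem hx (hN.conj_mem _ (P.inv_mem hx) _)
      have h5 : u * h''⁻¹ = 1 := hdisj _ h4 (H.mul_mem hu1 (H.inv_mem hh''H))
      have h6 : u = h'' := mul_inv_eq_one.1 h5
      have h7 : u * x = x * u := by
        rw [← h6] at hu3
        calc u * x = (x * u * x⁻¹) * x := by rw [← hu3]
          _ = x * u := by group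
      -- u centralises P
      have h8 : P ≤ Subgroup.centralizer {u} := by
        have h9 : Nat.card (P ⊓ Subgroup.centralizer {u} : Subgroup G) ∣ p := by
          rw [← hPc]; exact Subgroup.card_dvd_of_le inf_le_left
        rcases (Nat.dvd_prime hp).1 h9 with h10 | h10
        · exfalso
          have h11 : (P ⊓ Subgroup.centralizer {u} : Subgroup G) = ⊥ := Subgroup.card_eq_one.1 h10
          have h12 : x ∈ (P ⊓ Subgroup.centralizer {u} : Subgroup G) := by
            refine Subgroup.mem_inf.2 ⟨hx, ?_⟩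
            rw [Subgroup.mem_centralizer_singleton_iff]
            first | exact h7 | exact h7.symm
          rw [h11] at h12
          exact hx1 h12
        · have h11 : (P ⊓ Subgroup.centralizer {u} : Subgroup G) = P :=
            Subgroup.eq_of_le_of_card_ge inf_le_left (by rw [h10, hPc])
          rw [← h11]; exact inf_le_right
      have h9 : u ∈ P := by
        apply hcent
        intro n hn
        have := h8 hn
        rw [Subgroup.mem_centralizer_singleton_iff] at this
        first | exact this | exact this.symm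
      exact hdisj u h9 hu1
  exact ⟨H, hF, by rw [H3.frob_card_kernel hF, hHidx]⟩

end Cfsg.Agent.S4796
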