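import Cfsg.Statements.S4808
import Cfsg.Agent.Lib_helper4_BlkA
import Cfsg.Agent.Lib_helper3_FrobB

set_option autoImplicit false
set_option linter.style.haveILetI false
open Cfsg

namespace Cfsg.Agent.S4808

open Cfsg.Agent.H4
open scoped ComplexConjugate

/-- data of an irreducible character: kernel `N`, degree `d`, codegree `c`. -/
theorem data {G : Type*} [Group G] [Finite G] (χ : IrrCharacter G) :
    ∃ (N : Subgroup G) (_ : N.Normal) (d c : ℕ), (∀ g, g ∈ N ↔ (χ : G → ℂ) g = (χ : G → ℂ) 1) ∧
      (χ : G → ℂ) 1 = d ∧ 0 < d ∧ Nat.card (G ⧸ N) = d * c ∧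
      Nat.card G / (Nat.card {g : G // (χ : G → ℂ) g = (χ : G → ℂ) 1} * charDegree (χ : G → ℂ)) = c ∧
      Nat.card G = Nat.card N * d * c ∧
      ∃ χ' : G ⧸ N → ℂ, IsIrrCharacter (G ⧸ N) χ' ∧ ∀ g : G, χ' (g : G ⧸ N) = (χ : G → ℂ) g := by
  obtain ⟨N, hN, hmem⟩ := H3.exists_char_ker (IsIrrCharacter.isCharacter χ.2)
  haveI := hN
  obtain ⟨χ', hχ', hval⟩ := IsIrrCharacter.deflate N χ.2 (fun n hn => (hmem n).1 hn)
  obtain ⟨d, hd0, ⟨c, hc⟩, hd⟩ := IsIrrCharacter.exists_degree hχ'
  have hd' : (χ : G → ℂ) 1 = d := by rw [← hval 1]; exact hd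
  have hcardN : Nat.card {g : G // (χ : G → ℂ) g = (χ : G → ℂ) 1} = Nat.card N := by
    apply Nat.card_congr
    exact (Equiv.subtypeEquivRight hmem).symm
  have hG : Nat.card G = Nat.card N * d * c := by
    rw [Subgroup.card_eq_card_quotient_mul_card_subgroup N, hc]; ring
  refine ⟨N, hN, d, c, hmem, hd', hd0, hc, ?_, hG, χ', hχ', hval⟩
  rw [hcardN, charDegree_eq hd', hG]
  exact Nat.mul_div_cancel_left c (Nat.mul_pos Nat.card_pos hd0)

/-- The codegree of an irreducible complex character χ of a finite group G is [G : ker χ] / χ(1), where ker χ is the set of elements at which χ takes the value χ(1). A prime divides the order of G if and only if it divides the codegree of some irreducible complex character of G. -/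
theorem result {G : Type*} [Group G] [Finite G] (p : ℕ) (hp : p.Prime) : p ∣ Nat.card G ↔ ∃ χ : Cfsg.IrrCharacter G, p ∣ (Nat.card G / (Nat.card {g : G // (χ : G → ℂ) g = (χ : G → ℂ) 1} * Cfsg.charDegree (χ : G → ℂ))) := by
  classical
  haveI := Fintype.ofFinite G
  haveI := Fintype.ofFinite (IrrCharacter G)
  haveI : Fact p.Prime := ⟨hp⟩
  constructor
  · intro hpG
    by_contra hcon
    push Not at hcon
    obtain ⟨g, hg⟩ := exists_prime_orderOf_dvd_card' p hpG
    have hg1 : g ≠ 1 := by
      rintro rfl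
      rw [orderOf_one] at hg
      exact hp.one_lt.ne hg
    have key : ∀ χ : IrrCharacter G, ∃ t : ℕ, (χ : G → ℂ) g * conj ((χ : G → ℂ) 1) = t ∧
        ((χ : G → ℂ) g = (χ : G → ℂ) 1 → 0 < t) := by
      intro χ
      obtain ⟨N, hN, d, c, hmem, hd, hd0, hc, hcod, -, χ', hχ', hval⟩ := data χ
      have hpc : ¬ p ∣ c := by rw [← hcod]; exact hcon χ
      by_cases hgN : g ∈ N
      · refine ⟨d * d, ?_, fun _ => Nat.mul_pos hd0 hd0⟩
        rw [(hmem g).1 hgN, hd]; simp
      · refine ⟨0, ?_, fun h => absurd ((hmem g).2 h) hgN⟩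
        have hord : p ∣ orderOf (g : G ⧸ N) := by
          have h1 : orderOf (g : G ⧸ N) ∣ p := by
            apply orderOf_dvd_of_pow_eq_one
            rw [← QuotientGroup.mk_pow, ← hg, pow_orderOf_eq_one]; rfl
          rcases (Nat.dvd_prime hp).1 h1 with h2 | h2
          · rw [orderOf_eq_one_iff, QuotientGroup.eq_one_iff] at h2
            exact absurd h2 hgN
          · rw [h2]
        obtain ⟨m, ρ, hirr, hρ⟩ := hχ'
        haveI := hirr
        have hfin : Module.finrank ℂ (Fin m → ℂ) = d := by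
          have h1 : χ' 1 = d := by
            have := hval 1
            rw [hd] at this
            exact this
          rw [← hρ, Representation.char_one] at h1
          exact_mod_cast h1
        have hcard0 : Nat.card (G ⧸ N) ≠ 0 := Nat.card_pos.ne'
        have hz := defect_zero_vanish ρ p ((Nat.card (G ⧸ N)).factorization p) hp
          (Nat.ordProj_dvd _ _) (Nat.pow_succ_factorization_not_dvd hcard0 hp) (by
            rw [hfin]
            have h1 : p ^ (Nat.card (G ⧸ N)).factorization p ∣ d * c := by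
              rw [← hc]; exact Nat.ordProj_dvd _ _
            exact (Nat.Coprime.pow_left _ ((Nat.Prime.coprime_iff_not_dvd hp).2 hpc)).dvd_of_dvd_mul_right h1)
          (g : G ⧸ N) hord
        rw [hρ, hval] at hz
        rw [hz]; simp
    choose t ht ht' using key
    have h1 := column_orthogonality' g (1 : G)
    have h2 : Nat.card {x : G // x * 1 * x⁻¹ = g} = 0 := by
      rw [Nat.card_eq_zero]
      left
      constructor
      rintro ⟨x, hx⟩
      apply hg1
      rw [← hx]; group
    rw [h2, Finset.sum_congr rfl (fun χ _ => ht χ)] at h1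
    have h3 : ∑ χ : IrrCharacter G, t χ = 0 := by exact_mod_cast h1
    rw [Finset.sum_eq_zero_iff] at h3
    have h4 := h3 (trivIrr G) (Finset.mem_univ _)
    have h5 := ht' (trivIrr G) rfl
    omega
  · rintro ⟨χ, hχ⟩
    obtain ⟨N, hN, d, c, -, -, -, -, hcod, hG, -⟩ := data χ
    rw [hcod] at hχ
    rw [hG]
    exact hχ.mul_left _

end Cfsg.Agent.S4808
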