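import Cfsg.Statements.S4797
import Cfsg.Agent.S4796
import Cfsg.Agent.S4808
import Cfsg.Agent.Lib_helper1_Schmidt

set_option autoImplicit false
set_option linter.style.haveILetI false
open Cfsg

namespace Cfsg.Agent.S4797

open Cfsg.Agent.H4
open scoped commutatorElement

theorem not_perfect {Q : Type*} [Group Q] [Finite Q] (χ : Cfsg.IrrCharacter Q)
    (hfaith : ∀ g : Q, (χ : Q → ℂ) g = (χ : Q → ℂ) 1 → g = 1) (p : ℕ) (hp : p.Prime) (d : ℕ)
    (hd : (χ : Q → ℂ) 1 = d) (hcod : Nat.card Q = p * d) : commutator Q ≠ ⊤ := by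
  classical
  haveI : Fact p.Prime := ⟨hp⟩
  obtain ⟨-, P, hN, hPc, -, hcent⟩ := S4796.core χ hfaith p hp d hd hcod
  haveI := hN
  haveI hcyc : IsCyclic P := isCyclic_of_prime_card hPc
  have hcomm : ∀ f g : MulAut P, f * g = g * f := by
    intro f g
    apply (IsCyclic.mulAutMulEquiv P).injective
    rw [map_mul, map_mul, mul_comm]
  have hle : commutator Q ≤ P := by
    rw [commutator_def, Subgroup.commutator_le]
    intro a _ b _
    apply hcent
    intro n hn
    have h1 : MulAut.conjNormal (H := P) ⁅a, b⁆ = 1 := by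
      rw [map_commutatorElement, commutatorElement_def, hcomm (MulAut.conjNormal a)]
      group
    have h2 := congrArg (fun f : MulAut P => ((f ⟨n, hn⟩ : P) : Q)) h1
    simp only [MulAut.conjNormal_apply, MulAut.one_apply] at h2
    exact mul_inv_eq_iff_eq_mul.1 h2
  intro htop
  rw [htop, top_le_iff] at hle
  have hab : ∀ a b : Q, a * b = b * a := by
    intro a b
    have ha : a ∈ P := hle ▸ Subgroup.mem_top a
    have hb : b ∈ P := hle ▸ Subgroup.mem_top b
    letI := hcyc.commGroup
    have := mul_comm (⟨a, ha⟩ : P) ⟨b, hb⟩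
    exact congrArg Subtype.val this
  have hbot : commutator Q = ⊥ := by
    rw [commutator_def, Subgroup.commutator_eq_bot_iff_le_centralizer]
    intro a _
    rw [Subgroup.mem_centralizer_iff]
    intro b _
    exact hab b a
  rw [hbot] at htop
  have h1 : Nat.card P = 1 := by
    rw [hle, ← htop, Subgroup.card_bot]
  rw [hPc] at h1
  exact hp.one_lt.ne' h1

/-- The codegree of an irreducible complex character χ of a finite group G is [G : ker χ] / χ(1), where ker χ is the set of elements at which χ takes the value χ(1). A non-trivial finite group is perfect if and only if no irreducible complex character of it has prime codegree. -/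
theorem result {G : Type*} [Group G] [Finite G] [Nontrivial G] : commutator G = ⊤ ↔ ∀ χ : Cfsg.IrrCharacter G, ¬ ((Nat.card G / (Nat.card {g : G // (χ : G → ℂ) g = (χ : G → ℂ) 1} * Cfsg.charDegree (χ : G → ℂ)))).Prime := by
  classical
  constructor
  · intro hperf χ hprime
    obtain ⟨N, hN, d, c, hmem, hd, hd0, hc, hcod, -, χ', hχ', hval⟩ := S4808.data χ
    haveI := hN
    rw [hcod] at hprime
    have hfaith : ∀ q : G ⧸ N, χ' q = χ' 1 → q = 1 := by
      intro q hq
      obtain ⟨g, rfl⟩ := QuotientGroup.mk_surjective q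
      rw [QuotientGroup.eq_one_iff, hmem, ← hval g, hq, ← hval 1]; rfl
    have hd' : χ' 1 = d := by rw [← hd, ← hval 1]; rfl
    apply not_perfect (⟨χ', hχ'⟩ : IrrCharacter (G ⧸ N)) hfaith c hprime d hd' (by rw [hc, mul_comm])
    have h1 : (commutator G).map (QuotientGroup.mk' N) = commutator (G ⧸ N) := by
      rw [commutator_def, Subgroup.map_commutator, commutator_def, ← MonoidHom.range_eq_map,
        MonoidHom.range_eq_top.2 (QuotientGroup.mk'_surjective N)]
    rw [← h1, hperf, ← MonoidHom.range_eq_map, MonoidHom.range_eq_top.2 (QuotientGroup.mk'_surjective N)]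
  · intro hall
    by_contra hnp
    obtain ⟨M, hM, hle⟩ := (eq_top_or_exists_le_coatom _).resolve_left hnp
    have hn : M.Normal := Subgroup.Normal.of_commutator_le G hle
    haveI := hn
    have hidx : M.index.Prime := H1.coatom_normal_index_prime hM
    -- the quotient is commutative
    have hab : ∀ a b : G ⧸ M, a * b = b * a := by
      intro a b
      obtain ⟨a, rfl⟩ := QuotientGroup.mk_surjective a
      obtain ⟨b, rfl⟩ := QuotientGroup.mk_surjective b
      rw [← QuotientGroup.mk_mul, ← QuotientGroup.mk_mul, QuotientGroup.eq]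
      have h1 : ⁅b⁻¹, a⁻¹⁆ ∈ commutator G :=
        Subgroup.commutator_mem_commutator (Subgroup.mem_top _) (Subgroup.mem_top _)
      have h2 : (a * b)⁻¹ * (b * a) = ⁅b⁻¹, a⁻¹⁆ := by
        rw [commutatorElement_def]; group
      rw [h2]; exact hle h1
    obtain ⟨x, hx⟩ : ∃ x : G, x ∉ M := by
      by_contra hcon
      push Not at hcon
      exact hM.1 ((Subgroup.eq_top_iff' M).2 hcon)
    have hx1 : ¬ IsConj (x : G ⧸ M) 1 := by
      intro h
      rw [isConj_one_left] at h
      exact hx ((QuotientGroup.eq_one_iff x).1 h)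
    haveI := Fintype.ofFinite (G ⧸ M)
    rw [isConj_iff_irr] at hx1
    push Not at hx1
    obtain ⟨lam, hlam⟩ := hx1
    have hlin : (lam : G ⧸ M → ℂ) 1 = 1 := comm_iff_irr_linear.1 hab lam
    set χ : IrrCharacter G := ⟨fun g => (lam : G ⧸ M → ℂ) (g : G ⧸ M), IsIrrCharacter.inflate M lam.2⟩ with hχ
    obtain ⟨N, hN, d, c, hmem, hd, hd0, hc, hcod, -, -⟩ := S4808.data χ
    apply hall χ
    rw [hcod]
    have hd1 : d = 1 := by
      have h1 : (χ : G → ℂ) 1 = 1 := hlin
      rw [hd] at h1
      exact_mod_cast h1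
    rw [hd1, one_mul] at hc
    have hMN : M ≤ N := by
      intro m hm
      rw [hmem]
      show (lam : G ⧸ M → ℂ) (m : G ⧸ M) = (lam : G ⧸ M → ℂ) ((1 : G) : G ⧸ M)
      rw [(QuotientGroup.eq_one_iff m).2 hm]; rfl
    have hNtop : N ≠ ⊤ := by
      intro h
      have h1 : x ∈ N := h ▸ Subgroup.mem_top x
      rw [hmem] at h1
      exact hlam h1
    have h1 : N.index ∣ M.index := Subgroup.index_dvd_of_le hMN
    rcases (Nat.dvd_prime hidx).1 h1 with h2 | h2
    · exact absurd (Subgroup.index_eq_one.1 h2) hNtop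
    · rw [← hc, ← Subgroup.index_eq_card, h2]; exact hidx

end Cfsg.Agent.S4797
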