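import Cfsg.Statements.S4798
import Cfsg.Agent.Lib_helper2_Codeg

set_option autoImplicit false
set_option linter.style.haveILetI false
open Cfsg

namespace Cfsg.Agent.S4798

open Cfsg.Agent.H4

/-- Let p be a prime and χ a faithful irreducible complex character of the finite group G (χ(g) = χ(1) only for g = 1), so that its codegree is #G / χ(1). Then #G / χ(1) is a power of p if and only if χ is induced from a character of a Sylow p-subgroup of G. -/
theorem result {G : Type*} [Group G] [Fintype G] (p : ℕ) [Fact p.Prime] (χ : Cfsg.IrrCharacter G) (hfaith : ∀ g : G, (χ : G → ℂ) g = (χ : G → ℂ) 1 → g = 1) : (∃ k : ℕ, Nat.card G = p ^ k * Cfsg.charDegree (χ : G → ℂ)) ↔ ∃ (P : Sylow p G) (θ : ↥(P : Subgroup G) → ℂ), Cfsg.IsCharacter ↥(P : Subgroup G) θ ∧ (χ : G → ℂ) = Cfsg.indFun (P : Subgroup G) θ := by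
  have hp : p.Prime := Fact.out
  obtain ⟨d, hd0, hdvd, hd⟩ := IsIrrCharacter.exists_degree χ.2
  rw [charDegree_eq hd]
  constructor
  · rintro ⟨k, hk⟩
    obtain ⟨P⟩ : Nonempty (Sylow p G) := inferInstance
    obtain ⟨θ, hθ, -⟩ := H2.induced_from_sylow p χ k d hd hk P
    exact ⟨P, θ, IsIrrCharacter.isCharacter θ.2, hθ.symm⟩
  · rintro ⟨P, θ, hθ, hχ⟩
    obtain ⟨t, ht⟩ := IsCharacter.apply_one hθ
    set i := (P : Subgroup G).index with hi
    have h1 : d = i * t := by
      have h2 := congrFun hχ 1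
      rw [hd, indFun_apply_one, ht] at h2
      exact_mod_cast h2
    have hP : Nat.card (P : Subgroup G) = p ^ (Nat.card G).factorization p := Sylow.card_eq_multiplicity P
    set n := (Nat.card G).factorization p with hn
    have hG : Nat.card G = i * p ^ n := by
      rw [← hP]; exact ((P : Subgroup G).index_mul_card).symm
    have hi0 : 0 < i := Nat.pos_of_ne_zero Subgroup.index_ne_zero_of_finite
    have h3 : t ∣ p ^ n := by
      rw [hG, h1] at hdvd
      exact Nat.dvd_of_mul_dvd_mul_left hi0 hdvd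
    obtain ⟨j, hj, rfl⟩ := (Nat.dvd_prime_pow hp).1 h3
    obtain ⟨e, he⟩ := Nat.exists_eq_add_of_le hj
    refine ⟨e, ?_⟩
    rw [hG, h1, he, pow_add]; ring

end Cfsg.Agent.S4798
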