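import Cfsg.Statements.S4801
import Cfsg.Agent.Lib_helper4_CharL

set_option autoImplicit false
open Cfsg

namespace Cfsg.Agent.S4801

open Cfsg.Agent.H4

theorem exists_ker {G : Type*} [Group G] [Finite G] {χ : G → ℂ} (h : IsCharacter G χ) :
    ∃ N : Subgroup G, N.Normal ∧ ∀ g, g ∈ N ↔ χ g = χ 1 := by
  obtain ⟨n, ρ, rfl⟩ := h
  refine ⟨MonoidHom.ker ρ, inferInstance, fun g => ?_⟩
  rw [MonoidHom.mem_ker, Representation.char_one, char_eq_finrank_iff]
  rfl

/-- The codegree of an irreducible complex character χ of a finite group G is [G : ker χ] / χ(1), where ker χ is the set of elements at which χ takes the value χ(1). Let S be a finite simple group and G a finite group such that every codegree of an irreducible character of S is a codegree of an irreducible character of G. Then the order of S divides the order of G. -/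
theorem result {S : Type*} [Group S] [Finite S] (hS : IsSimpleGroup S) {G : Type*} [Group G] [Finite G] (hsub : ∀ χ : Cfsg.IrrCharacter S, ∃ ψ : Cfsg.IrrCharacter G, (Nat.card S / (Nat.card {g : S // (χ : S → ℂ) g = (χ : S → ℂ) 1} * Cfsg.charDegree (χ : S → ℂ))) = (Nat.card G / (Nat.card {g : G // (ψ : G → ℂ) g = (ψ : G → ℂ) 1} * Cfsg.charDegree (ψ : G → ℂ)))) : Nat.card S ∣ Nat.card G := by
  classical
  have := Fintype.ofFinite S
  have := Fintype.ofFinite (IrrCharacter S)
  have hcodG : ∀ ψ : IrrCharacter G, (Nat.card G / (Nat.card {g : G // (ψ : G → ℂ) g = (ψ : G → ℂ) 1} *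
      charDegree (ψ : G → ℂ))) ∣ Nat.card G := by
    intro ψ
    obtain ⟨N, hNn, hN⟩ := exists_ker (IsIrrCharacter.isCharacter ψ.2)
    obtain ⟨ψ', hψ', hψ'e⟩ := IsIrrCharacter.deflate N ψ.2 (fun n hn => (hN n).mp hn)
    obtain ⟨d, hd0, hdvd, hd⟩ := IsIrrCharacter.exists_degree hψ'
    have h1 : (ψ : G → ℂ) 1 = d := by rw [← hψ'e 1]; exact hd
    have h2 : charDegree (ψ : G → ℂ) = d := charDegree_eq h1
    have h3 : Nat.card {g : G // (ψ : G → ℂ) g = (ψ : G → ℂ) 1} = Nat.card N :=
      Nat.card_congr (Equiv.subtypeEquivRight (fun g => (hN g).symm))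
    rw [h2, h3]
    apply Nat.div_dvd_of_dvd
    rw [← Subgroup.card_mul_index N]
    exact Nat.mul_dvd_mul_left _ hdvd
  rw [← Nat.factorization_prime_le_iff_dvd Nat.card_pos.ne' Nat.card_pos.ne']
  intro p hp
  by_cases hpS : p ∣ Nat.card S
  swap
  · rw [Nat.factorization_eq_zero_of_not_dvd hpS]; exact Nat.zero_le _
  choose d hd0 hddvd hd using fun χ : IrrCharacter S => IsIrrCharacter.exists_degree χ.2
  have hsum : ∑ χ, d χ ^ 2 = Nat.card S := by
    have h := sum_sq_degrees' (G := S)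
    simp only [hd] at h
    exact_mod_cast h
  obtain ⟨χ, hχ1, hχp⟩ : ∃ χ : IrrCharacter S, χ ≠ trivIrr S ∧ ¬ p ∣ d χ := by
    by_contra hcon
    push Not at hcon
    have h1 : d (trivIrr S) = 1 := by
      have h := hd (trivIrr S)
      have h' : ((trivIrr S : IrrCharacter S) : S → ℂ) 1 = 1 := rfl
      rw [h'] at h
      exact_mod_cast h.symm
    rw [← Finset.add_sum_erase _ _ (Finset.mem_univ (trivIrr S)), h1] at hsum
    have h2 : p ∣ ∑ χ ∈ Finset.univ.erase (trivIrr S), d χ ^ 2 :=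
      Finset.dvd_sum (fun χ hχ => dvd_pow (hcon χ (Finset.ne_of_mem_erase hχ)) two_ne_zero)
    have h3 : p ∣ 1 ^ 2 := (Nat.dvd_add_left h2).mp (hsum ▸ hpS)
    rw [one_pow] at h3
    exact hp.one_lt.ne' (Nat.dvd_one.mp h3)
  obtain ⟨N, hNn, hN⟩ := exists_ker (IsIrrCharacter.isCharacter χ.2)
  have hNbot : N = ⊥ := by
    rcases hS.eq_bot_or_eq_top_of_normal N hNn with h | h
    · exact h
    · exfalso
      apply hχ1
      have hconst : (χ : S → ℂ) = (d χ : ℂ) • ((trivIrr S : IrrCharacter S) : S → ℂ) := by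
        funext g
        have h4 : (χ : S → ℂ) g = (χ : S → ℂ) 1 := (hN g).mp (h ▸ Subgroup.mem_top g)
        rw [h4, hd]
        show (d χ : ℂ) = (d χ : ℂ) * 1
        rw [mul_one]
      apply Subtype.ext
      apply irr_eq_of_classInner_ne_zero χ.2 (trivIrr S).2
      rw [hconst, classInner_smul_left, IsIrrCharacter.norm_one (trivIrr S).2, mul_one]
      exact Nat.cast_ne_zero.mpr (hd0 χ).ne'
  obtain ⟨ψ, hψ⟩ := hsub χ
  have hk : Nat.card {g : S // (χ : S → ℂ) g = (χ : S → ℂ) 1} = 1 := by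
    rw [Nat.card_congr (Equiv.subtypeEquivRight (fun g => (hN g).symm)), hNbot]
    simp
  rw [hk, one_mul, charDegree_eq (hd χ)] at hψ
  have hdvd := hcodG ψ
  rw [← hψ] at hdvd
  have h5 : (Nat.card S / d χ).factorization p = (Nat.card S).factorization p := by
    rw [Nat.factorization_div (hddvd χ)]
    simp [Nat.factorization_eq_zero_of_not_dvd hχp]
  rw [← h5]
  have hne : Nat.card S / d χ ≠ 0 :=
    (Nat.div_pos (Nat.le_of_dvd Nat.card_pos (hddvd χ)) (hd0 χ)).ne'
  exact (Nat.factorization_le_iff_dvd hne Nat.card_pos.ne').mpr hdvd p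

end Cfsg.Agent.S4801
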