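import Cfsg.Statements.S4802
import Cfsg.Agent.Lib_helper4_CharL

set_option autoImplicit false
set_option linter.style.haveILetI false
open Cfsg

namespace Cfsg.Agent.S4802

open Cfsg.Agent.H4
open scoped ComplexConjugate

/-- Let N < M be normal subgroups of the finite group G and g ∈ M ∖ N. Then the conjugacy class of g is exactly M ∖ N if and only if every irreducible complex character of G whose kernel contains N takes the same value at all elements of M ∖ N, and every irreducible complex character of G whose kernel does not contain N vanishes at g. -/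
theorem result {G : Type*} [Group G] [Finite G] (N M : Subgroup G) [N.Normal] [M.Normal] (hNM : N < M) (g : G) (hgM : g ∈ M) (hgN : g ∉ N) : {h : G | IsConj g h} = (M : Set G) \ (N : Set G) ↔ ((∀ χ : Cfsg.IrrCharacter G, (∀ x ∈ N, (χ : G → ℂ) x = (χ : G → ℂ) 1) → ∀ x ∈ M, x ∉ N → ∀ y ∈ M, y ∉ N → (χ : G → ℂ) x = (χ : G → ℂ) y) ∧ (∀ χ : Cfsg.IrrCharacter G, (∃ x ∈ N, (χ : G → ℂ) x ≠ (χ : G → ℂ) 1) → (χ : G → ℂ) g = 0)) := by
  classical
  haveI := Fintype.ofFinite G
  haveI := Fintype.ofFinite (IrrCharacter G)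
  have hNn : N.Normal := inferInstance
  have hMn : M.Normal := inferInstance
  constructor
  · intro hcl
    have hconj : ∀ x ∈ M, x ∉ N → IsConj g x := by
      intro x hx hxN
      have : x ∈ (M : Set G) \ (N : Set G) := ⟨hx, hxN⟩
      rw [← hcl] at this
      exact this
    constructor
    · intro χ _ x hx hxN y hy hyN
      exact (isClassFunction_iff _).mp (IrrCharacter.isClassFunction χ) x y
        ((hconj x hx hxN).symm.trans (hconj y hy hyN))
    · rintro χ ⟨n0, hn0, hne⟩
      have h1 := avgN_irr_of_not_ker N χ.2 (fun h => hne (h n0 hn0)) g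
      have h2 : ∀ n : N, (χ : G → ℂ) ((n : G) * g) = (χ : G → ℂ) g := by
        intro n
        refine ((isClassFunction_iff _).mp (IrrCharacter.isClassFunction χ) g _ (hconj _ ?_ ?_)).symm
        · exact M.mul_mem (hNM.le n.2) hgM
        · intro h3
          exact hgN ((Subgroup.mul_mem_cancel_left N n.2).1 h3)
      rw [Finset.sum_congr rfl (fun n _ => h2 n), Finset.sum_const, Finset.card_univ, nsmul_eq_mul,
        ← Nat.card_eq_fintype_card, ← mul_assoc, inv_mul_cancel₀ card_ne_zero_C, one_mul] at h1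
      exact h1
  · rintro ⟨hA, hB⟩
    ext h
    simp only [Set.mem_ofPred_eq, Set.mem_sdiff, SetLike.mem_coe]
    constructor
    · intro hc
      obtain ⟨c, rfl⟩ := isConj_iff.1 hc
      refine ⟨hMn.conj_mem g hgM c, fun h1 => hgN ?_⟩
      have := hNn.conj_mem _ h1 c⁻¹
      simpa [mul_assoc] using this
    · rintro ⟨hM, hN⟩
      have h1 := column_orthogonality' g h
      have h2 := column_orthogonality' g g
      have h3 : ∀ χ : IrrCharacter G, (χ : G → ℂ) g * conj ((χ : G → ℂ) h) =
          (χ : G → ℂ) g * conj ((χ : G → ℂ) g) := by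
        intro χ
        by_cases hk : ∀ x ∈ N, (χ : G → ℂ) x = (χ : G → ℂ) 1
        · rw [hA χ hk h hM hN g hgM hgN]
        · push Not at hk
          rw [hB χ hk, zero_mul, zero_mul]
      rw [Finset.sum_congr rfl (fun χ _ => h3 χ), h2] at h1
      have h4 : Nat.card {x : G // x * g * x⁻¹ = g} = Nat.card {x : G // x * h * x⁻¹ = g} := by
        exact_mod_cast h1
      haveI : Nonempty {x : G // x * g * x⁻¹ = g} := ⟨⟨1, by simp⟩⟩
      have h5 : 0 < Nat.card {x : G // x * h * x⁻¹ = g} := by
        rw [← h4]; exact Nat.card_pos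
      obtain ⟨⟨x, hx⟩⟩ := (Nat.card_pos_iff.1 h5).1
      exact (isConj_iff.2 ⟨x, hx⟩ : IsConj h g).symm

end Cfsg.Agent.S4802
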