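import Cfsg.Statements.S4836
import Cfsg.Agent.Lib_helper2_Gagola

set_option autoImplicit false
open Cfsg

namespace Cfsg.Agent.S4836

open Cfsg.Agent.H4

theorem faithful {G : Type*} [Group G] [Finite G] (hG : 2 < Nat.card G) (χ : Cfsg.IrrCharacter G)
    (hχ : Nat.card {C : ConjClasses G // ∃ g ∈ C.carrier, (χ : G → ℂ) g ≠ 0} = 2) (g : G)
    (hg : (χ : G → ℂ) g = (χ : G → ℂ) 1) : g = 1 := by
  obtain ⟨x, h⟩ := H2.exists_gag χ hχ
  have h1 : (χ : G → ℂ) 1 ≠ 0 := IsIrrCharacter.apply_one_ne_zero χ.2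
  rcases h.supp g (by rw [hg]; exact h1) with h2 | h2
  · exact h2
  · exfalso
    have h3 := (isClassFunction_iff _).mp (IrrCharacter.isClassFunction χ) x g h2
    have h4 := h.val hG
    rw [h3, hg] at h4
    have h5 : (((Subgroup.centralizer ({x} : Set G)).index : ℂ) + 1) * (χ : G → ℂ) 1 = 0 := by
      linear_combination h4
    rcases mul_eq_zero.1 h5 with h6 | h6
    · have : ((Subgroup.centralizer ({x} : Set G)).index + 1 : ℕ) = 0 := by exact_mod_cast h6
      omega
    · exact h1 h6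

/-- Let G be a finite group of order greater than 2 with an irreducible character χ that is nonzero on exactly two conjugacy classes. Then χ is faithful (it takes the value χ(1) only at the identity), it is the only faithful irreducible character of G, and it is the only irreducible character of G that is nonzero on exactly two conjugacy classes. -/
theorem result {G : Type*} [Group G] [Finite G] (hG : 2 < Nat.card G) (χ : Cfsg.IrrCharacter G) (hχ : Nat.card {C : ConjClasses G // ∃ g ∈ C.carrier, (χ : G → ℂ) g ≠ 0} = 2) :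
    (∀ g : G, (χ : G → ℂ) g = (χ : G → ℂ) 1 → g = 1) ∧
      (∀ ψ : Cfsg.IrrCharacter G, (∀ g : G, (ψ : G → ℂ) g = (ψ : G → ℂ) 1 → g = 1) → ψ = χ) ∧
      (∀ ψ : Cfsg.IrrCharacter G, Nat.card {C : ConjClasses G // ∃ g ∈ C.carrier, (ψ : G → ℂ) g ≠ 0} = 2 → ψ = χ) := by
  obtain ⟨x, h⟩ := H2.exists_gag χ hχ
  have key : ∀ ψ : Cfsg.IrrCharacter G, (∀ g : G, (ψ : G → ℂ) g = (ψ : G → ℂ) 1 → g = 1) → ψ = χ := by
    intro ψ hψ
    by_contra hne
    exact h.ne_one (hψ x (h.other hG ψ hne))
  exact ⟨faithful hG χ hχ, key, fun ψ hψ => key ψ (faithful hG ψ hψ)⟩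

end Cfsg.Agent.S4836
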