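import Cfsg.Statements.S4866
import Cfsg.Agent.Lib_helper2_Orb

set_option autoImplicit false
open Cfsg

namespace Cfsg.Agent.S4866

open Cfsg.Agent.H4 Cfsg.Agent.H2

/-- Let K be a normal subgroup of odd index in the finite group G. Then G has as many orbits on the real-valued irreducible complex characters of K (acting by conjugation) as it has orbits on the conjugacy classes of K that are real in K; equivalently, the number of G-orbits of real-valued irreducible characters of K equals the number of G-conjugacy classes of elements of K that are conjugate in K to their inverses. -/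
theorem result {G : Type*} [Group G] [Finite G] (K : Subgroup G) [K.Normal] (hodd : Odd K.index) : Nat.card (Quot (fun θ η : {θ : Cfsg.IrrCharacter ↥K // (∀ k : ↥K, ((θ : ↥K → ℂ) k).im = 0)} => ∃ g : G, ∀ k k' : ↥K, (k' : G) = g * (k : G) * g⁻¹ → (η.1 : ↥K → ℂ) k' = (θ.1 : ↥K → ℂ) k)) = Nat.card (Quot (fun x y : {x : ↥K // IsConj x x⁻¹} => ∃ g : G, (y.1 : G) = g * x.1 * g⁻¹)) := by
  classical
  let _ := irrActN K
  let _ := clActN K
  have hsX : ∀ (x : G) (θ : IrrCharacter K) (n : K),
      ((x • θ : IrrCharacter K) : K → ℂ) n = (θ : K → ℂ) (MulAut.conjNormal x⁻¹ n) := fun _ _ _ => rfl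
  have hsY : ∀ (x : G) (k : K), x • ConjClasses.mk k = ConjClasses.mk (MulAut.conjNormal x k) :=
    fun _ _ => rfl
  have key := card_quot_eq (G := G) (X := IrrCharacter K) (Y := ConjClasses K)
    (fun θ => ∀ k : K, ((θ : K → ℂ) k).im = 0)
    (fun c => ∀ k : K, ConjClasses.mk k = c → IsConj k k⁻¹)
    (fun g θ h k => h _)
    (by
      intro g c h
      obtain ⟨k, rfl⟩ := ConjClasses.exists_rep c
      rw [real_class_iff] at h
      rw [hsY, real_class_iff]
      obtain ⟨y, hy⟩ := isConj_iff.mp h
      refine isConj_iff.mpr ⟨MulAut.conjNormal g y, ?_⟩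
      rw [← map_inv, ← map_mul, ← map_mul, hy, map_inv])
    (fun g => card_real_fixed K hodd g)
  have e1 : Nat.card (Quot (fun θ η : {θ : Cfsg.IrrCharacter ↥K // (∀ k : ↥K, ((θ : ↥K → ℂ) k).im = 0)} => ∃ g : G, ∀ k k' : ↥K, (k' : G) = g * (k : G) * g⁻¹ → (η.1 : ↥K → ℂ) k' = (θ.1 : ↥K → ℂ) k))
      = Nat.card (Quot (fun a b : {θ : IrrCharacter K // ∀ k : K, ((θ : K → ℂ) k).im = 0} =>
          ∃ g : G, g • a.1 = b.1)) := by
    apply Nat.card_congr
    apply Quot.congrRight
    intro a b
    constructor
    · rintro ⟨g, hg⟩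
      refine ⟨g, ?_⟩
      apply Subtype.ext
      funext n
      rw [hsX]
      symm
      apply hg
      rw [MulAut.conjNormal_apply]
      group
    · rintro ⟨g, hg⟩
      refine ⟨g, ?_⟩
      intro k k' hk
      rw [← hg, hsX]
      apply congrArg
      apply Subtype.ext
      rw [MulAut.conjNormal_apply, hk]
      group
  have e2 : Nat.card (Quot (fun x y : {x : ↥K // IsConj x x⁻¹} => ∃ g : G, (y.1 : G) = g * x.1 * g⁻¹))
      = Nat.card (Quot (fun a b : {c : ConjClasses K // ∀ k : K, ConjClasses.mk k = c → IsConj k k⁻¹} =>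
          ∃ g : G, g • a.1 = b.1)) := by
    apply Nat.card_congr
    refine
      { toFun := Quot.map (fun x => ⟨ConjClasses.mk x.1, (real_class_iff _).mpr x.2⟩) ?_
        invFun := Quot.map (fun c => ⟨Quotient.out c.1, c.2 _ (Quotient.out_eq c.1)⟩) ?_
        left_inv := ?_
        right_inv := ?_ }
    · rintro x y ⟨g, hg⟩
      refine ⟨g, ?_⟩
      show g • ConjClasses.mk x.1 = ConjClasses.mk y.1
      rw [hsY]
      apply congrArg
      apply Subtype.ext
      rw [MulAut.conjNormal_apply, hg]
    · rintro c c' ⟨g, hg⟩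
      have h1 : g • ConjClasses.mk (Quotient.out c.1) = ConjClasses.mk (Quotient.out c'.1) := by
        have a1 : ConjClasses.mk (Quotient.out c.1) = c.1 := Quotient.out_eq c.1
        have a2 : ConjClasses.mk (Quotient.out c'.1) = c'.1 := Quotient.out_eq c'.1
        rw [a1, a2, hg]
      rw [hsY, ConjClasses.mk_eq_mk_iff_isConj, isConj_iff] at h1
      obtain ⟨y, hy⟩ := h1
      refine ⟨y * g, ?_⟩
      have h2 := congrArg Subtype.val hy
      simp only [Subgroup.coe_mul, InvMemClass.coe_inv, MulAut.conjNormal_apply] at h2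
      show ((Quotient.out c'.1 : K) : G) = y * g * ((Quotient.out c.1 : K) : G) * (y * g)⁻¹
      rw [← h2]
      group
    · intro q
      induction q using Quot.ind with
      | mk x =>
        apply Quot.sound
        have h1 : ConjClasses.mk (Quotient.out (ConjClasses.mk x.1)) = ConjClasses.mk x.1 :=
          Quotient.out_eq _
        rw [ConjClasses.mk_eq_mk_iff_isConj, isConj_iff] at h1
        obtain ⟨y, hy⟩ := h1
        exact ⟨y, (congrArg Subtype.val hy).symm⟩
    · intro q
      induction q using Quot.ind with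
      | mk c =>
        show Quot.mk _ _ = Quot.mk _ _
        apply congrArg
        apply Subtype.ext
        exact Quotient.out_eq c.1
  rw [e1, e2]
  exact key

end Cfsg.Agent.S4866
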