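import Cfsg.Statements.S4873
import Cfsg.Agent.Lib_helper2_FS4

set_option autoImplicit false
set_option linter.style.haveILetI false
open Cfsg

namespace Cfsg.Agent.S4873

open Cfsg.Agent.H4 Cfsg.Agent.H2
open scoped ComplexConjugate

/-- Let N be a normal subgroup of odd index in the finite group G. Then every irreducible complex character of N with Frobenius–Schur indicator +1 lies under exactly one irreducible character of G with Frobenius–Schur indicator +1. -/
theorem result {G : Type*} [Group G] [Finite G] (N : Subgroup G) [N.Normal] (hodd : Odd N.index) (φ : Cfsg.IrrCharacter ↥N) (hφ : (Nat.card ↥N : ℂ)⁻¹ * ∑ᶠ g : ↥N, (φ : ↥N → ℂ) (g * g) = 1) : ∃! χ : Cfsg.IrrCharacter G, (Nat.card G : ℂ)⁻¹ * ∑ᶠ g : G, (χ : G → ℂ) (g * g) = 1 ∧ (∑ᶠ n : ↥N, (χ : G → ℂ) n * (starRingEnd ℂ) ((φ : ↥N → ℂ) n)) ≠ 0 := by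
  classical
  haveI := Fintype.ofFinite G
  haveI := Fintype.ofFinite N
  haveI := Fintype.ofFinite (IrrCharacter G)
  haveI := Fintype.ofFinite (IrrCharacter N)
  have hN : N.Normal := inferInstance
  simp only [finsum_eq_sum_of_fintype] at hφ ⊢
  have hN0 : (Nat.card N : ℂ) ≠ 0 := card_ne_zero_C
  choose e he using fun χ : IrrCharacter G => IsCharacter.classInner_irr_nat
    (IsCharacter.restrict N (IsIrrCharacter.isCharacter χ.2)) φ
  have hcond : ∀ χ : IrrCharacter G,
      (∑ n : N, (χ : G → ℂ) n * conj ((φ : N → ℂ) n)) ≠ 0 ↔ e χ ≠ 0 := by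
    intro χ
    have h1 : ((e χ : ℕ) : ℂ) = (Nat.card N : ℂ)⁻¹ * ∑ n : N, (χ : G → ℂ) n * conj ((φ : N → ℂ) n) := by
      rw [← he]; rfl
    constructor
    · intro h h0
      rw [h0, Nat.cast_zero] at h1
      exact h ((mul_eq_zero.1 h1.symm).resolve_left (inv_ne_zero hN0))
    · intro h h0
      rw [h0, mul_zero] at h1
      exact h (by exact_mod_cast h1)
  -- squares
  have hsq : ∀ s : G, s * s ∈ N → s ∈ N := by
    intro s hs
    rw [← QuotientGroup.eq_one_iff] at hs ⊢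
    rw [QuotientGroup.mk_mul, ← pow_two] at hs
    have h1 : orderOf (s : G ⧸ N) ∣ 2 := orderOf_dvd_of_pow_eq_one hs
    have h2 : orderOf (s : G ⧸ N) ∣ N.index := by
      rw [Subgroup.index_eq_card]; exact orderOf_dvd_natCard _
    have h3 : orderOf (s : G ⧸ N) ∣ 1 := by
      have := Nat.dvd_gcd h1 h2
      rwa [(Nat.coprime_two_left).2 hodd] at this
    exact orderOf_eq_one_iff.1 (Nat.dvd_one.1 h3)
  -- the relation
  have hR : ∑ χ : IrrCharacter G, (e χ : ℂ) * nu (χ : G → ℂ) = 1 := by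
    have h1 := nu_expansion (indFun N (φ : N → ℂ)) (indFun_isClassFunction _ _)
    have h2 : ∀ χ : IrrCharacter G, classInner (indFun N (φ : N → ℂ)) (χ : G → ℂ) = e χ := by
      intro χ
      rw [frobenius_reciprocity _ _ _ (IrrCharacter.isClassFunction χ), ← classInner_conj_symm, he,
        Complex.conj_natCast]
    simp only [h2] at h1
    rw [← h1, nu_ind]
    have h3 : ∀ s : G, extendByZero N (φ : N → ℂ) (s * s)
        = extendByZero N (fun t : N => (φ : N → ℂ) (t * t)) s := by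
      intro s
      by_cases hs : s ∈ N
      · rw [extendByZero_mem N _ hs, extendByZero_mem N _ (N.mul_mem hs hs)]
        rfl
      · rw [extendByZero_not_mem N _ hs, extendByZero_not_mem N _ (fun h => hs (hsq s h))]
    simp only [h3]
    rw [sum_extendByZero]
    exact hφ
  -- uniqueness core
  have huniq : ∀ χ1 χ2 : IrrCharacter G, e χ1 ≠ 0 → e χ2 ≠ 0 → nu (χ1 : G → ℂ) ≠ 0 →
      nu (χ2 : G → ℂ) ≠ 0 → χ1 = χ2 := by
    intro χ1 χ2 he1 he2 hn1 hn2
    have hr1 : ∀ g, conj ((χ1 : G → ℂ) g) = (χ1 : G → ℂ) g :=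
      fun g => Complex.conj_eq_iff_im.2 (real_of_nu_ne_zero χ1 hn1 g)
    have hr2 : ∀ g, conj ((χ2 : G → ℂ) g) = (χ2 : G → ℂ) g :=
      fun g => Complex.conj_eq_iff_im.2 (real_of_nu_ne_zero χ2 hn2 g)
    have hc1 := clifford N hN χ1 χ1.2 φ φ.2 (by rw [he]; exact_mod_cast he1)
    have hc2 := clifford N hN χ2 χ2.2 φ φ.2 (by rw [he]; exact_mod_cast he2)
    rw [he] at hc1 hc2
    set Ω : N → ℂ := ∑ᶠ ψ ∈ {ψ : N → ℂ | ∃ g : G, ψ = fun n : N =>
      (φ : N → ℂ) ⟨g * n * g⁻¹, hN.conj_mem n n.2 g⟩}, ψ with hΩ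
    obtain ⟨a11, h11, ho11⟩ := parity_restrict N hodd χ1 χ1 hr1 hr1
    obtain ⟨a22, h22, ho22⟩ := parity_restrict N hodd χ2 χ2 hr2 hr2
    obtain ⟨a12, h12, ho12⟩ := parity_restrict N hodd χ1 χ2 hr1 hr2
    rw [hc1, classInner_smul_left, classInner_smul_right, Complex.conj_natCast] at h11
    rw [hc2, classInner_smul_left, classInner_smul_right, Complex.conj_natCast] at h22
    rw [hc1, hc2, classInner_smul_left, classInner_smul_right, Complex.conj_natCast] at h12
    have hmul : a12 * a12 = a11 * a22 := by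
      have : (a12 : ℂ) * a12 = a11 * a22 := by
        rw [← h11, ← h22, ← h12]; ring
      exact_mod_cast this
    have hodd12 : Odd (a12 * a12) := by
      rw [hmul]; exact (ho11.2 rfl).mul (ho22.2 rfl)
    exact ho12.1 (Nat.odd_mul.1 hodd12).1
  obtain ⟨χ0, -, hχ0⟩ := Finset.exists_ne_zero_of_sum_ne_zero (by rw [hR]; exact one_ne_zero)
  have he0 : e χ0 ≠ 0 := by
    intro h; apply hχ0; rw [h]; simp
  have hn0 : nu (χ0 : G → ℂ) ≠ 0 := by
    intro h; apply hχ0; rw [h]; simp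
  have hsingle : ∑ χ : IrrCharacter G, (e χ : ℂ) * nu (χ : G → ℂ) = (e χ0 : ℂ) * nu (χ0 : G → ℂ) := by
    apply Finset.sum_eq_single
    · intro χ _ hne
      by_contra hcon
      apply hne
      apply huniq χ χ0 _ he0 _ hn0
      · intro h; apply hcon; rw [h]; simp
      · intro h; apply hcon; rw [h]; simp
    · intro h; exact absurd (Finset.mem_univ _) h
  rw [hR] at hsingle
  have hnu1 : nu (χ0 : G → ℂ) = 1 := by
    rcases nu_irr χ0 with h | h | h
    · exact absurd h hn0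
    · exact h
    · exfalso
      rw [h] at hsingle
      have h1 : ((e χ0 : ℤ) : ℂ) = ((-1 : ℤ) : ℂ) := by
        push_cast; linear_combination hsingle
      have h2 : (e χ0 : ℤ) = -1 := by exact_mod_cast h1
      omega
  refine ⟨χ0, ⟨hnu1, (hcond χ0).2 he0⟩, ?_⟩
  rintro χ ⟨h1, h2⟩
  have h1' : nu (χ : G → ℂ) = 1 := h1
  exact huniq χ χ0 ((hcond χ).1 h2) he0 (by rw [h1']; exact one_ne_zero) hn0

end Cfsg.Agent.S4873
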