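import Cfsg.Statements.S4911
import Cfsg.Agent.Lib_helper2_Glaub24

set_option autoImplicit false
open Cfsg

namespace Cfsg.Agent.S4911

open Cfsg.Agent.H4 Cfsg.Agent.H2

/-- Let P and K be subgroups of a finite group with P a p-group normalizing K and K of order prime to p. Then the number of P-invariant real-valued irreducible complex characters of K equals the number of conjugacy classes of K that are real (closed under inversion) and P-invariant. Moreover, if every real-valued irreducible character of K is P-invariant, then every real element of K (one conjugate in K to its inverse) is conjugate in K to an element centralized by P. -/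
theorem result {G : Type*} [Group G] [Finite G] (p : ℕ) [Fact p.Prime] (P K : Subgroup G) (hP : IsPGroup p ↥P) (hK : ¬ p ∣ Nat.card ↥K) (hPK : P ≤ Subgroup.normalizer (K : Set G)) : Nat.card {θ : Cfsg.IrrCharacter ↥K // (∀ k : ↥K, ((θ : ↥K → ℂ) k).im = 0) ∧ (∀ x ∈ P, ∀ k k' : ↥K, (k' : G) = x * (k : G) * x⁻¹ → (θ : ↥K → ℂ) k' = (θ : ↥K → ℂ) k)} = Nat.card {c : ConjClasses ↥K // (∀ k : ↥K, ConjClasses.mk k = c → IsConj k k⁻¹) ∧ ∀ k : ↥K, ConjClasses.mk k = c → ∀ x ∈ P, ∀ k' : ↥K, (k' : G) = x * (k : G) * x⁻¹ → ConjClasses.mk k' = c} ∧ ((∀ θ : Cfsg.IrrCharacter ↥K, (∀ k : ↥K, ((θ : ↥K → ℂ) k).im = 0) → (∀ x ∈ P, ∀ k k' : ↥K, (k' : G) = x * (k : G) * x⁻¹ → (θ : ↥K → ℂ) k' = (θ : ↥K → ℂ) k)) → ∀ k : ↥K, IsConj k k⁻¹ → ∃ k' : ↥K, IsConj k k' ∧ ∀ x ∈ P, x * (k' : G) * x⁻¹ = (k' : G)) := by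
  classical
  have hp : p.Prime := Fact.out
  have := Fintype.ofFinite G
  have hnorm : ∀ s ∈ P, ∀ g ∈ K, s * g * s⁻¹ ∈ K := fun s hs g hg =>
    H1.conj_mem_of_le_normalizer hPK hs hg
  have hcop : (Nat.card K).Coprime (Nat.card P) := by
    obtain ⟨n, hn⟩ := IsPGroup.iff_card.mp hP
    rw [hn]
    exact Nat.Coprime.pow_right n ((Nat.Prime.coprime_iff_not_dvd hp).mpr hK).symm
  have hsolv : Group.IsSolvable P := by
    have := hP.isNilpotent
    infer_instance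
  have hCG : K ⊓ Subgroup.centralizer (P : Set G) ≤ K := inf_le_left
  have part1 : Nat.card {θ : Cfsg.IrrCharacter ↥K // (∀ k : ↥K, ((θ : ↥K → ℂ) k).im = 0) ∧ (∀ x ∈ P, ∀ k k' : ↥K, (k' : G) = x * (k : G) * x⁻¹ → (θ : ↥K → ℂ) k' = (θ : ↥K → ℂ) k)} = Nat.card {c : ConjClasses ↥K // (∀ k : ↥K, ConjClasses.mk k = c → IsConj k k⁻¹) ∧ ∀ k : ↥K, ConjClasses.mk k = c → ∀ x ∈ P, ∀ k' : ↥K, (k' : G) = x * (k : G) * x⁻¹ → ConjClasses.mk k' = c} := by
    have h1 := GlaubP.card_real hp (Inv₁ := InvUnder K P) (by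
      intro χ hχ s hs g g' hg
      show (starRingEnd ℂ) (χ g') = (starRingEnd ℂ) (χ g)
      rw [hχ s hs g g' hg])
      (glaubP_pgroup hp K _ P rfl hnorm hcop hP (K ⊓ Subgroup.centralizer (P : Set G)) rfl hCG)
    rw [card_real_classes_inv K P hnorm hcop hsolv, ← card_real_irr]
    exact h1
  refine ⟨part1, ?_⟩
  intro hall k hk
  -- every real class is invariant
  have h2 : Nat.card {θ : Cfsg.IrrCharacter ↥K // (∀ k : ↥K, ((θ : ↥K → ℂ) k).im = 0) ∧ (∀ x ∈ P, ∀ k k' : ↥K, (k' : G) = x * (k : G) * x⁻¹ → (θ : ↥K → ℂ) k' = (θ : ↥K → ℂ) k)}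
      = Nat.card {θ : Cfsg.IrrCharacter ↥K // (∀ k : ↥K, ((θ : ↥K → ℂ) k).im = 0)} := by
    apply Nat.card_congr
    apply Equiv.subtypeEquivRight
    intro θ
    exact ⟨fun h => h.1, fun h => ⟨h, hall θ h⟩⟩
  rw [card_real_irr] at h2
  rw [part1] at h2
  let f : {c : ConjClasses ↥K // (∀ k : ↥K, ConjClasses.mk k = c → IsConj k k⁻¹) ∧ ∀ k : ↥K, ConjClasses.mk k = c → ∀ x ∈ P, ∀ k' : ↥K, (k' : G) = x * (k : G) * x⁻¹ → ConjClasses.mk k' = c} →
      {C : ConjClasses ↥K // ∀ g : ↥K, ConjClasses.mk g = C → IsConj g g⁻¹} := fun c => ⟨c.1, c.2.1⟩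
  have hf : Function.Injective f := by
    intro a b hab
    have h3 : (f a).1 = (f b).1 := congrArg Subtype.val hab
    exact Subtype.ext h3
  have hfb := Function.Injective.bijective_of_nat_card_le hf h2.symm.le
  obtain ⟨c, hc⟩ := hfb.2 ⟨ConjClasses.mk k, (real_class_iff k).mpr hk⟩
  have hc1 : c.1 = ConjClasses.mk k := congrArg Subtype.val hc
  obtain ⟨y, hy, hyC⟩ := exists_fix_of_inv_class K P hnorm hcop hsolv k.2 (by
    intro a ha
    have h1 := c.2.2 k hc1.symm a ha ⟨a * k * a⁻¹, hnorm a ha k k.2⟩ rfl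
    rw [hc1, ConjClasses.mk_eq_mk_iff_isConj, isConj_iff] at h1
    obtain ⟨z, hz⟩ := h1
    exact ⟨z, z.2, congrArg Subtype.val hz⟩)
  refine ⟨⟨y⁻¹ * k * y, hyC.1⟩, isConj_iff.mpr ⟨⟨y⁻¹, K.inv_mem hy⟩, ?_⟩, ?_⟩
  · apply Subtype.ext
    show y⁻¹ * (k : G) * (y⁻¹)⁻¹ = y⁻¹ * k * y
    rw [inv_inv]
  · intro x hx
    show x * (y⁻¹ * k * y) * x⁻¹ = y⁻¹ * k * y
    rw [Subgroup.mem_centralizer_iff.mp hyC.2 x hx]
    simp

end Cfsg.Agent.S4911
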