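import Cfsg.Statements.S4912
import Cfsg.Agent.Lib_helper2_FS5
import Cfsg.Agent.S4870

set_option autoImplicit false
set_option linter.style.haveILetI false
open Cfsg
open Cfsg.Agent.H4 Cfsg.Agent.H2
open scoped ComplexConjugate

namespace Cfsg.Agent.S4912

/-- Let G be a finite group with a non-abelian minimal normal subgroup N, and let φ be an irreducible complex character of N with stabilizer I in G such that φ extends to an irreducible character of I with Frobenius–Schur indicator +1. Put d = φ(1)·[G : I]. Then the number of linear characters of G with Frobenius–Schur indicator +1 is at most [G : I] times the number of irreducible characters of G of degree d with Frobenius–Schur indicator +1. -/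
theorem result {G : Type*} [Group G] [Finite G] (N : Subgroup G) (hN : N.Normal) (hN1 : N ≠ ⊥) (hmin : ∀ M : Subgroup G, M.Normal → M ≤ N → M = ⊥ ∨ M = N) (hna : ¬ IsMulCommutative ↥N) (φ : Cfsg.IrrCharacter ↥N) (I : Subgroup G) (hI : ∀ g : G, g ∈ I ↔ ∀ n n' : ↥N, (n' : G) = g * (n : G) * g⁻¹ → (φ : ↥N → ℂ) n' = (φ : ↥N → ℂ) n) (hNI : N ≤ I) (hext : ∃ ψ : Cfsg.IrrCharacter ↥I, (Nat.card ↥I : ℂ)⁻¹ * ∑ᶠ g : ↥I, (ψ : ↥I → ℂ) (g * g) = 1 ∧ ∀ n : ↥N, (ψ : ↥I → ℂ) (Subgroup.inclusion hNI n) = (φ : ↥N → ℂ) n) : Nat.card {χ : Cfsg.IrrCharacter G // Cfsg.charDegree (χ : G → ℂ) = 1 ∧ (Nat.card G : ℂ)⁻¹ * ∑ᶠ g : G, (χ : G → ℂ) (g * g) = 1} ≤ I.index * Nat.card {χ : Cfsg.IrrCharacter G // Cfsg.charDegree (χ : G → ℂ) = Cfsg.charDegree (φ : ↥N → ℂ) * I.index ∧ (Nat.card G : ℂ)⁻¹ * ∑ᶠ g : G, (χ : G → ℂ) (g * g) = 1} := by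
  classical
  haveI := Fintype.ofFinite G
  haveI := Fintype.ofFinite I
  haveI := Fintype.ofFinite (IrrCharacter G)
  haveI := Fintype.ofFinite (IrrCharacter I)
  have hnuG : ∀ χ : G → ℂ, (Nat.card G : ℂ)⁻¹ * ∑ᶠ g : G, χ (g * g) = nu χ := by
    intro χ
    rw [finsum_eq_sum_of_fintype, nu_def]
  have hnuI : ∀ χ : I → ℂ, (Nat.card I : ℂ)⁻¹ * ∑ᶠ g : I, χ (g * g) = nu χ := by
    intro χ
    rw [finsum_eq_sum_of_fintype, nu_def]
  simp only [hnuG, hnuI] at hext ⊢
  -- N is perfect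
  have hperf : ⁅N, N⁆ = N := by
    rcases hmin ⁅N, N⁆ inferInstance (Subgroup.commutator_le_left N N) with h | h
    · exfalso
      apply hna
      rw [Subgroup.commutator_eq_bot_iff_le_centralizer] at h
      refine ⟨⟨fun a b => ?_⟩⟩
      apply Subtype.ext
      have := h a.2 b b.2
      simpa using this.symm
    · exact h
  have hlinN : ∀ l : G → ℂ, IsIrrCharacter G l → l 1 = 1 → ∀ n ∈ N, l n = 1 := by
    intro l hl h1 n hn
    apply linear_commutator (IsIrrCharacter.isCharacter hl) h1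
    rw [commutator_def]
    exact Subgroup.commutator_mono le_top le_top (hperf.symm ▸ hn)
  have hdeg1 : ∀ χ : IrrCharacter G, charDegree (χ : G → ℂ) = 1 → (χ : G → ℂ) 1 = 1 := by
    intro χ h
    obtain ⟨n, _, _, hn⟩ := IsIrrCharacter.exists_degree χ.2
    rw [charDegree_eq hn] at h
    rw [hn, h]; simp
  obtain ⟨ψ₀, hψ₀nu, hψ₀⟩ := hext
  have hT : ∀ g : G, g ∈ I ↔ ∀ h : N, (φ : N → ℂ) ⟨g * h * g⁻¹, hN.conj_mem h h.2 g⟩ = (φ : N → ℂ) h := by
    intro g
    rw [hI g]
    constructor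
    · intro h n
      exact h n _ rfl
    · intro h n n' hn'
      rw [← h n]
      apply congrArg
      apply Subtype.ext
      exact hn'
  have hφreal : ∀ n : N, conj ((φ : N → ℂ) n) = (φ : N → ℂ) n := by
    intro n
    rw [← hψ₀ n]
    exact Complex.conj_eq_iff_im.2 (real_of_nu_ne_zero ψ₀ (by rw [hψ₀nu]; exact one_ne_zero) _)
  set θ' : N.subgroupOf I → ℂ := fun x => (φ : N → ℂ) ⟨(x : I), Subgroup.mem_subgroupOf.mp x.2⟩ with hθ'
  have hθ'irr : IsIrrCharacter (N.subgroupOf I) θ' :=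
    IsIrrCharacter.comp_surj (Subgroup.subgroupOfEquivOfLe hNI).toMonoidHom
      (Subgroup.subgroupOfEquivOfLe hNI).surjective φ.2
  have hψ₀res : (fun n : N.subgroupOf I => (ψ₀ : I → ℂ) n) = θ' := by
    funext n
    exact hψ₀ ⟨(n : I), Subgroup.mem_subgroupOf.mp n.2⟩
  obtain ⟨hc1, hc2⟩ := clifford_corr N I hN (φ : N → ℂ) φ.2 hT hNI
  -- restrictions of linear characters
  have hres : ∀ l : G → ℂ, IsIrrCharacter G l → l 1 = 1 → IsIrrCharacter I (fun i : I => l i) := by
    intro l hl h1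
    exact isIrrCharacter_of_linear (IsCharacter.restrict I (IsIrrCharacter.isCharacter hl)) h1
  have hmulirr : ∀ l : G → ℂ, IsIrrCharacter G l → l 1 = 1 →
      IsIrrCharacter I ((fun i : I => l i) * (ψ₀ : I → ℂ)) := by
    intro l hl h1
    exact IsIrrCharacter.linear_mul_irr (IsCharacter.restrict I (IsIrrCharacter.isCharacter hl)) h1 ψ₀.2
  have hover : ∀ l : G → ℂ, IsIrrCharacter G l → l 1 = 1 →
      classInner (indFun (N.subgroupOf I) θ') ((fun i : I => l i) * (ψ₀ : I → ℂ)) ≠ 0 := by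
    intro l hl h1
    rw [frobenius_reciprocity _ _ _ (IsCharacter.isClassFunction (IsIrrCharacter.isCharacter (hmulirr l hl h1)))]
    have : (fun h : N.subgroupOf I => ((fun i : I => l i) * (ψ₀ : I → ℂ)) h) = θ' := by
      rw [← hψ₀res]
      funext n
      simp only [Pi.mul_apply]
      rw [hlinN l hl h1 _ (Subgroup.mem_subgroupOf.mp n.2), one_mul]
    rw [this, IsIrrCharacter.norm_one hθ'irr]
    exact one_ne_zero
  have hindirr : ∀ l : G → ℂ, IsIrrCharacter G l → l 1 = 1 →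
      IsIrrCharacter G (indFun I ((fun i : I => l i) * (ψ₀ : I → ℂ))) := by
    intro l hl h1
    exact hc1 ⟨_, hmulirr l hl h1⟩ (hover l hl h1)
  obtain ⟨dφ, _, _, hdφ⟩ := IsIrrCharacter.exists_degree φ.2
  have hψ₀1 : (ψ₀ : I → ℂ) 1 = dφ := by
    rw [← hdφ]
    exact hψ₀ 1
  have hinddeg : ∀ l : G → ℂ, IsIrrCharacter G l → l 1 = 1 →
      charDegree (indFun I ((fun i : I => l i) * (ψ₀ : I → ℂ))) = charDegree (φ : N → ℂ) * I.index := by
    intro l hl h1
    rw [charDegree_eq hdφ]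
    apply charDegree_eq
    rw [indFun_apply_one]
    simp only [Pi.mul_apply, OneMemClass.coe_one, h1, one_mul, hψ₀1]
    push_cast
    ring
  -- the indicator
  have hindnu : ∀ l : IrrCharacter G, (l : G → ℂ) 1 = 1 → nu (l : G → ℂ) = 1 →
      nu (indFun I ((fun i : I => (l : G → ℂ) i) * (ψ₀ : I → ℂ))) = 1 := by
    intro l h1 hl1
    have hstab := nu_ind_of_stab N I hN hNI φ hT ⟨_, hmulirr l l.2 h1⟩ (by
      intro n
      simp only [Pi.mul_apply]
      rw [hψ₀ n, hlinN l l.2 h1 _ (by simp), one_mul]) hφreal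
    simp only at hstab
    rw [hstab, ← hψ₀nu, nu_def, nu_def]
    congr 1
    apply Finset.sum_congr rfl
    intro s _
    simp only [Pi.mul_apply, Subgroup.coe_mul]
    have hc := IsIrrCharacter.isCharacter l.2
    have hr : conj ((l : G → ℂ) s) = (l : G → ℂ) s :=
      Complex.conj_eq_iff_im.2 (real_of_nu_ne_zero l (by rw [hl1]; exact one_ne_zero) _)
    have h2 := IsCharacter.linear_normSq hc h1 (s : G)
    rw [hr] at h2
    rw [IsCharacter.linear_mul hc h1, h2, one_mul]
  have hinj : ∀ l l' : G → ℂ, IsIrrCharacter G l → l 1 = 1 → IsIrrCharacter G l' → l' 1 = 1 →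
      indFun I ((fun i : I => l i) * (ψ₀ : I → ℂ)) = indFun I ((fun i : I => l' i) * (ψ₀ : I → ℂ)) →
      (fun i : I => l i) = (fun i : I => l' i) := by
    intro l l' hl h1 hl' h1' heq
    have hN' : (N.subgroupOf I).Normal := inferInstance
    have hg := (gallagher (N.subgroupOf I) (ψ₀ : I → ℂ) ψ₀.2 (by rw [hψ₀res]; exact hθ'irr)).2.1
    apply hg _ _ (hres l hl h1) _ (hres l' hl' h1') _
    · by_contra hne
      have := hc2 ⟨_, hmulirr l hl h1⟩ ⟨_, hmulirr l' hl' h1'⟩ (fun h => hne (congrArg Subtype.val h))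
        (hover l hl h1) (hover l' hl' h1')
      simp only at this
      rw [← heq, IsIrrCharacter.norm_one (hindirr l hl h1)] at this
      exact one_ne_zero this
    · intro n hn
      simp only [OneMemClass.coe_one]
      rw [hlinN l hl h1 _ (Subgroup.mem_subgroupOf.mp hn), h1]
    · intro n hn
      simp only [OneMemClass.coe_one]
      rw [hlinN l' hl' h1' _ (Subgroup.mem_subgroupOf.mp hn), h1']
  -- the map
  let F : {χ : IrrCharacter G // charDegree (χ : G → ℂ) = 1 ∧ nu (χ : G → ℂ) = 1} →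
      {χ : IrrCharacter G // charDegree (χ : G → ℂ) = charDegree (φ : N → ℂ) * I.index ∧
        nu (χ : G → ℂ) = 1} :=
    fun a => ⟨⟨_, hindirr a.1 a.1.2 (hdeg1 a.1 a.2.1)⟩, hinddeg a.1 a.1.2 (hdeg1 a.1 a.2.1),
      hindnu a.1 (hdeg1 a.1 a.2.1) a.2.2⟩
  rw [Nat.card_eq_fintype_card, Nat.card_eq_fintype_card]
  have hmain := Finset.card_le_mul_card_image (f := F) Finset.univ I.index (by
    intro b hb
    obtain ⟨a₀, _, rfl⟩ := Finset.mem_image.mp hb
    have h10 := hdeg1 a₀.1 a₀.2.1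
    have hcc := Cfsg.Agent.S4870.card_const_le (indFun I (fun i : I => (a₀.1 : G → ℂ) i))
      (IsCharacter.ind I (IsCharacter.restrict I (IsIrrCharacter.isCharacter a₀.1.2))) I.index
      (by rw [indFun_apply_one]; simp [h10])
      ((Finset.univ.filter (fun x => F x = F a₀)).image Subtype.val) (by
        intro χ hχ
        obtain ⟨x, hx, rfl⟩ := Finset.mem_image.mp hχ
        have hx' := (Finset.mem_filter.mp hx).2
        have h1x := hdeg1 x.1 x.2.1
        have hxe := hinj x.1 a₀.1 x.1.2 h1x a₀.1.2 h10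
          (congrArg (fun z => (z.1 : G → ℂ)) hx')
        rw [frobenius_reciprocity _ _ _ (IsCharacter.isClassFunction (IsIrrCharacter.isCharacter x.1.2)),
          hxe, IsIrrCharacter.norm_one (hres a₀.1 a₀.1.2 h10)]
        exact one_ne_zero)
    rwa [Finset.card_image_of_injective _ Subtype.val_injective] at hcc)
  calc Fintype.card {χ : IrrCharacter G // charDegree (χ : G → ℂ) = 1 ∧ nu (χ : G → ℂ) = 1}
      = (Finset.univ : Finset {χ : IrrCharacter G // charDegree (χ : G → ℂ) = 1 ∧ nu (χ : G → ℂ) = 1}).card := rfl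
    _ ≤ _ := hmain
    _ ≤ _ := Nat.mul_le_mul_left _ (Finset.card_le_univ _)

end Cfsg.Agent.S4912
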