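import Cfsg.Statements.S5125
import Cfsg.Agent.Lib_helper8_FusAI

set_option autoImplicit false
open Cfsg

namespace Cfsg.Agent.S5125

/-- Let F be a saturated fusion system over a finite p-group S and Q a subgroup strongly closed in F. If Q has a subgroup Q₁ that is normal in F, with Q/Q₁ abelian and Aut_F(Q₁) a p-group, then Q is normal in F. -/
theorem result {Ω : Type*} [Group Ω] {S : Subgroup Ω} [Finite S] (p : ℕ) [Fact p.Prime] (hS : IsPGroup p S) (F : Cfsg.FusionSystem S) (hF : F.IsSaturated p) (Q Q₁ : Subgroup Ω) (hQ : F.StronglyClosed Q) (hQ₁Q : Q₁ ≤ Q) (hQ₁ : F.IsNormal Q₁) (hab : ⁅Q, Q⁆ ≤ Q₁) (hAut : IsPGroup p ↥(F.autGroup Q₁)) : F.IsNormal Q := by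
  classical
  have hQ₁S : Q₁ ≤ S := hQ₁.1
  -- the chain
  let E : ℕ → Subgroup Ω := fun k => Nat.rec Q₁ (fun _ X => ⁅X, S⁆) k
  have hE0 : E 0 = Q₁ := rfl
  have hEs : ∀ k, E (k + 1) = ⁅E k, S⁆ := fun k => rfl
  have hnorm : ∀ k, ∀ s ∈ S, ∀ x ∈ E k, s * x * s⁻¹ ∈ E k := by
    intro k
    induction k with
    | zero =>
      intro s hs x hx
      have h1 := Cfsg.Agent.H8.weaklyClosed_le_normalizer (Cfsg.Agent.H8.weaklyClosed_of_stronglyClosed
        (Cfsg.Agent.H8.stronglyClosed_of_isNormal hQ₁)) hs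
      exact (Subgroup.mem_normalizer_iff.1 h1 x).1 hx
    | succ k ih =>
      intro s hs x hx
      rw [hEs] at hx ⊢
      have h1 : (⁅E k, S⁆).map (MulAut.conj s).toMonoidHom ≤ ⁅E k, S⁆ := by
        rw [Subgroup.map_commutator]
        apply Subgroup.commutator_mono
        · rintro _ ⟨y, hy, rfl⟩
          exact ih s hs y hy
        · rintro _ ⟨y, hy, rfl⟩
          exact S.mul_mem (S.mul_mem hs hy) (S.inv_mem hs)
      exact h1 ⟨x, hx, rfl⟩
  have hanti1 : ∀ k, E (k + 1) ≤ E k := by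
    intro k
    rw [hEs, Subgroup.commutator_le]
    intro x hx s hs
    have h1 := hnorm k s hs x⁻¹ (Subgroup.inv_mem _ hx)
    rw [commutatorElement_def]
    have : x * s * x⁻¹ * s⁻¹ = x * (s * x⁻¹ * s⁻¹) := by group
    rw [this]
    exact Subgroup.mul_mem _ hx h1
  have hantiE : Antitone E := antitone_nat_of_succ_le hanti1
  have hEQ₁ : ∀ k, E k ≤ Q₁ := fun k => hantiE (Nat.zero_le k)
  have hlcs : ∀ k, E k ≤ S.lowerCentralSeries k := by
    intro k
    induction k with
    | zero => rw [hE0]; simpa using hQ₁S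
    | succ k ih =>
      rw [hEs, Subgroup.lowerCentralSeries_succ]
      exact Subgroup.commutator_mono ih le_rfl
  have hnil : Group.IsNilpotent S := hS.isNilpotent
  obtain ⟨n, hn⟩ := (Subgroup.isNilpotent_iff_lowerCentralSeries S).1 hnil
  have hEn : E n = ⊥ := by
    rw [eq_bot_iff, ← hn]; exact hlcs n
  have hscE : ∀ k, F.StronglyClosed (E k) := by
    intro k
    rw [Cfsg.Agent.H8.stronglyClosed_iff]
    refine ⟨(hEQ₁ k).trans hQ₁S, fun R f hR hf x hx => ?_⟩
    obtain ⟨s, hs, hsf⟩ := Cfsg.Agent.H8.exists_conj_of_isNormal_of_isPGroup hS hF hQ₁ hAut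
      (hR.trans (hEQ₁ k)) hf
    rw [hsf x hx]
    exact hnorm k s hs x (hR hx)
  apply Cfsg.Agent.H8.isNormal_of_hasChain hS hF
  refine Cfsg.Agent.H8.hasChain_of_seq (fun k => Nat.casesOn k Q E) (n + 1) rfl hEn ?_ ?_ ?_
  · apply antitone_nat_of_succ_le
    intro k
    cases k with
    | zero => exact hQ₁Q
    | succ k => exact hanti1 k
  · intro k
    cases k with
    | zero => exact hQ
    | succ k => exact hscE k
  · intro k
    cases k with
    | zero => exact hab
    | succ k =>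
      show ⁅Q, E k⁆ ≤ E (k + 1)
      rw [hEs, Subgroup.commutator_comm]
      exact Subgroup.commutator_mono le_rfl hQ.1

end Cfsg.Agent.S5125
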