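import Cfsg.Statements.S5223
import Cfsg.Agent.Lib_helper8_FusP

set_option autoImplicit false
open Cfsg

namespace Cfsg.Agent.S5223

/-- Let F be a saturated fusion system over a finite p-group S. Suppose there are subgroups Q₀ = S, Q₁, …, Qₙ = 1 (not required to be nested) such that for each i < n the focal subgroup of Qᵢ (generated by the elements x⁻¹φ(x), x ∈ Qᵢ, φ a map of F defined on the cyclic group generated by x) lies in Qᵢ₊₁. Then F is the inner fusion system of S. -/
theorem result {Ω : Type*} [Group Ω] {S : Subgroup Ω} [Finite S] (p : ℕ) [Fact p.Prime] (hS : IsPGroup p S) (F : Cfsg.FusionSystem S) (hF : F.IsSaturated p) (n : ℕ) (Q : Fin (n + 1) → Subgroup Ω) (hQ0 : Q 0 = S) (hQn : Q (Fin.last n) = ⊥) (hstep : ∀ i : Fin n, Subgroup.closure {y : Ω | ∃ x ∈ Q i.castSucc, ∃ φ ∈ F.Hom (Subgroup.zpowers x), y = x⁻¹ * φ ⟨x, Subgroup.mem_zpowers x⟩} ≤ Q i.succ) : ∀ P : Subgroup Ω, F.Hom P = (Cfsg.innerFusionSystem S).Hom P := by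
  have main : F = Cfsg.innerFusionSystem S := by
    apply H8.eq_inner_of_isPGroup hS F hF
    intro P hP
    have hfin : Finite P := H8.finite_of_le hP
    let Q' : ℕ → Subgroup Ω := fun j => if hj : j < n + 1 then Q ⟨j, hj⟩ else ⊥
    let D : ℕ → Subgroup Ω := fun i => ⨅ j : {j : ℕ // j ≤ i}, Q' j
    have hD_mem : ∀ i x, x ∈ D i ↔ ∀ j, j ≤ i → x ∈ Q' j := by
      intro i x
      simp only [D, Subgroup.mem_iInf, Subtype.forall]
    let c : ℕ → Subgroup Ω := fun k => D (n - k)
    have hc : Monotone c := by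
      intro a b hab x hx
      rw [hD_mem] at hx ⊢
      exact fun j hj => hx j (by omega)
    have hQ'0 : Q' 0 = S := by
      show (if hj : 0 < n + 1 then Q ⟨0, hj⟩ else ⊥) = S
      rw [dif_pos (Nat.succ_pos n)]; exact hQ0
    have hQ'n : Q' n = ⊥ := by
      show (if hj : n < n + 1 then Q ⟨n, hj⟩ else ⊥) = ⊥
      rw [dif_pos (Nat.lt_succ_self n)]; exact hQn
    have h0 : c 0 = ⊥ := by
      rw [eq_bot_iff]
      intro x hx
      have := (hD_mem _ _).1 hx n (by omega)
      rwa [hQ'n] at this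
    have hm : P ≤ c n := by
      intro x hx
      refine (hD_mem _ _).2 fun j hj => ?_
      have : j = 0 := by omega
      rw [this, hQ'0]; exact hP hx
    refine (H8.isPGroup_stab hc h0 (hS.to_le hP) hm).to_le ?_
    intro α hα k x hx
    have hα' := (H8.mem_autGroup_iff hP).1 hα
    refine (hD_mem _ _).2 fun j hj => ?_
    cases j with
    | zero =>
      rw [hQ'0]
      exact S.mul_mem (S.inv_mem (hP x.2)) (hP (α x).2)
    | succ j =>
      have hj' : j ≤ n - (k + 1) := by omega
      have hjn : j < n := by omega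
      have hxj := (hD_mem _ _).1 hx j hj'
      have e1 : Q' j = Q (Fin.castSucc ⟨j, hjn⟩) := by
        show (if hj : j < n + 1 then Q ⟨j, hj⟩ else ⊥) = _
        rw [dif_pos (by omega)]; rfl
      have e2 : Q' (j + 1) = Q (Fin.succ ⟨j, hjn⟩) := by
        show (if hj : j + 1 < n + 1 then Q ⟨j + 1, hj⟩ else ⊥) = _
        rw [dif_pos (by omega)]; rfl
      rw [e2]
      rw [e1] at hxj
      apply hstep ⟨j, hjn⟩
      apply Subgroup.subset_closure
      obtain ⟨φ, hφ, e⟩ := hα'.mono ((Subgroup.zpowers_le).2 x.2)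
      refine ⟨x, hxj, φ, hφ, ?_⟩
      rw [e, H8.autFun_coe]
  intro P
  rw [main]

end Cfsg.Agent.S5223
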