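import Cfsg.Statements.S5226
import Cfsg.Agent.Lib_helper8_FusT

set_option autoImplicit false
open Cfsg

namespace Cfsg.Agent.S5226

/-- Let F be a saturated fusion system over a finite p-group S and Q a subgroup of S. Then Q is normal in F (F equals the normalizer system of Q) if and only if Q is strongly closed in F and admits a central series 1 = Q₀ ≤ Q₁ ≤ ⋯ ≤ Qₙ = Q ([Qᵢ₊₁, Q] ≤ Qᵢ) all of whose proper terms are weakly closed in F. -/
theorem result {Ω : Type*} [Group Ω] {S : Subgroup Ω} [Finite S] (p : ℕ) [Fact p.Prime] (hS : IsPGroup p S) (F : Cfsg.FusionSystem S) (hF : F.IsSaturated p) (Q : Subgroup Ω) : F.IsNormal Q ↔ F.StronglyClosed Q ∧ ∃ (n : ℕ) (C : Fin (n + 1) → Subgroup Ω), C 0 = ⊥ ∧ C (Fin.last n) = Q ∧ Monotone C ∧ (∀ i : Fin n, ⁅C i.succ, Q⁆ ≤ C i.castSucc) ∧ ∀ i : Fin n, F.WeaklyClosed (C i.castSucc) := by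
  constructor
  · intro h
    refine ⟨H8.stronglyClosed_of_isNormal h, ?_⟩
    obtain ⟨n, Qs, h0, hl, hmono, H⟩ := H8.hasChain_of_isNormal hS h
    refine ⟨n, Qs, h0, hl, hmono, fun i => ?_, fun i => ?_⟩
    · rw [Subgroup.commutator_comm]; exact (H i).2
    · apply H8.weaklyClosed_of_stronglyClosed
      obtain ⟨i, hi⟩ := i
      cases i with
      | zero =>
        have : Fin.castSucc (⟨0, hi⟩ : Fin n) = 0 := rfl
        rw [this, h0]; exact H8.stronglyClosed_bot F
      | succ i =>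
        have : Fin.castSucc (⟨i + 1, hi⟩ : Fin n) = Fin.succ ⟨i, Nat.lt_of_succ_lt hi⟩ := rfl
        rw [this]
        exact (H _).1
  · rintro ⟨hsc, n, C, h0, hl, hmono, hcomm, hw⟩
    exact (H8.isNormal_iff_stronglyClosed hS hF).2 ⟨hsc, fun P hc hr =>
      H8.le_centric_radical_of_weakChain hS hsc h0 hl hmono hcomm hw hc hr⟩

end Cfsg.Agent.S5226
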