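import Cfsg.Statements.S5236
import Cfsg.Agent.Lib_helper8_FusAO

set_option autoImplicit false
open Cfsg

namespace Cfsg.Agent.S5236

/-- Let p be an odd prime, F a saturated fusion system over a finite p-group S and P a subgroup of S strongly closed in F. Then P is normal in F if and only if Ω₁(P) (the subgroup generated by the elements of order p of P) has a chain of subgroups 1 = Q₀ ≤ Q₁ ≤ ⋯ ≤ Qₙ = Ω₁(P), each strongly closed in F, with [Qᵢ₊₁, P] ≤ Qᵢ for all i. -/
theorem result {Ω : Type*} [Group Ω] {S : Subgroup Ω} [Finite S] (p : ℕ) [Fact p.Prime] (hS : IsPGroup p S) (F : Cfsg.FusionSystem S) (hF : F.IsSaturated p) (hp : p ≠ 2) (P : Subgroup Ω) (hP : F.StronglyClosed P) : F.IsNormal P ↔ ∃ (n : ℕ) (Q : Fin (n + 1) → Subgroup Ω), Q 0 = ⊥ ∧ Q (Fin.last n) = Cfsg.omegaOne p P ∧ Monotone Q ∧ (∀ i : Fin (n + 1), F.StronglyClosed (Q i)) ∧ ∀ i : Fin n, ⁅Q i.succ, P⁆ ≤ Q i.castSucc := by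
  constructor
  · intro hPn
    obtain ⟨n, Qs, h0, hl, hmono, H⟩ := Cfsg.Agent.H8.hasChain_of_isNormal hS hPn
    have hΩ := Cfsg.Agent.H8.stronglyClosed_omegaOne (p := p) hPn
    have hΩP := Cfsg.Agent.H8.omegaOne_le p P
    refine ⟨n, fun i => Qs i ⊓ Cfsg.omegaOne p P, ?_, ?_, ?_, ?_, ?_⟩
    · show Qs 0 ⊓ _ = ⊥
      rw [h0, bot_inf_eq]
    · show Qs (Fin.last n) ⊓ _ = _
      rw [hl, inf_eq_right.2 hΩP]
    · intro a b hab
      exact inf_le_inf_right _ (hmono hab)
    · intro i
      refine Fin.cases ?_ (fun j => ?_) i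
      · show F.StronglyClosed (Qs 0 ⊓ _)
        rw [h0, bot_inf_eq]; exact Cfsg.Agent.H8.stronglyClosed_bot F
      · exact Cfsg.Agent.H8.stronglyClosed_inf (H j).1 hΩ
    · intro i
      refine le_inf ?_ ?_
      · rw [Subgroup.commutator_comm]
        exact (Subgroup.commutator_mono le_rfl inf_le_left).trans (H i).2
      · rw [Subgroup.commutator_le]
        intro a ha b hb
        have hbS : b ∈ S := hP.1 hb
        have h1 := (Subgroup.mem_normalizer_iff.1
          (Cfsg.Agent.H8.stronglyClosed_le_normalizer hΩ hbS) a⁻¹).1 (Subgroup.inv_mem _ ha.2)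
        rw [commutatorElement_def]
        have : a * b * a⁻¹ * b⁻¹ = a * (b * a⁻¹ * b⁻¹) := by group
        rw [this]
        exact Subgroup.mul_mem _ ha.2 h1
  · rintro ⟨n, Q, h0, hl, hmono, hsc, hcomm⟩
    rw [Cfsg.Agent.H8.isNormal_iff_stronglyClosed hS hF]
    refine ⟨hP, fun R hRc hr => ?_⟩
    have hlast : ∀ k, (⟨min k n, by omega⟩ : Fin (n + 1)) = ⟨min k n, by omega⟩ := fun _ => rfl
    refine Cfsg.Agent.H8.le_centric_radical_of_omegaChain hS hp hP
      (c := fun k => Q ⟨min k n, by omega⟩) ?_ ?_ (n := n) ?_ (fun k => hsc _) ?_ hRc hr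
    · intro a b hab
      apply hmono
      show min a n ≤ min b n
      omega
    · simpa using h0
    · have : (⟨min n n, by omega⟩ : Fin (n + 1)) = Fin.last n := by ext; simp
      show _ ≤ Q ⟨min n n, by omega⟩
      rw [this, hl]
    · intro k
      show ⁅Q ⟨min (k + 1) n, by omega⟩, P⁆ ≤ Q ⟨min k n, by omega⟩
      by_cases hk : k < n
      · have e1 : (⟨min (k + 1) n, by omega⟩ : Fin (n + 1)) = (⟨k, hk⟩ : Fin n).succ := by
          ext; simp; omega
        have e2 : (⟨min k n, by omega⟩ : Fin (n + 1)) = Fin.castSucc (⟨k, hk⟩ : Fin n) := by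
          ext; simp; omega
        rw [e1, e2]; exact hcomm _
      · have e1 : (⟨min (k + 1) n, by omega⟩ : Fin (n + 1)) = ⟨min k n, by omega⟩ := by
          ext; simp; omega
        rw [e1, Subgroup.commutator_le]
        intro a ha b hb
        have hbS : b ∈ S := hP.1 hb
        have h1 := (Subgroup.mem_normalizer_iff.1
          (Cfsg.Agent.H8.stronglyClosed_le_normalizer (hsc _) hbS) a⁻¹).1 (Subgroup.inv_mem _ ha)
        rw [commutatorElement_def]
        have : a * b * a⁻¹ * b⁻¹ = a * (b * a⁻¹ * b⁻¹) := by group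
        rw [this]
        exact Subgroup.mul_mem _ ha h1

end Cfsg.Agent.S5236
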