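import Cfsg.Statements.S5246
import Cfsg.Agent.Lib_helper8_FusEL
import Cfsg.Agent.Lib_helper8_FusD
import Cfsg.Agent.Lib_helper8_FusCB

set_option autoImplicit false
open Cfsg
open scoped commutatorElement

namespace Cfsg.Agent.S5246

/-- Let p be an odd prime, G a finite group and P a Sylow p-subgroup. Call a fusion system F p-stable when, for every fully normalized subgroup Q and every χ ∈ Aut_F(Q) acting quadratically on Q (that is, χ fixes a⁻¹χ(a) for every a ∈ Q; equivalently χ(a⁻¹)·a·χ(a⁻¹)·χ(χ(a)) = 1), χ lies in O_p(Aut_F(Q)). Then G is p-stable in the normalizer form (for every p-subgroup Q and x ∈ N_G(Q) with [Q, x, x] = 1, the image of x lies in O_p(N_G(Q)/C_G(Q))) if and only if the fusion system of G on P is p-stable. -/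
theorem result {Ω : Type*} [Group Ω] [Finite Ω] {p : ℕ} [Fact p.Prime] (hp : p ≠ 2) (P : Sylow p Ω) : Cfsg.IsNormalizerPStable p Ω ↔ (∀ Q : Subgroup Ω, (Cfsg.groupFusionSystem (P : Subgroup Ω)).IsFullyNormalized Q → ∀ χ : MulAut ↥Q, χ ∈ (Cfsg.groupFusionSystem (P : Subgroup Ω)).autGroup Q → (∀ a : ↥Q, (χ a⁻¹) * a * (χ a⁻¹) * (χ (χ a)) = 1) → χ ∈ ((Cfsg.pCore p ↥((Cfsg.groupFusionSystem (P : Subgroup Ω)).autGroup Q)).map ((Cfsg.groupFusionSystem (P : Subgroup Ω)).autGroup Q).subtype : Subgroup (MulAut ↥Q))) := by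
  classical
  set F := Cfsg.groupFusionSystem (P : Subgroup Ω) with hF
  have hAut : ∀ Q : Subgroup Ω, Q ≤ (P : Subgroup Ω) →
      F.autGroup Q = Cfsg.autInducedBy ⊤ Q := by
    intro Q hQ
    rw [hF, H8.groupFusionSystem_eq]
    exact H8.autGroup_ofSubgroup hQ
  -- the key comparison
  have K : ∀ (Q₀ Q : Subgroup Ω) (t : Ω), (∀ x, x ∈ Q₀ ↔ t * x * t⁻¹ ∈ Q) →
      ∀ (g : Ω) (hg : g ∈ Subgroup.normalizer (Q₀ : Set Ω)) (χ : MulAut Q),
      (∀ x : Q, ((χ x : Q) : Ω) = (t * g * t⁻¹) * x * (t * g * t⁻¹)⁻¹) →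
      ((QuotientGroup.mk (s := (Subgroup.centralizer (Q₀ : Set Ω)).subgroupOf
          (Subgroup.normalizer (Q₀ : Set Ω))) (⟨g, hg⟩ : ↥(Subgroup.normalizer (Q₀ : Set Ω)))) ∈
        Cfsg.pCore p (↥(Subgroup.normalizer (Q₀ : Set Ω)) ⧸
          (Subgroup.centralizer (Q₀ : Set Ω)).subgroupOf (Subgroup.normalizer (Q₀ : Set Ω))) ↔
       χ ∈ (Cfsg.pCore p (Cfsg.autInducedBy ⊤ Q)).map
          (Cfsg.autInducedBy ⊤ Q).subtype) := by
    intro Q₀ Q t hQ g hg χ hχ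
    have hback : ∀ x ∈ Q, t⁻¹ * x * t ∈ Q₀ := by
      intro x hx
      rw [hQ]
      have : t * (t⁻¹ * x * t) * t⁻¹ = x := by group
      rwa [this]
    have hn : ∀ s ∈ Subgroup.normalizer (Q₀ : Set Ω), ∀ x ∈ Q,
        (t * s * t⁻¹) * x * (t * s * t⁻¹)⁻¹ ∈ Q := by
      intro s hs x hx
      have h1 := (Subgroup.mem_normalizer_iff.1 hs _).1 (hback x hx)
      rw [hQ] at h1
      have e : t * (s * (t⁻¹ * x * t) * s⁻¹) * t⁻¹ = (t * s * t⁻¹) * x * (t * s * t⁻¹)⁻¹ := by group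
      rwa [e] at h1
    let c : ↥(Subgroup.normalizer (Q₀ : Set Ω)) →* MulAut ↥Q :=
      { toFun := fun s =>
          { toFun := fun x => ⟨(t * s * t⁻¹) * x * (t * s * t⁻¹)⁻¹, hn s s.2 x x.2⟩
            invFun := fun x => ⟨(t * (s : Ω)⁻¹ * t⁻¹) * x * (t * (s : Ω)⁻¹ * t⁻¹)⁻¹,
              hn _ (inv_mem s.2) x x.2⟩
            left_inv := fun x => Subtype.ext (by simp [mul_assoc])
            right_inv := fun x => Subtype.ext (by simp [mul_assoc])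
            map_mul' := fun x y => Subtype.ext (by simp [mul_assoc]) }
        map_one' := by ext; simp
        map_mul' := fun s u => by ext; simp [mul_assoc] }
    have hc : ∀ (s : ↥(Subgroup.normalizer (Q₀ : Set Ω))) (x : Q),
        ((c s x : Q) : Ω) = (t * s * t⁻¹) * x * (t * s * t⁻¹)⁻¹ := fun _ _ => rfl
    have hcg : c ⟨g, hg⟩ = χ := by
      ext x
      rw [hc, hχ]
    rw [← hcg]
    apply H8.pCore_iff_of_hom c
    · intro s
      exact H8.mem_autInducedBy_iff.2 ⟨t * s * t⁻¹, trivial, fun x => hc s x⟩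
    · intro α hα
      obtain ⟨g', -, h⟩ := H8.mem_autInducedBy_iff.1 hα
      have hg'N : ∀ x, x ∈ Q ↔ g' * x * g'⁻¹ ∈ Q := by
        intro x
        constructor
        · intro hx
          rw [← h ⟨x, hx⟩]; exact (α ⟨x, hx⟩).2
        · intro hx
          obtain ⟨y, hy⟩ := α.surjective ⟨_, hx⟩
          have h1 := h y
          rw [hy] at h1
          have : x = y := mul_left_cancel (mul_right_cancel h1)
          rw [this]; exact y.2
      have hs : t⁻¹ * g' * t ∈ Subgroup.normalizer (Q₀ : Set Ω) := by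
        rw [Subgroup.mem_normalizer_iff]
        intro x
        rw [hQ x, hQ, hg'N]
        have e : t * (t⁻¹ * g' * t * x * (t⁻¹ * g' * t)⁻¹) * t⁻¹ = g' * (t * x * t⁻¹) * g'⁻¹ := by
          group
        rw [e]
      refine ⟨⟨_, hs⟩, ?_⟩
      ext x
      rw [hc, h]
      have e : t * (t⁻¹ * g' * t) * t⁻¹ = g' := by group
      show t * (t⁻¹ * g' * t) * t⁻¹ * x * (t * (t⁻¹ * g' * t) * t⁻¹)⁻¹ = _
      rw [e]
    · intro s
      rw [Subgroup.mem_subgroupOf, Subgroup.mem_centralizer_iff]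
      constructor
      · intro h
        ext x
        rw [hc]
        have h1 := h _ (hback x x.2)
        have e : (t * s * t⁻¹) * x * (t * s * t⁻¹)⁻¹ = t * ((s : Ω) * (t⁻¹ * x * t)) * (s : Ω)⁻¹ * t⁻¹ := by
          group
        rw [e, ← h1]
        simp [mul_assoc]
      · intro h x hx
        have hx' : t * x * t⁻¹ ∈ Q := (hQ x).1 hx
        have h1 := hc s ⟨_, hx'⟩
        rw [h] at h1
        have h2 : t * x * t⁻¹ = (t * s * t⁻¹) * (t * x * t⁻¹) * (t * s * t⁻¹)⁻¹ := h1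
        have h3 : t * x * t⁻¹ = t * ((s : Ω) * x * (s : Ω)⁻¹) * t⁻¹ := by
          rw [h2]; group
        have h4 : x = (s : Ω) * x * (s : Ω)⁻¹ := mul_left_cancel (mul_right_cancel h3)
        calc x * s = ((s : Ω) * x * (s : Ω)⁻¹) * s := by rw [← h4]
          _ = s * x := by group
  -- quadratic translation
  have Qd : ∀ (Q : Subgroup Ω) (g : Ω) (χ : MulAut Q), (∀ x : Q, ((χ x : Q) : Ω) = g * x * g⁻¹) →
      ((∀ a : ↥Q, (χ a⁻¹) * a * (χ a⁻¹) * (χ (χ a)) = 1) ↔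
        ⁅⁅Q, Subgroup.zpowers g⁆, Subgroup.zpowers g⁆ = ⊥) := by
    intro Q g χ hχ
    rw [H8.quad_iff]
    constructor
    · intro h a ha
      have h1 := congrArg Subtype.val (h ⟨a⁻¹, inv_mem ha⟩)
      simp only [Subgroup.coe_mul, hχ, Subgroup.coe_inv, inv_inv, Subgroup.coe_one] at h1
      rw [commutatorElement_def]
      have e : g * a * g⁻¹ * a⁻¹ * (g * a * g⁻¹) * (g * (g * a⁻¹ * g⁻¹) * g⁻¹) =
          (a * g * a⁻¹ * g⁻¹)⁻¹ * (g * (a * g * a⁻¹ * g⁻¹) * g⁻¹) := by group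
      rw [e, inv_mul_eq_one] at h1
      calc a * g * a⁻¹ * g⁻¹ * g = (g * (a * g * a⁻¹ * g⁻¹) * g⁻¹) * g := by rw [← h1]
        _ = g * (a * g * a⁻¹ * g⁻¹) := by group
    · intro h a
      apply Subtype.ext
      have h1 := h a⁻¹ (inv_mem a.2)
      rw [commutatorElement_def] at h1
      simp only [Subgroup.coe_mul, hχ, Subgroup.coe_inv, Subgroup.coe_one]
      have e : g * (a : Ω)⁻¹ * g⁻¹ * a * (g * (a : Ω)⁻¹ * g⁻¹) * (g * (g * a * g⁻¹) * g⁻¹) =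
          g * ((a : Ω)⁻¹ * g⁻¹ * a * g * (a : Ω)⁻¹ * g * a * g⁻¹) * g⁻¹ := by group
      rw [e]
      have h2 : (a : Ω)⁻¹ * g * a * g⁻¹ * g = g * ((a : Ω)⁻¹ * g * a * g⁻¹) := by simpa using h1
      have e2 : (a : Ω)⁻¹ * g⁻¹ * a * g * (a : Ω)⁻¹ * g * a * g⁻¹ =
          (a : Ω)⁻¹ * g⁻¹ * a * (g * ((a : Ω)⁻¹ * g * a * g⁻¹)) := by group
      rw [e2, ← h2]; group
  constructor
  · intro hst Q hQ χ hχ hquad
    have hQP : Q ≤ (P : Subgroup Ω) := hQ.1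
    rw [hAut Q hQP] at hχ ⊢
    obtain ⟨g, -, hg⟩ := H8.mem_autInducedBy_iff.1 hχ
    have hgN : g ∈ Subgroup.normalizer (Q : Set Ω) := by
      rw [Subgroup.mem_normalizer_iff]
      intro x
      constructor
      · intro hx
        rw [← hg ⟨x, hx⟩]; exact (χ ⟨x, hx⟩).2
      · intro hx
        obtain ⟨y, hy⟩ := χ.surjective ⟨_, hx⟩
        have h1 := hg y
        rw [hy] at h1
        have : x = y := mul_left_cancel (mul_right_cancel h1)
        rw [this]; exact y.2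
    have hq := (Qd Q g χ hg).1 hquad
    have h1 := hst Q (P.2.to_le hQP) g hgN hq
    exact (K Q Q 1 (by intro x; simp) g hgN χ (by intro x; rw [hg]; simp)).1 h1
  · intro hfs Q₀ hQ₀ g hg hq
    obtain ⟨t₁, -, ht₁⟩ := H8.sylow_conj (A := ⊤) (T := (P : Subgroup Ω)) (H8.sylIn_top P) le_top hQ₀
    have hQ1 : H8.cjs t₁ Q₀ ≤ (P : Subgroup Ω) := by
      intro x hx
      have h1 := ht₁ _ (H8.mem_cjs.1 hx)
      have e : t₁ * (t₁⁻¹ * x * t₁) * t₁⁻¹ = x := by group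
      rwa [e] at h1
    obtain ⟨Q, hconj, hQfn⟩ := H8.exists_fullyNormalized_conj F hQ1
    have hQP : Q ≤ (P : Subgroup Ω) := hQfn.1
    rw [hF, H8.groupFusionSystem_eq] at hconj
    obtain ⟨-, -, t₂, -, ht₂⟩ := H8.isConj_ofSubgroup_iff.1 hconj
    have hQ : ∀ x, x ∈ Q₀ ↔ (t₂ * t₁) * x * (t₂ * t₁)⁻¹ ∈ Q := by
      intro x
      rw [← ht₂, H8.mem_cjs, H8.mem_cjs]
      have e : t₁⁻¹ * (t₂⁻¹ * ((t₂ * t₁) * x * (t₂ * t₁)⁻¹) * t₂) * t₁ = x := by group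
      rw [e]
    set t := t₂ * t₁ with ht
    have hback : ∀ x, x ∈ Q ↔ t⁻¹ * x * t ∈ Q₀ := by
      intro x
      rw [hQ]
      have : t * (t⁻¹ * x * t) * t⁻¹ = x := by group
      rw [this]
    have hg' : t * g * t⁻¹ ∈ Subgroup.normalizer (Q : Set Ω) := by
      rw [Subgroup.mem_normalizer_iff]
      intro x
      rw [hback x, hback, Subgroup.mem_normalizer_iff.1 hg]
      have e : t⁻¹ * (t * g * t⁻¹ * x * (t * g * t⁻¹)⁻¹) * t = g * (t⁻¹ * x * t) * g⁻¹ := by group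
      rw [e]
    have hn : ∀ s ∈ Subgroup.normalizer (Q : Set Ω), ∀ x ∈ Q, s * x * s⁻¹ ∈ Q :=
      fun s hs x hx => (Subgroup.mem_normalizer_iff.1 hs x).1 hx
    set χ : MulAut Q := H8.cjAut hn ⟨t * g * t⁻¹, hg'⟩ with hχdef
    have hχ : ∀ x : Q, ((χ x : Q) : Ω) = (t * g * t⁻¹) * x * (t * g * t⁻¹)⁻¹ := fun _ => rfl
    have hχF : χ ∈ F.autGroup Q := by
      rw [hAut Q hQP]
      exact H8.mem_autInducedBy_iff.2 ⟨t * g * t⁻¹, trivial, hχ⟩
    have hquad' : ∀ a : ↥Q, (χ a⁻¹) * a * (χ a⁻¹) * (χ (χ a)) = 1 := by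
      rw [Qd Q (t * g * t⁻¹) χ hχ, H8.quad_iff]
      rw [H8.quad_iff] at hq
      intro a ha
      have h0 := hq _ ((hback a).1 ha)
      simp only [commutatorElement_def] at h0 ⊢
      have e1 : a * (t * g * t⁻¹) * a⁻¹ * (t * g * t⁻¹)⁻¹ * (t * g * t⁻¹) =
          t * (t⁻¹ * a * t * g * (t⁻¹ * a * t)⁻¹ * g⁻¹ * g) * t⁻¹ := by group
      have e2 : t * g * t⁻¹ * (a * (t * g * t⁻¹) * a⁻¹ * (t * g * t⁻¹)⁻¹) =
          t * (g * (t⁻¹ * a * t * g * (t⁻¹ * a * t)⁻¹ * g⁻¹)) * t⁻¹ := by group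
      rw [e1, e2, h0]
    have h2 := hfs Q hQfn χ hχF hquad'
    rw [hAut Q hQP] at h2
    exact (K Q₀ Q t hQ g hg χ hχ).2 h2

end Cfsg.Agent.S5246
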