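import Cfsg.Statements.S5247
import Cfsg.Agent.Lib_helper8_FusBB
import Cfsg.Agent.Lib_helper8_FusAI
import Cfsg.Agent.Lib_helper8_FusD
import Cfsg.Agent.Lib_helper1_Cores

set_option autoImplicit false
open Cfsg

namespace Cfsg.Agent.S5247

/-- Let p be an odd prime and F a saturated fusion system over a finite p-group S. Call a fusion system E (over any subgroup) p-stable when, for every fully E-normalized subgroup Q and every χ ∈ Aut_E(Q) with χ(a⁻¹)·a·χ(a⁻¹)·χ(χ(a)) = 1 for all a ∈ Q (χ acts quadratically), χ lies in O_p(Aut_E(Q)). Then F is p-stable if and only if every normalizer fusion system N_F(R) of every non-cyclic fully F-normalized subgroup R of S is p-stable. -/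
theorem result {Ω : Type*} [Group Ω] {S : Subgroup Ω} [Finite S] (p : ℕ) [Fact p.Prime] (hS : IsPGroup p S) (F : Cfsg.FusionSystem S) (hF : F.IsSaturated p) (hp : p ≠ 2) : (∀ Q : Subgroup Ω, F.IsFullyNormalized Q → ∀ χ : MulAut ↥Q, χ ∈ F.autGroup Q → (∀ a : ↥Q, (χ a⁻¹) * a * (χ a⁻¹) * (χ (χ a)) = 1) → χ ∈ ((Cfsg.pCore p ↥(F.autGroup Q)).map (F.autGroup Q).subtype : Subgroup (MulAut ↥Q))) ↔ ∀ R : Subgroup Ω, F.IsFullyNormalized R → ¬ IsCyclic ↥R → ∀ N : Cfsg.FusionSystem (Cfsg.FusionSystem.normalizerIn S R), F.IsNormalizerSystem R N → (∀ Q : Subgroup Ω, N.IsFullyNormalized Q → ∀ χ : MulAut ↥Q, χ ∈ N.autGroup Q → (∀ a : ↥Q, (χ a⁻¹) * a * (χ a⁻¹) * (χ (χ a)) = 1) → χ ∈ ((Cfsg.pCore p ↥(N.autGroup Q)).map (N.autGroup Q).subtype : Subgroup (MulAut ↥Q))) := by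
  classical
  -- transport of membership in `O_p` along injective homomorphisms
  have T : ∀ {A B : Type _} [Group A] [Group B] (Φ : A →* B), Function.Injective Φ → ∀ a : A,
      Φ a ∈ Cfsg.pCore p B → a ∈ Cfsg.pCore p A := by
    intro A B _ _ Φ hΦ a ha
    have hn : ((Cfsg.pCore p B).comap Φ).Normal := (H1.pCore_normal p).comap Φ
    have hpg : IsPGroup p ((Cfsg.pCore p B).comap Φ) :=
      (H1.pCore_isPGroup p).comap_of_injective Φ hΦ
    exact H1.le_pCore p hn hpg ha
  constructor
  · intro hPS R hR hRc N hN Q hQ χ hχ hquad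
    have hQN : Q ≤ Cfsg.FusionSystem.normalizerIn S R := hQ.1
    have hQS : Q ≤ S := hQN.trans (H8.normalizerIn_le S R)
    have hle : N.autGroup Q ≤ F.autGroup Q := by
      intro α hα
      rw [H8.mem_autGroup_iff hQN, H8.isMap_normalizerSystem hN] at hα
      rw [H8.mem_autGroup_iff hQS]
      exact hα.1
    have hχF : χ ∈ F.autGroup Q := hle hχ
    -- general `Q`
    obtain ⟨Q', hconj, hQ'⟩ := H8.exists_fullyNormalized_conj F hQS
    obtain ⟨f, hf, hi⟩ := H8.isConj_iff.1 hconj
    obtain ⟨e0, he0⟩ := hf.exists_equiv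
    let e : Q ≃* Q' := e0.trans (MulEquiv.subgroupCongr hi)
    have he : ∀ x : Q, (e x : Ω) = f x := fun x => he0 x
    have hχ' : MulAut.congr e χ ∈ F.autGroup Q' := H8.congr_mem_autGroup hf e he hχF
    have hquad' : ∀ a : ↥Q', ((MulAut.congr e χ) a⁻¹) * a * ((MulAut.congr e χ) a⁻¹) *
        ((MulAut.congr e χ) ((MulAut.congr e χ) a)) = 1 := by
      intro a
      have h1 := hquad (e.symm a)
      have h2 := congrArg e h1
      simpa [MulAut.congr_apply, map_mul] using h2
    obtain ⟨y, hy, hyχ⟩ := hPS Q' hQ' _ hχ' hquad'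
    let Φ : F.autGroup Q →* F.autGroup Q' :=
      ((MulAut.congr e).toMonoidHom.comp (F.autGroup Q).subtype).codRestrict (F.autGroup Q')
        (fun α => H8.congr_mem_autGroup hf e he α.2)
    have hΦ : Function.Injective Φ := by
      intro a b hab
      have : MulAut.congr e (a : MulAut Q) = MulAut.congr e b := congrArg Subtype.val hab
      exact Subtype.ext ((MulAut.congr e).injective this)
    have h1 : (⟨χ, hχF⟩ : F.autGroup Q) ∈ Cfsg.pCore p (F.autGroup Q) := by
      apply T Φ hΦ
      have : Φ ⟨χ, hχF⟩ = y := Subtype.ext hyχ.symm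
      rw [this]; exact hy
    have h2 : (⟨χ, hχ⟩ : N.autGroup Q) ∈ Cfsg.pCore p (N.autGroup Q) :=
      T (Subgroup.inclusion hle) (Subgroup.inclusion_injective hle) _ h1
    exact ⟨⟨χ, hχ⟩, h2, rfl⟩
  · intro hloc Q hQ χ hχ hquad
    have hQS : Q ≤ S := hQ.1
    by_cases hcyc : IsCyclic ↥Q
    · -- cyclic case
      have : Finite Q := H8.finite_of_le hQS
      have hcomm : ∀ a b : Q, a * b = b * a := fun a b => by
        letI := hcyc.commGroup
        exact mul_comm a b
      have hfix : ∀ a : Q, χ (χ a * a⁻¹) = χ a * a⁻¹ := by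
        intro a
        have h1 := hquad a
        have h2 : χ a⁻¹ * a * χ a⁻¹ * χ (χ a) = (χ (χ a) * (χ a)⁻¹) * (χ a * a⁻¹)⁻¹ := by
          rw [map_inv, mul_inv_rev, inv_inv]
          rw [hcomm ((χ a)⁻¹ * a * (χ a)⁻¹) (χ (χ a))]
          simp only [mul_assoc]
        rw [h2, mul_inv_eq_one] at h1
        rw [map_mul, map_inv]; exact h1
      have hpow : ∀ (n : ℕ) (a : Q), (χ ^ n) a = a * (χ a * a⁻¹) ^ n := by
        intro n
        induction n with
        | zero => intro a; simp
        | succ n ih =>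
          intro a
          rw [pow_succ', MulAut.mul_apply, ih, map_mul, map_pow, hfix, pow_succ]
          have hw : χ a = (χ a * a⁻¹) * a := by group
          generalize χ a * a⁻¹ = w at hw ⊢
          rw [hw, hcomm w a, mul_assoc, hcomm w (w ^ n)]
      have hQp : IsPGroup p Q := hS.to_le hQS
      obtain ⟨k, hk⟩ := IsPGroup.iff_card.1 hQp
      have hχk : χ ^ p ^ k = 1 := by
        ext a
        rw [hpow, ← hk, pow_card_eq_one', mul_one]; rfl
      have hautc : ∀ α β : MulAut Q, α * β = β * α := by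
        intro α β
        have h := (IsCyclic.mulAutMulEquiv Q)
        apply h.injective
        rw [map_mul, map_mul, mul_comm]
      set x : F.autGroup Q := ⟨χ, hχ⟩ with hx
      have hn : (Subgroup.zpowers x).Normal := by
        constructor
        intro y hy g
        have : g * y * g⁻¹ = y := by
          apply Subtype.ext
          show (g : MulAut Q) * y * (g : MulAut Q)⁻¹ = y
          rw [hautc (g : MulAut Q) y, mul_inv_cancel_right]
        rwa [this]
      have hpg : IsPGroup p (Subgroup.zpowers x) := by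
        rintro ⟨y, hy⟩
        obtain ⟨m, rfl⟩ := Subgroup.mem_zpowers_iff.1 hy
        refine ⟨k, Subtype.ext ?_⟩
        show (x ^ m) ^ p ^ k = 1
        have hxk : x ^ p ^ k = 1 := Subtype.ext hχk
        rw [← zpow_natCast, ← zpow_mul, mul_comm, zpow_mul, zpow_natCast, hxk, one_zpow]
      exact ⟨x, H1.le_pCore p hn hpg (Subgroup.mem_zpowers x), rfl⟩
    · obtain ⟨N, hN⟩ := H8.exists_normalizerSystem F hQS
      have hfn : N.IsFullyNormalized Q := by
        apply H8.isFullyNormalized_of_weaklyClosed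
        rw [H8.weaklyClosed_iff]
        refine ⟨H8.le_normalizerIn hQS, fun f hf => ?_⟩
        rw [H8.isMap_normalizerSystem hN] at hf
        obtain ⟨-, -, -, g, -, hg, hgi⟩ := hf
        rw [← H8.img_congr hg, hgi]
      have haut : N.autGroup Q = F.autGroup Q := H8.autGroup_normalizerSystem hQS hN
      have h1 := hloc Q hQ hcyc N hN Q hfn χ (haut ▸ hχ) hquad
      rw [haut] at h1
      exact h1

end Cfsg.Agent.S5247
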