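import Cfsg.Statements.S5251
import Cfsg.Agent.Lib_helper8_FusBC

set_option autoImplicit false
open Cfsg

namespace Cfsg.Agent.S5251

/-- Let F be a saturated fusion system over a finite p-group S, E a normal subsystem of F over T, and P an F-centric subgroup of S such that P ∩ T is not E-centric. Then some F-conjugate P* of P satisfies Out_S(P*) ∩ O_p(Out_F(P*)) ≠ 1: there is an element of N_S(P*) outside P* whose conjugation action on P* lies in O_p(Aut_F(P*)). In particular P is not both centric and radical in F. -/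
theorem result {Ω : Type*} [Group Ω] {S : Subgroup Ω} [Finite S] (p : ℕ) [Fact p.Prime] (hS : IsPGroup p S) (F : Cfsg.FusionSystem S) (hF : F.IsSaturated p) {T : Subgroup Ω} (E : Cfsg.FusionSystem T) (hE : E.IsNormalIn F p) (P : Subgroup Ω) (hP : F.IsCentric P) (hPT : ¬ E.IsCentric (P ⊓ T)) : (∃ φ ∈ F.Hom P, ∃ x ∈ S ⊓ Subgroup.normalizer (φ.range : Set Ω), x ∉ φ.range ∧ ∃ α ∈ ((Cfsg.pCore p ↥(F.autGroup φ.range)).map (F.autGroup φ.range).subtype : Subgroup (MulAut ↥φ.range)), ∀ y : ↥φ.range, ((α y : ↥φ.range) : Ω) = x * (y : Ω) * x⁻¹) ∧ ¬ F.IsRadical p P := by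
  open Cfsg.Agent.H8 Cfsg.FusionSystem in
  have hsub := hE.1.2.2.1
  have hT := hE.1.2.2.2.1
  have hex : ∃ R, E.IsConj (P ⊓ T) R ∧ ¬ centralizerIn T R ≤ R := by
    by_contra hcon
    push Not at hcon
    exact hPT ⟨inf_le_right, hcon⟩
  obtain ⟨R, hR, hRc⟩ := hex
  have hR' : F.IsConj (P ⊓ T) R := by
    obtain ⟨f, hf, hi⟩ := isConj_iff.1 hR
    exact isConj_iff.2 ⟨f, (isSubsystemOf_iff.1 hsub) _ _ hf, hi⟩
  obtain ⟨f, hf, x, hx, hxP, α, hα, e⟩ := exists_outer_pCore p hS F hF hT P hP.1 hR' hRc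
  constructor
  · obtain ⟨φ, hφ, eφ⟩ := id hf
    have hr : φ.range = img P f := hf.range_eq eφ
    refine ⟨φ, hφ, ?_⟩
    rw [hr]
    exact ⟨x, hx, hxP, α, hα, e⟩
  · intro hrad
    have hc : F.IsCentric (img P f) :=
      ⟨hf.img_le, fun Q hQ => hP.2 Q (isConj_trans (isConj_iff.2 ⟨f, hf, rfl⟩) hQ)⟩
    exact hxP (mem_of_conj_mem_inn hc hx.1 e (pCoreMap_le_inn_of_conj_radical hrad hf hα))

end Cfsg.Agent.S5251
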