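import Cfsg.Statements.S5600
import Cfsg.Agent.Lib_H9_Triad2

set_option autoImplicit false
open scoped Pointwise
open Cfsg

namespace Cfsg.Agent.S5600

open Cfsg.Agent.H9

theorem card_FixM_63 : Nat.card (FixM 63) = 3 := by
  have h := card_eq_orbit_mul (FixM 31) (FixM 63) (pt 5) (ofMask 16771936)
    (fun g => mem_FixM_or (F := 31) (b := 5) (by norm_num)) ?_ ?_
  · rw [card_FixM_31, ← pop_eq (by norm_num)] at h
    have h16 : pop 16771936 = 16 := by decide +kernel
    rw [h16] at h
    omega
  · intro g hg31
    have h1 : g (pt 5) ∉ ofMask 5279 := by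
      rw [apply_mem_iff_of_smul_eq (FixM31_inv hg31), mem_ofMask, idx_pt (by norm_num)]
      decide
    have h2 : g (pt 5) ∈ ofMask (5279 ||| 16771936) := by
      have : (5279 ||| 16771936 : ℕ) = 16777215 := by decide
      rw [this, ofMask_full]; exact Finset.mem_univ _
    rw [ofMask_or, Finset.mem_union] at h2
    exact h2.resolve_left h1
  · intro b hb
    rw [← pt_idx b]
    obtain ⟨g, hg, h⟩ := levelCheck_spec (by norm_num) level6 (idx_lt b) (mem_ofMask.mp hb)
    exact ⟨g, FixM_mono (F := 31) (F' := 159) ((ofMask_subset_iff (by norm_num)).mpr (by decide)) hg, h⟩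

theorem card_fix_conj {h : Equiv.Perm GolayPt} (hh : h ∈ M24) (F : ℕ) :
    Nat.card {g : Equiv.Perm GolayPt // g ∈ M24 ∧ ∀ p ∈ h • ofMask F, g p = p} = Nat.card (FixM F) := by
  apply Nat.card_congr
  refine
    { toFun := fun g => ⟨h⁻¹ * g.1 * h, mem_FixM.mpr ⟨M24.mul_mem (M24.mul_mem (M24.inv_mem hh) g.2.1) hh, ?_⟩⟩
      invFun := fun f => ⟨h * f.1 * h⁻¹, conj_mem_M24 hh (mem_FixM.mp f.2).1, ?_⟩
      left_inv := fun g => by ext1; simp only; group
      right_inv := fun f => by ext1; simp only; group }
  · intro p hp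
    have := g.2.2 (h p) (Finset.smul_mem_smul_finset (a := h) hp)
    simp only [Equiv.Perm.mul_apply, this]
    simp
  · intro p hp
    obtain ⟨q, hq, rfl⟩ := Finset.mem_smul_finset.mp hp
    have := (mem_FixM.mp f.2).2 q hq
    show (h * f.1 * h⁻¹) (h q) = h q
    rw [conj_apply, this]

set_option maxRecDepth 100000 in
theorem cnt6 : cntSub (fun m => !spB m) 24 6 0 = 113344 := by decide +kernel

theorem card159 : (ofMask 159).card = 6 := by
  rw [← pop_eq (by norm_num)]; decide +kernel

theorem card63 : (ofMask 63).card = 6 := by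
  rw [← pop_eq (by norm_num)]; decide +kernel

theorem sp159 : special (ofMask 159) :=
  ⟨ofMask 5279, (isOct_spec oct5279).2, (ofMask_subset_iff (by norm_num)).mpr (by decide)⟩

theorem sp63 : ¬ special (ofMask 63) := by
  rw [← spB_iff (by rw [card63]; norm_num), toMask_ofMask (by norm_num)]
  decide +kernel

theorem six_conj {E E' : Finset GolayPt} (hE : E.card = 6) (hE' : E'.card = 6) (h : special E ↔ special E') :
    ∃ g ∈ M24, g • E = E' := by
  obtain ⟨g, hg, h⟩ := six_sets [E] [E']
    (List.Forall₂.cons (by rw [hE, hE']) List.Forall₂.nil) (by simp) (by simp)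
    (by simp [hE]) (by simpa using fun _ => h)
  refine ⟨g, hg, ?_⟩
  cases h with
  | cons h1 _ => exact h1


/-- Although the group of the length-24 code is only 5-transitive on the 24 points, it induces the full symmetric group on every 6-element subset: every permutation of a 6-set E is the restriction of an element of the group mapping E to itself. The pointwise stabiliser of E has order 16 when E lies in an octad and order 3 otherwise; in the latter case the setwise stabiliser of E has order 2160. -/
theorem result (E : Finset Cfsg.GolayPt) (hE : E.card = 6) : (∀ σ : Equiv.Perm ↥E, ∃ g ∈ Cfsg.M24, ∀ p : ↥E, g p = σ p) ∧ ((∃ o ∈ Cfsg.octads, E ⊆ o) → Nat.card {g : Equiv.Perm Cfsg.GolayPt // g ∈ Cfsg.M24 ∧ ∀ p ∈ E, g p = p} = 16) ∧ ((¬ ∃ o ∈ Cfsg.octads, E ⊆ o) → Nat.card {g : Equiv.Perm Cfsg.GolayPt // g ∈ Cfsg.M24 ∧ ∀ p ∈ E, g p = p} = 3 ∧ Nat.card ↥(MulAction.stabilizer Cfsg.M24 E) = 2160) := by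
  refine ⟨?_, ?_, ?_⟩
  · intro σ
    let x : Fin E.card ↪ GolayPt := E.equivFin.symm.toEmbedding.trans (Function.Embedding.subtype _)
    let y : Fin E.card ↪ GolayPt :=
      (E.equivFin.symm.toEmbedding.trans σ.toEmbedding).trans (Function.Embedding.subtype _)
    have hx : Finset.univ.map x = E := by
      ext p
      simp only [Finset.mem_map, Finset.mem_univ, true_and, x]
      constructor
      · rintro ⟨i, rfl⟩; exact (E.equivFin.symm i).2
      · intro hp; exact ⟨E.equivFin ⟨p, hp⟩, by simp⟩
    have hy : Finset.univ.map y = E := by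
      ext p
      simp only [Finset.mem_map, Finset.mem_univ, true_and, y]
      constructor
      · rintro ⟨i, rfl⟩; exact (σ (E.equivFin.symm i)).2
      · intro hp; exact ⟨E.equivFin (σ.symm ⟨p, hp⟩), by simp⟩
    obtain ⟨g, hg, h⟩ := six_emb (by omega) x y (fun _ => by rw [hx, hy])
    refine ⟨g, hg, fun p => ?_⟩
    have := h (E.equivFin p)
    simpa [x, y] using this
  · intro hsp
    obtain ⟨h, hh, rfl⟩ := six_conj card159 hE (iff_of_true sp159 hsp)
    rw [card_fix_conj hh, card_FixM_159]
  · intro hsp
    have hsp' : ¬ special E := hsp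
    constructor
    · obtain ⟨h, hh, rfl⟩ := six_conj card63 hE (iff_of_false sp63 hsp)
      rw [card_fix_conj hh, card_FixM_63]
    · have h1 := card_stab_mul_orbit E
      have h2 : MulAction.orbit M24 E = {X : Finset GolayPt | X.card = 6 ∧ ¬ special X} := by
        ext X
        rw [MulAction.mem_orbit_iff]
        constructor
        · rintro ⟨g, rfl⟩
          refine ⟨?_, ?_⟩
          · show (g.1 • E).card = 6
            rw [Finset.card_smul_finset, hE]
          · show ¬ special (g.1 • E)
            rw [special_smul g.2]; exact hsp'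
        · rintro ⟨hX, hXs⟩
          obtain ⟨g, hg, h⟩ := six_conj hE hX (iff_of_false hsp' hXs)
          exact ⟨⟨g, hg⟩, h⟩
      have h3 : {X : Finset GolayPt | X.card = 6 ∧ ¬ special X}.ncard = 113344 := by
        rw [count_sub 6 _ (fun m => !spB m)]
        · exact cnt6
        · intro s hs
          rw [← spB_iff (by omega)]
          simp
      rw [h2, h3] at h1
      omega

end Cfsg.Agent.S5600
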