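import Cfsg.Statements.S5521
import Cfsg.Agent.S5600

set_option autoImplicit false
open Cfsg

namespace Cfsg.Agent.S5521

open Cfsg.Agent.H9


/-- The Mathieu group M₂₄ in its natural action on the 24 coordinate positions of the binary Golay code has minimal base size exactly 7: every set of at most 6 positions is fixed pointwise by some non-identity element of M₂₄, while some set of 7 positions is fixed pointwise only by the identity. -/
theorem result :
    (∀ B : Finset Cfsg.GolayPt, B.card ≤ 6 → ∃ g ∈ Cfsg.M24, g ≠ 1 ∧ ∀ b ∈ B, g b = b) ∧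
    (∃ B : Finset Cfsg.GolayPt, B.card = 7 ∧ ∀ g ∈ Cfsg.M24, (∀ b ∈ B, g b = b) → g = 1) := by
  constructor
  · intro B hB
    obtain ⟨E, hBE, hE⟩ := Finset.exists_superset_card_eq hB (by
      show 6 ≤ Fintype.card GolayPt
      decide)
    obtain ⟨_, h16, h3⟩ := Cfsg.Agent.S5600.result E hE
    have hcard : 1 < Nat.card {g : Equiv.Perm Cfsg.GolayPt // g ∈ Cfsg.M24 ∧ ∀ p ∈ E, g p = p} := by
      by_cases hsp : ∃ o ∈ Cfsg.octads, E ⊆ o
      · rw [h16 hsp]; norm_num
      · rw [(h3 hsp).1]; norm_num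
    have : Nontrivial {g : Equiv.Perm Cfsg.GolayPt // g ∈ Cfsg.M24 ∧ ∀ p ∈ E, g p = p} :=
      Finite.one_lt_card_iff_nontrivial.mp hcard
    obtain ⟨g, hg⟩ := exists_ne (⟨1, M24.one_mem, fun _ _ => rfl⟩ :
      {g : Equiv.Perm Cfsg.GolayPt // g ∈ Cfsg.M24 ∧ ∀ p ∈ E, g p = p})
    refine ⟨g.1, g.2.1, fun h => hg (Subtype.ext h), fun b hb => g.2.2 b (hBE hb)⟩
  · refine ⟨ofMask 191, ?_, ?_⟩
    · rw [← pop_eq (by norm_num)]; decide +kernel
    · intro g hg h
      have : g ∈ FixM 191 := mem_FixM.mpr ⟨hg, h⟩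
      rw [FixM_191] at this
      exact Subgroup.mem_bot.mp this

end Cfsg.Agent.S5521
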