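import Cfsg.Statements.S5562


set_option autoImplicit false
open Cfsg

namespace Cfsg.Agent.S5562


theorem inv_sq {G : Type*} [Group G] {a : G} (h : orderOf a = 2) : a * a = 1 := by
  have := pow_orderOf_eq_one a
  rw [h, pow_two] at this
  exact this

theorem conj_order {G : Type*} [Group G] {d a : G} (h : a ∈ conjugatesOf d) : orderOf a = orderOf d := by
  have h' : IsConj d a := h
  rw [isConj_iff] at h'
  obtain ⟨c, rfl⟩ := h'
  exact ((MulAut.conj c).orderOf_eq d)

theorem inv_of_odd {G : Type*} [Group G] {t z : G} (h : t * z * t⁻¹ = z⁻¹) (ho : Odd (orderOf t)) :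
    z = z⁻¹ := by
  have key : ∀ n : ℕ, t ^ (2 * n + 1) * z * (t ^ (2 * n + 1))⁻¹ = z⁻¹ := by
    intro n
    induction n with
    | zero => simpa using h
    | succ n ih =>
      have e : t ^ (2 * (n + 1) + 1) = t * t * t ^ (2 * n + 1) := by
        rw [show 2 * (n + 1) + 1 = 1 + 1 + (2 * n + 1) by ring, pow_add, pow_add, pow_one]
      rw [e]
      calc t * t * t ^ (2 * n + 1) * z * (t * t * t ^ (2 * n + 1))⁻¹
          = t * (t * (t ^ (2 * n + 1) * z * (t ^ (2 * n + 1))⁻¹) * t⁻¹) * t⁻¹ := by group
        _ = t * (t * z⁻¹ * t⁻¹) * t⁻¹ := by rw [ih]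
        _ = t * (t * z * t⁻¹)⁻¹ * t⁻¹ := by group
        _ = z⁻¹ := by rw [h, inv_inv, h]
  obtain ⟨n, hn⟩ := ho
  have := key n
  rw [← hn, pow_orderOf_eq_one] at this
  simpa using this

theorem half {G : Type*} [Group G] {z : G} {k : ℕ} (h : z ^ (2 * k + 1) = 1) :
    z ^ (k + 1) * z ^ (k + 1) = z := by
  rw [← pow_add, show k + 1 + (k + 1) = (2 * k + 1) + 1 by ring, pow_add, h, one_mul, pow_one]

theorem inv_pow' {G : Type*} [Group G] {e z : G} (he : e * e = 1) (h : e * z * e = z⁻¹) (n : ℕ) :
    e * z ^ n * e = (z ^ n)⁻¹ := by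
  have hei : e⁻¹ = e := inv_eq_of_mul_eq_one_left he
  have : e * z ^ n * e = (e * z * e⁻¹) ^ n := by rw [conj_pow, hei]
  rw [this, hei, h, inv_pow]

theorem uniq {G : Type*} [Group G] {e x a b : G} (he2 : e * e = 1) (hx2 : x * x = 1)
    (ha2 : a * a = 1) (hb2 : b * b = 1) (h1 : Odd (orderOf (a * e))) (h2 : Odd (orderOf (b * a)))
    (ha : Commute e (a * x)) (hb : Commute e (b * x)) : b = a := by
  have hA : x * e * x = a * e * a := by
    have := ha.eq
    calc x * e * x = (a * a) * x * e * x := by rw [ha2, one_mul]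
      _ = a * ((a * x) * e) * x := by group
      _ = a * (e * (a * x)) * x := by rw [this]
      _ = a * e * a * (x * x) := by group
      _ = a * e * a := by rw [hx2, mul_one]
  have hB : x * e * x = b * e * b := by
    have := hb.eq
    calc x * e * x = (b * b) * x * e * x := by rw [hb2, one_mul]
      _ = b * ((b * x) * e) * x := by group
      _ = b * (e * (b * x)) * x := by rw [this]
      _ = b * e * b * (x * x) := by group
      _ = b * e * b := by rw [hx2, mul_one]
  have hai : a⁻¹ = a := inv_eq_of_mul_eq_one_left ha2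
  have hbi : b⁻¹ = b := inv_eq_of_mul_eq_one_left hb2
  have hei : e⁻¹ = e := inv_eq_of_mul_eq_one_left he2
  have hz : e * (b * a) * e = b * a := by
    have h3 : a * e * a = b * e * b := hA.symm.trans hB
    -- e = a b e b a
    have h4 : e * b * a = b * a * e := by
      calc e * b * a = (b * b) * e * b * a := by rw [hb2, one_mul]
        _ = b * (b * e * b) * a := by group
        _ = b * (a * e * a) * a := by rw [h3]
        _ = b * a * e * (a * a) := by group
        _ = b * a * e := by rw [ha2, mul_one]
    calc e * (b * a) * e = (e * b * a) * e := by group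
      _ = b * a * e * e := by rw [h4]
      _ = b * a * (e * e) := by group
      _ = b * a := by rw [he2, mul_one]
  have ht : (a * e) * (b * a) * (a * e)⁻¹ = (b * a)⁻¹ := by
    rw [mul_inv_rev, mul_inv_rev, hai, hei, hbi]
    calc a * e * (b * a) * (e * a) = a * (e * (b * a) * e) * a := by group
      _ = a * (b * a) * a := by rw [hz]
      _ = a * b * (a * a) := by group
      _ = a * b := by rw [ha2, mul_one]
  have hzz := inv_of_odd ht h1
  have hz2 : (b * a) ^ 2 = 1 := by
    rw [pow_two]
    nth_rewrite 1 [hzz]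
    exact inv_mul_cancel _
  have hdvd : orderOf (b * a) ∣ 2 := orderOf_dvd_of_pow_eq_one hz2
  have hone : orderOf (b * a) = 1 := by
    rcases (Nat.dvd_prime Nat.prime_two).mp hdvd with h | h
    · exact h
    · rw [h] at h2; exact absurd h2 (by decide)
  rw [orderOf_eq_one_iff] at hone
  calc b = b * (a * a) := by rw [ha2, mul_one]
    _ = (b * a) * a := by group
    _ = a := by rw [hone, one_mul]


/-- Let G be a finite group, d an involution of G whose conjugates pairwise have products of odd order, and x any involution of G. Then the conjugacy class of d is the disjoint union, over the conjugates a of d commuting with x, of the sets of conjugates of d commuting with ax: every conjugate of d commutes with ax for exactly one conjugate a of d that commutes with x. -/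
theorem result {G : Type*} [Group G] [Finite G] (d : G) (hd : orderOf d = 2)
    (hodd : ∀ a ∈ conjugatesOf d, ∀ b ∈ conjugatesOf d, Odd (orderOf (a * b)))
    (x : G) (hx : orderOf x = 2) :
    ∀ e ∈ conjugatesOf d,
      ∃! a : G, a ∈ conjugatesOf d ∧ Commute a x ∧ Commute e (a * x) := by
  intro e he
  have he2 : e * e = 1 := inv_sq ((conj_order he).trans hd)
  have hx2 : x * x = 1 := inv_sq hx
  have hxi : x⁻¹ = x := inv_eq_of_mul_eq_one_left hx2
  have hei : e⁻¹ = e := inv_eq_of_mul_eq_one_left he2
  have he' : x * e * x ∈ conjugatesOf d := by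
    have he0 : IsConj d e := he
    show IsConj d _
    refine he0.trans ?_
    rw [isConj_iff]
    exact ⟨x, by rw [hxi]⟩
  obtain ⟨k, hk⟩ := hodd e he _ he'
  generalize hw : e * (x * e * x) = w at hk
  have hwk : w ^ (2 * k + 1) = 1 := by rw [← hk]; exact pow_orderOf_eq_one w
  have hwi : w⁻¹ = x * e * x * e := by
    rw [← hw, mul_inv_rev, mul_inv_rev, mul_inv_rev, hxi, hei]; group
  have hew : e * w * e = w⁻¹ := by
    rw [hwi, ← hw]
    calc e * (e * (x * e * x)) * e = (e * e) * (x * e * x) * e := by group
      _ = x * e * x * e := by rw [he2, one_mul]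
  have hxw : x * w * x = w⁻¹ := by
    rw [hwi, ← hw]
    calc x * (e * (x * e * x)) * x = x * e * x * e * (x * x) := by group
      _ = x * e * x * e := by rw [hx2, mul_one]
  have hxex : x * e * x = e * w := by
    rw [← hw]
    calc x * e * x = (e * e) * (x * e * x) := by rw [he2, one_mul]
      _ = e * (e * (x * e * x)) := by group
  generalize hs : w ^ (k + 1) = s
  have hss : s * s = w := by rw [← hs]; exact half hwk
  have hes : e * s * e = s⁻¹ := by rw [← hs]; exact inv_pow' he2 hew _
  have hxs : x * s * x = s⁻¹ := by rw [← hs]; exact inv_pow' hx2 hxw _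
  have hsk : s ^ (2 * k + 1) = 1 := by
    rw [← hs, ← pow_mul, mul_comm, pow_mul, hwk, one_pow]
  generalize hv : s ^ (k + 1) = v
  have hvv : v * v = s := by rw [← hv]; exact half hsk
  have hev : e * v * e = v⁻¹ := by rw [← hv]; exact inv_pow' he2 hes _
  have ha1 : e * s = v⁻¹ * e * v⁻¹⁻¹ := by
    rw [inv_inv]
    calc e * s = (e * s * e) * e := by rw [mul_assoc (e * s), he2, mul_one]
      _ = s⁻¹ * e := by rw [hes]
      _ = (v * v)⁻¹ * e := by rw [hvv]
      _ = v⁻¹ * v⁻¹ * e := by group
      _ = v⁻¹ * (e * v * e) * e := by rw [hev]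
      _ = v⁻¹ * e * v * (e * e) := by group
      _ = v⁻¹ * e * v := by rw [he2, mul_one]
  have haD : e * s ∈ conjugatesOf d := by
    have he0 : IsConj d e := he
    show IsConj d _
    refine he0.trans ?_
    rw [isConj_iff]
    exact ⟨v⁻¹, ha1.symm⟩
  have hax : Commute (e * s) x := by
    show e * s * x = x * (e * s)
    calc e * s * x = e * (s * s) * s⁻¹ * x := by group
      _ = (e * w) * s⁻¹ * x := by rw [hss]
      _ = (x * e * x) * (x * s * x) * x := by rw [hxex, hxs]
      _ = x * e * (x * x) * s * (x * x) := by group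
      _ = x * (e * s) := by rw [hx2, mul_one, mul_one, mul_assoc]
  have hea : Commute e (e * s * x) := by
    show e * (e * s * x) = e * s * x * e
    have h1 : w * x = e * x * e := by
      rw [← hw]
      calc e * (x * e * x) * x = e * x * e * (x * x) := by group
        _ = e * x * e := by rw [hx2, mul_one]
    calc e * (e * s * x) = (e * e) * s * x := by group
      _ = s * x := by rw [he2, one_mul]
      _ = s⁻¹ * ((s * s) * x) := by group
      _ = s⁻¹ * (e * x * e) := by rw [hss, h1]
      _ = (e * s * e) * (e * x * e) := by rw [hes]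
      _ = e * s * (e * e) * x * e := by group
      _ = e * s * x * e := by rw [he2, mul_one]
  refine ⟨e * s, ⟨haD, hax, hea⟩, ?_⟩
  rintro b ⟨hbD, _, hbe⟩
  exact uniq he2 hx2 (inv_sq ((conj_order haD).trans hd)) (inv_sq ((conj_order hbD).trans hd))
    (hodd _ haD _ he) (hodd _ hbD _ haD) hea hbe

end Cfsg.Agent.S5562
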