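import Cfsg.Statements.S5729
import Mathlib

set_option autoImplicit false
open Cfsg

namespace Cfsg.Agent.S5729

/-- Let a finite group G act faithfully and transitively on a set with n ≥ 3 points. Then either G is a Frobenius permutation group (Frobenius as a permutation group: transitive, some non-identity element fixes a point, and no non-identity element fixes two points) of order n(n − 1) and exactly |G|/n of its elements are derangements (fix no point), or the number of derangements is greater than |G|/n. -/
theorem result {G Ω : Type*} [Group G] [Finite G] [MulAction G Ω] [FaithfulSMul G Ω] [Fintype Ω] (htr : MulAction.IsPretransitive G Ω) (hn : 3 ≤ Fintype.card Ω) :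
    ((MulAction.IsPretransitive G Ω ∧ (∃ g : G, g ≠ 1 ∧ ∃ ω : Ω, g • ω = ω) ∧ ∀ g : G, g ≠ 1 → Nat.card (MulAction.fixedBy Ω g) ≤ 1) ∧ Nat.card G = Fintype.card Ω * (Fintype.card Ω - 1) ∧ Fintype.card Ω * Nat.card {g : G // ∀ ω : Ω, g • ω ≠ ω} = Nat.card G) ∨
    Nat.card G < Fintype.card Ω * Nat.card {g : G // ∀ ω : Ω, g • ω ≠ ω} := by
  classical
  have := Fintype.ofFinite G
  set n := Fintype.card Ω with hn'
  let f : G → ℕ := fun g => Fintype.card (MulAction.fixedBy Ω g)
  have hΩ : Nonempty Ω := Fintype.card_pos_iff.1 (by omega)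
  obtain ⟨a⟩ := hΩ
  have hB1 := MulAction.sum_card_fixedBy_eq_card_orbits_mul_card_group G Ω
  have horb1 : Fintype.card (Quotient (MulAction.orbitRel G Ω)) = 1 := by
    rw [Fintype.card_eq_one_iff]
    refine ⟨Quotient.mk'' a, fun y => ?_⟩
    induction y using Quotient.inductionOn' with
    | h y =>
      apply Quotient.sound'
      exact MulAction.exists_smul_eq G _ _
  rw [horb1, one_mul] at hB1
  have hS1 : ∑ g : G, f g = Fintype.card G := hB1
  have hB2 := MulAction.sum_card_fixedBy_eq_card_orbits_mul_card_group G (Ω × Ω)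
  have hfix : ∀ g : G, Fintype.card (MulAction.fixedBy (Ω × Ω) g) = f g * f g := by
    intro g
    rw [← Fintype.card_prod]
    apply Fintype.card_congr
    exact { toFun := fun p => (⟨p.1.1, congrArg Prod.fst p.2⟩, ⟨p.1.2, congrArg Prod.snd p.2⟩)
            invFun := fun p => ⟨(p.1.1, p.2.1), Prod.ext p.1.2 p.2.2⟩
            left_inv := fun p => rfl
            right_inv := fun p => rfl }
  simp_rw [hfix] at hB2
  obtain ⟨b, hb⟩ : ∃ b : Ω, b ≠ a := by
    by_contra hcon
    push Not at hcon
    have : Fintype.card Ω ≤ 1 := Fintype.card_le_one_iff.2 (fun x y => by rw [hcon x, hcon y])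
    omega
  have horb2 : 2 ≤ Fintype.card (Quotient (MulAction.orbitRel G (Ω × Ω))) := by
    have hne : (Quotient.mk'' (a, a) : Quotient (MulAction.orbitRel G (Ω × Ω))) ≠ Quotient.mk'' (a, b) := by
      intro h
      have h2 : (MulAction.orbitRel G (Ω × Ω)) (a, a) (a, b) := Quotient.exact' h
      obtain ⟨g, hg⟩ := h2
      have h3 : g • a = a := congrArg Prod.fst hg
      have h4 : g • b = a := congrArg Prod.snd hg
      exact hb (MulAction.injective g (h4.trans h3.symm))
    have := Fintype.one_lt_card_iff.2 ⟨_, _, hne⟩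
    omega
  have hS2 : 2 * Fintype.card G ≤ ∑ g : G, f g * f g := by
    rw [hB2]; exact Nat.mul_le_mul_right _ horb2
  have hfle : ∀ g, f g ≤ n := fun g => Fintype.card_subtype_le _
  have hfn : ∀ g, f g = n → g = 1 := by
    intro g hg
    apply FaithfulSMul.eq_of_smul_eq_smul (α := Ω)
    intro ω
    rw [one_smul]
    by_contra hω
    have : f g < n := Fintype.card_subtype_lt (p := fun x => x ∈ MulAction.fixedBy Ω g) (x := ω) hω
    omega
  have hf1 : f 1 = n := by
    show Fintype.card (MulAction.fixedBy Ω (1 : G)) = Fintype.card Ω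
    apply Fintype.card_congr
    exact (Equiv.subtypeUnivEquiv (fun x => by simp))
  have hDcard : Nat.card {g : G // ∀ ω : Ω, g • ω ≠ ω} = (Finset.univ.filter (fun g : G => f g = 0)).card := by
    rw [Nat.card_eq_fintype_card, Fintype.card_subtype]
    congr 1
    ext g
    simp only [Finset.mem_filter, Finset.mem_univ, true_and]
    constructor
    · intro h
      show Fintype.card (MulAction.fixedBy Ω g) = 0
      rw [Fintype.card_eq_zero_iff]
      exact ⟨fun x => h x.1 x.2⟩
    · intro h ω hω
      have h' : Fintype.card (MulAction.fixedBy Ω g) = 0 := h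
      rw [Fintype.card_eq_zero_iff] at h'
      exact h'.false ⟨ω, hω⟩
  set d := (Finset.univ.filter (fun g : G => f g = 0)).card with hd
  have hdsum : (d : ℤ) = ∑ g : G, (if f g = 0 then (1 : ℤ) else 0) := by
    rw [hd, Finset.card_filter]; push_cast; rfl
  rw [hDcard, Nat.card_eq_fintype_card]
  -- pointwise inequality
  have hpt : ∀ g : G, 0 ≤ (if f g = 0 then (n : ℤ) else 0) - ((f g : ℤ) - 1) * ((f g : ℤ) - n) := by
    intro g
    by_cases h0 : f g = 0
    · simp [h0]
    · rw [if_neg h0]
      have h1 : (1 : ℤ) ≤ f g := by exact_mod_cast Nat.pos_of_ne_zero h0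
      have h2 : (f g : ℤ) ≤ n := by exact_mod_cast hfle g
      nlinarith
  have hsum : ∑ g : G, ((if f g = 0 then (n : ℤ) else 0) - ((f g : ℤ) - 1) * ((f g : ℤ) - n))
      = n * d - ((∑ g : G, f g * f g : ℕ) : ℤ) + Fintype.card G := by
    have e1 : ∀ g : G, ((if f g = 0 then (n : ℤ) else 0) - ((f g : ℤ) - 1) * ((f g : ℤ) - n))
        = n * (if f g = 0 then (1 : ℤ) else 0) - ((f g * f g : ℕ) : ℤ) + (n + 1) * (f g : ℤ) - n := by
      intro g
      by_cases h0 : f g = 0
      · simp [h0]
      · simp only [if_neg h0]; push_cast; ring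
    simp_rw [e1]
    rw [Finset.sum_sub_distrib, Finset.sum_add_distrib, Finset.sum_sub_distrib, ← Finset.mul_sum,
      ← Finset.mul_sum, ← hdsum]
    have e2 : ∑ g : G, (f g : ℤ) = Fintype.card G := by exact_mod_cast hS1
    rw [e2]
    simp only [Finset.sum_const, Finset.card_univ, nsmul_eq_mul]
    push_cast
    ring
  have hnonneg := Finset.sum_nonneg (fun g (_ : g ∈ Finset.univ) => hpt g)
  rw [hsum] at hnonneg
  have hS2' : (2 : ℤ) * Fintype.card G ≤ ((∑ g : G, f g * f g : ℕ) : ℤ) := by exact_mod_cast hS2
  by_cases hlt : Fintype.card G < n * d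
  · right; exact hlt
  · left
    have hle : (n : ℤ) * d ≤ Fintype.card G := by exact_mod_cast not_lt.1 hlt
    have hzero : ∑ g : G, ((if f g = 0 then (n : ℤ) else 0) - ((f g : ℤ) - 1) * ((f g : ℤ) - n)) = 0 := by
      rw [hsum]; linarith
    have heach := (Finset.sum_eq_zero_iff_of_nonneg (fun g (_ : g ∈ Finset.univ) => hpt g)).1 hzero
    have hval : ∀ g : G, g ≠ 1 → f g ≤ 1 := by
      intro g hg
      by_cases h0 : f g = 0
      · omega
      · have h1 := heach g (Finset.mem_univ g)
        rw [if_neg h0] at h1
        have h2 : ((f g : ℤ) - 1) * ((f g : ℤ) - n) = 0 := by linarith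
        rcases mul_eq_zero.1 h2 with h3 | h3
        · have : (f g : ℤ) = 1 := by linarith
          have : f g = 1 := by exact_mod_cast this
          omega
        · have : (f g : ℤ) = n := by linarith
          have : f g = n := by exact_mod_cast this
          exact absurd (hfn g this) hg
    have hnd : (n : ℤ) * d = Fintype.card G := by linarith
    have hd1 : (d : ℤ) = n - 1 := by
      have e3 : ∀ g : G, (1 : ℤ) - f g = (if f g = 0 then (1 : ℤ) else 0) + (if g = 1 then (1 : ℤ) - n else 0) := by
        intro g
        by_cases hg : g = 1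
        · subst hg
          have : f 1 ≠ 0 := by rw [hf1]; omega
          rw [if_neg this, if_pos rfl, hf1]; ring
        · rw [if_neg hg]
          by_cases h0 : f g = 0
          · rw [if_pos h0, h0]; simp
          · rw [if_neg h0]
            have := hval g hg
            have : f g = 1 := by omega
            rw [this]; simp
      have e4 : ∑ g : G, ((1 : ℤ) - f g) = 0 := by
        rw [Finset.sum_sub_distrib]
        have e2 : ∑ g : G, (f g : ℤ) = Fintype.card G := by exact_mod_cast hS1
        rw [e2]; simp
      simp_rw [e3] at e4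
      rw [Finset.sum_add_distrib, ← hdsum, Finset.sum_ite_eq' Finset.univ (1 : G)] at e4
      simp only [Finset.mem_univ, if_true] at e4
      linarith
    have hd2 : d = n - 1 := by omega
    have hG : Fintype.card G = n * (n - 1) := by
      have : n * d = Fintype.card G := by exact_mod_cast hnd
      rw [← this, hd2]
    refine ⟨⟨htr, ?_, ?_⟩, hG, by rw [hG, hd2]⟩
    · by_contra hcon
      push Not at hcon
      have hsub : (Finset.univ.erase (1 : G)) ⊆ Finset.univ.filter (fun g : G => f g = 0) := by
        intro g hg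
        rw [Finset.mem_erase] at hg
        simp only [Finset.mem_filter, Finset.mem_univ, true_and]
        show Fintype.card (MulAction.fixedBy Ω g) = 0
        rw [Fintype.card_eq_zero_iff]
        exact ⟨fun x => hcon g hg.1 x.1 x.2⟩
      have h5 := Finset.card_le_card hsub
      rw [Finset.card_erase_of_mem (Finset.mem_univ _), Finset.card_univ, ← hd, hG, hd2] at h5
      have h6 : 3 * (n - 1) ≤ n * (n - 1) := Nat.mul_le_mul_right _ hn
      omega
    · intro g hg
      rw [Nat.card_eq_fintype_card]
      exact hval g hg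

end Cfsg.Agent.S5729
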