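import Cfsg.Statements.S5739


set_option autoImplicit false
open Cfsg

namespace Cfsg.Agent.S5739

section
variable {F K : Type*} [Field F] [Fintype F] [Field K] [Fintype K] [Algebra F K]

theorem apply_inv_apply (g : (Module.End F K)ˣ) (x : K) :
    (g : Module.End F K) (((g⁻¹ : (Module.End F K)ˣ) : Module.End F K) x) = x := by
  have : ((g : Module.End F K) * ((g⁻¹ : (Module.End F K)ˣ) : Module.End F K)) x = x := by
    rw [Units.mul_inv]; rfl
  exact this

theorem ne_zero_of_rel (g : (Module.End F K)ˣ) {a b : K} (ha : a ≠ 0)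
    (hb : ∀ x, a * (g : Module.End F K) x = (g : Module.End F K) (b * x)) : b ≠ 0 := by
  rintro rfl
  have := hb (((g⁻¹ : (Module.End F K)ˣ) : Module.End F K) 1)
  rw [apply_inv_apply, zero_mul, map_zero, mul_one] at this
  exact ha this

def interField (g : (Module.End F K)ˣ) : IntermediateField F K where
  carrier := {a | ∃ b : K, ∀ x, a * (g : Module.End F K) x = (g : Module.End F K) (b * x)}
  mul_mem' := by
    rintro a a' ⟨b, hb⟩ ⟨b', hb'⟩
    exact ⟨b * b', fun x => by rw [mul_assoc, hb', hb, mul_assoc]⟩
  add_mem' := by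
    rintro a a' ⟨b, hb⟩ ⟨b', hb'⟩
    exact ⟨b + b', fun x => by rw [add_mul, add_mul, map_add, hb, hb']⟩
  algebraMap_mem' := by
    intro c
    exact ⟨algebraMap F K c, fun x => by rw [← Algebra.smul_def, ← Algebra.smul_def, map_smul]⟩
  inv_mem' := by
    rintro a ⟨b, hb⟩
    by_cases ha : a = 0
    · subst ha; exact ⟨0, fun x => by simp⟩
    · refine ⟨b⁻¹, fun x => ?_⟩
      have hb0 : b ≠ 0 := ne_zero_of_rel g ha hb
      have := hb (b⁻¹ * x)
      rw [mul_inv_cancel_left₀ hb0] at this
      rw [← this, inv_mul_cancel_left₀ ha]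

theorem mem_interField (g : (Module.End F K)ˣ) (a : K) : a ∈ interField g ↔
    ∃ b : K, ∀ x, a * (g : Module.End F K) x = (g : Module.End F K) (b * x) := Iff.rfl

end

/-- Let F ⊆ K be finite fields with |F| = q and [K : F] = n ≥ 2, and let M ≤ GL_F(K) be the Singer group of multiplications by non-zero elements of K. If g ∈ GL_F(K) does not normalise M, then the order of M ∩ gMg⁻¹ divides q^r − 1 for some proper divisor r of n. In particular, when n is prime, that order divides q − 1. -/
theorem result {F K : Type*} [Field F] [Fintype F] [Field K] [Fintype K] [Algebra F K] (n : ℕ) (hn : 2 ≤ n) (hdim : Module.finrank F K = n)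
    (g : (Module.End F K)ˣ) (hg : ((Units.map ((Algebra.lmul F K : K →ₐ[F] Module.End F K) : K →* Module.End F K)).range).map (MulAut.conj g).toMonoidHom ≠ (Units.map ((Algebra.lmul F K : K →ₐ[F] Module.End F K) : K →* Module.End F K)).range) :
    ∃ r : ℕ, 1 ≤ r ∧ r ∣ n ∧ r < n ∧ Nat.card ↥(((Units.map ((Algebra.lmul F K : K →ₐ[F] Module.End F K) : K →* Module.End F K)).range).map (MulAut.conj g).toMonoidHom ⊓ (Units.map ((Algebra.lmul F K : K →ₐ[F] Module.End F K) : K →* Module.End F K)).range) ∣ Fintype.card F ^ r - 1 := by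
  classical
  set L : Kˣ →* (Module.End F K)ˣ :=
    Units.map ((Algebra.lmul F K : K →ₐ[F] Module.End F K) : K →* Module.End F K) with hL
  set E := interField g with hE
  have hfinEnd : Finite (Module.End F K) :=
    Finite.of_injective (fun f : Module.End F K => (f : K → K)) DFunLike.coe_injective
  have hfinU : Finite (Module.End F K)ˣ := inferInstance
  have hLapp : ∀ (a : Kˣ) (x : K), ((L a : (Module.End F K)ˣ) : Module.End F K) x = a * x := by
    intro a x; simp [hL]
  refine ⟨Module.finrank F E, Module.finrank_pos, ?_, ?_, ?_⟩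
  · rw [← hdim, ← Module.finrank_mul_finrank F E K]; exact dvd_mul_right _ _
  · rw [← hdim]
    apply lt_of_le_of_ne
    · exact Submodule.finrank_le E.toSubalgebra.toSubmodule
    · intro heq
      have htop : E.toSubalgebra.toSubmodule = ⊤ := Submodule.eq_top_of_finrank_eq heq
      apply hg
      symm
      apply Subgroup.eq_of_le_of_card_ge
      · rintro _ ⟨a, rfl⟩
        have ha : (a : K) ∈ E.toSubalgebra.toSubmodule := by rw [htop]; trivial
        obtain ⟨b, hb⟩ := ha
        have hb0 := ne_zero_of_rel g a.ne_zero hb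
        refine ⟨L (Units.mk0 b hb0), ⟨_, rfl⟩, ?_⟩
        show g * L (Units.mk0 b hb0) * g⁻¹ = L a
        rw [mul_inv_eq_iff_eq_mul]
        apply Units.ext
        apply LinearMap.ext
        intro x
        show (g : Module.End F K) ((L (Units.mk0 b hb0) : Module.End F K) x) =
          (L a : Module.End F K) ((g : Module.End F K) x)
        rw [hLapp, hLapp, hb]
        rfl
      · rw [Subgroup.card_map_of_injective (MulAut.conj g).injective]
  · let φ : Eˣ →* (Module.End F K)ˣ := L.comp (Units.map (algebraMap E K : E →* K))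
    have hφ : Function.Injective φ := by
      intro a b hab
      have h1 := congrArg (fun u : (Module.End F K)ˣ => (u : Module.End F K) 1) hab
      simp only [φ, MonoidHom.comp_apply, hLapp, mul_one] at h1
      apply Units.ext
      apply Subtype.ext
      exact h1
    have hle : (L.range.map (MulAut.conj g).toMonoidHom ⊓ L.range) ≤ φ.range := by
      rintro u ⟨⟨_, ⟨b, rfl⟩, hb⟩, ⟨a, rfl⟩⟩
      have hb' : g * L b * g⁻¹ = L a := hb
      rw [mul_inv_eq_iff_eq_mul] at hb'
      have ha : (a : K) ∈ E := by
        refine ⟨b, fun x => ?_⟩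
        have h2 := congrArg (fun u : (Module.End F K)ˣ => (u : Module.End F K) x) hb'
        have h3 : (g : Module.End F K) ((L b : Module.End F K) x) =
          (L a : Module.End F K) ((g : Module.End F K) x) := h2
        rw [hLapp, hLapp] at h3
        exact h3.symm
      have ha0 : (⟨a, ha⟩ : E) ≠ 0 := by
        intro h
        exact a.ne_zero (congrArg Subtype.val h)
      refine ⟨Units.mk0 ⟨a, ha⟩ ha0, ?_⟩
      show L _ = L a
      congr 1
      apply Units.ext
      rfl
    have h1 := Subgroup.card_dvd_of_le hle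
    have h2 : Nat.card φ.range = Fintype.card F ^ Module.finrank F E - 1 := by
      rw [← Nat.card_congr (MonoidHom.ofInjective hφ).toEquiv, Nat.card_units,
        Module.natCard_eq_pow_finrank (K := F), Nat.card_eq_fintype_card]
    rwa [h2] at h1

end Cfsg.Agent.S5739
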