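import Cfsg.Statements.S5747
import Mathlib

set_option autoImplicit false
open Cfsg

namespace Cfsg.Agent.S5747

section aux
open Classical

variable {G Ω : Type*} [Group G] [MulAction G Ω]

def IB (G : Type*) {Ω : Type*} [Group G] [MulAction G Ω] {t : ℕ} (f : Fin t → Ω) : Prop :=
  (∀ g : G, (∀ i : Fin t, g • f i = f i) → g = 1) ∧
    ∀ i : Fin t, ∃ g : G, (∀ j : Fin t, j < i → g • f j = f j) ∧ g • f i ≠ f i

theorem drop {k : ℕ} (f : Fin (k+1) → Ω) (hf : ∀ g : G, (∀ i, g • f i = f i) → g = 1)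
    (i : Fin (k+1)) (hi : ∀ g : G, (∀ j, j < i → g • f j = f j) → g • f i = f i) :
    ∀ g : G, (∀ j, g • (f ∘ i.succAbove) j = (f ∘ i.succAbove) j) → g = 1 := by
  intro g hg
  apply hf
  have h1 : ∀ j, j ≠ i → g • f j = f j := by
    intro j hj
    obtain ⟨j', rfl⟩ := Fin.exists_succAbove_eq hj
    exact hg j'
  intro j
  by_cases hj : j = i
  · subst hj; exact hi g (fun j' hj' => h1 j' (ne_of_lt hj'))
  · exact h1 j hj

theorem extract : ∀ (n : ℕ) (f : Fin n → Ω), (∀ g : G, (∀ i, g • f i = f i) → g = 1) →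
    ∃ (m : ℕ) (f' : Fin m → Ω), m ≤ n ∧ IB G f' := by
  intro n
  induction n with
  | zero => intro f hf; exact ⟨0, f, le_rfl, hf, fun i => i.elim0⟩
  | succ k ih =>
    intro f hf
    by_cases h : ∀ i : Fin (k+1), ∃ g : G, (∀ j, j < i → g • f j = f j) ∧ g • f i ≠ f i
    · exact ⟨k+1, f, le_rfl, hf, h⟩
    · push Not at h
      obtain ⟨i, hi⟩ := h
      obtain ⟨m, f', hm, hf'⟩ := ih (f ∘ i.succAbove) (drop f hf i hi)
      exact ⟨m, f', by omega, hf'⟩

theorem fwd (hA : ∀ (t t' : ℕ) (f : Fin t → Ω) (f' : Fin t' → Ω), IB G f → IB G f' → t = t')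
    (t : ℕ) (f : Fin t → Ω) (σ : Equiv.Perm (Fin t)) (hf : IB G f) : IB G (f ∘ σ) := by
  have hb : ∀ g : G, (∀ i, g • (f ∘ σ) i = (f ∘ σ) i) → g = 1 := by
    intro g hg
    apply hf.1
    intro i
    have := hg (σ.symm i)
    simpa using this
  refine ⟨hb, ?_⟩
  by_contra h
  push Not at h
  obtain ⟨i, hi⟩ := h
  cases t with
  | zero => exact i.elim0
  | succ k =>
    obtain ⟨m, f', hm, hf'⟩ := extract k ((f ∘ σ) ∘ i.succAbove) (drop (f ∘ σ) hb i hi)
    have := hA _ _ f f' hf hf'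
    omega

def Bs (G : Type*) {Ω : Type*} [Group G] [MulAction G Ω] (S : Finset Ω) : Prop :=
  ∀ g : G, (∀ s ∈ S, g • s = s) → g = 1

def Ind (G : Type*) {Ω : Type*} [Group G] [MulAction G Ω] (S : Finset Ω) : Prop :=
  ∀ s ∈ S, ∃ g : G, (∀ u ∈ S.erase s, g • u = u) ∧ g • s ≠ s

def Hmin (G : Type*) (Ω : Type*) [Group G] [MulAction G Ω] : Prop :=
  ∀ (t : ℕ) (f : Fin t → Ω), IB G f → ∀ i, ∃ g : G, (∀ j, j ≠ i → g • f j = f j) ∧ g • f i ≠ f i

theorem min_of_reorder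
    (hB : ∀ (t : ℕ) (f : Fin t → Ω) (σ : Equiv.Perm (Fin t)), IB G f → IB G (f ∘ σ)) :
    Hmin G Ω := by
  intro t f hf i
  cases t with
  | zero => exact i.elim0
  | succ k =>
    obtain ⟨g, hg1, hg2⟩ := (hB _ f (Equiv.swap i (Fin.last k)) hf).2 (Fin.last k)
    refine ⟨g, ?_, ?_⟩
    · intro j hj
      have h1 : Equiv.swap i (Fin.last k) j ≠ Fin.last k := by
        intro h
        apply hj
        have := congrArg (Equiv.swap i (Fin.last k)) h
        simpa using this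
      have h2 := hg1 (Equiv.swap i (Fin.last k) j) (lt_of_le_of_ne (Fin.le_last _) h1)
      simpa using h2
    · simpa using hg2

theorem seq_of_ind (T : Finset Ω) (hT : Ind G T) :
    ∃ f0 : Fin T.card → Ω, (∀ x, x ∈ T ↔ ∃ i, f0 i = x) ∧
      (∀ i, ∃ g : G, (∀ j, j < i → g • f0 j = f0 j) ∧ g • f0 i ≠ f0 i) := by
  obtain ⟨e, -⟩ : ∃ e : Fin T.card ≃ T, e = T.equivFin.symm := ⟨_, rfl⟩
  refine ⟨fun i => (e i : Ω), ?_, ?_⟩
  · intro x; constructor
    · intro hx; exact ⟨e.symm ⟨x,hx⟩, by simp⟩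
    · rintro ⟨i, rfl⟩; exact (e i).2
  · intro i
    obtain ⟨g, hg1, hg2⟩ := hT (e i) (e i).2
    refine ⟨g, fun j hj => hg1 _ (Finset.mem_erase.mpr ⟨?_, (e j).2⟩), hg2⟩
    intro h
    have : e j = e i := Subtype.ext h
    exact (ne_of_lt hj) (e.injective this)

def sn {n : ℕ} (f : Fin n → Ω) (x : Ω) : Fin (n+1) → Ω := Fin.snoc (α := fun _ => Ω) f x

theorem sn_cast {n : ℕ} (f : Fin n → Ω) (x : Ω) (i : Fin n) : sn f x i.castSucc = f i := by
  simp [sn]

theorem sn_last {n : ℕ} (f : Fin n → Ω) (x : Ω) : sn f x (Fin.last n) = x := by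
  simp [sn]

theorem snoc_irr {n : ℕ} (f : Fin n → Ω) (x : Ω)
    (hf : ∀ i, ∃ g : G, (∀ j, j < i → g • f j = f j) ∧ g • f i ≠ f i)
    (hx : ∃ g : G, (∀ j, g • f j = f j) ∧ g • x ≠ x) :
    ∀ i : Fin (n+1), ∃ g : G, (∀ j, j < i → g • sn f x j = sn f x j) ∧ g • sn f x i ≠ sn f x i := by
  intro i
  refine Fin.lastCases ?_ ?_ i
  · obtain ⟨g, h1, h2⟩ := hx
    refine ⟨g, ?_, by rw [sn_last]; exact h2⟩
    intro j hj
    obtain ⟨j', rfl⟩ : ∃ j', j = Fin.castSucc j' := ⟨j.castPred (ne_of_lt hj), by simp⟩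
    rw [sn_cast]; exact h1 j'
  · intro i'
    obtain ⟨g, h1, h2⟩ := hf i'
    refine ⟨g, ?_, by rw [sn_cast]; exact h2⟩
    intro j hj
    obtain ⟨j', rfl⟩ : ∃ j', j = Fin.castSucc j' :=
      ⟨j.castPred (ne_of_lt (lt_of_lt_of_le hj (Fin.le_last _))), by simp⟩
    rw [sn_cast]; exact h1 j' (by simpa using hj)

theorem sn_mem {n : ℕ} (f : Fin n → Ω) (b : Ω) (T : Finset Ω) (h : ∀ x, x ∈ T ↔ ∃ i, f i = x) :
    ∀ x, x ∈ insert b T ↔ ∃ i, sn f b i = x := by
  intro x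
  rw [Finset.mem_insert]
  constructor
  · rintro (rfl | hx)
    · exact ⟨Fin.last n, sn_last f _⟩
    · obtain ⟨i, rfl⟩ := (h x).mp hx
      exact ⟨i.castSucc, sn_cast f b i⟩
  · rintro ⟨i, rfl⟩
    refine Fin.lastCases ?_ ?_ i
    · left; exact sn_last f b
    · intro i'; right; rw [sn_cast]; exact (h _).mpr ⟨i', rfl⟩

theorem ind_of_min {n : ℕ} (f : Fin n → Ω) (S : Finset Ω) (h : ∀ x, x ∈ S ↔ ∃ i, f i = x)
    (hm : ∀ i, ∃ g : G, (∀ j, j ≠ i → g • f j = f j) ∧ g • f i ≠ f i) : Ind G S := by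
  intro u hu
  obtain ⟨i, rfl⟩ := (h u).mp hu
  obtain ⟨g, h1, h2⟩ := hm i
  refine ⟨g, ?_, h2⟩
  intro v hv
  rw [Finset.mem_erase] at hv
  obtain ⟨j, rfl⟩ := (h v).mp hv.2
  exact h1 j (fun hji => hv.1 (by rw [hji]))

theorem base_seq {n : ℕ} (f : Fin n → Ω) (S : Finset Ω) (h : ∀ x, x ∈ S ↔ ∃ i, f i = x)
    (hS : Bs G S) : ∀ g : G, (∀ i, g • f i = f i) → g = 1 := by
  intro g hg
  apply hS
  intro s hs
  obtain ⟨i, rfl⟩ := (h s).mp hs
  exact hg i

theorem exchange (H : Hmin G Ω) (S B : Finset Ω) (hS : Bs G S) (hSi : Ind G S) (hB : Bs G B)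
    (s : Ω) (hs : s ∈ S) :
    ∃ b ∈ B, b ∉ S.erase s ∧ Bs G (insert b (S.erase s)) ∧ Ind G (insert b (S.erase s)) := by
  obtain ⟨T, hT⟩ : ∃ T, T = S.erase s := ⟨_, rfl⟩
  rw [← hT]
  have hTS : ∀ u ∈ T, u ∈ S := by
    intro u hu; rw [hT] at hu; exact Finset.mem_of_mem_erase hu
  have hST : ∀ u ∈ S, u = s ∨ u ∈ T := by
    intro u hu
    by_cases h : u = s
    · left; exact h
    · right; rw [hT]; exact Finset.mem_erase.mpr ⟨h, hu⟩
  have hTi : Ind G T := by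
    intro u hu
    obtain ⟨g, h1, h2⟩ := hSi u (hTS u hu)
    refine ⟨g, fun v hv => h1 v ?_, h2⟩
    rw [Finset.mem_erase] at hv ⊢
    exact ⟨hv.1, hTS v hv.2⟩
  obtain ⟨g0, hg0, hg0s⟩ := hSi s hs
  rw [← hT] at hg0
  obtain ⟨b, hbB, hb⟩ : ∃ b ∈ B, g0 • b ≠ b := by
    by_contra h
    push Not at h
    exact hg0s (by rw [hB g0 h, one_smul])
  have hbT : b ∉ T := fun h => hb (hg0 b h)
  obtain ⟨f0, hf0mem, hf0irr⟩ := seq_of_ind T hTi
  have irr1 := snoc_irr f0 b hf0irr ⟨g0, fun j => hg0 _ ((hf0mem _).mpr ⟨j, rfl⟩), hb⟩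
  have mem1 := sn_mem f0 b T hf0mem
  refine ⟨b, hbB, hbT, ?_⟩
  by_cases hbase : Bs G (insert b T)
  · exact ⟨hbase, ind_of_min _ _ mem1 (H _ _ ⟨base_seq _ _ mem1 hbase, irr1⟩)⟩
  · exfalso
    have hbs : b ≠ s := by
      intro h
      apply hbase
      rw [h, hT, Finset.insert_erase hs]
      exact hS
    unfold Bs at hbase
    push Not at hbase
    obtain ⟨g1, hg1, hg1ne⟩ := hbase
    have hg1s : g1 • s ≠ s := by
      intro h
      apply hg1ne
      apply hS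
      intro u hu
      rcases hST u hu with rfl | hu'
      · exact h
      · exact hg1 u (Finset.mem_insert_of_mem hu')
    have irr2 := snoc_irr (sn f0 b) s irr1 ⟨g1, fun j => hg1 _ ((mem1 _).mpr ⟨j, rfl⟩), hg1s⟩
    have mem2 := sn_mem (sn f0 b) s (insert b T) mem1
    have hbase2 : Bs G (insert s (insert b T)) := by
      intro g hg
      apply hS
      intro u hu
      rcases hST u hu with rfl | hu'
      · exact hg _ (Finset.mem_insert_self _ _)
      · exact hg u (Finset.mem_insert_of_mem (Finset.mem_insert_of_mem hu'))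
    have hind := ind_of_min _ _ mem2 (H _ _ ⟨base_seq _ _ mem2 hbase2, irr2⟩)
    obtain ⟨g, h1, h2⟩ := hind b (Finset.mem_insert_of_mem (Finset.mem_insert_self _ _))
    apply h2
    have : g = 1 := by
      apply hS
      intro u hu
      apply h1
      rw [Finset.mem_erase]
      rcases hST u hu with rfl | hu'
      · exact ⟨fun h => hbs h.symm, Finset.mem_insert_self _ _⟩
      · exact ⟨fun h => hbT (h ▸ hu'), Finset.mem_insert_of_mem (Finset.mem_insert_of_mem hu')⟩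
    rw [this, one_smul]

theorem card_le (H : Hmin G Ω) (B : Finset Ω) (hB : Bs G B) :
    ∀ (n : ℕ) (S : Finset Ω), (S \ B).card = n → Bs G S → Ind G S → S.card ≤ B.card := by
  intro n
  induction n with
  | zero =>
    intro S hn _ _
    apply Finset.card_le_card
    rw [Finset.card_eq_zero, Finset.sdiff_eq_empty_iff_subset] at hn
    exact hn
  | succ k ih =>
    intro S hn hS hSi
    have hne : (S \ B).Nonempty := by
      rw [← Finset.card_pos]; omega
    obtain ⟨s, hs⟩ := hne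
    have hs' := Finset.mem_sdiff.mp hs
    obtain ⟨b, hbB, hbT, h1, h2⟩ := exchange H S B hS hSi hB s hs'.1
    have hc : (insert b (S.erase s)).card = S.card := by
      rw [Finset.card_insert_of_notMem hbT, Finset.card_erase_of_mem hs'.1]
      have : 0 < S.card := Finset.card_pos.mpr ⟨s, hs'.1⟩
      omega
    rw [← hc]
    apply ih _ _ h1 h2
    rw [Finset.insert_sdiff_of_mem _ hbB, Finset.erase_sdiff_comm, Finset.card_erase_of_mem hs, hn]
    rfl

theorem bwd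
    (hB : ∀ (t : ℕ) (f : Fin t → Ω) (σ : Equiv.Perm (Fin t)), IB G f → IB G (f ∘ σ)) :
    ∀ (t t' : ℕ) (f : Fin t → Ω) (f' : Fin t' → Ω), IB G f → IB G f' → t = t' := by
  have H := min_of_reorder hB
  have key : ∀ (t : ℕ) (f : Fin t → Ω), IB G f →
      ∃ S : Finset Ω, S.card = t ∧ Bs G S ∧ Ind G S := by
    intro t f hf
    have hm := H t f hf
    have hinj : Function.Injective f := by
      intro i j hij
      by_contra hne
      obtain ⟨g, h1, h2⟩ := hm i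
      apply h2
      rw [hij]
      exact h1 j (fun h => hne h.symm)
    have hmem : ∀ x, x ∈ Finset.univ.image f ↔ ∃ i, f i = x := by
      intro x; simp
    refine ⟨Finset.univ.image f, ?_, ?_, ind_of_min f _ hmem hm⟩
    · rw [Finset.card_image_of_injective _ hinj, Finset.card_univ, Fintype.card_fin]
    · intro g hg
      apply hf.1
      intro i
      exact hg _ ((hmem _).mpr ⟨i, rfl⟩)
  intro t t' f f' hf hf'
  obtain ⟨S, hSc, hS1, hS2⟩ := key t f hf
  obtain ⟨S', hSc', hS1', hS2'⟩ := key t' f' hf'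
  rw [← hSc, ← hSc']
  exact le_antisymm (card_le H S' hS1' _ S rfl hS1 hS2) (card_le H S hS1 _ S' rfl hS1' hS2')

end aux

/-- Let a finite group G act on a finite set Ω. An irredundant base is a sequence of points ω₁, …, ω_t whose pointwise stabiliser is trivial and in which each ω_i is moved by some element fixing ω₁, …, ω_{i−1}. Then all irredundant bases have the same length if and only if every reordering of an irredundant base is again an irredundant base. -/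
theorem result {G Ω : Type*} [Group G] [Finite G] [MulAction G Ω] [Fintype Ω] :
    (∀ (t t' : ℕ) (f : Fin t → Ω) (f' : Fin t' → Ω), ((∀ g : G, (∀ i : Fin t, g • f i = f i) → g = 1) ∧ ∀ i : Fin t, ∃ g : G, (∀ j : Fin t, j < i → g • f j = f j) ∧ g • f i ≠ f i) → ((∀ g : G, (∀ i : Fin t', g • f' i = f' i) → g = 1) ∧ ∀ i : Fin t', ∃ g : G, (∀ j : Fin t', j < i → g • f' j = f' j) ∧ g • f' i ≠ f' i) → t = t') ↔
    (∀ (t : ℕ) (f : Fin t → Ω) (σ : Equiv.Perm (Fin t)), ((∀ g : G, (∀ i : Fin t, g • f i = f i) → g = 1) ∧ ∀ i : Fin t, ∃ g : G, (∀ j : Fin t, j < i → g • f j = f j) ∧ g • f i ≠ f i) → ((∀ g : G, (∀ i : Fin t, g • (f ∘ σ) i = (f ∘ σ) i) → g = 1) ∧ ∀ i : Fin t, ∃ g : G, (∀ j : Fin t, j < i → g • (f ∘ σ) j = (f ∘ σ) j) ∧ g • (f ∘ σ) i ≠ (f ∘ σ) i)) := by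
  exact ⟨fun hA t f σ hf => fwd (G := G) hA t f σ hf, fun hB => bwd (G := G) hB⟩

end Cfsg.Agent.S5747
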