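import Mathlib
import Cfsg.Statements.S5902
import Cfsg.Agent.S5901

set_option autoImplicit false
open Cfsg

namespace Cfsg.Agent.S5902


/-- Let G be a finite group, X a subgroup whose own subgroup lattice is complemented, and suppose X lies in exactly one maximal subgroup M of G. Then every subgroup H of G not contained in the normal core of M has a complement in the subgroup lattice of G (some C with H ⊔ C = G and H ⊓ C = 1); in particular the subgroup lattice of G modulo the normal core of M is complemented. -/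
theorem result {G : Type*} [Group G] [Finite G] (X M : Subgroup G)
    (hK : ComplementedLattice (Subgroup X))
    (hM : IsCoatom M) (hXM : X ≤ M) (huniq : ∀ M' : Subgroup G, IsCoatom M' → X ≤ M' → M' = M) :
    (∀ H : Subgroup G, ¬ H ≤ M.normalCore → ∃ C : Subgroup G, H ⊔ C = ⊤ ∧ H ⊓ C = ⊥) ∧
    ComplementedLattice (Subgroup (G ⧸ M.normalCore)) := by
  have hXtop : X ≠ ⊤ := by
    rintro rfl
    exact hM.1 (top_le_iff.1 hXM)
  have hint : ∀ Y : Subgroup G, ⊥ ≤ Y → Y ≤ X →
      ∃ C : Subgroup G, ⊥ ≤ C ∧ C ≤ X ∧ Y ⊔ C = X ∧ Y ⊓ C = ⊥ := by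
    intro Y _ hYX
    obtain ⟨C', hC'⟩ := hK.exists_isCompl (Y.subgroupOf X)
    have hYm : (Y.subgroupOf X).map X.subtype = Y := by
      rw [Subgroup.subgroupOf_map_subtype, inf_eq_left.2 hYX]
    refine ⟨C'.map X.subtype, bot_le, Subgroup.map_subtype_le _, ?_, ?_⟩
    · rw [← hYm, ← Subgroup.map_sup, hC'.sup_eq_top, ← MonoidHom.range_eq_map,
        Subgroup.range_subtype]
    · rw [← hYm, ← Subgroup.map_inf _ _ _ X.subtype_injective, hC'.inf_eq_bot, Subgroup.map_bot]
  have hA : ∀ H : Subgroup G, ¬ H ≤ M.normalCore → ∃ C : Subgroup G, H ⊔ C = ⊤ ∧ H ⊓ C = ⊥ := by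
    intro H hH
    obtain ⟨h, hh, hhM⟩ := SetLike.not_le_iff_exists.1 hH
    have : ∃ b : G, b * h * b⁻¹ ∉ M := by
      by_contra hall
      push Not at hall
      exact hhM hall
    obtain ⟨b, hb⟩ := this
    set e := (MulAut.conj b).toMonoidHom with he
    have hes : Function.Surjective e := (MulAut.conj b).surjective
    have hei : Function.Injective e := (MulAut.conj b).injective
    have hH' : ¬ H.map e ≤ M := fun hle => hb (hle ⟨h, hh, rfl⟩)
    obtain ⟨C0, h1, h2⟩ := S5901.result ⊥ X M bot_le hXtop hint hM hXM huniq (H.map e) hH'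
      (inf_bot_eq _)
    refine ⟨C0.comap e, ?_, ?_⟩
    · apply Subgroup.map_injective hei
      rw [Subgroup.map_sup, Subgroup.map_comap_eq_self_of_surjective hes, h1,
        Subgroup.map_top_of_surjective _ hes]
    · apply Subgroup.map_injective hei
      rw [Subgroup.map_inf _ _ _ hei, Subgroup.map_comap_eq_self_of_surjective hes, h2,
        Subgroup.map_bot]
  refine ⟨hA, ⟨fun Hb => ?_⟩⟩
  set π := QuotientGroup.mk' M.normalCore with hπ
  have hπs : Function.Surjective π := QuotientGroup.mk'_surjective _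
  by_cases hHb : Hb = ⊥
  · exact ⟨⊤, hHb ▸ isCompl_bot_top⟩
  have hmap : (Hb.comap π).map π = Hb := Subgroup.map_comap_eq_self_of_surjective hπs Hb
  have hnle : ¬ Hb.comap π ≤ M.normalCore := by
    intro hle
    apply hHb
    rw [eq_bot_iff, ← hmap]
    rintro _ ⟨x, hx, rfl⟩
    exact (QuotientGroup.eq_one_iff x).2 (hle hx)
  obtain ⟨C, h1, h2⟩ := hA _ hnle
  refine ⟨C.map π, IsCompl.of_eq ?_ ?_⟩
  · rw [eq_bot_iff]
    rintro y ⟨hy1, c, hc, rfl⟩
    have : c ∈ Hb.comap π ⊓ C := ⟨hy1, hc⟩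
    rw [h2, Subgroup.mem_bot] at this
    rw [this, map_one]; exact one_mem _
  · rw [← hmap, ← Subgroup.map_sup, h1, Subgroup.map_top_of_surjective _ hπs]

end Cfsg.Agent.S5902
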