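import Mathlib
import Cfsg.Statements.S5903
import Cfsg.Agent.S5901

set_option autoImplicit false
open Cfsg

namespace Cfsg.Agent.S5903


/-- Let G be a finite simple group, X a subgroup lying in exactly one maximal subgroup M of G, and N a subgroup of prime order with N ≤ X that is central in M. If the subgroup lattice of X/N is complemented, then the subgroup lattice of G is complemented. -/
theorem result {G : Type*} [Group G] [Finite G] [IsSimpleGroup G] (X M N : Subgroup G)
    (hM : IsCoatom M) (hXM : X ≤ M) (huniq : ∀ M' : Subgroup G, IsCoatom M' → X ≤ M' → M' = M)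
    (hNX : N ≤ X) (hN : (Nat.card N).Prime) (hcen : ∀ n ∈ N, ∀ m ∈ M, m * n = n * m)
    [(N.subgroupOf X).Normal] (hK : ComplementedLattice (Subgroup (X ⧸ N.subgroupOf X))) :
    ComplementedLattice (Subgroup G) := by
  have hXtop : X ≠ ⊤ := by
    rintro rfl
    exact hM.1 (top_le_iff.1 hXM)
  have hN1 : N ≠ ⊥ := by
    rintro rfl
    rw [Subgroup.card_bot] at hN
    exact Nat.not_prime_one hN
  -- the interval [N, X] is relatively complemented
  have hint : ∀ Y : Subgroup G, N ≤ Y → Y ≤ X →
      ∃ C : Subgroup G, N ≤ C ∧ C ≤ X ∧ Y ⊔ C = X ∧ Y ⊓ C = N := by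
    intro Y hNY hYX
    set N' := N.subgroupOf X with hN'
    set π := QuotientGroup.mk' N' with hπ
    have hπs : Function.Surjective π := QuotientGroup.mk'_surjective N'
    have hker : π.ker = N' := QuotientGroup.ker_mk' N'
    set Y' := Y.subgroupOf X with hY'
    have hN'Y' : N' ≤ Y' := fun x hx => hNY hx
    obtain ⟨Cb, hCb⟩ := hK.exists_isCompl (Y'.map π)
    have hYc : (Y'.map π).comap π = Y' := by
      rw [Subgroup.comap_map_eq, hker, sup_eq_left.2 hN'Y']
    have hYm : Y'.map X.subtype = Y := by
      rw [hY', Subgroup.subgroupOf_map_subtype, inf_eq_left.2 hYX]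
    have hNm : N'.map X.subtype = N := by
      rw [hN', Subgroup.subgroupOf_map_subtype, inf_eq_left.2 hNX]
    have hN'C : N' ≤ Cb.comap π := hker.symm.le.trans (Subgroup.ker_le_comap π Cb)
    refine ⟨(Cb.comap π).map X.subtype, ?_, Subgroup.map_subtype_le _, ?_, ?_⟩
    · rw [← hNm]; exact Subgroup.map_mono hN'C
    · rw [← hYm, ← Subgroup.map_sup, ← hYc, Subgroup.comap_sup_eq π _ _ hπs, hCb.sup_eq_top,
        Subgroup.comap_top, ← MonoidHom.range_eq_map, Subgroup.range_subtype]
    · rw [← hYm, ← Subgroup.map_inf _ _ _ X.subtype_injective, ← hYc, ← Subgroup.comap_inf,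
        hCb.inf_eq_bot, MonoidHom.comap_bot, hker, hNm]
  refine ⟨fun H => ?_⟩
  by_cases hH0 : H = ⊥
  · exact ⟨⊤, hH0 ▸ isCompl_bot_top⟩
  by_cases hH1 : H = ⊤
  · exact ⟨⊥, hH1 ▸ isCompl_top_bot⟩
  -- a good conjugate
  have hgood : ∃ g : G, ¬ H.map (MulAut.conj g).toMonoidHom ≤ M ∧
      H.map (MulAut.conj g).toMonoidHom ⊓ N = ⊥ := by
    by_contra hcon
    push Not at hcon
    have hdich : ∀ g : G, (∀ h ∈ H, g * h * g⁻¹ ∈ M) ∨ (∀ n ∈ N, g⁻¹ * n * g ∈ H) := by
      intro g
      by_cases h1 : H.map (MulAut.conj g).toMonoidHom ≤ M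
      · left
        intro h hh
        exact h1 ⟨h, hh, rfl⟩
      · right
        have h2 := hcon g h1
        haveI : Fact (Nat.card N).Prime := ⟨hN⟩
        have h3 := Subgroup.eq_bot_or_eq_top_of_prime_card
          ((H.map (MulAut.conj g).toMonoidHom).subgroupOf N)
        rcases h3 with h3 | h3
        · exfalso
          apply h2
          rw [eq_bot_iff]
          intro x hx
          have : (⟨x, hx.2⟩ : N) ∈ (H.map (MulAut.conj g).toMonoidHom).subgroupOf N := hx.1
          rw [h3, Subgroup.mem_bot] at this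
          exact Subgroup.mem_bot.2 (congrArg Subtype.val this)
        · intro n hn
          have : (⟨n, hn⟩ : N) ∈ (H.map (MulAut.conj g).toMonoidHom).subgroupOf N := by
            rw [h3]; trivial
          obtain ⟨h, hh, hhn⟩ := this
          change g * h * g⁻¹ = n at hhn
          rw [← hhn]
          have : g⁻¹ * (g * h * g⁻¹) * g = h := by group
          rw [this]; exact hh
    set D := Subgroup.closure {x : G | ∃ g : G, (∀ n ∈ N, g⁻¹ * n * g ∈ H) ∧
      ∃ n ∈ N, x = g⁻¹ * n * g} with hD
    have hDH : D ≤ H := by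
      rw [hD, Subgroup.closure_le]
      rintro _ ⟨g, hg, n, hn, rfl⟩
      exact hg n hn
    have hnorm : ∀ g : G, ∀ n ∈ N, g⁻¹ * n * g ∈ Subgroup.normalizer (D : Set G) := by
      intro g n hn
      rcases hdich g with h1 | h1
      · have hc : ∀ h ∈ H, (g⁻¹ * n * g) * h = h * (g⁻¹ * n * g) := by
          intro h hh
          have h2 := hcen n hn _ (h1 h hh)
          calc (g⁻¹ * n * g) * h = g⁻¹ * (n * (g * h * g⁻¹)) * g := by group
            _ = g⁻¹ * ((g * h * g⁻¹) * n) * g := by rw [h2]
            _ = h * (g⁻¹ * n * g) := by group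
        rw [Subgroup.mem_normalizer_iff]
        intro d
        constructor
        · intro hd
          rw [hc d (hDH hd), mul_inv_cancel_right]; exact hd
        · intro hd
          have h3 := hc _ (hDH hd)
          have h4 : d = g⁻¹ * n * g * d * (g⁻¹ * n * g)⁻¹ := by
            have : (g⁻¹ * n * g) * (g⁻¹ * n * g * d * (g⁻¹ * n * g)⁻¹) = (g⁻¹ * n * g) * d := by
              rw [h3]; group
            exact (mul_left_cancel this).symm
          rw [h4]; exact hd
      · exact Subgroup.le_normalizer (Subgroup.subset_closure ⟨g, h1, n, hn, rfl⟩)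
    have hncl : Subgroup.normalClosure (N : Set G) = ⊤ := by
      rcases (Subgroup.normalClosure_normal (s := (N : Set G))).eq_bot_or_eq_top with h | h
      · exfalso
        apply hN1
        rw [eq_bot_iff, ← h]
        exact Subgroup.le_normalClosure
      · exact h
    have hDn : D.Normal := by
      rw [← Subgroup.normalizer_eq_top_iff, eq_top_iff, ← hncl, Subgroup.normalClosure,
        Subgroup.closure_le]
      intro x hx
      obtain ⟨n, hn, hnx⟩ := Group.mem_conjugatesOfSet_iff.1 hx
      obtain ⟨c, hc⟩ := isConj_iff.1 hnx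
      have := hnorm c⁻¹ n hn
      rw [inv_inv, hc] at this
      exact this
    rcases hDn.eq_bot_or_eq_top with h | h
    · -- all conjugates of H lie in M
      have hall : ∀ g : G, ∀ h ∈ H, g * h * g⁻¹ ∈ M := by
        intro g
        rcases hdich g with h1 | h1
        · exact h1
        · exfalso
          apply hN1
          rw [eq_bot_iff]
          intro n hn
          have h2 : g⁻¹ * n * g ∈ D := Subgroup.subset_closure ⟨g, h1, n, hn, rfl⟩
          rw [h, Subgroup.mem_bot] at h2
          have : n = g * (g⁻¹ * n * g) * g⁻¹ := by group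
          rw [this, h2]
          simp
      have hcore : H ≤ M.normalCore := fun h hh g => hall g h hh
      rcases (Subgroup.normalCore_normal M).eq_bot_or_eq_top with h2 | h2
      · rw [h2] at hcore
        exact hH0 (eq_bot_iff.2 hcore)
      · exact hM.1 (top_le_iff.1 (h2 ▸ Subgroup.normalCore_le M))
    · exact hH1 (top_le_iff.1 (h ▸ hDH))
  obtain ⟨g, hg1, hg2⟩ := hgood
  set e := (MulAut.conj g).toMonoidHom with he
  have hes : Function.Surjective e := (MulAut.conj g).surjective
  have hei : Function.Injective e := (MulAut.conj g).injective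
  obtain ⟨C0, h1, h2⟩ := S5901.result N X M hNX hXtop hint hM hXM huniq (H.map e) hg1 hg2
  refine ⟨C0.comap e, IsCompl.of_eq ?_ ?_⟩
  · apply Subgroup.map_injective hei
    rw [Subgroup.map_inf _ _ _ hei, Subgroup.map_comap_eq_self_of_surjective hes, h2,
      Subgroup.map_bot]
  · apply Subgroup.map_injective hei
    rw [Subgroup.map_sup, Subgroup.map_comap_eq_self_of_surjective hes, h1,
      Subgroup.map_top_of_surjective _ hes]

end Cfsg.Agent.S5903
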