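import Mathlib
import Cfsg.Statements.S5904

set_option autoImplicit false
open scoped Pointwise
open Cfsg

namespace Cfsg.Agent.S5904

open scoped Pointwise

/-- Let Ω be a finite set with more than two elements and O ⊆ Ω a subset with exactly as many elements as its complement. Then the setwise stabilizer of O in the symmetric group on Ω is not a maximal subgroup (it is properly contained in the stabilizer of the partition {O, Ω ∖ O}, which is proper). -/
theorem result {Ω : Type*} [Fintype Ω] [DecidableEq Ω] (hΩ : 2 < Fintype.card Ω)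
    (O : Set Ω) (hO : Nat.card O = Nat.card ↥Oᶜ) :
    ¬ IsCoatom (MulAction.stabilizer (Equiv.Perm Ω) O) := by
  classical
  intro hco
  have hcompl : ∀ g : Equiv.Perm Ω, g • Oᶜ = (g • O)ᶜ := fun g => Set.smul_set_compl
  let K : Subgroup (Equiv.Perm Ω) :=
    { carrier := {g | g • O = O ∨ g • O = Oᶜ}
      one_mem' := Or.inl (one_smul _ _)
      mul_mem' := by
        intro g h hg hh
        simp only [Set.mem_setOf_eq] at hg hh ⊢
        rw [mul_smul]
        rcases hh with hh | hh
        · rw [hh]; exact hg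
        · rw [hh, hcompl]
          rcases hg with hg | hg
          · rw [hg]; exact Or.inr rfl
          · rw [hg, compl_compl]; exact Or.inl rfl
      inv_mem' := by
        intro g hg
        simp only [Set.mem_setOf_eq] at hg ⊢
        rcases hg with hg | hg
        · left; rw [inv_smul_eq_iff, hg]
        · right; rw [inv_smul_eq_iff, hcompl, hg, compl_compl] }
  have hsum : Nat.card O + Nat.card ↥Oᶜ = Fintype.card Ω := by
    rw [← Nat.card_sum, Nat.card_congr (Equiv.Set.sumCompl O), Nat.card_eq_fintype_card]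
  have h2 : 1 < Nat.card O := by omega
  have h3 : 0 < Nat.card ↥Oᶜ := by omega
  obtain ⟨⟨a, ha⟩, ⟨a', ha'⟩, haa⟩ := (Finite.one_lt_card_iff_nontrivial.1 h2).exists_pair_ne
  obtain ⟨⟨b, hb⟩⟩ := (Nat.card_pos_iff.1 h3).1
  have haa' : a ≠ a' := fun h => haa (Subtype.ext h)
  have hne : O ≠ Oᶜ := by
    intro h
    have : a ∈ Oᶜ := h ▸ ha
    exact this ha
  have hlt : MulAction.stabilizer (Equiv.Perm Ω) O < K := by
    refine lt_of_le_of_ne (fun g hg => Or.inl (MulAction.mem_stabilizer_iff.1 hg)) ?_
    intro heq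
    let e : {x // x ∈ O} ≃ {x // x ∈ Oᶜ} := (Finite.card_eq.1 hO).some
    let σ : Equiv.Perm Ω := e.extendSubtype
    have h1 : ∀ x, x ∈ O → σ x ∈ Oᶜ := fun x hx => e.extendSubtype_mem x hx
    have h2 : ∀ x, x ∉ O → σ x ∉ Oᶜ := fun x hx => e.extendSubtype_not_mem x hx
    have hσ : σ • O = Oᶜ := by
      ext y
      rw [Set.mem_smul_set]
      constructor
      · rintro ⟨x, hx, rfl⟩
        exact h1 x hx
      · intro hy
        refine ⟨σ⁻¹ y, ?_, by simp⟩
        by_contra hx
        apply h2 _ hx
        simpa using hy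
    have hσK : σ ∈ K := Or.inr hσ
    rw [← heq, MulAction.mem_stabilizer_iff, hσ] at hσK
    exact hne hσK.symm
  have htop := hco.2 K hlt
  have hs : Equiv.swap a b ∈ K := by rw [htop]; trivial
  have hb' : b ∈ Equiv.swap a b • O := ⟨a, ha, by simp⟩
  have hab : a' ≠ b := fun h => hb (h ▸ ha')
  have ha'' : a' ∈ Equiv.swap a b • O := ⟨a', ha', by
    show Equiv.swap a b a' = a'
    exact Equiv.swap_apply_of_ne_of_ne haa'.symm hab⟩
  rcases hs with hs | hs
  · rw [hs] at hb'
    exact hb hb'
  · rw [hs] at ha''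
    exact ha'' ha'

end Cfsg.Agent.S5904
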