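import Cfsg.Statements.S5913
import Mathlib

set_option autoImplicit false
open Cfsg

namespace Cfsg.Agent.S5913

open Subgroup

/-- in a power of a non-abelian simple group, a normal subgroup with a nontrivial `i`-th coordinate
contains the `i`-th factor -/
theorem mulSingle_mem_of_ne {S : Type*} [Group S] [IsSimpleGroup S]
    (hS : ¬ ∀ a b : S, a * b = b * a) (n : ℕ) (N : Subgroup (Fin n → S)) [hN : N.Normal]
    (i : Fin n) (y : Fin n → S) (hy : y ∈ N) (hyi : y i ≠ 1) (s : S) : Pi.mulSingle i s ∈ N := by
  classical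
  have hcenter : center S = ⊥ := by
    rcases (inferInstance : (center S).Normal).eq_bot_or_eq_top with h | h
    · exact h
    · exfalso
      apply hS
      intro a b
      have : b ∈ center S := by rw [h]; trivial
      exact (mem_center_iff.mp this a)
  have hnc : ∃ t : S, t * y i ≠ y i * t := by
    by_contra hc
    push Not at hc
    have : y i ∈ center S := mem_center_iff.mpr hc
    rw [hcenter, mem_bot] at this
    exact hyi this
  obtain ⟨t, ht⟩ := hnc
  have hL : (N.comap (MonoidHom.mulSingle (fun _ : Fin n => S) i)).Normal := hN.comap _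
  have hmem : t * y i * t⁻¹ * (y i)⁻¹ ∈ N.comap (MonoidHom.mulSingle (fun _ : Fin n => S) i) := by
    rw [mem_comap]
    have h1 : Pi.mulSingle i t * y * (Pi.mulSingle i t)⁻¹ * y⁻¹ ∈ N :=
      N.mul_mem (hN.conj_mem y hy _) (N.inv_mem hy)
    have h2 : MonoidHom.mulSingle (fun _ : Fin n => S) i (t * y i * t⁻¹ * (y i)⁻¹)
        = Pi.mulSingle i t * y * (Pi.mulSingle i t)⁻¹ * y⁻¹ := by
      funext j
      by_cases hj : j = i
      · subst hj
        simp
      · simp [Pi.mulSingle_eq_of_ne hj]
    rw [h2]
    exact h1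
  have hne : N.comap (MonoidHom.mulSingle (fun _ : Fin n => S) i) ≠ ⊥ := by
    intro hb
    rw [hb, mem_bot] at hmem
    apply ht
    calc t * y i = (t * y i * t⁻¹ * (y i)⁻¹) * (y i * t) := by group
      _ = y i * t := by rw [hmem, one_mul]
  have htop := hL.eq_bot_or_eq_top.resolve_left hne
  have : s ∈ N.comap (MonoidHom.mulSingle (fun _ : Fin n => S) i) := by rw [htop]; trivial
  exact this

/-- Let S be a non-abelian simple group and n a natural number. Every normal subgroup N of the direct power S^n (functions Fin n → S) is a subproduct: there is a set T of coordinates such that N consists exactly of the elements whose coordinates outside T are trivial. In particular the minimal normal subgroups of S^n are its n factors. -/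
theorem result {S : Type*} [Group S] [IsSimpleGroup S] (hS : ¬ IsMulCommutative S) (n : ℕ)
    (N : Subgroup (Fin n → S)) [N.Normal] :
    ∃ T : Finset (Fin n), ∀ x : Fin n → S, x ∈ N ↔ ∀ i, i ∉ T → x i = 1 := by
  classical
  have hS' : ¬ ∀ a b : S, a * b = b * a := fun h => hS ⟨⟨h⟩⟩
  refine ⟨Finset.univ.filter (fun i => ∃ y ∈ N, y i ≠ 1), fun x => ⟨?_, ?_⟩⟩
  · intro hx i hi
    by_contra hne
    exact hi (Finset.mem_filter.mpr ⟨Finset.mem_univ _, x, hx, hne⟩)
  · intro hx
    apply Subgroup.pi_mem_of_mulSingle_mem
    intro i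
    by_cases hi : i ∈ Finset.univ.filter (fun i => ∃ y ∈ N, y i ≠ 1)
    · obtain ⟨-, y, hy, hyi⟩ := Finset.mem_filter.mp hi
      exact mulSingle_mem_of_ne hS' n N i y hy hyi _
    · rw [hx i hi, Pi.mulSingle_one]
      exact N.one_mem

end Cfsg.Agent.S5913
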