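import Cfsg.Statements.S5914
import Mathlib
import Cfsg.Agent.Lib_helper3_CharSimple
import Cfsg.Agent.S5913

set_option autoImplicit false
open Cfsg

namespace Cfsg.Agent.S5914

open Subgroup

/-- swapping two coordinates -/
def swapEquiv (S : Type*) [Group S] (n : ℕ) (j k : Fin n) : (Fin n → S) ≃* (Fin n → S) where
  toFun f := fun i => f (Equiv.swap j k i)
  invFun f := fun i => f (Equiv.swap j k i)
  left_inv f := by funext i; simp
  right_inv f := by funext i; simp
  map_mul' f g := rfl

/-- a transvection of a commutative power -/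
def transEquiv (S : Type*) [Group S] (hS : ∀ a b : S, a * b = b * a) (n : ℕ) (i j : Fin n)
    (hij : j ≠ i) : (Fin n → S) ≃* (Fin n → S) where
  toFun f := f * Pi.mulSingle j (f i)
  invFun f := f * Pi.mulSingle j (f i)⁻¹
  left_inv f := by
    funext k
    by_cases hk : k = j
    · subst hk
      simp [Pi.mulSingle_eq_of_ne hij.symm]
    · simp [Pi.mulSingle_eq_of_ne hk]
  right_inv f := by
    funext k
    by_cases hk : k = j
    · subst hk
      simp [Pi.mulSingle_eq_of_ne hij.symm]
    · simp [Pi.mulSingle_eq_of_ne hk]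
  map_mul' f g := by
    funext k
    by_cases hk : k = j
    · subst hk
      simp only [Pi.mul_apply, Pi.mulSingle_eq_same]
      rw [mul_assoc, mul_assoc, ← mul_assoc (g k), hS (g k) (f i)]
      simp only [mul_assoc]
    · simp [Pi.mulSingle_eq_of_ne hk]

theorem power_char_simple (S : Type*) [Group S] [IsSimpleGroup S] (n : ℕ)
    (K : Subgroup (Fin n → S)) (hK : K.Characteristic) : K = ⊥ ∨ K = ⊤ := by
  classical
  by_cases hb : K = ⊥
  · exact Or.inl hb
  right
  haveI hKn : K.Normal := inferInstance
  have hmap : ∀ (φ : (Fin n → S) ≃* (Fin n → S)) (x : Fin n → S), x ∈ K → φ x ∈ K := by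
    intro φ x hx
    have := (characteristic_iff_map_le.mp hK φ) ⟨x, hx, rfl⟩
    exact this
  obtain ⟨⟨x, hx⟩, hx1⟩ := Subgroup.ne_bot_iff_exists_ne_one.mp hb
  have hx1' : x ≠ 1 := fun h => hx1 (Subtype.ext h)
  obtain ⟨i, hi⟩ : ∃ i, x i ≠ 1 := by
    by_contra hc
    push Not at hc
    exact hx1' (funext hc)
  -- some factor meets `K`
  have hex : ∃ j, ∃ s : S, s ≠ 1 ∧ Pi.mulSingle j s ∈ K := by
    by_cases hS : ∀ a b : S, a * b = b * a
    · by_cases hj : ∃ j, j ≠ i
      · obtain ⟨j, hj⟩ := hj
        refine ⟨j, x i, hi, ?_⟩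
        have h1 := hmap (transEquiv S hS n i j hj) x hx
        have h2 : x⁻¹ * (transEquiv S hS n i j hj) x ∈ K := K.mul_mem (K.inv_mem hx) h1
        have h3 : x⁻¹ * (transEquiv S hS n i j hj) x = Pi.mulSingle j (x i) := by
          change x⁻¹ * (x * Pi.mulSingle j (x i)) = _
          group
        rwa [h3] at h2
      · push Not at hj
        refine ⟨i, x i, hi, ?_⟩
        have : Pi.mulSingle i (x i) = x := by
          funext k
          rw [hj k]
          simp
        rwa [this]
    · exact ⟨i, x i, hi, S5913.mulSingle_mem_of_ne hS n K i x hx hi _⟩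
  obtain ⟨j, s, hs, hsK⟩ := hex
  have hL : (K.comap (MonoidHom.mulSingle (fun _ : Fin n => S) j)).Normal := hKn.comap _
  have hne : K.comap (MonoidHom.mulSingle (fun _ : Fin n => S) j) ≠ ⊥ := by
    intro hb'
    have : s ∈ K.comap (MonoidHom.mulSingle (fun _ : Fin n => S) j) := hsK
    rw [hb', mem_bot] at this
    exact hs this
  have htop := hL.eq_bot_or_eq_top.resolve_left hne
  have hj : ∀ t : S, Pi.mulSingle j t ∈ K := by
    intro t
    have : t ∈ K.comap (MonoidHom.mulSingle (fun _ : Fin n => S) j) := by rw [htop]; trivial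
    exact this
  rw [eq_top_iff]
  intro y _
  apply Subgroup.pi_mem_of_mulSingle_mem
  intro k
  have h1 := hmap (swapEquiv S n j k) _ (hj (y k))
  have h2 : (swapEquiv S n j k) (Pi.mulSingle j (y k)) = Pi.mulSingle k (y k) := by
    funext l
    change (Pi.mulSingle j (y k) : Fin n → S) (Equiv.swap j k l) = _
    by_cases hl : l = k
    · subst hl
      simp
    · rw [Pi.mulSingle_eq_of_ne hl, Pi.mulSingle_eq_of_ne]
      intro h
      apply hl
      have := congrArg (Equiv.swap j k) h
      simpa using this
  rwa [h2] at h1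

/-- A non-trivial finite group G is characteristically simple (its only characteristic subgroups are 1 and G) if and only if G is isomorphic to a direct power S^n (n ≥ 1) of some simple group S (possibly cyclic of prime order). -/
theorem result {G : Type*} [Group G] [Finite G] [Nontrivial G] :
    (∀ H : Subgroup G, H.Characteristic → H = ⊥ ∨ H = ⊤) ↔
    ∃ (S : Type) (_ : Group S) (_ : IsSimpleGroup S) (n : ℕ), 1 ≤ n ∧ Nonempty (G ≃* (Fin n → S)) := by
  constructor
  · intro h
    obtain ⟨T, hT, m, hs, hm, he⟩ := Cfsg.Agent.H3.power_of_simple (N := G) ⊤ (by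
      intro K _ hinv
      exact h K (Subgroup.characteristic_iff_map_le.mpr fun φ => hinv φ (Subgroup.mem_top _)))
    exact ⟨T, hT, hs, m, hm, he⟩
  · rintro ⟨S, hS, hsimple, n, hn, ⟨e⟩⟩ H hH
    have hchar : (H.map e.toMonoidHom).Characteristic := by
      rw [Subgroup.characteristic_iff_map_le]
      intro φ
      rintro _ ⟨_, ⟨x, hx, rfl⟩, rfl⟩
      have h1 := (Subgroup.characteristic_iff_map_le.mp hH ((e.trans φ).trans e.symm)) ⟨x, hx, rfl⟩
      refine ⟨_, h1, ?_⟩
      simp
    rcases power_char_simple S n _ hchar with h1 | h1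
    · left
      exact (Subgroup.map_eq_bot_iff_of_injective _ e.injective).mp h1
    · right
      rw [eq_top_iff]
      intro x _
      have : e x ∈ H.map e.toMonoidHom := by rw [h1]; trivial
      obtain ⟨y, hy, hyx⟩ := this
      have : y = x := e.injective hyx
      rwa [← this]

end Cfsg.Agent.S5914
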